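import Mathlib

/-!
# A counting obstruction for odd order groups with a partition by centralizers
-/

set_option autoImplicit false

namespace Cfsg.Agent.H06

universe u

section Count

variable {Γ : Type u} [Group Γ] [Finite Γ]

/-- The union of the conjugates of `A \ Z`. -/
def conjSet (A Z : Subgroup Γ) : Set Γ := {w | ∃ x : Γ, ∃ y ∈ A, y ∉ Z ∧ w = x * y * x⁻¹}

theorem card_diff_subgroup {A Z : Subgroup Γ} (hZA : Z ≤ A) :
    Nat.card {y : Γ // y ∈ A ∧ y ∉ Z} = Nat.card A - Nat.card Z := by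
  classical
  letI : Fintype Γ := Fintype.ofFinite Γ
  have e1 : Nat.card {y : Γ // y ∈ A ∧ y ∉ Z} = ((A : Set Γ) \ (Z : Set Γ)).ncard := by
    rw [← Nat.card_coe_set_eq]
    rfl
  rw [e1, Set.ncard_diff (show (Z : Set Γ) ⊆ A from hZA) (Set.toFinite _), ← Nat.card_coe_set_eq,
    ← Nat.card_coe_set_eq]
  rfl

/-- Counting the conjugates of a `TI`-type subgroup. -/
theorem card_conjSet {A N Z : Subgroup Γ} (hZc : ∀ z ∈ Z, ∀ g, z * g = g * z) (hZA : Z ≤ A)
    (h1 : ∀ x ∈ N, ∀ y ∈ A, x * y * x⁻¹ ∈ A) (h2 : ∀ y ∈ A, y ∉ Z → ∀ x, x * y * x⁻¹ ∈ A → x ∈ N) :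
    Nat.card (conjSet A Z) * Nat.card N = Nat.card Γ * (Nat.card A - Nat.card Z) := by
  classical
  letI : Fintype Γ := Fintype.ofFinite Γ
  have hZn : ∀ x y, y ∉ Z → x * y * x⁻¹ ∉ Z := by
    intro x y hy h
    apply hy
    have e : y = x⁻¹ * (x * y * x⁻¹) * x := by group
    rw [e, mul_assoc, hZc _ h x, inv_mul_cancel_left]
    exact h
  let D := Γ × {y : Γ // y ∈ A ∧ y ∉ Z}
  let π : D → conjSet A Z := fun d => ⟨d.1 * d.2.1 * d.1⁻¹, d.1, d.2.1, d.2.2.1, d.2.2.2, rfl⟩
  have hD : Nat.card D = Nat.card Γ * (Nat.card A - Nat.card Z) := by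
    rw [Nat.card_prod, card_diff_subgroup hZA]
  rw [← hD]
  have hfib : ∀ w : conjSet A Z, Nat.card {d : D // π d = w} = Nat.card N := by
    rintro ⟨w, x₀, y₀, hy₀, hy₀', rfl⟩
    symm
    refine Nat.card_eq_of_bijective (fun ν : N => ⟨(x₀ * ν, ⟨(ν : Γ)⁻¹ * y₀ * ν, ?_, ?_⟩), ?_⟩) ⟨?_, ?_⟩
    · have := h1 _ (inv_mem ν.2) y₀ hy₀
      simpa using this
    · have := hZn (ν : Γ)⁻¹ y₀ hy₀'
      simpa using this
    · apply Subtype.ext
      show x₀ * ν * ((ν : Γ)⁻¹ * y₀ * ν) * (x₀ * ν)⁻¹ = _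
      group
    · intro a b hab
      have := congrArg (fun d : {d : D // π d = _} => d.1.1) hab
      simp only [mul_right_inj] at this
      exact Subtype.ext this
    · rintro ⟨⟨x, ⟨y, hy, hy'⟩⟩, hxy⟩
      have hxy' : x * y * x⁻¹ = x₀ * y₀ * x₀⁻¹ := congrArg Subtype.val hxy
      have h3 : (x₀⁻¹ * x) * y * (x₀⁻¹ * x)⁻¹ = y₀ := by
        have : (x₀⁻¹ * x) * y * (x₀⁻¹ * x)⁻¹ = x₀⁻¹ * (x * y * x⁻¹) * x₀ := by group
        rw [this, hxy']
        group
      have h4 : x₀⁻¹ * x ∈ N := h2 y hy hy' _ (by rw [h3]; exact hy₀)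
      refine ⟨⟨_, h4⟩, ?_⟩
      apply Subtype.ext
      apply Prod.ext
      · show x₀ * (x₀⁻¹ * x) = x
        group
      · apply Subtype.ext
        show (x₀⁻¹ * x)⁻¹ * y₀ * (x₀⁻¹ * x) = y
        rw [← h3]
        group
  letI : Fintype (conjSet A Z) := Fintype.ofFinite _
  rw [Nat.card_congr (Equiv.sigmaFiberEquiv π).symm, Nat.card_sigma]
  rw [Finset.sum_congr rfl (fun w _ => hfib w), Finset.sum_const, Finset.card_univ, smul_eq_mul,
    Nat.card_eq_fintype_card (α := conjSet A Z)]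

/-- A subgroup strictly containing another one has index at least three in an odd order group. -/
theorem three_mul_card_le {Z A : Subgroup Γ} (hodd : Odd (Nat.card Γ)) (hZA : Z ≤ A) (hne : Z ≠ A) :
    3 * Nat.card Z ≤ Nat.card A := by
  have h1 : Z.relIndex A * Nat.card Z = Nat.card A := by
    have := (Z.subgroupOf A).index_mul_card
    rwa [Nat.card_congr (Subgroup.subgroupOfEquivOfLe hZA).toEquiv] at this
  have h2 : Z.relIndex A ∣ Nat.card Γ := by
    have h3 : Z.relIndex A ∣ Nat.card A := Dvd.intro _ h1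
    exact h3.trans (Subgroup.card_subgroup_dvd_card A)
  have h3 : Odd (Z.relIndex A) := Odd.of_dvd_nat hodd h2
  have h4 : Z.relIndex A ≠ 1 := by
    intro h
    rw [h, one_mul] at h1
    exact hne (Subgroup.eq_of_le_of_card_ge hZA h1.ge)
  have h5 : 0 < Z.relIndex A := Nat.pos_of_ne_zero fun h => by
    rw [h, zero_mul] at h1
    exact Nat.card_pos.ne h1
  have h6 : 3 ≤ Z.relIndex A := by
    rcases h3 with ⟨k, hk⟩
    omega
  rw [← h1]
  exact Nat.mul_le_mul_right _ h6

/-- The centralizer of a conjugate. -/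
theorem card_centralizer_conj (x y : Γ) :
    Nat.card (Subgroup.centralizer ({x * y * x⁻¹} : Set Γ)) = Nat.card (Subgroup.centralizer ({y} : Set Γ)) := by
  refine Nat.card_congr (Equiv.subtypeEquiv (MulAut.conj x).symm.toEquiv ?_)
  intro g
  simp only [SetLike.mem_coe, Subgroup.mem_centralizer_singleton_iff, MulEquiv.toEquiv_eq_coe, EquivLike.coe_coe,
    MulAut.conj_symm_apply]
  constructor
  · intro h
    have e : x * y * x⁻¹ * g = g * (x * y * x⁻¹) := h.symm
    calc x⁻¹ * g * x * y = x⁻¹ * (g * (x * y * x⁻¹)) * x := by group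
      _ = x⁻¹ * (x * y * x⁻¹ * g) * x := by rw [e]
      _ = y * (x⁻¹ * g * x) := by group
  · intro h
    have e : x⁻¹ * g * x * y = y * (x⁻¹ * g * x) := h
    calc g * (x * y * x⁻¹) = x * (x⁻¹ * g * x * y) * x⁻¹ := by group
      _ = x * (y * (x⁻¹ * g * x)) * x⁻¹ := by rw [e]
      _ = x * y * x⁻¹ * g := by group

theorem int_case_top (n z P a₀ b : ℤ) (hz : 0 < z) (h3 : 3 * z ≤ a₀) (hb : 3 * a₀ ≤ b) (hn : n = z + P)
    (hP : P * b = n * (a₀ - z)) (ha₀n : a₀ ≤ n) : False := by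
  have h1 : n * (b - a₀ + z) = z * b := by
    rw [hn] at hP ⊢
    have : P = n - z := by omega
    nlinarith
  have hbpos : 0 < b := by linarith
  have h2 : 2 * b ≤ 3 * (b - a₀ + z) := by linarith
  have h3' : 0 < n := by linarith
  have h4 : n * (2 * b) ≤ n * (3 * (b - a₀ + z)) := mul_le_mul_of_nonneg_left h2 h3'.le
  have h5 : n * (3 * (b - a₀ + z)) = 3 * (z * b) := by rw [← h1]; ring
  have h6 : 2 * n * b ≤ 3 * z * b := by nlinarith
  have h7 : 2 * n ≤ 3 * z := le_of_mul_le_mul_right h6 hbpos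
  linarith

theorem int_case_final (n z P T a₀ a₁ b : ℤ) (hz : 0 < z) (ha₁ : 0 < a₁) (hn : n = z + P + T)
    (hP : P * b = n * (a₀ - z)) (hT : T * a₁ = n * (a₁ - z)) (hle : a₁ * a₀ ≤ z * b) (hnpos : 0 < n) : n ≤ b := by
  have h1 : n * z * a₁ + n * z * b = z * a₁ * b + n * a₀ * a₁ := by
    have : n * (a₁ * b) = (z + P + T) * (a₁ * b) := by rw [← hn]
    have h2 : (z + P + T) * (a₁ * b) = z * a₁ * b + (P * b) * a₁ + (T * a₁) * b := by ring
    rw [h2, hP, hT] at this
    linarith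
  have h3 : n * (a₁ * a₀) ≤ n * (z * b) := mul_le_mul_of_nonneg_left hle hnpos.le
  have h4 : (z * a₁) * n ≤ (z * a₁) * b := by nlinarith
  exact le_of_mul_le_mul_left h4 (mul_pos hz ha₁)

/-- The counting obstruction. -/
theorem no_ca_config (hodd : Odd (Nat.card Γ)) (Z A₀ B : Subgroup Γ) (hZc : ∀ z ∈ Z, ∀ g, z * g = g * z)
    (hZA : Z ≤ A₀) (hZne : Z ≠ A₀) (hAB : A₀ ≤ B) (hB : B ≠ ⊤)
    (hN1 : ∀ x ∈ B, ∀ y ∈ A₀, x * y * x⁻¹ ∈ A₀) (hN2 : ∀ y ∈ A₀, y ∉ Z → ∀ x, x * y * x⁻¹ ∈ A₀ → x ∈ B)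
    (hT : ∀ g, g ∉ Z → g ∉ conjSet A₀ Z → ∀ y ∈ Subgroup.centralizer ({g} : Set Γ), y ∉ Z →
      Subgroup.centralizer ({y} : Set Γ) = Subgroup.centralizer ({g} : Set Γ) ∧ y ∉ conjSet A₀ Z ∧
        ∀ x, x * y * x⁻¹ ∈ Subgroup.centralizer ({g} : Set Γ) → x ∈ Subgroup.centralizer ({g} : Set Γ))
    (hB2 : ∀ g ∈ B, g ∉ A₀ → g ∉ conjSet A₀ Z ∧ Subgroup.centralizer ({g} : Set Γ) ≤ B ∧
      Subgroup.centralizer ({g} : Set Γ) ⊓ A₀ ≤ Z) : False := by
  classical
  have hZn : ∀ x y, y ∉ Z → x * y * x⁻¹ ∉ Z := by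
    intro x y hy h
    apply hy
    have e : y = x⁻¹ * (x * y * x⁻¹) * x := by group
    rw [e, mul_assoc, hZc _ h x, inv_mul_cancel_left]
    exact h
  let C : Γ → Subgroup Γ := fun g => Subgroup.centralizer ({g} : Set Γ)
  have hZC : ∀ g, Z ≤ C g := by
    intro g z hz
    exact Subgroup.mem_centralizer_singleton_iff.mpr (hZc z hz g)
  have hCmem : ∀ g, g ∈ C g := fun g => Subgroup.mem_centralizer_singleton_iff.mpr rfl
  set n := Nat.card Γ with hn
  set z := Nat.card Z with hz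
  set a₀ := Nat.card A₀ with ha₀
  set b := Nat.card B with hb
  have hnpos : 0 < n := Nat.card_pos
  have hzpos : 0 < z := Nat.card_pos
  have hbpos : 0 < b := Nat.card_pos
  have h3 : 3 * z ≤ a₀ := three_mul_card_le hodd hZA hZne
  have hPc : Nat.card (conjSet A₀ Z) * b = n * (a₀ - z) := card_conjSet hZc hZA hN1 hN2
  set Ps := conjSet A₀ Z with hPs
  -- Ps is conjugation invariant
  have hPinv : ∀ x w, x * w * x⁻¹ ∈ Ps → w ∈ Ps := by
    rintro x w ⟨x', y, hy, hy', he⟩
    refine ⟨x⁻¹ * x', y, hy, hy', ?_⟩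
    have : w = x⁻¹ * (x * w * x⁻¹) * x := by group
    rw [this, he]
    group
  have hdZP : Disjoint (Z : Set Γ) Ps := by
    rw [Set.disjoint_left]
    rintro w hw ⟨x, y, -, hy', rfl⟩
    exact hZn x y hy' hw
  -- torus classes
  have htorus : ∀ g, g ∉ Z → g ∉ Ps → Nat.card (conjSet (C g) Z) * Nat.card (C g) = n * (Nat.card (C g) - z) := by
    intro g hg hg'
    refine card_conjSet hZc (hZC g) ?_ ?_
    · intro x hx y hy
      exact mul_mem (mul_mem hx hy) (inv_mem hx)
    · intro y hy hy' x hx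
      exact (hT g hg hg' y hy hy').2.2 x hx
  have hCne : ∀ g, g ∉ Z → Z ≠ C g := fun g hg he => hg (he ▸ hCmem g)
  have h2third : ∀ g, g ∉ Z → g ∉ Ps → 2 * n ≤ 3 * Nat.card (conjSet (C g) Z) := by
    intro g hg hg'
    have h1 := htorus g hg hg'
    have h2 := three_mul_card_le hodd (hZC g) (hCne g hg)
    set a := Nat.card (C g)
    set t := Nat.card (conjSet (C g) Z)
    have hapos : 0 < a := Nat.card_pos
    have h4 : a * (2 * n) ≤ a * (3 * t) := by
      have h5 : n * (a - z) = t * a := h1.symm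
      have h6 : 2 * a ≤ 3 * (a - z) := by omega
      calc a * (2 * n) = n * (2 * a) := by ring
        _ ≤ n * (3 * (a - z)) := Nat.mul_le_mul_left _ h6
        _ = 3 * (n * (a - z)) := by ring
        _ = 3 * (t * a) := by rw [h5]
        _ = a * (3 * t) := by ring
    exact le_of_mul_le_mul_left h4 hapos
  have hdTZ : ∀ g, Disjoint (conjSet (C g) Z) (Z : Set Γ) := by
    intro g
    rw [Set.disjoint_left]
    rintro w ⟨x, y, -, hy', rfl⟩ hw
    exact hZn x y hy' hw
  have hdTP : ∀ g, g ∉ Z → g ∉ Ps → Disjoint (conjSet (C g) Z) Ps := by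
    intro g hg hg'
    rw [Set.disjoint_left]
    rintro w ⟨x, y, hy, hy', rfl⟩ hw
    exact (hT g hg hg' y hy hy').2.1 (hPinv x y hw)
  have hcardset : ∀ S : Set Γ, S.ncard ≤ n := by
    intro S
    rw [hn, ← Set.ncard_univ]
    exact Set.ncard_le_ncard (Set.subset_univ _) (Set.toFinite _)
  have hcZ : (Z : Set Γ).ncard = z := by
    rw [hz, ← Nat.card_coe_set_eq]
    rfl
  have hncP : Nat.card Ps = Ps.ncard := Nat.card_coe_set_eq _
  have hncT : ∀ g, Nat.card (conjSet (C g) Z) = (conjSet (C g) Z).ncard := fun g => Nat.card_coe_set_eq _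
  have hb_lt : b < n := by
    have h1 : b ≤ n := Subgroup.card_le_card_group B
    refine lt_of_le_of_ne h1 fun he => hB ?_
    exact Subgroup.eq_top_of_card_eq B he
  by_cases hex : ∃ g₁, g₁ ∉ Z ∧ g₁ ∉ Ps
  · obtain ⟨g₁, hg₁, hg₁'⟩ := hex
    by_cases hex2 : ∃ g₂, g₂ ∉ Z ∧ g₂ ∉ Ps ∧ g₂ ∉ conjSet (C g₁) Z
    · obtain ⟨g₂, hg₂, hg₂', hg₂''⟩ := hex2
      have hdisj : Disjoint (conjSet (C g₁) Z) (conjSet (C g₂) Z) := by
        rw [Set.disjoint_left]
        rintro w ⟨x, y, hy, hy', rfl⟩ ⟨x', y', hyy, hyy', he⟩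
        have h1 := (hT g₁ hg₁ hg₁' y hy hy').1
        have h2 := (hT g₂ hg₂ hg₂' y' hyy hyy').1
        -- `g₂` commutes with `y'`, hence a conjugate of `y`
        have hy₂ : g₂ ∈ C y' := by
          rw [show C y' = C g₂ from h2]
          exact hCmem g₂
        have hc : x'⁻¹ * x * y * (x'⁻¹ * x)⁻¹ = y' := by
          have : x'⁻¹ * x * y * (x'⁻¹ * x)⁻¹ = x'⁻¹ * (x * y * x⁻¹) * x' := by group
          rw [this, he]
          group
        have h3' : (x'⁻¹ * x)⁻¹ * g₂ * (x'⁻¹ * x) ∈ C y := by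
          show _ ∈ Subgroup.centralizer ({y} : Set Γ)
          rw [Subgroup.mem_centralizer_singleton_iff]
          have h4 : g₂ * y' = y' * g₂ := (Subgroup.mem_centralizer_singleton_iff.mp hy₂)
          rw [← hc] at h4
          set r := x'⁻¹ * x
          calc r⁻¹ * g₂ * r * y = r⁻¹ * (g₂ * (r * y * r⁻¹)) * r := by group
            _ = r⁻¹ * (r * y * r⁻¹ * g₂) * r := by rw [h4]
            _ = y * (r⁻¹ * g₂ * r) := by group
        rw [show C y = C g₁ from h1] at h3'
        apply hg₂''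
        refine ⟨x'⁻¹ * x, _, h3', ?_, by group⟩
        have := hZn (x'⁻¹ * x)⁻¹ g₂ hg₂
        rwa [inv_inv] at this
      have h4 := Set.ncard_union_eq hdisj (Set.toFinite _) (Set.toFinite _)
      have h5 := hcardset (conjSet (C g₁) Z ∪ conjSet (C g₂) Z)
      have h6 := h2third g₁ hg₁ hg₁'
      have h7 := h2third g₂ hg₂ hg₂'
      rw [hncT] at h6 h7
      omega
    · -- the partition is complete
      push Not at hex2
      have hunion : (Z : Set Γ) ∪ Ps ∪ conjSet (C g₁) Z = Set.univ := by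
        rw [Set.eq_univ_iff_forall]
        intro w
        by_cases h1 : w ∈ Z
        · exact Or.inl (Or.inl h1)
        · by_cases h2 : w ∈ Ps
          · exact Or.inl (Or.inr h2)
          · exact Or.inr (hex2 w h1 h2)
      have hd2 : Disjoint ((Z : Set Γ) ∪ Ps) (conjSet (C g₁) Z) := by
        rw [Set.disjoint_union_left]
        exact ⟨(hdTZ g₁).symm, (hdTP g₁ hg₁ hg₁').symm⟩
      have hcount : n = z + Ps.ncard + (conjSet (C g₁) Z).ncard := by
        have := Set.ncard_union_eq hd2 (Set.toFinite _) (Set.toFinite _)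
        rw [hunion, Set.ncard_univ, Set.ncard_union_eq hdZP (Set.toFinite _) (Set.toFinite _), hcZ] at this
        exact this
      have hT₁ := htorus g₁ hg₁ hg₁'
      rw [hncT] at hT₁
      rw [hncP] at hPc
      by_cases hBA : B = A₀
      · -- `c = 1`
        have h1 : a₀ = b := by
          rw [hb, hBA]
        rw [← h1] at hPc
        have hapos : 0 < a₀ := Nat.card_pos
        have h4 : a₀ * (2 * n) ≤ a₀ * (3 * Ps.ncard) := by
          have h6 : 2 * a₀ ≤ 3 * (a₀ - z) := by omega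
          calc a₀ * (2 * n) = n * (2 * a₀) := by ring
            _ ≤ n * (3 * (a₀ - z)) := Nat.mul_le_mul_left _ h6
            _ = 3 * (n * (a₀ - z)) := by ring
            _ = 3 * (Ps.ncard * a₀) := by rw [hPc]
            _ = a₀ * (3 * Ps.ncard) := by ring
        have h5 := le_of_mul_le_mul_left h4 hapos
        have h6 := h2third g₁ hg₁ hg₁'
        rw [hncT] at h6
        omega
      · -- `c > 1`
        obtain ⟨g₀, hg₀B, hg₀A⟩ : ∃ g₀ ∈ B, g₀ ∉ A₀ := by
          by_contra hcon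
          push Not at hcon
          exact hBA (le_antisymm hcon hAB)
        have hg₀Z : g₀ ∉ Z := fun h => hg₀A (hZA h)
        obtain ⟨hg₀P, hCB, hCA⟩ := hB2 g₀ hg₀B hg₀A
        obtain ⟨x, y, hy, hy', hxy⟩ := hex2 g₀ hg₀Z hg₀P
        have hcC : Nat.card (C g₀) = Nat.card (C g₁) := by
          have h1 : Nat.card (C g₀) = Nat.card (C y) := by
            rw [hxy]
            exact card_centralizer_conj x y
          rw [h1, show C y = C g₁ from (hT g₁ hg₁ hg₁' y hy hy').1]
        set a₁ := Nat.card (C g₁) with ha₁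
        have ha₁pos : 0 < a₁ := Nat.card_pos
        have hza₁ : z ≤ a₁ := Subgroup.card_le_of_le (hZC g₁)
        have hza₀ : z ≤ a₀ := by omega
        -- `a₁ a₀ ≤ z b`
        have hrel : a₁ * a₀ ≤ z * b := by
          have h1 : Z.relIndex (C g₀) * z = a₁ := by
            have := (Z.subgroupOf (C g₀)).index_mul_card
            rw [Nat.card_congr (Subgroup.subgroupOfEquivOfLe (hZC g₀)).toEquiv, hcC] at this
            exact this
          have h2 : A₀.relIndex B * a₀ = b := by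
            have := (A₀.subgroupOf B).index_mul_card
            rwa [Nat.card_congr (Subgroup.subgroupOfEquivOfLe hAB).toEquiv] at this
          have h3' : (A₀ ⊓ C g₀) = Z := le_antisymm (by rw [inf_comm]; exact hCA) (le_inf hZA (hZC g₀))
          have h4 : Z.relIndex (C g₀) = A₀.relIndex (C g₀) := by
            rw [← h3']
            exact Subgroup.inf_relIndex_right _ _
          have h5 : A₀.relIndex (C g₀) ≤ A₀.relIndex B :=
            Subgroup.relIndex_le_of_le_right hCB (by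
              intro h0
              rw [h0, zero_mul] at h2
              omega)
          calc a₁ * a₀ = Z.relIndex (C g₀) * z * a₀ := by rw [h1]
            _ = z * (A₀.relIndex (C g₀) * a₀) := by rw [h4]; ring
            _ ≤ z * (A₀.relIndex B * a₀) := Nat.mul_le_mul_left _ (Nat.mul_le_mul_right _ h5)
            _ = z * b := by rw [h2]
        have hfin := int_case_final (n : ℤ) (z : ℤ) (Ps.ncard : ℤ) ((conjSet (C g₁) Z).ncard : ℤ) (a₀ : ℤ) (a₁ : ℤ) (b : ℤ)
          (by exact_mod_cast hzpos) (by exact_mod_cast ha₁pos) (by exact_mod_cast hcount)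
          (by
            have : ((Ps.ncard * b : ℕ) : ℤ) = ((n * (a₀ - z) : ℕ) : ℤ) := by rw [hPc]
            push_cast [Nat.cast_sub hza₀] at this
            exact this)
          (by
            have : (((conjSet (C g₁) Z).ncard * a₁ : ℕ) : ℤ) = ((n * (a₁ - z) : ℕ) : ℤ) := by rw [hT₁]
            push_cast [Nat.cast_sub hza₁] at this
            exact this)
          (by exact_mod_cast hrel) (by exact_mod_cast hnpos)
        have hfin' : n ≤ b := by exact_mod_cast hfin
        omega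
  · -- no tori
    push Not at hex
    have hunion : (Z : Set Γ) ∪ Ps = Set.univ := by
      rw [Set.eq_univ_iff_forall]
      intro w
      by_cases h1 : w ∈ Z
      · exact Or.inl h1
      · exact Or.inr (hex w h1)
    have hcount : n = z + Ps.ncard := by
      have := Set.ncard_union_eq hdZP (Set.toFinite _) (Set.toFinite _)
      rw [hunion, Set.ncard_univ, hcZ] at this
      exact this
    rw [hncP] at hPc
    have hza₀ : z ≤ a₀ := by omega
    have ha₀n : a₀ ≤ n := Subgroup.card_le_card_group A₀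
    by_cases hBA : B = A₀
    · have h1 : a₀ = b := by
        rw [hb, hBA]
      rw [← h1] at hPc
      -- `a₀ = n`
      have h2 : (Ps.ncard + z) * a₀ = n * a₀ := by rw [add_comm, ← hcount]
      have h3' : Ps.ncard * a₀ + z * a₀ = n * a₀ := by rw [← h2]; ring
      rw [hPc] at h3'
      have h4 : n * (a₀ - z) + n * z = n * a₀ := by
        rw [← Nat.mul_add, Nat.sub_add_cancel hza₀]
      have h5 : z * a₀ = n * z := by omega
      have h6 : a₀ = n := by
        have : z * a₀ = z * n := by rw [h5]; ring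
        exact Nat.eq_of_mul_eq_mul_left hzpos this
      omega
    · have hbig : 3 * a₀ ≤ b := three_mul_card_le hodd hAB (Ne.symm hBA)
      refine int_case_top (n : ℤ) (z : ℤ) (Ps.ncard : ℤ) (a₀ : ℤ) (b : ℤ) (by exact_mod_cast hzpos)
        (by exact_mod_cast h3) (by exact_mod_cast hbig) (by exact_mod_cast hcount) ?_ (by exact_mod_cast ha₀n)
      have : ((Ps.ncard * b : ℕ) : ℤ) = ((n * (a₀ - z) : ℕ) : ℤ) := by rw [hPc]
      push_cast [Nat.cast_sub hza₀] at this
      exact this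

end Count

end Cfsg.Agent.H06
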