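import Cfsg.Agent.Lib.H06.CNFrob
import Mathlib

/-!
# Free action lemma: a Frobenius action on an `𝔽_p`-space is far from quadratic
-/

set_option autoImplicit false
set_option linter.style.haveILetI false
set_option linter.unusedSectionVars false
set_option linter.unusedVariables false

namespace Cfsg.Agent.H06

open Cfsg
open scoped Polynomial

universe u v

section Poly

variable {p : ℕ} [hp : Fact p.Prime]

theorem poly_sub_one_pow (t : ℕ) :
    ((Polynomial.X : (ZMod p)[X]) - 1) ^ (p ^ t) = Polynomial.X ^ (p ^ t) - 1 := by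
  have := sub_pow_char_pow (R := (ZMod p)[X]) (p := p) (n := t) (x := Polynomial.X) (y := 1)
  rw [this, one_pow]

theorem poly_geom_eq (t : ℕ) :
    ∑ i ∈ Finset.range (p ^ t), (Polynomial.X : (ZMod p)[X]) ^ i =
      ((Polynomial.X : (ZMod p)[X]) - 1) ^ (p ^ t - 1) := by
  have h1 := geom_sum_mul (Polynomial.X : (ZMod p)[X]) (p ^ t)
  rw [← poly_sub_one_pow t] at h1
  have h2 : 1 ≤ p ^ t := Nat.one_le_pow _ _ hp.out.pos
  have h3 : ((Polynomial.X : (ZMod p)[X]) - 1) ^ (p ^ t) =
      ((Polynomial.X : (ZMod p)[X]) - 1) ^ (p ^ t - 1) * (Polynomial.X - 1) := by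
    rw [← pow_succ, Nat.sub_add_cancel h2]
  rw [h3] at h1
  have hne : (Polynomial.X : (ZMod p)[X]) - 1 ≠ 0 := by
    have := Polynomial.X_sub_C_ne_zero (1 : ZMod p)
    simpa using this
  exact mul_right_cancel₀ hne h1

variable {M : Type*} [AddCommGroup M] [Module (ZMod p) M]

theorem end_sub_one_pow (τ : Module.End (ZMod p) M) (t : ℕ) : (τ - 1) ^ (p ^ t) = τ ^ (p ^ t) - 1 := by
  have := congrArg (Polynomial.aeval τ) (poly_sub_one_pow (p := p) t)
  simpa using this

theorem end_geom_eq (τ : Module.End (ZMod p) M) (t : ℕ) :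
    ∑ i ∈ Finset.range (p ^ t), τ ^ i = (τ - 1) ^ (p ^ t - 1) := by
  have := congrArg (Polynomial.aeval τ) (poly_geom_eq (p := p) t)
  simpa using this

end Poly

section Chain

variable {p : ℕ} [hp : Fact p.Prime] {M : Type*} [AddCommGroup M] [Module (ZMod p) M] [Finite M]

/-- If `X^n ≠ 0` for a nilpotent endomorphism then the range of `X` has dimension at least `n`. -/
theorem le_finrank_range_of_pow_ne_zero (X : Module.End (ZMod p) M) {m n : ℕ} (hm : X ^ m = 0)
    (hn : X ^ n ≠ 0) : n ≤ Module.finrank (ZMod p) (LinearMap.range X) := by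
  classical
  haveI : Module.Finite (ZMod p) M := Module.Finite.of_finite
  have hle : ∀ k, LinearMap.range (X ^ (k + 1)) ≤ LinearMap.range (X ^ k) := by
    intro k
    rintro _ ⟨v, rfl⟩
    refine ⟨X v, ?_⟩
    rw [pow_succ]
    rfl
  have hstep : ∀ k, LinearMap.range (X ^ (k + 1)) = LinearMap.range (X ^ k) →
      ∀ j, LinearMap.range (X ^ (k + j)) = LinearMap.range (X ^ k) := by
    intro k hk j
    induction j with
    | zero => rfl
    | succ j ih =>
      have e1 : LinearMap.range (X ^ (k + (j + 1))) = (LinearMap.range (X ^ (k + j))).map X := by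
        rw [← LinearMap.range_comp]
        congr 1
        rw [← add_assoc, pow_succ']
        rfl
      rw [e1, ih, ← LinearMap.range_comp]
      have e2 : X.comp (X ^ k) = X ^ (k + 1) := by
        rw [pow_succ']
        rfl
      rw [e2, hk]
  have hstrict : ∀ k, X ^ k ≠ 0 → Module.finrank (ZMod p) (LinearMap.range (X ^ (k + 1))) <
      Module.finrank (ZMod p) (LinearMap.range (X ^ k)) := by
    intro k hk
    apply Submodule.finrank_lt_finrank_of_lt
    refine lt_of_le_of_ne (hle k) ?_
    intro h
    have h1 := hstep k h m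
    have h2 : X ^ (k + m) = 0 := by rw [pow_add, hm, mul_zero]
    rw [h2, LinearMap.range_zero] at h1
    exact hk (LinearMap.range_eq_bot.mp h1.symm)
  have hlow : ∀ k, k ≤ n → X ^ k ≠ 0 := by
    intro k hk h
    apply hn
    obtain ⟨c, rfl⟩ := Nat.exists_eq_add_of_le hk
    rw [pow_add, h, zero_mul]
  have hpos : 0 < Module.finrank (ZMod p) (LinearMap.range (X ^ n)) := by
    rw [Module.finrank_pos_iff]
    have : LinearMap.range (X ^ n) ≠ ⊥ := fun h => hn (LinearMap.range_eq_bot.mp h)
    exact Submodule.nontrivial_iff_ne_bot.mpr this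
  have key : ∀ k, k ≤ n → k + 1 ≤ Module.finrank (ZMod p) (LinearMap.range (X ^ (n - k))) := by
    intro k
    induction k with
    | zero =>
      intro _
      simp only [Nat.sub_zero, zero_add]
      exact hpos
    | succ k ih =>
      intro hk
      have h1 := ih (by omega)
      have h2 := hstrict (n - (k + 1)) (hlow _ (by omega))
      have e : n - (k + 1) + 1 = n - k := by omega
      rw [e] at h2
      omega
  rcases Nat.eq_zero_or_pos n with rfl | hn0
  · exact Nat.zero_le _
  · have h1 := key (n - 1) (by omega)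
    have e : n - (n - 1) = 1 := by omega
    rw [e, pow_one] at h1
    omega

end Chain

section Free

variable {p : ℕ} [hp : Fact p.Prime] {M : Type*} [AddCommGroup M] [Module (ZMod p) M] [Finite M]
  {F : Type*} [Group F] [Finite F] (ρ : F →* Module.End (ZMod p) M)

/-- Frobenius action: the range of `y - 1` is large. -/
theorem free_action_range (Ab : Subgroup F) (y : F) {t : ℕ} (hy : y ^ (p ^ t) = 1)
    (hn : ∀ c ∈ Ab, y * c * y⁻¹ ∈ Ab)
    (hfree : ∀ i, 0 < i → i < p ^ t → ∀ c ∈ Ab, c ≠ 1 → y ^ i * c * (y⁻¹) ^ i ≠ c)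
    (hfix : ∀ c ∈ Ab, c ≠ 1 → ∀ v : M, ρ c v = v → v = 0) (hAb : Ab ≠ ⊥) [Nontrivial M] :
    p ^ t - 1 ≤ Module.finrank (ZMod p) (LinearMap.range (ρ y - 1)) := by
  classical
  haveI : Fintype F := Fintype.ofFinite _
  set τ := ρ y with hτ
  set X := τ - 1 with hX
  set q := p ^ t with hq
  have hq1 : 1 ≤ q := Nat.one_le_pow _ _ hp.out.pos
  have hXq : X ^ q = 0 := by
    rw [hX, hq, end_sub_one_pow, ← hq, hτ, ← map_pow, hy, map_one, sub_self]
  -- a fixed vector
  obtain ⟨w, hw0, hwX⟩ : ∃ w : M, w ≠ 0 ∧ τ w = w := by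
    by_contra hcon
    push Not at hcon
    have hinj : ∀ k, ∀ v : M, (X ^ k) v = 0 → v = 0 := by
      intro k
      induction k with
      | zero =>
        intro v hv
        simpa using hv
      | succ k ih =>
        intro v hv
        rw [pow_succ'] at hv
        have h1 : X ((X ^ k) v) = 0 := hv
        have h2 : (X ^ k) v = 0 := by
          by_contra h3
          apply hcon _ h3
          have h4 : τ ((X ^ k) v) - (X ^ k) v = 0 := h1
          exact sub_eq_zero.mp h4
        exact ih v h2
    obtain ⟨v, hv⟩ := exists_ne (0 : M)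
    exact hv (hinj q v (by rw [hXq]; rfl))
  have hwinv : ∀ i : ℕ, ρ ((y⁻¹) ^ i) w = w := by
    have h1 : ρ y⁻¹ w = w := by
      have h2 : ρ y⁻¹ (ρ y w) = w := by
        have := congrArg (fun f => f w) (map_mul ρ y⁻¹ y).symm
        simpa using this
      rw [← hτ, hwX] at h2
      exact h2
    intro i
    induction i with
    | zero => simp
    | succ i ih =>
      rw [pow_succ', map_mul]
      show ρ y⁻¹ (ρ ((y⁻¹) ^ i) w) = w
      rw [ih, h1]
  set N := ∑ i ∈ Finset.range q, τ ^ i with hN
  -- sums over invariant subsets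
  have hinv : ∀ (n : ℕ) (S : Finset F), S.card = n → (∀ c ∈ S, c ∈ Ab ∧ c ≠ 1) →
      (∀ c ∈ S, y * c * y⁻¹ ∈ S) → ∃ u : M, ∑ c ∈ S, ρ c w = N u := by
    intro n
    induction n using Nat.strong_induction_on with
    | _ n ih =>
      intro S hS hSab hSinv
      rcases S.eq_empty_or_nonempty with rfl | ⟨c₀, hc₀⟩
      · exact ⟨0, by simp⟩
      obtain ⟨hc₀A, hc₀1⟩ := hSab c₀ hc₀
      let f : ℕ → F := fun i => y ^ i * c₀ * (y⁻¹) ^ i
      have hfS : ∀ i, f i ∈ S := by
        intro i
        induction i with
        | zero => simpa [f] using hc₀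
        | succ i ih' =>
          have h1 := hSinv _ ih'
          have e : y * f i * y⁻¹ = f (i + 1) := by
            simp only [f, pow_succ, pow_succ']
            group
          rwa [e] at h1
      have hfA : ∀ i, f i ∈ Ab := fun i => (hSab _ (hfS i)).1
      have hfinj : Set.InjOn f (Finset.range q : Set ℕ) := by
        have haux : ∀ i j, i < j → j < q → f i ≠ f j := by
          intro i j hij hj h
          have h1 := hfree (j - i) (by omega) (by omega) c₀ hc₀A hc₀1
          apply h1
          have e : j = i + (j - i) := by omega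
          have h2 : y ^ i * c₀ * (y⁻¹) ^ i = y ^ (i + (j - i)) * c₀ * (y⁻¹) ^ (i + (j - i)) := by
            rw [← e]
            exact h
          have h3 : c₀ = y ^ (j - i) * c₀ * (y⁻¹) ^ (j - i) := by
            have h5 : y ^ (i + (j - i)) * c₀ * (y⁻¹) ^ (i + (j - i)) =
                y ^ i * (y ^ (j - i) * c₀ * (y⁻¹) ^ (j - i)) * (y⁻¹) ^ i := by
              rw [pow_add y i, add_comm i (j - i), pow_add y⁻¹ (j - i) i]
              simp only [mul_assoc]
            rw [h5] at h2
            exact mul_left_cancel (mul_right_cancel h2)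
          exact h3.symm
        intro i hi j hj hij
        rcases lt_trichotomy i j with h | h | h
        · exact absurd hij (haux i j h (by simpa using hj))
        · exact h
        · exact absurd hij.symm (haux j i h (by simpa using hi))
      set O := (Finset.range q).image f with hO
      have hOS : O ⊆ S := by
        intro c hc
        obtain ⟨i, -, rfl⟩ := Finset.mem_image.mp hc
        exact hfS i
      have hOcard : O.card = q := by
        rw [hO, Finset.card_image_of_injOn hfinj, Finset.card_range]
      have hf0 : c₀ ∈ O := Finset.mem_image.mpr ⟨0, Finset.mem_range.mpr (by omega), by simp [f]⟩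
      have hfq : f q = c₀ := by
        have hyi : (y⁻¹) ^ q = 1 := by rw [inv_pow, hy, inv_one]
        simp only [f]
        rw [hy, hyi]
        simp
      have hS' : ∀ c ∈ S \ O, y * c * y⁻¹ ∈ S \ O := by
        intro c hc
        obtain ⟨hcS, hcO⟩ := Finset.mem_sdiff.mp hc
        refine Finset.mem_sdiff.mpr ⟨hSinv c hcS, ?_⟩
        intro h
        obtain ⟨i, hi, hie⟩ := Finset.mem_image.mp h
        apply hcO
        rcases Nat.eq_zero_or_pos i with rfl | hipos
        · -- `y c y⁻¹ = c₀ = f q`, so `c = f (q - 1)`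
          refine Finset.mem_image.mpr ⟨q - 1, Finset.mem_range.mpr (by omega), ?_⟩
          have e1 : y * f (q - 1) * y⁻¹ = f q := by
            have e : q = (q - 1) + 1 := by omega
            conv_rhs => rw [e]
            simp only [f, pow_succ, pow_succ']
            group
          rw [hfq] at e1
          have e2 : y * c * y⁻¹ = c₀ := by
            rw [← hie]
            simp [f]
          rw [← e2] at e1
          have e3 := congrArg (fun z => y⁻¹ * z * y) e1
          simpa [mul_assoc] using e3
        · refine Finset.mem_image.mpr ⟨i - 1, Finset.mem_range.mpr (by have := Finset.mem_range.mp hi; omega), ?_⟩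
          have e1 : y * f (i - 1) * y⁻¹ = f i := by
            have e : i = (i - 1) + 1 := by omega
            conv_rhs => rw [e]
            simp only [f, pow_succ, pow_succ']
            group
          rw [hie] at e1
          have e3 := congrArg (fun z => y⁻¹ * z * y) e1
          simpa [mul_assoc] using e3
      have hcard' : (S \ O).card < n := by
        rw [Finset.card_sdiff_of_subset hOS, hOcard, hS]
        have h2 : 0 < O.card := Finset.card_pos.mpr ⟨c₀, hf0⟩
        have h3 : O.card ≤ S.card := Finset.card_le_card hOS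
        rw [hOcard] at h2 h3
        omega
      obtain ⟨u', hu'⟩ := ih _ hcard' (S \ O) rfl
        (fun c hc => hSab c (Finset.mem_sdiff.mp hc).1) hS'
      refine ⟨ρ c₀ w + u', ?_⟩
      rw [← Finset.sum_sdiff hOS, hu', hO, Finset.sum_image hfinj, map_add, add_comm]
      congr 1
      rw [hN, LinearMap.sum_apply]
      refine Finset.sum_congr rfl fun i _ => ?_
      simp only [f]
      rw [map_mul, map_mul]
      show ρ (y ^ i) (ρ c₀ (ρ ((y⁻¹) ^ i) w)) = (τ ^ i) (ρ c₀ w)
      rw [hwinv, hτ, ← map_pow]
  -- the total sum vanishes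
  set S₀ : Finset F := Finset.univ.filter (fun c => c ∈ Ab) with hS₀
  obtain ⟨c₁, hc₁, hc₁1⟩ := (Subgroup.bot_or_exists_ne_one Ab).resolve_left hAb
  have htot : ∑ c ∈ S₀, ρ c w = 0 := by
    apply hfix c₁ hc₁ hc₁1
    rw [map_sum]
    have h1 : ∀ c ∈ S₀, ρ c₁ (ρ c w) = ρ (c₁ * c) w := by
      intro c _
      rw [map_mul]
      rfl
    rw [Finset.sum_congr rfl h1]
    refine Finset.sum_bij (fun c _ => c₁ * c) ?_ ?_ ?_ ?_
    · intro c hc
      simp only [hS₀, Finset.mem_filter, Finset.mem_univ, true_and] at hc ⊢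
      exact Ab.mul_mem hc₁ hc
    · intro a _ b _ h
      exact mul_left_cancel h
    · intro c hc
      simp only [hS₀, Finset.mem_filter, Finset.mem_univ, true_and] at hc
      refine ⟨c₁⁻¹ * c, ?_, by simp⟩
      simp only [hS₀, Finset.mem_filter, Finset.mem_univ, true_and]
      exact Ab.mul_mem (Ab.inv_mem hc₁) hc
    · intro c _
      rfl
  have h1mem : (1 : F) ∈ S₀ := by simp [hS₀, Ab.one_mem]
  rw [← Finset.add_sum_erase _ _ h1mem] at htot
  obtain ⟨u, hu⟩ := hinv _ (S₀.erase 1) rfl (by
      intro c hc
      obtain ⟨h1, h2⟩ := Finset.mem_erase.mp hc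
      exact ⟨by simpa [hS₀] using h2, h1⟩) (by
      intro c hc
      obtain ⟨h1, h2⟩ := Finset.mem_erase.mp hc
      refine Finset.mem_erase.mpr ⟨?_, ?_⟩
      · intro h3
        apply h1
        have h4 := congrArg (fun z => y⁻¹ * z * y) h3
        simpa [mul_assoc] using h4
      · simp only [hS₀, Finset.mem_filter, Finset.mem_univ, true_and] at h2 ⊢
        exact hn c h2)
  rw [hu, map_one] at htot
  have hNne : N ≠ 0 := by
    intro h
    rw [h] at htot
    apply hw0
    simpa using htot
  have hNX : N = X ^ (q - 1) := by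
    rw [hN, hq, end_geom_eq]
  rw [hNX] at hNne
  exact le_finrank_range_of_pow_ne_zero X hXq hNne

end Free

end Cfsg.Agent.H06
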