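import Cfsg.Agent.Lib.H06.CNJ1
import Cfsg.Agent.Lib.H06.Basic

/-!
# Rank bound for a free action on `Ω₁(Z(Q))`
-/

set_option autoImplicit false
set_option linter.style.haveILetI false
set_option linter.unusedSectionVars false
set_option linter.unusedVariables false

namespace Cfsg.Agent.H06

open Cfsg

universe u v

variable {Y : Type u} [Group Y] [Finite Y] {p : ℕ} [hp : Fact p.Prime]

theorem free_rank_bound_add {M : Type v} [AddCommGroup M] [Module (ZMod p) M] [Finite M]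
    [Nontrivial M] (φ : Y → (M →+ M)) (hφ1 : ∀ x, φ 1 x = x) (hφm : ∀ a b x, φ (a * b) x = φ a (φ b x))
    (Q : Subgroup Y) [hQ : Q.Normal] (hQk : ∀ q ∈ Q, ∀ x, φ q x = x)
    (Ab : Subgroup Y) (hAb : ¬ Ab ≤ Q) (y : Y) (t : ℕ)
    (hy : y ^ (p ^ t) ∈ Q) (hn : ∀ c ∈ Ab, y * c * y⁻¹ ∈ Ab)
    (hfree : ∀ i : ℕ, 0 < i → i < p ^ t → ∀ c ∈ Ab, c ∉ Q → y ^ i * c * (y⁻¹) ^ i * c⁻¹ ∉ Q)
    (hfix : ∀ c ∈ Ab, c ∉ Q → ∀ v : M, φ c v = v → v = 0) :
    p ^ (p ^ t - 1) * Nat.card {v : M // φ y v = v} ≤ Nat.card M := by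
  classical
  let act : Y → Module.End (ZMod p) M := fun g =>
    AddMonoidHom.toZModLinearMap p (φ g)
  have hact : ∀ (g : Y) (v : M), act g v = φ g v := by
    intro g v
    rfl
  let ρ₀ : Y →* Module.End (ZMod p) M :=
    { toFun := act
      map_one' := by
        ext x
        rw [hact, hφ1]
        rfl
      map_mul' := by
        intro a b
        ext x
        rw [hact, hφm]
        rfl }
  have hρ₀ : ∀ (g : Y) (x : M), ρ₀ g x = φ g x := fun g x => rfl
  have hQker : ∀ q ∈ Q, ρ₀ q = 1 := by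
    intro q hq
    ext x
    rw [hρ₀, hQk q hq]
    rfl
  let ρ : Y ⧸ Q →* Module.End (ZMod p) M :=
    QuotientGroup.lift Q ρ₀ (fun q hq => hQker q hq)
  have hρ : ∀ g : Y, ρ (g : Y ⧸ Q) = ρ₀ g := fun g => rfl
  have hmain := free_action_range ρ (Ab.map (QuotientGroup.mk' Q)) ((y : Y ⧸ Q)) (t := t)
    (by
      show ((y : Y ⧸ Q)) ^ (p ^ t) = 1
      rw [← QuotientGroup.mk_pow]
      exact (QuotientGroup.eq_one_iff _).mpr hy)
    (by
      rintro _ ⟨c, hc, rfl⟩
      exact ⟨y * c * y⁻¹, hn c hc, rfl⟩)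
    (by
      rintro i hi0 hi _ ⟨c, hc, rfl⟩ hc1 h
      have hcQ : c ∉ Q := fun h' => hc1 ((QuotientGroup.eq_one_iff c).mpr h')
      apply hfree i hi0 hi c hc hcQ
      rw [← QuotientGroup.eq_one_iff]
      have : ((y ^ i * c * (y⁻¹) ^ i * c⁻¹ : Y) : Y ⧸ Q) =
          ((y : Y ⧸ Q)) ^ i * (QuotientGroup.mk' Q c) * (((y : Y ⧸ Q))⁻¹) ^ i * (QuotientGroup.mk' Q c)⁻¹ := rfl
      rw [this, h, mul_inv_cancel])
    (by
      rintro _ ⟨c, hc, rfl⟩ hc1 v hv
      have hcQ : c ∉ Q := fun h' => hc1 ((QuotientGroup.eq_one_iff c).mpr h')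
      have h1 : ρ₀ c v = v := hv
      rw [hρ₀] at h1
      exact hfix c hc hcQ v h1)
    (by
      intro h
      apply hAb
      intro c hc
      have : (c : Y ⧸ Q) ∈ Ab.map (QuotientGroup.mk' Q) := ⟨c, hc, rfl⟩
      rw [h] at this
      exact (QuotientGroup.eq_one_iff c).mp this)
  set X : Module.End (ZMod p) M := ρ (y : Y ⧸ Q) - 1 with hX
  haveI : Module.Finite (ZMod p) M := Module.Finite.of_finite
  -- rank nullity
  have hcard : Nat.card M = Nat.card (LinearMap.ker X) * Nat.card (LinearMap.range X) := by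
    have e := (LinearMap.quotKerEquivRange X).toEquiv
    have h2 : Nat.card (M ⧸ LinearMap.ker X) = Nat.card (LinearMap.range X) :=
      Nat.card_congr e
    have h3 := AddSubgroup.card_eq_card_quotient_mul_card_addSubgroup (LinearMap.ker X).toAddSubgroup
    rw [mul_comm] at h3
    rw [h3, ← h2]
    rfl
  have hrange : Nat.card (LinearMap.range X) = p ^ Module.finrank (ZMod p) (LinearMap.range X) := by
    rw [Module.natCard_eq_pow_finrank (K := ZMod p), Nat.card_zmod]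
  have hker : Nat.card {v : M // φ y v = v} ≤ Nat.card (LinearMap.ker X) := by
    refine Nat.card_le_card_of_injective
      (fun w : {v : M // φ y v = v} => (⟨w.1, ?_⟩ : LinearMap.ker X)) ?_
    · rw [LinearMap.mem_ker, hX]
      show ρ (y : Y ⧸ Q) w.1 - w.1 = 0
      rw [sub_eq_zero, hρ, hρ₀]
      exact w.2
    · intro a b h
      have h1 := congrArg (fun x : LinearMap.ker X => (x : M)) h
      exact Subtype.ext h1
  rw [hcard, hrange, mul_comm]
  calc Nat.card {v : M // φ y v = v} * p ^ (p ^ t - 1)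
      ≤ Nat.card (LinearMap.ker X) * p ^ (p ^ t - 1) := Nat.mul_le_mul_right _ hker
    _ ≤ _ := Nat.mul_le_mul_left _ (Nat.pow_le_pow_right hp.out.pos hmain)

theorem free_rank_bound_aux {W : Type v} [CommGroup W] [Finite W] (hW : ∀ v : W, v ^ p = 1)
    [Nontrivial W] (φ : Y →* MulAut W) (Q : Subgroup Y) [hQ : Q.Normal] (hQk : ∀ q ∈ Q, φ q = 1)
    (Ab : Subgroup Y) (hAb : ¬ Ab ≤ Q) (y : Y) (t : ℕ)
    (hy : y ^ (p ^ t) ∈ Q) (hn : ∀ c ∈ Ab, y * c * y⁻¹ ∈ Ab)
    (hfree : ∀ i : ℕ, 0 < i → i < p ^ t → ∀ c ∈ Ab, c ∉ Q → y ^ i * c * (y⁻¹) ^ i * c⁻¹ ∉ Q)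
    (hfix : ∀ c ∈ Ab, c ∉ Q → ∀ v : W, φ c v = v → v = 1) :
    p ^ (p ^ t - 1) * Nat.card {v : W // φ y v = v} ≤ Nat.card W := by
  classical
  letI hmod : Module (ZMod p) (Additive W) := AddCommGroup.zmodModule (fun x => by
    apply Additive.toMul.injective
    simpa using hW (Additive.toMul x))
  let ψ : Y → (Additive W →+ Additive W) := fun g => MonoidHom.toAdditive (φ g).toMonoidHom
  have hψ : ∀ (g : Y) (x : Additive W), ψ g x = Additive.ofMul (φ g (Additive.toMul x)) :=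
    fun g x => rfl
  have h := free_rank_bound_add (M := Additive W) (p := p) ψ (by
      intro x
      rw [hψ, map_one]
      rfl) (by
      intro a b x
      rw [hψ, map_mul]
      rfl) Q (by
      intro q hq x
      rw [hψ, hQk q hq]
      rfl) Ab hAb y t hy hn hfree (by
      intro c hc hcQ v hv
      rw [hψ] at hv
      exact Additive.toMul.injective (hfix c hc hcQ _ (Additive.ofMul.injective hv)))
  refine le_trans ?_ h
  apply Nat.mul_le_mul_left
  refine Nat.card_le_card_of_injective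
    (fun w : {v : W // φ y v = v} => (⟨Additive.ofMul w.1, ?_⟩ : {v : Additive W // ψ y v = v})) ?_
  · rw [hψ]
    exact congrArg Additive.ofMul w.2
  · intro a b h
    exact Subtype.ext (Additive.ofMul.injective (congrArg Subtype.val h))

theorem free_rank_bound (Q V : Subgroup Y) [hQ : Q.Normal] [hV : V.Normal]
    (hVQ : ∀ v ∈ V, ∀ q ∈ Q, q * v = v * q) (hVab : ∀ u ∈ V, ∀ v ∈ V, u * v = v * u)
    (hVp : ∀ v ∈ V, v ^ p = 1) (hVne : V ≠ ⊥) (Ab : Subgroup Y) (hAb : ¬ Ab ≤ Q) (y : Y) (t : ℕ)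
    (hy : y ^ (p ^ t) ∈ Q) (hn : ∀ c ∈ Ab, y * c * y⁻¹ ∈ Ab)
    (hfree : ∀ i : ℕ, 0 < i → i < p ^ t → ∀ c ∈ Ab, c ∉ Q → y ^ i * c * (y⁻¹) ^ i * c⁻¹ ∉ Q)
    (hfix : ∀ c ∈ Ab, c ∉ Q → ∀ v ∈ V, c * v = v * c → v = 1) :
    p ^ (p ^ t - 1) * Nat.card ↥(V ⊓ Subgroup.centralizer ({y} : Set Y)) ≤ Nat.card V := by
  classical
  letI iV : CommGroup V :=
    { (inferInstance : Group V) with mul_comm := fun a b => Subtype.ext (hVab a a.2 b b.2) }
  haveI : Nontrivial V := by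
    obtain ⟨v, hv, hv1⟩ := (Subgroup.bot_or_exists_ne_one V).resolve_left hVne
    exact ⟨⟨⟨v, hv⟩, 1, fun h => hv1 (congrArg Subtype.val h)⟩⟩
  have hφ : ∀ (g : Y) (v : V), (((MulAut.conjNormal g : MulAut V) v : V) : Y) = g * v * g⁻¹ :=
    fun g v => MulAut.conjNormal_apply g v
  have h := free_rank_bound_aux (W := V) (fun v => Subtype.ext (hVp v v.2))
    (MulAut.conjNormal : Y →* MulAut V) Q (by
      intro q hq
      ext v
      rw [hφ, hVQ v v.2 q hq]
      simp) Ab hAb y t hy hn hfree (by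
      intro c hc hcQ v hv
      have h1 := congrArg Subtype.val hv
      rw [hφ] at h1
      apply Subtype.ext
      apply hfix c hc hcQ v v.2
      calc c * (v : Y) = c * v * c⁻¹ * c := by group
        _ = v * c := by rw [h1])
  refine le_trans ?_ h
  apply Nat.mul_le_mul_left
  refine Nat.card_le_card_of_injective
    (fun w : ↥(V ⊓ Subgroup.centralizer ({y} : Set Y)) =>
      (⟨⟨w.1, w.2.1⟩, ?_⟩ : {v : V // (MulAut.conjNormal y : MulAut V) v = v})) ?_
  · apply Subtype.ext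
    rw [hφ]
    have h := Subgroup.mem_centralizer_iff.mp w.2.2 y rfl
    show y * (w : Y) * y⁻¹ = w
    rw [h]
    group
  · intro a b h
    have h1 := congrArg (fun x => ((x.1 : V) : Y)) h
    exact Subtype.ext h1

end Cfsg.Agent.H06
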