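import Cfsg.Agent.Lib.H06.CNJ2
import Cfsg.Agent.Lib.H06.CNFrob
import Cfsg.Agent.Lib.H01.Fitting

/-!
# A three-step group of odd order: the abelian subgroups of maximal order lie in the `p`-core
-/

set_option autoImplicit false
set_option linter.style.haveILetI false
set_option linter.unusedSectionVars false
set_option linter.unusedVariables false

namespace Cfsg.Agent.H06

open Cfsg

universe u

variable {Y : Type u} [Group Y]

/-- `Ω₁(Z(Q))`. -/
def omegaZ (p : ℕ) (Q : Subgroup Y) : Subgroup Y where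
  carrier := {v | v ∈ Q ∧ (∀ q ∈ Q, q * v = v * q) ∧ v ^ p = 1}
  mul_mem' := by
    rintro a b ⟨ha, ha', hap⟩ ⟨hb, hb', hbp⟩
    refine ⟨Q.mul_mem ha hb, ?_, ?_⟩
    · intro q hq
      rw [← mul_assoc, ha' q hq, mul_assoc, hb' q hq, mul_assoc]
    · have hc : Commute a b := (ha' b hb).symm
      rw [hc.mul_pow, hap, hbp, one_mul]
  one_mem' := ⟨Q.one_mem, by simp, by simp⟩
  inv_mem' := by
    rintro a ⟨ha, ha', hap⟩
    refine ⟨Q.inv_mem ha, ?_, ?_⟩
    · intro q hq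
      have h := ha' q hq
      calc q * a⁻¹ = a⁻¹ * (a * q) * a⁻¹ := by group
        _ = a⁻¹ * (q * a) * a⁻¹ := by rw [h]
        _ = a⁻¹ * q := by group
    · rw [inv_pow, hap, inv_one]

theorem mem_omegaZ {p : ℕ} {Q : Subgroup Y} {v : Y} :
    v ∈ omegaZ p Q ↔ v ∈ Q ∧ (∀ q ∈ Q, q * v = v * q) ∧ v ^ p = 1 := Iff.rfl

theorem omegaZ_normal (p : ℕ) (Q : Subgroup Y) [hQ : Q.Normal] : (omegaZ p Q).Normal := by
  refine ⟨?_⟩
  rintro v ⟨hv, hv', hvp⟩ g
  refine ⟨hQ.conj_mem v hv g, ?_, ?_⟩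
  · intro q hq
    have h := hv' (g⁻¹ * q * g) (by simpa using hQ.conj_mem q hq g⁻¹)
    calc q * (g * v * g⁻¹) = g * ((g⁻¹ * q * g) * v) * g⁻¹ := by group
      _ = g * (v * (g⁻¹ * q * g)) * g⁻¹ := by rw [h]
      _ = g * v * g⁻¹ * q := by group
  · rw [conj_pow, hvp]
    simp

theorem omegaZ_ne_bot [Finite Y] {p : ℕ} [hp : Fact p.Prime] {Q : Subgroup Y} (hQ : IsPGroup p Q)
    (hQne : Q ≠ ⊥) : omegaZ p Q ≠ ⊥ := by
  classical
  haveI : Nontrivial Q := (Subgroup.nontrivial_iff_ne_bot Q).mpr hQne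
  haveI := hQ.center_nontrivial
  have hZ : IsPGroup p (Subgroup.center Q) := hQ.to_subgroup _
  obtain ⟨n, hn⟩ := IsPGroup.iff_card.mp hZ
  have hn0 : n ≠ 0 := by
    rintro rfl
    have h1 : Nat.card (Subgroup.center Q) = 1 := by simpa using hn
    have := Finite.one_lt_card (α := Subgroup.center Q)
    omega
  obtain ⟨w, hw⟩ := exists_prime_orderOf_dvd_card' (G := Subgroup.center Q) p (by
    rw [hn]
    exact dvd_pow_self p hn0)
  intro hbot
  have hw1 : w ≠ 1 := by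
    rintro rfl
    rw [orderOf_one] at hw
    exact hp.out.one_lt.ne hw
  apply hw1
  have hmem : (((w : Subgroup.center Q) : Q) : Y) ∈ omegaZ p Q := by
    refine ⟨(w : Q).2, ?_, ?_⟩
    · intro q hq
      have h := (Subgroup.mem_center_iff.mp w.2) ⟨q, hq⟩
      exact congrArg Subtype.val h
    · have h := pow_orderOf_eq_one w
      rw [hw] at h
      have h2 := congrArg (fun z : Subgroup.center Q => ((z : Q) : Y)) h
      simpa using h2
  rw [hbot, Subgroup.mem_bot] at hmem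
  exact Subtype.ext (Subtype.ext hmem)

/-- `|H ⊔ V| * |H ⊓ V| = |H| * |V|` if `V` is normal. -/
theorem card_sup_mul_card_inf [Finite Y] (H V : Subgroup Y) [hV : V.Normal] :
    Nat.card ↥(V ⊔ H) * Nat.card ↥(V ⊓ H) = Nat.card H * Nat.card V := by
  have h1 : V.relIndex (V ⊔ H) = V.relIndex H := Subgroup.relIndex_sup_left H V
  have h2 : (V ⊓ H).relIndex H = V.relIndex H := Subgroup.inf_relIndex_right V H
  have h3 := Subgroup.relIndex_mul_relIndex ⊥ V (V ⊔ H) bot_le le_sup_left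
  have h4 := Subgroup.relIndex_mul_relIndex ⊥ (V ⊓ H) H bot_le inf_le_right
  rw [Subgroup.relIndex_bot_left, Subgroup.relIndex_bot_left] at h3 h4
  rw [← h3, ← h4, h1, h2]
  ring

/-- Orders: `|E| = |E ⊓ Q| * |E Q / Q|`. -/
theorem card_eq_inf_mul_map [Finite Y] (E Q : Subgroup Y) [hQ : Q.Normal] :
    Nat.card E = Nat.card ↥(E ⊓ Q) * Nat.card ↥(E.map (QuotientGroup.mk' Q)) := by
  have h1 := Subgroup.relIndex_ker (K := E) (QuotientGroup.mk' Q)
  rw [QuotientGroup.ker_mk'] at h1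
  have h2 : (E ⊓ Q).relIndex E = Q.relIndex E := Subgroup.inf_relIndex_left E Q
  have h3 := Subgroup.relIndex_mul_relIndex ⊥ (E ⊓ Q) E bot_le inf_le_left
  rw [Subgroup.relIndex_bot_left, Subgroup.relIndex_bot_left] at h3
  rw [← h3, h2, h1]

section ThreeStep

variable [Finite Y] {p : ℕ} [hp : Fact p.Prime]

/-- Package of the facts on a three-step group. -/
theorem threeStep_facts (hY : IsThreeStepGroup p Y) :
    ∃ S : Subgroup Y, S.Normal ∧ pCore p Y ≤ S ∧ S ≠ ⊤ ∧ (∃ n : ℕ, S.index = p ^ n) ∧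
      ¬ S ≤ pCore p Y ∧
      (∀ x, IsPGroup p (Subgroup.zpowers x) → x ∈ S → x ∈ pCore p Y) ∧
      (∀ x, x ∉ S → ∀ c ∈ S, c ∉ pCore p Y → x * c * x⁻¹ * c⁻¹ ∉ pCore p Y) ∧
      (∀ c ∈ S, c ∉ pCore p Y → ∀ v ∈ omegaZ p (pCore p Y), c * v = v * c → v = 1) := by
  classical
  obtain ⟨hQne, A, hA, hAcyc, hAodd, hAcop, hSn, hSne, hidx, hfpf, hx⟩ := hY
  haveI hQn : (pCore p Y).Normal := Cfsg.Agent.H01.pCore_normal p
  have hQp : IsPGroup p (pCore p Y) := Cfsg.Agent.H01.pCore_isPGroup p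
  set Q := pCore p Y with hQ
  have hmemS : ∀ c, c ∈ Q ⊔ A → ∃ u ∈ Q, ∃ a ∈ A, c = u * a := by
    intro c hc
    have h1 : c ∈ (↑(Q ⊔ A) : Set Y) := hc
    rw [Subgroup.normal_mul] at h1
    obtain ⟨u, hu, a, ha, rfl⟩ := Set.mem_mul.mp h1
    exact ⟨u, hu, a, ha, rfl⟩
  -- `A ∩ Q = 1`, and `p`-powers of nontrivial elements of `A` are nontrivial
  have hAp : ∀ a ∈ A, ∀ k : ℕ, a ^ (p ^ k) = 1 → a = 1 := by
    intro a ha k hk
    have h1 : orderOf a ∣ p ^ k := orderOf_dvd_of_pow_eq_one hk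
    have h2 : orderOf a ∣ Nat.card A := by
      have := orderOf_dvd_natCard (⟨a, ha⟩ : A)
      rwa [Subgroup.orderOf_mk] at this
    have h3 : Nat.Coprime (Nat.card A) (p ^ k) := Nat.Coprime.pow_right _ hAcop
    have h4 := Nat.Coprime.eq_one_of_dvd (Nat.Coprime.coprime_dvd_left h2 h3) h1
    exact orderOf_eq_one_iff.mp h4
  have hAQ : ∀ a ∈ A, a ∈ Q → a = 1 := by
    intro a ha haQ
    obtain ⟨k, hk⟩ := hQp ⟨a, haQ⟩
    have := congrArg Subtype.val hk
    exact hAp a ha k (by simpa using this)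
  refine ⟨Q ⊔ A, hSn, le_sup_left, hSne, hidx, ?_, ?_, ?_, ?_⟩
  · intro h
    obtain ⟨a, ha, ha1⟩ := (Subgroup.bot_or_exists_ne_one A).resolve_left hA
    exact ha1 (hAQ a ha (h (Subgroup.mem_sup_right ha)))
  · intro x hxp hxS
    obtain ⟨u, hu, a, ha, rfl⟩ := hmemS x hxS
    obtain ⟨k, hk⟩ := hxp ⟨u * a, Subgroup.mem_zpowers _⟩
    have hk' : (u * a) ^ (p ^ k) = 1 := by
      have := congrArg Subtype.val hk
      simpa using this
    have h1 : ((a : Y) : Y ⧸ Q) ^ (p ^ k) = 1 := by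
      have h2 : ((u * a : Y) : Y ⧸ Q) = ((a : Y) : Y ⧸ Q) := by
        rw [QuotientGroup.mk_mul, (QuotientGroup.eq_one_iff u).mpr hu, one_mul]
      rw [← h2, ← QuotientGroup.mk_pow, hk']
      rfl
    have h2 : a ^ (p ^ k) ∈ Q := by
      rw [← QuotientGroup.eq_one_iff, QuotientGroup.mk_pow]
      exact h1
    have h3 := hAQ _ (A.pow_mem ha _) h2
    rw [hAp a ha k h3, mul_one]
    exact hu
  · intro x hxS c hc hcQ
    obtain ⟨u, hu, a, ha, rfl⟩ := hmemS c hc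
    have ha1 : a ≠ 1 := by
      rintro rfl
      apply hcQ
      rwa [mul_one]
    intro h
    apply hx x hxS a ha ha1
    have e : x * a * x⁻¹ * a⁻¹ = (x * u * x⁻¹)⁻¹ * (x * (u * a) * x⁻¹ * (u * a)⁻¹) * u := by group
    rw [e]
    exact Q.mul_mem (Q.mul_mem (Q.inv_mem (hQn.conj_mem u hu x)) h) hu
  · intro c hc hcQ v hv hcv
    obtain ⟨u, hu, a, ha, rfl⟩ := hmemS c hc
    have ha1 : a ≠ 1 := by
      rintro rfl
      apply hcQ
      rwa [mul_one]
    have huv := hv.2.1 u hu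
    have hav : a * v = v * a := by
      have h1 : u⁻¹ * ((u * a) * v) = u⁻¹ * (v * (u * a)) := by rw [hcv]
      have h2 : u⁻¹ * ((u * a) * v) = a * v := by group
      have h3 : u⁻¹ * (v * (u * a)) = u⁻¹ * (u * v) * a := by
        rw [huv]
        group
      rw [h2, h3] at h1
      rw [h1]
      group
    have h1 : v ∈ Q ⊓ Subgroup.centralizer ({a} : Set Y) := by
      refine Subgroup.mem_inf.mpr ⟨hv.1, ?_⟩
      rw [Subgroup.mem_centralizer_iff]
      intro w hw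
      rw [Set.mem_singleton_iff.mp hw]
      exact hav
    rwa [hfpf a ha ha1, Subgroup.mem_bot] at h1

/-- In a three-step group the `p`-core contains its centralizer. -/
theorem threeStep_centralizer_le (hY : IsThreeStepGroup p Y) (y : Y)
    (hy : ∀ q ∈ pCore p Y, y * q = q * y) : y ∈ pCore p Y := by
  classical
  have hQne := hY.1
  obtain ⟨S, hSn, hQS, hSne, hidx, hSQ, hpS, hxS, hfix⟩ := threeStep_facts hY
  haveI hQn : (pCore p Y).Normal := Cfsg.Agent.H01.pCore_normal p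
  have hQp : IsPGroup p (pCore p Y) := Cfsg.Agent.H01.pCore_isPGroup p
  set Q := pCore p Y with hQ
  by_contra hyQ
  obtain ⟨z, hz, hz1⟩ := (Subgroup.bot_or_exists_ne_one _).resolve_left (omegaZ_ne_bot hQp hQne)
  by_cases hyS : y ∈ S
  · exact hz1 (hfix y hyS hyQ z hz (hy z hz.1))
  · obtain ⟨c, hc, hcQ⟩ := Set.not_subset.mp hSQ
    have hc' : y * c * y⁻¹ * c⁻¹ ∉ Q := hxS y hyS c hc hcQ
    have hcS : y * c * y⁻¹ * c⁻¹ ∈ S := S.mul_mem (hSn.conj_mem c hc y) (S.inv_mem hc)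
    apply hz1
    apply hfix _ hcS hc' z hz
    -- `y c y⁻¹` acts on `Q` as `c`
    have h1 : ∀ w ∈ Q, (y * c * y⁻¹) * w * (y * c * y⁻¹)⁻¹ = c * w * c⁻¹ := by
      intro w hw
      have h2 : y⁻¹ * w = w * y⁻¹ := by
        have := hy w hw
        calc y⁻¹ * w = y⁻¹ * (w * y) * y⁻¹ := by group
          _ = y⁻¹ * (y * w) * y⁻¹ := by rw [this]
          _ = w * y⁻¹ := by group
      have h3 : y * (c * w * c⁻¹) = (c * w * c⁻¹) * y := hy _ (hQn.conj_mem w hw c)
      have h2' : y⁻¹ * w * y = w := by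
        rw [h2]
        group
      calc (y * c * y⁻¹) * w * (y * c * y⁻¹)⁻¹ = y * c * (y⁻¹ * w * y) * c⁻¹ * y⁻¹ := by group
        _ = y * (c * w * c⁻¹) * y⁻¹ := by
            rw [h2']
            group
        _ = (c * w * c⁻¹) * y * y⁻¹ := by rw [h3]
        _ = c * w * c⁻¹ := by group
    have h4 : c⁻¹ * z * c ∈ Q := by simpa using hQn.conj_mem z hz.1 c⁻¹
    have h5 := h1 _ h4
    have h6 : (y * c * y⁻¹ * c⁻¹) * z * (y * c * y⁻¹ * c⁻¹)⁻¹ = z := by
      calc (y * c * y⁻¹ * c⁻¹) * z * (y * c * y⁻¹ * c⁻¹)⁻¹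
          = (y * c * y⁻¹) * (c⁻¹ * z * c) * (y * c * y⁻¹)⁻¹ := by group
        _ = c * (c⁻¹ * z * c) * c⁻¹ := h5
        _ = z := by group
    calc (y * c * y⁻¹ * c⁻¹) * z = ((y * c * y⁻¹ * c⁻¹) * z * (y * c * y⁻¹ * c⁻¹)⁻¹) * (y * c * y⁻¹ * c⁻¹) := by group
      _ = z * (y * c * y⁻¹ * c⁻¹) := by rw [h6]

/-- The key lemma: in a three-step group for an odd prime, the abelian subgroups of maximal order
of a `p`-subgroup containing the `p`-core lie in the `p`-core. -/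
theorem threeStep_maxAb_le (hp2 : p ≠ 2) (hY : IsThreeStepGroup p Y) (T E : Subgroup Y)
    (hT : IsPGroup p T) (hQT : pCore p Y ≤ T) (hET : E ≤ T) (hE : ∀ a ∈ E, ∀ b ∈ E, a * b = b * a)
    (hmax : ∀ E' : Subgroup Y, E' ≤ T → (∀ a ∈ E', ∀ b ∈ E', a * b = b * a) →
      Nat.card E' ≤ Nat.card E) : E ≤ pCore p Y := by
  classical
  have hQne := hY.1
  obtain ⟨S, hSn, hQS, hSne, hidx, hSQ, hpS, hxS, hfix⟩ := threeStep_facts hY
  haveI hQn : (pCore p Y).Normal := Cfsg.Agent.H01.pCore_normal p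
  have hQp : IsPGroup p (pCore p Y) := Cfsg.Agent.H01.pCore_isPGroup p
  set Q := pCore p Y with hQ
  by_contra hEQ
  have hTp : ∀ x ∈ T, IsPGroup p (Subgroup.zpowers x) := by
    intro x hx
    have h1 : Subgroup.zpowers x ≤ T := (Subgroup.zpowers_le).mpr hx
    exact hT.to_le h1
  have hTS : ∀ x ∈ T, x ∈ S → x ∈ Q := fun x hx hxS' => hpS x (hTp x hx) hxS'
  haveI hSn' : S.Normal := hSn
  -- the quotient
  set mk := QuotientGroup.mk' Q with hmk
  have hmkQ : ∀ x, mk x = 1 ↔ x ∈ Q := fun x => QuotientGroup.eq_one_iff x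
  set Kb : Subgroup (Y ⧸ Q) := S.map mk with hKb
  haveI hKbn : Kb.Normal := Subgroup.Normal.map hSn mk (QuotientGroup.mk'_surjective Q)
  set Tb : Subgroup (Y ⧸ Q) := T.map mk with hTb
  set Eb : Subgroup (Y ⧸ Q) := E.map mk with hEb
  have hEbT : Eb ≤ Tb := Subgroup.map_mono hET
  have hEbp : IsPGroup p Eb := (hT.to_le hET).map mk
  have hKbne : Kb ≠ ⊥ := by
    intro h
    apply hSQ
    intro c hc
    have : mk c ∈ Kb := ⟨c, hc, rfl⟩
    rw [h, Subgroup.mem_bot] at this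
    exact (hmkQ c).mp this
  have hfpfb : ∀ h ∈ Tb, h ≠ 1 → Kb ⊓ Subgroup.centralizer {h} = ⊥ := by
    rintro _ ⟨x, hx, rfl⟩ hx1
    rw [eq_bot_iff]
    rintro _ ⟨⟨c, hc, rfl⟩, hcc⟩
    rw [Subgroup.mem_bot]
    by_contra hc1
    have hcQ : c ∉ Q := fun h => hc1 ((hmkQ c).mpr h)
    have hxQ : x ∉ Q := fun h => hx1 ((hmkQ x).mpr h)
    have hxS' : x ∉ S := fun h => hxQ (hTS x hx h)
    apply hxS x hxS' c hc hcQ
    rw [← hmkQ]
    have h2 : mk c * mk x = mk x * mk c := by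
      have := Subgroup.mem_centralizer_iff.mp hcc (mk x) rfl
      exact this.symm
    rw [map_mul, map_mul, map_mul, map_inv, map_inv, ← h2]
    group
  have hTbN : Tb ≤ Subgroup.normalizer (Kb : Set (Y ⧸ Q)) := by
    intro h _
    rw [Subgroup.mem_normalizer_iff]
    intro c
    constructor
    · intro hc
      exact hKbn.conj_mem c hc h
    · intro hc
      have := hKbn.conj_mem _ hc h⁻¹
      simpa [mul_assoc] using this
  have hEbc : IsCyclic Eb := fpf_isCyclic_of_odd Kb Tb hTbN hKbne hfpfb hp2 Eb hEbT hEbp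
  obtain ⟨⟨g, hg⟩, hgen⟩ := IsCyclic.exists_generator (α := Eb)
  obtain ⟨y, hyE, rfl⟩ := hg
  obtain ⟨t, ht⟩ := IsPGroup.iff_card.mp hEbp
  have hord : orderOf (mk y) = p ^ t := by
    have h1 := orderOf_eq_card_of_forall_mem_zpowers hgen
    rw [ht] at h1
    rw [← h1]
    exact (Subgroup.orderOf_mk (mk y) _).symm
  set q := p ^ t with hq
  have hp3 : 3 ≤ p := by
    have := hp.out.two_le
    omega
  have hEbne : Eb ≠ ⊥ := by
    intro h
    apply hEQ
    intro e he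
    have : mk e ∈ Eb := ⟨e, he, rfl⟩
    rw [h, Subgroup.mem_bot] at this
    exact (hmkQ e).mp this
  have ht0 : t ≠ 0 := by
    rintro rfl
    apply hEbne
    have h1 : Nat.card Eb = 1 := by
      rw [ht, hq, pow_zero]
    exact Subgroup.eq_bot_of_card_eq Eb h1
  have hq3 : 3 ≤ q := by
    calc 3 ≤ p := hp3
      _ = p ^ 1 := (pow_one p).symm
      _ ≤ p ^ t := Nat.pow_le_pow_right hp.out.pos (by omega)
  set V := omegaZ p Q with hV
  haveI hVn : V.Normal := omegaZ_normal p Q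
  have hVne : V ≠ ⊥ := omegaZ_ne_bot hQp hQne
  have hVQ : V ≤ Q := fun v hv => hv.1
  have hVab : ∀ u ∈ V, ∀ v ∈ V, u * v = v * u := fun u hu v hv => hv.2.1 u hu.1
  have hbound := free_rank_bound (p := p) Q V (fun v hv q hq => hv.2.1 q hq) hVab (fun v hv => hv.2.2)
    hVne S hSQ y t (by
      rw [← hmkQ, map_pow, ← hq, ← hord]
      exact pow_orderOf_eq_one _) (fun c hc => hSn.conj_mem c hc y) (by
      intro i hi0 hi c hc hcQ
      have h1 : y ^ i ∉ Q := by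
        intro h
        have h2 : mk y ^ i = 1 := by
          rw [← map_pow]
          exact (hmkQ _).mpr h
        have h3 := orderOf_dvd_of_pow_eq_one h2
        rw [hord] at h3
        exact absurd (Nat.le_of_dvd hi0 h3) (by omega)
      have h2 : y ^ i ∉ S := fun h => h1 (hTS _ (T.pow_mem (hET hyE) i) h)
      have h3 := hxS (y ^ i) h2 c hc hcQ
      rwa [inv_pow]) (fun c hc hcQ v hv hcv => hfix c hc hcQ v hv hcv)
  rw [← hq] at hbound
  -- counting
  set E₀ := E ⊓ Q with hE₀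
  have hsupT : V ⊔ E₀ ≤ T := sup_le (hVQ.trans hQT) (inf_le_left.trans hET)
  have hsupab : ∀ a ∈ V ⊔ E₀, ∀ b ∈ V ⊔ E₀, a * b = b * a := by
    have hE₀V : ∀ e ∈ E₀, ∀ v ∈ V, e * v = v * e := fun e he v hv => hv.2.1 e he.2
    have hmem : ∀ c, c ∈ V ⊔ E₀ → ∃ v ∈ V, ∃ e ∈ E₀, c = v * e := by
      intro c hc
      have h1 : c ∈ (↑(V ⊔ E₀) : Set Y) := hc
      rw [Subgroup.normal_mul] at h1
      obtain ⟨u, hu, a, ha, rfl⟩ := Set.mem_mul.mp h1
      exact ⟨u, hu, a, ha, rfl⟩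
    intro a ha b hb
    obtain ⟨v, hv, e, he, rfl⟩ := hmem a ha
    obtain ⟨v', hv', e', he', rfl⟩ := hmem b hb
    have h1 := hVab v hv v' hv'
    have h2 := hE e he.1 e' he'.1
    have h3 := hE₀V e he v' hv'
    have h4 := hE₀V e' he' v hv
    calc v * e * (v' * e') = v * (e * v') * e' := by group
      _ = v * (v' * e) * e' := by rw [h3]
      _ = (v * v') * (e * e') := by group
      _ = (v' * v) * (e' * e) := by rw [h1, h2]
      _ = v' * (v * e') * e := by group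
      _ = v' * (e' * v) * e := by rw [h4]
      _ = v' * e' * (v * e) := by group
  have h1 := hmax _ hsupT hsupab
  have h2 := card_sup_mul_card_inf E₀ V
  have h3 := card_eq_inf_mul_map E Q
  have h4 : Nat.card ↥(E.map (QuotientGroup.mk' Q)) = q := by
    exact ht
  rw [h4] at h3
  have h5 : Nat.card ↥(V ⊓ E₀) ≤ Nat.card ↥(V ⊓ Subgroup.centralizer ({y} : Set Y)) := by
    apply Subgroup.card_le_of_le
    intro w hw
    refine Subgroup.mem_inf.mpr ⟨hw.1, ?_⟩
    rw [Subgroup.mem_centralizer_iff]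
    intro z hz
    rw [Set.mem_singleton_iff.mp hz]
    exact hE _ hyE _ hw.2.1
  have hE₀pos : 0 < Nat.card E₀ := Nat.card_pos
  have hinfpos : 0 < Nat.card ↥(V ⊓ E₀) := Nat.card_pos
  have hCpos : 0 < Nat.card ↥(V ⊓ Subgroup.centralizer ({y} : Set Y)) := Nat.card_pos
  have h6 : Nat.card V ≤ q * Nat.card ↥(V ⊓ E₀) := by
    have h7 : Nat.card E₀ * Nat.card V ≤ Nat.card E₀ * (q * Nat.card ↥(V ⊓ E₀)) := by
      calc Nat.card E₀ * Nat.card V = Nat.card ↥(V ⊔ E₀) * Nat.card ↥(V ⊓ E₀) := h2.symm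
        _ ≤ Nat.card E * Nat.card ↥(V ⊓ E₀) := Nat.mul_le_mul_right _ h1
        _ = Nat.card E₀ * (q * Nat.card ↥(V ⊓ E₀)) := by
            rw [h3]
            ring
    exact Nat.le_of_mul_le_mul_left h7 hE₀pos
  have h7 : p ^ (q - 1) ≤ q := by
    have h8 : p ^ (q - 1) * Nat.card ↥(V ⊓ Subgroup.centralizer ({y} : Set Y)) ≤
        q * Nat.card ↥(V ⊓ Subgroup.centralizer ({y} : Set Y)) :=
      hbound.trans (h6.trans (Nat.mul_le_mul_left _ h5))
    exact Nat.le_of_mul_le_mul_right h8 hCpos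
  have h9 : q - 1 < 2 ^ (q - 1) := Nat.lt_two_pow_self
  have h10 : 2 ^ (q - 1) < p ^ (q - 1) := Nat.pow_lt_pow_left (by omega) (by omega)
  omega

end ThreeStep

end Cfsg.Agent.H06
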