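import Cfsg.Agent.Lib.H06.CoherJ3
import Cfsg.Agent.S0171
import Cfsg.Agent.S1514
import Cfsg.Agent.S1521
import Cfsg.Agent.Lib.H06.Brauer1

/-!
# Coherence for Frobenius groups with TI kernel
-/

set_option autoImplicit false

namespace Cfsg.Agent.H06

open Cfsg Cfsg.Agent.H21
open scoped ComplexConjugate

universe u

section Frob

variable {L : Type u} [Group L] [Finite L]

/-- The centraliser of a non-identity element of the kernel is in the kernel. -/
theorem frob_hC (K W : Subgroup L) [hK : K.Normal] (hKW : K ⊔ W = ⊤)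
    (hfpf : ∀ a ∈ W, a ≠ 1 → ∀ k ∈ K, a * k = k * a → k = 1) :
    ∀ k ∈ K, k ≠ 1 → ∀ x : L, x * k = k * x → x ∈ K := by
  classical
  intro k hk hk1 x hxk
  have hxm : x ∈ (↑(K ⊔ W) : Set L) := by rw [hKW]; simp
  rw [Subgroup.normal_mul] at hxm
  obtain ⟨n, hn, a, ha, rfl⟩ := Set.mem_mul.mp hxm
  have hn' : n ∈ K := hn
  have ha' : a ∈ W := ha
  by_cases ha1 : a = 1
  · rw [ha1, mul_one]
    exact hn'
  exfalso
  let φ : K → K := fun u => ⟨(u : L)⁻¹ * (a * u * a⁻¹), K.mul_mem (K.inv_mem u.2) (hK.conj_mem _ u.2 a)⟩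
  have hφ : Function.Injective φ := by
    intro u v huv
    have h1 : (u : L)⁻¹ * (a * u * a⁻¹) = (v : L)⁻¹ * (a * v * a⁻¹) := congrArg Subtype.val huv
    have h2 : a * ((v : L) * (u : L)⁻¹) = ((v : L) * (u : L)⁻¹) * a := by
      have h3 : (u : L)⁻¹ * a * u = (v : L)⁻¹ * a * v := by
        have := congrArg (fun z => z * a) h1
        simpa [mul_assoc] using this
      calc a * ((v : L) * (u : L)⁻¹) = (v : L) * ((v : L)⁻¹ * a * v) * (u : L)⁻¹ := by group
        _ = (v : L) * ((u : L)⁻¹ * a * u) * (u : L)⁻¹ := by rw [h3]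
        _ = ((v : L) * (u : L)⁻¹) * a := by group
    have h4 := hfpf a ha' ha1 _ (K.mul_mem v.2 (K.inv_mem u.2)) h2
    apply Subtype.ext
    rw [mul_inv_eq_one] at h4
    exact h4.symm
  obtain ⟨u, hu⟩ := (Finite.injective_iff_surjective.mp hφ) ⟨n, hn'⟩
  have h1 : (u : L)⁻¹ * (a * u * a⁻¹) = n := congrArg Subtype.val hu
  have hx : n * a = (u : L)⁻¹ * a * u := by
    rw [← h1]
    group
  rw [hx] at hxk
  have h2 : a * ((u : L) * k * (u : L)⁻¹) = ((u : L) * k * (u : L)⁻¹) * a := by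
    calc a * ((u : L) * k * (u : L)⁻¹) = (u : L) * ((u : L)⁻¹ * a * u * k) * (u : L)⁻¹ := by group
      _ = (u : L) * (k * ((u : L)⁻¹ * a * u)) * (u : L)⁻¹ := by rw [hxk]
      _ = ((u : L) * k * (u : L)⁻¹) * a := by group
  have h3 := hfpf a ha' ha1 _ (hK.conj_mem k hk u) h2
  apply hk1
  have h4 : (u : L)⁻¹ * ((u : L) * k * (u : L)⁻¹) * u = (u : L)⁻¹ * 1 * u := by rw [h3]
  simpa [mul_assoc] using h4

/-- Frobenius action on the abelianization of the kernel. -/
theorem frob_quot (K : Subgroup L) [hK : K.Normal]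
    (hC : ∀ k ∈ K, k ≠ 1 → ∀ x : L, x * k = k * x → x ∈ K) :
    ∀ k ∈ K, k ∉ ⁅K, K⁆ → ∀ x : L, x * k * x⁻¹ * k⁻¹ ∈ ⁅K, K⁆ → x ∈ K := by
  classical
  intro k hk hk' x h
  by_contra hx
  haveI hH₁ : (⁅K, K⁆).Normal := Subgroup.commutator_normal K K
  let f := QuotientGroup.mk' (⁅K, K⁆)
  let φ : K → K := fun u => ⟨x * u * x⁻¹ * (u : L)⁻¹, K.mul_mem (hK.conj_mem _ u.2 x) (K.inv_mem u.2)⟩
  have hφ : Function.Injective φ := by
    intro u v huv
    have h1 : x * (u : L) * x⁻¹ * (u : L)⁻¹ = x * v * x⁻¹ * (v : L)⁻¹ := congrArg Subtype.val huv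
    have h2 : x * ((v : L)⁻¹ * u) = ((v : L)⁻¹ * u) * x := by
      have h3 : (u : L) * x⁻¹ * (u : L)⁻¹ = (v : L) * x⁻¹ * (v : L)⁻¹ := by
        have := congrArg (fun z => x⁻¹ * z) h1
        simpa [mul_assoc] using this
      have h4 : (v : L)⁻¹ * u * x⁻¹ = x⁻¹ * ((v : L)⁻¹ * u) := by
        calc (v : L)⁻¹ * u * x⁻¹ = (v : L)⁻¹ * ((u : L) * x⁻¹ * (u : L)⁻¹) * u := by group
          _ = (v : L)⁻¹ * ((v : L) * x⁻¹ * (v : L)⁻¹) * u := by rw [h3]
          _ = x⁻¹ * ((v : L)⁻¹ * u) := by group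
      calc x * ((v : L)⁻¹ * u) = x * ((v : L)⁻¹ * u * x⁻¹) * x := by group
        _ = x * (x⁻¹ * ((v : L)⁻¹ * u)) * x := by rw [h4]
        _ = ((v : L)⁻¹ * u) * x := by group
    by_contra hne
    apply hx
    refine hC _ (K.mul_mem (K.inv_mem v.2) u.2) ?_ x h2
    intro h3
    apply hne
    apply Subtype.ext
    rw [inv_mul_eq_one] at h3
    exact h3.symm
  have hsurj := Finite.injective_iff_surjective.mp hφ
  let Nb : Subgroup (L ⧸ ⁅K, K⁆) := K.map f
  have hmem : ∀ q : Nb, f x * (q : L ⧸ ⁅K, K⁆) * (f x)⁻¹ * (q : L ⧸ ⁅K, K⁆)⁻¹ ∈ Nb := by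
    rintro ⟨q, u, hu, rfl⟩
    refine ⟨x * u * x⁻¹ * u⁻¹, K.mul_mem (hK.conj_mem _ hu x) (K.inv_mem hu), ?_⟩
    simp
  let g : Nb → Nb := fun q => ⟨_, hmem q⟩
  have hg : Function.Surjective g := by
    rintro ⟨q, u, hu, rfl⟩
    obtain ⟨w, hw⟩ := hsurj ⟨u, hu⟩
    have h1 : x * (w : L) * x⁻¹ * (w : L)⁻¹ = u := congrArg Subtype.val hw
    refine ⟨⟨f w, w, w.2, rfl⟩, ?_⟩
    apply Subtype.ext
    show f x * f w * (f x)⁻¹ * (f w)⁻¹ = f u
    rw [← h1]
    simp
  have hinj := Finite.injective_iff_surjective.mpr hg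
  have h1 : g ⟨f k, k, hk, rfl⟩ = g 1 := by
    apply Subtype.ext
    show f x * f k * (f x)⁻¹ * (f k)⁻¹ = f x * ((1 : Nb) : L ⧸ ⁅K, K⁆) * (f x)⁻¹ * ((1 : Nb) : L ⧸ ⁅K, K⁆)⁻¹
    have h2 : f (x * k * x⁻¹ * k⁻¹) = 1 := (QuotientGroup.eq_one_iff _).mpr h
    simp only [map_mul, map_inv] at h2
    rw [h2]
    simp
  have h2 := hinj h1
  have h3 : f k = 1 := congrArg Subtype.val h2
  exact hk' ((QuotientGroup.eq_one_iff _).mp h3)

/-- Elements of prime power order lie in a Frobenius kernel which is a `p`-group. -/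
theorem frob_mem_of_ppow (K : Subgroup L) [hK : K.Normal] {p m : ℕ} [hp : Fact p.Prime]
    (hcard : Nat.card K = p ^ m) (hH₁K : ⁅K, K⁆ < K)
    (hfrob : ∀ k ∈ K, k ∉ ⁅K, K⁆ → ∀ x : L, x * k * x⁻¹ * k⁻¹ ∈ ⁅K, K⁆ → x ∈ K)
    (a : L) (ha : ∃ k : ℕ, a ^ (p ^ k) = 1) : a ∈ K := by
  classical
  have hpp : p.Prime := Fact.out
  haveI hK'n : (⁅K, K⁆).Normal := Subgroup.commutator_normal K K
  have hdv := frob_index_dvd K ⁅K, K⁆ K hH₁K.le le_rfl
    (fun x hx y hy => Subgroup.commutator_mem_commutator hx hy) hfrob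
  have hepc : Nat.Coprime K.index p := by
    rw [Nat.coprime_comm, Nat.Prime.coprime_iff_not_dvd hpp]
    intro hpe
    have hr1 : (⁅K, K⁆).relIndex K ≠ 1 := by
      intro h
      rw [Subgroup.relIndex_eq_one] at h
      exact hH₁K.not_ge h
    have hr2 : (⁅K, K⁆).relIndex K ∣ p ^ m := hcard ▸ Subgroup.relIndex_dvd_card _ _
    obtain ⟨j, _, hj⟩ := (Nat.dvd_prime_pow hpp).mp hr2
    have hj0 : j ≠ 0 := by
      rintro rfl
      rw [pow_zero] at hj
      exact hr1 hj
    have h1 : p ∣ (⁅K, K⁆).relIndex K := by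
      rw [hj]
      exact dvd_pow_self p hj0
    have h2 : p ∣ (⁅K, K⁆).relIndex K - 1 := hpe.trans hdv
    have h3 : 1 ≤ (⁅K, K⁆).relIndex K := Nat.pos_of_ne_zero (by
      intro h
      rw [hj] at h
      exact (pow_pos hpp.pos j).ne' h)
    have h4 : p ∣ 1 := by
      have := (Nat.dvd_sub h1 h2)
      rwa [Nat.sub_sub_self h3] at this
    exact hpp.one_lt.ne' (Nat.dvd_one.mp h4)
  obtain ⟨k, hk⟩ := ha
  let q := QuotientGroup.mk' K
  have h1 : orderOf (q a) ∣ p ^ k := orderOf_dvd_of_pow_eq_one (by rw [← map_pow, hk, map_one])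
  have h2 : orderOf (q a) ∣ K.index := orderOf_dvd_natCard (q a)
  have h3 : Nat.Coprime K.index (p ^ k) := Nat.Coprime.pow_right _ hepc
  have h4 := Nat.Coprime.eq_one_of_dvd (Nat.Coprime.coprime_dvd_left h2 h3) h1
  exact (QuotientGroup.eq_one_iff a).mp (orderOf_eq_one_iff.mp h4)

end Frob

section Ind

variable {G : Type u} [Group G] [Fintype G]

/-- Induction from the normaliser of a TI subgroup is the identity on nonidentity elements of the
subgroup. -/
theorem ind_eq_on_ti (H L : Subgroup G) [Fintype L]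
    (hTI : ∀ g : G, g ∉ L → ∀ k ∈ H, g * k * g⁻¹ ∈ H → k = 1)
    (β : L → ℂ) (hβ : IsClassFunction L β) (hoff : ∀ x : L, (x : G) ∉ H → β x = 0)
    (k : L) (hk : (k : G) ∈ H) (hk1 : k ≠ 1) : indFun L β k = β k := by
  classical
  rw [indFun]
  have h1 : ∀ x : G, extendByZero L β (x⁻¹ * k * x) = if x ∈ L then β k else 0 := by
    intro x
    split_ifs with hx
    · have h2 : x⁻¹ * (k : G) * x = ((⟨x, hx⟩⁻¹ * k * ⟨x, hx⟩ : L) : G) := by
        simp
      rw [h2, extendByZero_coe]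
      have := hβ k (⟨x, hx⟩⁻¹)
      simpa using this
    · by_cases h2 : x⁻¹ * (k : G) * x ∈ L
      · have h3 := extendByZero_coe L β ⟨_, h2⟩
        simp only at h3
        rw [h3]
        apply hoff
        intro h4
        have hxi : x⁻¹ ∉ L := fun h => hx (by simpa using L.inv_mem h)
        have h5 := hTI x⁻¹ hxi k hk (by simpa using h4)
        exact hk1 (Subtype.ext h5)
      · exact extendByZero_of_not_mem _ β h2
  rw [Finset.sum_congr rfl (fun x _ => h1 x), Finset.sum_ite, Finset.sum_const_zero, add_zero, Finset.sum_const]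
  have h3 : (Finset.univ.filter (fun x : G => x ∈ L)).card = Nat.card L := by
    rw [Nat.card_eq_fintype_card, Fintype.card_subtype]
  rw [h3, nsmul_eq_mul, ← mul_assoc, inv_mul_cancel₀ (Nat.cast_ne_zero.mpr Nat.card_pos.ne'), one_mul]

/-- Induction is a linear isometry on the integer combinations of characters induced from `H`
vanishing at `1`. -/
theorem ti_isometry (H L : Subgroup G) [Fintype L] (hHL : H ≤ L) (K : Subgroup L) (hKH : ∀ x : L, x ∈ K ↔ (x : G) ∈ H)
    (hTI : ∀ g : G, g ∉ L → ∀ k ∈ H, g * k * g⁻¹ ∈ H → k = 1)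
    (S : Set (L → ℂ)) (hSc : ∀ χ ∈ S, IsCharacter L χ) (hSoff : ∀ χ ∈ S, ∀ x : L, x ∉ K → χ x = 0) :
    IsLinearIsometryOn (zspanOn S {1}ᶜ) (fun α : L → ℂ => indFun L α) ∧
      ∀ α ∈ zspanOn S {1}ᶜ, indFun L α 1 = 0 := by
  classical
  haveI : Fintype (IrrCharacter L) := Fintype.ofFinite _
  have hz : ∀ α ∈ zspan S, IsClassFunction L α ∧ (∀ x : L, x ∉ K → α x = 0) ∧ IsGeneralizedCharacter L α := by
    intro α hα
    have hα' : α ∈ Submodule.span ℤ S := hα
    clear hα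
    induction hα' using Submodule.span_induction with
    | mem u hu =>
      exact ⟨isClassFunction_of_isCharacter (hSc u hu), hSoff u hu, gen_of_char (hSc u hu)⟩
    | zero =>
      refine ⟨fun _ _ => rfl, fun _ _ => rfl, isGeneralized_zero⟩
    | add a b _ _ ha hb =>
      refine ⟨fun g k => ?_, fun x hx => ?_, gen_add ha.2.2 hb.2.2⟩
      · simp only [Pi.add_apply]
        rw [ha.1, hb.1]
      · simp only [Pi.add_apply]
        rw [ha.2.1 x hx, hb.2.1 x hx, add_zero]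
    | smul c a _ ha =>
      refine ⟨fun g k => ?_, fun x hx => ?_, gen_zsmul ha.2.2 c⟩
      · simp only [zsmul_apply']
        rw [ha.1]
      · simp only [zsmul_apply']
        rw [ha.2.1 x hx, mul_zero]
  refine ⟨⟨?_, ?_, ?_, ?_⟩, ?_⟩
  · intro α _ β _
    exact indFun_add L α β
  · intro α _ n
    show indFun L (n • α) = n • indFun L α
    rw [← Int.cast_smul_eq_zsmul ℂ n α, ← Int.cast_smul_eq_zsmul ℂ n (indFun L α), indFun_smul]
  · intro α hα β hβ
    show classInner (indFun L α) (indFun L β) = classInner α β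
    rw [frobenius_reciprocity L α _ (indFun_isClass L β)]
    simp only [classInner]
    congr 1
    refine Finset.sum_congr rfl fun x _ => ?_
    by_cases hxK : x ∈ K
    · by_cases hx1 : x = 1
      · have : α x = 0 := hα.2 x (by simpa using hx1)
        rw [this]
        simp
      · rw [ind_eq_on_ti H L hTI β (hz β hβ.1).1 (fun y hy => (hz β hβ.1).2.1 y (fun h => hy ((hKH y).mp h))) x
          ((hKH x).mp hxK) hx1]
    · rw [(hz α hα.1).2.1 x hxK]
      simp
  · intro α hα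
    exact Brauer.gen_indFun L (hz α hα.1).2.2
  · intro α hα
    rw [indFun_one, hα.2 1 (by simp), mul_zero]

end Ind

section Main

variable {G : Type u} [Group G] [Fintype G]

/-- Coherence for a Frobenius group of odd order with a TI kernel. -/
theorem coh_tiFrob (H L W₁ : Subgroup G) [Fintype L] (hodd : Odd (Nat.card L)) (hHL : H ≤ L) (hW₁L : W₁ ≤ L)
    (hH1 : H ≠ ⊥) (hW1 : W₁ ≠ ⊥) (hnil : Group.IsNilpotent H) (hHn : ∀ x ∈ L, ∀ h ∈ H, x * h * x⁻¹ ∈ H)
    (hinf : H ⊓ W₁ = ⊥) (hsup : H ⊔ W₁ = L) (hfpf : ∀ w ∈ W₁, w ≠ 1 → ∀ h ∈ H, w * h = h * w → h = 1)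
    (hTI : IsTISubset (H : Set G)) (hN : Subgroup.normalizer (H : Set G) = L) :
    IsCoherent (inducedIrrAbove (H.subgroupOf L) ⊥) {1}ᶜ (fun α : L → ℂ => indFun L α) := by
  classical
  set K : Subgroup L := H.subgroupOf L with hKdef
  have hKm : ∀ x : L, x ∈ K ↔ (x : G) ∈ H := fun x => Subgroup.mem_subgroupOf
  haveI hK : K.Normal := ⟨fun k hk g => (hKm _).mpr (hHn g g.2 k ((hKm k).mp hk))⟩
  haveI : Fintype K := Fintype.ofFinite _
  haveI : Fintype (IrrCharacter K) := Fintype.ofFinite _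
  set W : Subgroup L := W₁.subgroupOf L with hWdef
  have hWm : ∀ x : L, x ∈ W ↔ (x : G) ∈ W₁ := fun x => Subgroup.mem_subgroupOf
  have hKW : K ⊓ W = ⊥ := by
    rw [eq_bot_iff]
    intro x hx
    have h1 : (x : G) ∈ H ⊓ W₁ := ⟨(hKm x).mp hx.1, (hWm x).mp hx.2⟩
    rw [hinf, Subgroup.mem_bot] at h1
    exact (Subgroup.mem_bot).mpr (Subtype.ext h1)
  have hKW' : K ⊔ W = ⊤ := by
    apply Subgroup.map_injective L.subtype_injective
    rw [Subgroup.map_sup, Subgroup.map_subgroupOf_eq_of_le hHL, Subgroup.map_subgroupOf_eq_of_le hW₁L, hsup,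
      ← MonoidHom.range_eq_map, Subgroup.range_subtype]
  have hfpf' : ∀ a ∈ W, a ≠ 1 → ∀ k ∈ K, a * k = k * a → k = 1 := by
    intro a ha ha1 k hk hak
    apply Subtype.ext
    exact hfpf a ((hWm a).mp ha) (fun h => ha1 (Subtype.ext h)) k ((hKm k).mp hk) (congrArg Subtype.val hak)
  have hC := frob_hC K W hKW' hfpf'
  have hfrob := frob_quot K hC
  have hKne : K ≠ ⊥ := by
    intro h
    apply hH1
    rw [eq_bot_iff]
    intro x hx
    have h1 : (⟨x, hHL hx⟩ : L) ∈ K := (hKm _).mpr hx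
    rw [h, Subgroup.mem_bot] at h1
    exact Subgroup.mem_bot.mpr (congrArg Subtype.val h1)
  have hKL : K < ⊤ := by
    refine lt_top_iff_ne_top.mpr fun h => hW1 ?_
    rw [eq_bot_iff]
    intro x hx
    have h1 : (⟨x, hW₁L hx⟩ : L) ∈ K ⊓ W := ⟨by rw [h]; trivial, (hWm _).mpr hx⟩
    rw [hKW, Subgroup.mem_bot] at h1
    exact Subgroup.mem_bot.mpr (congrArg Subtype.val h1)
  have hnilK : Group.IsNilpotent K :=
    Group.nilpotent_of_surjective (Subgroup.subgroupOfEquivOfLe hHL).symm.toMonoidHom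
      (Subgroup.subgroupOfEquivOfLe hHL).symm.surjective
  have hsolv : Group.IsSolvable K := inferInstance
  haveI hntK : Nontrivial K := by
    obtain ⟨k, hk, hk1⟩ := (Subgroup.bot_or_exists_ne_one K).resolve_left hKne
    exact ⟨⟨⟨k, hk⟩, 1, fun h => hk1 (congrArg Subtype.val h)⟩⟩
  have hH₁K : ⁅K, K⁆ < K := by
    have h1 := Group.IsSolvable.commutator_lt_top_of_nontrivial K
    obtain ⟨z, -, hz⟩ := SetLike.exists_of_lt h1
    refine lt_of_le_of_ne (Subgroup.commutator_le_self K) ?_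
    intro h
    apply hz
    have h2 : (z : L) ∈ ⁅K, K⁆ := by rw [h]; exact z.2
    rw [← Subgroup.map_subtype_commutator] at h2
    obtain ⟨y, hy, hyz⟩ := h2
    have : y = z := Subtype.ext hyz
    rwa [← this]
  -- irreducibility
  have hirr : ∀ χ ∈ inducedIrrAbove K ⊥, IsIrrCharacter L χ := by
    rintro χ ⟨θ, hθ, hne, -, rfl⟩
    exact Cfsg.Agent.S0171.result K W hKW hKW' hfpf' θ hθ hne
  -- conjugation
  have hconj : ∀ χ ∈ inducedIrrAbove K ⊥, conjFun χ ∈ inducedIrrAbove K ⊥ ∧ conjFun χ ≠ χ := by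
    intro χ hχ
    refine ⟨inducedIrrAbove_conj K ⊥ hχ, conj_ne_of_odd hodd (hirr χ hχ) ?_⟩
    obtain ⟨θ, hθ, hne, -, rfl⟩ := hχ
    intro h
    have h1 : classInner (indFun K θ) (fun _ : L => (1 : ℂ)) = classInner θ (fun _ : K => (1 : ℂ)) :=
      frobenius_reciprocity K θ _ (fun _ _ => rfl)
    rw [classInner_irr_ne hθ isIrrCharacter_one hne, h, classInner_irr_self isIrrCharacter_one] at h1
    exact one_ne_zero h1
  -- nonempty
  have hne : (inducedIrrAbove K ⊥).Nonempty := by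
    obtain ⟨ω, -, hω⟩ := exists_linear_trivial (⊥ : Subgroup K) bot_ne_top
    refine ⟨_, _, Cfsg.Agent.H23.isIrrCharacter_hom ω, ?_, ?_, rfl⟩
    · intro h
      apply hω
      ext k
      have := congrFun h k
      simpa using this
    · intro a ha
      have h1 : a = 1 := by
        ext
        simpa using ha
      rw [h1]
  have hTI' : ∀ g : G, g ∉ L → ∀ k ∈ H, g * k * g⁻¹ ∈ H → k = 1 := by
    intro g hg k hk h
    exact hTI g (by rw [hN]; exact hg) k hk h
  obtain ⟨hiso, hone⟩ := ti_isometry H L hHL K hKm hTI' (inducedIrrAbove K ⊥)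
    (fun χ hχ => isCharacter_of_irr (hirr χ hχ))
    (by
      rintro χ ⟨θ, -, -, -, rfl⟩ x hx
      exact indFun_of_not_mem K θ hx)
  obtain ⟨R, hS⟩ := Cfsg.Agent.S1514.result _ hne hirr hconj _ hiso hone
  by_cases hpow : ∃ p m : ℕ, p.Prime ∧ Nat.card K = p ^ m
  · obtain ⟨p, m, hp, hcard⟩ := hpow
    haveI : Fact p.Prime := ⟨hp⟩
    have hcH : Nat.card H = p ^ m := by
      rw [← hcard]
      exact (Nat.card_congr (Subgroup.subgroupOfEquivOfLe hHL).toEquiv).symm
    have hHp : IsPGroup p H := IsPGroup.of_card hcH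
    obtain ⟨Q, hQ⟩ := hHp.exists_le_sylow
    have hKp := frob_mem_of_ppow K hcard hH₁K hfrob
    have hQH : (Q : Subgroup G) = H := by
      by_contra hne'
      have hlt : H < (Q : Subgroup G) := lt_of_le_of_ne hQ (Ne.symm hne')
      have hQnil : Group.IsNilpotent (Q : Subgroup G) := Q.isPGroup'.isNilpotent
      have hnc := Group.normalizerCondition_of_isNilpotent (G := (Q : Subgroup G))
      have htop : H.subgroupOf (Q : Subgroup G) < ⊤ := by
        refine lt_top_iff_ne_top.mpr fun h => hlt.not_ge ?_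
        intro x hx
        have : (⟨x, hx⟩ : (Q : Subgroup G)) ∈ H.subgroupOf (Q : Subgroup G) := by rw [h]; trivial
        exact Subgroup.mem_subgroupOf.mp this
      obtain ⟨y, hy, hy'⟩ := SetLike.exists_of_lt (hnc _ htop)
      have hyL : (y : G) ∈ L := by
        rw [← hN]
        rw [Subgroup.mem_normalizer_iff]
        intro h
        have hhQ : h ∈ H → h ∈ (Q : Subgroup G) := fun hh => hQ hh
        constructor
        · intro hh
          have h1 := Subgroup.mem_normalizer_iff.mp hy ⟨h, hQ hh⟩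
          have h2 := h1.mp (Subgroup.mem_subgroupOf.mpr hh)
          exact Subgroup.mem_subgroupOf.mp h2
        · intro hh
          have hmemQ : y.1 * h * y.1⁻¹ ∈ (Q : Subgroup G) := hQ hh
          have hhQ' : h ∈ (Q : Subgroup G) := by
            have h3 := (Q : Subgroup G).mul_mem ((Q : Subgroup G).mul_mem ((Q : Subgroup G).inv_mem y.2) hmemQ) y.2
            simpa [mul_assoc] using h3
          have h1 := Subgroup.mem_normalizer_iff.mp hy ⟨h, hhQ'⟩
          have h2 := h1.mpr (Subgroup.mem_subgroupOf.mpr hh)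
          exact Subgroup.mem_subgroupOf.mp h2
      apply hy'
      have hpe : IsPGroup p (Q : Subgroup G) := Q.isPGroup'
      obtain ⟨k, hk⟩ := hpe y
      have h1 := hKp ⟨y, hyL⟩ ⟨k, by
        apply Subtype.ext
        have := congrArg Subtype.val hk
        simpa using this⟩
      exact Subgroup.mem_subgroupOf.mpr ((hKm _).mp h1)
    refine coh_tiFrob_pgroup L K hcard Q ?_ ?_ ?_ hodd R hS hirr hH₁K hKL hfrob hC
    · intro x
      rw [hQH]
      exact hKm x
    · rw [hQH]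
      exact hN
    · rw [hQH]
      exact hTI
  · have hbot : ((⊥ : Subgroup L).subgroupOf K).Normal := inferInstance
    exact Cfsg.Agent.S1521.result K hsolv _ R hS hodd ⊥ bot_le
      (Group.nilpotent_of_surjective _ (QuotientGroup.mk'_surjective _)) (⁅K, K⁆) (by simp) hH₁K hKL hfrob
      (Or.inr (Or.inr (Or.inl (by
        rintro ⟨p, m, hp, h⟩
        apply hpow
        refine ⟨p, m, hp, ?_⟩
        rw [← h]
        simp [Subgroup.relIndex, Subgroup.subgroupOf_bot_eq_bot]))))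

end Main

end Cfsg.Agent.H06
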