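import Cfsg.Agent.Lib.H06.CNJ3
import Cfsg.Agent.Lib.H06.CNSolv
import Cfsg.Agent.Lib.H06.CoherJ4
import Cfsg.Agent.Lib.H01.MaxNormal

/-!
# Solvable CN-groups with a nontrivial normal `p`-subgroup; the functor `wSub`
-/

set_option autoImplicit false
set_option linter.style.haveILetI false
set_option linter.unusedSectionVars false
set_option linter.unusedVariables false

namespace Cfsg.Agent.H06

open Cfsg

universe u

variable {G : Type u} [Group G]

/-- Subgroups of CN-groups are CN-groups. -/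
theorem isCN_subgroup (hCN : IsCNGroup G) (H : Subgroup G) : IsCNGroup H := by
  intro x hx
  have hx' : (x : G) ≠ 1 := fun h => hx (Subtype.ext h)
  haveI := hCN _ hx'
  let L := H.subgroupOf (Subgroup.centralizer ({(x : G)} : Set G))
  haveI : Group.IsNilpotent L := Subgroup.isNilpotent L
  let f : L →* Subgroup.centralizer ({x} : Set H) :=
    { toFun := fun a => ⟨⟨a.1.1, a.2⟩, by
        rw [Subgroup.mem_centralizer_iff]
        intro w hw
        rw [Set.mem_singleton_iff.mp hw]
        apply Subtype.ext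
        exact Subgroup.mem_centralizer_iff.mp a.1.2 _ rfl⟩
      map_one' := rfl
      map_mul' := fun _ _ => rfl }
  apply Group.nilpotent_of_surjective f
  rintro ⟨⟨y, hy⟩, hyc⟩
  refine ⟨⟨⟨y, ?_⟩, ?_⟩, rfl⟩
  · rw [Subgroup.mem_centralizer_iff]
    intro w hw
    rw [Set.mem_singleton_iff.mp hw]
    have := Subgroup.mem_centralizer_iff.mp hyc x rfl
    exact congrArg Subtype.val this
  · exact hy

/-- Membership in the normalizer needs only one inclusion in a finite group. -/
theorem mem_normalizer_of_conj_le [Finite G] {K : Subgroup G} {x : G} (h : ∀ k ∈ K, x * k * x⁻¹ ∈ K) :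
    x ∈ Subgroup.normalizer (K : Set G) := by
  classical
  rw [Subgroup.mem_normalizer_iff]
  intro k
  refine ⟨h k, ?_⟩
  intro hk
  set φ : G →* G := (MulAut.conj x).toMonoidHom with hφ
  have hφi : Function.Injective φ := (MulAut.conj x).injective
  have hle : K.map φ ≤ K := by
    rintro _ ⟨a, ha, rfl⟩
    exact h a ha
  have hcard : Nat.card ↥(K.map φ) = Nat.card K :=
    Nat.card_congr (Subgroup.equivMapOfInjective K φ hφi).symm.toEquiv
  have heq : K.map φ = K := Subgroup.eq_of_le_of_card_ge hle (le_of_eq hcard.symm)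
  rw [← heq] at hk
  obtain ⟨a, ha, hae⟩ := hk
  have : a = k := hφi hae
  rwa [← this]

section CNType

variable [Finite G] {p : ℕ} [hp : Fact p.Prime]

/-- The dichotomy: a solvable CN-group with a nontrivial normal `p`-subgroup has a normal Sylow
`p`-subgroup or is a three-step group for `p`. -/
theorem cn_type [hsol : Group.IsSolvable G] (hCN : IsCNGroup G) (D : Subgroup G) [hDn : D.Normal]
    (hD : IsPGroup p D) (hDne : D ≠ ⊥) :
    (∀ S : Sylow p G, (S : Subgroup G).Normal) ∨ IsThreeStepGroup p G := by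
  classical
  by_cases hnil : Group.IsNilpotent G
  · left
    intro S
    exact (Group.isNilpotent_of_finite_tfae (G := G)).out 0 3 rfl rfl |>.mp hnil p hp S
  by_cases hH : fittingHall G = ⊥
  · obtain ⟨q, hq, h3⟩ := cn_three_step hCN hH hnil
    by_cases hqp : q = p
    · subst hqp
      exact Or.inr h3
    exfalso
    haveI : Fact q.Prime := ⟨hq⟩
    have hRn := H01.pCore_normal (G := G) q
    have hRp : IsPGroup q (pCore q G) := H01.pCore_isPGroup q
    have hdis : Disjoint D (pCore q G) := IsPGroup.disjoint_of_ne p q (Ne.symm hqp) _ _ hD hRp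
    apply hDne
    rw [eq_bot_iff]
    intro d hd
    have h1 : d ∈ pCore q G := threeStep_centralizer_le h3 d (fun r hr =>
      Subgroup.commute_of_normal_of_disjoint _ _ hDn hRn hdis d r hd hr)
    exact Subgroup.mem_bot.mpr (Subgroup.disjoint_def.mp hdis hd h1)
  · left
    have hnt : fittingHall G ≠ ⊤ := by
      intro ht
      apply hnil
      have h1 : Group.IsNilpotent (fittingHall G) := fittingHall_nilpotent
      rw [ht] at h1
      exact Group.nilpotent_of_surjective (Subgroup.topEquiv (G := G)).toMonoidHom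
        (Subgroup.topEquiv (G := G)).surjective
    obtain ⟨E, hE, hF, hfpf, hEnil⟩ := cn_hall_structure hCN hH hnt
    set K := fittingHall G with hK
    haveI hKn : K.Normal := fittingHall_normal G
    have hKnil : Group.IsNilpotent K := fittingHall_nilpotent
    have hC := frob_hC K E hE.sup_eq_top (by
      intro a ha ha1 k hk hak
      have h1 : k ∈ K ⊓ Subgroup.centralizer ({a} : Set G) := by
        refine Subgroup.mem_inf.mpr ⟨hk, ?_⟩
        rw [Subgroup.mem_centralizer_iff]
        intro w hw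
        rw [Set.mem_singleton_iff.mp hw]
        exact hak
      rwa [hfpf a ha ha1, Subgroup.mem_bot] at h1)
    intro T
    obtain ⟨k, hk, hk1⟩ := (Subgroup.bot_or_exists_ne_one K).resolve_left hH
    have hD₀ne : D ⊓ K ≠ ⊥ := by
      intro h
      have hdis : Disjoint D K := disjoint_iff.mpr h
      apply hDne
      rw [eq_bot_iff]
      intro d hd
      have h1 : d ∈ K := hC k hk hk1 d
        (Subgroup.commute_of_normal_of_disjoint _ _ hDn hKn hdis d k hd hk)
      exact Subgroup.mem_bot.mpr (Subgroup.disjoint_def.mp hdis hd h1)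
    haveI hD₀n : (D ⊓ K).Normal := inferInstance
    have hD₀p : IsPGroup p ↥(D ⊓ K) := hD.to_le inf_le_left
    have hD₀T : D ⊓ K ≤ (T : Subgroup G) := hD₀p.le_sylow_of_normal T
    -- a central element of `T` in `D ⊓ K`
    have hnT : ((D ⊓ K).subgroupOf (T : Subgroup G)).Normal := inferInstance
    have hneT : (D ⊓ K).subgroupOf (T : Subgroup G) ≠ ⊥ := by
      intro h
      apply hD₀ne
      rw [eq_bot_iff]
      intro x hx
      have h1 : (⟨x, hD₀T hx⟩ : (T : Subgroup G)) ∈ (D ⊓ K).subgroupOf (T : Subgroup G) :=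
        Subgroup.mem_subgroupOf.mpr hx
      rw [h, Subgroup.mem_bot] at h1
      exact Subgroup.mem_bot.mpr (congrArg Subtype.val h1)
    obtain ⟨z, hz, hz1, hzc⟩ := H01.exists_central_mem_normal T.isPGroup' hnT hneT
    have hzK : (z : G) ∈ K := (Subgroup.mem_subgroupOf.mp hz).2
    have hz1' : (z : G) ≠ 1 := fun h => hz1 (Subtype.ext h)
    have hTK : (T : Subgroup G) ≤ K := by
      intro t ht
      exact hC z hzK hz1' t (congrArg Subtype.val (hzc ⟨t, ht⟩))
    exact sylow_normal_of_le_nilp K hKnil T hTK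

end CNType

section Functor

/-- Abelian subgroups of maximal order. -/
def maxAbSet (T : Subgroup G) : Set (Subgroup G) :=
  {E | E ≤ T ∧ (∀ a ∈ E, ∀ b ∈ E, a * b = b * a) ∧
    ∀ E' : Subgroup G, E' ≤ T → (∀ a ∈ E', ∀ b ∈ E', a * b = b * a) → Nat.card E' ≤ Nat.card E}

/-- The Thompson subgroup. -/
def jSub (T : Subgroup G) : Subgroup G := sSup (maxAbSet T)

/-- The centre of the Thompson subgroup. -/
def wSub (T : Subgroup G) : Subgroup G := jSub T ⊓ Subgroup.centralizer (jSub T : Set G)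

theorem jSub_le (T : Subgroup G) : jSub T ≤ T := sSup_le (fun _ hE => hE.1)

theorem wSub_le (T : Subgroup G) : wSub T ≤ T := inf_le_left.trans (jSub_le T)

variable [Finite G]

theorem maxAbSet_nonempty (T : Subgroup G) : (maxAbSet T).Nonempty := by
  classical
  let s : Set (Subgroup G) := {E | E ≤ T ∧ ∀ a ∈ E, ∀ b ∈ E, a * b = b * a}
  have hs : s.Nonempty := ⟨⊥, bot_le, by
    intro a ha b hb
    rw [Subgroup.mem_bot] at ha hb
    rw [ha, hb]⟩
  obtain ⟨E, hE, hmax⟩ := Set.exists_max_image s (fun E => Nat.card E) (Set.toFinite s) hs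
  exact ⟨E, hE.1, hE.2, fun E' h1 h2 => hmax E' ⟨h1, h2⟩⟩

theorem wSub_ne_bot {p : ℕ} [hp : Fact p.Prime] {T : Subgroup G} (hT : IsPGroup p T) (hne : T ≠ ⊥) :
    wSub T ≠ ⊥ := by
  classical
  obtain ⟨E, hE⟩ := maxAbSet_nonempty T
  obtain ⟨t, ht, ht1⟩ := (Subgroup.bot_or_exists_ne_one T).resolve_left hne
  have h1 : Nat.card (Subgroup.zpowers t) ≤ Nat.card E := hE.2.2 _ (Subgroup.zpowers_le.mpr ht) (by
    intro a ha b hb
    obtain ⟨i, rfl⟩ := Subgroup.mem_zpowers_iff.mp ha
    obtain ⟨j, rfl⟩ := Subgroup.mem_zpowers_iff.mp hb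
    exact (Commute.refl t).zpow_zpow i j)
  have h2 : 1 < Nat.card (Subgroup.zpowers t) := by
    rw [Subgroup.one_lt_card_iff_ne_bot]
    exact fun h => ht1 (Subgroup.zpowers_eq_bot.mp h)
  have hEne : E ≠ ⊥ := by
    rintro rfl
    have : Nat.card (⊥ : Subgroup G) = 1 := Nat.card_unique
    omega
  have hEJ : E ≤ jSub T := le_sSup hE
  have hJne : jSub T ≠ ⊥ := fun h => hEne (le_bot_iff.mp (h ▸ hEJ))
  have hJp : IsPGroup p (jSub T) := hT.to_le (jSub_le T)
  obtain ⟨z, hz, hz1, hzc⟩ := exists_center_of_nilp (jSub T) hJp.isNilpotent hJne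
  intro hb
  apply hz1
  have h3 : z ∈ wSub T := by
    refine Subgroup.mem_inf.mpr ⟨hz, ?_⟩
    rw [Subgroup.mem_centralizer_iff]
    intro h hh
    exact (hzc h hh).symm
  rwa [hb, Subgroup.mem_bot] at h3

theorem mem_normalizer_wSub {T : Subgroup G} {x : G}
    (hx : ∀ E ∈ maxAbSet T, ∀ e ∈ E, x * e * x⁻¹ ∈ T) : x ∈ Subgroup.normalizer (wSub T : Set G) := by
  classical
  set φ : G →* G := (MulAut.conj x).toMonoidHom with hφ
  have hφv : ∀ a, φ a = x * a * x⁻¹ := fun a => rfl
  have hφi : Function.Injective φ := (MulAut.conj x).injective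
  have hstep : ∀ E ∈ maxAbSet T, E.map φ ∈ maxAbSet T := by
    intro E hE
    refine ⟨?_, ?_, ?_⟩
    · rintro _ ⟨e, he, rfl⟩
      exact hx E hE e he
    · rintro _ ⟨a, ha, rfl⟩ _ ⟨b, hb, rfl⟩
      rw [← map_mul, ← map_mul, hE.2.1 a ha b hb]
    · intro E' h1 h2
      have h3 : Nat.card ↥(E.map φ) = Nat.card E :=
        Nat.card_congr (Subgroup.equivMapOfInjective E φ hφi).symm.toEquiv
      rw [h3]
      exact hE.2.2 E' h1 h2
  have hJ : ∀ j ∈ jSub T, x * j * x⁻¹ ∈ jSub T := by
    have h1 : jSub T ≤ (jSub T).comap φ := by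
      refine sSup_le fun E hE => ?_
      rw [← Subgroup.map_le_iff_le_comap]
      exact le_sSup (hstep E hE)
    exact fun j hj => h1 hj
  have hJN := mem_normalizer_of_conj_le hJ
  have hJN' := Subgroup.mem_normalizer_iff.mp hJN
  apply mem_normalizer_of_conj_le
  rintro k ⟨hk, hkc⟩
  refine ⟨hJ k hk, ?_⟩
  replace hkc : k ∈ Subgroup.centralizer (jSub T : Set G) := hkc
  show x * k * x⁻¹ ∈ Subgroup.centralizer (jSub T : Set G)
  rw [Subgroup.mem_centralizer_iff]
  intro j hj
  have hj' : x⁻¹ * j * x ∈ jSub T := by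
    rw [hJN' (x⁻¹ * j * x)]
    have e : x * (x⁻¹ * j * x) * x⁻¹ = j := by group
    rw [e]
    exact hj
  have h1 := Subgroup.mem_centralizer_iff.mp hkc _ hj'
  calc j * (x * k * x⁻¹) = x * ((x⁻¹ * j * x) * k) * x⁻¹ := by group
    _ = x * (k * (x⁻¹ * j * x)) * x⁻¹ := by rw [h1]
    _ = (x * k * x⁻¹) * j := by group

theorem normalizer_le_normalizer_wSub (T : Subgroup G) :
    Subgroup.normalizer (T : Set G) ≤ Subgroup.normalizer (wSub T : Set G) := by
  intro x hx
  apply mem_normalizer_wSub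
  intro E hE e he
  exact (Subgroup.mem_normalizer_iff.mp hx e).mp (hE.1 he)

/-- The fundamental property of the functor. -/
theorem le_normalizer_wSub (hodd : Odd (Nat.card G)) (hCN : IsCNGroup G) {p : ℕ} [hp : Fact p.Prime]
    (H : Subgroup G) [hsol : Group.IsSolvable H] (D : Subgroup G) (hDH : D ≤ H)
    (hHD : H ≤ Subgroup.normalizer (D : Set G)) (hD : IsPGroup p D) (hDne : D ≠ ⊥)
    (T : Subgroup G) (hTH : T ≤ H) (hT : IsPGroup p T)
    (hTmax : ∀ T' : Subgroup G, T' ≤ H → IsPGroup p T' → T ≤ T' → T' = T) :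
    H ≤ Subgroup.normalizer (wSub T : Set G) := by
  classical
  have hp2 : p ≠ 2 := by
    rintro rfl
    obtain ⟨d, hd, hd1⟩ := (Subgroup.bot_or_exists_ne_one D).resolve_left hDne
    obtain ⟨k, hk⟩ := hD ⟨d, hd⟩
    have hk' : d ^ (2 ^ k) = 1 := by
      have := congrArg Subtype.val hk
      simpa using this
    have h1 : orderOf d ∣ 2 ^ k := orderOf_dvd_of_pow_eq_one hk'
    obtain ⟨i, _, hi⟩ := (Nat.dvd_prime_pow Nat.prime_two).mp h1
    have h2 : orderOf d ∣ Nat.card G := orderOf_dvd_natCard d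
    have h3 : ¬ 2 ∣ Nat.card G := by
      have := Nat.odd_iff.mp hodd
      omega
    rcases Nat.eq_zero_or_pos i with rfl | hi0
    · rw [pow_zero] at hi
      exact hd1 (orderOf_eq_one_iff.mp hi)
    · apply h3
      exact (dvd_pow_self 2 hi0.ne').trans (hi ▸ h2)
  have hCNH : IsCNGroup H := isCN_subgroup hCN H
  set D' : Subgroup H := D.subgroupOf H with hD'
  haveI hD'n : D'.Normal := by
    refine ⟨?_⟩
    intro d hd g
    rw [hD', Subgroup.mem_subgroupOf] at hd ⊢
    exact (Subgroup.mem_normalizer_iff.mp (hHD g.2) d).mp hd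
  have hD'p : IsPGroup p D' := hD.comap_subtype
  have hD'ne : D' ≠ ⊥ := by
    obtain ⟨d, hd, hd1⟩ := (Subgroup.bot_or_exists_ne_one D).resolve_left hDne
    intro h
    have h1 : (⟨d, hDH hd⟩ : H) ∈ D' := Subgroup.mem_subgroupOf.mpr hd
    rw [h, Subgroup.mem_bot] at h1
    exact hd1 (congrArg Subtype.val h1)
  obtain ⟨P, hTP⟩ := (hT.comap_subtype (K := H)).exists_le_sylow
  have hPmap : (P : Subgroup H).map H.subtype = T := by
    apply hTmax
    · rintro _ ⟨a, _, rfl⟩
      exact a.2
    · exact P.isPGroup'.map _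
    · intro t ht
      exact ⟨⟨t, hTH ht⟩, hTP ht, rfl⟩
  have hPmem : ∀ a : H, a ∈ (P : Subgroup H) ↔ (a : G) ∈ T := by
    intro a
    constructor
    · intro h
      rw [← hPmap]
      exact ⟨a, h, rfl⟩
    · intro h
      exact hTP h
  intro x hx
  rcases cn_type (G := H) hCNH D' hD'p hD'ne with hn | h3
  · apply normalizer_le_normalizer_wSub
    apply mem_normalizer_of_conj_le
    intro t ht
    have h1 := (hn P).conj_mem ⟨t, hTH ht⟩ ((hPmem _).mpr ht) ⟨x, hx⟩
    exact (hPmem _).mp h1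
  · apply mem_normalizer_wSub
    intro E hE e he
    have hEH : E ≤ H := hE.1.trans hTH
    have hEcard : Nat.card ↥(E.subgroupOf H) = Nat.card E :=
      Nat.card_congr (Subgroup.subgroupOfEquivOfLe hEH).toEquiv
    have hle := threeStep_maxAb_le (Y := H) hp2 h3 (P : Subgroup H) (E.subgroupOf H) P.isPGroup'
      (H01.pCore_le_sylow p P) (by
        intro a ha
        exact (hPmem a).mpr (hE.1 (Subgroup.mem_subgroupOf.mp ha))) (by
        intro a ha b hb
        exact Subtype.ext (hE.2.1 _ (Subgroup.mem_subgroupOf.mp ha) _ (Subgroup.mem_subgroupOf.mp hb))) (by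
        intro E' hE'P hE'c
        rw [hEcard]
        have h1 : Nat.card ↥(E'.map H.subtype) = Nat.card E' :=
          Nat.card_congr (Subgroup.equivMapOfInjective E' H.subtype H.subtype_injective).symm.toEquiv
        rw [← h1]
        refine hE.2.2 _ ?_ ?_
        · rintro _ ⟨a, ha, rfl⟩
          exact (hPmem a).mp (hE'P ha)
        · rintro _ ⟨a, ha, rfl⟩ _ ⟨b, hb, rfl⟩
          exact congrArg Subtype.val (hE'c a ha b hb))
    have h1 : (⟨e, hEH he⟩ : H) ∈ pCore p H := hle (Subgroup.mem_subgroupOf.mpr he)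
    have h2 := (H01.pCore_normal (G := H) p).conj_mem _ h1 ⟨x, hx⟩
    exact (hPmem _).mp (H01.pCore_le_sylow p P h2)

end Functor

end Cfsg.Agent.H06
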