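import Cfsg.Agent.Lib.H06.CNJ4

/-!
# Control of fusion by the normalizer of `wSub S`
-/

set_option autoImplicit false
set_option linter.style.haveILetI false
set_option linter.unusedSectionVars false
set_option linter.unusedVariables false

namespace Cfsg.Agent.H06

open Cfsg
open scoped Pointwise

universe u

variable {G : Type u} [Group G] [Finite G]

theorem card_map_conj (D : Subgroup G) (g : G) :
    Nat.card ↥(D.map (MulAut.conj g).toMonoidHom) = Nat.card D :=
  Nat.card_congr (Subgroup.equivMapOfInjective D (MulAut.conj g).toMonoidHom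
    (MulAut.conj g).injective).symm.toEquiv

theorem mem_map_conj_iff {D : Subgroup G} {g x : G} :
    x ∈ D.map (MulAut.conj g).toMonoidHom ↔ g⁻¹ * x * g ∈ D := by
  constructor
  · rintro ⟨d, hd, rfl⟩
    have e : g⁻¹ * ((MulAut.conj g).toMonoidHom d) * g = d := by
      show g⁻¹ * (g * d * g⁻¹) * g = d
      group
    rw [e]
    exact hd
  · intro h
    refine ⟨_, h, ?_⟩
    show g * (g⁻¹ * x * g) * g⁻¹ = x
    group

theorem conj_mem_map_conj {D : Subgroup G} {g d : G} (hd : d ∈ D) :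
    g * d * g⁻¹ ∈ D.map (MulAut.conj g).toMonoidHom := ⟨d, hd, rfl⟩

theorem conj_mem_normalizer_map (D : Subgroup G) (g : G) {x : G}
    (hx : x ∈ Subgroup.normalizer (D : Set G)) :
    g * x * g⁻¹ ∈ Subgroup.normalizer (D.map (MulAut.conj g).toMonoidHom : Set G) := by
  apply mem_normalizer_of_conj_le
  rintro _ ⟨d, hd, rfl⟩
  have h1 := (Subgroup.mem_normalizer_iff.mp hx d).mp hd
  refine ⟨x * d * x⁻¹, h1, ?_⟩
  show g * (x * d * x⁻¹) * g⁻¹ = g * x * g⁻¹ * (g * d * g⁻¹) * (g * x * g⁻¹)⁻¹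
  group

theorem card_lt_of_lt' {A B : Subgroup G} (h : A < B) : Nat.card A < Nat.card B :=
  lt_of_le_of_ne (Subgroup.card_le_of_le h.le)
    (fun e => h.ne (Subgroup.eq_of_le_of_card_ge h.le e.ge))

variable {p : ℕ} [hp : Fact p.Prime]

/-- Sylow's conjugacy inside a subgroup containing a Sylow subgroup. -/
theorem exists_conj_into_sylow (L : Subgroup G) (S : Sylow p G) (hSL : (S : Subgroup G) ≤ L)
    (T : Subgroup G) (hTL : T ≤ L) (hT : IsPGroup p T) :
    ∃ l ∈ L, ∀ t ∈ T, l⁻¹ * t * l ∈ (S : Subgroup G) := by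
  classical
  set S' : Sylow p L := S.subtype hSL with hS'
  obtain ⟨P, hP⟩ := (hT.comap_subtype (K := L)).exists_le_sylow
  obtain ⟨l, hl⟩ := MulAction.exists_smul_eq L S' P
  refine ⟨l, l.2, ?_⟩
  intro t ht
  have h1 : (⟨t, hTL ht⟩ : L) ∈ (P : Subgroup L) := hP (Subgroup.mem_subgroupOf.mpr ht)
  rw [← hl] at h1
  have h2 : (⟨t, hTL ht⟩ : L) ∈ MulAut.conj l • (S' : Subgroup L) := h1
  rw [Subgroup.mem_pointwise_smul_iff_inv_smul_mem] at h2
  have h3 : (MulAut.conj l)⁻¹ • (⟨t, hTL ht⟩ : L) = l⁻¹ * ⟨t, hTL ht⟩ * l := by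
    simp [MulAut.smul_def, MulAut.conj_symm_apply, mul_assoc]
  rw [h3] at h2
  have h4 : (l⁻¹ * ⟨t, hTL ht⟩ * l : L) ∈ ((S : Subgroup G).subgroupOf L) := by
    rw [← Sylow.coe_subtype]
    exact h2
  exact Subgroup.mem_subgroupOf.mp h4

/-- Normalizers grow in `p`-groups. -/
theorem normalizer_growth {A B : Subgroup G} (hB : IsPGroup p B) (hAB : A < B) :
    ∃ t ∈ B, t ∉ A ∧ t ∈ Subgroup.normalizer (A : Set G) := by
  classical
  haveI : Group.IsNilpotent B := hB.isNilpotent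
  have hcond : NormalizerCondition B := Group.normalizerCondition_of_isNilpotent
  set A' : Subgroup B := A.subgroupOf B with hA'
  have hA'top : A' < ⊤ := by
    refine lt_top_iff_ne_top.mpr fun h => hAB.not_ge ?_
    intro b hb
    have : (⟨b, hb⟩ : B) ∈ A' := by
      rw [h]
      exact Subgroup.mem_top _
    exact Subgroup.mem_subgroupOf.mp this
  have h1 := hcond A' hA'top
  obtain ⟨x, hx, hxA⟩ := Set.exists_of_ssubset h1
  refine ⟨x, x.2, fun h => hxA (Subgroup.mem_subgroupOf.mpr h), ?_⟩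
  apply mem_normalizer_of_conj_le
  intro k hk
  have h2 : (⟨k, hAB.le hk⟩ : B) ∈ A' := Subgroup.mem_subgroupOf.mpr hk
  have h3 := (Subgroup.mem_normalizer_iff.mp hx _).mp h2
  exact Subgroup.mem_subgroupOf.mp h3

/-- All normalizers of nontrivial subgroups of `S` lie in the normalizer of `wSub S`. -/
theorem normalizer_le_of_functor (S : Sylow p G)
    (HW : ∀ D : Subgroup G, D ≠ ⊥ → IsPGroup p D → ∀ T : Subgroup G,
      T ≤ Subgroup.normalizer (D : Set G) → IsPGroup p T →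
      (∀ T' : Subgroup G, T' ≤ Subgroup.normalizer (D : Set G) → IsPGroup p T' → T ≤ T' → T' = T) →
      Subgroup.normalizer (D : Set G) ≤ Subgroup.normalizer (wSub T : Set G))
    (D : Subgroup G) (hDne : D ≠ ⊥) (hDS : D ≤ (S : Subgroup G)) :
    Subgroup.normalizer (D : Set G) ≤ Subgroup.normalizer (wSub (S : Subgroup G) : Set G) := by
  classical
  set L := Subgroup.normalizer (wSub (S : Subgroup G) : Set G) with hL
  have hSL : (S : Subgroup G) ≤ L := (Subgroup.le_normalizer).trans (normalizer_le_normalizer_wSub _)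
  by_contra hcon
  let B : Set (Subgroup G) :=
    {D | D ≠ ⊥ ∧ D ≤ (S : Subgroup G) ∧ ¬ Subgroup.normalizer (D : Set G) ≤ L}
  have hB : B.Nonempty := ⟨D, hDne, hDS, hcon⟩
  obtain ⟨D₀, ⟨hD₀ne, hD₀S, hD₀L⟩, hmax⟩ := Set.exists_max_image B
    (fun D => Nat.card ↥((S : Subgroup G) ⊓ Subgroup.normalizer (D : Set G))) (Set.toFinite B) hB
  have hgood : ∀ D' : Subgroup G, D' ≠ ⊥ → D' ≤ (S : Subgroup G) →
      Nat.card ↥((S : Subgroup G) ⊓ Subgroup.normalizer (D₀ : Set G)) <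
        Nat.card ↥((S : Subgroup G) ⊓ Subgroup.normalizer (D' : Set G)) →
      Subgroup.normalizer (D' : Set G) ≤ L := by
    intro D' h1 h2 h3
    by_contra h4
    have := hmax D' ⟨h1, h2, h4⟩
    omega
  set T₀ := (S : Subgroup G) ⊓ Subgroup.normalizer (D₀ : Set G) with hT₀
  have hD₀T₀ : D₀ ≤ T₀ := le_inf hD₀S Subgroup.le_normalizer
  have hT₀ne : T₀ ≠ ⊥ := fun h => hD₀ne (le_bot_iff.mp (h ▸ hD₀T₀))
  have hT₀S' : T₀ ≤ (S : Subgroup G) := inf_le_left
  have hT₀p : IsPGroup p T₀ := S.isPGroup'.to_le hT₀S'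
  have hD₀p : IsPGroup p D₀ := S.isPGroup'.to_le hD₀S
  have hgrow : T₀ ≠ (S : Subgroup G) →
      Nat.card T₀ < Nat.card ↥((S : Subgroup G) ⊓ Subgroup.normalizer (T₀ : Set G)) := by
    intro h
    obtain ⟨t, ht, htT, htN⟩ := normalizer_growth S.isPGroup' (lt_of_le_of_ne hT₀S' h)
    apply card_lt_of_lt'
    refine lt_of_le_of_ne (le_inf hT₀S' Subgroup.le_normalizer) ?_
    intro h2
    apply htT
    rw [h2]
    exact ⟨ht, htN⟩
  by_cases hTmax : ∀ T' : Subgroup G, T' ≤ Subgroup.normalizer (D₀ : Set G) → IsPGroup p T' →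
      T₀ ≤ T' → T' = T₀
  · have h1 := HW D₀ hD₀ne hD₀p T₀ inf_le_right hT₀p hTmax
    by_cases hT₀S : T₀ = (S : Subgroup G)
    · apply hD₀L
      rw [hT₀S] at h1
      exact h1
    · have h2 : wSub T₀ ≠ ⊥ := wSub_ne_bot hT₀p hT₀ne
      have h3 : wSub T₀ ≤ (S : Subgroup G) := (wSub_le T₀).trans hT₀S'
      have h4 : Nat.card T₀ < Nat.card ↥((S : Subgroup G) ⊓ Subgroup.normalizer (wSub T₀ : Set G)) :=
        lt_of_lt_of_le (hgrow hT₀S)
          (Subgroup.card_le_of_le (inf_le_inf_left _ (normalizer_le_normalizer_wSub T₀)))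
      exact hD₀L (h1.trans (hgood _ h2 h3 h4))
  · push Not at hTmax
    obtain ⟨T₁, hT₁N, hT₁p, hT₀T₁, hne⟩ := hTmax
    have hT₀T₁' : T₀ < T₁ := lt_of_le_of_ne hT₀T₁ (Ne.symm hne)
    have hT₀S : T₀ ≠ (S : Subgroup G) := by
      intro h
      have hST₁ : (S : Subgroup G) ≤ T₁ := h ▸ hT₀T₁
      have := S.is_maximal' hT₁p hST₁
      apply hne
      rw [this, h]
    obtain ⟨t, htT₁, htT₀, htN⟩ := normalizer_growth hT₁p hT₀T₁'
    set T₂ := T₁ ⊓ Subgroup.normalizer (T₀ : Set G) with hT₂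
    have hT₀T₂ : T₀ < T₂ := by
      refine lt_of_le_of_ne (le_inf hT₀T₁ Subgroup.le_normalizer) ?_
      intro h
      apply htT₀
      rw [h]
      exact ⟨htT₁, htN⟩
    have hNT₀L : Subgroup.normalizer (T₀ : Set G) ≤ L := hgood T₀ hT₀ne hT₀S' (hgrow hT₀S)
    have hT₂L : T₂ ≤ L := inf_le_right.trans hNT₀L
    have hT₂p : IsPGroup p T₂ := hT₁p.to_le inf_le_left
    obtain ⟨l, hlL, hl⟩ := exists_conj_into_sylow L S hSL T₂ hT₂L hT₂p
    have hconj : ∀ x, l⁻¹ * x * l⁻¹⁻¹ = l⁻¹ * x * l := fun x => by rw [inv_inv]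
    set D' := D₀.map (MulAut.conj l⁻¹).toMonoidHom with hD'
    have hD'S : D' ≤ (S : Subgroup G) := by
      rintro _ ⟨d, hd, rfl⟩
      show l⁻¹ * d * l⁻¹⁻¹ ∈ (S : Subgroup G)
      rw [hconj]
      exact hl d (hT₀T₂.le (hD₀T₀ hd))
    have hD'ne : D' ≠ ⊥ := by
      intro h
      apply hD₀ne
      rw [eq_bot_iff]
      intro d hd
      have h1 : l⁻¹ * d * l⁻¹⁻¹ ∈ D' := ⟨d, hd, rfl⟩
      rw [h, Subgroup.mem_bot, hconj] at h1
      have h2 : d = l * (l⁻¹ * d * l) * l⁻¹ := by group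
      rw [h2, h1]
      simp
    have hT₂' : T₂.map (MulAut.conj l⁻¹).toMonoidHom ≤
        (S : Subgroup G) ⊓ Subgroup.normalizer (D' : Set G) := by
      rintro _ ⟨x, hx, rfl⟩
      refine ⟨?_, conj_mem_normalizer_map D₀ l⁻¹ (hT₁N hx.1)⟩
      show l⁻¹ * x * l⁻¹⁻¹ ∈ (S : Subgroup G)
      rw [hconj]
      exact hl x hx
    have hcard : Nat.card T₂ ≤ Nat.card ↥((S : Subgroup G) ⊓ Subgroup.normalizer (D' : Set G)) := by
      rw [← card_map_conj T₂ l⁻¹]
      exact Subgroup.card_le_of_le hT₂'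
    have hNL : Subgroup.normalizer (D' : Set G) ≤ L :=
      hgood D' hD'ne hD'S (lt_of_lt_of_le (card_lt_of_lt' hT₀T₂) hcard)
    apply hD₀L
    intro x hx
    have h1 := hNL (conj_mem_normalizer_map D₀ l⁻¹ hx)
    rw [hconj] at h1
    have h2 : x = l * (l⁻¹ * x * l) * l⁻¹ := by group
    rw [h2]
    exact L.mul_mem (L.mul_mem hlL h1) (L.inv_mem hlL)

/-- `L` controls fusion. -/
theorem fusion_le (S : Sylow p G) (L : Subgroup G) (hSL : (S : Subgroup G) ≤ L)
    (hN : Subgroup.normalizer ((S : Subgroup G) : Set G) ≤ L)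
    (hB : ∀ D : Subgroup G, D ≠ ⊥ → D ≤ (S : Subgroup G) → Subgroup.normalizer (D : Set G) ≤ L)
    (g : G) (hg : (S : Subgroup G) ⊓ (S : Subgroup G).map (MulAut.conj g).toMonoidHom ≠ ⊥) :
    g ∈ L := by
  classical
  by_contra hcon
  let C : Set G := {g | (S : Subgroup G) ⊓ (S : Subgroup G).map (MulAut.conj g).toMonoidHom ≠ ⊥ ∧ g ∉ L}
  have hC : C.Nonempty := ⟨g, hg, hcon⟩
  obtain ⟨g₀, ⟨hg₀ne, hg₀L⟩, hmax⟩ := Set.exists_max_image C
    (fun g => Nat.card ↥((S : Subgroup G) ⊓ (S : Subgroup G).map (MulAut.conj g).toMonoidHom))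
    (Set.toFinite C) hC
  set Sg := (S : Subgroup G).map (MulAut.conj g₀).toMonoidHom with hSg
  set D := (S : Subgroup G) ⊓ Sg with hD
  have hSgp : IsPGroup p Sg := S.isPGroup'.map _
  have hSgcard : Nat.card Sg = Nat.card (S : Subgroup G) := card_map_conj _ _
  by_cases hDS : D = Sg
  · -- `Sg ≤ S`, so equal
    have h1 : Sg ≤ (S : Subgroup G) := hDS ▸ inf_le_left
    have h2 : Sg = (S : Subgroup G) := Subgroup.eq_of_le_of_card_ge h1 hSgcard.ge
    apply hg₀L
    apply hN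
    apply mem_normalizer_of_conj_le
    intro k hk
    rw [← SetLike.mem_coe, ← h2]
    exact ⟨k, hk, rfl⟩
  · have hDlt : D < Sg := lt_of_le_of_ne inf_le_right hDS
    obtain ⟨t, htSg, htD, htN⟩ := normalizer_growth hSgp hDlt
    set E := Sg ⊓ Subgroup.normalizer (D : Set G) with hE
    have hDE : D < E := by
      refine lt_of_le_of_ne (le_inf inf_le_right Subgroup.le_normalizer) ?_
      intro h
      apply htD
      rw [h]
      exact ⟨htSg, htN⟩
    have hEL : E ≤ L := inf_le_right.trans (hB D hg₀ne inf_le_left)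
    have hEp : IsPGroup p E := hSgp.to_le inf_le_left
    obtain ⟨l, hlL, hl⟩ := exists_conj_into_sylow L S hSL E hEL hEp
    set g' := l⁻¹ * g₀ with hg'
    have hg'L : g' ∉ L := by
      intro h
      apply hg₀L
      have e : g₀ = l * g' := by
        rw [hg']
        group
      rw [e]
      exact L.mul_mem hlL h
    have hEmap : E.map (MulAut.conj l⁻¹).toMonoidHom ≤
        (S : Subgroup G) ⊓ (S : Subgroup G).map (MulAut.conj g').toMonoidHom := by
      rintro _ ⟨x, hx, rfl⟩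
      have e : (MulAut.conj l⁻¹).toMonoidHom x = l⁻¹ * x * l := by
        show l⁻¹ * x * l⁻¹⁻¹ = l⁻¹ * x * l
        rw [inv_inv]
      rw [e]
      refine ⟨hl x hx, ?_⟩
      show l⁻¹ * x * l ∈ (S : Subgroup G).map (MulAut.conj g').toMonoidHom
      rw [mem_map_conj_iff]
      have h1 := mem_map_conj_iff.mp hx.1
      have e2 : g'⁻¹ * (l⁻¹ * x * l) * g' = g₀⁻¹ * x * g₀ := by
        rw [hg']
        group
      rw [e2]
      exact h1
    have hcard : Nat.card E ≤
        Nat.card ↥((S : Subgroup G) ⊓ (S : Subgroup G).map (MulAut.conj g').toMonoidHom) := by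
      rw [← card_map_conj E l⁻¹]
      exact Subgroup.card_le_of_le hEmap
    have hne' : (S : Subgroup G) ⊓ (S : Subgroup G).map (MulAut.conj g').toMonoidHom ≠ ⊥ := by
      intro h
      rw [h] at hEmap
      have h1 : E.map (MulAut.conj l⁻¹).toMonoidHom = ⊥ := le_bot_iff.mp hEmap
      have h2 := card_map_conj E l⁻¹
      rw [h1] at h2
      have h3 : Nat.card E = 1 := by
        rw [← h2]
        exact Nat.card_unique
      have h4 := card_lt_of_lt' hDE
      have h5 : 0 < Nat.card D := Nat.card_pos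
      omega
    have := hmax g' ⟨hne', hg'L⟩
    have h4 := card_lt_of_lt' hDE
    omega

end Cfsg.Agent.H06
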