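import Cfsg.Agent.Lib.H06.CNJ5
import Cfsg.Agent.Lib.H09.Focal

/-!
# Sylow subgroups of a minimal simple CN-group of odd order are TI-sets
-/

set_option autoImplicit false
set_option linter.style.haveILetI false
set_option linter.unusedSectionVars false
set_option linter.unusedVariables false

namespace Cfsg.Agent.H06

open Cfsg
open scoped commutatorElement

universe u

variable {G : Type u} [Group G] [Finite G]

/-- A nontrivial `p`-subgroup of a nonabelian simple group has proper normalizer. -/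
theorem normalizer_ne_top_of_pgroup (hsimple : IsSimpleGroup G) (hnab : ¬ IsMulCommutative G)
    {p : ℕ} [hp : Fact p.Prime] {D : Subgroup G} (hD : D ≠ ⊥) (hDp : IsPGroup p D) :
    Subgroup.normalizer (D : Set G) ≠ ⊤ := by
  classical
  intro htop
  have hDn : D.Normal := ⟨fun d hd g =>
    (Subgroup.mem_normalizer_iff.mp (htop ▸ Subgroup.mem_top g) d).mp hd⟩
  rcases hsimple.eq_bot_or_eq_top_of_normal D hDn with h | h
  · exact hD h
  · have hGp : IsPGroup p G := by
      intro g
      obtain ⟨k, hk⟩ := hDp ⟨g, h ▸ Subgroup.mem_top g⟩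
      exact ⟨k, Subtype.ext_iff.mp hk⟩
    haveI : Nontrivial G := hsimple.toNontrivial
    haveI := hGp.center_nontrivial
    have hZ : Subgroup.center G ≠ ⊥ := (Subgroup.nontrivial_iff_ne_bot _).mp inferInstance
    rcases hsimple.eq_bot_or_eq_top_of_normal (Subgroup.center G) inferInstance with h2 | h2
    · exact hZ h2
    · apply hnab
      refine ⟨⟨fun a b => ?_⟩⟩
      have : a ∈ Subgroup.center G := h2 ▸ Subgroup.mem_top a
      exact (Subgroup.mem_center_iff.mp this b).symm

theorem commutator_eq_top_of_simple (hsimple : IsSimpleGroup G) (hnab : ¬ IsMulCommutative G) :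
    commutator G = ⊤ := by
  rcases hsimple.eq_bot_or_eq_top_of_normal (commutator G) inferInstance with h | h
  · exfalso
    apply hnab
    refine ⟨⟨fun a b => ?_⟩⟩
    have h1 : ⁅a, b⁆ ∈ commutator G := by
      rw [commutator_def]
      exact Subgroup.commutator_mem_commutator (Subgroup.mem_top a) (Subgroup.mem_top b)
    rw [h, Subgroup.mem_bot, commutatorElement_eq_one_iff_mul_comm] at h1
    exact h1
  · exact h

/-- No three-step group can control the fusion of a Sylow subgroup of a perfect group. -/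
theorem not_threeStep_of_fusion {p : ℕ} [hp : Fact p.Prime] (hperf : commutator G = ⊤) (S : Sylow p G)
    (L : Subgroup G) (hSL : (S : Subgroup G) ≤ L)
    (hfus : ∀ g : G, (S : Subgroup G) ⊓ (S : Subgroup G).map (MulAut.conj g).toMonoidHom ≠ ⊥ → g ∈ L)
    (h3 : IsThreeStepGroup p L) : False := by
  classical
  obtain ⟨R, hRn, hQR, hRne, ⟨n, hidx⟩, -, -, -, -⟩ := threeStep_facts h3
  haveI := hRn
  set mk := QuotientGroup.mk' R with hmk
  set M : Subgroup L := (commutator (L ⧸ R)).comap mk with hM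
  have hMmem : ∀ a : L, a ∈ M ↔ mk a ∈ commutator (L ⧸ R) := fun a => Iff.rfl
  have hcommM : ∀ a b : L, a⁻¹ * b * a * b⁻¹ ∈ M := by
    intro a b
    rw [hMmem]
    have h1 : ⁅mk a⁻¹, mk b⁆ ∈ commutator (L ⧸ R) := by
      rw [commutator_def]
      exact Subgroup.commutator_mem_commutator (Subgroup.mem_top _) (Subgroup.mem_top _)
    have e : mk (a⁻¹ * b * a * b⁻¹) = ⁅mk a⁻¹, mk b⁆ := by
      rw [commutatorElement_def, map_mul, map_mul, map_mul, map_inv, map_inv, inv_inv]
    rw [e]
    exact h1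
  set D : Subgroup G := (S : Subgroup G) ⊓ M.map L.subtype with hD
  have hfoc : ∀ b ∈ (S : Subgroup G), ∀ z : G, z * b * z⁻¹ ∈ (S : Subgroup G) →
      b⁻¹ * (z * b * z⁻¹) ∈ D := by
    intro b hb z hz
    by_cases hb1 : b = 1
    · rw [hb1]
      simp only [inv_one, one_mul, mul_one, mul_inv_cancel]
      exact D.one_mem
    refine ⟨(S : Subgroup G).mul_mem ((S : Subgroup G).inv_mem hb) hz, ?_⟩
    have hzL : z ∈ L := by
      apply hfus
      intro h
      have h1 : z * b * z⁻¹ ∈ (S : Subgroup G) ⊓ (S : Subgroup G).map (MulAut.conj z).toMonoidHom :=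
        ⟨hz, ⟨b, hb, rfl⟩⟩
      rw [h, Subgroup.mem_bot] at h1
      apply hb1
      have h2 : b = z⁻¹ * (z * b * z⁻¹) * z := by group
      rw [h2, h1]
      simp
    have h1 := hcommM ⟨b, hSL hb⟩ ⟨z, hzL⟩
    refine ⟨_, h1, ?_⟩
    show b⁻¹ * z * b * z⁻¹ = b⁻¹ * (z * b * z⁻¹)
    group
  have hfocal := H09.focal_type (H := G) (p := p) (S : Subgroup G) D S.isPGroup' S.not_dvd_index
    inf_le_left hfoc
  rw [hperf, inf_top_eq] at hfocal
  set S' : Sylow p L := S.subtype hSL with hS'
  have hS'M : (S' : Subgroup L) ≤ M := by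
    intro a ha
    have h1 : (a : G) ∈ (S : Subgroup G) := by
      have h2 : a ∈ (S : Subgroup G).subgroupOf L := by
        rw [← Sylow.coe_subtype]
        exact ha
      exact Subgroup.mem_subgroupOf.mp h2
    obtain ⟨-, b, hb, hbe⟩ := hfocal h1
    have : b = a := Subtype.ext hbe
    rwa [← this]
  have hRM : R ≤ M := by
    intro r hr
    rw [hMmem]
    have : mk r = 1 := (QuotientGroup.eq_one_iff r).mpr hr
    rw [this]
    exact Subgroup.one_mem _
  have hd1 : M.index ∣ R.index := Subgroup.index_dvd_of_le hRM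
  have hd2 : M.index ∣ (S' : Subgroup L).index := Subgroup.index_dvd_of_le hS'M
  rw [hidx] at hd1
  obtain ⟨i, _, hi⟩ := (Nat.dvd_prime_pow hp.out).mp hd1
  have hi0 : i = 0 := by
    by_contra h
    apply S'.not_dvd_index
    rw [hi] at hd2
    exact (dvd_pow_self p h).trans hd2
  rw [hi0, pow_zero, Subgroup.index_eq_one] at hi
  -- the quotient is perfect and a nontrivial `p`-group
  have hQ : IsPGroup p (L ⧸ R) := IsPGroup.of_card (n := n) hidx
  haveI : Group.IsNilpotent (L ⧸ R) := hQ.isNilpotent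
  haveI : Nontrivial (L ⧸ R) := by
    obtain ⟨x, hx⟩ : ∃ x, x ∉ R := by
      by_contra h
      push Not at h
      exact hRne (eq_top_iff.mpr fun x _ => h x)
    exact ⟨⟨mk x, 1, fun h => hx ((QuotientGroup.eq_one_iff x).mp h)⟩⟩
  have hlt := IsSolvable.commutator_lt_top_of_nontrivial (L ⧸ R)
  apply hlt.ne
  rw [eq_top_iff]
  intro y _
  obtain ⟨a, rfl⟩ := QuotientGroup.mk'_surjective R y
  have : a ∈ M := by
    rw [hi]
    exact Subgroup.mem_top a
  exact this

/-- **Sylow subgroups are TI-sets.** -/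
theorem sylow_TI (hG : IsMinSimpleOddOrder G) (hCN : IsCNGroup G) {p : ℕ} [hp : Fact p.Prime]
    (S : Sylow p G) (g : G)
    (hg : (S : Subgroup G) ⊓ (S : Subgroup G).map (MulAut.conj g).toMonoidHom ≠ ⊥) :
    (S : Subgroup G).map (MulAut.conj g).toMonoidHom = S := by
  classical
  obtain ⟨hodd, hsimple, hnab, hsol⟩ := hG
  have hperf := commutator_eq_top_of_simple hsimple hnab
  have hSne : (S : Subgroup G) ≠ ⊥ := by
    intro h
    apply hg
    rw [h]
    simp
  have HW : ∀ D : Subgroup G, D ≠ ⊥ → IsPGroup p D → ∀ T : Subgroup G,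
      T ≤ Subgroup.normalizer (D : Set G) → IsPGroup p T →
      (∀ T' : Subgroup G, T' ≤ Subgroup.normalizer (D : Set G) → IsPGroup p T' → T ≤ T' → T' = T) →
      Subgroup.normalizer (D : Set G) ≤ Subgroup.normalizer (wSub T : Set G) := by
    intro D hD hDp T hTN hTp hTmax
    haveI := hsol _ (normalizer_ne_top_of_pgroup hsimple hnab hD hDp)
    exact le_normalizer_wSub hodd hCN _ D Subgroup.le_normalizer le_rfl hDp hD T hTN hTp hTmax
  set W := wSub (S : Subgroup G) with hW
  set L := Subgroup.normalizer (W : Set G) with hL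
  have hWne : W ≠ ⊥ := wSub_ne_bot S.isPGroup' hSne
  have hWS : W ≤ (S : Subgroup G) := wSub_le _
  have hWp : IsPGroup p W := S.isPGroup'.to_le hWS
  have hSL : (S : Subgroup G) ≤ L := (Subgroup.le_normalizer).trans (normalizer_le_normalizer_wSub _)
  have hfus := fusion_le S L hSL (normalizer_le_normalizer_wSub _)
    (fun D hD hDS => normalizer_le_of_functor S HW D hD hDS)
  have hgL := hfus g hg
  haveI hLsol : Group.IsSolvable L := hsol _ (normalizer_ne_top_of_pgroup hsimple hnab hWne hWp)
  set W' : Subgroup L := W.subgroupOf L with hW'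
  haveI hW'n : W'.Normal := by
    refine ⟨?_⟩
    intro d hd x
    rw [hW', Subgroup.mem_subgroupOf] at hd ⊢
    exact (Subgroup.mem_normalizer_iff.mp x.2 d).mp hd
  have hW'p : IsPGroup p W' := hWp.comap_subtype
  have hW'ne : W' ≠ ⊥ := by
    obtain ⟨d, hd, hd1⟩ := (Subgroup.bot_or_exists_ne_one W).resolve_left hWne
    intro h
    have h1 : (⟨d, Subgroup.le_normalizer hd⟩ : L) ∈ W' := Subgroup.mem_subgroupOf.mpr hd
    rw [h, Subgroup.mem_bot] at h1
    exact hd1 (congrArg Subtype.val h1)
  rcases cn_type (G := L) (isCN_subgroup hCN L) W' hW'p hW'ne with hn | h3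
  · have hS'n := hn (S.subtype hSL)
    have hle : (S : Subgroup G).map (MulAut.conj g).toMonoidHom ≤ S := by
      rintro _ ⟨s, hs, rfl⟩
      have hs' : (⟨s, hSL hs⟩ : L) ∈ ((S.subtype hSL : Sylow p L) : Subgroup L) := by
        rw [Sylow.coe_subtype]
        exact Subgroup.mem_subgroupOf.mpr hs
      have h1 := hS'n.conj_mem _ hs' ⟨g, hgL⟩
      rw [Sylow.coe_subtype] at h1
      exact Subgroup.mem_subgroupOf.mp h1
    exact Subgroup.eq_of_le_of_card_ge hle (card_map_conj _ _).ge
  · exact (not_threeStep_of_fusion hperf S L hSL hfus h3).elim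

end Cfsg.Agent.H06
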