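import Cfsg.Agent.Lib.H06.CharLin2

/-!
# Decomposing the dual of `W₁ ⊔ W₂`
-/

set_option autoImplicit false

open Cfsg

namespace Cfsg.Agent.H06

open Cfsg.Agent.H21

universe u

section Proj

variable {G : Type u} [Group G] {W₁ W₂ : Subgroup G}

/-- The two projections of an internal direct product. -/
theorem exists_proj (hcomm : ∀ a ∈ W₁, ∀ b ∈ W₂, a * b = b * a) (hdisj : W₁ ⊓ W₂ = ⊥) :
    ∃ (p₁ : ↥(W₁ ⊔ W₂) →* W₁) (p₂ : ↥(W₁ ⊔ W₂) →* W₂),
      (∀ w : ↥(W₁ ⊔ W₂), (w : G) = (p₁ w : G) * (p₂ w : G)) ∧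
      (∀ w : ↥(W₁ ⊔ W₂), (w : G) ∈ W₁ → (p₁ w : G) = w) ∧
      (∀ w : ↥(W₁ ⊔ W₂), (w : G) ∈ W₂ → p₁ w = 1) ∧
      (∀ w : ↥(W₁ ⊔ W₂), (w : G) ∈ W₂ → (p₂ w : G) = w) ∧
      (∀ w : ↥(W₁ ⊔ W₂), (w : G) ∈ W₁ → p₂ w = 1) := by
  classical
  have hex : ∀ w : ↥(W₁ ⊔ W₂), ∃ a : W₁, ∃ b : W₂, (w : G) = a * b := by
    intro w
    obtain ⟨a, ha, b, hb, e⟩ := mem_sup_of_commute hcomm w.2
    exact ⟨⟨a, ha⟩, ⟨b, hb⟩, e⟩
  choose f₁ f₂ hf using hex
  have huniq : ∀ (a a' : W₁) (b b' : W₂), (a : G) * b = a' * b' → a = a' ∧ b = b' := by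
    intro a a' b b' h
    have h1 : (a' : G)⁻¹ * a = b' * (b : G)⁻¹ := by
      calc (a' : G)⁻¹ * a = (a' : G)⁻¹ * (a * b) * (b : G)⁻¹ := by group
        _ = (a' : G)⁻¹ * (a' * b') * (b : G)⁻¹ := by rw [h]
        _ = b' * (b : G)⁻¹ := by group
    have h2 : (a' : G)⁻¹ * a ∈ W₁ ⊓ W₂ :=
      Subgroup.mem_inf.mpr ⟨W₁.mul_mem (W₁.inv_mem a'.2) a.2, h1 ▸ W₂.mul_mem b'.2 (W₂.inv_mem b.2)⟩
    rw [hdisj, Subgroup.mem_bot] at h2
    have h3 : (a : G) = a' := (inv_mul_eq_one.mp h2).symm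
    have h4 : (b : G) = b' := by
      rw [h3] at h
      exact mul_left_cancel h
    exact ⟨Subtype.ext h3, Subtype.ext h4⟩
  have hmul : ∀ x y : ↥(W₁ ⊔ W₂), f₁ (x * y) = f₁ x * f₁ y ∧ f₂ (x * y) = f₂ x * f₂ y := by
    intro x y
    refine huniq _ _ _ _ ?_
    rw [← hf (x * y)]
    show (x : G) * y = ((f₁ x : G) * f₁ y) * ((f₂ x : G) * f₂ y)
    rw [hf x, hf y]
    have := hcomm (f₁ y) (f₁ y).2 (f₂ x) (f₂ x).2
    calc (f₁ x : G) * f₂ x * (f₁ y * f₂ y) = f₁ x * (f₂ x * f₁ y) * f₂ y := by group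
      _ = f₁ x * (f₁ y * f₂ x) * f₂ y := by rw [this]
      _ = (f₁ x : G) * f₁ y * (f₂ x * f₂ y) := by group
  refine ⟨MonoidHom.mk' f₁ fun x y => (hmul x y).1, MonoidHom.mk' f₂ fun x y => (hmul x y).2,
    hf, ?_, ?_, ?_, ?_⟩
  · intro w hw
    have h := huniq (f₁ w) ⟨w, hw⟩ (f₂ w) 1 (by rw [← hf w]; simp)
    show ((f₁ w : W₁) : G) = w
    rw [h.1]
  · intro w hw
    have h := huniq (f₁ w) 1 (f₂ w) ⟨w, hw⟩ (by rw [← hf w]; simp)
    exact h.1
  · intro w hw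
    have h := huniq (f₁ w) 1 (f₂ w) ⟨w, hw⟩ (by rw [← hf w]; simp)
    show ((f₂ w : W₂) : G) = w
    rw [h.2]
  · intro w hw
    have h := huniq (f₁ w) ⟨w, hw⟩ (f₂ w) 1 (by rw [← hf w]; simp)
    exact h.2

/-- Every linear character of `W₁ ⊔ W₂` is a product. -/
theorem exists_dual_decomp (hcomm : ∀ a ∈ W₁, ∀ b ∈ W₂, a * b = b * a) (hdisj : W₁ ⊓ W₂ = ⊥)
    (ω : ↥(W₁ ⊔ W₂) →* ℂˣ) :
    ∃ φ ψ : ↥(W₁ ⊔ W₂) →* ℂˣ, (∀ w : ↥(W₁ ⊔ W₂), (w : G) ∈ W₂ → φ w = 1) ∧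
      (∀ w : ↥(W₁ ⊔ W₂), (w : G) ∈ W₁ → ψ w = 1) ∧ ω = φ * ψ := by
  obtain ⟨p₁, p₂, h, h11, h12, h22, h21⟩ := exists_proj hcomm hdisj
  let i₁ : W₁ →* ↥(W₁ ⊔ W₂) := Subgroup.inclusion le_sup_left
  let i₂ : W₂ →* ↥(W₁ ⊔ W₂) := Subgroup.inclusion le_sup_right
  refine ⟨ω.comp (i₁.comp p₁), ω.comp (i₂.comp p₂), ?_, ?_, ?_⟩
  · intro w hw
    simp [h12 w hw]
  · intro w hw
    simp [h21 w hw]
  · ext w
    have : w = i₁ (p₁ w) * i₂ (p₂ w) := Subtype.ext (h w)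
    simp only [MonoidHom.mul_apply, MonoidHom.comp_apply]
    rw [← map_mul, ← this]

end Proj

section Count

variable {G : Type u} [Group G] [Finite G] {W₁ W₂ : Subgroup G}

/-- The number of characters of `W₁ ⊔ W₂` trivial on `W₂` is `|W₁|`. -/
theorem card_ann_eq (hcomm : ∀ a ∈ W₁, ∀ b ∈ W₂, a * b = b * a) (hdisj : W₁ ⊓ W₂ = ⊥)
    (hcyc : IsCyclic ↥(W₁ ⊔ W₂)) :
    Nat.card {φ : ↥(W₁ ⊔ W₂) →* ℂˣ // ∀ w : ↥(W₁ ⊔ W₂), (w : G) ∈ W₂ → φ w = 1} = Nat.card W₁ := by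
  obtain ⟨p₁, p₂, h, h11, h12, h22, h21⟩ := exists_proj hcomm hdisj
  let i₁ : W₁ →* ↥(W₁ ⊔ W₂) := Subgroup.inclusion le_sup_left
  have hcw : ∀ a b : W₁, a * b = b * a := fun a b =>
    Subtype.ext (comm_of_isCyclic hcyc (a := a) (b := b) (Subgroup.mem_sup_left a.2) (Subgroup.mem_sup_left b.2))
  letI : CommGroup W₁ := { (inferInstance : Group W₁) with mul_comm := hcw }
  have hcard : Nat.card (W₁ →* ℂˣ) = Nat.card W₁ := by
    haveI : NeZero (Monoid.exponent W₁) := ⟨Monoid.exponent_ne_zero_of_finite⟩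
    exact (CommGroup.card_monoidHom_of_hasEnoughRootsOfUnity W₁ ℂ)
  rw [← hcard]
  refine Nat.card_congr ⟨fun φ => φ.1.comp i₁, fun l => ⟨l.comp p₁, ?_⟩, ?_, ?_⟩
  · intro w hw
    simp [h12 w hw]
  · rintro ⟨φ, hφ⟩
    apply Subtype.ext
    ext w
    have e : w = i₁ (p₁ w) * (⟨(p₂ w : G), Subgroup.mem_sup_right (p₂ w).2⟩ : ↥(W₁ ⊔ W₂)) :=
      Subtype.ext (h w)
    have e2 := hφ ⟨(p₂ w : G), Subgroup.mem_sup_right (p₂ w).2⟩ (p₂ w).2
    show ((φ (i₁ (p₁ w)) : ℂˣ) : ℂ) = φ w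
    conv_rhs => rw [e, map_mul, e2, mul_one]
  · intro l
    ext a
    show ((l (p₁ (i₁ a)) : ℂˣ) : ℂ) = l a
    have e : p₁ (i₁ a) = a := Subtype.ext (h11 (i₁ a) a.2)
    rw [e]

/-- The number of characters of `W₁ ⊔ W₂` trivial on `W₁` is `|W₂|`. -/
theorem card_ann_eq' (hcomm : ∀ a ∈ W₁, ∀ b ∈ W₂, a * b = b * a) (hdisj : W₁ ⊓ W₂ = ⊥)
    (hcyc : IsCyclic ↥(W₁ ⊔ W₂)) :
    Nat.card {ψ : ↥(W₁ ⊔ W₂) →* ℂˣ // ∀ w : ↥(W₁ ⊔ W₂), (w : G) ∈ W₁ → ψ w = 1} = Nat.card W₂ := by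
  obtain ⟨p₁, p₂, h, h11, h12, h22, h21⟩ := exists_proj hcomm hdisj
  let i₂ : W₂ →* ↥(W₁ ⊔ W₂) := Subgroup.inclusion le_sup_right
  have hcw : ∀ a b : W₂, a * b = b * a := fun a b =>
    Subtype.ext (comm_of_isCyclic hcyc (a := a) (b := b) (Subgroup.mem_sup_right a.2) (Subgroup.mem_sup_right b.2))
  letI : CommGroup W₂ := { (inferInstance : Group W₂) with mul_comm := hcw }
  have hcard : Nat.card (W₂ →* ℂˣ) = Nat.card W₂ := by
    haveI : NeZero (Monoid.exponent W₂) := ⟨Monoid.exponent_ne_zero_of_finite⟩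
    exact (CommGroup.card_monoidHom_of_hasEnoughRootsOfUnity W₂ ℂ)
  rw [← hcard]
  refine Nat.card_congr ⟨fun φ => φ.1.comp i₂, fun l => ⟨l.comp p₂, ?_⟩, ?_, ?_⟩
  · intro w hw
    simp [h21 w hw]
  · rintro ⟨φ, hφ⟩
    apply Subtype.ext
    ext w
    have e : w = (⟨(p₁ w : G), Subgroup.mem_sup_left (p₁ w).2⟩ : ↥(W₁ ⊔ W₂)) * i₂ (p₂ w) :=
      Subtype.ext (h w)
    have e2 := hφ ⟨(p₁ w : G), Subgroup.mem_sup_left (p₁ w).2⟩ (p₁ w).2
    show ((φ (i₂ (p₂ w)) : ℂˣ) : ℂ) = φ w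
    conv_rhs => rw [e, map_mul, e2, one_mul]
  · intro l
    ext a
    show ((l (p₂ (i₂ a)) : ℂˣ) : ℂ) = l a
    have e : p₂ (i₂ a) = a := Subtype.ext (h22 (i₂ a) a.2)
    rw [e]

end Count

section Rect

open Classical in
/-- The combinatorial trichotomy for a "rectangular" array with few nonzero entries. -/
theorem rect_trichotomy {X Y : Type*} [Fintype X] [Fintype Y] (a : X → Y → ℂ)
    (hrect : ∀ x x' y y', a x y + a x' y' = a x y' + a x' y)
    (hcount : (Finset.univ.filter (fun p : X × Y => a p.1 p.2 ≠ 0)).card < 2 * Fintype.card X)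
    (hwid : Fintype.card X + 2 ≤ Fintype.card Y) :
    (∀ x y, a x y = 0) ∨ (∃ y₀ c, ∀ x y, a x y = if y = y₀ then c else 0) ∨
      (∃ x₀ c, ∀ x y, a x y = if x = x₀ then c else 0) := by
  have hle : ∀ T : Finset (X × Y), (∀ p ∈ T, a p.1 p.2 ≠ 0) → T.card < 2 * Fintype.card X := by
    intro T hT
    refine lt_of_le_of_lt (Finset.card_le_card ?_) hcount
    intro p hp
    simp only [Finset.mem_filter, Finset.mem_univ, true_and]
    exact hT p hp
  have hYnon : Nontrivial Y := Fintype.one_lt_card_iff_nontrivial.mp (by omega)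
  -- a column with at most one nonzero entry
  have h1 : ∃ x₀, ∃ y₀, ∀ y, y ≠ y₀ → a x₀ y = 0 := by
    by_contra hcon
    push Not at hcon
    have h2 : ∀ x, 2 ≤ (Finset.univ.filter (fun y => a x y ≠ 0)).card := by
      intro x
      obtain ⟨y₀⟩ : Nonempty Y := inferInstance
      obtain ⟨y₁, -, h1⟩ := hcon x y₀
      obtain ⟨y₂, h2, h3⟩ := hcon x y₁
      rw [Nat.succ_le_iff, Finset.one_lt_card_iff]
      exact ⟨y₁, y₂, by simpa using h1, by simpa using h3, h2.symm⟩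
    have h3 : (Finset.univ.filter (fun p : X × Y => a p.1 p.2 ≠ 0)).card =
        ∑ x, (Finset.univ.filter (fun y => a x y ≠ 0)).card := by
      rw [Finset.card_filter, Fintype.sum_prod_type]
      refine Finset.sum_congr rfl fun x _ => ?_
      rw [Finset.card_filter]
    have h4 : 2 * Fintype.card X ≤ ∑ x, (Finset.univ.filter (fun y => a x y ≠ 0)).card := by
      have := Finset.card_nsmul_le_sum Finset.univ (fun x => (Finset.univ.filter (fun y => a x y ≠ 0)).card) 2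
        (fun x _ => h2 x)
      rw [Finset.card_univ, smul_eq_mul, mul_comm] at this
      exact this
    omega
  obtain ⟨x₀, y₀, hcol⟩ := h1
  obtain ⟨y₁, hy₁⟩ := exists_ne y₀
  have hval : ∀ x y, a x y = a x y₁ + a x₀ y := by
    intro x y
    have := hrect x x₀ y y₁
    rw [hcol y₁ hy₁, add_zero] at this
    exact this
  have hoff : ∀ x y, y ≠ y₀ → a x y = a x y₁ := by
    intro x y hy
    rw [hval x y, hcol y hy, add_zero]
  have hYcard : (Finset.univ.erase y₀).card = Fintype.card Y - 1 := by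
    rw [Finset.card_erase_of_mem (Finset.mem_univ _), Finset.card_univ]
  by_cases h2 : ∃ x₁ x₂, x₁ ≠ x₂ ∧ a x₁ y₁ ≠ 0 ∧ a x₂ y₁ ≠ 0
  · exfalso
    obtain ⟨x₁, x₂, hne, h₁, h₂⟩ := h2
    have h3 := hle (({x₁, x₂} : Finset X) ×ˢ (Finset.univ.erase y₀)) (by
      rintro ⟨x, y⟩ hp
      simp only [Finset.mem_product, Finset.mem_insert, Finset.mem_singleton, Finset.mem_erase,
        Finset.mem_univ, and_true] at hp
      show a x y ≠ 0
      rw [hoff x y hp.2]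
      rcases hp.1 with rfl | rfl
      · exact h₁
      · exact h₂)
    rw [Finset.card_product, Finset.card_pair hne, hYcard] at h3
    omega
  · push Not at h2
    by_cases h3 : ∃ x₁, a x₁ y₁ ≠ 0
    · obtain ⟨x₁, hx₁⟩ := h3
      have hzero : ∀ x, x ≠ x₁ → a x y₁ = 0 := by
        intro x hx
        by_contra h
        exact hx₁ (h2 x x₁ hx h)
      by_cases hs : a x₀ y₀ = 0
      · right
        right
        refine ⟨x₁, a x₁ y₁, fun x y => ?_⟩
        have h4 : a x₀ y = 0 := by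
          by_cases hy : y = y₀
          · rw [hy, hs]
          · exact hcol y hy
        rw [hval x y, h4, add_zero]
        split_ifs with hx
        · rw [hx]
        · exact hzero x hx
      · exfalso
        have h4 := hle ((({x₁} : Finset X) ×ˢ (Finset.univ.erase y₀)) ∪
            ((Finset.univ.erase x₁) ×ˢ ({y₀} : Finset Y))) (by
          rintro ⟨x, y⟩ hp
          simp only [Finset.mem_union, Finset.mem_product, Finset.mem_singleton, Finset.mem_erase,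
            Finset.mem_univ, and_true] at hp
          show a x y ≠ 0
          rcases hp with ⟨rfl, hp⟩ | ⟨hp, rfl⟩
          · rw [hoff _ _ hp]
            exact hx₁
          · rw [hval x y, hzero x hp, zero_add]
            exact hs)
        have hdisj : Disjoint (({x₁} : Finset X) ×ˢ (Finset.univ.erase y₀))
            ((Finset.univ.erase x₁) ×ˢ ({y₀} : Finset Y)) := by
          rw [Finset.disjoint_left]
          rintro ⟨x, y⟩ hp hq
          simp only [Finset.mem_product, Finset.mem_singleton, Finset.mem_erase,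
            Finset.mem_univ, and_true] at hp hq
          exact hp.2 hq.2
        rw [Finset.card_union_of_disjoint hdisj, Finset.card_product, Finset.card_product, hYcard,
          Finset.card_singleton, Finset.card_singleton, Finset.card_erase_of_mem (Finset.mem_univ _),
          Finset.card_univ] at h4
        have : 1 ≤ Fintype.card X := Fintype.card_pos_iff.mpr ⟨x₁⟩
        omega
    · right
      left
      push Not at h3
      refine ⟨y₀, a x₀ y₀, fun x y => ?_⟩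
      rw [hval x y, h3 x, zero_add]
      split_ifs with hy
      · rw [hy]
      · exact hcol y hy

end Rect

end Cfsg.Agent.H06
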