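import Cfsg.Agent.Lib.H06.CoherZ4

/-!
# Joining a character of small degree to a coherent set
-/

set_option autoImplicit false

namespace Cfsg.Agent.H06

open Cfsg Cfsg.Agent.H21
open scoped ComplexConjugate

universe u v

section Join

variable {L : Type u} [Group L] [Fintype L] {G : Type v} [Group G] [Fintype G]
variable {S : Set (L → ℂ)} {τ : (L → ℂ) → (G → ℂ)} {R : (L → ℂ) → Finset (G → ℂ)}

/-- The value at `1` of a member of the integer span. -/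
theorem zspan_one_dvd {S₂ : Set (L → ℂ)} {d : ℂ} (hdvd : ∀ φ ∈ S₂, ∃ s : ℤ, φ 1 = s * d) {g : L → ℂ}
    (hg : g ∈ zspan S₂) : ∃ t : ℤ, g 1 = t * d := by
  have hg' : g ∈ Submodule.span ℤ S₂ := hg
  clear hg
  induction hg' using Submodule.span_induction with
  | mem u hu => exact hdvd u hu
  | zero => exact ⟨0, by simp⟩
  | add a b _ _ ha hb =>
    obtain ⟨s, hs⟩ := ha
    obtain ⟨t, ht⟩ := hb
    refine ⟨s + t, ?_⟩
    rw [Pi.add_apply, hs, ht]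
    push_cast
    ring
  | smul c a _ ha =>
    obtain ⟨s, hs⟩ := ha
    refine ⟨c * s, ?_⟩
    rw [zsmul_apply', hs]
    push_cast
    ring

/-- The construction of the extension, all data given. -/
theorem join_core (hS : IsCoherenceSystem S τ R) (hnorm : ∀ φ ∈ S, classInner φ φ = 1)
    (S₂ : Finset (L → ℂ)) (hS₂ : (↑S₂ : Set (L → ℂ)) ⊆ S)
    {τ₂ : (L → ℂ) → (G → ℂ)} (hτ₂ : IsLinearIsometryOn (zspan (↑S₂ : Set (L → ℂ))) τ₂)
    (hag : ∀ α ∈ zspanOn (↑S₂ : Set (L → ℂ)) {1}ᶜ, τ₂ α = τ α)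
    {χ₁ : L → ℂ} (hχ₁ : χ₁ ∈ S) (h1 : χ₁ ∉ S₂) (h2 : conjFun χ₁ ∉ S₂)
    {χ₂ : L → ℂ} (hχ₂ : χ₂ ∈ S₂) (a : ℤ) (ha : χ₂ 1 = a * χ₁ 1)
    (hdvd : ∀ φ ∈ S₂, ∃ s : ℤ, φ 1 = s * χ₂ 1)
    {r₁ r₂ : G → ℂ} (hr₁g : IsGeneralizedCharacter G r₁) (hr₂g : IsGeneralizedCharacter G r₂)
    (hr₁ : classInner r₁ r₁ = 1) (hr₂ : classInner r₂ r₂ = 1) (hr₁₂ : classInner r₁ r₂ = 0)
    (hr₁φ : ∀ φ ∈ S₂, classInner (τ₂ φ) r₁ = 0) (hr₂φ : ∀ φ ∈ S₂, classInner (τ₂ φ) r₂ = 0)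
    (hΔ : τ (χ₁ - conjFun χ₁) = r₁ + r₂)
    (hβ : τ (χ₂ + (-a) • χ₁) = τ₂ χ₂ + (-a) • r₁) :
    IsCoherent ((↑S₂ : Set (L → ℂ)) ∪ {χ₁, conjFun χ₁}) {1}ᶜ τ := by
  classical
  have hmS : ∀ φ ∈ S₂, φ ∈ S := fun φ h => hS₂ (Finset.mem_coe.mpr h)
  have hmZ : ∀ φ ∈ S₂, φ ∈ zspan (↑S₂ : Set (L → ℂ)) := fun φ h => mem_zspan (Finset.mem_coe.mpr h)
  have hχc := hS.conj_mem χ₁ hχ₁
  have hne := hS.conj_ne χ₁ hχ₁
  have hiso := hS.isometry
  have hχ₂S := hmS χ₂ hχ₂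
  have hχcone : conjFun χ₁ 1 = χ₁ 1 := system_conj_one hS hχ₁
  have hcχ : classInner χ₁ (conjFun χ₁) = 0 := hS.orthogonal χ₁ hχ₁ _ hχc hne.symm
  have hcχ' : classInner (conjFun χ₁) χ₁ = 0 := hS.orthogonal _ hχc χ₁ hχ₁ hne
  have horth1 : ∀ φ ∈ S₂, classInner χ₁ φ = 0 := fun φ h =>
    hS.orthogonal χ₁ hχ₁ φ (hmS φ h) (fun e => h1 (e ▸ h))
  have horth1' : ∀ φ ∈ S₂, classInner φ χ₁ = 0 := fun φ h =>
    hS.orthogonal φ (hmS φ h) χ₁ hχ₁ (fun e => h1 (e ▸ h))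
  have horth2 : ∀ φ ∈ S₂, classInner (conjFun χ₁) φ = 0 := fun φ h =>
    hS.orthogonal _ hχc φ (hmS φ h) (fun e => h2 (e ▸ h))
  have horth2' : ∀ φ ∈ S₂, classInner φ (conjFun χ₁) = 0 := fun φ h =>
    hS.orthogonal φ (hmS φ h) _ hχc (fun e => h2 (e ▸ h))
  have hτon : ∀ φ ∈ S₂, ∀ ψ ∈ S₂, classInner (τ₂ φ) (τ₂ ψ) = classInner φ ψ := fun φ h ψ h' =>
    hτ₂.2.2.1 φ (hmZ φ h) ψ (hmZ ψ h')
  have hτ₂gen : ∀ φ ∈ S₂, IsGeneralizedCharacter G (τ₂ φ) := fun φ h => hτ₂.2.2.2 φ (hmZ φ h)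
  have hr₂₁ : classInner r₂ r₁ = 0 := by
    rw [← classInner_comm_conj, hr₁₂, map_zero]
  have hr₁φ' : ∀ φ ∈ S₂, classInner r₁ (τ₂ φ) = 0 := fun φ h => by
    rw [← classInner_comm_conj, hr₁φ φ h, map_zero]
  have hr₂φ' : ∀ φ ∈ S₂, classInner r₂ (τ₂ φ) = 0 := fun φ h => by
    rw [← classInner_comm_conj, hr₂φ φ h, map_zero]
  -- the extension
  let T : Finset (L → ℂ) := S₂ ∪ {χ₁, conjFun χ₁}
  have hTe : (↑T : Set (L → ℂ)) = ↑S₂ ∪ {χ₁, conjFun χ₁} := by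
    simp [T]
  have hTm : ∀ x, x ∈ T ↔ x ∈ S₂ ∨ x = χ₁ ∨ x = conjFun χ₁ := fun x => by
    simp only [T, Finset.mem_union, Finset.mem_insert, Finset.mem_singleton]
  have hTS : ∀ x ∈ T, x ∈ S := by
    intro x hx
    rcases (hTm x).mp hx with h | h | h
    · exact hmS x h
    · rw [h]
      exact hχ₁
    · rw [h]
      exact hχc
  let Y' : G → ℂ := -r₂
  let μ : (L → ℂ) → (G → ℂ) := fun f => if f = χ₁ then r₁ else if f = conjFun χ₁ then Y' else τ₂ f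
  have hμχ : μ χ₁ = r₁ := if_pos rfl
  have hμc : μ (conjFun χ₁) = Y' := by
    show (if conjFun χ₁ = χ₁ then r₁ else if conjFun χ₁ = conjFun χ₁ then Y' else τ₂ _) = Y'
    rw [if_neg hne, if_pos rfl]
  have hμφ : ∀ φ ∈ S₂, μ φ = τ₂ φ := fun φ hφ => by
    show (if φ = χ₁ then r₁ else if φ = conjFun χ₁ then Y' else τ₂ φ) = τ₂ φ
    rw [if_neg (fun e : φ = χ₁ => h1 (e ▸ hφ)), if_neg (fun e : φ = conjFun χ₁ => h2 (e ▸ hφ))]
  have hTorth : ∀ x ∈ T, ∀ y ∈ T, x ≠ y → classInner x y = 0 := fun x hx y hy h =>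
    hS.orthogonal x (hTS x hx) y (hTS y hy) h
  have hTne : ∀ x ∈ T, classInner x x ≠ 0 := fun x hx => system_char_ne_zero hS (hTS x hx)
  have hY'gen : IsGeneralizedCharacter G Y' := by
    have h3 := gen_zsmul hr₂g (-1)
    simpa [Y'] using h3
  have hY'φ : ∀ φ ∈ S₂, classInner Y' (τ₂ φ) = 0 := fun φ hφ => by
    simp only [Y']
    rw [classInner_neg_left', hr₂φ' φ hφ, neg_zero]
  have hφY' : ∀ φ ∈ S₂, classInner (τ₂ φ) Y' = 0 := fun φ hφ => by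
    simp only [Y']
    rw [classInner_neg_right', hr₂φ φ hφ, neg_zero]
  have hr₁Y' : classInner r₁ Y' = 0 := by
    simp only [Y']
    rw [classInner_neg_right', hr₁₂, neg_zero]
  have hY'r₁ : classInner Y' r₁ = 0 := by
    simp only [Y']
    rw [classInner_neg_left', hr₂₁, neg_zero]
  have hY'Y' : classInner Y' Y' = 1 := by
    simp only [Y']
    rw [classInner_neg_left', classInner_neg_right', hr₂, neg_neg]
  have hnc : classInner (conjFun χ₁) (conjFun χ₁) = 1 := hnorm _ hχc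
  have hn1 : classInner χ₁ χ₁ = 1 := hnorm _ hχ₁
  have hisoT : IsLinearIsometryOn (zspan (↑T : Set (L → ℂ))) (coherExt T μ) := by
    refine coherExt_isometry hTorth hTne ?_ ?_
    · intro x hx
      rcases (hTm x).mp hx with h | h | h
      · rw [hμφ x h]
        exact hτ₂gen x h
      · rw [h, hμχ]
        exact hr₁g
      · rw [h, hμc]
        exact hY'gen
    · intro u hu v hv
      rcases (hTm u).mp hu with h | h | h <;> rcases (hTm v).mp hv with h' | h' | h'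
      · rw [hμφ u h, hμφ v h']
        exact hτon u h v h'
      · rw [h', hμφ u h, hμχ, hr₁φ u h, horth1' u h]
      · rw [h', hμφ u h, hμc, hφY' u h, horth2' u h]
      · rw [h, hμφ v h', hμχ, hr₁φ' v h', horth1 v h']
      · rw [h, h', hμχ, hr₁, hn1]
      · rw [h, h', hμχ, hμc, hr₁Y', hcχ]
      · rw [h, hμφ v h', hμc, hY'φ v h', horth2 v h']
      · rw [h, h', hμχ, hμc, hY'r₁, hcχ']
      · rw [h, h', hμc, hY'Y', hnc]
  have hmemT : ∀ x ∈ T, coherExt T μ x = μ x := fun x hx => coherExt_mem hTorth hTne hx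
  rw [hTe] at hisoT
  have hχT : χ₁ ∈ (↑S₂ ∪ {χ₁, conjFun χ₁} : Set (L → ℂ)) := by simp
  have hcT : conjFun χ₁ ∈ (↑S₂ ∪ {χ₁, conjFun χ₁} : Set (L → ℂ)) := by simp
  refine ⟨⟨χ₁ - conjFun χ₁, mem_zspanOn_one (zspan_sub_mem (mem_zspan hχT) (mem_zspan hcT)) (by
    rw [Pi.sub_apply, hχcone, sub_self]), fun h => hne (sub_eq_zero.mp h).symm⟩,
    coherExt T μ, hisoT, ?_⟩
  intro f hf
  have hQ : ∀ g ∈ zspan (↑S₂ ∪ {χ₁, conjFun χ₁} : Set (L → ℂ)), ∃ g₁ ∈ zspan (↑S₂ : Set (L → ℂ)), ∃ m m' : ℤ,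
      g = g₁ + m • χ₁ + m' • conjFun χ₁ ∧ coherExt T μ g = τ₂ g₁ + m • r₁ + m' • Y' := by
    intro g hg
    have hg' : g ∈ Submodule.span ℤ (↑S₂ ∪ {χ₁, conjFun χ₁} : Set (L → ℂ)) := hg
    clear hg
    induction hg' using Submodule.span_induction with
    | mem u hu =>
      have hu' : u ∈ T := by
        rw [← Finset.mem_coe, hTe]
        exact hu
      rcases (hTm u).mp hu' with h | h | h
      · refine ⟨u, hmZ u h, 0, 0, by simp, ?_⟩
        rw [hmemT u hu', hμφ u h]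
        simp
      · refine ⟨0, zspan_zero_mem, 1, 0, by simp [h], ?_⟩
        rw [hmemT u hu', h, hμχ, iso_zero hτ₂ zspan_zero_mem]
        simp
      · refine ⟨0, zspan_zero_mem, 0, 1, by simp [h], ?_⟩
        rw [hmemT u hu', h, hμc, iso_zero hτ₂ zspan_zero_mem]
        simp
    | zero =>
      refine ⟨0, zspan_zero_mem, 0, 0, by simp, ?_⟩
      rw [coherExt_zero, iso_zero hτ₂ zspan_zero_mem]
      simp
    | add a₁ b₁ _ _ ha₁ hb₁ =>
      obtain ⟨g₁, hg₁, k, k', e, e'⟩ := ha₁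
      obtain ⟨g₂, hg₂, l, l', e₂, e₂'⟩ := hb₁
      refine ⟨g₁ + g₂, zspan_add_mem hg₁ hg₂, k + l, k' + l', ?_, ?_⟩
      · rw [e, e₂, add_smul, add_smul]
        abel
      · rw [coherExt_add, e', e₂', hτ₂.1 _ hg₁ _ hg₂, add_smul, add_smul]
        abel
    | smul c a₁ _ ha₁ =>
      obtain ⟨g₁, hg₁, k, k', e, e'⟩ := ha₁
      refine ⟨c • g₁, zspan_zsmul_mem c hg₁, c * k, c * k', ?_, ?_⟩
      · rw [e, smul_add, smul_add, mul_smul, mul_smul]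
      · rw [coherExt_zsmul, e', hτ₂.2.1 _ hg₁, smul_add, smul_add, mul_smul, mul_smul]
  obtain ⟨g₁, hg₁, m, m', ef, ef'⟩ := hQ f hf.1
  have hf1 : f 1 = 0 := hf.2 1 (by simp)
  have hχ₁one : χ₁ 1 ≠ 0 := system_one_ne_zero hS hχ₁
  obtain ⟨t, ht⟩ := zspan_one_dvd (fun φ hφ => hdvd φ (Finset.mem_coe.mp hφ)) hg₁
  have hval : (t : ℂ) * a + m + m' = 0 := by
    rw [ef] at hf1
    simp only [Pi.add_apply, zsmul_apply', hχcone, ht, ha] at hf1
    apply mul_right_cancel₀ hχ₁one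
    linear_combination hf1
  have hval' : t * a + m + m' = 0 := by exact_mod_cast hval
  -- the three pieces
  have hχ₂Z := hmZ χ₂ hχ₂
  have hp1 : g₁ + (-t) • χ₂ ∈ zspanOn (↑S₂ : Set (L → ℂ)) {1}ᶜ := by
    refine mem_zspanOn_one (zspan_add_mem hg₁ (zspan_zsmul_mem _ hχ₂Z)) ?_
    simp only [Pi.add_apply, zsmul_apply', ht]
    push_cast
    ring
  have hp2 : χ₂ + (-a) • χ₁ ∈ zspanOn S {1}ᶜ := by
    refine mem_zspanOn_one (zspan_add_mem (mem_zspan hχ₂S) (zspan_zsmul_mem _ (mem_zspan hχ₁))) ?_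
    simp only [Pi.add_apply, zsmul_apply', ha]
    push_cast
    ring
  have hp3 : χ₁ - conjFun χ₁ ∈ zspanOn S {1}ᶜ :=
    mem_zspanOn_one (zspan_sub_mem (mem_zspan hχ₁) (mem_zspan hχc)) (by
      rw [Pi.sub_apply, hχcone, sub_self])
  have hp1' := zspanOn_mono hS₂ hp1
  have hfeq : f = (g₁ + (-t) • χ₂) + t • (χ₂ + (-a) • χ₁) + (-m') • (χ₁ - conjFun χ₁) := by
    rw [ef]
    funext x
    simp only [Pi.add_apply, Pi.sub_apply, zsmul_apply']
    have hm : (m : ℂ) = -(t * a) - m' := by linear_combination hval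
    rw [hm]
    push_cast
    ring
  have h3 : τ f = τ (g₁ + (-t) • χ₂) + t • τ (χ₂ + (-a) • χ₁) + (-m') • τ (χ₁ - conjFun χ₁) := by
    conv_lhs => rw [hfeq]
    have hm2 := zspanOn_closed S _ t _ hp2
    have hm3 := zspanOn_closed S _ (-m') _ hp3
    rw [hiso.1 _ (zspanOn_add hp1' hm2) _ hm3, hiso.1 _ hp1' _ hm2, hiso.2.1 _ hp2 t, hiso.2.1 _ hp3 (-m')]
  rw [h3, ef', ← hag _ hp1, hτ₂.1 _ hg₁ _ (zspan_zsmul_mem _ hχ₂Z), hτ₂.2.1 χ₂ hχ₂Z, hβ, hΔ]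
  funext x
  simp only [Y', Pi.add_apply, Pi.neg_apply, zsmul_apply']
  have hm : (m : ℂ) = -(t * a) - m' := by linear_combination hval
  rw [hm]
  push_cast
  ring

/-- An integer `n` has `n (n - 1) ≥ 0`. -/
theorem int_mul_pred_nonneg (n : ℤ) : 0 ≤ n * (n - 1) := by
  rcases le_or_gt n 0 with h | h
  · nlinarith
  · have : 1 ≤ n := h
    nlinarith

/-- If `S₂` consists of one conjugate pair, swapping and changing signs gives another extension. -/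
theorem join_swap (hS : IsCoherenceSystem S τ R)
    (S₂ : Finset (L → ℂ)) (hS₂ : (↑S₂ : Set (L → ℂ)) ⊆ S)
    {τ₂ : (L → ℂ) → (G → ℂ)} (hτ₂ : IsLinearIsometryOn (zspan (↑S₂ : Set (L → ℂ))) τ₂)
    (hag : ∀ α ∈ zspanOn (↑S₂ : Set (L → ℂ)) {1}ᶜ, τ₂ α = τ α)
    {χ₂ : L → ℂ} (hχ₂ : χ₂ ∈ S₂) (hχ₂c : conjFun χ₂ ∈ S₂)
    (hall : ∀ φ ∈ S₂, φ = χ₂ ∨ φ = conjFun χ₂) :
    ∃ τ₃ : (L → ℂ) → (G → ℂ), IsLinearIsometryOn (zspan (↑S₂ : Set (L → ℂ))) τ₃ ∧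
      (∀ α ∈ zspanOn (↑S₂ : Set (L → ℂ)) {1}ᶜ, τ₃ α = τ α) ∧
      τ₃ χ₂ = -τ₂ (conjFun χ₂) ∧ τ₃ (conjFun χ₂) = -τ₂ χ₂ := by
  classical
  have hmS : ∀ φ ∈ S₂, φ ∈ S := fun φ h => hS₂ (Finset.mem_coe.mpr h)
  have hmZ : ∀ φ ∈ S₂, φ ∈ zspan (↑S₂ : Set (L → ℂ)) := fun φ h => mem_zspan (Finset.mem_coe.mpr h)
  have hne := hS.conj_ne χ₂ (hmS χ₂ hχ₂)
  let X := τ₂ χ₂
  let X' := τ₂ (conjFun χ₂)
  let μ : (L → ℂ) → (G → ℂ) := fun f => if f = χ₂ then -X' else -X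
  have hμ1 : μ χ₂ = -X' := if_pos rfl
  have hμ2 : μ (conjFun χ₂) = -X := if_neg hne
  have horth : ∀ x ∈ S₂, ∀ y ∈ S₂, x ≠ y → classInner x y = 0 := fun x hx y hy h =>
    hS.orthogonal x (hmS x hx) y (hmS y hy) h
  have hnz : ∀ x ∈ S₂, classInner x x ≠ 0 := fun x hx => system_char_ne_zero hS (hmS x hx)
  have hgen : ∀ x ∈ S₂, IsGeneralizedCharacter G (-τ₂ x) := fun x hx => by
    have := gen_zsmul (hτ₂.2.2.2 x (hmZ x hx)) (-1)
    simpa using this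
  have hin : ∀ x ∈ S₂, ∀ y ∈ S₂, classInner (-τ₂ x) (-τ₂ y) = classInner x y := fun x hx y hy => by
    rw [classInner_neg_left', classInner_neg_right', neg_neg, hτ₂.2.2.1 x (hmZ x hx) y (hmZ y hy)]
  have hconjc : classInner (conjFun χ₂) (conjFun χ₂) = classInner χ₂ χ₂ := by
    rw [classInner_conjFun]
    obtain ⟨n, -, hn⟩ := system_exists_norm hS (hmS χ₂ hχ₂)
    rw [hn, Complex.conj_natCast]
  have hiso : IsLinearIsometryOn (zspan (↑S₂ : Set (L → ℂ))) (coherExt S₂ μ) := by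
    refine coherExt_isometry horth hnz ?_ ?_
    · intro x hx
      rcases hall x hx with rfl | rfl
      · rw [hμ1]
        exact hgen _ hχ₂c
      · rw [hμ2]
        exact hgen _ hχ₂
    · intro u hu v hv
      rcases hall u hu with rfl | rfl <;> rcases hall v hv with rfl | rfl
      · rw [hμ1, hin _ hχ₂c _ hχ₂c, hconjc]
      · rw [hμ1, hμ2, hin _ hχ₂c _ hχ₂, horth _ hχ₂c _ hχ₂ hne, horth _ hχ₂ _ hχ₂c hne.symm]
      · rw [hμ1, hμ2, hin _ hχ₂ _ hχ₂c, horth _ hχ₂ _ hχ₂c hne.symm, horth _ hχ₂c _ hχ₂ hne]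
      · rw [hμ2, hin _ hχ₂ _ hχ₂, hconjc]
  have hmem : ∀ x ∈ S₂, coherExt S₂ μ x = μ x := fun x hx => coherExt_mem horth hnz hx
  refine ⟨coherExt S₂ μ, hiso, ?_, by rw [hmem _ hχ₂, hμ1], by rw [hmem _ hχ₂c, hμ2]⟩
  intro f hf
  have hQ : ∀ g ∈ zspan (↑S₂ : Set (L → ℂ)), ∃ m m' : ℤ, g = m • χ₂ + m' • conjFun χ₂ ∧
      coherExt S₂ μ g = m • (-X') + m' • (-X) := by
    intro g hg
    have hg' : g ∈ Submodule.span ℤ (↑S₂ : Set (L → ℂ)) := hg
    clear hg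
    induction hg' using Submodule.span_induction with
    | mem u hu =>
      have hu' : u ∈ S₂ := Finset.mem_coe.mp hu
      rcases hall u hu' with h | h
      · refine ⟨1, 0, by simp [h], ?_⟩
        rw [hmem u hu', h, hμ1]
        simp
      · refine ⟨0, 1, by simp [h], ?_⟩
        rw [hmem u hu', h, hμ2]
        simp
    | zero =>
      refine ⟨0, 0, by simp, ?_⟩
      rw [coherExt_zero]
      simp
    | add a b _ _ ha hb =>
      obtain ⟨k, k', e, e'⟩ := ha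
      obtain ⟨l, l', e₂, e₂'⟩ := hb
      refine ⟨k + l, k' + l', ?_, ?_⟩
      · rw [e, e₂, add_smul, add_smul]
        abel
      · rw [coherExt_add, e', e₂', add_smul, add_smul]
        abel
    | smul c a _ ha =>
      obtain ⟨k, k', e, e'⟩ := ha
      refine ⟨c * k, c * k', ?_, ?_⟩
      · rw [e, smul_add, mul_smul, mul_smul]
      · rw [coherExt_zsmul, e', smul_add, mul_smul, mul_smul]
  obtain ⟨m, m', ef, ef'⟩ := hQ f hf.1
  have hf1 : f 1 = 0 := hf.2 1 (by simp)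
  have hone : χ₂ 1 ≠ 0 := system_one_ne_zero hS (hmS χ₂ hχ₂)
  have hm : (m : ℂ) + m' = 0 := by
    rw [ef] at hf1
    simp only [Pi.add_apply, zsmul_apply', system_conj_one hS (hmS χ₂ hχ₂)] at hf1
    apply mul_right_cancel₀ hone
    linear_combination hf1
  have hm' : m' = -m := by
    have : m + m' = 0 := by exact_mod_cast hm
    omega
  rw [ef', ← hag f hf, ef, hm', hτ₂.1 _ (zspan_zsmul_mem _ (hmZ _ hχ₂)) _ (zspan_zsmul_mem _ (hmZ _ hχ₂c)),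
    hτ₂.2.1 _ (hmZ _ hχ₂), hτ₂.2.1 _ (hmZ _ hχ₂c)]
  funext x
  simp only [X, X', Pi.add_apply, Pi.neg_apply, zsmul_apply']
  push_cast
  ring

/-- The join, given the divisibility of the inner products with `R χ₁`. -/
theorem join_main (hS : IsCoherenceSystem S τ R) (hnorm : ∀ φ ∈ S, classInner φ φ = 1)
    (S₂ : Finset (L → ℂ)) (hS₂ : (↑S₂ : Set (L → ℂ)) ⊆ S) (hS₂c : ∀ φ ∈ S₂, conjFun φ ∈ S₂)
    (hcoh : IsCoherent (↑S₂ : Set (L → ℂ)) {1}ᶜ τ)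
    {χ₁ : L → ℂ} (hχ₁ : χ₁ ∈ S) (h1 : χ₁ ∉ S₂) (h2 : conjFun χ₁ ∉ S₂)
    {χ₂ : L → ℂ} (hχ₂ : χ₂ ∈ S₂) (a : ℤ) (ha0 : a ≠ 0) (ha : χ₂ 1 = a * χ₁ 1)
    (hdvd : ∀ φ ∈ S₂, ∃ s : ℤ, φ 1 = s * χ₂ 1)
    (hint : ∀ r ∈ R χ₁, ∃ y : ℤ, classInner (τ (χ₂ + (-a) • χ₁)) r = a * y) :
    IsCoherent ((↑S₂ : Set (L → ℂ)) ∪ {χ₁, conjFun χ₁}) {1}ᶜ τ := by
  classical
  obtain ⟨-, τ₂, hτ₂, hag⟩ := hcoh
  have hmS : ∀ φ ∈ S₂, φ ∈ S := fun φ h => hS₂ (Finset.mem_coe.mpr h)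
  have hmZ : ∀ φ ∈ S₂, φ ∈ zspan (↑S₂ : Set (L → ℂ)) := fun φ h => mem_zspan (Finset.mem_coe.mpr h)
  have hS₂c' : ∀ φ ∈ (↑S₂ : Set (L → ℂ)), conjFun φ ∈ (↑S₂ : Set (L → ℂ)) := fun φ h =>
    Finset.mem_coe.mpr (hS₂c φ (Finset.mem_coe.mp h))
  have hiso := hS.isometry
  have hχc := hS.conj_mem χ₁ hχ₁
  have hne := hS.conj_ne χ₁ hχ₁
  have hχ₂S := hmS χ₂ hχ₂
  have hχ₂c := hS₂c χ₂ hχ₂
  have hne₂ := hS.conj_ne χ₂ hχ₂S
  have hχcone : conjFun χ₁ 1 = χ₁ 1 := system_conj_one hS hχ₁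
  have hcχ : classInner χ₁ (conjFun χ₁) = 0 := hS.orthogonal χ₁ hχ₁ _ hχc hne.symm
  have hcχ' : classInner (conjFun χ₁) χ₁ = 0 := hS.orthogonal _ hχc χ₁ hχ₁ hne
  have horth1 : ∀ φ ∈ S₂, classInner χ₁ φ = 0 := fun φ h =>
    hS.orthogonal χ₁ hχ₁ φ (hmS φ h) (fun e => h1 (e ▸ h))
  have horth1' : ∀ φ ∈ S₂, classInner φ χ₁ = 0 := fun φ h =>
    hS.orthogonal φ (hmS φ h) χ₁ hχ₁ (fun e => h1 (e ▸ h))
  have horth2' : ∀ φ ∈ S₂, classInner φ (conjFun χ₁) = 0 := fun φ h =>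
    hS.orthogonal φ (hmS φ h) _ hχc (fun e => h2 (e ▸ h))
  have hn1 : classInner χ₁ χ₁ = 1 := hnorm _ hχ₁
  have hn1c : classInner (conjFun χ₁) (conjFun χ₁) = 1 := hnorm _ hχc
  have hn2 : classInner χ₂ χ₂ = 1 := hnorm _ hχ₂S
  have hc₂ : classInner χ₂ (conjFun χ₂) = 0 := hS.orthogonal χ₂ hχ₂S _ (hmS _ hχ₂c) hne₂.symm
  -- the element
  set α : L → ℂ := χ₂ + (-a) • χ₁ with hα
  have hαm : α ∈ zspanOn S {1}ᶜ := by
    refine mem_zspanOn_one (zspan_add_mem (mem_zspan hχ₂S) (zspan_zsmul_mem _ (mem_zspan hχ₁))) ?_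
    simp only [α, Pi.add_apply, zsmul_apply', ha]
    push_cast
    ring
  set β : G → ℂ := τ α with hβ
  have hβgen : IsGeneralizedCharacter G β := hiso.2.2.2 α hαm
  have hββ : classInner β β = ((1 + a * a : ℤ) : ℂ) := by
    rw [hβ, hiso.2.2.1 α hαm α hαm]
    simp only [α, classInner_add_left, classInner_add_right, classInner_zsmul_left, classInner_zsmul_right]
    rw [hn2, hn1, horth1 χ₂ hχ₂, horth1' χ₂ hχ₂]
    push_cast
    ring
  -- `R χ₁`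
  have hon := hS.orthonormal χ₁ hχ₁
  have hd : χ₁ - conjFun χ₁ ∈ zspanOn S {1}ᶜ :=
    mem_zspanOn_one (zspan_sub_mem (mem_zspan hχ₁) (mem_zspan hχc)) (by
      rw [Pi.sub_apply, hχcone, sub_self])
  have hsum := hS.sum_eq χ₁ hχ₁
  have hcard : (R χ₁).card = 2 := by
    have h3 := hiso.2.2.1 _ hd _ hd
    rw [hsum, classInner_sum_self hon] at h3
    simp only [classInner_sub_left', classInner_sub_right'] at h3
    rw [hn1, hn1c, hcχ, hcχ'] at h3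
    have h4 : (((R χ₁).card : ℕ) : ℂ) = ((2 : ℕ) : ℂ) := by
      rw [h3]
      push_cast
      ring
    exact_mod_cast h4
  obtain ⟨s₁, s₂, hs12, hRe⟩ := Finset.card_eq_two.mp hcard
  have hs₁ : s₁ ∈ R χ₁ := by rw [hRe]; simp
  have hs₂ : s₂ ∈ R χ₁ := by rw [hRe]; simp
  have hΔ' : τ (χ₁ - conjFun χ₁) = s₁ + s₂ := by
    rw [hsum, hRe, Finset.sum_pair hs12]
  have hn₁ : classInner s₁ s₁ = 1 := by rw [hon s₁ hs₁ s₁ hs₁, if_pos rfl]
  have hn₂ : classInner s₂ s₂ = 1 := by rw [hon s₂ hs₂ s₂ hs₂, if_pos rfl]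
  have hs₁₂ : classInner s₁ s₂ = 0 := by rw [hon s₁ hs₁ s₂ hs₂, if_neg hs12]
  have hs₂₁ : classInner s₂ s₁ = 0 := by rw [hon s₂ hs₂ s₁ hs₁, if_neg hs12.symm]
  have hg₁ := hS.virtual χ₁ hχ₁ s₁ hs₁
  have hg₂ := hS.virtual χ₁ hχ₁ s₂ hs₂
  have horthR : ∀ φ ∈ S₂, ∀ r ∈ R χ₁, classInner (τ₂ φ) r = 0 := fun φ hφ r hr =>
    coh_orth hS hS₂ hS₂c' hτ₂ hag (Finset.mem_coe.mpr hφ) hχ₁
      (fun h => h1 (Finset.mem_coe.mp h)) (fun h => h2 (Finset.mem_coe.mp h)) hr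
  obtain ⟨y₁, hy₁⟩ := hint s₁ hs₁
  obtain ⟨y₂, hy₂⟩ := hint s₂ hs₂
  have hac : (a : ℂ) ≠ 0 := by exact_mod_cast ha0
  have hyy : y₁ + y₂ = -1 := by
    have h3 : classInner β s₁ + classInner β s₂ = -(a : ℂ) := by
      rw [← classInner_add_right, ← hΔ', hβ, hiso.2.2.1 α hαm _ hd]
      simp only [α, classInner_add_left, classInner_sub_right', classInner_zsmul_left]
      rw [hn1, hcχ, horth1' χ₂ hχ₂, horth2' χ₂ hχ₂]
      push_cast
      ring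
    rw [hy₁, hy₂] at h3
    have h4 : (a : ℂ) * ((y₁ : ℂ) + y₂ + 1) = 0 := by linear_combination h3
    have h5 := (mul_eq_zero.mp h4).resolve_left hac
    have h6 : ((y₁ + y₂ + 1 : ℤ) : ℂ) = ((0 : ℤ) : ℂ) := by
      push_cast
      exact h5
    have h7 : y₁ + y₂ + 1 = 0 := by exact_mod_cast h6
    omega
  -- `τ₂` on `χ₂` and its conjugate
  set X₂ := τ₂ χ₂ with hX₂
  set X₂' := τ₂ (conjFun χ₂) with hX₂'
  have hZ₂ := hmZ χ₂ hχ₂
  have hZ₂c := hmZ _ hχ₂c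
  obtain ⟨u, hu⟩ := gen_inner_int hβgen (hτ₂.2.2.2 χ₂ hZ₂)
  have hd₂ : χ₂ - conjFun χ₂ ∈ zspanOn (↑S₂ : Set (L → ℂ)) {1}ᶜ :=
    mem_zspanOn_one (zspan_sub_mem hZ₂ hZ₂c) (by
      rw [Pi.sub_apply, system_conj_one hS hχ₂S, sub_self])
  have hdiff : τ (χ₂ - conjFun χ₂) = X₂ - X₂' := by
    rw [← hag _ hd₂, sub_eq_add_neg]
    have h3 := hτ₂.2.1 _ hZ₂c (-1)
    simp only [neg_smul, one_smul] at h3
    rw [hτ₂.1 _ hZ₂ _ (by simpa using zspan_zsmul_mem (-1) hZ₂c), h3, sub_eq_add_neg]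
  have hu' : classInner β X₂' = ((u - 1 : ℤ) : ℂ) := by
    have h3 : classInner β (X₂ - X₂') = 1 := by
      rw [← hdiff, hβ, hiso.2.2.1 α hαm _ (zspanOn_mono hS₂ hd₂)]
      simp only [α, classInner_add_left, classInner_sub_right', classInner_zsmul_left]
      rw [hn2, hc₂, horth1 χ₂ hχ₂, horth1 _ hχ₂c]
      simp
    rw [classInner_sub_right', hu] at h3
    push_cast
    linear_combination -h3
  have hXX : classInner X₂ X₂ = 1 := by
    rw [hX₂, hτ₂.2.2.1 _ hZ₂ _ hZ₂, hn2]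
  have hXX' : classInner X₂ X₂' = 0 := by
    rw [hX₂, hX₂', hτ₂.2.2.1 _ hZ₂ _ hZ₂c, hc₂]
  have hX'X : classInner X₂' X₂ = 0 := by
    rw [← classInner_comm_conj, hXX', map_zero]
  have hX'X' : classInner X₂' X₂' = 1 := by
    rw [hX₂', hτ₂.2.2.1 _ hZ₂c _ hZ₂c, hnorm _ (hmS _ hχ₂c)]
  have hrX : ∀ r ∈ R χ₁, classInner X₂ r = 0 ∧ classInner X₂' r = 0 ∧ classInner r X₂ = 0 ∧
      classInner r X₂' = 0 := by
    intro r hr
    have e1 := horthR χ₂ hχ₂ r hr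
    have e2 := horthR _ hχ₂c r hr
    refine ⟨e1, e2, ?_, ?_⟩
    · rw [← classInner_comm_conj]
      show conj (classInner X₂ r) = 0
      rw [e1, map_zero]
    · rw [← classInner_comm_conj]
      show conj (classInner X₂' r) = 0
      rw [e2, map_zero]
  -- Bessel
  have hbes : u * u + (u - 1) * (u - 1) + (a * y₁) * (a * y₁) + (a * y₂) * (a * y₂) ≤ 1 + a * a := by
    let e : Fin 4 → G → ℂ := ![X₂, X₂', s₁, s₂]
    have he : ∀ i ∈ (Finset.univ : Finset (Fin 4)), ∀ j ∈ (Finset.univ : Finset (Fin 4)),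
        classInner (e i) (e j) = if i = j then 1 else 0 := by
      obtain ⟨e1, e2, e3, e4⟩ := hrX s₁ hs₁
      obtain ⟨e5, e6, e7, e8⟩ := hrX s₂ hs₂
      intro i _ j _
      fin_cases i <;> fin_cases j <;>
        simp [e, hXX, hXX', hX'X, hX'X', e1, e2, e3, e4, e5, e6, e7, e8, hn₁, hn₂, hs₁₂, hs₂₁]
    have h3 := bessel_le_int Finset.univ e he β ![u, u - 1, a * y₁, a * y₂] (by
      intro i _
      fin_cases i
      · simpa [e] using hu
      · simpa [e] using hu'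
      · simpa [e] using hy₁
      · simpa [e] using hy₂) (1 + a * a) hββ
    simpa [Fin.sum_univ_four] using h3
  have hy₂e : y₂ = -1 - y₁ := by omega
  have ha1 : 1 ≤ a * a := by
    have h3 : 0 < a * a := mul_self_pos.mpr ha0
    omega
  have hP := int_mul_pred_nonneg u
  have hQ := int_mul_pred_nonneg (-y₁)
  have hsplit : 2 * (u * (u - 1)) + (a * a) * (2 * ((-y₁) * (-y₁ - 1))) ≤ 0 := by
    rw [hy₂e] at hbes
    nlinarith
  have hQ0 : (-y₁) * (-y₁ - 1) = 0 := by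
    by_contra hne0
    have h3 : 1 ≤ (-y₁) * (-y₁ - 1) := lt_of_le_of_ne hQ (Ne.symm hne0)
    nlinarith
  have hP0 : u * (u - 1) = 0 := by
    rw [hQ0] at hsplit
    nlinarith
  have huc : u = 0 ∨ u = 1 := by
    rcases mul_eq_zero.mp hP0 with h | h
    · exact Or.inl h
    · exact Or.inr (by omega)
  have hyc : (y₁ = 0 ∧ y₂ = -1) ∨ (y₁ = -1 ∧ y₂ = 0) := by
    rcases mul_eq_zero.mp hQ0 with h | h
    · left
      omega
    · right
      omega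
  -- the conclusion, with a good choice of `r₁`
  have hfinal : ∀ r₁ r₂ : G → ℂ, IsGeneralizedCharacter G r₁ → IsGeneralizedCharacter G r₂ →
      r₁ ∈ R χ₁ → r₂ ∈ R χ₁ → classInner r₁ r₁ = 1 → classInner r₂ r₂ = 1 → classInner r₁ r₂ = 0 →
      τ (χ₁ - conjFun χ₁) = r₁ + r₂ → classInner β r₁ = -(a : ℂ) →
      IsCoherent ((↑S₂ : Set (L → ℂ)) ∪ {χ₁, conjFun χ₁}) {1}ᶜ τ := by
    intro r₁ r₂ hr₁g hr₂g hr₁m hr₂m hr₁n hr₂n hr₁₂ hΔ hβr
    obtain ⟨e1, e2, e3, e4⟩ := hrX r₁ hr₁m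
    have hr₁β : classInner r₁ β = -(a : ℂ) := by
      rw [← classInner_comm_conj, hβr, map_neg, map_intCast]
    have hXβ : classInner X₂ β = (u : ℂ) := by
      rw [← classInner_comm_conj, hu, map_intCast]
    have hX'β : classInner X₂' β = ((u - 1 : ℤ) : ℂ) := by
      rw [← classInner_comm_conj, hu', map_intCast]
    rcases huc with hu0 | hu1
    · -- `c = -1`
      subst hu0
      have hzero : classInner (β + X₂' + a • r₁) (β + X₂' + a • r₁) = 0 := by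
        simp only [classInner_add_left, classInner_add_right, classInner_zsmul_left, classInner_zsmul_right]
        rw [hββ, hu', hX'β, hX'X', e2, e4, hβr, hr₁β, hr₁n]
        push_cast
        ring
      have hγ := classInner_self_eq_zero hzero
      have hβe : β = -X₂' + (-a) • r₁ := by
        funext x
        have h3 := congrFun hγ x
        simp only [Pi.add_apply, zsmul_apply', Pi.zero_apply] at h3
        simp only [Pi.add_apply, Pi.neg_apply, zsmul_apply']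
        push_cast
        linear_combination h3
      -- `S₂` is a conjugate pair
      have hall : ∀ φ ∈ S₂, φ = χ₂ ∨ φ = conjFun χ₂ := by
        intro φ hφ
        by_contra hcon
        push Not at hcon
        obtain ⟨hφ1, hφ2⟩ := hcon
        obtain ⟨t, ht⟩ := hdvd φ hφ
        have hω : φ + (-t) • χ₂ ∈ zspanOn (↑S₂ : Set (L → ℂ)) {1}ᶜ := by
          refine mem_zspanOn_one (zspan_add_mem (hmZ φ hφ) (zspan_zsmul_mem _ hZ₂)) ?_
          simp only [Pi.add_apply, zsmul_apply', ht]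
          push_cast
          ring
        have hτω : τ (φ + (-t) • χ₂) = τ₂ φ + (-t) • X₂ := by
          rw [← hag _ hω, hτ₂.1 _ (hmZ φ hφ) _ (zspan_zsmul_mem _ hZ₂), hτ₂.2.1 _ hZ₂]
        have hφS := hmS φ hφ
        have h3 : classInner β (τ (φ + (-t) • χ₂)) = -(t : ℂ) := by
          rw [hβ, hiso.2.2.1 α hαm _ (zspanOn_mono hS₂ hω)]
          simp only [α, classInner_add_left, classInner_add_right, classInner_zsmul_left,
            classInner_zsmul_right]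
          rw [hn2, horth1 φ hφ, horth1 χ₂ hχ₂,
            hS.orthogonal χ₂ hχ₂S φ hφS (Ne.symm hφ1)]
          push_cast
          ring
        rw [hτω] at h3
        simp only [classInner_add_right, classInner_zsmul_right] at h3
        rw [hu] at h3
        have h4 : classInner β (τ₂ φ) = 0 := by
          rw [hβe]
          simp only [classInner_add_left, classInner_zsmul_left, classInner_neg_left']
          rw [hX₂', hτ₂.2.2.1 _ hZ₂c _ (hmZ φ hφ), hS.orthogonal _ (hmS _ hχ₂c) φ hφS (Ne.symm hφ2)]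
          have h5 : classInner r₁ (τ₂ φ) = 0 := by
            rw [← classInner_comm_conj, horthR φ hφ r₁ hr₁m, map_zero]
          rw [h5]
          simp
        rw [h4] at h3
        have h5 : (t : ℂ) = 0 := by
          push_cast at h3
          linear_combination h3
        rw [h5, zero_mul] at ht
        exact system_one_ne_zero hS hφS ht
      obtain ⟨τ₃, hτ₃, hag₃, hτ₃1, hτ₃2⟩ := join_swap hS S₂ hS₂ hτ₂ hag hχ₂ hχ₂c hall
      refine join_core hS hnorm S₂ hS₂ hτ₃ hag₃ hχ₁ h1 h2 hχ₂ a ha hdvd hr₁g hr₂g hr₁n hr₂n hr₁₂ ?_ ?_ hΔ ?_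
      · intro φ hφ
        rcases hall φ hφ with rfl | rfl
        · rw [hτ₃1, classInner_neg_left']
          rw [(hrX r₁ hr₁m).2.1, neg_zero]
        · rw [hτ₃2, classInner_neg_left']
          rw [(hrX r₁ hr₁m).1, neg_zero]
      · intro φ hφ
        rcases hall φ hφ with rfl | rfl
        · rw [hτ₃1, classInner_neg_left']
          rw [(hrX r₂ hr₂m).2.1, neg_zero]
        · rw [hτ₃2, classInner_neg_left']
          rw [(hrX r₂ hr₂m).1, neg_zero]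
      · rw [hτ₃1]
        exact hβe
    · -- `c = 0`
      subst hu1
      have hzero : classInner (β - X₂ + a • r₁) (β - X₂ + a • r₁) = 0 := by
        simp only [classInner_add_left, classInner_add_right, classInner_sub_left', classInner_sub_right',
          classInner_zsmul_left, classInner_zsmul_right]
        rw [hββ, hu, hXβ, hXX, e1, e3, hβr, hr₁β, hr₁n]
        push_cast
        ring
      have hγ := classInner_self_eq_zero hzero
      have hβe : β = X₂ + (-a) • r₁ := by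
        funext x
        have h3 := congrFun hγ x
        simp only [Pi.add_apply, Pi.sub_apply, zsmul_apply', Pi.zero_apply] at h3
        simp only [Pi.add_apply, zsmul_apply']
        push_cast
        linear_combination h3
      exact join_core hS hnorm S₂ hS₂ hτ₂ hag hχ₁ h1 h2 hχ₂ a ha hdvd hr₁g hr₂g hr₁n hr₂n hr₁₂
        (fun φ hφ => horthR φ hφ r₁ hr₁m) (fun φ hφ => horthR φ hφ r₂ hr₂m) hΔ hβe
  rcases hyc with ⟨hy1, -⟩ | ⟨hy1, -⟩
  · -- `y₂ = -1`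
    have hy2 : y₂ = -1 := by omega
    refine hfinal s₂ s₁ hg₂ hg₁ hs₂ hs₁ hn₂ hn₁ hs₂₁ (by rw [hΔ', add_comm]) ?_
    rw [hy₂, hy2]
    push_cast
    ring
  · refine hfinal s₁ s₂ hg₁ hg₂ hs₁ hs₂ hn₁ hn₂ hs₁₂ hΔ' ?_
    rw [hy₁, hy1]
    push_cast
    ring

end Join

end Cfsg.Agent.H06
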