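import Cfsg.Agent.Lib.H06.CoherJ1
import Cfsg.Agent.Lib.H23.FS

/-!
# Coherence for Frobenius groups with TI kernel: the `p`-group case
-/

set_option autoImplicit false

namespace Cfsg.Agent.H06

open Cfsg Cfsg.Agent.H21
open scoped ComplexConjugate

universe u v

section Basic

variable {X : Type u} [Group X] [Fintype X]

/-- A nonprincipal irreducible character of a group of odd order is not real. -/
theorem conj_ne_of_odd (hodd : Odd (Nat.card X)) {ψ : X → ℂ} (hψ : IsIrrCharacter X ψ)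
    (hne : ψ ≠ fun _ => 1) : conjFun ψ ≠ ψ := by
  classical
  haveI : Fintype (IrrCharacter X) := Fintype.ofFinite _
  intro h
  have hreal : ∀ g, conj ((⟨ψ, hψ⟩ : IrrCharacter X).1 g) = (⟨ψ, hψ⟩ : IrrCharacter X).1 g :=
    fun g => congrFun h g
  have h1 := Cfsg.Agent.H23.fsInd_of_real (⟨ψ, hψ⟩ : IrrCharacter X) hreal
  have hbij : Function.Bijective (fun g : X => g * g) := by
    have hinj : Function.Injective (fun g : X => g ^ 2) := by
      have hc : Nat.Coprime (Nat.card X) 2 := by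
        exact Nat.coprime_two_right.mpr hodd
      exact (powCoprime hc).injective
    have hinj' : Function.Injective (fun g : X => g * g) := by
      intro a b hab
      apply hinj
      simpa [sq] using hab
    exact ⟨hinj', Finite.surjective_of_injective hinj'⟩
  have h2 : ∑ g : X, ψ (g * g) = ∑ g : X, ψ g :=
    Function.Bijective.sum_comp hbij ψ
  have h3 : classInner ψ (fun _ => (1 : ℂ)) = 0 :=
    classInner_irr_ne hψ isIrrCharacter_one hne
  have h4 : Cfsg.Agent.H23.fsInd ψ = 0 := by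
    rw [Cfsg.Agent.H23.fsInd, h2]
    rw [classInner] at h3
    simpa using h3
  have h5 : Cfsg.Agent.H23.fsInd (⟨ψ, hψ⟩ : IrrCharacter X).1 = 0 := h4
  rcases h1 with h1 | h1 <;> rw [h5] at h1 <;> norm_num at h1

/-- The difference of the values at `1` and at `a`, for proportional multiplicities. -/
theorem prop_const [Fintype (IrrCharacter X)] (ξ : X → ℂ) (hξ : IsClassFunction X ξ) (c : ℂ) {a : X}
    (ha : a ≠ 1) (hprop : ∀ θ : IrrCharacter X, (θ : X → ℂ) a ≠ (θ : X → ℂ) 1 →
      classInner ξ (θ : X → ℂ) = c * (θ : X → ℂ) 1) :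
    ξ 1 - ξ a = c * (Nat.card X : ℂ) := by
  have h1 := classFunction_expansion ξ hξ
  have e1 := congrFun h1 1
  have e2 := congrFun h1 a
  simp only [Finset.sum_apply, Pi.smul_apply, smul_eq_mul] at e1 e2
  have h2 : ξ 1 - ξ a = ∑ θ : IrrCharacter X, c * ((charDegree (θ : X → ℂ) : ℂ) *
      ((charDegree (θ : X → ℂ) : ℂ) - (θ : X → ℂ) a)) := by
    rw [e1, e2, ← Finset.sum_sub_distrib]
    refine Finset.sum_congr rfl fun θ _ => ?_
    have hone := one_eq_charDegree (isCharacter_of_irr θ.2)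
    by_cases h : (θ : X → ℂ) a = (θ : X → ℂ) 1
    · rw [h, hone]
      ring
    · rw [hprop θ h, hone]
      ring
  rw [h2, ← Finset.mul_sum]
  congr 1
  simp only [mul_sub, Finset.sum_sub_distrib]
  rw [sum_degree_mul_value_ne ha, sub_zero]
  have h3 := sum_degree_sq (G := X)
  rw [← h3]
  push_cast
  refine Finset.sum_congr rfl fun θ _ => ?_
  ring

end Basic

section CentralIndex

variable {L : Type u} [Group L] [Finite L]

/-- The order of the complement divides `|Z| - 1`. -/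
theorem central_index_dvd (K Z : Subgroup L) [hZ : Z.Normal] (hZK : Z ≤ K)
    (hZc : ∀ z ∈ Z, ∀ k ∈ K, z * k = k * z)
    (hC : ∀ k ∈ K, k ≠ 1 → ∀ x : L, x * k = k * x → x ∈ K) : K.index ∣ Nat.card Z - 1 := by
  classical
  haveI : Fintype L := Fintype.ofFinite _
  let A : Type u := {q : L // q ∈ Z ∧ q ≠ 1}
  have hconj : ∀ (g : L) (a : A), g * a.1 * g⁻¹ ∈ Z ∧ g * a.1 * g⁻¹ ≠ 1 := by
    rintro g ⟨q, hq, hq1⟩
    refine ⟨hZ.conj_mem q hq g, ?_⟩
    intro h
    apply hq1
    have h2 : g * q * g⁻¹ * g = g := by rw [h, one_mul]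
    simpa using h2
  letI : MulAction L A :=
    { smul := fun g a => ⟨g * a.1 * g⁻¹, hconj g a⟩
      one_smul := by
        intro a
        apply Subtype.ext
        show 1 * a.1 * 1⁻¹ = a.1
        simp
      mul_smul := by
        intro g h a
        apply Subtype.ext
        show (g * h) * a.1 * (g * h)⁻¹ = g * (h * a.1 * h⁻¹) * g⁻¹
        group }
  have hstab : ∀ a : A, MulAction.stabilizer L a = K := by
    rintro ⟨q, hq, hq1⟩
    ext g
    rw [MulAction.mem_stabilizer_iff]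
    have hiff : g • (⟨q, hq, hq1⟩ : A) = ⟨q, hq, hq1⟩ ↔ g * q * g⁻¹ = q := Subtype.ext_iff
    rw [hiff]
    constructor
    · intro h
      apply hC q (hZK hq) hq1 g
      calc g * q = g * q * g⁻¹ * g := by group
        _ = q * g := by rw [h]
    · intro hg
      have h1 := hZc q hq g hg
      rw [← h1]
      group
  have h1 := dvd_card_of_stabilizer_eq K hstab
  have h2 : Nat.card A = Nat.card Z - 1 := by
    have h4 : Nat.card Z = (Finset.univ.filter (· ∈ Z)).card := by
      rw [Nat.card_eq_fintype_card, Fintype.card_subtype]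
    have h5 : Nat.card A = (Finset.univ.filter (fun q : L => q ∈ Z ∧ q ≠ 1)).card := by
      show Nat.card {q : L // q ∈ Z ∧ q ≠ 1} = _
      rw [Nat.card_eq_fintype_card, Fintype.card_subtype]
    have h6 : Finset.univ.filter (· ∈ Z) = insert 1 (Finset.univ.filter (fun q : L => q ∈ Z ∧ q ≠ 1)) := by
      ext q
      simp only [Finset.mem_filter, Finset.mem_univ, true_and, Finset.mem_insert]
      constructor
      · intro h
        by_cases hq : q = 1
        · exact Or.inl hq
        · exact Or.inr ⟨h, hq⟩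
      · rintro (rfl | h)
        · exact Z.one_mem
        · exact h.1
    rw [h4, h5, h6, Finset.card_insert_of_notMem (by simp)]
    simp
  rwa [h2] at h1

end CentralIndex

section Inner

variable {G : Type u} [Group G] [Fintype G]

/-- Multiplicities of an irreducible character of `G` on a TI Sylow subgroup, proportional outside a
central subgroup, are integer multiples of the degrees. -/
theorem inner_int_of_prop (L : Subgroup G) [Fintype L] (K : Subgroup L) [Fintype K]
    [Fintype (IrrCharacter K)] (p : ℕ) [Fact p.Prime] (P : Sylow p G)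
    (hPK : ∀ x : L, x ∈ K ↔ (x : G) ∈ (P : Subgroup G))
    (hNL : Subgroup.normalizer ((P : Subgroup G) : Set G) = L)
    (hTI : IsTISubset ((P : Subgroup G) : Set G)) (hodd : Odd (Nat.card L))
    (Z : Subgroup L) [hZn : Z.Normal] (hZK : Z ≤ K) (hZc : ∀ z ∈ Z, ∀ k ∈ K, z * k = k * z) (hZ1 : Z ≠ ⊥)
    (ξ : G → ℂ) (hξ : IsIrrCharacter G ξ) (θ₀ : K → ℂ) (hθ₀ : IsIrrCharacter K θ₀)
    (hprop : ∀ θ : K → ℂ, IsIrrCharacter K θ → (∃ a : K, (a : L) ∈ Z ∧ θ a ≠ θ 1) →
      θ₀ 1 * classInner (fun k : K => ξ ((k : L) : G)) θ = θ 1 * classInner (fun k : K => ξ ((k : L) : G)) θ₀) :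
    ∃ n : ℤ, classInner (fun k : K => ξ ((k : L) : G)) θ₀ = n * θ₀ 1 := by
  classical
  haveI : Fintype (IrrCharacter G) := Fintype.ofFinite _
  set ξK : K → ℂ := fun k : K => ξ ((k : L) : G) with hξK
  have hone : θ₀ 1 ≠ 0 := irr_one_ne_zero' hθ₀
  set c : ℂ := classInner ξK θ₀ / θ₀ 1 with hc
  have hcl : IsClassFunction K ξK := by
    intro g k
    have := isClassFunction_of_isCharacter (isCharacter_of_irr hξ) (((g : K) : L) : G) (((k : K) : L) : G)
    simp only [hξK]
    rw [← this]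
    simp
  have hval : ∀ a : K, (a : L) ∈ Z → a ≠ 1 → ξK 1 - ξK a = c * (Nat.card K : ℂ) := by
    intro a haZ ha1
    refine prop_const ξK hcl c ha1 ?_
    intro θ hθ
    have h1 := hprop θ θ.2 ⟨a, haZ, hθ⟩
    rw [hc]
    field_simp
    linear_combination h1
  -- the subgroup of `G`
  let ZG : Subgroup G := Z.map L.subtype
  have hZG : ∀ z ∈ ZG, ∃ a : K, (a : L) ∈ Z ∧ ((a : L) : G) = z := by
    rintro z ⟨y, hy, rfl⟩
    exact ⟨⟨y, hZK hy⟩, hy, rfl⟩
  have hne1 : ∀ a : K, ((a : L) : G) ≠ 1 → a ≠ 1 := fun a h h1 => h (by rw [h1]; rfl)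
  have hZP : ZG ≤ (P : Subgroup G) := by
    rintro z ⟨y, hy, rfl⟩
    exact (hPK y).mp (hZK hy)
  have hconst : ∀ z ∈ ZG, ∀ z' ∈ ZG, z ≠ 1 → z' ≠ 1 → ξ z = ξ z' := by
    intro z hz z' hz' h1 h2
    obtain ⟨a, ha, rfl⟩ := hZG z hz
    obtain ⟨b, hb, rfl⟩ := hZG z' hz'
    have e1 := hval a ha (hne1 a h1)
    have e2 := hval b hb (hne1 b h2)
    have : ξK a = ξK b := by linear_combination e2 - e1
    exact this
  have hZn' : ∀ x ∈ Subgroup.normalizer ((P : Subgroup G) : Set G), ∀ z ∈ ZG, x * z * x⁻¹ ∈ ZG := by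
    rintro x hx z ⟨y, hy, rfl⟩
    rw [hNL] at hx
    exact ⟨⟨x, hx⟩ * y * ⟨x, hx⟩⁻¹, hZn.conj_mem y hy _, by simp⟩
  have hZcG : ∀ z ∈ ZG, ∀ y ∈ (P : Subgroup G), z * y = y * z := by
    rintro z ⟨w, hw, rfl⟩ y hy
    have hyL : y ∈ L := by
      rw [← hNL]
      exact Subgroup.le_normalizer hy
    have h1 := hZc w hw ⟨y, hyL⟩ ((hPK ⟨y, hyL⟩).mpr hy)
    exact congrArg Subtype.val h1
  obtain ⟨z, hz, hz1⟩ := (Subgroup.bot_or_exists_ne_one Z).resolve_left hZ1
  have hzG : (z : G) ∈ ZG := ⟨z, hz, rfl⟩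
  have hz1G : (z : G) ≠ 1 := fun h => hz1 (Subtype.ext h)
  obtain ⟨n, d, hn, hd, hdvd⟩ := congr_of_const p P hTI (by rw [hNL]; exact hodd) ZG hZP hZn' hZcG ξ hξ
    hconst (z : G) hzG hz1G
  -- the orders agree
  have hcard : Nat.card (P : Subgroup G) = Nat.card K := by
    have h1 : (P : Subgroup G) = (K.map L.subtype) := by
      ext x
      constructor
      · intro hx
        have hxL : x ∈ L := by
          rw [← hNL]
          exact Subgroup.le_normalizer hx
        exact ⟨⟨x, hxL⟩, (hPK ⟨x, hxL⟩).mpr hx, rfl⟩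
      · rintro ⟨y, hy, rfl⟩
        exact (hPK y).mp hy
    rw [h1]
    exact Subgroup.card_map_of_injective L.subtype_injective
  obtain ⟨t, ht⟩ := hdvd
  rw [hcard] at ht
  refine ⟨t, ?_⟩
  have e1 := hval ⟨z, hZK hz⟩ hz (fun h => hz1 (congrArg Subtype.val h))
  have e2 : ξK 1 = d := hd
  have e3 : ξK ⟨z, hZK hz⟩ = n := hn
  rw [e2, e3] at e1
  have hKne : (Nat.card K : ℂ) ≠ 0 := by exact_mod_cast Nat.card_pos.ne'
  have e4 : (d : ℂ) - n = (Nat.card K : ℂ) * t := by
    have : ((d - n : ℤ) : ℂ) = ((Nat.card K * t : ℤ) : ℂ) := by rw [ht]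
    push_cast at this
    exact this
  have e5 : c = t := by
    apply mul_right_cancel₀ hKne
    rw [← e1, e4]
    ring
  rw [hc] at e5
  field_simp at e5
  rw [e5]
  ring

end Inner

end Cfsg.Agent.H06
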