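import Cfsg.Agent.Lib.H06.CoherJ2

/-!
# Coherence for Frobenius groups with TI kernel: the `p`-group case, conclusion
-/

set_option autoImplicit false

namespace Cfsg.Agent.H06

open Cfsg Cfsg.Agent.H21
open scoped ComplexConjugate

universe u

section Main

variable {G : Type u} [Group G] [Fintype G]

theorem coh_tiFrob_pgroup (L : Subgroup G) [Fintype L] (K : Subgroup L) [hK : K.Normal] {p m : ℕ} [Fact p.Prime]
    (hcard : Nat.card K = p ^ m) (P : Sylow p G) (hPK : ∀ x : L, x ∈ K ↔ (x : G) ∈ (P : Subgroup G))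
    (hNL : Subgroup.normalizer ((P : Subgroup G) : Set G) = L) (hTI : IsTISubset ((P : Subgroup G) : Set G))
    (hodd : Odd (Nat.card L)) (R : (L → ℂ) → Finset (G → ℂ))
    (hS : IsCoherenceSystem (inducedIrrAbove K ⊥) (fun α : L → ℂ => indFun L α) R)
    (hirr : ∀ χ ∈ inducedIrrAbove K ⊥, IsIrrCharacter L χ) (hH₁K : ⁅K, K⁆ < K) (hKL : K < ⊤)
    (hfrob : ∀ k ∈ K, k ∉ ⁅K, K⁆ → ∀ x : L, x * k * x⁻¹ * k⁻¹ ∈ ⁅K, K⁆ → x ∈ K)
    (hC : ∀ k ∈ K, k ≠ 1 → ∀ x : L, x * k = k * x → x ∈ K) :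
    IsCoherent (inducedIrrAbove K ⊥) {1}ᶜ (fun α : L → ℂ => indFun L α) := by
  classical
  haveI : Fintype K := Fintype.ofFinite _
  haveI : Fintype (IrrCharacter K) := Fintype.ofFinite _
  haveI : Fintype (IrrCharacter L) := Fintype.ofFinite _
  haveI : Fintype (IrrCharacter G) := Fintype.ofFinite _
  set τ : (L → ℂ) → (G → ℂ) := fun α : L → ℂ => indFun L α with hτ
  have hpp : p.Prime := Fact.out
  have hKpg : IsPGroup p K := IsPGroup.of_card hcard
  haveI hnt : Nontrivial K := by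
    obtain ⟨k, hk, hk'⟩ := SetLike.exists_of_lt hH₁K
    refine ⟨⟨⟨k, hk⟩, 1, fun h => hk' ?_⟩⟩
    have h1 : k = 1 := congrArg Subtype.val h
    rw [h1]
    exact Subgroup.one_mem _
  have hnil : Group.IsNilpotent K := hKpg.isNilpotent
  have hsolv : Group.IsSolvable K := inferInstance
  -- the centre
  let Z : Subgroup L := (Subgroup.center K).map K.subtype
  have hZK : Z ≤ K := Subgroup.map_subtype_le _
  have hZmem : ∀ z ∈ K, (∀ k ∈ K, z * k = k * z) → z ∈ Z := by
    intro z hz h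
    refine ⟨⟨z, hz⟩, ?_, rfl⟩
    rw [SetLike.mem_coe, Subgroup.mem_center_iff]
    intro g
    apply Subtype.ext
    exact (h g g.2).symm
  have hZc : ∀ z ∈ Z, ∀ k ∈ K, z * k = k * z := by
    rintro z ⟨c, hc, rfl⟩ k hk
    have h1 := Subgroup.mem_center_iff.mp hc ⟨k, hk⟩
    exact (congrArg Subtype.val h1).symm
  haveI hZn : Z.Normal := by
    refine ⟨fun z hz g => hZmem _ (hK.conj_mem z (hZK hz) g) (fun k hk => ?_)⟩
    have h1 := hZc z hz (g⁻¹ * k * g) (by simpa using hK.conj_mem k hk g⁻¹)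
    calc g * z * g⁻¹ * k = g * (z * (g⁻¹ * k * g)) * g⁻¹ := by group
      _ = g * ((g⁻¹ * k * g) * z) * g⁻¹ := by rw [h1]
      _ = k * (g * z * g⁻¹) := by group
  have hZ1 : Z ≠ ⊥ := by
    haveI := hKpg.center_nontrivial
    obtain ⟨c, hc⟩ := exists_ne (1 : Subgroup.center K)
    intro h
    have h1 : ((c : K) : L) ∈ Z := ⟨c, c.2, rfl⟩
    rw [h, Subgroup.mem_bot] at h1
    apply hc
    apply Subtype.ext
    apply Subtype.ext
    exact h1
  have hirr₂ : ∀ χ ∈ inducedIrrAbove K ⊥ \ inducedIrrAbove K Z, IsIrrCharacter L χ := fun χ h => hirr χ h.1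
  have hcoh₂ := coh_diff K hsolv τ R hS hodd hnil hH₁K hKL hfrob Z hZ1 hZK hZc hirr₂
  -- the finite sets
  let Sall : Finset (L → ℂ) := (inducedIrrAbove_finite K ⊥).toFinset
  let Sf : Finset (L → ℂ) := Sall.filter (· ∉ inducedIrrAbove K Z)
  let T : Finset (L → ℂ) := (inducedIrrAbove_finite K Z).toFinset
  have hSallm : ∀ φ, φ ∈ Sall ↔ φ ∈ inducedIrrAbove K ⊥ := fun φ => by simp [Sall]
  have hSfm : ∀ φ, φ ∈ Sf ↔ φ ∈ inducedIrrAbove K ⊥ ∧ φ ∉ inducedIrrAbove K Z := fun φ => by simp [Sf, Sall]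
  have hTm : ∀ φ, φ ∈ T ↔ φ ∈ inducedIrrAbove K Z := fun φ => by simp [T]
  have hSfcoe : (↑Sf : Set (L → ℂ)) = inducedIrrAbove K ⊥ \ inducedIrrAbove K Z := by
    ext φ
    simp only [Finset.mem_coe, Set.mem_diff]
    exact hSfm φ
  have hcoh₂' : IsCoherent (↑Sf : Set (L → ℂ)) {1}ᶜ τ := by
    rw [hSfcoe]
    exact hcoh₂
  have hSfS : (↑Sf : Set (L → ℂ)) ⊆ inducedIrrAbove K ⊥ := fun φ h => ((hSfm φ).mp (Finset.mem_coe.mp h)).1
  have hSfc : ∀ φ ∈ Sf, conjFun φ ∈ Sf := fun φ h => by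
    have h1 : φ ∈ inducedIrrAbove K ⊥ \ inducedIrrAbove K Z := (hSfm φ).mp h
    exact (hSfm _).mpr (diff_conj K Z h1)
  have hTsub : (↑T : Set (L → ℂ)) ⊆ inducedIrrAbove K ⊥ := fun φ h =>
    inducedIrrAbove_subset K Z ((hTm φ).mp (Finset.mem_coe.mp h))
  have hTc : ∀ φ ∈ T, conjFun φ ∈ T := fun φ h =>
    (hTm _).mpr (inducedIrrAbove_conj K Z ((hTm φ).mp h))
  have hnorm : ∀ φ ∈ inducedIrrAbove K ⊥, classInner φ φ = 1 := fun φ h => classInner_irr_self (hirr φ h)
  have hdS : ∀ φ ∈ inducedIrrAbove K ⊥, φ 1 = (charDegree φ : ℂ) := fun φ h =>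
    one_eq_charDegree (isCharacter_of_irr (hirr φ h))
  let n : (L → ℂ) → ℕ := fun _ => 1
  have hn : ∀ φ ∈ inducedIrrAbove K ⊥, classInner φ φ = (n φ : ℂ) := fun φ h => by
    rw [hnorm φ h]
    simp [n]
  have hdeg : ∀ θ : K → ℂ, IsIrrCharacter K θ → charDegree (indFun K θ) = K.index * charDegree θ :=
    fun θ hθ => charDegree_indFun K (isCharacter_of_irr hθ)
  have hepos : 0 < K.index := Nat.pos_of_ne_zero Subgroup.index_ne_zero_of_finite
  have hpow : ∀ θ : K → ℂ, IsIrrCharacter K θ → ∃ a, charDegree θ = p ^ a := by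
    intro θ hθ
    have h1 : charDegree θ ∣ p ^ m := hcard ▸ H22.charDegree_dvd_card ⟨θ, hθ⟩
    obtain ⟨a, _, ha⟩ := (Nat.dvd_prime_pow hpp).mp h1
    exact ⟨a, ha⟩
  -- the linear character
  obtain ⟨ω, -, hω⟩ := exists_linear_trivial (⊥ : Subgroup K) bot_ne_top
  let θ₁ : K → ℂ := fun k => ((ω k : ℂˣ) : ℂ)
  have hθ₁ : IsIrrCharacter K θ₁ := Cfsg.Agent.H23.isIrrCharacter_hom ω
  have hθ₁ne : θ₁ ≠ fun _ => 1 := by
    intro h
    apply hω
    ext k
    have := congrFun h k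
    simpa [θ₁] using this
  have hθ₁one : θ₁ 1 = 1 := by simp [θ₁]
  have hdθ₁ : charDegree θ₁ = 1 := by
    have h1 := one_eq_charDegree (isCharacter_of_irr hθ₁)
    rw [hθ₁one] at h1
    exact_mod_cast h1.symm
  set χ₁ : L → ℂ := indFun K θ₁ with hχ₁
  have hχ₁S : χ₁ ∈ inducedIrrAbove K ⊥ := by
    refine ⟨θ₁, hθ₁, hθ₁ne, fun a ha => ?_, rfl⟩
    have h1 : a = 1 := by
      ext
      simpa using ha
    rw [h1]
  have hdχ₁ : charDegree χ₁ = K.index := by
    rw [hχ₁, hdeg θ₁ hθ₁, hdθ₁, mul_one]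
  -- sums of squares of degrees
  have hsum1 : ∑ φ ∈ Sall, ((charDegree φ : ℝ) ^ 2 / (n φ : ℝ)) =
      (K.index : ℝ) * (((⊥ : Subgroup L).relIndex K : ℝ) - 1) :=
    sum_deg_sq_induced K ⊥ bot_le hS.orthogonal charDegree n hdS
      (fun φ h => ⟨hn φ h, one_ne_zero⟩) Sall (by ext φ; exact hSallm φ)
  have hsum2 : ∑ φ ∈ T, ((charDegree φ : ℝ) ^ 2 / (n φ : ℝ)) =
      (K.index : ℝ) * ((Z.relIndex K : ℝ) - 1) :=
    sum_deg_sq_induced K Z hZK
      (fun χ h φ h' hne => hS.orthogonal χ (inducedIrrAbove_subset K Z h) φ (inducedIrrAbove_subset K Z h') hne)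
      charDegree n (fun φ h => hdS φ (inducedIrrAbove_subset K Z h))
      (fun φ h => ⟨hn φ (inducedIrrAbove_subset K Z h), one_ne_zero⟩) T (by ext φ; exact hTm φ)
  have hsplit : ∑ φ ∈ Sf, ((charDegree φ : ℝ) ^ 2 / (n φ : ℝ)) + ∑ φ ∈ T, ((charDegree φ : ℝ) ^ 2 / (n φ : ℝ)) =
      ∑ φ ∈ Sall, ((charDegree φ : ℝ) ^ 2 / (n φ : ℝ)) := by
    have h1 := Finset.sum_filter_add_sum_filter_not Sall (· ∈ inducedIrrAbove K Z)
      (fun φ => ((charDegree φ : ℝ) ^ 2 / (n φ : ℝ)))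
    have h2 : Sall.filter (· ∈ inducedIrrAbove K Z) = T := by
      ext φ
      rw [Finset.mem_filter, hSallm, hTm]
      exact ⟨fun h => h.2, fun h => ⟨inducedIrrAbove_subset K Z h, h⟩⟩
    rw [h2] at h1
    rw [← h1]
    exact add_comm _ _
  set i := Z.relIndex K with hi
  set z := Nat.card Z with hz
  have hzi : z * i = Nat.card K := by
    have h1 := Subgroup.relIndex_mul_relIndex (⊥ : Subgroup L) Z K bot_le hZK
    rwa [Subgroup.relIndex_bot_left, Subgroup.relIndex_bot_left] at h1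
  have hrelbot : (⊥ : Subgroup L).relIndex K = Nat.card K := Subgroup.relIndex_bot_left K
  have hSfsum : ∑ φ ∈ Sf, ((charDegree φ : ℝ) ^ 2 / (n φ : ℝ)) =
      (K.index : ℝ) * ((i : ℝ) * (((z - 1 : ℕ) : ℝ))) := by
    have hz1 : 1 ≤ z := Nat.card_pos
    rw [Nat.cast_sub hz1]
    have h1 : ∑ φ ∈ Sf, ((charDegree φ : ℝ) ^ 2 / (n φ : ℝ)) =
        (K.index : ℝ) * (((⊥ : Subgroup L).relIndex K : ℝ) - 1) - (K.index : ℝ) * ((i : ℝ) - 1) := by
      rw [← hsum1, ← hsplit, hsum2]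
      ring
    rw [h1, hrelbot, ← hzi]
    push_cast
    ring
  have hzodd : Odd z := Odd.of_dvd_nat hodd (Subgroup.card_subgroup_dvd_card Z)
  have hz1 : 1 < z := by
    have := (Subgroup.one_lt_card_iff_ne_bot Z).mpr hZ1
    exact this
  have heodd : Odd K.index := Odd.of_dvd_nat hodd (Subgroup.index_dvd_card K)
  have hedvd : K.index ∣ z - 1 := central_index_dvd K Z hZK hZc hC
  have he2 := two_mul_add_one_le heodd hzodd hz1 hedvd
  -- the final step
  have hfin : ∀ S₀ : Finset (L → ℂ), (↑S₀ : Set (L → ℂ)) ⊆ inducedIrrAbove K ⊥ →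
      (∀ φ ∈ S₀, conjFun φ ∈ S₀) → Sf ⊆ S₀ → χ₁ ∈ S₀ → IsCoherent (↑S₀ : Set (L → ℂ)) {1}ᶜ τ →
      IsCoherent (inducedIrrAbove K ⊥) {1}ᶜ τ := by
    intro S₀ h0 h0c hsub hχ₁₀ hco
    have hext := coh_extend hS charDegree n hdS hn S₀ T h0 h0c hco hTsub hTc χ₁ hχ₁₀ ?_ ?_
    · have hunion : (↑S₀ : Set (L → ℂ)) ∪ ↑T = inducedIrrAbove K ⊥ := by
        ext φ
        constructor
        · rintro (h | h)
          · exact h0 h
          · exact hTsub h
        · intro h
          by_cases h1 : φ ∈ inducedIrrAbove K Z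
          · exact Or.inr (Finset.mem_coe.mpr ((hTm φ).mpr h1))
          · exact Or.inl (Finset.mem_coe.mpr (hsub ((hSfm φ).mpr ⟨h, h1⟩)))
      rwa [hunion] at hext
    · intro χ hχ
      obtain ⟨θ, hθ, -, -, rfl⟩ := (hTm χ).mp hχ
      rw [hdχ₁, hdeg θ hθ]
      exact dvd_mul_right _ _
    · intro χ hχ
      obtain ⟨θ, hθ, hθne, hθZ, rfl⟩ := (hTm χ).mp hχ
      set t := charDegree θ with ht
      -- the bound on the degree
      have ht1 : t * t + 1 ≤ i := by
        let A : Subgroup K := Z.subgroupOf K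
        haveI : A.Normal := inferInstance
        have h1 : ∑ x ∈ Finset.univ.filter (fun x : IrrCharacter K => ∀ a ∈ A, (x : K → ℂ) a = (x : K → ℂ) 1),
          charDegree (x : K → ℂ) ^ 2 = A.index := sum_deg_sq_ker A
        let one : IrrCharacter K := ⟨fun _ => 1, isIrrCharacter_one⟩
        let th : IrrCharacter K := ⟨θ, hθ⟩
        have hne : th ≠ one := fun h => hθne (congrArg Subtype.val h)
        have hsub' : ({th, one} : Finset (IrrCharacter K)) ⊆
            Finset.univ.filter (fun x : IrrCharacter K => ∀ a ∈ A, (x : K → ℂ) a = (x : K → ℂ) 1) := by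
          intro x hx
          rw [Finset.mem_filter]
          refine ⟨Finset.mem_univ _, ?_⟩
          rcases Finset.mem_insert.mp hx with rfl | hx
          · intro a ha
            exact hθZ a (Subgroup.mem_subgroupOf.mp ha)
          · rw [Finset.mem_singleton.mp hx]
            intro a _
            rfl
        have h2 := Finset.sum_le_sum_of_subset (f := fun x : IrrCharacter K => charDegree (x : K → ℂ) ^ 2) hsub'
        rw [Finset.sum_pair hne] at h2
        have h3 : charDegree ((one : IrrCharacter K) : K → ℂ) = 1 := by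
          have h4 := one_eq_charDegree (isCharacter_of_irr one.2)
          have h5 : ((one : IrrCharacter K) : K → ℂ) 1 = 1 := rfl
          rw [h5] at h4
          exact_mod_cast h4.symm
        simp only [h3] at h2
        have h6 : charDegree ((th : IrrCharacter K) : K → ℂ) = t := rfl
        rw [h6] at h2
        have h7 : A.index = i := rfl
        rw [h1, h7] at h2
        nlinarith
      have htpos : 0 < t := irr_charDegree_pos hθ
      have hti : t < i := by nlinarith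
      have hnat : 2 * (K.index * t) * K.index < K.index * (i * (z - 1)) := by
        have h1 : 2 * K.index ≤ z - 1 := by omega
        have h2 : 2 * K.index * t < i * (z - 1) := by
          calc 2 * K.index * t ≤ (z - 1) * t := Nat.mul_le_mul_right _ h1
            _ < (z - 1) * i := Nat.mul_lt_mul_of_pos_left hti (by omega)
            _ = i * (z - 1) := Nat.mul_comm _ _
        calc 2 * (K.index * t) * K.index = K.index * (2 * K.index * t) := by ring
          _ < K.index * (i * (z - 1)) := Nat.mul_lt_mul_of_pos_left h2 hepos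
      have hreal : ((2 * (K.index * t) * K.index : ℕ) : ℝ) < ((K.index * (i * (z - 1)) : ℕ) : ℝ) := by
        exact_mod_cast hnat
      push_cast at hreal
      have hle : ∑ φ ∈ Sf, ((charDegree φ : ℝ) ^ 2 / (n φ : ℝ)) ≤ ∑ φ ∈ S₀, ((charDegree φ : ℝ) ^ 2 / (n φ : ℝ)) :=
        Finset.sum_le_sum_of_subset_of_nonneg hsub (fun _ _ _ => by positivity)
      refine lt_of_lt_of_le ?_ hle
      rw [hSfsum, hdχ₁, hdeg θ hθ]
      push_cast
      have h1 : 1 ≤ z := by omega
      rw [Nat.cast_sub h1] at hreal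
      have h2 : (((z - 1 : ℕ) : ℝ)) = (z : ℝ) - 1 := by
        rw [Nat.cast_sub h1]
        simp
      rw [h2]
      push_cast at hreal
      exact hreal
  by_cases hχ₁Z : χ₁ ∈ inducedIrrAbove K Z
  · -- the join
    have h1 : χ₁ ∉ Sf := fun h => ((hSfm _).mp h).2 hχ₁Z
    have h2 : conjFun χ₁ ∉ Sf := fun h => ((hSfm _).mp h).2 (inducedIrrAbove_conj K Z hχ₁Z)
    have hne : Sf.Nonempty := by
      obtain ⟨χ, hχ⟩ := diff_nonempty K Z hZK hZ1 hirr₂
      exact ⟨χ, (hSfm χ).mpr hχ⟩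
    obtain ⟨χ₂, hχ₂, hmin⟩ := Finset.exists_min_image Sf charDegree hne
    obtain ⟨hχ₂S, hχ₂Z⟩ := (hSfm χ₂).mp hχ₂
    obtain ⟨θ₂, hθ₂, hθ₂ne, -, hχ₂θ⟩ := id hχ₂S
    have hθ₂nt : ∃ a : K, (a : L) ∈ Z ∧ θ₂ a ≠ θ₂ 1 := by
      by_contra hcon
      push Not at hcon
      exact hχ₂Z ⟨θ₂, hθ₂, hθ₂ne, fun a ha => hcon a ha, hχ₂θ⟩
    set a' := charDegree θ₂ with ha'
    have ha'pos : 0 < a' := irr_charDegree_pos hθ₂
    have hθ₂one : θ₂ 1 = (a' : ℂ) := one_eq_charDegree (isCharacter_of_irr hθ₂)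
    have hχ₁one : χ₁ 1 = (K.index : ℂ) := by
      rw [hdS χ₁ hχ₁S, hdχ₁]
    have hχ₂one : χ₂ 1 = (K.index : ℂ) * a' := by
      rw [hχ₂θ, indFun_one, hθ₂one]
    have ha : χ₂ 1 = ((a' : ℤ) : ℂ) * χ₁ 1 := by
      rw [hχ₂one, hχ₁one]
      push_cast
      ring
    have ha0 : (a' : ℤ) ≠ 0 := by exact_mod_cast ha'pos.ne'
    have hdvd : ∀ φ ∈ Sf, ∃ s : ℤ, φ 1 = s * χ₂ 1 := by
      intro φ hφ
      obtain ⟨⟨θ, hθ, -, -, rfl⟩, -⟩ := (hSfm φ).mp hφ
      have h3 := hmin _ hφ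
      rw [hχ₂θ, hdeg θ₂ hθ₂, hdeg θ hθ] at h3
      have h4 := Nat.le_of_mul_le_mul_left h3 hepos
      obtain ⟨b₂, hb₂⟩ := hpow θ₂ hθ₂
      obtain ⟨b, hb⟩ := hpow θ hθ
      rw [hb₂, hb] at h4
      have h5 := (Nat.pow_le_pow_iff_right hpp.one_lt).mp h4
      obtain ⟨s, hs⟩ := pow_dvd_pow p h5
      refine ⟨s, ?_⟩
      have hb₂' : a' = p ^ b₂ := hb₂
      rw [hχ₂one, indFun_one, one_eq_charDegree (isCharacter_of_irr hθ), hb, hs, hb₂']
      push_cast
      ring
    obtain ⟨-, τ₂, hτ₂, hag⟩ := id hcoh₂'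
    have hmZ : ∀ φ ∈ Sf, φ ∈ zspan (↑Sf : Set (L → ℂ)) := fun φ h => mem_zspan (Finset.mem_coe.mpr h)
    have hSfc' : ∀ φ ∈ (↑Sf : Set (L → ℂ)), conjFun φ ∈ (↑Sf : Set (L → ℂ)) := fun φ h =>
      Finset.mem_coe.mpr (hSfc φ (Finset.mem_coe.mp h))
    have hint : ∀ r ∈ R χ₁, ∃ y : ℤ, classInner (τ (χ₂ + (-(a' : ℤ)) • χ₁)) r = (a' : ℤ) * y := by
      intro r hr
      have hrgen := hS.virtual χ₁ hχ₁S r hr
      have hrn : classInner r r = 1 := by
        rw [hS.orthonormal χ₁ hχ₁S r hr r hr, if_pos rfl]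
      obtain ⟨e, f, he, hf, hrf⟩ := (signedIrr_of_norm_one hrgen hrn).exists_sign
      have hcf : IsClassFunction G f := isClassFunction_of_isCharacter (isCharacter_of_irr hf)
      have hene : e ≠ 0 := sign_ne_zero he
      have hτr : ∀ φ ∈ Sf, classInner (τ₂ φ) f = 0 := by
        intro φ hφ
        have h3 := coh_orth hS hSfS hSfc' hτ₂ hag (Finset.mem_coe.mpr hφ) hχ₁S
          (fun h => h1 (Finset.mem_coe.mp h)) (fun h => h2 (Finset.mem_coe.mp h)) hr
        rw [hrf, classInner_smul_right] at h3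
        refine (mul_eq_zero.mp h3).resolve_left ?_
        intro h4
        apply hene
        have h5 := congrArg conj h4
        simpa using h5
      set fL : L → ℂ := fun x : L => f x with hfL
      have hcfL : IsClassFunction L fL := by
        intro g k
        have := hcf (g : G) (k : G)
        simp only [hfL]
        rw [← this]
        simp
      set fK : K → ℂ := fun k : K => f ((k : L) : G) with hfK
      have hfrobK : ∀ θ : K → ℂ, classInner (indFun K θ) fL = classInner θ fK := fun θ =>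
        frobenius_reciprocity K θ fL hcfL
      have hprop : ∀ θ : K → ℂ, IsIrrCharacter K θ → (∃ a : K, (a : L) ∈ Z ∧ θ a ≠ θ 1) →
          θ₂ 1 * classInner fK θ = θ 1 * classInner fK θ₂ := by
        intro θ hθ hnt'
        have hθne : θ ≠ fun _ => 1 := by
          rintro rfl
          obtain ⟨a, -, ha⟩ := hnt'
          exact ha rfl
        have hφ : indFun K θ ∈ Sf := (hSfm _).mpr ⟨⟨θ, hθ, hθne, fun a ha => by
          have h3 : a = 1 := by
            ext
            simpa using ha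
          rw [h3], rfl⟩, indFun_notMem_above K Z hZK hθ hnt'⟩
        set t := charDegree θ with ht
        have hθone : θ 1 = (t : ℂ) := one_eq_charDegree (isCharacter_of_irr hθ)
        have hα : ((a' : ℤ)) • indFun K θ + (-(t : ℤ)) • χ₂ ∈ zspanOn (↑Sf : Set (L → ℂ)) {1}ᶜ := by
          refine mem_zspanOn_one (zspan_add_mem (zspan_zsmul_mem _ (hmZ _ hφ)) (zspan_zsmul_mem _ (hmZ _ hχ₂))) ?_
          simp only [Pi.add_apply, zsmul_apply', hχ₂one, indFun_one, hθone]
          push_cast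
          ring
        have h3 : classInner (τ (((a' : ℤ)) • indFun K θ + (-(t : ℤ)) • χ₂)) f = 0 := by
          rw [← hag _ hα, iso_lin hτ₂ (zspan_closed _) _ _ (hmZ _ hφ) (hmZ _ hχ₂)]
          rw [classInner_add_left, classInner_zsmul_left, classInner_zsmul_left, hτr _ hφ, hτr _ hχ₂]
          simp
        have h4 : classInner (τ (((a' : ℤ)) • indFun K θ + (-(t : ℤ)) • χ₂)) f =
            classInner (((a' : ℤ)) • indFun K θ + (-(t : ℤ)) • χ₂) fL :=
          frobenius_reciprocity L _ f hcf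
        rw [h4, classInner_add_left, classInner_zsmul_left, classInner_zsmul_left, hχ₂θ, hfrobK, hfrobK] at h3
        have h5 : classInner fK θ = conj (classInner θ fK) := (classInner_comm_conj _ _).symm
        have h6 : classInner fK θ₂ = conj (classInner θ₂ fK) := (classInner_comm_conj _ _).symm
        have h7 := congrArg conj h3
        simp only [map_add, map_mul, map_intCast, map_zero] at h7
        rw [h5, h6, hθ₂one, hθone]
        push_cast at h7
        linear_combination h7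
      obtain ⟨N, hN⟩ := inner_int_of_prop L K p P hPK hNL hTI hodd Z hZK hZc hZ1 f hf θ₂ hθ₂ hprop
      obtain ⟨k, hk⟩ := classInner_isCharacter_nat (isCharacter_indFun K (isCharacter_of_irr hθ₁))
        (isCharacter_restrict L (isCharacter_of_irr hf))
      have hN' : classInner θ₂ fK = (N : ℂ) * a' := by
        rw [← classInner_comm_conj]
        show conj (classInner fK θ₂) = _
        rw [hN, hθ₂one]
        simp
      have h5 : classInner (τ (χ₂ + (-(a' : ℤ)) • χ₁)) f = (a' : ℂ) * ((N : ℂ) - k) := by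
        have h6 : classInner (τ (χ₂ + (-(a' : ℤ)) • χ₁)) f = classInner (χ₂ + (-(a' : ℤ)) • χ₁) fL :=
          frobenius_reciprocity L _ f hcf
        rw [h6, classInner_add_left, classInner_zsmul_left, hχ₂θ, hfrobK, hN']
        have h7 : classInner χ₁ fL = k := hk
        rw [h7]
        push_cast
        ring
      rcases he with rfl | rfl
      · refine ⟨N - k, ?_⟩
        rw [hrf, one_smul, h5]
        push_cast
        ring
      · refine ⟨-(N - k), ?_⟩
        rw [hrf, classInner_smul_right, h5]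
        simp only [map_neg, map_one]
        push_cast
        ring
    have hjoin := join_main hS hnorm Sf hSfS hSfc hcoh₂' hχ₁S h1 h2 hχ₂ (a' : ℤ) ha0 ha hdvd hint
    let S₀ : Finset (L → ℂ) := Sf ∪ {χ₁, conjFun χ₁}
    have hS₀m : ∀ φ, φ ∈ S₀ ↔ φ ∈ Sf ∨ φ = χ₁ ∨ φ = conjFun χ₁ := fun φ => by
      simp only [S₀, Finset.mem_union, Finset.mem_insert, Finset.mem_singleton]
    have hS₀c : (↑S₀ : Set (L → ℂ)) = ↑Sf ∪ {χ₁, conjFun χ₁} := by
      simp [S₀]
    refine hfin S₀ ?_ ?_ Finset.subset_union_left ((hS₀m _).mpr (Or.inr (Or.inl rfl))) (by rw [hS₀c]; exact hjoin)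
    · intro φ hφ
      rcases (hS₀m φ).mp (Finset.mem_coe.mp hφ) with h | h | h
      · exact hSfS (Finset.mem_coe.mpr h)
      · rw [h]
        exact hχ₁S
      · rw [h]
        exact hS.conj_mem χ₁ hχ₁S
    · intro φ hφ
      rcases (hS₀m φ).mp hφ with h | h | h
      · exact (hS₀m _).mpr (Or.inl (hSfc φ h))
      · rw [h]
        exact (hS₀m _).mpr (Or.inr (Or.inr rfl))
      · rw [h, conjFun_conjFun]
        exact (hS₀m _).mpr (Or.inr (Or.inl rfl))
  · exact hfin Sf hSfS hSfc (Finset.Subset.refl _) ((hSfm _).mpr ⟨hχ₁S, hχ₁Z⟩) hcoh₂'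

end Main

end Cfsg.Agent.H06
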