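import Cfsg.Agent.Lib.H06.CoherS4
import Cfsg.Agent.Lib.H06.CoherK1

/-!
# Feit's coherence theorem for Frobenius groups
-/

set_option autoImplicit false
set_option linter.style.haveILetI false
set_option linter.unusedSectionVars false
set_option linter.unusedVariables false

namespace Cfsg.Agent.H06

open Cfsg Cfsg.Agent.H21
open scoped ComplexConjugate commutatorElement

universe u v

/-- Numerics for the first step. -/
theorem feit_num1 (e t s : ℕ) (he : 2 ≤ e) (ht : e + 1 ≤ t) (hs : e + 1 ≤ s) :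
    4 * e ^ 2 * t < (s * t - 1) ^ 2 := by
  have h1 : (e + 1) * t ≤ s * t := Nat.mul_le_mul_right _ hs
  obtain ⟨a, ha⟩ : ∃ a, (e + 1) * t = a + 1 := ⟨(e + 1) * t - 1, by
    have : 0 < (e + 1) * t := Nat.mul_pos (by omega) (by omega)
    omega⟩
  have h2 : a ≤ s * t - 1 := by omega
  have h3 : a ^ 2 ≤ (s * t - 1) ^ 2 := Nat.pow_le_pow_left h2 2
  refine lt_of_lt_of_le ?_ h3
  have hz : (4 * e ^ 2 * t : ℤ) < (a : ℤ) ^ 2 := by
    have haz : (a : ℤ) = (e + 1) * t - 1 := by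
      have : ((e + 1) * t : ℤ) = a + 1 := by exact_mod_cast ha
      omega
    rw [haz]
    have hez : (2 : ℤ) ≤ e := by exact_mod_cast he
    have htz : (e : ℤ) + 1 ≤ t := by exact_mod_cast ht
    have h5 : (0 : ℤ) < (e - 1) * (e ^ 2 + 1) := by
      apply mul_pos <;> nlinarith
    have h6 : ((e : ℤ) + 1) ^ 2 * (e + 1) ≤ (e + 1) ^ 2 * t :=
      mul_le_mul_of_nonneg_left htz (by positivity)
    have h7 : (0 : ℤ) < (e + 1) ^ 2 * t - 2 * (e + 1) - 4 * e ^ 2 := by nlinarith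
    have h8 : (0 : ℤ) < t := by omega
    nlinarith [mul_pos h8 h7]
  exact_mod_cast hz

/-- Numerics for the second step. -/
theorem feit_num2 (e x y z : ℕ) (hx : e + 1 ≤ x) (hy : e + 1 ≤ y) (hz : e + 1 ≤ z) (he : 1 ≤ e) :
    4 * e ^ 2 + 1 < z * (x * y) := by
  have h1 : (e + 1) * ((e + 1) * (e + 1)) ≤ z * (x * y) :=
    Nat.mul_le_mul hz (Nat.mul_le_mul hx hy)
  refine lt_of_lt_of_le ?_ h1
  nlinarith [sq_nonneg e, Nat.mul_le_mul he he]

/-- A number `> 1` congruent to `1` mod `e` is at least `e + 1`. -/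
theorem ge_succ_of_dvd {e m : ℕ} (hd : e ∣ m - 1) (h1 : 1 < m) : e + 1 ≤ m := by
  have := Nat.le_of_dvd (by omega) hd
  omega

section Main

variable {N : Type u} [Group N] [Fintype N] {G : Type v} [Group G] [Fintype G]

/-- **Feit's coherence theorem** for a Frobenius group. -/
theorem feit_main (H : Subgroup N) [hHn : H.Normal] (hH1 : H ≠ ⊥) (hH2 : H ≠ ⊤)
    (hC : ∀ h ∈ H, h ≠ 1 → Subgroup.centralizer ({h} : Set N) ≤ H)
    (he : Nat.card H ≠ H.index + 1) (τ : (N → ℂ) → (G → ℂ))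
    (hτ : IsLinearIsometryOn (zspanOn (inducedIrrAbove H ⊥) {1}ᶜ) τ)
    (hτ1 : ∀ α ∈ zspanOn (inducedIrrAbove H ⊥) {1}ᶜ, τ α 1 = 0) :
    IsCoherent (inducedIrrAbove H ⊥) {1}ᶜ τ ∨
      ∃ p : ℕ, p.Prime ∧ (∃ m : ℕ, Nat.card H = p ^ m) ∧ ¬ IsMulCommutative H ∧
        (⁅H, H⁆.subgroupOf H).index ≤ 4 * H.index ^ 2 + 1 := by
  classical
  haveI : Fintype H := Fintype.ofFinite _
  have hC' : ∀ k ∈ H, k ≠ 1 → ∀ x : N, x * k = k * x → x ∈ H := by
    intro k hk hk1 x hx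
    apply hC k hk hk1
    rw [Subgroup.mem_centralizer_iff]
    intro z hz
    rw [Set.mem_singleton_iff.mp hz]
    exact hx.symm
  have hN : Subgroup.normalizer (H : Set N) = ⊤ := Subgroup.normalizer_eq_top_iff.mpr hHn
  have hlt : H < Subgroup.normalizer (H : Set N) := by
    rw [hN]
    exact lt_top_iff_ne_top.mpr hH2
  have hnil : Group.IsNilpotent H := tiKernel_nilpotent H hlt hC
  have hsolv : Group.IsSolvable H := inferInstance
  have hepos : 0 < H.index := Nat.pos_of_ne_zero Subgroup.index_ne_zero_of_finite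
  have he2 : 2 ≤ H.index := by
    have : H.index ≠ 1 := fun h => hH2 (Subgroup.index_eq_one.mp h)
    omega
  have hirr := frob_irr H hC
  have hSof : ∀ A : Subgroup N, (inducedIrrAbove H A) ⊆ inducedIrrAbove H ⊥ := inducedIrrAbove_subset H
  by_cases hab : ∀ a ∈ H, ∀ b ∈ H, a * b = b * a
  · -- the abelian case
    left
    set Sf : Finset (N → ℂ) := (inducedIrrAbove_finite H ⊥).toFinset with hSfdef
    have hSf : (Sf : Set (N → ℂ)) = inducedIrrAbove H ⊥ := Set.Finite.coe_toFinset _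
    have hmem : ∀ {χ}, χ ∈ Sf ↔ χ ∈ inducedIrrAbove H ⊥ := by
      intro χ
      rw [← Finset.mem_coe, hSf]
    have hcount := frob_card_abelian H hC hab Sf hSf
    have hcard1 : 1 < Nat.card H := (Subgroup.one_lt_card_iff_ne_bot _).mpr hH1
    have htwo : ∃ χ ∈ Sf, ∃ φ ∈ Sf, χ ≠ φ := by
      apply Finset.one_lt_card.mp
      by_contra hc
      have h1 : Sf.card = 0 ∨ Sf.card = 1 := by omega
      rcases h1 with h1 | h1
      · rw [h1] at hcount
        omega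
      · rw [h1, one_mul] at hcount
        exact he hcount.symm
    rw [← hSf] at hτ hτ1 ⊢
    exact coh_equal_degree Sf (fun χ hχ => hirr χ (hmem.mp hχ)) (fun φ hφ ψ hψ => by
      rw [frob_degree_abelian H hab (hmem.mp hφ), frob_degree_abelian H hab (hmem.mp hψ)]) htwo τ hτ hτ1
  -- the nonabelian case
  have hnc : ¬ IsMulCommutative H := by
    intro hc
    apply hab
    intro a ha b hb
    exact congrArg Subtype.val (hc.is_comm.comm ⟨a, ha⟩ ⟨b, hb⟩)
  haveI hH'n : (⁅H, H⁆).Normal := Subgroup.commutator_normal H H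
  have hH'ne : ⁅H, H⁆ ≠ ⊥ := by
    intro h
    apply hab
    intro a ha b hb
    have h1 := Subgroup.commutator_mem_commutator ha hb
    rw [h, Subgroup.mem_bot] at h1
    exact commutatorElement_eq_one_iff_mul_comm.mp h1
  have hH'lt : ⁅H, H⁆ < H := nilp_comm_lt H H le_rfl hnil hH1
  have hcH : ∀ x ∈ H, ∀ y ∈ H, x * y * x⁻¹ * y⁻¹ ∈ ⁅H, H⁆ := fun x hx y hy =>
    Subgroup.commutator_mem_commutator hx hy
  have hrelpos : ∀ X Y : Subgroup N, 0 < X.relIndex Y := fun X Y =>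
    Nat.pos_of_ne_zero (show (X.subgroupOf Y).index ≠ 0 from Subgroup.index_ne_zero_of_finite)
  have hrel1 : ∀ X Y : Subgroup N, X < Y → 1 < X.relIndex Y := by
    intro X Y h
    have h1 := hrelpos X Y
    by_contra hc
    have h2 : X.relIndex Y = 1 := by omega
    exact h.not_ge (Subgroup.relIndex_eq_one.mp h2)
  -- first coherent set
  have hcoh₁ : ⁅H, H⁆.relIndex H ≠ H.index + 1 → IsCoherent (inducedIrrAbove H ⁅H, H⁆) {1}ᶜ τ := by
    intro hu
    set Sf : Finset (N → ℂ) := (inducedIrrAbove_finite H ⁅H, H⁆).toFinset with hSfdef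
    have hSf : (Sf : Set (N → ℂ)) = inducedIrrAbove H ⁅H, H⁆ := Set.Finite.coe_toFinset _
    have hmem : ∀ {χ}, χ ∈ Sf ↔ χ ∈ inducedIrrAbove H ⁅H, H⁆ := by
      intro χ
      rw [← Finset.mem_coe, hSf]
    have hcount := frob_card_linear H ⁅H, H⁆ hH'lt.le hC hcH Sf hSf
    have hu1 := hrel1 _ _ hH'lt
    have htwo : ∃ χ ∈ Sf, ∃ φ ∈ Sf, χ ≠ φ := by
      apply Finset.one_lt_card.mp
      by_contra hc
      have h1 : Sf.card = 0 ∨ Sf.card = 1 := by omega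
      rcases h1 with h1 | h1
      · rw [h1] at hcount
        omega
      · rw [h1, one_mul] at hcount
        exact hu hcount.symm
    rw [← hSf]
    have hsub : (Sf : Set (N → ℂ)) ⊆ inducedIrrAbove H ⊥ := by
      rw [hSf]
      exact hSof _
    exact coh_equal_degree Sf (fun χ hχ => hirr χ (hSof _ (hmem.mp hχ))) (fun φ hφ ψ hψ => by
      rw [frob_degree_linear H _ hcH (hmem.mp hφ), frob_degree_linear H _ hcH (hmem.mp hψ)]) htwo τ
      (iso_restrict hsub hτ) (fun α hα => hτ1 α (zspanOn_mono hsub hα))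
  -- chain
  have hchain : ∀ A : Subgroup N, A.Normal → A ≤ H → IsCoherent (inducedIrrAbove H A) {1}ᶜ τ →
      4 * H.index ^ 2 + 1 < A.relIndex H → IsCoherent (inducedIrrAbove H ⊥) {1}ᶜ τ := by
    intro A hAn hAH hco hbig
    haveI := hAn
    have hbot : ((⊥ : Subgroup N).subgroupOf H).Normal := inferInstance
    exact frob_chain H hC hsolv τ hτ hτ1 ⊥ A H bot_le hAH le_rfl
      (Group.nilpotent_of_surjective _ (QuotientGroup.mk'_surjective _)) hco hbig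
  have hidx : (commutator H).index = ⁅H, H⁆.relIndex H := by
    have h2 : ⁅H, H⁆.subgroupOf H = commutator H := by
      apply Subgroup.map_injective H.subtype_injective
      rw [Subgroup.map_subtype_commutator, Subgroup.map_subgroupOf_eq_of_le (Subgroup.commutator_le_self H)]
    rw [← h2]
    rfl
  by_cases hpow : ∃ p m : ℕ, p.Prime ∧ Nat.card H = p ^ m
  · obtain ⟨p, m, hp, hm⟩ := hpow
    by_cases hu : (⁅H, H⁆.subgroupOf H).index ≤ 4 * H.index ^ 2 + 1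
    · right
      exact ⟨p, hp, ⟨m, hm⟩, hnc, hu⟩
    · left
      have hu' : 4 * H.index ^ 2 + 1 < ⁅H, H⁆.relIndex H := by
        push Not at hu
        exact hu
      apply hchain _ hH'n hH'lt.le (hcoh₁ _) hu'
      have : H.index ≤ H.index ^ 2 := Nat.le_self_pow (by norm_num) _
      omega
  -- two primes
  left
  have hγlt : ⁅⁅H, H⁆, H⁆ < ⁅H, H⁆ := nilp_comm_lt H ⁅H, H⁆ hH'lt.le hnil hH'ne
  haveI hγn : (⁅⁅H, H⁆, H⁆).Normal := Subgroup.commutator_normal _ _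
  obtain ⟨r, hr, hrd⟩ := Nat.exists_prime_and_dvd (hrel1 _ _ hγlt).ne'
  obtain ⟨q, hq, hqd, hqr⟩ : ∃ q : ℕ, q.Prime ∧ q ∣ ⁅H, H⁆.relIndex H ∧ q ≠ r := by
    by_contra hcon
    push Not at hcon
    apply hpow
    have hall : ∀ {q : ℕ}, q.Prime → q ∣ ⁅H, H⁆.relIndex H → q = r := fun h1 h2 => hcon _ h1 h2
    have h1 := Nat.eq_prime_pow_of_unique_prime_dvd (hrelpos _ _).ne' hall
    rw [← hidx] at h1
    obtain ⟨b, hb⟩ := nilp_card_prime_pow hnil hr h1
    exact ⟨r, b, hr, hb⟩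
  obtain ⟨A, hAn, hγA, hAlt, hAp⟩ := ppart_exists ⁅H, H⁆ ⁅⁅H, H⁆, H⁆ hγlt.le
    (fun x hx y hy => Subgroup.commutator_mem_commutator hx (hH'lt.le hy)) hq hr hqr hrd
  haveI := hAn
  obtain ⟨D, hDn, hDm⟩ := exists_upper H A
  haveI := hDn
  have hH'D : ⁅H, H⁆ ≤ D := by
    intro y hy
    rw [hDm]
    refine ⟨hH'lt.le hy, fun z hz => hγA ?_⟩
    exact Subgroup.commutator_mem_commutator hy hz
  have hDH : D ≤ H := fun d hd => ((hDm d).mp hd).1
  have hDcomm : ∀ x ∈ D, ∀ y ∈ H, x * y * x⁻¹ * y⁻¹ ∈ A := fun x hx => ((hDm x).mp hx).2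
  have hDltH : D < H := by
    refine lt_of_le_of_ne hDH ?_
    intro heq
    apply hAlt.not_ge
    rw [Subgroup.commutator_le]
    intro x hx y hy
    exact hDcomm x (heq ▸ hx) y hy
  -- an element outside the commutator
  have hH'ltD : ⁅H, H⁆ < D := by
    refine lt_of_le_of_ne hH'D ?_
    intro heq
    haveI : Fact q.Prime := ⟨hq⟩
    obtain ⟨y, hy⟩ := exists_prime_orderOf_dvd_card' (G := ↥H ⧸ ⁅H, H⁆.subgroupOf H) q hqd
    obtain ⟨k, rfl⟩ := QuotientGroup.mk_surjective y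
    have hk1 : (k : N) ∉ ⁅H, H⁆ := by
      intro h
      have h2 : ((k : H) : ↥H ⧸ ⁅H, H⁆.subgroupOf H) = 1 :=
        (QuotientGroup.eq_one_iff _).mpr (Subgroup.mem_subgroupOf.mpr h)
      rw [h2, orderOf_one] at hy
      exact hq.one_lt.ne hy
    have hk2 : (k : N) ^ q ∈ ⁅H, H⁆ := by
      have h2 : ((k : H) : ↥H ⧸ ⁅H, H⁆.subgroupOf H) ^ q = 1 := by
        rw [← hy]
        exact pow_orderOf_eq_one _
      rw [← QuotientGroup.mk_pow, QuotientGroup.eq_one_iff, Subgroup.mem_subgroupOf] at h2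
      simpa using h2
    apply hk1
    rw [heq, hDm]
    refine ⟨k.2, fun z hz => ?_⟩
    have hc : (k : N) * z * (k : N)⁻¹ * z⁻¹ ∈ ⁅H, H⁆ := hcH _ k.2 _ hz
    apply hAp _ hc
    rw [← QuotientGroup.eq_one_iff]
    have hcm : Commute (((k : N) : N ⧸ ⁅⁅H, H⁆, H⁆) * (z : N ⧸ ⁅⁅H, H⁆, H⁆) * ((k : N) : N ⧸ ⁅⁅H, H⁆, H⁆)⁻¹ *
        (z : N ⧸ ⁅⁅H, H⁆, H⁆)⁻¹) ((k : N) : N ⧸ ⁅⁅H, H⁆, H⁆) := by
      have h3 : ((((k : N) * z * (k : N)⁻¹ * z⁻¹) * (k : N) * ((k : N) * z * (k : N)⁻¹ * z⁻¹)⁻¹ * (k : N)⁻¹ : N) :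
          N ⧸ ⁅⁅H, H⁆, H⁆) = 1 :=
        (QuotientGroup.eq_one_iff _).mpr (Subgroup.commutator_mem_commutator hc k.2)
      have h4 := h3
      simp only [QuotientGroup.mk_mul, QuotientGroup.mk_inv] at h4
      rw [mul_inv_eq_one, mul_inv_eq_iff_eq_mul] at h4
      exact h4
    have h5 := comm_pow_quot hcm q
    have h6 : (((k : N) ^ q * z * ((k : N) ^ q)⁻¹ * z⁻¹ : N) : N ⧸ ⁅⁅H, H⁆, H⁆) = 1 :=
      (QuotientGroup.eq_one_iff _).mpr (Subgroup.commutator_mem_commutator hk2 hz)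
    simp only [QuotientGroup.mk_mul, QuotientGroup.mk_inv, QuotientGroup.mk_pow] at h6 ⊢
    rw [← h5]
    exact h6
  -- divisibilities
  have hd1 := frob_sec_dvd H ⁅H, H⁆ D hH'D hDH (fun x hx y hy => hcH x hx y (hDH hy))
    (frob_quot' H ⁅H, H⁆ hC')
  have hd2 := frob_sec_dvd H D H hDH le_rfl (fun x hx y hy => hH'D (hcH x hx y hy))
    (frob_quot' H D hC')
  have hd3 := frob_sec_dvd H A ⁅H, H⁆ hAlt.le hH'lt.le (fun x hx y hy => by
    have h1 := hDcomm y (hH'D hy) x hx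
    have h2 := A.inv_mem h1
    have e : (y * x * y⁻¹ * x⁻¹)⁻¹ = x * y * x⁻¹ * y⁻¹ := by group
    rwa [e] at h2) (frob_quot' H A hC')
  have hm₂ := ge_succ_of_dvd hd1 (hrel1 _ _ hH'ltD)
  have hm₁ := ge_succ_of_dvd hd2 (hrel1 _ _ hDltH)
  have hw := ge_succ_of_dvd hd3 (hrel1 _ _ hAlt)
  have hu : ⁅H, H⁆.relIndex D * D.relIndex H = ⁅H, H⁆.relIndex H :=
    Subgroup.relIndex_mul_relIndex _ _ _ hH'D hDH
  have hw' : A.relIndex ⁅H, H⁆ * ⁅H, H⁆.relIndex H = A.relIndex H :=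
    Subgroup.relIndex_mul_relIndex _ _ _ hAlt.le hH'lt.le
  have hcoh₂ : IsCoherent (inducedIrrAbove H ⁅H, H⁆) {1}ᶜ τ := by
    apply hcoh₁
    rw [← hu]
    have := Nat.mul_le_mul hm₂ hm₁
    intro h
    rw [h] at this
    nlinarith
  have hcoh₃ : IsCoherent (inducedIrrAbove H A) {1}ᶜ τ := by
    refine frob_step H hC hsolv τ hτ hτ1 ⁅H, H⁆ A H D hAlt.le hH'lt (hAlt.le.trans hH'D) hDH le_rfl hDcomm
      hcoh₂ ?_
    rw [← hu]
    exact feit_num1 _ _ _ he2 hm₁ hm₂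
  apply hchain A hAn (hAlt.le.trans hH'lt.le) hcoh₃
  rw [← hw', ← hu]
  exact feit_num2 _ _ _ _ hm₂ hm₁ hw hepos

end Main

end Cfsg.Agent.H06
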