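import Cfsg.Agent.Lib.H06.CoherS5

/-!
# Feit--Sibley: nilpotent TI subgroups with Frobenius normalizer
-/

set_option autoImplicit false
set_option linter.style.haveILetI false
set_option linter.unusedSectionVars false
set_option linter.unusedVariables false

namespace Cfsg.Agent.H06

open Cfsg Cfsg.Agent.H21
open scoped ComplexConjugate commutatorElement

universe u v

section Trans

variable {L : Type u} [Group L] [Finite L] (K : Subgroup L) [hK : K.Normal]

/-- Transitivity on the nonidentity elements when `|K| = e + 1`, starting from a central element. -/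
theorem frob_transitive' (hC : ∀ n ∈ K, n ≠ 1 → Subgroup.centralizer ({n} : Set L) ≤ K)
    (hcard : Nat.card K = K.index + 1) {w : L} (hw : w ∈ K) (hwc : ∀ a ∈ K, a * w = w * a)
    (hw1 : w ≠ 1) {k : L} (hk : k ∈ K) (hk1 : k ≠ 1) : ∃ g : L, g * w * g⁻¹ = k := by
  classical
  let β := {x : K // x ≠ 1}
  have hβ : Nat.card β = K.index := by
    have h1 : Nat.card β + 1 = Nat.card K := by
      have h2 := Nat.card_congr (Equiv.sumCompl (fun x : K => x ≠ 1))
      rw [Nat.card_sum] at h2
      have h3 : Nat.card {x : K // ¬ x ≠ 1} = 1 := by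
        have : {x : K // ¬ x ≠ 1} = {x : K // x = 1} := by simp
        rw [this]
        exact Nat.card_unique
      rw [h3] at h2
      exact h2
    omega
  let f₀ : L → β := fun g => ⟨⟨g * w * g⁻¹, hK.conj_mem w hw g⟩, by
    intro h
    apply hw1
    have h2 : g * w * g⁻¹ = 1 := congrArg Subtype.val h
    have h3 : g⁻¹ * (g * w * g⁻¹) * g = g⁻¹ * 1 * g := by rw [h2]
    simpa [mul_assoc] using h3⟩
  let f : L ⧸ K → β := Quotient.lift f₀ (by
    intro a b hab'
    have h1 : a⁻¹ * b ∈ K := QuotientGroup.leftRel_apply.mp hab'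
    apply Subtype.ext
    apply Subtype.ext
    have h2 : (a⁻¹ * b) * w = w * (a⁻¹ * b) := hwc _ h1
    show a * w * a⁻¹ = b * w * b⁻¹
    calc a * w * a⁻¹ = a * (w * (a⁻¹ * b)) * b⁻¹ := by group
      _ = a * ((a⁻¹ * b) * w) * b⁻¹ := by rw [h2]
      _ = b * w * b⁻¹ := by group)
  have hinj : Function.Injective f := by
    intro x y hxy
    induction x using QuotientGroup.induction_on with
    | H a =>
    induction y using QuotientGroup.induction_on with
    | H b =>
    have h1 : a * w * a⁻¹ = b * w * b⁻¹ := congrArg (fun z : β => ((z.1 : K) : L)) hxy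
    apply QuotientGroup.eq.mpr
    apply hC w hw hw1
    rw [Subgroup.mem_centralizer_iff]
    intro z hz
    rw [Set.mem_singleton_iff.mp hz]
    calc w * (a⁻¹ * b) = a⁻¹ * (a * w * a⁻¹) * b := by group
      _ = a⁻¹ * (b * w * b⁻¹) * b := by rw [h1]
      _ = a⁻¹ * b * w := by group
  have hbij := (Function.Injective.bijective_of_nat_card_le hinj (by
    rw [hβ]
    rfl))
  obtain ⟨x, hx⟩ := hbij.2 ⟨⟨k, hk⟩, fun h => hk1 (congrArg Subtype.val h)⟩
  induction x using QuotientGroup.induction_on with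
  | H a =>
  exact ⟨a, congrArg (fun z : β => ((z.1 : K) : L)) hx⟩

/-- A nilpotent Frobenius kernel with `|K| = e + 1` is abelian. -/
theorem frob_abelian_of_card (hC : ∀ n ∈ K, n ≠ 1 → Subgroup.centralizer ({n} : Set L) ≤ K)
    (hcard : Nat.card K = K.index + 1) (hnil : Group.IsNilpotent K) (hK1 : K ≠ ⊥) :
    ∀ a ∈ K, ∀ b ∈ K, a * b = b * a := by
  classical
  haveI hnt : Nontrivial K := by
    obtain ⟨k, hk, hk1⟩ := (Subgroup.bot_or_exists_ne_one K).resolve_left hK1
    exact ⟨⟨⟨k, hk⟩, 1, fun h => hk1 (congrArg Subtype.val h)⟩⟩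
  obtain ⟨z, hz1⟩ : ∃ z : Subgroup.center K, z ≠ 1 := by
    obtain ⟨z, hz, hz1⟩ := (Subgroup.bot_or_exists_ne_one (Subgroup.center K)).resolve_left
      (Group.IsNilpotent.center_ne_bot K)
    exact ⟨⟨z, hz⟩, fun h => hz1 (congrArg Subtype.val h)⟩
  have hwK : ((z : K) : L) ∈ K := (z : K).2
  have hw1 : ((z : K) : L) ≠ 1 := fun h => hz1 (Subtype.ext (Subtype.ext h))
  have hwc : ∀ a ∈ K, a * ((z : K) : L) = ((z : K) : L) * a := by
    intro a ha
    have := (Subgroup.mem_center_iff.mp z.2) ⟨a, ha⟩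
    exact congrArg Subtype.val this
  intro a ha b hb
  by_cases ha1 : a = 1
  · rw [ha1, one_mul, mul_one]
  obtain ⟨g, hg⟩ := frob_transitive' K hC hcard hwK hwc hw1 ha ha1
  rw [← hg]
  have h1 := hwc (g⁻¹ * b * g) (by simpa using hK.conj_mem b hb g⁻¹)
  calc g * ((z : K) : L) * g⁻¹ * b = g * (((z : K) : L) * (g⁻¹ * b * g)) * g⁻¹ := by group
    _ = g * ((g⁻¹ * b * g) * ((z : K) : L)) * g⁻¹ := by rw [h1]
    _ = b * (g * ((z : K) : L) * g⁻¹) := by group

end Trans

section Main

variable {G : Type u} [Group G] [Fintype G]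

/-- An arithmetic fact for powers of two. -/
theorem two_pow_lt (e u j : ℕ) (he : 2 ≤ e) (hd : e ∣ u - 1) (hu : u = 2 ^ j) (hj : j ≠ 0)
    (hle : u ≤ 4 * e ^ 2 + 1) : u < 4 * e ^ 2 := by
  by_contra hc
  push Not at hc
  have heven : 2 ∣ u := by
    rw [hu]
    exact dvd_pow_self 2 hj
  have h1 : u = 4 * e ^ 2 ∨ u = 4 * e ^ 2 + 1 := by omega
  rcases h1 with h1 | h1
  · have h2 : e ∣ 4 * e ^ 2 := ⟨4 * e, by ring⟩
    have h3 : e ∣ 4 * e ^ 2 - 1 := h1 ▸ hd
    have hpos : 1 ≤ 4 * e ^ 2 := by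
      have : 0 < e ^ 2 := by positivity
      omega
    have h4 := Nat.dvd_sub h2 h3
    rw [Nat.sub_sub_self hpos] at h4
    have := Nat.dvd_one.mp h4
    omega
  · rw [h1] at heven
    have : 2 ∣ 4 * e ^ 2 := ⟨2 * e ^ 2, by ring⟩
    omega

/-- **Feit--Sibley**: nilpotent TI subgroups with Frobenius normalizer. -/
theorem feit_sibley (K : Subgroup G) (hK1 : K ≠ ⊥) (hnil : Group.IsNilpotent K)
    (hTI : IsTISubset (K : Set G)) (hlt : K < Subgroup.normalizer (K : Set G))
    (hC : ∀ k ∈ K, k ≠ 1 → Subgroup.centralizer ({k} : Set G) ≤ K)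
    (N : Subgroup G) [Fintype N] (hN : Subgroup.normalizer (K : Set G) = N) :
    (Nat.card {χ : N → ℂ // IsIrrCharacter N χ ∧ ∃ k : N, (k : G) ∈ K ∧ χ k ≠ χ 1} = 1 ∧
      Nat.card K = (K.subgroupOf N).index + 1 ∧ ∃ p : ℕ, p.Prime ∧ IsElementaryAbelian p K) ∨
    (Nat.card K = 2 ^ (Nat.card G).factorization 2 ∧
      (⁅K, K⁆.subgroupOf K).index < 4 * (K.subgroupOf N).index ^ 2) ∨
    IsCoherent {χ : N → ℂ | IsIrrCharacter N χ ∧ ∃ k : N, (k : G) ∈ K ∧ χ k ≠ χ 1} {1}ᶜ
      (fun α => indFun N α) := by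
  classical
  have hKN : K ≤ N := hN ▸ Subgroup.le_normalizer
  have hC' := ti_hC' K N hKN hC
  set H : Subgroup N := K.subgroupOf N with hH
  have hHm : ∀ x : N, x ∈ H ↔ (x : G) ∈ K := fun x => Subgroup.mem_subgroupOf
  haveI hn : H.Normal := by
    refine ⟨fun k hk g => ?_⟩
    rw [hHm] at hk ⊢
    have hg : (g : G) ∈ Subgroup.normalizer (K : Set G) := hN ▸ g.2
    exact (Subgroup.mem_normalizer_iff.mp hg k).mp hk
  have hset := frob_set_eq H hC'
  have hS' : {χ : N → ℂ | IsIrrCharacter N χ ∧ ∃ x : N, (x : G) ∈ K ∧ χ x ≠ χ 1} =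
      inducedIrrAbove H ⊥ := by
    rw [← hset]
    ext χ
    constructor
    · rintro ⟨h1, x, hx, h2⟩
      exact ⟨h1, x, (hHm x).mpr hx, h2⟩
    · rintro ⟨h1, x, hx, h2⟩
      exact ⟨h1, x, (hHm x).mp hx, h2⟩
  have hcardH : Nat.card H = Nat.card K :=
    Nat.card_congr (Subgroup.subgroupOfEquivOfLe hKN).toEquiv
  have hH1 : H ≠ ⊥ := by
    intro h
    apply hK1
    rw [eq_bot_iff]
    intro x hx
    have h1 : (⟨x, hKN hx⟩ : N) ∈ H := (hHm _).mpr hx
    rw [h, Subgroup.mem_bot] at h1
    exact Subgroup.mem_bot.mpr (congrArg Subtype.val h1)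
  have hH2 : H ≠ ⊤ := by
    intro h
    apply hlt.not_ge
    rw [hN]
    intro x hx
    have h1 : (⟨x, hx⟩ : N) ∈ H := by rw [h]; exact Subgroup.mem_top _
    exact (hHm _).mp h1
  have hnilH : Group.IsNilpotent H :=
    Group.nilpotent_of_surjective (Subgroup.subgroupOfEquivOfLe hKN).symm.toMonoidHom
      (Subgroup.subgroupOfEquivOfLe hKN).symm.surjective
  have hirr := frob_irr H hC'
  -- isometry
  obtain ⟨hiso, hone⟩ := ti_isometry K N hKN H hHm
    (fun g hg k hk h => hTI g (hN ▸ hg) k hk h) (inducedIrrAbove H ⊥)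
    (fun χ hχ => isCharacter_of_irr (hirr χ hχ)) (by
      rintro χ ⟨θ, -, -, -, rfl⟩ x hx
      exact indFun_of_not_mem H θ hx)
  by_cases he : Nat.card K = H.index + 1
  · -- the doubly transitive case
    left
    have hcH : Nat.card H = H.index + 1 := by rw [hcardH]; exact he
    have hab' := frob_abelian_of_card H hC' hcH hnilH hH1
    have hab : ∀ a ∈ K, ∀ b ∈ K, a * b = b * a := fun a ha b hb => by
      have := hab' ⟨a, hKN ha⟩ ((hHm _).mpr ha) ⟨b, hKN hb⟩ ((hHm _).mpr hb)
      exact congrArg Subtype.val this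
    set Sf : Finset (N → ℂ) := (inducedIrrAbove_finite H ⊥).toFinset with hSfdef
    have hSf : (Sf : Set (N → ℂ)) = inducedIrrAbove H ⊥ := Set.Finite.coe_toFinset _
    have hcount := frob_card_abelian H hC' hab' Sf hSf
    have hepos : 0 < H.index := Nat.pos_of_ne_zero Subgroup.index_ne_zero_of_finite
    have hSc' : Sf.card = 1 := by
      rw [hcH] at hcount
      have h2 : Sf.card * H.index = 1 * H.index := by omega
      exact Nat.eq_of_mul_eq_mul_right hepos h2
    refine ⟨?_, he, ?_⟩
    · have h1 : Nat.card {χ : N → ℂ // IsIrrCharacter N χ ∧ ∃ x : N, (x : G) ∈ K ∧ χ x ≠ χ 1} =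
          Nat.card ↥(Sf : Set (N → ℂ)) := by
        apply Nat.card_congr
        apply Equiv.setCongr
        rw [hSf, ← hS']
        rfl
      rw [h1, Nat.card_coe_set_eq, Set.ncard_coe_finset, hSc']
    · -- exponent
      have hcard1 : 1 < Nat.card K := (Subgroup.one_lt_card_iff_ne_bot _).mpr hK1
      obtain ⟨p, hp, hpd⟩ := Nat.exists_prime_and_dvd hcard1.ne'
      haveI : Fact p.Prime := ⟨hp⟩
      obtain ⟨w, hw⟩ := exists_prime_orderOf_dvd_card' (G := K) p hpd
      have hw' : orderOf (w : G) = p := (Subgroup.orderOf_coe w).trans hw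
      have hw1 : (w : G) ≠ 1 := by
        intro h
        rw [h, orderOf_one] at hw'
        exact hp.one_lt.ne hw'
      refine ⟨p, hp, ⟨⟨fun a b => Subtype.ext (hab a a.2 b b.2)⟩⟩, ?_⟩
      intro a ha
      by_cases ha1 : a = 1
      · rw [ha1, one_pow]
      have hwp : (w : G) ^ p = 1 := by
        have := pow_orderOf_eq_one (w : G)
        rwa [hw'] at this
      obtain ⟨g, hg⟩ := frob_transitive H hC' hab' hcH
        (w := (⟨w, hKN w.2⟩ : N)) ((hHm _).mpr w.2) (fun h => hw1 (congrArg Subtype.val h))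
        (k := (⟨a, hKN ha⟩ : N)) ((hHm _).mpr ha) (fun h => ha1 (congrArg Subtype.val h))
      have hg' : (g : G) * w * (g : G)⁻¹ = a := congrArg Subtype.val hg
      rw [← hg', conj_pow, hwp]
      simp
  · right
    rw [hS']
    have hne : Nat.card H ≠ H.index + 1 := by rwa [hcardH]
    rcases feit_main H hH1 hH2 hC' hne _ hiso hone with hco | ⟨p, hp, ⟨m, hm⟩, hnc, hu⟩
    · exact Or.inr hco
    -- the `p`-group case
    haveI : Fact p.Prime := ⟨hp⟩
    have hab : ¬ ∀ a ∈ K, ∀ b ∈ K, a * b = b * a := by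
      intro h
      apply hnc
      exact ⟨⟨fun a b => Subtype.ext (Subtype.ext (h _ ((hHm _).mp a.2) _ ((hHm _).mp b.2)))⟩⟩
    have hmK : Nat.card K = p ^ m := by rw [← hcardH]; exact hm
    have hC'' : ∀ k ∈ H, k ≠ 1 → ∀ x : N, x * k = k * x → x ∈ H := by
      intro k hk hk1 x hx
      apply hC' k hk hk1
      rw [Subgroup.mem_centralizer_iff]
      intro z hz
      rw [Set.mem_singleton_iff.mp hz]
      exact hx.symm
    have hfrob := frob_quot H hC''
    have hH'lt : ⁅H, H⁆ < H := nilp_comm_lt H H le_rfl hnilH hH1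
    have hdv := frob_index_dvd H ⁅H, H⁆ H hH'lt.le le_rfl
      (fun x hx y hy => Subgroup.commutator_mem_commutator hx hy) hfrob
    have hr2 : (⁅H, H⁆).relIndex H ∣ p ^ m := hm ▸ Subgroup.relIndex_dvd_card _ _
    obtain ⟨j, _, hj⟩ := (Nat.dvd_prime_pow hp).mp hr2
    have hr1 : (⁅H, H⁆).relIndex H ≠ 1 := by
      intro h
      rw [Subgroup.relIndex_eq_one] at h
      exact hH'lt.not_ge h
    have hj0 : j ≠ 0 := by
      rintro rfl
      rw [pow_zero] at hj
      exact hr1 hj
    have hepc : Nat.Coprime H.index p := by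
      rw [Nat.coprime_comm, Nat.Prime.coprime_iff_not_dvd hp]
      intro hpe
      have h1 : p ∣ (⁅H, H⁆).relIndex H := by
        rw [hj]
        exact dvd_pow_self p hj0
      have h2 : p ∣ (⁅H, H⁆).relIndex H - 1 := hpe.trans hdv
      have h3 : 1 ≤ (⁅H, H⁆).relIndex H := Nat.pos_of_ne_zero (by
        intro h
        rw [hj] at h
        exact (pow_pos hp.pos j).ne' h)
      have h4 : p ∣ 1 := by
        have := (Nat.dvd_sub h1 h2)
        rwa [Nat.sub_sub_self h3] at this
      exact hp.one_lt.ne' (Nat.dvd_one.mp h4)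
    by_cases hp2 : p = 2
    · -- Sylow 2
      left
      subst hp2
      have hKp := frob_mem_of_ppow H hm hH'lt hfrob
      have hHp : IsPGroup 2 K := IsPGroup.of_card hmK
      obtain ⟨Q, hQ⟩ := hHp.exists_le_sylow
      have hQH : (Q : Subgroup G) = K := by
        by_contra hne'
        have hlt' : K < (Q : Subgroup G) := lt_of_le_of_ne hQ (Ne.symm hne')
        have hQnil : Group.IsNilpotent (Q : Subgroup G) := Q.isPGroup'.isNilpotent
        have hnc' := Group.normalizerCondition_of_isNilpotent (G := (Q : Subgroup G))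
        have htop : K.subgroupOf (Q : Subgroup G) < ⊤ := by
          refine lt_top_iff_ne_top.mpr fun h => hlt'.not_ge ?_
          intro x hx
          have : (⟨x, hx⟩ : (Q : Subgroup G)) ∈ K.subgroupOf (Q : Subgroup G) := by rw [h]; trivial
          exact Subgroup.mem_subgroupOf.mp this
        obtain ⟨y, hy, hy'⟩ := SetLike.exists_of_lt (hnc' _ htop)
        have hyL : (y : G) ∈ N := by
          rw [← hN]
          rw [Subgroup.mem_normalizer_iff]
          intro h
          constructor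
          · intro hh
            have h1 := Subgroup.mem_normalizer_iff.mp hy ⟨h, hQ hh⟩
            have h2 := h1.mp (Subgroup.mem_subgroupOf.mpr hh)
            exact Subgroup.mem_subgroupOf.mp h2
          · intro hh
            have hmemQ : y.1 * h * y.1⁻¹ ∈ (Q : Subgroup G) := hQ hh
            have hhQ' : h ∈ (Q : Subgroup G) := by
              have h3 := (Q : Subgroup G).mul_mem ((Q : Subgroup G).mul_mem ((Q : Subgroup G).inv_mem y.2) hmemQ) y.2
              simpa [mul_assoc] using h3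
            have h1 := Subgroup.mem_normalizer_iff.mp hy ⟨h, hhQ'⟩
            have h2 := h1.mpr (Subgroup.mem_subgroupOf.mpr hh)
            exact Subgroup.mem_subgroupOf.mp h2
        apply hy'
        have hpe : IsPGroup 2 (Q : Subgroup G) := Q.isPGroup'
        obtain ⟨k, hk⟩ := hpe y
        have h1 := hKp ⟨y, hyL⟩ ⟨k, by
          apply Subtype.ext
          have := congrArg Subtype.val hk
          simpa using this⟩
        exact Subgroup.mem_subgroupOf.mpr ((hHm _).mp h1)
      constructor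
      · rw [← hQH]
        exact Q.card_eq_multiplicity
      · have he2 : 2 ≤ H.index := by
          have h1 : H.index ≠ 1 := fun h => hH2 (Subgroup.index_eq_one.mp h)
          have h2 : 0 < H.index := Nat.pos_of_ne_zero Subgroup.index_ne_zero_of_finite
          omega
        have hmapH : H.map N.subtype = K := Subgroup.map_subgroupOf_eq_of_le hKN
        have hmapc : (⁅H, H⁆).map N.subtype = ⁅K, K⁆ := by
          rw [Subgroup.map_commutator, hmapH]
        have hrel : ⁅K, K⁆.relIndex K = ⁅H, H⁆.relIndex H := by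
          rw [← hmapc]
          conv_lhs => rw [← hmapH]
          exact Subgroup.relIndex_map_map_of_injective _ _ N.subtype_injective
        have hu' : (⁅K, K⁆.subgroupOf K).index = ⁅H, H⁆.relIndex H := hrel
        rw [hu']
        exact two_pow_lt H.index _ j he2 hdv hj hj0 hu
    · right
      have hKodd : Odd (Nat.card K) := by
        rw [hmK]
        exact Odd.pow (Nat.Prime.odd_of_ne_two hp hp2)
      have hcop : Nat.Coprime (Nat.card K) (K.subgroupOf N).index := by
        rw [hmK]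
        exact Nat.Coprime.pow_left _ hepc.symm
      subst hN
      exact (ti_facts K hTI hKodd hnil hK1 hlt hC hcop hab).2

end Main

end Cfsg.Agent.H06
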