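import Cfsg.Agent.Lib.H06.Rank2b
import Cfsg.Agent.Lib.H01.Solv2
import Cfsg.Agent.Lib.H06.CN
import Cfsg.Agent.Lib.H06.FittingHall
import Cfsg.Agent.Lib.H19.Basic
import Cfsg.Agent.Lib.H13.Basic

/-!
# Groups of odd order whose Fitting subgroup has rank at most two
-/

set_option autoImplicit false

namespace Cfsg.Agent.H06

open Cfsg
open scoped commutatorElement

universe u v

section Elements

variable {G : Type u} [Group G] [Finite G]

theorem mem_of_pow_mem_of_coprime {C : Subgroup G} {x : G} {n : ℕ} (h : x ^ n ∈ C) (hc : Nat.Coprime n (orderOf x)) :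
    x ∈ C := by
  obtain ⟨m, hm⟩ := exists_pow_eq_self_of_coprime (x := x) (n := n) hc
  rw [← hm]
  exact C.pow_mem h m

/-- A subgroup containing all powers of `y` of prime power order contains `y`. -/
theorem mem_of_primary_powers (C : Subgroup G) :
    ∀ (n : ℕ) (y : G), orderOf y = n →
      (∀ z ∈ Subgroup.zpowers y, ∀ p k : ℕ, p.Prime → orderOf z = p ^ k → z ∈ C) → y ∈ C := by
  intro n
  induction n using Nat.strong_induction_on with
  | _ n ih =>
    intro y hy h
    by_cases h1 : n = 1
    · rw [h1, orderOf_eq_one_iff] at hy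
      rw [hy]
      exact C.one_mem
    · have hpr : (n.minFac).Prime := Nat.minFac_prime h1
      haveI : Fact (n.minFac).Prime := ⟨hpr⟩
      obtain ⟨a, b, hab, -, ⟨k, hk⟩, hb, ha', hb'⟩ := H19.exists_primary_decomp (n.minFac) y
      rw [hab]
      refine C.mul_mem (h a ha' _ k hpr hk) ?_
      have hdvd : orderOf b ∣ n := by
        rw [← hy]
        exact orderOf_dvd_of_mem_zpowers hb'
      have hlt : orderOf b < n := by
        have hn0 : 0 < n := by
          rw [← hy]
          exact orderOf_pos y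
        refine lt_of_le_of_ne (Nat.le_of_dvd hn0 hdvd) ?_
        intro heq
        rw [heq] at hb
        have := Nat.Coprime.eq_one_of_dvd hb.symm (Nat.minFac_dvd n)
        exact hpr.one_lt.ne' this
      apply ih _ hlt b rfl
      intro z hz
      apply h z
      exact (Subgroup.zpowers_le.mpr hb') hz

/-- `p`-elements of the Fitting subgroup lie in `O_p(G)`. -/
theorem mem_pCore_of_mem_fitting {s l : ℕ} (hs : s.Prime) {z : G} (hz : z ∈ fittingSubgroup G)
    (ho : orderOf z = s ^ l) : z ∈ pCore s G := by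
  classical
  haveI : Fact s.Prime := ⟨hs⟩
  let X := fittingSubgroup G
  haveI hXn : X.Normal := H01.fitting_normal
  have hX : Group.IsNilpotent X := H01.fitting_nilpotent
  obtain ⟨Q₁⟩ : Nonempty (Sylow s X) := inferInstance
  have hQ₁n : (Q₁ : Subgroup X).Normal :=
    (Group.isNilpotent_of_finite_tfae (G := X)).out 0 3 rfl rfl |>.mp hX s inferInstance Q₁
  have hQ₁c : (Q₁ : Subgroup X).Characteristic := Sylow.characteristic_of_normal Q₁ hQ₁n
  have hQ₀n : ((Q₁ : Subgroup X).map X.subtype).Normal := inferInstance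
  have hQ₀p : IsPGroup s ((Q₁ : Subgroup X).map X.subtype) := Q₁.isPGroup'.map _
  apply H01.le_pCore hQ₀n hQ₀p
  refine ⟨⟨z, hz⟩, ?_, rfl⟩
  exact H19.mem_sylow_of_normal (k := l) (by rw [Subgroup.orderOf_mk]; exact ho) Q₁ hQ₁n

theorem normal_of_commutator_le {K : Subgroup G} (h : commutator G ≤ K) : K.Normal := by
  refine ⟨fun s hs g => ?_⟩
  have h1 : g * s * g⁻¹ = ⁅g, s⁆ * s := by
    rw [commutatorElement_def]
    group
  rw [h1]
  refine K.mul_mem (h ?_) hs
  rw [commutator_def]
  exact Subgroup.commutator_mem_commutator (Subgroup.mem_top _) (Subgroup.mem_top _)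

variable [Group.IsSolvable G]

/-- Step one: prime power elements of the derived group lie in the Fitting subgroup. -/
theorem p_elt_mem_fitting
    (hA : ∀ s : ℕ, s.Prime → ∀ x ∈ commutator G, ∃ k : ℕ, x ^ (s ^ k) ∈ Subgroup.centralizer (pCore s G : Set G))
    {p k : ℕ} (hp : p.Prime) {x : G} (hx : x ∈ commutator G) (ho : orderOf x = p ^ k) :
    x ∈ fittingSubgroup G := by
  classical
  haveI : Fact p.Prime := ⟨hp⟩
  let M : Subgroup G := commutator G ⊓
    ⨅ s : {s : ℕ // s.Prime ∧ s ≠ p}, Subgroup.centralizer (pCore s.1 G : Set G)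
  have hMmem : ∀ y, y ∈ M ↔ y ∈ commutator G ∧ ∀ s : ℕ, s.Prime → s ≠ p →
      y ∈ Subgroup.centralizer (pCore s G : Set G) := by
    intro y
    rw [Subgroup.mem_inf, Subgroup.mem_iInf]
    constructor
    · rintro ⟨h1, h2⟩
      exact ⟨h1, fun s hs hsp => h2 ⟨s, hs, hsp⟩⟩
    · rintro ⟨h1, h2⟩
      exact ⟨h1, fun s => h2 s.1 s.2.1 s.2.2⟩
  have hMn : M.Normal := by
    refine ⟨fun y hy g => ?_⟩
    rw [hMmem] at hy ⊢
    refine ⟨(inferInstance : (commutator G).Normal).conj_mem y hy.1 g, fun s hs hsp => ?_⟩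
    haveI hNs : (pCore s G).Normal := H01.pCore_normal s
    exact (H01.centralizer_normal hNs).conj_mem y (hy.2 s hs hsp) g
  have hxM : x ∈ M := by
    rw [hMmem]
    refine ⟨hx, fun s hs hsp => ?_⟩
    obtain ⟨l, hl⟩ := hA s hs x hx
    apply mem_of_pow_mem_of_coprime hl
    rw [ho]
    exact Nat.Coprime.pow _ _ ((Nat.coprime_primes hs hp).mpr hsp)
  have hcent : ∀ y ∈ M, (orderOf y).Coprime p → ∀ m ∈ M, y * m = m * y := by
    intro y hy hyc m hm
    have hy' := (hMmem y).mp hy
    have hm' := (hMmem m).mp hm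
    have hyp : y ∈ Subgroup.centralizer (pCore p G : Set G) := by
      obtain ⟨l, hl⟩ := hA p hp y hy'.1
      apply mem_of_pow_mem_of_coprime hl
      exact Nat.Coprime.pow_left _ hyc.symm
    have hyF : y ∈ fittingSubgroup G := by
      apply H01.centralizer_fitting_le
      rw [Subgroup.mem_centralizer_iff]
      have hle : fittingSubgroup G ≤ Subgroup.centralizer ({y} : Set G) := by
        rw [H01.fitting_eq_iSup_pCore]
        apply iSup_le
        rintro ⟨r, hr⟩
        intro z hz
        rw [Subgroup.mem_centralizer_singleton_iff]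
        have hyr : y ∈ Subgroup.centralizer (pCore r G : Set G) := by
          by_cases hrp : r = p
          · rw [hrp]
            exact hyp
          · exact hy'.2 r hr hrp
        exact (Subgroup.mem_centralizer_iff.mp hyr z hz)
      intro z hz
      exact (Subgroup.mem_centralizer_singleton_iff.mp (hle hz))
    have hmem : y ∈ Subgroup.centralizer ({m} : Set G) := by
      apply mem_of_primary_powers _ _ y rfl
      intro z hz s j hs hj
      by_cases hz1 : z = 1
      · rw [hz1]
        exact Subgroup.one_mem _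
      have hj0 : j ≠ 0 := by
        rintro rfl
        rw [pow_zero, orderOf_eq_one_iff] at hj
        exact hz1 hj
      have hsp : s ≠ p := by
        rintro rfl
        have h1 : orderOf z ∣ orderOf y := orderOf_dvd_of_mem_zpowers hz
        have h2 : s ∣ orderOf z := by
          rw [hj]
          exact dvd_pow_self s hj0
        have := Nat.Coprime.eq_one_of_dvd hyc.symm (h2.trans h1)
        exact hs.one_lt.ne' this
      have hzF : z ∈ fittingSubgroup G := (Subgroup.zpowers_le.mpr hyF) hz
      have hzO := mem_pCore_of_mem_fitting hs hzF hj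
      have := Subgroup.mem_centralizer_iff.mp (hm'.2 s hs hsp) z hzO
      rw [Subgroup.mem_centralizer_singleton_iff]
      exact this
    rw [Subgroup.mem_centralizer_singleton_iff] at hmem
    exact hmem
  -- nilpotency of `M`
  have hMnil : Group.IsNilpotent M := by
    apply of_quotient_center_nilpotent
    have hP : IsPGroup p (M ⧸ Subgroup.center M) := by
      intro w
      obtain ⟨y, rfl⟩ := QuotientGroup.mk_surjective w
      obtain ⟨a, b, hab, -, ⟨j, hj⟩, hb, -, hb'⟩ := H19.exists_primary_decomp p y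
      refine ⟨j, ?_⟩
      have hbz : b ∈ Subgroup.center M := by
        rw [Subgroup.mem_center_iff]
        intro g
        have hbo : (orderOf (b : G)).Coprime p := by
          rwa [Subgroup.orderOf_coe]
        have := hcent (b : G) b.2 hbo (g : G) g.2
        exact Subtype.ext this.symm
      have h1 : ((y : M) : M ⧸ Subgroup.center M) = ((a : M) : M ⧸ Subgroup.center M) := by
        rw [hab]
        have h2 : ((a * b : M) : M ⧸ Subgroup.center M) = (a : M ⧸ Subgroup.center M) * (b : M ⧸ Subgroup.center M) := rfl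
        rw [h2, (QuotientGroup.eq_one_iff b).mpr hbz, mul_one]
      rw [h1]
      have h3 : ((a : M) : M ⧸ Subgroup.center M) ^ (p ^ j) = ((a ^ (p ^ j) : M) : M ⧸ Subgroup.center M) := rfl
      rw [h3, ← hj, pow_orderOf_eq_one]
      rfl
    exact hP.isNilpotent
  exact H01.le_fitting hMn hMnil hxM

/-- Step two: the derived group lies in the Fitting subgroup. -/
theorem derived_le_fitting_of
    (hA : ∀ s : ℕ, s.Prime → ∀ x ∈ commutator G, ∃ k : ℕ, x ^ (s ^ k) ∈ Subgroup.centralizer (pCore s G : Set G)) :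
    commutator G ≤ fittingSubgroup G := by
  intro x hx
  apply mem_of_primary_powers _ _ x rfl
  intro z hz p k hp hk
  exact p_elt_mem_fitting hA hp ((Subgroup.zpowers_le.mpr hx) hz) hk

/-- Step three. -/
theorem normal_of_char_le_derived (hD : commutator G ≤ fittingSubgroup G) (q : ℕ) [Fact q.Prime] (S : Sylow q G)
    (T : Subgroup ↥(S : Subgroup G)) (hT : T.Characteristic)
    (hle : T.map (S : Subgroup G).subtype ≤ ⁅(S : Subgroup G), (S : Subgroup G)⁆) :
    (T.map (S : Subgroup G).subtype).Normal := by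
  classical
  have hqq : q.Prime := Fact.out
  set T' := T.map (S : Subgroup G).subtype with hT'
  have hDnil : Group.IsNilpotent (commutator G) := nilpotent_of_le hD H01.fitting_nilpotent
  have hTG : T' ≤ commutator G := hle.trans (by
    rw [commutator_def]
    exact Subgroup.commutator_mono le_top le_top)
  have hTS : T' ≤ (S : Subgroup G) := by
    rintro _ ⟨u, -, rfl⟩
    exact u.2
  -- normalizer of `S`
  have hnS : ∀ n ∈ Subgroup.normalizer ((S : Subgroup G) : Set G), ∀ t ∈ T', n * t * n⁻¹ ∈ T' := by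
    intro n hn t ht
    obtain ⟨u, hu, rfl⟩ := ht
    let ψ : MulAut ↥(S : Subgroup G) := (S : Subgroup G).normalizerMonoidHom ⟨n, hn⟩
    have h1 : ψ u ∈ T := by
      have := Subgroup.ext_iff.mp (hT.fixed ψ) u
      exact this.mpr hu
    exact ⟨ψ u, h1, rfl⟩
  -- the derived group
  have hnD : ∀ c ∈ commutator G, ∀ t ∈ T', c * t * c⁻¹ ∈ T' := by
    intro c hc t ht
    obtain ⟨a, b, hab, -, ⟨j, hj⟩, hb, ha', hb'⟩ := H19.exists_primary_decomp q c
    have haD : a ∈ commutator G := (Subgroup.zpowers_le.mpr hc) ha'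
    have hbD : b ∈ commutator G := (Subgroup.zpowers_le.mpr hc) hb'
    have haF := hD haD
    have haO := mem_pCore_of_mem_fitting hqq haF hj
    have haS : a ∈ (S : Subgroup G) := H01.pCore_le_sylow q S haO
    have htS := hTS ht
    obtain ⟨e, he⟩ := S.isPGroup' ⟨t, htS⟩
    have he' : t ^ (q ^ e) = 1 := congrArg Subtype.val he
    have hcop : (orderOf b).Coprime (orderOf t) :=
      Nat.Coprime.coprime_dvd_right (orderOf_dvd_of_pow_eq_one he') (Nat.Coprime.pow_right _ hb)
    have hbt : b * t = t * b := commute_of_coprime_order_sub hDnil hbD (hTG ht) hcop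
    have hEq : c * t * c⁻¹ = a * t * a⁻¹ := by
      rw [hab]
      calc a * b * t * (a * b)⁻¹ = a * (b * t) * b⁻¹ * a⁻¹ := by group
        _ = a * (t * b) * b⁻¹ * a⁻¹ := by rw [hbt]
        _ = a * t * a⁻¹ := by group
    rw [hEq]
    exact hnS a (Subgroup.le_normalizer haS) t ht
  -- Frattini
  let K : Subgroup G := commutator G ⊔ (S : Subgroup G)
  haveI hKn : K.Normal := normal_of_commutator_le le_sup_left
  have hfr := Sylow.normalizer_sup_eq_top' (N := K) S (le_sup_right : (S : Subgroup G) ≤ K)
  have hfr2 : commutator G ⊔ Subgroup.normalizer ((S : Subgroup G) : Set G) = ⊤ := by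
    rw [eq_top_iff, ← hfr]
    apply sup_le le_sup_right
    apply sup_le le_sup_left
    exact Subgroup.le_normalizer.trans le_sup_right
  refine ⟨fun t ht g => ?_⟩
  have hg : g ∈ commutator G ⊔ Subgroup.normalizer ((S : Subgroup G) : Set G) := by
    rw [hfr2]
    trivial
  rw [← SetLike.mem_coe, Subgroup.normal_mul, Set.mem_mul] at hg
  obtain ⟨c, hc, n, hn, rfl⟩ := hg
  have h1 := hnS n hn t ht
  have h2 := hnD c hc _ h1
  have h3 : c * n * t * (c * n)⁻¹ = c * (n * t * n⁻¹) * c⁻¹ := by group
  rw [h3]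
  exact h2

/-- Step four: the Hall subgroup for large primes. -/
theorem exists_char_hall (hD : commutator G ≤ fittingSubgroup G)
    (hB : ∀ s : ℕ, s.Prime → ∀ x : G, (∀ q : ℕ, q.Prime → q ∣ orderOf x → s < q) →
      x ∈ Subgroup.centralizer (pCore s G : Set G)) (p : ℕ) :
    ∃ N : Subgroup G, N.Characteristic ∧ IsPiHall {q | q.Prime ∧ p < q} N := by
  classical
  let E : Set G := {x | ∀ q : ℕ, q.Prime → q ∣ orderOf x → p < q}
  let N : Subgroup G := Subgroup.closure E
  have hNc : N.Characteristic := by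
    rw [Subgroup.characteristic_iff_le_comap]
    intro φ
    rw [Subgroup.closure_le]
    intro x hx
    apply Subgroup.subset_closure
    change ∀ q : ℕ, q.Prime → q ∣ orderOf (φ x) → p < q
    rw [MulEquiv.orderOf_eq]
    exact hx
  haveI hNn : N.Normal := by
    haveI := hNc
    infer_instance
  have hNcen : ∀ r : ℕ, r.Prime → r ≤ p → N ≤ Subgroup.centralizer (pCore r G : Set G) := by
    intro r hr hrp
    rw [Subgroup.closure_le]
    intro x hx
    exact hB r hr x (fun q hq hd => lt_of_le_of_lt hrp (hx q hq hd))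
  haveI hFn : (fittingSubgroup G).Normal := H01.fitting_normal
  have hNm : ∀ x ∈ N, ∃ m : ℕ, m ≠ 0 ∧ (∀ q : ℕ, q.Prime → q ∣ m → p < q) ∧ x ^ m ∈ fittingSubgroup G := by
    intro x hx
    induction hx using Subgroup.closure_induction with
    | mem x hx =>
      refine ⟨orderOf x, (orderOf_pos x).ne', hx, ?_⟩
      rw [pow_orderOf_eq_one]
      exact Subgroup.one_mem _
    | one =>
      refine ⟨1, one_ne_zero, ?_, ?_⟩
      · intro q hq hd
        exact absurd (Nat.dvd_one.mp hd) hq.one_lt.ne'
      · rw [one_pow]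
        exact Subgroup.one_mem _
    | mul x y _ _ ihx ihy =>
      obtain ⟨a, ha, ha2, ha3⟩ := ihx
      obtain ⟨b, hb, hb2, hb3⟩ := ihy
      refine ⟨a * b, mul_ne_zero ha hb, ?_, ?_⟩
      · intro q hq hd
        rcases (Nat.Prime.dvd_mul hq).mp hd with h | h
        · exact ha2 q hq h
        · exact hb2 q hq h
      · rw [← QuotientGroup.eq_one_iff]
        have hcomm : Commute (x : G ⧸ fittingSubgroup G) (y : G ⧸ fittingSubgroup G) := by
          have h1 : ⁅x, y⁆ ∈ fittingSubgroup G := by
            apply hD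
            rw [commutator_def]
            exact Subgroup.commutator_mem_commutator (Subgroup.mem_top _) (Subgroup.mem_top _)
          have h2 : ⁅(x : G ⧸ fittingSubgroup G), (y : G ⧸ fittingSubgroup G)⁆ = 1 :=
            (QuotientGroup.eq_one_iff _).mpr h1
          exact commutatorElement_eq_one_iff_mul_comm.mp h2
        have h3 : (((x * y) ^ (a * b) : G) : G ⧸ fittingSubgroup G)
            = ((x : G ⧸ fittingSubgroup G) * (y : G ⧸ fittingSubgroup G)) ^ (a * b) := rfl
        rw [h3, hcomm.mul_pow]
        have h4 : ((x : G ⧸ fittingSubgroup G)) ^ a = 1 := (QuotientGroup.eq_one_iff _).mpr ha3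
        have h5 : ((y : G ⧸ fittingSubgroup G)) ^ b = 1 := (QuotientGroup.eq_one_iff _).mpr hb3
        rw [pow_mul, h4, one_pow, mul_comm a b, pow_mul, h5, one_pow, one_mul]
    | inv x _ ihx =>
      obtain ⟨a, ha, ha2, ha3⟩ := ihx
      refine ⟨a, ha, ha2, ?_⟩
      rw [inv_pow]
      exact Subgroup.inv_mem _ ha3
  -- no small primes
  have hnr : ∀ r : ℕ, r.Prime → r ≤ p → ¬ r ∣ Nat.card N := by
    intro r hr hrp hrd
    haveI : Fact r.Prime := ⟨hr⟩
    let P : Sylow r N := default
    have hcoprime : ∀ m : ℕ, (∀ q : ℕ, q.Prime → q ∣ m → p < q) → ∀ j : ℕ, m.Coprime (r ^ j) := by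
      intro m hm j
      apply Nat.Coprime.pow_right
      rw [Nat.coprime_comm, Nat.Prime.coprime_iff_not_dvd hr]
      intro h
      have := hm r hr h
      omega
    have hPmem : ∀ z : N, z ∈ (P : Subgroup N) → (z : G) ∈ pCore r G := by
      intro z hz
      obtain ⟨e, he⟩ := P.isPGroup' ⟨z, hz⟩
      have he' : (z : G) ^ (r ^ e) = 1 := by
        have h1 := congrArg Subtype.val (congrArg Subtype.val he)
        exact h1
      obtain ⟨i, -, hi⟩ := (Nat.dvd_prime_pow hr).mp (orderOf_dvd_of_pow_eq_one he')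
      obtain ⟨m, hm0, hm, hmF⟩ := hNm z z.2
      have hzF : (z : G) ∈ fittingSubgroup G := by
        apply mem_of_pow_mem_of_coprime hmF
        rw [hi]
        exact hcoprime m hm i
      exact mem_pCore_of_mem_fitting hr hzF hi
    have hPcen : ∀ z : N, z ∈ (P : Subgroup N) → ∀ w : N, w * z = z * w := by
      intro z hz w
      have := Subgroup.mem_centralizer_iff.mp (hNcen r hr hrp w.2) z (hPmem z hz)
      exact Subtype.ext this.symm
    have hP : Subgroup.normalizer ((P : Subgroup N) : Set N) ≤ Subgroup.centralizer ((P : Subgroup N) : Set N) := by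
      intro w _
      rw [Subgroup.mem_centralizer_iff]
      intro z hz
      exact (hPcen z hz w).symm
    let τ : N →* (P : Subgroup N) := MonoidHom.transferSylow P hP
    have hcomp : τ.ker.IsComplement' (P : Subgroup N) := MonoidHom.ker_transferSylow_isComplement' P hP
    have hEker : ∀ x (hx : x ∈ E), (⟨x, Subgroup.subset_closure hx⟩ : N) ∈ τ.ker := by
      intro x hx
      rw [MonoidHom.mem_ker]
      set u := τ ⟨x, Subgroup.subset_closure hx⟩ with hu
      have h1 : u ^ orderOf x = 1 := by
        rw [hu, ← map_pow]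
        have : (⟨x, Subgroup.subset_closure hx⟩ : N) ^ orderOf x = 1 := by
          apply Subtype.ext
          simp [pow_orderOf_eq_one]
        rw [this, map_one]
      obtain ⟨e, he⟩ := P.isPGroup' u
      have h2 : orderOf u = 1 :=
        Nat.Coprime.eq_one_of_dvd
          (Nat.Coprime.coprime_dvd_left (orderOf_dvd_of_pow_eq_one h1) (hcoprime _ hx e))
          (orderOf_dvd_of_pow_eq_one he)
      exact orderOf_eq_one_iff.mp h2
    have hker : τ.ker = ⊤ := by
      have hle : N ≤ τ.ker.map N.subtype := by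
        rw [Subgroup.closure_le]
        intro x hx
        exact ⟨⟨x, Subgroup.subset_closure hx⟩, hEker x hx, rfl⟩
      rw [eq_top_iff]
      intro w _
      obtain ⟨w', hw', hww⟩ := hle w.2
      have : w' = w := Subtype.ext hww
      rwa [← this]
    have hbot : (P : Subgroup N) = ⊥ := by
      have h1 := hcomp.disjoint
      rw [hker] at h1
      exact top_disjoint.mp h1
    have h3 := P.not_dvd_index
    rw [hbot, Subgroup.index_bot] at h3
    exact h3 hrd
  refine ⟨N, hNc, ?_, ?_⟩
  · intro q hq hd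
    refine ⟨hq, ?_⟩
    by_contra hle
    exact hnr q hq (by omega) hd
  · rintro q hq ⟨-, hpq⟩ hd
    haveI : Fact q.Prime := ⟨hq⟩
    have hdc : q ∣ Nat.card (G ⧸ N) := hd
    obtain ⟨zb, hzb⟩ := exists_prime_orderOf_dvd_card' q hdc
    obtain ⟨z, rfl⟩ := QuotientGroup.mk_surjective zb
    obtain ⟨e, m, hm, he⟩ := Nat.exists_eq_pow_mul_and_not_dvd (n := orderOf z) (orderOf_pos z).ne' q hq.ne_one
    have hw : z ^ m ∈ N := by
      apply Subgroup.subset_closure
      intro t ht htd
      have h1 : (z ^ m) ^ (q ^ e) = 1 := by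
        rw [← pow_mul, mul_comm, ← he, pow_orderOf_eq_one]
      have h2 : t ∣ q ^ e := htd.trans (orderOf_dvd_of_pow_eq_one h1)
      rw [(Nat.prime_dvd_prime_iff_eq ht hq).mp (ht.dvd_of_dvd_pow h2)]
      exact hpq
    have h3 : ((z : G ⧸ N)) ^ m = 1 := (QuotientGroup.eq_one_iff _).mpr hw
    apply hm
    rw [← hzb]
    exact orderOf_dvd_of_pow_eq_one h3

end Elements

end Cfsg.Agent.H06
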