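import Cfsg.Agent.Lib.H21.CharCore
import Cfsg.Agent.Lib.H21.CharInd
import Cfsg.Agent.Lib.H21.ModP
import Cfsg.Agent.Lib.H06.Rank2c

/-!
# Congruences for characters constant on a central subgroup of a TI Sylow subgroup
-/

set_option autoImplicit false

namespace Cfsg.Agent.H06

open Cfsg Cfsg.Agent.H21

universe u v

/-- Sums over a free action of a group: an invariant sum of algebraic integers is divisible by the
order of the group. -/
theorem sum_free_orbits {Γ : Type*} {X : Type*} [Group Γ] [Fintype Γ] [DecidableEq X] [MulAction Γ X]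
    (f : X → ℂ) : ∀ s : Finset X, (∀ γ : Γ, ∀ x ∈ s, γ • x ∈ s) → (∀ x ∈ s, ∀ γ : Γ, γ • x = x → γ = 1) →
    (∀ γ : Γ, ∀ x ∈ s, f (γ • x) = f x) → (∀ x ∈ s, IsIntegral ℤ (f x)) →
    ∃ A : ℂ, IsIntegral ℤ A ∧ ∑ x ∈ s, f x = (Fintype.card Γ : ℂ) * A := by
  classical
  intro s
  induction s using Finset.strongInduction with
  | H s ih =>
    intro hinv hfree hf hint
    rcases s.eq_empty_or_nonempty with rfl | ⟨a, ha⟩
    · exact ⟨0, isIntegral_zero, by simp⟩
    · let O : Finset X := Finset.univ.image (fun γ : Γ => γ • a)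
      have hOs : O ⊆ s := by
        intro x hx
        obtain ⟨γ, _, rfl⟩ := Finset.mem_image.mp hx
        exact hinv γ a ha
      have hinj : Function.Injective (fun γ : Γ => γ • a) := by
        intro γ δ h
        have h0 : γ • a = δ • a := h
        have h2 : (δ⁻¹ * γ) • a = a := by rw [mul_smul, h0, inv_smul_smul]
        have h3 := hfree a ha _ h2
        rw [inv_mul_eq_one] at h3
        exact h3.symm
      have hOsum : ∑ x ∈ O, f x = (Fintype.card Γ : ℂ) * f a := by
        rw [Finset.sum_image (fun x _ y _ h => hinj h)]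
        rw [Finset.sum_congr rfl (fun γ _ => hf γ a ha)]
        simp [Finset.sum_const, Finset.card_univ]
      have hsub : s \ O ⊂ s := by
        refine Finset.ssubset_iff_subset_ne.mpr ⟨Finset.sdiff_subset, ?_⟩
        intro h
        have h1 : a ∈ s \ O := by rw [h]; exact ha
        have h2 : a ∈ O := Finset.mem_image.mpr ⟨1, Finset.mem_univ _, one_smul _ _⟩
        exact (Finset.mem_sdiff.mp h1).2 h2
      have hinv' : ∀ γ : Γ, ∀ x ∈ s \ O, γ • x ∈ s \ O := by
        intro γ x hx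
        obtain ⟨h1, h2⟩ := Finset.mem_sdiff.mp hx
        refine Finset.mem_sdiff.mpr ⟨hinv γ x h1, fun h3 => h2 ?_⟩
        obtain ⟨δ, _, hδ⟩ := Finset.mem_image.mp h3
        refine Finset.mem_image.mpr ⟨γ⁻¹ * δ, Finset.mem_univ _, ?_⟩
        rw [mul_smul]
        show γ⁻¹ • (δ • a) = x
        have hδ' : δ • a = γ • x := hδ
        rw [hδ', inv_smul_smul]
      obtain ⟨A, hA, hAs⟩ := ih (s \ O) hsub hinv'
        (fun x hx => hfree x (Finset.mem_sdiff.mp hx).1)
        (fun γ x hx => hf γ x (Finset.mem_sdiff.mp hx).1)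
        (fun x hx => hint x (Finset.mem_sdiff.mp hx).1)
      refine ⟨f a + A, (hint a ha).add hA, ?_⟩
      rw [← Finset.sum_sdiff hOs, hAs, hOsum]
      ring

section Scalar

variable {G : Type u} [Group G] [Fintype G]

/-- The scalar formula: class sums act on irreducible representations as scalars. -/
theorem irr_sum_conj_mul {ψ : G → ℂ} (hψ : IsIrrCharacter G ψ) (x y : G) :
    ψ 1 * ∑ t : G, ψ (x * (t * y * t⁻¹)) = (Nat.card G : ℂ) * ψ x * ψ y := by
  classical
  obtain ⟨n, ρ, hρ, rfl⟩ := hψ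
  let T : Module.End ℂ (Fin n → ℂ) := ∑ t : G, ρ (t * y * t⁻¹)
  have hcomm : ∀ g, T ∘ₗ ρ g = ρ g ∘ₗ T := by
    intro g
    change T * ρ g = ρ g * T
    simp only [T]
    rw [Finset.sum_mul, Finset.mul_sum]
    refine Fintype.sum_equiv (Equiv.mulLeft g⁻¹) _ _ ?_
    intro t
    rw [← map_mul, ← map_mul]
    congr 1
    simp only [Equiv.coe_mulLeft]
    group
  obtain ⟨c, hc⟩ := schur_scalar ρ hρ T hcomm
  have hconj : ∀ t : G, ρ.character (t * y * t⁻¹) = ρ.character y := fun t => ρ.char_conj y t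
  have h1 : LinearMap.trace ℂ _ T = (Nat.card G : ℂ) * ρ.character y := by
    simp only [T, map_sum]
    have : ∀ t : G, LinearMap.trace ℂ (Fin n → ℂ) (ρ (t * y * t⁻¹)) = ρ.character y := fun t => hconj t
    rw [Finset.sum_congr rfl (fun t _ => this t)]
    simp [Finset.sum_const, Finset.card_univ, Nat.card_eq_fintype_card]
  have hone : ρ.character 1 = LinearMap.trace ℂ (Fin n → ℂ) (1 : Module.End ℂ (Fin n → ℂ)) := by
    rw [Representation.char_one]
    simp
  have h2 : LinearMap.trace ℂ _ T = c * ρ.character 1 := by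
    rw [hc, map_smul, hone, smul_eq_mul]
  have h3 : ∑ t : G, ρ.character (x * (t * y * t⁻¹)) = c * ρ.character x := by
    have h4 : ∀ t : G, ρ.character (x * (t * y * t⁻¹)) =
        LinearMap.trace ℂ (Fin n → ℂ) (ρ x * ρ (t * y * t⁻¹)) := by
      intro t
      rw [← map_mul]
      rfl
    rw [Finset.sum_congr rfl (fun t _ => h4 t), ← map_sum, ← Finset.mul_sum]
    change LinearMap.trace ℂ (Fin n → ℂ) (ρ x * T) = _
    rw [hc, mul_smul_comm, mul_one, map_smul, smul_eq_mul]
    rfl
  rw [h3]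
  calc ρ.character 1 * (c * ρ.character x) = (c * ρ.character 1) * ρ.character x := by ring
    _ = (Nat.card G : ℂ) * ρ.character x * ρ.character y := by
        rw [← h2, h1]
        ring

/-- A character constant on the nontrivial powers of an element takes an integer value there. -/
theorem val_int_of_const {ψ : G → ℂ} (hψ : IsCharacter G ψ) {z : G} (hz1 : z ≠ 1)
    (hconst : ∀ h ∈ Subgroup.zpowers z, h ≠ 1 → ψ h = ψ z) : ∃ n : ℤ, ψ z = n := by
  classical
  let H := Subgroup.zpowers z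
  have hχ : IsCharacter H (fun x : H => ψ x) := isCharacter_restrict H hψ
  obtain ⟨a, ha⟩ := classInner_isCharacter_nat hχ (isCharacter_one (G := H))
  have ho : (Nat.card H : ℂ) ≠ 0 := by
    simp [Nat.card_pos.ne']
  have hsum : ∑ h : H, ψ (h : G) = (Nat.card H : ℂ) * ψ z + (ψ 1 - ψ z) := by
    have h1 : ∀ h : H, ψ (h : G) = ψ z + (if h = 1 then ψ 1 - ψ z else 0) := by
      intro h
      by_cases hh : h = 1
      · rw [if_pos hh, hh]
        simp
      · rw [if_neg hh, add_zero]
        exact hconst h h.2 (fun h' => hh (Subtype.ext h'))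
    rw [Finset.sum_congr rfl (fun h _ => h1 h), Finset.sum_add_distrib]
    simp [Finset.sum_const, Finset.card_univ, Nat.card_eq_fintype_card]
  have h2 : (a : ℂ) * (Nat.card H : ℂ) = (Nat.card H : ℂ) * ψ z + (ψ 1 - ψ z) := by
    rw [← hsum, ← ha]
    unfold classInner
    simp only [map_one, mul_one]
    field_simp
  obtain ⟨d, hd1, _⟩ := isCharacter_one_eq hψ
  have hcard : 1 < Nat.card H := by
    haveI : Nontrivial H := ⟨⟨1, ⟨z, Subgroup.mem_zpowers z⟩, fun h => hz1 (congrArg Subtype.val h).symm⟩⟩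
    exact Finite.one_lt_card
  have hne : ((Nat.card H : ℂ) - 1) ≠ 0 := by
    intro h
    have h3 : (Nat.card H : ℂ) = 1 := by linear_combination h
    have h4 : Nat.card H = 1 := by exact_mod_cast h3
    omega
  have h5 : ψ z = (((a : ℚ) * Nat.card H - d) / ((Nat.card H : ℚ) - 1) : ℚ) := by
    push_cast
    rw [eq_div_iff hne]
    rw [hd1] at h2
    linear_combination -h2
  obtain ⟨n, hn⟩ := isInt_of_isIntegral_rat _ (h5 ▸ isCharacter_isIntegral hψ z)
  refine ⟨n, ?_⟩
  rw [h5, hn]
  simp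

end Scalar

/-- **A congruence modulo the order of a TI Sylow subgroup.** -/
theorem congr_of_const {G : Type u} [Group G] [Fintype G] (p : ℕ) [Fact p.Prime] (P : Sylow p G)
    (hTI : IsTISubset ((P : Subgroup G) : Set G))
    (hodd : Odd (Nat.card (Subgroup.normalizer ((P : Subgroup G) : Set G)))) (Z : Subgroup G)
    (hZP : Z ≤ P) (hZn : ∀ x ∈ Subgroup.normalizer ((P : Subgroup G) : Set G), ∀ z ∈ Z, x * z * x⁻¹ ∈ Z)
    (hZc : ∀ z ∈ Z, ∀ y ∈ (P : Subgroup G), z * y = y * z) (ψ : G → ℂ) (hψ : IsIrrCharacter G ψ)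
    (hconst : ∀ z ∈ Z, ∀ z' ∈ Z, z ≠ 1 → z' ≠ 1 → ψ z = ψ z') (z : G) (hz : z ∈ Z) (hz1 : z ≠ 1) :
    ∃ n d : ℤ, ψ z = n ∧ ψ 1 = d ∧ (Nat.card (P : Subgroup G) : ℤ) ∣ d - n := by
  classical
  have hpp : p.Prime := Fact.out
  have hψc : IsCharacter G ψ := isCharacter_of_irr hψ
  let Lset := Subgroup.normalizer ((P : Subgroup G) : Set G)
  have hPL : (P : Subgroup G) ≤ Lset := Subgroup.le_normalizer
  have hzP : z ∈ (P : Subgroup G) := hZP hz
  have hzL : z ∈ Lset := hPL hzP
  let C := Subgroup.centralizer ({z} : Set G)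
  have hzinv : ψ z⁻¹ = ψ z := hconst _ (Z.inv_mem hz) _ hz (by simpa using hz1) hz1
  have hCL : C ≤ Lset := by
    intro g hg
    by_contra hgL
    have h1 : g * z * g⁻¹ = z := by
      have := Subgroup.mem_centralizer_singleton_iff.mp hg
      rw [this]
      group
    exact hz1 (hTI g hgL z hzP (by rw [h1]; exact hzP))
  -- no element of `L` inverts `z`
  have hnotinv : ∀ t ∈ Lset, t * z * t⁻¹ ≠ z⁻¹ := by
    intro t ht h
    have htodd : Odd (orderOf t) := by
      have h1 : orderOf (⟨t, ht⟩ : Lset) ∣ Nat.card Lset := orderOf_dvd_natCard _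
      have h2 : orderOf (⟨t, ht⟩ : Lset) = orderOf t := Subgroup.orderOf_mk t ht
      rw [h2] at h1
      exact Odd.of_dvd_nat hodd h1
    have ht2 : t ^ 2 ∈ C := by
      rw [Subgroup.mem_centralizer_singleton_iff, sq]
      have h1 : t * (t * z * t⁻¹) * t⁻¹ = t * z⁻¹ * t⁻¹ := by rw [h]
      have h2 : t * z⁻¹ * t⁻¹ = (t * z * t⁻¹)⁻¹ := by group
      rw [h2, h, inv_inv] at h1
      calc t * t * z = (t * (t * z * t⁻¹) * t⁻¹) * (t * t) := by group
        _ = z * (t * t) := by rw [h, h1]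
    have htC : t ∈ C := by
      refine mem_of_pow_mem_of_coprime ht2 ?_
      exact Nat.coprime_two_left.mpr htodd
    have h3 : z = z⁻¹ := by
      rw [← h]
      have := Subgroup.mem_centralizer_singleton_iff.mp htC
      rw [this]
      group
    have hzz : z ^ 2 = 1 := by
      rw [sq]
      nth_rewrite 2 [h3]
      group
    have hzodd : Odd (orderOf z) := by
      have h1 : orderOf (⟨z, hzL⟩ : Lset) ∣ Nat.card Lset := orderOf_dvd_natCard _
      have h2 : orderOf (⟨z, hzL⟩ : Lset) = orderOf z := Subgroup.orderOf_mk z hzL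
      rw [h2] at h1
      exact Odd.of_dvd_nat hodd h1
    have h4 : orderOf z ∣ 2 := orderOf_dvd_of_pow_eq_one hzz
    have h5 := Nat.Coprime.eq_one_of_dvd (Nat.coprime_two_right.mpr hzodd) h4
    exact hz1 (orderOf_eq_one_iff.mp h5)
  -- the function
  let F : G → G → ℂ := fun y t => ψ (z * (t * y * t⁻¹))
  let Δ : G → ℂ := fun t => F z⁻¹ t - F z t
  have hΔsum : ∑ t : G, Δ t = 0 := by
    have h1 := irr_sum_conj_mul hψ z z
    have h2 := irr_sum_conj_mul hψ z z⁻¹
    rw [hzinv] at h2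
    have hd : ψ 1 ≠ 0 := by
      rw [one_eq_charDegree hψc]
      exact_mod_cast (irr_charDegree_pos hψ).ne'
    have h3 : ψ 1 * (∑ t : G, Δ t) = 0 := by
      simp only [Δ, F, Finset.sum_sub_distrib, mul_sub]
      rw [h1, h2, sub_self]
    exact (mul_eq_zero.mp h3).resolve_left hd
  set v : ℂ := ψ 1 - ψ z with hv
  -- values on `L`
  have hΔL : ∀ t ∈ Lset, Δ t = if t ∈ C then v else 0 := by
    intro t ht
    have hmem : ∀ y ∈ Z, z * (t * y * t⁻¹) ∈ Z := fun y hy => Z.mul_mem hz (hZn t ht y hy)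
    have h1 : F z t = ψ z := by
      refine hconst _ (hmem z hz) _ hz ?_ hz1
      intro h
      exact hnotinv t ht (eq_inv_of_mul_eq_one_right h)
    by_cases htC : t ∈ C
    · rw [if_pos htC]
      have hc := Subgroup.mem_centralizer_singleton_iff.mp htC
      have h2 : z * (t * z⁻¹ * t⁻¹) = 1 := by
        rw [show t * z⁻¹ * t⁻¹ = (t * z * t⁻¹)⁻¹ by group, hc]
        group
      show F z⁻¹ t - F z t = v
      rw [h1]
      show ψ (z * (t * z⁻¹ * t⁻¹)) - ψ z = v
      rw [h2]
    · rw [if_neg htC]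
      have h2 : F z⁻¹ t = ψ z := by
        refine hconst _ (hmem z⁻¹ (Z.inv_mem hz)) _ hz ?_ hz1
        intro h
        apply htC
        rw [Subgroup.mem_centralizer_singleton_iff]
        have h3 : t * z⁻¹ * t⁻¹ = z⁻¹ := eq_inv_of_mul_eq_one_right h
        have h4 : t * z * t⁻¹ = z := by
          have h5 : t * z * t⁻¹ = (t * z⁻¹ * t⁻¹)⁻¹ := by group
          rw [h5, h3, inv_inv]
        rw [mul_inv_eq_iff_eq_mul] at h4
        exact h4
      show F z⁻¹ t - F z t = 0
      rw [h1, h2, sub_self]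
  -- the action
  letI act : MulAction (↥(P : Subgroup G) × ↥C) G :=
    { smul := fun g t => (g.1 : G) * t * (g.2 : G)⁻¹
      one_smul := fun t => by
        show ((1 : ↥(P : Subgroup G)) : G) * t * ((1 : ↥C) : G)⁻¹ = t
        simp
      mul_smul := fun a b t => by
        show ((a.1 * b.1 : ↥(P : Subgroup G)) : G) * t * ((a.2 * b.2 : ↥C) : G)⁻¹ =
          (a.1 : G) * ((b.1 : G) * t * (b.2 : G)⁻¹) * (a.2 : G)⁻¹
        simp only [Subgroup.coe_mul, mul_inv_rev]
        group }
  have hsmul : ∀ (g : ↥(P : Subgroup G) × ↥C) (t : G), g • t = (g.1 : G) * t * (g.2 : G)⁻¹ := fun _ _ => rfl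
  let s : Finset G := Finset.univ.filter (fun t => t ∉ Lset)
  have hs : ∀ t, t ∈ s ↔ t ∉ Lset := fun t => by simp [s]
  have hFinv : ∀ y : G, (∀ c ∈ C, c * y = y * c) → ∀ x ∈ (P : Subgroup G), ∀ c ∈ C, ∀ t : G,
      F y (x * t * c⁻¹) = F y t := by
    intro y hy x hx c hc t
    show ψ (z * (x * t * c⁻¹ * y * (x * t * c⁻¹)⁻¹)) = ψ (z * (t * y * t⁻¹))
    have h1 : c⁻¹ * y = y * c⁻¹ := by
      have := hy c hc
      calc c⁻¹ * y = c⁻¹ * (y * c) * c⁻¹ := by group
        _ = c⁻¹ * (c * y) * c⁻¹ := by rw [this]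
        _ = y * c⁻¹ := by group
    have h2 : z * x = x * z := hZc z hz x hx
    have h3 : z * (x * t * c⁻¹ * y * (x * t * c⁻¹)⁻¹) = x * (z * (t * y * t⁻¹)) * x⁻¹ := by
      have h4 : x * t * c⁻¹ * y * (x * t * c⁻¹)⁻¹ = x * t * (c⁻¹ * y) * c * t⁻¹ * x⁻¹ := by group
      rw [h4, h1]
      have h5 : x * t * (y * c⁻¹) * c * t⁻¹ * x⁻¹ = x * (t * y * t⁻¹) * x⁻¹ := by group
      rw [h5]
      rw [← mul_assoc, ← mul_assoc, h2]
      group
    rw [h3]
    exact isCharacter_conj hψc _ _
  obtain ⟨A, hAint, hA⟩ := sum_free_orbits (Γ := ↥(P : Subgroup G) × ↥C) Δ s (by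
      rintro ⟨x, c⟩ t ht
      rw [hs] at ht ⊢
      rw [hsmul]
      intro hmem
      apply ht
      have h1 : t = (x : G)⁻¹ * ((x : G) * t * (c : G)⁻¹) * (c : G) := by group
      rw [h1]
      exact Lset.mul_mem (Lset.mul_mem (Lset.inv_mem (hPL x.2)) hmem) (hCL c.2))
    (by
      rintro t ht ⟨x, c⟩ h
      rw [hs] at ht
      rw [hsmul] at h
      have h1 : (c : G) = t⁻¹ * (x : G) * t := by
        have h2 : (x : G) * t = t * (c : G) := by
          calc (x : G) * t = ((x : G) * t * (c : G)⁻¹) * (c : G) := by group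
            _ = t * (c : G) := by rw [h]
        rw [mul_assoc, h2]
        group
      -- `c` is a `p`-element of the normalizer
      have hcP : (c : G) ∈ (P : Subgroup G) := by
        have hcp : IsPGroup p (Subgroup.zpowers (c : G)) := by
          obtain ⟨k, hk⟩ := P.isPGroup' x
          have hxk : (x : G) ^ (p ^ k) = 1 := by
            have := congrArg Subtype.val hk
            simpa using this
          have hck : (c : G) ^ (p ^ k) = 1 := by
            rw [h1]
            have h := conj_pow (a := t⁻¹) (b := (x : G)) (i := p ^ k)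
            rw [inv_inv] at h
            rw [h, hxk]
            group
          obtain ⟨j, _, hj⟩ := (Nat.dvd_prime_pow hpp).mp (orderOf_dvd_of_pow_eq_one hck)
          exact IsPGroup.of_card (n := j) (by rw [Nat.card_zpowers, hj])
        have hle : Subgroup.zpowers (c : G) ≤ Subgroup.normalizer ((P : Subgroup G) : Set G) :=
          Subgroup.zpowers_le.mpr (hCL c.2)
        have h2 := IsPGroup.to_sup_of_normal_right' hcp P.isPGroup' hle
        have h3 := P.is_maximal' h2 le_sup_right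
        rw [← h3]
        exact (le_sup_left : Subgroup.zpowers (c : G) ≤ _) (Subgroup.mem_zpowers _)
      have hc1 : (c : G) = 1 := by
        refine hTI t ht _ hcP ?_
        have h2 : t * (c : G) * t⁻¹ = x := by
          rw [h1]
          group
        rw [h2]
        exact x.2
      have hx1 : (x : G) = 1 := by
        rw [hc1] at h1
        have h2 : (x : G) = t * 1 * t⁻¹ := by
          rw [h1]
          group
        simpa using h2
      exact Prod.ext (Subtype.ext hx1) (Subtype.ext hc1))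
    (by
      rintro ⟨x, c⟩ t _
      rw [hsmul]
      show F z⁻¹ _ - F z _ = F z⁻¹ t - F z t
      rw [hFinv z⁻¹ (fun c hc => ?_) x x.2 c c.2 t, hFinv z (fun c hc => ?_) x x.2 c c.2 t]
      · exact Subgroup.mem_centralizer_singleton_iff.mp hc
      · have := Subgroup.mem_centralizer_singleton_iff.mp hc
        calc c * z⁻¹ = z⁻¹ * (z * c) * z⁻¹ := by group
          _ = z⁻¹ * (c * z) * z⁻¹ := by rw [this]
          _ = z⁻¹ * c := by group)
    (by
      intro t _
      exact (isCharacter_isIntegral hψc _).sub (isCharacter_isIntegral hψc _))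
  -- the sum over `L`
  have hsplit := Finset.sum_filter_add_sum_filter_not Finset.univ (fun t => t ∉ Lset) Δ
  have hL : ∑ t ∈ Finset.univ.filter (fun t => ¬ t ∉ Lset), Δ t = (Nat.card C : ℂ) * v := by
    rw [Finset.sum_filter]
    have h1 : ∀ t : G, (if ¬ t ∉ Lset then Δ t else 0) = if t ∈ C then v else 0 := by
      intro t
      by_cases ht : t ∈ Lset
      · rw [if_pos (not_not.mpr ht)]
        exact hΔL t ht
      · rw [if_neg (not_not.not.mpr ht), if_neg (fun h => ht (hCL h))]
    rw [Finset.sum_congr rfl (fun t _ => h1 t), ← Finset.sum_filter, Finset.sum_const]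
    rw [Nat.card_eq_fintype_card, Fintype.card_subtype, nsmul_eq_mul]
  have hmain : (Nat.card (P : Subgroup G) : ℂ) * (Nat.card C : ℂ) * A + (Nat.card C : ℂ) * v = 0 := by
    have h1 : ∑ t ∈ s, Δ t = _ := hA
    rw [← hΔsum, ← hsplit, hL]
    congr 1
    rw [show (Finset.univ.filter fun t => t ∉ Lset) = s from rfl, h1, Fintype.card_prod]
    simp [Nat.card_eq_fintype_card]
  have hC0 : (Nat.card C : ℂ) ≠ 0 := by simp [Nat.card_pos.ne']
  have hvA : v = - ((Nat.card (P : Subgroup G) : ℂ) * A) := by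
    apply mul_left_cancel₀ hC0
    linear_combination hmain
  obtain ⟨n, hn⟩ := val_int_of_const hψc hz1 (fun h hh hh1 =>
    hconst h ((Subgroup.zpowers_le.mpr hz) hh) z hz hh1 hz1)
  obtain ⟨d, hd, _⟩ := isCharacter_one_eq hψc
  refine ⟨n, d, hn, by simp [hd], ?_⟩
  have hP0 : (Nat.card (P : Subgroup G) : ℂ) ≠ 0 := by simp [Nat.card_pos.ne']
  have hq : ((((d : ℤ) - n : ℤ) : ℚ) / (Nat.card (P : Subgroup G) : ℚ) : ℚ) = (-A : ℂ) := by
    push_cast
    rw [div_eq_iff hP0]
    have : (d : ℂ) - (n : ℂ) = v := by rw [hv, hd, hn]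
    rw [this, hvA]
    ring
  obtain ⟨m, hm⟩ := isInt_of_isIntegral_rat (((((d : ℤ) - n : ℤ) : ℚ) / (Nat.card (P : Subgroup G) : ℚ) : ℚ)) (by
    rw [hq]
    exact hAint.neg)
  refine ⟨m, ?_⟩
  have hP0' : (Nat.card (P : Subgroup G) : ℚ) ≠ 0 := by simp [Nat.card_pos.ne']
  rw [div_eq_iff hP0'] at hm
  have : (((d : ℤ) - n : ℤ) : ℚ) = (((Nat.card (P : Subgroup G) : ℤ) * m : ℤ) : ℚ) := by
    rw [hm]
    push_cast
    ring
  exact_mod_cast this

end Cfsg.Agent.H06
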