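import Cfsg.Agent.Lib.H06.CoherZ
import Cfsg.Agent.Lib.H06.CoherFrob
import Cfsg.Agent.Lib.H06.CharGallagher
import Cfsg.Agent.Lib.H06.CharClifford
import Cfsg.Agent.Lib.H22.Degree
import Cfsg.Agent.Lib.H19.Basic
import Cfsg.Agent.S1517

/-!
# Coherence of the characters nontrivial on a central subgroup
-/

set_option autoImplicit false

namespace Cfsg.Agent.H06

open Cfsg Cfsg.Agent.H21
open scoped ComplexConjugate

universe u v

section Block

variable {X : Type u} [Group X] [Fintype X] [Fintype (IrrCharacter X)]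

/-- Having the same central character on `A`. -/
def SameCentral (A : Subgroup X) (θ₁ θ : X → ℂ) : Prop := ∀ a ∈ A, θ a * θ₁ 1 = θ₁ a * θ 1

open Classical in
/-- The sum of the squares of the degrees of the irreducible characters above a given central
character. -/
theorem sum_block (A : Subgroup X) (hA : A ≤ Subgroup.center X) {θ₁ : X → ℂ} (hθ₁ : IsIrrCharacter X θ₁) :
    (∑ θ ∈ Finset.univ.filter (fun θ : IrrCharacter X => SameCentral A θ₁ θ.1), charDegree θ.1 ^ 2) *
      Nat.card A = Nat.card X := by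
  classical
  haveI : Fintype A := Fintype.ofFinite _
  have hd₁ : θ₁ 1 = (charDegree θ₁ : ℂ) := one_eq_charDegree (isCharacter_of_irr hθ₁)
  have hd₁0 : (charDegree θ₁ : ℂ) ≠ 0 := by exact_mod_cast (irr_charDegree_pos hθ₁).ne'
  let ℓ₁ : A → ℂ := fun a => θ₁ a / (charDegree θ₁ : ℂ)
  have hℓ₁norm : ∀ a : A, ‖ℓ₁ a‖ = 1 := by
    intro a
    simp only [ℓ₁, norm_div, Complex.norm_natCast]
    rw [irr_norm_central hθ₁ (hA a.2)]
    exact div_self (by exact_mod_cast (irr_charDegree_pos hθ₁).ne')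
  have hcv : ∀ a : A, ℓ₁ a * conj (ℓ₁ a) = 1 := by
    intro a
    rw [Complex.mul_conj, Complex.normSq_eq_norm_sq, hℓ₁norm a]
    simp
  have hmul : ∀ (θ : X → ℂ), IsIrrCharacter X θ → ∀ a b : A,
      θ ((a * b : A) : X) / (charDegree θ : ℂ) = (θ a / (charDegree θ : ℂ)) * (θ b / (charDegree θ : ℂ)) := by
    intro θ hθ a b
    have h1 := irr_central_mul hθ (hA a.2) (b : X)
    have h0 : (charDegree θ : ℂ) ≠ 0 := by exact_mod_cast (irr_charDegree_pos hθ).ne'
    have h2 : ((a * b : A) : X) = (a : X) * (b : X) := rfl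
    rw [h2]
    field_simp
    linear_combination h1
  -- the inner sums
  have hinner : ∀ θ : IrrCharacter X, ∑ a : A, θ.1 a * conj (ℓ₁ a) =
      if SameCentral A θ₁ θ.1 then (charDegree θ.1 : ℂ) * (Nat.card A : ℂ) else 0 := by
    intro θ
    have hθ0 : (charDegree θ.1 : ℂ) ≠ 0 := by exact_mod_cast (irr_charDegree_pos θ.2).ne'
    have hf : ∀ a : A, θ.1 a * conj (ℓ₁ a) = (charDegree θ.1 : ℂ) * ((θ.1 a / (charDegree θ.1 : ℂ)) * conj (ℓ₁ a)) := by
      intro a
      field_simp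
    rw [Finset.sum_congr rfl (fun a _ => hf a), ← Finset.mul_sum]
    have hθd : θ.1 1 = (charDegree θ.1 : ℂ) := one_eq_charDegree (isCharacter_of_irr θ.2)
    by_cases hs : SameCentral A θ₁ θ.1
    · rw [if_pos hs]
      congr 1
      have h1 : ∀ a : A, (θ.1 a / (charDegree θ.1 : ℂ)) * conj (ℓ₁ a) = 1 := by
        intro a
        have h2 := hs a a.2
        rw [hd₁, hθd] at h2
        have h3 : θ.1 a / (charDegree θ.1 : ℂ) = ℓ₁ a := by
          simp only [ℓ₁]
          field_simp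
          linear_combination h2
        rw [h3, hcv a]
      rw [Finset.sum_congr rfl (fun a _ => h1 a)]
      simp [Finset.card_univ, Nat.card_eq_fintype_card]
    · rw [if_neg hs]
      have hmulf : ∀ a b : A, (θ.1 ((a * b : A) : X) / (charDegree θ.1 : ℂ)) * conj (ℓ₁ (a * b)) =
          ((θ.1 a / (charDegree θ.1 : ℂ)) * conj (ℓ₁ a)) * ((θ.1 b / (charDegree θ.1 : ℂ)) * conj (ℓ₁ b)) := by
        intro a b
        have h1 := hmul θ.1 θ.2 a b
        have h2 : ℓ₁ (a * b) = ℓ₁ a * ℓ₁ b := hmul θ₁ hθ₁ a b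
        rw [h1, h2, map_mul]
        ring
      have hne : ∃ w : A, (θ.1 w / (charDegree θ.1 : ℂ)) * conj (ℓ₁ w) ≠ 1 := by
        by_contra hcon
        push Not at hcon
        apply hs
        intro a ha
        have h1 := hcon ⟨a, ha⟩
        have h2 : θ.1 a / (charDegree θ.1 : ℂ) = ℓ₁ ⟨a, ha⟩ := by
          have h3 := hcv ⟨a, ha⟩
          have h4 : conj (ℓ₁ ⟨a, ha⟩) ≠ 0 := by
            intro h0
            rw [h0, mul_zero] at h3
            exact zero_ne_one h3
          apply mul_right_cancel₀ h4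
          rw [h1, h3]
        simp only [ℓ₁] at h2
        rw [hd₁, hθd]
        field_simp at h2
        linear_combination h2
      obtain ⟨w, hw⟩ := hne
      have h0 := Cfsg.Agent.H21.sum_mul_eq_zero
        (fun a : A => (θ.1 a / (charDegree θ.1 : ℂ)) * conj (ℓ₁ a)) hmulf hw
      rw [h0, mul_zero]
  -- the double sum
  have hT1 : ∑ θ : IrrCharacter X, (charDegree θ.1 : ℂ) * ∑ a : A, θ.1 a * conj (ℓ₁ a) =
      ((∑ θ ∈ Finset.univ.filter (fun θ : IrrCharacter X => SameCentral A θ₁ θ.1), charDegree θ.1 ^ 2) : ℕ) *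
        (Nat.card A : ℂ) := by
    rw [Finset.sum_congr rfl (fun θ _ => by rw [hinner θ])]
    push_cast
    rw [Finset.sum_mul, Finset.sum_filter]
    refine Finset.sum_congr rfl fun θ _ => ?_
    by_cases hs : SameCentral A θ₁ θ.1
    · rw [if_pos hs, if_pos hs]
      ring
    · rw [if_neg hs, if_neg hs]
      ring
  have hT2 : ∑ θ : IrrCharacter X, (charDegree θ.1 : ℂ) * ∑ a : A, θ.1 a * conj (ℓ₁ a) =
      (Nat.card X : ℂ) := by
    have h1 : ∑ θ : IrrCharacter X, (charDegree θ.1 : ℂ) * ∑ a : A, θ.1 a * conj (ℓ₁ a) =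
        ∑ a : A, conj (ℓ₁ a) * ∑ θ : IrrCharacter X, (charDegree θ.1 : ℂ) * θ.1 a := by
      simp only [Finset.mul_sum]
      rw [Finset.sum_comm]
      refine Finset.sum_congr rfl fun a _ => Finset.sum_congr rfl fun θ _ => ?_
      ring
    rw [h1, Finset.sum_eq_single (1 : A)]
    · have h2 : ∑ θ : IrrCharacter X, (charDegree θ.1 : ℂ) * θ.1 ((1 : A) : X) = (Nat.card X : ℂ) := by
        have h3 := sum_degree_sq (G := X)
        have h4 : ∀ θ : IrrCharacter X, (charDegree θ.1 : ℂ) * θ.1 ((1 : A) : X) = ((charDegree θ.1 ^ 2 : ℕ) : ℂ) := by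
          intro θ
          have : ((1 : A) : X) = 1 := rfl
          rw [this, one_eq_charDegree (isCharacter_of_irr θ.2)]
          push_cast
          ring
        rw [Finset.sum_congr rfl (fun θ _ => h4 θ), ← Nat.cast_sum, h3]
      rw [h2]
      have h5 : ℓ₁ 1 = 1 := by
        simp only [ℓ₁]
        have : ((1 : A) : X) = 1 := rfl
        rw [this, hd₁]
        exact div_self hd₁0
      rw [h5]
      simp
    · intro a _ ha
      have h6 : (a : X) ≠ 1 := fun h => ha (Subtype.ext h)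
      rw [sum_degree_mul_value_ne h6, mul_zero]
    · intro h
      exact absurd (Finset.mem_univ _) h
  rw [hT2] at hT1
  have : ((Nat.card X : ℕ) : ℂ) = (((∑ θ ∈ Finset.univ.filter (fun θ : IrrCharacter X => SameCentral A θ₁ θ.1), charDegree θ.1 ^ 2) * Nat.card A : ℕ) : ℂ) := by
    rw [hT1]
    push_cast
    rfl
  exact_mod_cast this.symm

open Classical in
/-- In a `p`-group: the characters of the block of degree smaller than a given one have a large sum of
squares of degrees. -/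
theorem block_small_sum {p m : ℕ} (hp : p.Prime) (hcard : Nat.card X = p ^ m) (A : Subgroup X)
    (hA : A ≤ Subgroup.center X) (θ₁ θ : IrrCharacter X) (hlt : charDegree θ₁.1 < charDegree θ.1) :
    charDegree θ.1 ^ 2 ≤ ∑ θ' ∈ (Finset.univ.filter (fun θ' : IrrCharacter X => SameCentral A θ₁.1 θ'.1)).filter
        (fun θ' => charDegree θ'.1 < charDegree θ.1), charDegree θ'.1 ^ 2 := by
  classical
  set B := Finset.univ.filter (fun θ' : IrrCharacter X => SameCentral A θ₁.1 θ'.1) with hB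
  have hpow : ∀ θ' : IrrCharacter X, ∃ a, charDegree θ'.1 = p ^ a := by
    intro θ'
    have h1 : charDegree θ'.1 ∣ p ^ m := hcard ▸ H22.charDegree_dvd_card θ'
    obtain ⟨a, _, ha⟩ := (Nat.dvd_prime_pow hp).mp h1
    exact ⟨a, ha⟩
  obtain ⟨b, hb⟩ := hpow θ
  have hsum := sum_block A hA θ₁.2
  rw [hcard] at hsum
  set N := ∑ θ' ∈ B, charDegree θ'.1 ^ 2 with hN
  have hNd : N ∣ p ^ m := ⟨_, hsum.symm⟩
  obtain ⟨n, _, hn⟩ := (Nat.dvd_prime_pow hp).mp hNd
  have hcen := irr_deg_sq_le_of_central θ.2 A (by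
    intro d hd g
    have h1 : d * g = g * d := (Subgroup.mem_center_iff.mp (hA hd) g).symm
    have h2 : d * g * d⁻¹ * g⁻¹ = 1 := by
      rw [h1]
      group
    rw [h2])
  rw [hcard, ← hsum] at hcen
  have hApos : 0 < Nat.card A := Nat.card_pos
  have hDN : charDegree θ.1 ^ 2 ≤ N := Nat.le_of_mul_le_mul_right hcen hApos
  have hdvdN : charDegree θ.1 ^ 2 ∣ N := by
    rw [hn, hb, ← pow_mul]
    apply pow_dvd_pow
    rw [hn, hb, ← pow_mul] at hDN
    exact (Nat.pow_le_pow_iff_right hp.one_lt).mp hDN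
  have hsplit := Finset.sum_filter_add_sum_filter_not B (fun θ' : IrrCharacter X => charDegree θ'.1 < charDegree θ.1)
    (fun θ' => charDegree θ'.1 ^ 2)
  have hbig : charDegree θ.1 ^ 2 ∣ ∑ θ' ∈ B.filter (fun θ' => ¬ charDegree θ'.1 < charDegree θ.1), charDegree θ'.1 ^ 2 := by
    apply Finset.dvd_sum
    intro θ' hθ'
    have hle : charDegree θ.1 ≤ charDegree θ'.1 := not_lt.mp (Finset.mem_filter.mp hθ').2
    obtain ⟨a, ha⟩ := hpow θ'
    rw [ha, hb] at hle ⊢
    apply pow_dvd_pow_of_dvd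
    exact pow_dvd_pow _ ((Nat.pow_le_pow_iff_right hp.one_lt).mp hle)
  have hsmall : charDegree θ.1 ^ 2 ∣ ∑ θ' ∈ B.filter (fun θ' => charDegree θ'.1 < charDegree θ.1), charDegree θ'.1 ^ 2 := by
    rw [← hN] at hsplit
    rw [← hsplit] at hdvdN
    exact (Nat.dvd_add_iff_left hbig).mpr hdvdN
  apply Nat.le_of_dvd _ hsmall
  have hmem : θ₁ ∈ B.filter (fun θ' => charDegree θ'.1 < charDegree θ.1) := by
    refine Finset.mem_filter.mpr ⟨Finset.mem_filter.mpr ⟨Finset.mem_univ _, fun a _ => ?_⟩, hlt⟩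
    ring
  apply Finset.sum_pos' (fun _ _ => Nat.zero_le _) ⟨θ₁, hmem, ?_⟩
  have := irr_charDegree_pos θ₁.2
  positivity

end Block

section Structure

variable {L : Type u} [Group L] [Fintype L]

/-- Elements outside `K` are conjugate to all their multiples by elements of `Z`, if all irreducible
characters nontrivial on `Z` vanish outside `K`. -/
theorem isConj_mul_of_vanish (K Z : Subgroup L) [hK : K.Normal] [hZ : Z.Normal] (hZK : Z ≤ K)
    (hv : ∀ χ : L → ℂ, IsIrrCharacter L χ → (∃ z ∈ Z, χ z ≠ χ 1) → ∀ y, y ∉ K → χ y = 0)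
    {x : L} (hx : x ∉ K) {z : L} (hz : z ∈ Z) : IsConj x (x * z) := by
  classical
  haveI : Fintype (IrrCharacter L) := Fintype.ofFinite _
  by_contra hcon
  have h1 := column_orthogonality_of_not_isConj hcon
  have hxz : x * z ∉ K := fun h => hx (by simpa using K.mul_mem h (K.inv_mem (hZK hz)))
  have h2 : ∀ χ : IrrCharacter L, (χ : L → ℂ) x * conj ((χ : L → ℂ) (x * z)) =
      (χ : L → ℂ) x * conj ((χ : L → ℂ) x) := by
    intro χ
    by_cases hker : ∃ z ∈ Z, (χ : L → ℂ) z ≠ (χ : L → ℂ) 1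
    · rw [hv _ χ.2 hker x hx, zero_mul, zero_mul]
    · push Not at hker
      have h3 : x * z = (x * z * x⁻¹) * x := by group
      have h4 : x * z * x⁻¹ ∈ Z := hZ.conj_mem z hz x
      rw [h3, character_mul_of_mem_ker (isCharacter_of_irr χ.2) (hker _ h4)]
  rw [Finset.sum_congr rfl (fun χ _ => h2 χ), column_orthogonality_of_isConj (IsConj.refl x)] at h1
  have hC : (Nat.card (Subgroup.centralizer ({x} : Set L)) : ℂ) ≠ 0 := by
    simp [Nat.card_pos.ne']
  exact hC h1

/-- The central character of an irreducible character of `K` nontrivial on `Z` has inertia group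
inside `K`. -/
theorem inertia_central_le (K Z : Subgroup L) [hK : K.Normal] [hZ : Z.Normal] (hZK : Z ≤ K)
    (hZc : ∀ z ∈ Z, ∀ k ∈ K, z * k = k * z) (p : ℕ) [Fact p.Prime]
    (hKp : ∀ a : L, (∃ k : ℕ, a ^ (p ^ k) = 1) → a ∈ K) (hZp : IsPGroup p Z)
    (hconj : ∀ x, x ∉ K → ∀ z ∈ Z, IsConj x (x * z))
    [Fintype K] (θ : K → ℂ) (hθ : IsIrrCharacter K θ)
    (hnt : ∃ z, ∃ hz : z ∈ Z, θ ⟨z, hZK hz⟩ ≠ θ 1) {x : L}
    (hx : ∀ z (hz : z ∈ Z), θ ⟨x * z * x⁻¹, hK.conj_mem z (hZK hz) x⟩ = θ ⟨z, hZK hz⟩) : x ∈ K := by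
  classical
  have hpp : p.Prime := Fact.out
  by_contra hxK
  -- the stabilizer
  let f : L → ℂ := extendByZero K θ
  have hf : ∀ k : K, f k = θ k := extendByZero_coe K θ
  let T : Subgroup L :=
    { carrier := {g | ∀ z ∈ Z, f (g * z * g⁻¹) = f z}
      mul_mem' := by
        intro a b ha hb z hz
        have h1 := hb z hz
        have h2 := ha _ (hZ.conj_mem z hz b)
        have h3 : a * b * z * (a * b)⁻¹ = a * (b * z * b⁻¹) * a⁻¹ := by group
        rw [h3, h2, h1]
      one_mem' := by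
        intro z _
        simp
      inv_mem' := by
        intro a ha z hz
        have h1 := ha _ (hZ.conj_mem z hz a⁻¹)
        have h2 : a * (a⁻¹ * z * a⁻¹⁻¹) * a⁻¹ = z := by group
        rw [h2] at h1
        exact h1.symm }
  have hxT : x ∈ T := by
    intro z hz
    have h1 := hx z hz
    have h2 := hf ⟨x * z * x⁻¹, hK.conj_mem z (hZK hz) x⟩
    have h3 := hf ⟨z, hZK hz⟩
    simp only at h2 h3
    rw [h2, h3, h1]
  -- the `p'`-part
  obtain ⟨a, b, hab, hcomm, ⟨k, hk⟩, hb, ha', hb'⟩ := H19.exists_primary_decomp p x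
  have haK : a ∈ K := hKp a ⟨k, by rw [← hk, pow_orderOf_eq_one]⟩
  have hbK : b ∉ K := by
    intro h
    apply hxK
    rw [hab]
    exact K.mul_mem haK h
  have hbT : b ∈ T := (Subgroup.zpowers_le.mpr hxT) hb'
  -- `C_Z(b) = 1`
  have hCZ : ∀ z ∈ Z, b * z = z * b → z = 1 := by
    intro z hz hc
    obtain ⟨j, hj⟩ := hZp ⟨z, hz⟩
    have hzj : z ^ (p ^ j) = 1 := by
      have := congrArg Subtype.val hj
      simpa using this
    have hoz : (orderOf z).Coprime (orderOf b) := by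
      obtain ⟨i, _, hi⟩ := (Nat.dvd_prime_pow hpp).mp (orderOf_dvd_of_pow_eq_one hzj)
      rw [hi]
      exact Nat.Coprime.pow_left _ hb.symm
    have h1 : orderOf b = orderOf (b * z) := by
      obtain ⟨g, hg⟩ := isConj_iff.mp (hconj b hbK z hz)
      rw [← hg]
      exact (MulEquiv.orderOf_eq (MulAut.conj g) b).symm
    have hcb : Commute b z := hc
    rw [hcb.orderOf_mul_eq_mul_orderOf_of_coprime hoz.symm] at h1
    have h2 : orderOf z = 1 := by
      have h3 : 0 < orderOf b := orderOf_pos b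
      have h4 : orderOf b * 1 = orderOf b * orderOf z := by rw [mul_one]; exact h1
      exact (Nat.eq_of_mul_eq_mul_left h3 h4).symm
    exact orderOf_eq_one_iff.mp h2
  -- the commutator map on `Z` is surjective
  haveI : Finite Z := inferInstance
  have hZab : ∀ u ∈ Z, ∀ v ∈ Z, u * v = v * u := fun u hu v hv => hZc u hu v (hZK hv)
  let c : Z →* Z :=
    { toFun := fun w => ⟨b * (w : L) * b⁻¹ * (w : L)⁻¹, Z.mul_mem (hZ.conj_mem _ w.2 b) (Z.inv_mem w.2)⟩
      map_one' := by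
        apply Subtype.ext
        simp
      map_mul' := by
        intro u v
        apply Subtype.ext
        show b * ((u : L) * (v : L)) * b⁻¹ * ((u : L) * (v : L))⁻¹ =
          (b * (u : L) * b⁻¹ * (u : L)⁻¹) * (b * (v : L) * b⁻¹ * (v : L)⁻¹)
        have h1 : (u : L)⁻¹ * (b * (v : L) * b⁻¹) = (b * (v : L) * b⁻¹) * (u : L)⁻¹ :=
          hZab _ (Z.inv_mem u.2) _ (hZ.conj_mem _ v.2 b)
        have h2 : (v : L)⁻¹ * (u : L)⁻¹ = (u : L)⁻¹ * (v : L)⁻¹ := hZab _ (Z.inv_mem v.2) _ (Z.inv_mem u.2)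
        calc b * ((u : L) * (v : L)) * b⁻¹ * ((u : L) * (v : L))⁻¹
            = (b * (u : L) * b⁻¹) * (b * (v : L) * b⁻¹) * ((v : L)⁻¹ * (u : L)⁻¹) := by group
          _ = (b * (u : L) * b⁻¹) * ((u : L)⁻¹ * (b * (v : L) * b⁻¹)) * (v : L)⁻¹ := by
              rw [h1, h2]
              group
          _ = _ := by group }
  have hcinj : Function.Injective c := by
    rw [injective_iff_map_eq_one]
    intro w hw
    have h1 : b * (w : L) * b⁻¹ * (w : L)⁻¹ = 1 := congrArg Subtype.val hw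
    apply Subtype.ext
    apply hCZ w w.2
    have h2 : b * (w : L) * b⁻¹ = w := mul_inv_eq_one.mp h1
    exact mul_inv_eq_iff_eq_mul.mp h2
  have hcsurj : Function.Surjective c := Finite.injective_iff_surjective.mp hcinj
  -- so `θ` is trivial on `Z`
  obtain ⟨z₀, hz₀, hne⟩ := hnt
  apply hne
  obtain ⟨w, hw⟩ := hcsurj ⟨z₀, hz₀⟩
  have hw' : b * (w : L) * b⁻¹ * (w : L)⁻¹ = z₀ := congrArg Subtype.val hw
  have hcent : ∀ z (hz : z ∈ Z), (⟨z, hZK hz⟩ : K) ∈ Subgroup.center K := by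
    intro z hz
    rw [Subgroup.mem_center_iff]
    rintro ⟨k, hk⟩
    apply Subtype.ext
    exact (hZc z hz k hk).symm
  have hu1 := hbT _ w.2
  have h2 := hf ⟨b * (w : L) * b⁻¹, hK.conj_mem _ (hZK w.2) b⟩
  have h3 := hf ⟨(w : L), hZK w.2⟩
  simp only at h2 h3
  rw [h2, h3] at hu1
  have hm := irr_central_mul hθ (hcent _ (hZ.conj_mem _ w.2 b))
    (⟨(w : L)⁻¹, K.inv_mem (hZK w.2)⟩ : K)
  have hd : θ 1 = (charDegree θ : ℂ) := one_eq_charDegree (isCharacter_of_irr hθ)
  have hd0 : (charDegree θ : ℂ) ≠ 0 := by exact_mod_cast (irr_charDegree_pos hθ).ne'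
  have he : (⟨b * (w : L) * b⁻¹, hK.conj_mem _ (hZK w.2) b⟩ : K) * ⟨(w : L)⁻¹, K.inv_mem (hZK w.2)⟩ = ⟨z₀, hZK hz₀⟩ :=
    Subtype.ext hw'
  rw [he, hu1] at hm
  have hinv : θ (⟨(w : L)⁻¹, K.inv_mem (hZK w.2)⟩ : K) = conj (θ ⟨(w : L), hZK w.2⟩) :=
    isCharacter_inv (isCharacter_of_irr hθ) (⟨(w : L), hZK w.2⟩ : K)
  rw [hinv, Complex.mul_conj, Complex.normSq_eq_norm_sq, irr_norm_central hθ (hcent _ w.2)] at hm
  rw [hd]
  apply mul_right_cancel₀ hd0
  rw [hm]
  push_cast
  ring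

end Structure

end Cfsg.Agent.H06
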