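import Cfsg.Agent.Lib.H06.CoherZ2

/-!
# Coherence of the characters nontrivial on a central subgroup, part 2
-/

set_option autoImplicit false

namespace Cfsg.Agent.H06

open Cfsg Cfsg.Agent.H21
open scoped ComplexConjugate

universe u v

section Diff

variable {L : Type u} [Group L] [Fintype L]

/-- If the induced character is constant on `a`, so is the character itself. -/
theorem const_of_indFun_const (K : Subgroup L) [hK : K.Normal] [Fintype K] {θ : K → ℂ}
    (hθ : IsIrrCharacter K θ) {a : K} (h : indFun K θ a = indFun K θ 1) : θ a = θ 1 := by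
  classical
  haveI : Fintype (IrrCharacter K) := Fintype.ofFinite _
  haveI : Fintype (IrrCharacter L) := Fintype.ofFinite _
  have hchar := isCharacter_indFun K (isCharacter_of_irr hθ)
  have hres := isCharacter_restrict K hchar
  have hcl := isClassFunction_of_isCharacter hchar
  have hinner : classInner (fun k : K => indFun K θ k) θ ≠ 0 := by
    have h1 := frobenius_reciprocity K θ (indFun K θ) hcl
    intro h0
    have h2 : classInner (indFun K θ) (indFun K θ) = 0 := by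
      rw [h1, ← classInner_comm_conj, h0, map_zero]
    have h5 := classInner_self_eq_zero h2
    exact indFun_one_ne_zero hθ (congrFun h5 1)
  exact constituent_ker hres hθ hinner h

/-- An irreducible character nontrivial on `Z` does not induce into `S(Z)`. -/
theorem indFun_notMem_above (K Z : Subgroup L) [hK : K.Normal] [hZ : Z.Normal] (hZK : Z ≤ K) [Fintype K] {θ : K → ℂ}
    (hθ : IsIrrCharacter K θ) (hnt : ∃ a : K, (a : L) ∈ Z ∧ θ a ≠ θ 1) :
    indFun K θ ∉ inducedIrrAbove K Z := by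
  classical
  rintro ⟨θ', -, -, h3, h4⟩
  obtain ⟨a, ha, hne⟩ := hnt
  apply hne
  apply const_of_indFun_const K hθ
  rw [h4]
  exact indFun_const_of_trivial K Z hZK θ' h3 ha

/-- The characters outside `S(Z)`. -/
theorem diff_eq_irr (K Z : Subgroup L) [hK : K.Normal] [hZ : Z.Normal] (hZK : Z ≤ K)
    (hirr : ∀ χ ∈ inducedIrrAbove K ⊥ \ inducedIrrAbove K Z, IsIrrCharacter L χ) :
    inducedIrrAbove K ⊥ \ inducedIrrAbove K Z = {χ | IsIrrCharacter L χ ∧ ∃ z ∈ Z, χ z ≠ χ 1} := by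
  classical
  haveI : Fintype K := Fintype.ofFinite _
  haveI : Fintype (IrrCharacter L) := Fintype.ofFinite _
  ext χ
  constructor
  · rintro ⟨h1, h2⟩
    refine ⟨hirr χ ⟨h1, h2⟩, ?_⟩
    by_contra hcon
    push Not at hcon
    obtain ⟨θ, hθ, hne, -, rfl⟩ := h1
    apply h2
    refine ⟨θ, hθ, hne, ?_, rfl⟩
    intro a ha
    exact const_of_indFun_const K hθ (hcon a ha)
  · rintro ⟨hχ, z, hz, hne⟩
    obtain ⟨θ, hθ, hin⟩ := Cfsg.Agent.H23.exists_constituent K hχ
    have hχc := isCharacter_of_irr hχ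
    have hcl := isClassFunction_of_isCharacter hχc
    have hin' : classInner (indFun K θ) χ ≠ 0 := by
      rw [frobenius_reciprocity K θ χ hcl]
      intro h0
      apply hin
      rw [← classInner_comm_conj, h0, map_zero]
    have hθc := isCharacter_of_irr hθ
    have hindc := isCharacter_indFun K hθc
    have hθ1 : θ ≠ fun _ => 1 := by
      rintro rfl
      apply hne
      refine constituent_ker hindc hχ hin' ?_
      exact indFun_const_of_trivial K K le_rfl _ (fun _ _ => rfl) (hZK hz)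
    have hφS : indFun K θ ∈ inducedIrrAbove K ⊥ := by
      refine ⟨θ, hθ, hθ1, ?_, rfl⟩
      intro a ha
      have : a = 1 := by
        ext
        simpa using ha
      rw [this]
    have hφZ : indFun K θ ∉ inducedIrrAbove K Z := by
      rintro ⟨θ', -, -, h3, h4⟩
      apply hne
      refine constituent_ker hindc hχ hin' ?_
      rw [h4]
      exact indFun_const_of_trivial K Z hZK θ' h3 hz
    have hφirr := hirr _ ⟨hφS, hφZ⟩
    have heq : indFun K θ = χ := by
      by_contra h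
      exact hin' (classInner_irr_ne hφirr hχ h)
    rw [← heq]
    exact ⟨hφS, hφZ⟩

end Diff

section Main

variable {L : Type u} [Group L] [Fintype L] {G : Type v} [Group G] [Fintype G]

open Classical in
/-- The induced map is injective on a block. -/
theorem block_inj (K Z : Subgroup L) [hK : K.Normal] [hZ : Z.Normal] (hZK : Z ≤ K) [Fintype K]
    (θ₁ θ' θ'' : K → ℂ) (hθ' : IsIrrCharacter K θ') (hθ'' : IsIrrCharacter K θ'')
    (hs' : SameCentral (Z.subgroupOf K) θ₁ θ') (hs'' : SameCentral (Z.subgroupOf K) θ₁ θ'')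
    (hin : ∀ x : L, (∀ z (hz : z ∈ Z), θ₁ ⟨x * z * x⁻¹, hK.conj_mem z (hZK hz) x⟩ = θ₁ ⟨z, hZK hz⟩) → x ∈ K)
    (h : indFun K θ' = indFun K θ'') : θ' = θ'' := by
  classical
  haveI : Fintype (IrrCharacter K) := Fintype.ofFinite _
  haveI : Fintype (IrrCharacter L) := Fintype.ofFinite _
  have hnz : classInner (indFun K θ'') (indFun K θ') ≠ 0 := by
    rw [← h]
    intro h0
    exact indFun_one_ne_zero hθ' (congrFun (classInner_self_eq_zero h0) 1)
  have hex : ∃ g : L, θ'' = twist K θ' g := by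
    by_contra hcon
    push Not at hcon
    exact hnz (classInner_indFun_eq_zero_of_not_conj K hθ' hθ'' hcon)
  obtain ⟨g, hg⟩ := hex
  have hθ'1 : θ' 1 ≠ 0 := by
    rw [one_eq_charDegree (isCharacter_of_irr hθ')]
    exact_mod_cast (irr_charDegree_pos hθ').ne'
  have hgK : g ∈ K := by
    apply hin
    intro z hz
    have h1 := hs'' ⟨z, hZK hz⟩ (Subgroup.mem_subgroupOf.mpr hz)
    have h2 := hs' ⟨g * z * g⁻¹, hK.conj_mem z (hZK hz) g⟩
      (Subgroup.mem_subgroupOf.mpr (hZ.conj_mem z hz g))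
    have h3 : θ'' ⟨z, hZK hz⟩ = θ' ⟨g * z * g⁻¹, hK.conj_mem z (hZK hz) g⟩ := by
      rw [hg]
      rfl
    have h4 : θ'' 1 = θ' 1 := by
      rw [hg]
      show θ' _ = θ' 1
      congr 1
      apply Subtype.ext
      simp
    rw [h3, h4] at h1
    apply mul_right_cancel₀ hθ'1
    rw [← h2, h1]
  rw [hg]
  funext k
  have := isCharacter_conj (isCharacter_of_irr hθ') k ⟨g, hgK⟩
  exact this.symm

theorem coh_diff_ppower (K : Subgroup L) [hK : K.Normal] (τ : (L → ℂ) → (G → ℂ)) (R : (L → ℂ) → Finset (G → ℂ))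
    (hS : IsCoherenceSystem (inducedIrrAbove K ⊥) τ R) (hodd : Odd (Nat.card L)) {p m : ℕ} [Fact p.Prime]
    (hcard : Nat.card K = p ^ m) (hH₁K : ⁅K, K⁆ < K)
    (hfrob : ∀ k ∈ K, k ∉ ⁅K, K⁆ → ∀ x : L, x * k * x⁻¹ * k⁻¹ ∈ ⁅K, K⁆ → x ∈ K)
    (Z : Subgroup L) [hZn : Z.Normal] (hZ1 : Z ≠ ⊥) (hZK : Z ≤ K) (hZc : ∀ z ∈ Z, ∀ k ∈ K, z * k = k * z)
    (hirr : ∀ χ ∈ inducedIrrAbove K ⊥ \ inducedIrrAbove K Z, IsIrrCharacter L χ) :
    IsCoherent (inducedIrrAbove K ⊥ \ inducedIrrAbove K Z) {1}ᶜ τ := by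
  classical
  haveI : Fintype K := Fintype.ofFinite _
  haveI : Fintype (IrrCharacter K) := Fintype.ofFinite _
  haveI : Fintype (IrrCharacter L) := Fintype.ofFinite _
  have hpp : p.Prime := Fact.out
  have hpart := diff_eq_irr K Z hZK hirr
  -- `p` is odd
  have hKne : K ≠ ⊥ := by
    rintro h
    rw [h] at hH₁K
    exact not_lt_bot hH₁K
  have hm0 : m ≠ 0 := by
    rintro rfl
    apply hKne
    rw [pow_zero] at hcard
    exact (Subgroup.eq_bot_of_card_eq K hcard)
  have hpK : p ∣ Nat.card K := by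
    rw [hcard]
    exact dvd_pow_self p hm0
  have hp2 : p ≠ 2 := by
    rintro rfl
    have h1 := Odd.of_dvd_nat hodd (hpK.trans (Subgroup.card_subgroup_dvd_card K))
    exact absurd h1 (by decide)
  have hp3 : 3 ≤ p := by
    have := hpp.two_le
    omega
  -- the index
  haveI hK'n : (⁅K, K⁆).Normal := Subgroup.commutator_normal K K
  have hdv := frob_index_dvd K ⁅K, K⁆ K hH₁K.le le_rfl
    (fun x hx y hy => Subgroup.commutator_mem_commutator hx hy) hfrob
  have hepc : Nat.Coprime K.index p := by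
    rw [Nat.coprime_comm, Nat.Prime.coprime_iff_not_dvd hpp]
    intro hpe
    have hr1 : (⁅K, K⁆).relIndex K ≠ 1 := by
      intro h
      rw [Subgroup.relIndex_eq_one] at h
      exact hH₁K.not_ge h
    have hr2 : (⁅K, K⁆).relIndex K ∣ p ^ m := hcard ▸ Subgroup.relIndex_dvd_card _ _
    obtain ⟨j, _, hj⟩ := (Nat.dvd_prime_pow hpp).mp hr2
    have hj0 : j ≠ 0 := by
      rintro rfl
      rw [pow_zero] at hj
      exact hr1 hj
    have h1 : p ∣ (⁅K, K⁆).relIndex K := by
      rw [hj]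
      exact dvd_pow_self p hj0
    have h2 : p ∣ (⁅K, K⁆).relIndex K - 1 := hpe.trans hdv
    have h3 : 1 ≤ (⁅K, K⁆).relIndex K := Nat.pos_of_ne_zero (by
      intro h
      rw [hj] at h
      exact (pow_pos hpp.pos j).ne' h)
    have h4 : p ∣ 1 := by
      have := (Nat.dvd_sub h1 h2)
      rwa [Nat.sub_sub_self h3] at this
    exact hpp.one_lt.ne' (Nat.dvd_one.mp h4)
  have hKp : ∀ a : L, (∃ k : ℕ, a ^ (p ^ k) = 1) → a ∈ K := by
    rintro a ⟨k, hk⟩
    let q := QuotientGroup.mk' K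
    have h1 : orderOf (q a) ∣ p ^ k := orderOf_dvd_of_pow_eq_one (by rw [← map_pow, hk, map_one])
    have h2 : orderOf (q a) ∣ K.index := orderOf_dvd_natCard (q a)
    have h3 : Nat.Coprime K.index (p ^ k) := Nat.Coprime.pow_right _ hepc
    have h4 := Nat.Coprime.eq_one_of_dvd (Nat.Coprime.coprime_dvd_left h2 h3) h1
    exact (QuotientGroup.eq_one_iff a).mp (orderOf_eq_one_iff.mp h4)
  have hKpg : IsPGroup p K := IsPGroup.of_card hcard
  have hZp : IsPGroup p Z := hKpg.to_le hZK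
  -- vanishing
  have hv : ∀ χ : L → ℂ, IsIrrCharacter L χ → (∃ z ∈ Z, χ z ≠ χ 1) → ∀ y, y ∉ K → χ y = 0 := by
    intro χ hχ hnt y hy
    have h1 : χ ∈ inducedIrrAbove K ⊥ \ inducedIrrAbove K Z := by
      rw [hpart]
      exact ⟨hχ, hnt⟩
    obtain ⟨⟨θ, -, -, -, rfl⟩, -⟩ := h1
    exact indFun_of_not_mem K θ hy
  have hconj : ∀ x, x ∉ K → ∀ z ∈ Z, IsConj x (x * z) := fun x hx z hz =>
    isConj_mul_of_vanish K Z hZK hv hx hz
  -- the block
  let A : Subgroup K := Z.subgroupOf K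
  have hA : A ≤ Subgroup.center K := by
    intro a ha
    rw [Subgroup.mem_center_iff]
    intro g
    apply Subtype.ext
    exact (hZc a (Subgroup.mem_subgroupOf.mp ha) g g.2).symm
  -- the finite set
  let Sf : Finset (L → ℂ) := ((inducedIrrAbove_finite K ⊥).toFinset).filter (· ∉ inducedIrrAbove K Z)
  have hSfm : ∀ φ, φ ∈ Sf ↔ φ ∈ inducedIrrAbove K ⊥ ∧ φ ∉ inducedIrrAbove K Z := by
    intro φ
    simp [Sf]
  have hSfS : ∀ φ ∈ Sf, φ ∈ inducedIrrAbove K ⊥ := fun φ h => ((hSfm φ).mp h).1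
  have hSfc : ∀ φ ∈ Sf, conjFun φ ∈ Sf := by
    intro φ hφ
    obtain ⟨h1, h2⟩ := (hSfm φ).mp hφ
    refine (hSfm _).mpr ⟨inducedIrrAbove_conj K ⊥ h1, fun h3 => h2 ?_⟩
    have := inducedIrrAbove_conj K Z h3
    rwa [conjFun_conjFun] at this
  have hSfirr : ∀ φ ∈ Sf, IsIrrCharacter L φ := fun φ h => hirr φ ((hSfm φ).mp h)
  have hSfne : Sf.Nonempty := by
    obtain ⟨z, hz, hz1⟩ := (Subgroup.bot_or_exists_ne_one Z).resolve_left hZ1
    have hex : ∃ χ : IrrCharacter L, (χ : L → ℂ) z ≠ (χ : L → ℂ) 1 := by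
      by_contra hcon
      push Not at hcon
      have h1 := sum_degree_mul_value_ne hz1
      have h2 : ∀ χ : IrrCharacter L, (charDegree (χ : L → ℂ) : ℂ) * (χ : L → ℂ) z =
          ((charDegree (χ : L → ℂ) ^ 2 : ℕ) : ℂ) := by
        intro χ
        rw [hcon χ, one_eq_charDegree (isCharacter_of_irr χ.2)]
        push_cast
        ring
      rw [Finset.sum_congr rfl (fun χ _ => h2 χ), ← Nat.cast_sum, sum_degree_sq] at h1
      have h3 : Nat.card L = 0 := by exact_mod_cast h1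
      exact Nat.card_pos.ne' h3
    obtain ⟨χ, hχ⟩ := hex
    have h1 : (χ : L → ℂ) ∈ inducedIrrAbove K ⊥ \ inducedIrrAbove K Z := by
      rw [hpart]
      exact ⟨χ.2, z, hz, hχ⟩
    exact ⟨χ, (hSfm _).mpr h1⟩
  have hSc : ∀ φ ∈ inducedIrrAbove K ⊥, φ 1 = (charDegree φ : ℂ) := fun φ hφ =>
    one_eq_charDegree (hS.isCharacter φ hφ)
  let n : (L → ℂ) → ℕ := fun φ =>
    if h : ∃ k : ℕ, 0 < k ∧ classInner φ φ = k then h.choose else 0
  have hn : ∀ φ ∈ inducedIrrAbove K ⊥, classInner φ φ = (n φ : ℂ) := by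
    intro φ hφ
    have h := system_exists_norm hS hφ
    simp only [n, dif_pos h]
    exact h.choose_spec.2
  have hn1 : ∀ φ ∈ Sf, n φ = 1 := by
    intro φ hφ
    have h1 := hn φ (hSfS φ hφ)
    rw [classInner_irr_self (hSfirr φ hφ)] at h1
    exact_mod_cast h1.symm
  -- the smallest degree
  obtain ⟨χ₁, hχ₁, hmin⟩ := Finset.exists_min_image Sf charDegree hSfne
  obtain ⟨hχ₁S, hχ₁Z⟩ := (hSfm χ₁).mp hχ₁
  obtain ⟨θ₁, hθ₁, hθ₁ne, -, hχ₁θ⟩ := hχ₁S
  have hθ₁nt : ∃ a : K, (a : L) ∈ Z ∧ θ₁ a ≠ θ₁ 1 := by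
    by_contra hcon
    push Not at hcon
    apply hχ₁Z
    exact ⟨θ₁, hθ₁, hθ₁ne, fun a ha => hcon a ha, hχ₁θ⟩
  have hdeg : ∀ θ : K → ℂ, IsIrrCharacter K θ → charDegree (indFun K θ) = K.index * charDegree θ :=
    fun θ hθ => charDegree_indFun K (isCharacter_of_irr hθ)
  have hpow : ∀ θ : K → ℂ, IsIrrCharacter K θ → ∃ a, charDegree θ = p ^ a := by
    intro θ hθ
    have h1 : charDegree θ ∣ p ^ m := hcard ▸ H22.charDegree_dvd_card ⟨θ, hθ⟩
    obtain ⟨a, _, ha⟩ := (Nat.dvd_prime_pow hpp).mp h1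
    exact ⟨a, ha⟩
  have hindex : 0 < K.index := Nat.pos_of_ne_zero Subgroup.index_ne_zero_of_finite
  -- the inertia statement
  have hin : ∀ x : L, (∀ z (hz : z ∈ Z), θ₁ ⟨x * z * x⁻¹, hK.conj_mem z (hZK hz) x⟩ = θ₁ ⟨z, hZK hz⟩) → x ∈ K := by
    intro x hx
    obtain ⟨a, ha, hane⟩ := hθ₁nt
    exact inertia_central_le K Z hZK hZc p hKp hZp hconj θ₁ hθ₁ ⟨a, ha, hane⟩ hx
  -- conjugates
  have hdegconj : ∀ φ ∈ inducedIrrAbove K ⊥, charDegree (conjFun φ) = charDegree φ := by
    intro φ hφ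
    have h1 := hSc _ (hS.conj_mem φ hφ)
    rw [system_conj_one hS hφ, hSc φ hφ] at h1
    exact_mod_cast h1.symm
  let T : ℕ → Finset (L → ℂ) := fun c => Sf.filter (fun φ => charDegree φ ≤ c)
  have hTm : ∀ c φ, φ ∈ T c ↔ φ ∈ Sf ∧ charDegree φ ≤ c := fun c φ => by
    simp [T]
  have hTsub : ∀ c, (↑(T c) : Set (L → ℂ)) ⊆ inducedIrrAbove K ⊥ := fun c φ hφ =>
    hSfS φ ((hTm c φ).mp (Finset.mem_coe.mp hφ)).1
  have hTc : ∀ c, ∀ φ ∈ T c, conjFun φ ∈ T c := by
    intro c φ hφ
    obtain ⟨h1, h2⟩ := (hTm c φ).mp hφ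
    refine (hTm c _).mpr ⟨hSfc φ h1, ?_⟩
    rw [hdegconj φ (hSfS φ h1)]
    exact h2
  have hT : ∀ c, charDegree χ₁ ≤ c → IsCoherent (↑(T c) : Set (L → ℂ)) {1}ᶜ τ := by
    intro c hc
    induction c, hc using Nat.le_induction with
    | base =>
      have hsys := system_restrict hS (S₁ := (↑(T (charDegree χ₁)) : Set (L → ℂ)))
        ⟨χ₁, Finset.mem_coe.mpr ((hTm _ _).mpr ⟨hχ₁, le_rfl⟩)⟩ (hTsub _)
        (fun φ hφ => Finset.mem_coe.mpr (hTc _ φ (Finset.mem_coe.mp hφ)))
      refine Cfsg.Agent.S1517.result _ τ R hsys ?_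
      intro φ hφ ψ hψ
      obtain ⟨h1, h2⟩ := (hTm _ _).mp (Finset.mem_coe.mp hφ)
      obtain ⟨h3, h4⟩ := (hTm _ _).mp (Finset.mem_coe.mp hψ)
      have h5 := le_antisymm h2 (hmin φ h1)
      have h6 := le_antisymm h4 (hmin ψ h3)
      rw [hSc φ (hSfS φ h1), hSc ψ (hSfS ψ h3), h5, h6]
    | succ c hc ih =>
      let U : Finset (L → ℂ) := Sf.filter (fun φ => charDegree φ = c + 1)
      have hUm : ∀ φ, φ ∈ U ↔ φ ∈ Sf ∧ charDegree φ = c + 1 := fun φ => by
        simp [U]
      have hext := coh_extend hS charDegree n hSc hn (T c) U (hTsub c) (hTc c) ih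
        (fun φ hφ => hSfS φ ((hUm φ).mp (Finset.mem_coe.mp hφ)).1)
        (fun φ hφ => by
          obtain ⟨h1, h2⟩ := (hUm φ).mp hφ
          refine (hUm _).mpr ⟨hSfc φ h1, ?_⟩
          rw [hdegconj φ (hSfS φ h1)]
          exact h2)
        χ₁ ((hTm _ _).mpr ⟨hχ₁, hc⟩) ?_ ?_
      · have hset : (↑(T (c + 1)) : Set (L → ℂ)) = ↑(T c) ∪ ↑U := by
          ext φ
          simp only [Finset.mem_coe, Set.mem_union]
          rw [hTm, hTm, hUm]
          constructor
          · rintro ⟨h1, h2⟩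
            rcases Nat.le_succ_iff.mp h2 with h3 | h3
            · exact Or.inl ⟨h1, h3⟩
            · exact Or.inr ⟨h1, h3⟩
          · rintro (⟨h1, h2⟩ | ⟨h1, h2⟩)
            · exact ⟨h1, by omega⟩
            · exact ⟨h1, by omega⟩
        rw [hset]
        exact hext
      · -- divisibility
        intro χ hχ
        obtain ⟨h1, h2⟩ := (hUm χ).mp hχ
        obtain ⟨⟨θ, hθ, -, -, rfl⟩, -⟩ := (hSfm _).mp h1
        rw [hχ₁θ, hdeg θ₁ hθ₁, hdeg θ hθ]
        apply Nat.mul_dvd_mul_left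
        obtain ⟨a, ha⟩ := hpow θ₁ hθ₁
        obtain ⟨b, hb⟩ := hpow θ hθ
        have h3 := hmin _ h1
        rw [hχ₁θ, hdeg θ₁ hθ₁, hdeg θ hθ] at h3
        have h4 := Nat.le_of_mul_le_mul_left h3 hindex
        rw [ha, hb] at h4 ⊢
        exact pow_dvd_pow _ ((Nat.pow_le_pow_iff_right hpp.one_lt).mp h4)
      · -- the inequality
        intro χ hχ
        obtain ⟨h1, h2⟩ := (hUm χ).mp hχ
        obtain ⟨⟨θ, hθ, -, -, rfl⟩, -⟩ := (hSfm _).mp h1
        have hd1 : charDegree χ₁ = K.index * charDegree θ₁ := by rw [hχ₁θ, hdeg θ₁ hθ₁]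
        have hd2 := hdeg θ hθ
        have hlt : charDegree θ₁ < charDegree θ := by
          have h3 : K.index * charDegree θ₁ < K.index * charDegree θ := by
            rw [← hd1, ← hd2]
            omega
          exact Nat.lt_of_mul_lt_mul_left h3
        obtain ⟨a, ha⟩ := hpow θ₁ hθ₁
        obtain ⟨b, hb⟩ := hpow θ hθ
        have hab : a < b := by
          rw [ha, hb] at hlt
          exact (Nat.pow_lt_pow_iff_right hpp.one_lt).mp hlt
        have hD₁pos : 0 < charDegree θ₁ := irr_charDegree_pos hθ₁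
        have h3D : 3 * charDegree θ₁ ≤ charDegree θ := by
          rw [ha, hb]
          calc 3 * p ^ a ≤ p * p ^ a := Nat.mul_le_mul_right _ hp3
            _ = p ^ (a + 1) := by ring
            _ ≤ p ^ b := Nat.pow_le_pow_right hpp.pos hab
        have hsmall := block_small_sum hpp hcard A hA ⟨θ₁, hθ₁⟩ ⟨θ, hθ⟩ hlt
        simp only at hsmall
        set B₀ := (Finset.univ.filter (fun θ' : IrrCharacter K => SameCentral A θ₁ θ'.1)).filter
          (fun θ' => charDegree θ'.1 < charDegree θ) with hB₀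
        let ι : IrrCharacter K → (L → ℂ) := fun θ' => indFun K θ'.1
        have hB₀m : ∀ θ' ∈ B₀, SameCentral A θ₁ θ'.1 ∧ charDegree θ'.1 < charDegree θ := by
          intro θ' hθ'
          obtain ⟨h3, h4⟩ := Finset.mem_filter.mp hθ'
          exact ⟨(Finset.mem_filter.mp h3).2, h4⟩
        have hιT : ∀ θ' ∈ B₀, ι θ' ∈ T c := by
          intro θ' hθ'
          obtain ⟨h3, h4⟩ := hB₀m θ' hθ'
          obtain ⟨u, hu, hune⟩ := hθ₁nt
          have hθ'1 : θ'.1 1 ≠ 0 := by
            rw [one_eq_charDegree (isCharacter_of_irr θ'.2)]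
            exact_mod_cast (irr_charDegree_pos θ'.2).ne'
          have hnt : θ'.1 u ≠ θ'.1 1 := by
            intro h5
            have h6 := h3 u (Subgroup.mem_subgroupOf.mpr hu)
            rw [h5, mul_comm] at h6
            exact hune (mul_right_cancel₀ hθ'1 h6).symm
          refine (hTm _ _).mpr ⟨(hSfm _).mpr ⟨⟨θ'.1, θ'.2, ?_, ?_, rfl⟩, indFun_notMem_above K Z hZK θ'.2 ⟨u, hu, hnt⟩⟩, ?_⟩
          · intro h5
            apply hnt
            rw [h5]
          · intro w hw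
            have : w = 1 := by
              ext
              simpa using hw
            rw [this]
          · show charDegree (indFun K θ'.1) ≤ c
            rw [hdeg θ'.1 θ'.2]
            have h5 : K.index * charDegree θ'.1 < K.index * charDegree θ :=
              Nat.mul_lt_mul_of_pos_left h4 hindex
            omega
        have hιinj : Set.InjOn ι (↑B₀ : Set (IrrCharacter K)) := by
          intro θ' hθ' θ'' hθ'' h
          apply Subtype.ext
          exact block_inj K Z hZK θ₁ θ'.1 θ''.1 θ'.2 θ''.2 (hB₀m θ' hθ').1 (hB₀m θ'' hθ'').1 hin h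
        have hsum : ∑ θ' ∈ B₀, (((K.index * charDegree θ'.1 : ℕ) : ℝ) ^ 2) ≤
            ∑ φ ∈ T c, ((charDegree φ : ℝ) ^ 2 / (n φ : ℝ)) := by
          have h3 : ∑ θ' ∈ B₀, (((K.index * charDegree θ'.1 : ℕ) : ℝ) ^ 2) =
              ∑ φ ∈ B₀.image ι, ((charDegree φ : ℝ) ^ 2 / (n φ : ℝ)) := by
            rw [Finset.sum_image hιinj]
            refine Finset.sum_congr rfl fun θ' hθ' => ?_
            have h4 := (hTm _ _).mp (hιT θ' hθ')
            rw [hn1 _ h4.1]
            show _ = ((charDegree (indFun K θ'.1) : ℝ) ^ 2 / ((1 : ℕ) : ℝ))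
            rw [hdeg θ'.1 θ'.2]
            simp
          rw [h3]
          apply Finset.sum_le_sum_of_subset_of_nonneg
          · intro φ hφ
            obtain ⟨θ', hθ', rfl⟩ := Finset.mem_image.mp hφ
            exact hιT θ' hθ'
          · intro _ _ _
            positivity
        refine lt_of_lt_of_le ?_ hsum
        have h4 : ∑ θ' ∈ B₀, (((K.index * charDegree θ'.1 : ℕ) : ℝ) ^ 2) =
            (K.index : ℝ) ^ 2 * ((∑ θ' ∈ B₀, charDegree θ'.1 ^ 2 : ℕ) : ℝ) := by
          push_cast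
          rw [Finset.mul_sum]
          refine Finset.sum_congr rfl fun θ' _ => ?_
          ring
        rw [h4, hd1, hd2]
        have h5 : 2 * (K.index * charDegree θ) * (K.index * charDegree θ₁) <
            K.index ^ 2 * ∑ θ' ∈ B₀, charDegree θ'.1 ^ 2 := by
          have h6 : 2 * charDegree θ₁ < charDegree θ := by omega
          have hDpos : 0 < charDegree θ := by omega
          calc 2 * (K.index * charDegree θ) * (K.index * charDegree θ₁)
              = (K.index ^ 2 * charDegree θ) * (2 * charDegree θ₁) := by ring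
            _ < (K.index ^ 2 * charDegree θ) * charDegree θ :=
                Nat.mul_lt_mul_of_pos_left h6 (by positivity)
            _ = K.index ^ 2 * charDegree θ ^ 2 := by ring
            _ ≤ _ := Nat.mul_le_mul_left _ hsmall
        exact_mod_cast h5
  -- conclusion
  have hfinal := hT (Sf.sup charDegree) (Finset.le_sup hχ₁)
  have hset : (↑(T (Sf.sup charDegree)) : Set (L → ℂ)) = inducedIrrAbove K ⊥ \ inducedIrrAbove K Z := by
    ext φ
    rw [Finset.mem_coe, hTm, hSfm]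
    constructor
    · rintro ⟨h1, -⟩
      exact h1
    · intro h
      exact ⟨h, Finset.le_sup ((hSfm φ).mpr h)⟩
  rw [hset] at hfinal
  exact hfinal

end Main

end Cfsg.Agent.H06
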