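import Cfsg.Agent.Lib.H06.CoherZ3
import Cfsg.Agent.S1521

/-!
# Coherence of the characters nontrivial on a central subgroup, part 3
-/

set_option autoImplicit false

namespace Cfsg.Agent.H06

open Cfsg Cfsg.Agent.H21
open scoped ComplexConjugate

universe u v

section Main

variable {L : Type u} [Group L] [Fintype L] {G : Type v} [Group G] [Fintype G]

theorem diff_nonempty (K Z : Subgroup L) [hK : K.Normal] [hZ : Z.Normal] (hZK : Z ≤ K) (hZ1 : Z ≠ ⊥)
    (hirr : ∀ χ ∈ inducedIrrAbove K ⊥ \ inducedIrrAbove K Z, IsIrrCharacter L χ) :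
    (inducedIrrAbove K ⊥ \ inducedIrrAbove K Z).Nonempty := by
  classical
  haveI : Fintype (IrrCharacter L) := Fintype.ofFinite _
  obtain ⟨z, hz, hz1⟩ := (Subgroup.bot_or_exists_ne_one Z).resolve_left hZ1
  have hex : ∃ χ : IrrCharacter L, (χ : L → ℂ) z ≠ (χ : L → ℂ) 1 := by
    by_contra hcon
    push Not at hcon
    have h1 := sum_degree_mul_value_ne hz1
    have h2 : ∀ χ : IrrCharacter L, (charDegree (χ : L → ℂ) : ℂ) * (χ : L → ℂ) z =
        ((charDegree (χ : L → ℂ) ^ 2 : ℕ) : ℂ) := by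
      intro χ
      rw [hcon χ, one_eq_charDegree (isCharacter_of_irr χ.2)]
      push_cast
      ring
    rw [Finset.sum_congr rfl (fun χ _ => h2 χ), ← Nat.cast_sum, sum_degree_sq] at h1
    have h3 : Nat.card L = 0 := by exact_mod_cast h1
    exact Nat.card_pos.ne' h3
  obtain ⟨χ, hχ⟩ := hex
  refine ⟨χ, ?_⟩
  rw [diff_eq_irr K Z hZK hirr]
  exact ⟨χ.2, z, hz, hχ⟩

theorem diff_conj (K Z : Subgroup L) {φ : L → ℂ} (h : φ ∈ inducedIrrAbove K ⊥ \ inducedIrrAbove K Z) :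
    conjFun φ ∈ inducedIrrAbove K ⊥ \ inducedIrrAbove K Z := by
  refine ⟨inducedIrrAbove_conj K ⊥ h.1, fun h3 => h.2 ?_⟩
  have := inducedIrrAbove_conj K Z h3
  rwa [conjFun_conjFun] at this

/-- Every coherence system above: `S \ S(Z)` is coherent. -/
theorem coh_diff (K : Subgroup L) [hK : K.Normal] (hsolv : Group.IsSolvable K) (τ : (L → ℂ) → (G → ℂ))
    (R : (L → ℂ) → Finset (G → ℂ)) (hS : IsCoherenceSystem (inducedIrrAbove K ⊥) τ R) (hodd : Odd (Nat.card L))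
    (hnil : Group.IsNilpotent K) (hH₁K : ⁅K, K⁆ < K) (hKL : K < ⊤)
    (hfrob : ∀ k ∈ K, k ∉ ⁅K, K⁆ → ∀ x : L, x * k * x⁻¹ * k⁻¹ ∈ ⁅K, K⁆ → x ∈ K)
    (Z : Subgroup L) [hZn : Z.Normal] (hZ1 : Z ≠ ⊥) (hZK : Z ≤ K) (hZc : ∀ z ∈ Z, ∀ k ∈ K, z * k = k * z)
    (hirr : ∀ χ ∈ inducedIrrAbove K ⊥ \ inducedIrrAbove K Z, IsIrrCharacter L χ) :
    IsCoherent (inducedIrrAbove K ⊥ \ inducedIrrAbove K Z) {1}ᶜ τ := by
  classical
  by_cases hpow : ∃ p m : ℕ, p.Prime ∧ Nat.card K = p ^ m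
  · obtain ⟨p, m, hp, hcard⟩ := hpow
    haveI : Fact p.Prime := ⟨hp⟩
    exact coh_diff_ppower K τ R hS hodd hcard hH₁K hfrob Z hZ1 hZK hZc hirr
  · -- not a prime power
    have hbot : ((⊥ : Subgroup L).subgroupOf K).Normal := inferInstance
    haveI : Group.IsSolvable K := hsolv
    have hfull := Cfsg.Agent.S1521.result K hsolv τ R hS hodd ⊥ bot_le
      (nilpotent_of_surjective _ (QuotientGroup.mk'_surjective _)) (⁅K, K⁆) (by simp) hH₁K hKL hfrob
      (Or.inr (Or.inr (Or.inl (by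
        rintro ⟨p, m, hp, h⟩
        apply hpow
        refine ⟨p, m, hp, ?_⟩
        rw [← h]
        simp [Subgroup.relIndex, Subgroup.subgroupOf_bot_eq_bot]))))
    obtain ⟨χ, hχ⟩ := diff_nonempty K Z hZK hZ1 hirr
    refine coh_restrict hfull (fun φ h => ?_) ⟨χ - conjFun χ, system_sub_conj_mem hS Set.diff_subset
      (fun φ h => diff_conj K Z h) hχ, ?_⟩
    · refine inducedIrrAbove_subset K ⊥ ?_
      exact h.1
    · intro h
      exact hS.conj_ne χ hχ.1 (sub_eq_zero.mp h).symm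

end Main

end Cfsg.Agent.H06
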