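import Cfsg.Agent.Lib.H06.CharLin3
import Cfsg.Agent.Lib.H06.CharGalois
import Cfsg.Agent.Lib.H06.CharVirtual
import Cfsg.Agent.Lib.H21.ModP
import Mathlib.NumberTheory.Cyclotomic.Gal
import Mathlib.NumberTheory.LSeries.PrimesInAP

/-!
# Uniqueness of cyclic TI families, and rationality
-/

set_option autoImplicit false

open Cfsg

namespace Cfsg.Agent.H06

open Cfsg.Agent.H21

universe u

section Abstract

variable {X : Type u} [Group X] [Fintype X]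

theorem SignedIrr.neg {φ : X → ℂ} (h : SignedIrr φ) : SignedIrr (-φ) := by
  rcases h with h | h
  · right
    simpa using h
  · left
    exact h

/-- If a signed irreducible has inner product one with a sum of three signed irreducibles, it is one of them. -/
theorem mem_of_inner_sum {x' x y z : X → ℂ} (hx' : SignedIrr x') (hx : SignedIrr x) (hy : SignedIrr y)
    (hz : SignedIrr z) (h : classInner x' x + classInner x' y + classInner x' z = 1) :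
    x' = x ∨ x' = y ∨ x' = z := by
  have key : ∀ e : X → ℂ, SignedIrr e → x' = e ∨ classInner x' e = 0 ∨ classInner x' e = -1 := by
    intro e he
    by_cases h0 : classInner x' e = 0
    · exact Or.inr (Or.inl h0)
    · obtain ⟨s, hs, h1, h2⟩ := SignedIrr.inner_cases hx' he h0
      rcases hs with rfl | rfl
      · left
        rw [h1]
        simp
      · right
        right
        exact h2
  rcases key x hx with h1 | h1 | h1
  · exact Or.inl h1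
  all_goals
    rcases key y hy with h2 | h2 | h2
    · exact Or.inr (Or.inl h2)
    all_goals
      rcases key z hz with h3 | h3 | h3
      · exact Or.inr (Or.inr h3)
      all_goals
        exfalso
        rw [h1, h2, h3] at h
        norm_num at h

/-- An abstract uniqueness principle for orthonormal signed families. -/
theorem abs_unique {I : Type*} {χ χ' : I → X → ℂ} (hs : ∀ i, SignedIrr (χ i)) (hs' : ∀ i, SignedIrr (χ' i))
    (ho : ∀ i j, i ≠ j → classInner (χ i) (χ j) = 0) (ho' : ∀ i j, i ≠ j → classInner (χ' i) (χ' j) = 0)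
    {a b c b' c' : I} (hab : a ≠ b) (hac : a ≠ c) (hab' : a ≠ b') (hac' : a ≠ c')
    (hbb' : b ≠ b') (hbc' : b ≠ c') (hcb' : c ≠ b') (hcc' : c ≠ c')
    (h1 : χ c - χ a - χ b = χ' c - χ' a - χ' b) (h2 : χ c' - χ a - χ b' = χ' c' - χ' a - χ' b') :
    χ' a = χ a := by
  have hx' : SignedIrr (-χ' a) := (hs' a).neg
  have e1 : classInner (-χ' a) (-χ a) + classInner (-χ' a) (-χ b) + classInner (-χ' a) (χ c) = 1 := by
    have h3 : classInner (-χ' a) (χ c - χ a - χ b) = 1 := by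
      rw [h1, classInner_sub_right', classInner_sub_right', classInner_neg_left', classInner_neg_left',
        classInner_neg_left', ho' a c hac, ho' a b hab, (hs' a).inner_self]
      ring
    rw [classInner_sub_right', classInner_sub_right'] at h3
    rw [classInner_neg_right', classInner_neg_right']
    linear_combination h3
  have e2 : classInner (-χ' a) (-χ a) + classInner (-χ' a) (-χ b') + classInner (-χ' a) (χ c') = 1 := by
    have h3 : classInner (-χ' a) (χ c' - χ a - χ b') = 1 := by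
      rw [h2, classInner_sub_right', classInner_sub_right', classInner_neg_left', classInner_neg_left',
        classInner_neg_left', ho' a c' hac', ho' a b' hab', (hs' a).inner_self]
      ring
    rw [classInner_sub_right', classInner_sub_right'] at h3
    rw [classInner_neg_right', classInner_neg_right']
    linear_combination h3
  have m1 := mem_of_inner_sum hx' (hs a).neg (hs b).neg (hs c) e1
  have m2 := mem_of_inner_sum hx' (hs a).neg (hs b').neg (hs c') e2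
  have hne : ∀ {i j : I}, i ≠ j → ∀ s : X → ℂ, (s = χ i ∨ s = -χ i) → (s = χ j ∨ s = -χ j) → False := by
    intro i j hij s hi hj
    have h0 := ho i j hij
    have hself := (hs j).inner_self
    rcases hi with rfl | rfl <;> rcases hj with hj | hj
    · rw [hj, hself] at h0
      exact one_ne_zero h0
    · rw [hj, classInner_neg_left', hself] at h0
      norm_num at h0
    · have : χ i = -χ j := by rw [← hj, neg_neg]
      rw [this, classInner_neg_left', hself] at h0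
      norm_num at h0
    · have : χ i = χ j := neg_injective hj
      rw [this, hself] at h0
      exact one_ne_zero h0
  rcases m1 with m1 | m1 | m1
  · exact neg_injective m1
  · rcases m2 with m2 | m2 | m2
    · exact neg_injective m2
    · exact (hne hbb' _ (Or.inr m1) (Or.inr m2)).elim
    · exact (hne hbc' _ (Or.inr m1) (Or.inl m2)).elim
  · rcases m2 with m2 | m2 | m2
    · exact neg_injective m2
    · exact (hne hcb' _ (Or.inl m1) (Or.inr m2)).elim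
    · exact (hne hcc' _ (Or.inl m1) (Or.inl m2)).elim

end Abstract

section Family

variable {G : Type u} [Group G] [Fintype G] {W₁ W₂ : Subgroup G}

/-- Two distinct nontrivial characters trivial on `W₁`, given `|W₂| ≥ 3`. -/
theorem exists_two_nontrivial {I : Type*} [Finite I] [One I] (h : 3 ≤ Nat.card I) :
    ∃ a b : I, a ≠ 1 ∧ b ≠ 1 ∧ a ≠ b := by
  classical
  haveI : Fintype I := Fintype.ofFinite _
  rw [Nat.card_eq_fintype_card] at h
  have h2 : 1 < (Finset.univ.erase (1 : I)).card := by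
    rw [Finset.card_erase_of_mem (Finset.mem_univ _), Finset.card_univ]
    omega
  obtain ⟨a, ha, b, hb, hab⟩ := Finset.one_lt_card.mp h2
  exact ⟨a, b, (Finset.mem_erase.mp ha).1, (Finset.mem_erase.mp hb).1, hab⟩

/-- A cyclic TI family is determined by its induction identity. -/
theorem family_unique (hW : IsSelfNormalizingCyclic W₁ W₂) (hodd : Odd (Nat.card ↥(W₁ ⊔ W₂)))
    {χ χ' : (↥(W₁ ⊔ W₂) →* ℂˣ) → G → ℂ}
    (hs : ∀ i, SignedIrr (χ i)) (hs' : ∀ i, SignedIrr (χ' i))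
    (ho : ∀ i j, i ≠ j → classInner (χ i) (χ j) = 0) (ho' : ∀ i j, i ≠ j → classInner (χ' i) (χ' j) = 0)
    (h1 : χ 1 = χ' 1)
    (hind : ∀ φ ψ : ↥(W₁ ⊔ W₂) →* ℂˣ, φ ≠ 1 → ψ ≠ 1 →
      (∀ w : ↥(W₁ ⊔ W₂), (w : G) ∈ W₂ → φ w = 1) → (∀ w : ↥(W₁ ⊔ W₂), (w : G) ∈ W₁ → ψ w = 1) →
      χ (φ * ψ) - χ φ - χ ψ = χ' (φ * ψ) - χ' φ - χ' ψ) : χ' = χ := by
  classical
  obtain ⟨hW₁, hW₂, hdisj, hcomm, hcyc, -⟩ := id hW
  haveI : Finite (↥(W₁ ⊔ W₂) →* ℂˣ) := finite_dual' (fun a b => Subtype.ext (comm_of_isCyclic hcyc a.2 b.2))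
  have hcardW := card_sup_of_commute hcomm hdisj
  have hw₁ : 3 ≤ Nat.card W₁ := by
    rw [hcardW] at hodd
    obtain ⟨r, hr⟩ := (Nat.odd_mul.mp hodd).1
    have : Nat.card W₁ ≠ 1 := fun h => hW₁ ((Subgroup.card_eq_one).mp (by simpa using h))
    omega
  have hw₂ : 3 ≤ Nat.card W₂ := by
    rw [hcardW] at hodd
    obtain ⟨r, hr⟩ := (Nat.odd_mul.mp hodd).2
    have : Nat.card W₂ ≠ 1 := fun h => hW₂ ((Subgroup.card_eq_one).mp (by simpa using h))
    omega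
  have hhm : ∀ {a b : ↥(W₁ ⊔ W₂) →* ℂˣ}, a * b = b * a := fun {a b} => mul_comm a b
  -- nontrivial elements in each annihilator
  let D₁ := {φ : ↥(W₁ ⊔ W₂) →* ℂˣ // ∀ w : ↥(W₁ ⊔ W₂), (w : G) ∈ W₂ → φ w = 1}
  let D₂ := {ψ : ↥(W₁ ⊔ W₂) →* ℂˣ // ∀ w : ↥(W₁ ⊔ W₂), (w : G) ∈ W₁ → ψ w = 1}
  have h1D₁ : ∀ w : ↥(W₁ ⊔ W₂), (w : G) ∈ W₂ → (1 : ↥(W₁ ⊔ W₂) →* ℂˣ) w = 1 := fun _ _ => rfl
  have h1D₂ : ∀ w : ↥(W₁ ⊔ W₂), (w : G) ∈ W₁ → (1 : ↥(W₁ ⊔ W₂) →* ℂˣ) w = 1 := fun _ _ => rfl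
  have hone : ∀ {ω : ↥(W₁ ⊔ W₂) →* ℂˣ}, (∀ w : ↥(W₁ ⊔ W₂), (w : G) ∈ W₂ → ω w = 1) →
      (∀ w : ↥(W₁ ⊔ W₂), (w : G) ∈ W₁ → ω w = 1) → ω = 1 := by
    intro ω h2 h3
    exact hom_ext_sup hcomm (by simpa using h3) (by simpa using h2)
  have hmr : ∀ a : ↥(W₁ ⊔ W₂) →* ℂˣ, a * 1 = a := fun a => MonoidHom.ext fun w => by simp
  have hml : ∀ a : ↥(W₁ ⊔ W₂) →* ℂˣ, 1 * a = a := fun a => MonoidHom.ext fun w => by simp
  obtain ⟨a₁, a₂, ha₁, ha₂, ha₁₂⟩ : ∃ a₁ a₂ : ↥(W₁ ⊔ W₂) →* ℂˣ, (a₁ ≠ 1 ∧ ∀ w : ↥(W₁ ⊔ W₂), (w : G) ∈ W₂ → a₁ w = 1) ∧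
      (a₂ ≠ 1 ∧ ∀ w : ↥(W₁ ⊔ W₂), (w : G) ∈ W₂ → a₂ w = 1) ∧ a₁ ≠ a₂ := by
    letI : One D₁ := ⟨⟨1, h1D₁⟩⟩
    have hc : 3 ≤ Nat.card D₁ := by
      rw [card_ann_eq hcomm hdisj hcyc]
      exact hw₁
    obtain ⟨a, b, ha, hb, hab⟩ := exists_two_nontrivial hc
    refine ⟨a.1, b.1, ⟨fun h => ha (Subtype.ext h), a.2⟩, ⟨fun h => hb (Subtype.ext h), b.2⟩,
      fun h => hab (Subtype.ext h)⟩
  obtain ⟨b₁, b₂, hb₁, hb₂, hb₁₂⟩ : ∃ b₁ b₂ : ↥(W₁ ⊔ W₂) →* ℂˣ, (b₁ ≠ 1 ∧ ∀ w : ↥(W₁ ⊔ W₂), (w : G) ∈ W₁ → b₁ w = 1) ∧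
      (b₂ ≠ 1 ∧ ∀ w : ↥(W₁ ⊔ W₂), (w : G) ∈ W₁ → b₂ w = 1) ∧ b₁ ≠ b₂ := by
    letI : One D₂ := ⟨⟨1, h1D₂⟩⟩
    have hc : 3 ≤ Nat.card D₂ := by
      rw [card_ann_eq' hcomm hdisj hcyc]
      exact hw₂
    obtain ⟨a, b, ha, hb, hab⟩ := exists_two_nontrivial hc
    refine ⟨a.1, b.1, ⟨fun h => ha (Subtype.ext h), a.2⟩, ⟨fun h => hb (Subtype.ext h), b.2⟩,
      fun h => hab (Subtype.ext h)⟩
  -- general inequalities
  have hmu : ∀ {φ φ' ψ ψ' : ↥(W₁ ⊔ W₂) →* ℂˣ}, (∀ w : ↥(W₁ ⊔ W₂), (w : G) ∈ W₂ → φ w = 1) →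
      (∀ w : ↥(W₁ ⊔ W₂), (w : G) ∈ W₂ → φ' w = 1) → (∀ w : ↥(W₁ ⊔ W₂), (w : G) ∈ W₁ → ψ w = 1) →
      (∀ w : ↥(W₁ ⊔ W₂), (w : G) ∈ W₁ → ψ' w = 1) → (φ * ψ = φ' * ψ' ↔ φ = φ' ∧ ψ = ψ') :=
    fun h1 h2 h3 h4 => mul_eq_mul_iff hcomm h1 h2 h3 h4
  have hneq : ∀ {φ ψ : ↥(W₁ ⊔ W₂) →* ℂˣ}, φ ≠ 1 → (∀ w : ↥(W₁ ⊔ W₂), (w : G) ∈ W₂ → φ w = 1) →
      (∀ w : ↥(W₁ ⊔ W₂), (w : G) ∈ W₁ → ψ w = 1) → φ ≠ ψ := by
    intro φ ψ hφ h2 h3 e
    apply hφ
    refine hone h2 ?_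
    rw [e]
    exact h3
  -- part one : characters trivial on `W₂`
  have part1 : ∀ φ : ↥(W₁ ⊔ W₂) →* ℂˣ, φ ≠ 1 → (∀ w : ↥(W₁ ⊔ W₂), (w : G) ∈ W₂ → φ w = 1) → χ' φ = χ φ := by
    intro φ hφ hφ₂
    have hne1 : φ ≠ φ * b₁ := fun e => hb₁.1 (by
      have := (hmu hφ₂ hφ₂ h1D₂ hb₁.2).mp (((hmr φ).trans e))
      exact this.2.symm)
    have hne2 : φ ≠ φ * b₂ := fun e => hb₂.1 (by
      have := (hmu hφ₂ hφ₂ h1D₂ hb₂.2).mp (((hmr φ).trans e))
      exact this.2.symm)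
    have hne3 : b₁ ≠ φ * b₂ := fun e => hφ (by
      have := (hmu h1D₁ hφ₂ hb₁.2 hb₂.2).mp (((hml b₁).trans e))
      exact this.1.symm)
    have hne4 : φ * b₁ ≠ b₂ := fun e => hφ (by
      have := (hmu hφ₂ h1D₁ hb₁.2 hb₂.2).mp (e.trans (hml b₂).symm)
      exact this.1)
    have hne5 : φ * b₁ ≠ φ * b₂ := fun e => hb₁₂ ((hmu hφ₂ hφ₂ hb₁.2 hb₂.2).mp e).2
    exact abs_unique hs hs' ho ho' (hneq hφ hφ₂ hb₁.2) hne1 (hneq hφ hφ₂ hb₂.2) hne2 hb₁₂ hne3 hne4 hne5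
      (hind φ b₁ hφ hb₁.1 hφ₂ hb₁.2) (hind φ b₂ hφ hb₂.1 hφ₂ hb₂.2)
  have part2 : ∀ ψ : ↥(W₁ ⊔ W₂) →* ℂˣ, ψ ≠ 1 → (∀ w : ↥(W₁ ⊔ W₂), (w : G) ∈ W₁ → ψ w = 1) → χ' ψ = χ ψ := by
    intro ψ hψ hψ₁
    have hne1 : ψ ≠ a₁ * ψ := fun e => ha₁.1 (by
      have := (hmu h1D₁ ha₁.2 hψ₁ hψ₁).mp (((hml ψ).trans e))
      exact this.1.symm)
    have hne2 : ψ ≠ a₂ * ψ := fun e => ha₂.1 (by
      have := (hmu h1D₁ ha₂.2 hψ₁ hψ₁).mp (((hml ψ).trans e))
      exact this.1.symm)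
    have hne3 : a₁ ≠ a₂ * ψ := fun e => hψ (by
      have := (hmu ha₁.2 ha₂.2 h1D₂ hψ₁).mp (((hmr a₁).trans e))
      exact this.2.symm)
    have hne4 : a₁ * ψ ≠ a₂ := fun e => hψ (by
      have := (hmu ha₁.2 ha₂.2 hψ₁ h1D₂).mp (e.trans (hmr a₂).symm)
      exact this.2)
    have hne5 : a₁ * ψ ≠ a₂ * ψ := fun e => ha₁₂ ((hmu ha₁.2 ha₂.2 hψ₁ hψ₁).mp e).1
    have e1 := hind a₁ ψ ha₁.1 hψ ha₁.2 hψ₁
    have e2 := hind a₂ ψ ha₂.1 hψ ha₂.2 hψ₁
    refine abs_unique (a := ψ) (b := a₁) (c := a₁ * ψ) (b' := a₂) (c' := a₂ * ψ) hs hs' ho ho'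
      (hneq ha₁.1 ha₁.2 hψ₁).symm hne1 (hneq ha₂.1 ha₂.2 hψ₁).symm hne2 ha₁₂ hne3 hne4 hne5 ?_ ?_
    · rw [sub_right_comm, e1, sub_right_comm]
    · rw [sub_right_comm, e2, sub_right_comm]
  funext ω
  obtain ⟨φ, ψ, hφ, hψ, rfl⟩ := exists_dual_decomp hcomm hdisj ω
  by_cases hφ1 : φ = 1
  · subst hφ1
    rw [hml]
    by_cases hψ1 : ψ = 1
    · rw [hψ1, h1]
    · exact part2 ψ hψ1 hψ
  by_cases hψ1 : ψ = 1
  · subst hψ1
    rw [hmr]
    exact part1 φ hφ1 hφ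
  have e := hind φ ψ hφ1 hψ1 hφ hψ
  rw [part1 φ hφ1 hφ, part2 ψ hψ1 hψ] at e
  have e2 := e
  rw [sub_left_inj, sub_left_inj] at e2
  exact e2.symm

end Family

section Pow

variable {G : Type u} [Group G] [Fintype G]

/-- Induction and the power maps. -/
theorem indFun_comp_pow (W : Subgroup G) {k : ℕ} (hk : k.Coprime (Nat.card G)) (f : W → ℂ) (g : G) :
    indFun W f (g ^ k) = indFun W (fun w => f (w ^ k)) g := by
  classical
  have hpow : ∀ y : G, y ^ k ∈ W ↔ y ∈ W := by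
    intro y
    constructor
    · intro h
      obtain ⟨m, hm⟩ := exists_pow_eq_self_of_coprime (hk.coprime_dvd_right (orderOf_dvd_natCard y))
      rw [← hm]
      exact W.pow_mem h m
    · exact fun h => W.pow_mem h k
  simp only [indFun]
  congr 1
  refine Finset.sum_congr rfl fun x _ => ?_
  have hconj : x⁻¹ * g ^ k * x = (x⁻¹ * g * x) ^ k := by
    have := conj_pow (a := x⁻¹) (b := g) (i := k)
    simpa using this.symm
  rw [hconj]
  by_cases hm : x⁻¹ * g * x ∈ W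
  · have h1 := extendByZero_coe W f ⟨(x⁻¹ * g * x) ^ k, (hpow _).mpr hm⟩
    have h2 := extendByZero_coe W (fun w => f (w ^ k)) ⟨x⁻¹ * g * x, hm⟩
    simp only at h1 h2
    rw [h1, h2]
    congr 1
  · rw [extendByZero_of_not_mem W f (fun h => hm ((hpow _).mp h)), extendByZero_of_not_mem W _ hm]

end Pow

section Rational

/-- A sum of `N`-th roots of unity which is invariant under all coprime powers is an integer. -/
theorem int_of_pow_invariant (N : ℕ) [NeZero N] (ζ : ℂ) (hζ : IsPrimitiveRoot ζ N) {ι : Type*} [Fintype ι]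
    (e : ι → ℕ) (hinv : ∀ k : ℕ, k.Coprime N → ∑ i, (ζ ^ k) ^ e i = ∑ i, ζ ^ e i) :
    ∃ n : ℤ, ∑ i, ζ ^ e i = n := by
  classical
  haveI : IsCyclotomicExtension {N} ℚ (CyclotomicField N ℚ) :=
    CyclotomicField.isCyclotomicExtension N ℚ
  haveI : FiniteDimensional ℚ (CyclotomicField N ℚ) :=
    IsCyclotomicExtension.finiteDimensional {N} ℚ _
  haveI : IsGalois ℚ (CyclotomicField N ℚ) := IsCyclotomicExtension.isGalois {N} ℚ _
  have hζK : IsPrimitiveRoot (IsCyclotomicExtension.zeta N ℚ (CyclotomicField N ℚ)) N :=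
    IsCyclotomicExtension.zeta_spec N ℚ (CyclotomicField N ℚ)
  set ζK := IsCyclotomicExtension.zeta N ℚ (CyclotomicField N ℚ) with hζKdef
  have hirr : Irreducible (Polynomial.cyclotomic N ℚ) :=
    Polynomial.cyclotomic.irreducible_rat (NeZero.pos N)
  let σ₀ : (CyclotomicField N ℚ) →ₐ[ℚ] ℂ := (hζK.embeddingsEquivPrimitiveRoots ℂ hirr).symm
    ⟨ζ, (mem_primitiveRoots (NeZero.pos N)).2 hζ⟩
  have hσ₀ : σ₀ ζK = ζ := by
    have := hζK.embeddingsEquivPrimitiveRoots_apply_coe ℂ hirr σ₀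
    rw [← this]
    simp [σ₀]
  let x : (CyclotomicField N ℚ) := ∑ i, ζK ^ e i
  have hσx : σ₀ x = ∑ i, ζ ^ e i := by
    simp [x, map_sum, map_pow, hσ₀]
  have hζKint : IsIntegral ℤ ζK :=
    IsIntegral.of_pow (NeZero.pos N) (by rw [hζK.pow_eq_one]; exact isIntegral_one)
  have hxint : IsIntegral ℤ x := IsIntegral.sum _ fun i _ => hζKint.pow _
  have hfix : ∀ τ : (CyclotomicField N ℚ) ≃ₐ[ℚ] (CyclotomicField N ℚ), τ x = x := by
    intro τ
    apply σ₀.toRingHom.injective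
    show σ₀ (τ x) = σ₀ x
    have h4 : τ ζK = ζK ^ (IsCyclotomicExtension.autEquivPow (CyclotomicField N ℚ) hirr τ : ZMod N).val :=
      (hζK.autToPow_spec ℚ τ).symm
    have hco : Nat.Coprime (IsCyclotomicExtension.autEquivPow (CyclotomicField N ℚ) hirr τ : ZMod N).val N :=
      ZMod.val_coe_unit_coprime _
    rw [hσx, ← hinv _ hco]
    simp only [x, map_sum, map_pow, h4, hσ₀]
  obtain ⟨q, hq⟩ := (IsGalois.mem_range_algebraMap_iff_fixed (F := ℚ) x).mpr hfix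
  have hqint : IsIntegral ℤ q := by
    have : IsIntegral ℤ (algebraMap ℚ (CyclotomicField N ℚ) q) := by
      rw [hq]
      exact hxint
    exact (isIntegral_algebraMap_iff (algebraMap ℚ (CyclotomicField N ℚ)).injective).mp this
  obtain ⟨n, hn⟩ := IsIntegrallyClosed.isIntegral_iff.1 hqint
  refine ⟨n, ?_⟩
  rw [← hσx, ← hq, AlgHom.commutes, ← hn]
  simp

/-- A character whose value at `g` is invariant under coprime powers takes an integer value there. -/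
theorem isCharacter_int_of_pow_invariant {G : Type u} [Group G] [Finite G] {χ : G → ℂ} (hχ : IsCharacter G χ)
    (g : G) (hinv : ∀ k : ℕ, k.Coprime (Nat.card G) → χ (g ^ k) = χ g) : ∃ n : ℤ, χ g = n := by
  classical
  obtain ⟨d, ρ, rfl⟩ := hχ
  obtain ⟨ι, _, b, μ, h1, h2, h3, _⟩ := exists_eigenbasis ρ g
  haveI hN : NeZero (Nat.card G) := ⟨Nat.card_pos.ne'⟩
  have hζ := Complex.isPrimitiveRoot_exp (Nat.card G) Nat.card_pos.ne'
  set ζ := Complex.exp (2 * Real.pi * Complex.I / (Nat.card G : ℕ)) with hζdef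
  have hμN : ∀ i, μ i ^ (Nat.card G) = 1 := by
    intro i
    obtain ⟨c, hc⟩ := orderOf_dvd_natCard g
    rw [hc, pow_mul, h2, one_pow]
  choose e he1 he2 using fun i => hζ.eq_pow_of_pow_eq_one (hμN i)
  have hk : ∀ k : ℕ, ∀ i, ρ (g ^ k) (b i) = (μ i ^ k) • b i := by
    intro k i
    induction k with
    | zero => simp
    | succ k ih =>
      rw [pow_succ, map_mul, Module.End.mul_apply, h1, map_smul, ih, smul_smul, pow_succ, mul_comm]
  have hchar : ∀ k : ℕ, ρ.character (g ^ k) = ∑ i, (ζ ^ k) ^ e i := by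
    intro k
    rw [Representation.character, trace_of_eigenbasis _ b _ (hk k)]
    refine Finset.sum_congr rfl fun i _ => ?_
    rw [← he2 i, ← pow_mul, ← pow_mul, mul_comm]
  have hg : ρ.character g = ∑ i, ζ ^ e i := by
    have := hchar 1
    simpa using this
  obtain ⟨n, hn⟩ := int_of_pow_invariant (Nat.card G) ζ hζ e (fun k hk' => by
    rw [← hchar k, hinv k hk', hg])
  exact ⟨n, hg.trans hn⟩

end Rational

end Cfsg.Agent.H06
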