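import Cfsg.Agent.Lib.H06.DadeIso2
import Cfsg.Agent.Lib.H06.CoprimeCoset
import Cfsg.Agent.Lib.H21.Adams

/-!
# Integrality of the Dade map: averages over subgroups.
-/

set_option autoImplicit false

namespace Cfsg.Agent.H06.DadeGen

open Cfsg Cfsg.Agent.H21 Cfsg.Agent.H06

universe u

section Avg

variable {G : Type u} [Group G] [Fintype G]

open Classical in
/-- The average of `f(y u)` over `u ∈ R`. -/
noncomputable def avg (R : Subgroup G) (f : G → ℂ) (y : G) : ℂ :=
  (Nat.card R : ℂ)⁻¹ * ∑ u : G, if u ∈ R then f (y * u) else 0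

theorem avg_isCharacter {N : Type u} [Group N] (i : N →* G) (R : Subgroup G)
    (hN : ∀ y : N, ∀ r ∈ R, i y * r * (i y)⁻¹ ∈ R) {χ : G → ℂ} (hχ : IsCharacter G χ) :
    IsCharacter N (fun y => avg R χ (i y)) := by
  classical
  obtain ⟨n, ρ, rfl⟩ := hχ
  let π : Module.End ℂ (Fin n → ℂ) :=
    (Nat.card R : ℂ)⁻¹ • ∑ u : G, if u ∈ R then ρ u else 0
  have hRne : (Nat.card R : ℂ) ≠ 0 := Nat.cast_ne_zero.mpr Nat.card_pos.ne'
  have hcount : ((Finset.univ.filter fun u : G => u ∈ R).card : ℂ) = Nat.card R := by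
    rw [Nat.card_eq_fintype_card, ← Fintype.card_subtype]
  have hleft : ∀ r ∈ R, ρ r * π = π := by
    intro r hr
    simp only [π]
    rw [mul_smul_comm, Finset.mul_sum]
    congr 1
    refine Fintype.sum_equiv (Equiv.mulLeft r) _ _ fun u => ?_
    show ρ r * (if u ∈ R then ρ u else 0) = if r * u ∈ R then ρ (r * u) else 0
    by_cases hu : u ∈ R
    · rw [if_pos hu, if_pos (R.mul_mem hr hu), map_mul]
    · rw [if_neg hu, if_neg (fun h => hu (by
        have := R.mul_mem (R.inv_mem hr) h
        simpa using this)), mul_zero]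
  have hidem : π * π = π := by
    conv_lhs => arg 1; rw [show π = (Nat.card R : ℂ)⁻¹ • ∑ u : G, if u ∈ R then ρ u else 0 from rfl]
    rw [smul_mul_assoc, Finset.sum_mul]
    have h1 : ∀ u : G, (if u ∈ R then ρ u else 0) * π = if u ∈ R then π else 0 := by
      intro u
      split_ifs with hu
      · exact hleft u hu
      · simp
    simp only [h1]
    rw [Finset.sum_ite, Finset.sum_const_zero, add_zero, Finset.sum_const]
    rw [← Nat.cast_smul_eq_nsmul ℂ, smul_smul, hcount, inv_mul_cancel₀ hRne, one_smul]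
  have hcomm : ∀ y : N, (ρ.comp i) y * π = π * (ρ.comp i) y := by
    intro y
    simp only [MonoidHom.comp_apply, π]
    rw [mul_smul_comm, smul_mul_assoc, Finset.mul_sum, Finset.sum_mul]
    congr 1
    refine Fintype.sum_equiv (MulAut.conj (i y)).toEquiv _ _ fun u => ?_
    show ρ (i y) * (if u ∈ R then ρ u else 0) =
      (if i y * u * (i y)⁻¹ ∈ R then ρ (i y * u * (i y)⁻¹) else 0) * ρ (i y)
    have hiff : i y * u * (i y)⁻¹ ∈ R ↔ u ∈ R := by
      constructor
      · intro h
        have := hN y⁻¹ _ h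
        simpa [map_inv, mul_assoc] using this
      · exact hN y u
    by_cases hu : u ∈ R
    · rw [if_pos hu, if_pos (hiff.mpr hu), ← map_mul, ← map_mul]
      congr 1
      group
    · rw [if_neg hu, if_neg (fun h => hu (hiff.mp h)), mul_zero, zero_mul]
  have h := isCharacter_of_idempotent (ρ.comp i) π hidem hcomm
  convert h using 1
  funext y
  simp only [avg, MonoidHom.comp_apply, π]
  rw [mul_smul_comm, map_smul, smul_eq_mul]
  congr 1
  rw [Finset.mul_sum, map_sum]
  refine Finset.sum_congr rfl fun u _ => ?_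
  split_ifs with hu
  · rw [← map_mul]
    rfl
  · simp

/-- **Coset lemma**: for `a` normalizing `R` of coprime order, the average over `R` of a class function
on `aR` equals the average over `C_R(a)`. -/
theorem avg_coprime {R : Subgroup G} {a : G} (hn : ∀ x ∈ R, a * x * a⁻¹ ∈ R)
    (hcop : (orderOf a).Coprime (Nat.card R)) {f : G → ℂ} (hf : IsClassFunction G f) :
    avg R f a = avg (R ⊓ Subgroup.centralizer ({a} : Set G)) f a := by
  classical
  set C : Subgroup G := R ⊓ Subgroup.centralizer ({a} : Set G) with hC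
  have hCR : ∀ c, c ∈ C → c ∈ R := fun c hc => (Subgroup.mem_inf.mp hc).1
  have hCa : ∀ c, c ∈ C → c * a = a * c := by
    intro c hc
    exact (Subgroup.mem_centralizer_iff.mp (Subgroup.mem_inf.mp hc).2 a rfl).symm
  have hCmem : ∀ c, c ∈ R → c * a = a * c → c ∈ C := by
    intro c hc hca
    refine Subgroup.mem_inf.mpr ⟨hc, Subgroup.mem_centralizer_iff.mpr ?_⟩
    rintro _ rfl
    exact hca.symm
  let Rf : Finset G := Finset.univ.filter (· ∈ R)
  let Cf : Finset G := Finset.univ.filter (· ∈ C)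
  have hRf : (Rf.card : ℂ) = Nat.card R := by
    simp only [Rf]
    rw [Nat.card_eq_fintype_card, ← Fintype.card_subtype]
  have hCf : (Cf.card : ℂ) = Nat.card C := by
    simp only [Cf]
    rw [Nat.card_eq_fintype_card, ← Fintype.card_subtype]
  have hRne : (Nat.card R : ℂ) ≠ 0 := Nat.cast_ne_zero.mpr Nat.card_pos.ne'
  have hCne : (Nat.card C : ℂ) ≠ 0 := Nat.cast_ne_zero.mpr Nat.card_pos.ne'
  let g' : G × G → G := fun p => p.1 * (p.2 * a) * p.1⁻¹ * a⁻¹
  have hmaps : ∀ p ∈ Rf ×ˢ Cf, g' p ∈ Rf := by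
    intro p hp
    obtain ⟨h1, h2⟩ := Finset.mem_product.mp hp
    have hp1 : p.1 ∈ R := (Finset.mem_filter.mp h1).2
    have hp2 : p.2 ∈ C := (Finset.mem_filter.mp h2).2
    refine Finset.mem_filter.mpr ⟨Finset.mem_univ _, ?_⟩
    have e : g' p = p.1 * p.2 * (a * p.1⁻¹ * a⁻¹) := by
      simp only [g']
      group
    rw [e]
    exact R.mul_mem (R.mul_mem hp1 (hCR _ hp2)) (hn _ (R.inv_mem hp1))
  -- the fibres have size `|C|`
  have hfib : ∀ u ∈ Rf, ((Rf ×ˢ Cf).filter fun p => g' p = u).card = Cf.card := by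
    intro u hu
    have huR : u ∈ R := (Finset.mem_filter.mp hu).2
    obtain ⟨x, hx, c₀, hc₀, hc₀a, he⟩ := exists_conj_mul_eq hn hcop huR
    have hc₀C : c₀ ∈ C := hCmem c₀ hc₀ hc₀a
    symm
    refine Finset.card_bij (fun s _ => (x⁻¹ * s, s⁻¹ * c₀ * s)) ?_ ?_ ?_
    · intro s hs
      have hsC : s ∈ C := (Finset.mem_filter.mp hs).2
      refine Finset.mem_filter.mpr ⟨Finset.mem_product.mpr ⟨?_, ?_⟩, ?_⟩
      · exact Finset.mem_filter.mpr ⟨Finset.mem_univ _, R.mul_mem (R.inv_mem hx) (hCR _ hsC)⟩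
      · exact Finset.mem_filter.mpr ⟨Finset.mem_univ _, C.mul_mem (C.mul_mem (C.inv_mem hsC) hc₀C) hsC⟩
      · simp only [g']
        have h1 : s⁻¹ * c₀ * s * a = s⁻¹ * (c₀ * a) * s := by
          have := hCa s hsC
          calc s⁻¹ * c₀ * s * a = s⁻¹ * c₀ * (s * a) := by group
            _ = s⁻¹ * c₀ * (a * s) := by rw [this]
            _ = _ := by group
        rw [h1, ← he]
        group
    · intro s₁ _ s₂ _ h
      have := (Prod.ext_iff.mp h).1
      exact mul_left_cancel this
    · rintro ⟨t, c⟩ hp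
      obtain ⟨hp1, hp2⟩ := Finset.mem_filter.mp hp
      obtain ⟨ht, hc⟩ := Finset.mem_product.mp hp1
      have htR : t ∈ R := (Finset.mem_filter.mp ht).2
      have hcC : c ∈ C := (Finset.mem_filter.mp hc).2
      simp only [g'] at hp2
      -- `s = x t`
      set s := x * t with hs
      have hsR : s ∈ R := R.mul_mem hx htR
      have e1 : (s * c * s⁻¹) * (s * a * s⁻¹) = c₀ * a := by
        rw [← he, ← hp2, hs]
        group
      have hpow : (s * a * s⁻¹) ^ orderOf a = 1 := by
        rw [conj_pow, pow_orderOf_eq_one]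
        simp
      have hcomm1 : Commute (s * c * s⁻¹) (s * a * s⁻¹) := by
        have : Commute c a := hCa c hcC
        exact (this.conj s)
      obtain ⟨e2, e3⟩ := coprime_decomp_unique (H := R) (n := orderOf a) hcop.symm
        (R.mul_mem (R.mul_mem hsR (hCR c hcC)) (R.inv_mem hsR)) hc₀ hpow (pow_orderOf_eq_one a)
        hcomm1 hc₀a e1
      have hsa : s * a = a * s := by
        have := congrArg (· * s) e3
        simpa using this
      have hsC : s ∈ C := hCmem s hsR hsa
      refine ⟨s, Finset.mem_filter.mpr ⟨Finset.mem_univ _, hsC⟩, ?_⟩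
      apply Prod.ext
      · simp only [hs]
        group
      · simp only
        rw [← e2]
        group
  have hdouble : (Cf.card : ℂ) * ∑ u ∈ Rf, f (u * a) = (Rf.card : ℂ) * ∑ c ∈ Cf, f (c * a) := by
    have h1 : ∑ p ∈ Rf ×ˢ Cf, f (g' p * a) = ∑ u ∈ Rf, ∑ p ∈ (Rf ×ˢ Cf).filter (fun p => g' p = u),
        f (g' p * a) := (Finset.sum_fiberwise_of_maps_to hmaps _).symm
    have h2 : ∀ u ∈ Rf, ∑ p ∈ (Rf ×ˢ Cf).filter (fun p => g' p = u), f (g' p * a) =
        (Cf.card : ℂ) * f (u * a) := by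
      intro u hu
      rw [Finset.sum_congr rfl (g := fun _ => f (u * a))
        (fun p hp => by rw [(Finset.mem_filter.mp hp).2]), Finset.sum_const, hfib u hu]
      simp
    have h3 : ∑ p ∈ Rf ×ˢ Cf, f (g' p * a) = (Rf.card : ℂ) * ∑ c ∈ Cf, f (c * a) := by
      rw [Finset.sum_product]
      have h4 : ∀ t ∈ Rf, ∑ c ∈ Cf, f (g' (t, c) * a) = ∑ c ∈ Cf, f (c * a) := by
        intro t _
        refine Finset.sum_congr rfl fun c _ => ?_
        simp only [g']
        have e : t * (c * a) * t⁻¹ * a⁻¹ * a = t * (c * a) * t⁻¹ := by group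
        rw [e]
        exact hf _ _
      rw [Finset.sum_congr rfl h4, Finset.sum_const]
      simp
    rw [h1, Finset.sum_congr rfl h2, ← Finset.mul_sum] at h3
    exact h3
  have hR' : ∑ u : G, (if u ∈ R then f (a * u) else 0) = ∑ u ∈ Rf, f (u * a) := by
    rw [Finset.sum_ite, Finset.sum_const_zero, add_zero]
    refine Finset.sum_congr rfl fun u _ => ?_
    have := hf (a * u) a⁻¹
    simp only [inv_inv] at this
    rw [← this]
    congr 1
    group
  have hC' : ∑ u : G, (if u ∈ C then f (a * u) else 0) = ∑ u ∈ Cf, f (u * a) := by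
    rw [Finset.sum_ite, Finset.sum_const_zero, add_zero]
    refine Finset.sum_congr rfl fun u _ => ?_
    have := hf (a * u) a⁻¹
    simp only [inv_inv] at this
    rw [← this]
    congr 1
    group
  simp only [avg]
  rw [hR', hC']
  rw [hRf, hCf] at hdouble
  field_simp
  linear_combination hdouble

end Avg

end Cfsg.Agent.H06.DadeGen
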