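import Cfsg.Agent.Lib.H06.CharVirtual
import Cfsg.Prelude.Def_OddOrderChar

/-!
# The Dade set-up: structure of `a · H a`, and the master counting formula
-/

set_option autoImplicit false

namespace Cfsg.Agent.H06

open Cfsg Cfsg.Agent.H21
open scoped ComplexConjugate

universe u

section Decomp

variable {G : Type u} [Group G] [Finite G]

/-- In a commuting coprime product `x * y`, `x` is a power of the product. -/
theorem exists_pow_eq_left_of_coprime {x y : G} (hc : Commute x y)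
    (hco : Nat.Coprime (orderOf x) (orderOf y)) : ∃ m : ℕ, (x * y) ^ m = x ∧ (x * y) ^ (m + 1) = x * (x * y) := by
  refine ⟨Nat.chineseRemainder hco 1 0, ?_, ?_⟩
  · rw [hc.mul_pow]
    have h1 := (Nat.chineseRemainder hco 1 0).2
    have h2 : x ^ (Nat.chineseRemainder hco 1 0 : ℕ) = x := by
      have := (pow_eq_pow_iff_modEq (x := x) (n := ((Nat.chineseRemainder hco 1 0 : ℕ))) (m := 1)).mpr h1.1
      simpa using this
    have h3 : y ^ (Nat.chineseRemainder hco 1 0 : ℕ) = 1 := by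
      have := (pow_eq_pow_iff_modEq (x := y) (n := ((Nat.chineseRemainder hco 1 0 : ℕ))) (m := 0)).mpr h1.2
      simpa using this
    rw [h2, h3, mul_one]
  · rw [pow_succ, hc.mul_pow]
    have h1 := (Nat.chineseRemainder hco 1 0).2
    have h2 : x ^ (Nat.chineseRemainder hco 1 0 : ℕ) = x := by
      have := (pow_eq_pow_iff_modEq (x := x) (n := ((Nat.chineseRemainder hco 1 0 : ℕ))) (m := 1)).mpr h1.1
      simpa using this
    have h3 : y ^ (Nat.chineseRemainder hco 1 0 : ℕ) = 1 := by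
      have := (pow_eq_pow_iff_modEq (x := y) (n := ((Nat.chineseRemainder hco 1 0 : ℕ))) (m := 0)).mpr h1.2
      simpa using this
    rw [h2, h3, mul_one]

/-- Uniqueness of a commuting coprime factorisation. -/
theorem coprime_factor_unique {x y x' y' : G} (hc : Commute x y) (hc' : Commute x' y')
    (h : x * y = x' * y') (h1 : Nat.Coprime (orderOf x) (orderOf y))
    (h2 : Nat.Coprime (orderOf x') (orderOf y')) (h3 : Nat.Coprime (orderOf x) (orderOf y'))
    (h4 : Nat.Coprime (orderOf x') (orderOf y)) : x = x' ∧ y = y' := by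
  obtain ⟨m, hm, -⟩ := exists_pow_eq_left_of_coprime hc h1
  obtain ⟨m', hm', -⟩ := exists_pow_eq_left_of_coprime hc' h2
  obtain ⟨n, hn, -⟩ := exists_pow_eq_left_of_coprime hc.symm (Nat.Coprime.symm h1)
  obtain ⟨n', hn', -⟩ := exists_pow_eq_left_of_coprime hc'.symm (Nat.Coprime.symm h2)
  have hn2 : (x * y) ^ n = y := by
    rw [hc.eq]
    exact hn
  have hn2' : (x * y) ^ n' = y' := by
    rw [h, hc'.eq]
    exact hn'
  have hm2' : (x * y) ^ m' = x' := by
    rw [h]
    exact hm'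
  -- all four are powers of `z = x * y`
  set z := x * y with hz
  have e : x'⁻¹ * x = y' * y⁻¹ := by
    have : x' * y' = x * y := h.symm
    calc x'⁻¹ * x = x'⁻¹ * (x * y) * y⁻¹ := by group
      _ = x'⁻¹ * (x' * y') * y⁻¹ := by rw [this]
      _ = y' * y⁻¹ := by group
  have c1 : Commute x'⁻¹ x := by
    rw [← hm2', ← hm]
    exact ((Commute.refl z).pow_pow _ _).inv_left
  have c2 : Commute y' y⁻¹ := by
    rw [← hn2', ← hn2]
    exact ((Commute.refl z).pow_pow _ _).inv_right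
  have o1 : orderOf (x'⁻¹ * x) ∣ orderOf x' * orderOf x := by
    refine orderOf_dvd_of_pow_eq_one ?_
    rw [c1.mul_pow, pow_mul, inv_pow, pow_orderOf_eq_one, inv_one, one_pow, one_mul, mul_comm, pow_mul,
      pow_orderOf_eq_one, one_pow]
  have o2 : orderOf (y' * y⁻¹) ∣ orderOf y' * orderOf y := by
    refine orderOf_dvd_of_pow_eq_one ?_
    rw [c2.mul_pow, pow_mul, pow_orderOf_eq_one, one_pow, one_mul, mul_comm, pow_mul, inv_pow,
      pow_orderOf_eq_one, inv_one, one_pow]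
  have hcop : Nat.Coprime (orderOf x' * orderOf x) (orderOf y' * orderOf y) := by
    refine Nat.Coprime.mul_left ?_ ?_
    · exact Nat.Coprime.mul_right h2 h4
    · exact Nat.Coprime.mul_right h3 h1
  rw [← e] at o2
  have hone : orderOf (x'⁻¹ * x) = 1 :=
    Nat.eq_one_of_dvd_coprimes hcop o1 o2
  rw [orderOf_eq_one_iff] at hone
  have hxx : x = x' := (inv_mul_eq_one.mp hone).symm
  refine ⟨hxx, ?_⟩
  have h5 : x * y = x' * y' := hz.symm.trans h
  rw [hxx] at h5
  exact mul_left_cancel h5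

end Decomp

section Dade

variable {G : Type u} [Group G] [Finite G] {A : Set G} {L : Subgroup G} {H : G → Subgroup G}

theorem dade_coprime_order (hD : DadeHypothesis A L H) {a b u : G} (ha : a ∈ A) (hb : b ∈ A)
    (hu : u ∈ H a) : Nat.Coprime (orderOf b) (orderOf u) := by
  have h1 : orderOf u ∣ Nat.card (H a) := by
    have := Subgroup.orderOf_dvd_natCard (H a) hu
    exact this
  have hb' : b ∈ L ⊓ Subgroup.centralizer ({b} : Set G) := by
    refine Subgroup.mem_inf.mpr ⟨hD.subset hb, ?_⟩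
    rw [Subgroup.mem_centralizer_iff]
    intro y hy
    have hy' : y = b := hy
    rw [hy']
  have h2 : orderOf b ∣ Nat.card ↥(L ⊓ Subgroup.centralizer ({b} : Set G)) :=
    Subgroup.orderOf_dvd_natCard _ hb'
  exact Nat.Coprime.coprime_dvd_left h2 (Nat.Coprime.coprime_dvd_right h1 (hD.coprime a ha b hb).symm)

theorem dade_commute (hD : DadeHypothesis A L H) {a u : G} (ha : a ∈ A) (hu : u ∈ H a) :
    Commute a u := by
  have h := hD.le_centralizer a ha hu
  rw [Subgroup.mem_centralizer_iff] at h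
  show a * u = u * a
  exact h a rfl

/-- Every element of the centraliser factors as `h * c`. -/
theorem dade_factor (hD : DadeHypothesis A L H) {b k : G} (hb : b ∈ A)
    (hk : k ∈ Subgroup.centralizer ({b} : Set G)) :
    ∃ h ∈ H b, ∃ c ∈ L ⊓ Subgroup.centralizer ({b} : Set G), k = h * c := by
  rw [← hD.sup_eq b hb, Subgroup.sup_eq_closure] at hk
  have hcL : ∀ c ∈ L ⊓ Subgroup.centralizer ({b} : Set G), c ∈ Subgroup.centralizer ({b} : Set G) :=
    fun c hc => (Subgroup.mem_inf.mp hc).2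
  induction hk using Subgroup.closure_induction with
  | mem x hx =>
    rcases hx with hx | hx
    · exact ⟨x, hx, 1, Subgroup.one_mem _, by simp⟩
    · exact ⟨1, Subgroup.one_mem _, x, hx, by simp⟩
  | one => exact ⟨1, Subgroup.one_mem _, 1, Subgroup.one_mem _, by simp⟩
  | mul x y _ _ ihx ihy =>
    obtain ⟨h, hh, c, hc, rfl⟩ := ihx
    obtain ⟨h', hh', c', hc', rfl⟩ := ihy
    refine ⟨h * (c * h' * c⁻¹), Subgroup.mul_mem _ hh (hD.conj_mem_H b hb c (hcL c hc) h' hh'),
      c * c', Subgroup.mul_mem _ hc hc', by group⟩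
  | inv x _ ih =>
    obtain ⟨h, hh, c, hc, rfl⟩ := ih
    refine ⟨c⁻¹ * h⁻¹ * c⁻¹⁻¹, hD.conj_mem_H b hb c⁻¹ (Subgroup.inv_mem _ (hcL c hc)) h⁻¹
      (Subgroup.inv_mem _ hh), c⁻¹, Subgroup.inv_mem _ hc, by group⟩

/-- Every element of the centraliser factors as `c * h`. -/
theorem dade_factor' (hD : DadeHypothesis A L H) {b k : G} (hb : b ∈ A)
    (hk : k ∈ Subgroup.centralizer ({b} : Set G)) :
    ∃ c ∈ L ⊓ Subgroup.centralizer ({b} : Set G), ∃ h ∈ H b, k = c * h := by
  obtain ⟨h, hh, c, hc, rfl⟩ := dade_factor hD hb hk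
  refine ⟨c, hc, c⁻¹ * h * c⁻¹⁻¹, hD.conj_mem_H b hb c⁻¹
    (Subgroup.inv_mem _ (Subgroup.mem_inf.mp hc).2) h hh, by group⟩

/-- Conjugation carries `H a` into `H b` when it carries `a` to `b`. -/
theorem dade_H_conj (hD : DadeHypothesis A L H) {a b g u : G} (ha : a ∈ A) (hb : b ∈ A)
    (hg : g * a * g⁻¹ = b) (hu : u ∈ H a) : g * u * g⁻¹ ∈ H b := by
  set k := g * u * g⁻¹ with hk
  have hkc : k ∈ Subgroup.centralizer ({b} : Set G) := by
    rw [Subgroup.mem_centralizer_iff]
    intro y hy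
    have hy' : y = b := hy
    rw [hy', ← hg, hk]
    have := (dade_commute hD ha hu).eq
    calc g * a * g⁻¹ * (g * u * g⁻¹) = g * (a * u) * g⁻¹ := by group
      _ = g * (u * a) * g⁻¹ := by rw [this]
      _ = g * u * g⁻¹ * (g * a * g⁻¹) := by group
  obtain ⟨h, hh, c, hc, hkc'⟩ := dade_factor hD hb hkc
  have hcC := (Subgroup.mem_inf.mp hc).2
  -- powers
  have hpow : ∀ n : ℕ, ∃ h' ∈ H b, (h * c) ^ n = h' * c ^ n := by
    intro n
    induction n with
    | zero => exact ⟨1, Subgroup.one_mem _, by simp⟩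
    | succ n ih =>
      obtain ⟨h', hh', e⟩ := ih
      refine ⟨h' * (c ^ n * h * (c ^ n)⁻¹), Subgroup.mul_mem _ hh'
        (hD.conj_mem_H b hb _ (Subgroup.pow_mem _ hcC n) h hh), ?_⟩
      rw [pow_succ, e, pow_succ]
      group
  have hord : k ^ orderOf u = 1 := by
    rw [hk, conj_pow, pow_orderOf_eq_one]
    simp
  obtain ⟨h', hh', e⟩ := hpow (orderOf u)
  rw [← hkc', hord] at e
  have hcn : c ^ orderOf u ∈ H b := by
    have : c ^ orderOf u = h'⁻¹ := by
      have := eq_inv_of_mul_eq_one_right e.symm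
      exact this
    rw [this]
    exact Subgroup.inv_mem _ hh'
  have hcn2 : c ^ orderOf u ∈ L ⊓ Subgroup.centralizer ({b} : Set G) := Subgroup.pow_mem _ hc _
  have hcn3 : c ^ orderOf u = 1 := by
    have h3 : c ^ orderOf u ∈ H b ⊓ (L ⊓ Subgroup.centralizer ({b} : Set G)) :=
      Subgroup.mem_inf.mpr ⟨hcn, hcn2⟩
    rw [hD.inf_eq_bot b hb, Subgroup.mem_bot] at h3
    exact h3
  have hc1 : orderOf c ∣ orderOf u := orderOf_dvd_of_pow_eq_one hcn3
  have hc2 : orderOf c ∣ Nat.card ↥(L ⊓ Subgroup.centralizer ({b} : Set G)) :=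
    Subgroup.orderOf_dvd_natCard _ hc
  have hu1 : orderOf u ∣ Nat.card (H a) := Subgroup.orderOf_dvd_natCard _ hu
  have hc3 : orderOf c = 1 :=
    Nat.eq_one_of_dvd_coprimes (hD.coprime a ha b hb).symm hc2 (hc1.trans hu1)
  rw [orderOf_eq_one_iff] at hc3
  rw [hkc', hc3, mul_one]
  exact hh

/-- The key rigidity: conjugate elements of cosets `a · H a` have conjugate parts. -/
theorem dade_key (hD : DadeHypothesis A L H) {a b u v g : G} (ha : a ∈ A) (hb : b ∈ A)
    (hu : u ∈ H a) (hv : v ∈ H b) (h : g * (a * u) * g⁻¹ = b * v) :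
    g * a * g⁻¹ = b ∧ g * u * g⁻¹ = v := by
  have hcu := dade_commute hD ha hu
  have hcv := dade_commute hD hb hv
  have hoa : orderOf (g * a * g⁻¹) = orderOf a :=
    orderOf_injective (MulAut.conj g).toMonoidHom (MulEquiv.injective _) a
  have hou : orderOf (g * u * g⁻¹) = orderOf u :=
    orderOf_injective (MulAut.conj g).toMonoidHom (MulEquiv.injective _) u
  refine coprime_factor_unique ?_ hcv ?_ ?_ ?_ ?_ ?_
  · show g * a * g⁻¹ * (g * u * g⁻¹) = g * u * g⁻¹ * (g * a * g⁻¹)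
    have := hcu.eq
    calc g * a * g⁻¹ * (g * u * g⁻¹) = g * (a * u) * g⁻¹ := by group
      _ = g * (u * a) * g⁻¹ := by rw [this]
      _ = g * u * g⁻¹ * (g * a * g⁻¹) := by group
  · rw [← h]
    group
  · rw [hoa, hou]
    exact dade_coprime_order hD ha ha hu
  · exact dade_coprime_order hD hb hb hv
  · rw [hoa]
    exact dade_coprime_order hD hb ha hv
  · rw [hou]
    exact dade_coprime_order hD ha hb hu

theorem dade_card_H (hD : DadeHypothesis A L H) {a b g : G} (ha : a ∈ A) (hb : b ∈ A)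
    (hg : g * a * g⁻¹ = b) : Nat.card (H a) = Nat.card (H b) := by
  have hg' : g⁻¹ * b * g⁻¹⁻¹ = a := by
    rw [← hg]
    group
  refine Nat.card_congr ⟨fun u => ⟨g * u * g⁻¹, dade_H_conj hD ha hb hg u.2⟩,
    fun v => ⟨g⁻¹ * v * g⁻¹⁻¹, dade_H_conj hD hb ha hg' v.2⟩, ?_, ?_⟩
  · intro u
    apply Subtype.ext
    show g⁻¹ * (g * (u : G) * g⁻¹) * g⁻¹⁻¹ = u
    group
  · intro v
    apply Subtype.ext
    show g * (g⁻¹ * (v : G) * g⁻¹⁻¹) * g⁻¹ = v
    group

/-- The set of elements conjugating `a` into `A` is in bijection with `L × H a`. -/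
theorem dade_card_transporter [Fintype G] [DecidablePred (fun g : G => g ∈ A)] (hD : DadeHypothesis A L H) {a : G} (ha : a ∈ A) :
    (Finset.univ.filter (fun g : G => g * a * g⁻¹ ∈ A)).card = Nat.card L * Nat.card (H a) := by
  classical
  rw [← Nat.card_prod]
  have hcard : (Finset.univ.filter (fun g : G => g * a * g⁻¹ ∈ A)).card =
      Nat.card {g : G // g * a * g⁻¹ ∈ A} := by
    rw [Nat.card_eq_fintype_card, Fintype.card_subtype]
  rw [hcard]
  symm
  have hcent : ∀ h ∈ H a, h * a * h⁻¹ = a := by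
    intro h hh
    have := (dade_commute hD ha hh).eq
    rw [← this]
    group
  refine Nat.card_eq_of_bijective
    (fun p : ↥L × ↥(H a) => ⟨(p.1 : G) * p.2, ?_⟩) ⟨?_, ?_⟩
  · have h1 := hcent p.2 p.2.2
    have h2 := hD.conj_mem (p.1 : G) p.1.2 a ha
    have h3 : (p.1 : G) * p.2 * a * ((p.1 : G) * p.2)⁻¹ = p.1 * ((p.2 : G) * a * (p.2 : G)⁻¹) * (p.1 : G)⁻¹ := by
      group
    rw [h3, h1]
    exact h2
  · rintro ⟨l, h⟩ ⟨l', h'⟩ e
    have e' : (l : G) * h = l' * h' := congrArg Subtype.val e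
    have h1 : (l' : G)⁻¹ * l = h' * (h : G)⁻¹ := by
      calc (l' : G)⁻¹ * l = (l' : G)⁻¹ * (l * h) * (h : G)⁻¹ := by group
        _ = (l' : G)⁻¹ * (l' * h') * (h : G)⁻¹ := by rw [e']
        _ = h' * (h : G)⁻¹ := by group
    have h2 : (l' : G)⁻¹ * l ∈ L := L.mul_mem (L.inv_mem l'.2) l.2
    have h3 : (l' : G)⁻¹ * l ∈ H a := by
      rw [h1]
      exact Subgroup.mul_mem _ h'.2 (Subgroup.inv_mem _ h.2)
    have h4 : (l' : G)⁻¹ * l ∈ H a ⊓ (L ⊓ Subgroup.centralizer ({a} : Set G)) :=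
      Subgroup.mem_inf.mpr ⟨h3, Subgroup.mem_inf.mpr ⟨h2, hD.le_centralizer a ha h3⟩⟩
    rw [hD.inf_eq_bot a ha, Subgroup.mem_bot] at h4
    have h5 : (l : G) = l' := (inv_mul_eq_one.mp h4).symm
    have h6 : (h : G) = h' := by
      rw [h5] at e'
      exact mul_left_cancel e'
    exact Prod.ext (Subtype.ext h5) (Subtype.ext h6)
  · rintro ⟨g, hg⟩
    obtain ⟨l, hl, e⟩ := hD.fusion a ha g hg
    have h1 : l⁻¹ * g ∈ Subgroup.centralizer ({a} : Set G) := by
      rw [Subgroup.mem_centralizer_iff]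
      intro y hy
      have hy' : y = a := hy
      rw [hy']
      have : g * a = l * a * l⁻¹ * g := by
        rw [e]
        group
      calc a * (l⁻¹ * g) = l⁻¹ * (l * a * l⁻¹ * g) := by group
        _ = l⁻¹ * (g * a) := by rw [this]
        _ = l⁻¹ * g * a := by group
    obtain ⟨c, hc, h, hh, e2⟩ := dade_factor' hD ha h1
    have hcL := (Subgroup.mem_inf.mp hc).1
    refine ⟨(⟨l * c, L.mul_mem hl hcL⟩, ⟨h, hh⟩), Subtype.ext ?_⟩
    show l * c * h = g
    calc l * c * h = l * (c * h) := by group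
      _ = l * (l⁻¹ * g) := by rw [e2]
      _ = g := by group

end Dade

end Cfsg.Agent.H06
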