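import Cfsg.Agent.Lib.H06.DadeIso

/-!
# The Dade master formula and the isometry
-/

set_option autoImplicit false

namespace Cfsg.Agent.H06

open Cfsg Cfsg.Agent.H21
open scoped ComplexConjugate

universe u

section Dade

variable {G : Type u} [Group G] [Fintype G] {A : Set G} {L : Subgroup G} [Fintype L] {H : G → Subgroup G}
variable {K : Type*} [Field K] [CharZero K]

open Classical in
/-- First step: unfolding the conjugation action. -/
theorem dade_step1 (F : G → K) (hF : ∀ g h : G, F (h * g * h⁻¹) = F g) (a : G) (S : Subgroup G) :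
    (Nat.card G : K) * ∑ u : G, (if u ∈ S then F (a * u) else 0) =
      ∑ x : G, F x * ((Finset.univ.filter (fun g : G => a⁻¹ * (g * x * g⁻¹) ∈ S)).card : K) := by
  have h1 : ∀ x : G, F x * ((Finset.univ.filter (fun g : G => a⁻¹ * (g * x * g⁻¹) ∈ S)).card : K) =
      ∑ g : G, if a⁻¹ * (g * x * g⁻¹) ∈ S then F x else 0 := by
    intro x
    rw [Finset.card_filter]
    push_cast
    rw [Finset.mul_sum]
    refine Finset.sum_congr rfl fun g _ => ?_
    split_ifs <;> simp
  simp_rw [h1]
  rw [Finset.sum_comm]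
  have h2 : ∀ g : G, (∑ x : G, if a⁻¹ * (g * x * g⁻¹) ∈ S then F x else 0) =
      ∑ u : G, if u ∈ S then F (a * u) else 0 := by
    intro g
    let e : G ≃ G :=
      { toFun := fun x => a⁻¹ * (g * x * g⁻¹)
        invFun := fun u => g⁻¹ * (a * u) * g
        left_inv := fun x => by group
        right_inv := fun u => by group }
    refine Fintype.sum_equiv e _ _ fun x => ?_
    show (if a⁻¹ * (g * x * g⁻¹) ∈ S then F x else 0) =
      if a⁻¹ * (g * x * g⁻¹) ∈ S then F (a * (a⁻¹ * (g * x * g⁻¹))) else 0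
    split_ifs
    · have : a * (a⁻¹ * (g * x * g⁻¹)) = g * x * g⁻¹ := by group
      rw [this, hF]
    · rfl
  simp_rw [h2]
  rw [Finset.sum_const, Finset.card_univ, nsmul_eq_mul, Nat.card_eq_fintype_card]

open Classical in
/-- The weight of an element of the support. -/
theorem dade_weight (hD : DadeHypothesis A L H) (x : G) :
    (∑ a : L, if (a : G) ∈ A then (Nat.card (H a) : K)⁻¹ *
        ((Finset.univ.filter (fun g : G => (a : G)⁻¹ * (g * x * g⁻¹) ∈ H a)).card : K) else 0) =
      if (∃ a ∈ A, ∃ u ∈ H a, ∃ y : G, y * x * y⁻¹ = a * u) then (Nat.card L : K) else 0 := by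
  split_ifs with hx
  · obtain ⟨a₀, ha₀, u₀, hu₀, y, hy⟩ := hx
    have hpos : (Nat.card (H a₀) : K) ≠ 0 := Nat.cast_ne_zero.mpr Nat.card_pos.ne'
    have hg : ∀ (g : G), g * x * g⁻¹ = (g * y⁻¹) * (a₀ * u₀) * (g * y⁻¹)⁻¹ := by
      intro g
      rw [← hy]
      group
    have hcount : ∀ a : L, (a : G) ∈ A →
        (Finset.univ.filter (fun g : G => (a : G)⁻¹ * (g * x * g⁻¹) ∈ H a)).card =
          (Finset.univ.filter (fun g : G => g * a₀ * g⁻¹ = a)).card := by
      intro a ha
      refine Finset.card_equiv (Equiv.mulRight y⁻¹) fun g => ?_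
      simp only [Finset.mem_filter, Finset.mem_univ, true_and, Equiv.coe_mulRight]
      rw [hg g]
      constructor
      · intro h
        have h2 : (g * y⁻¹) * (a₀ * u₀) * (g * y⁻¹)⁻¹ =
            a * ((a : G)⁻¹ * ((g * y⁻¹) * (a₀ * u₀) * (g * y⁻¹)⁻¹)) := by group
        exact (dade_key hD ha₀ ha hu₀ h h2).1
      · intro h
        have h2 := dade_H_conj hD ha₀ ha h hu₀
        have h3 : (a : G)⁻¹ * ((g * y⁻¹) * (a₀ * u₀) * (g * y⁻¹)⁻¹) = (g * y⁻¹) * u₀ * (g * y⁻¹)⁻¹ := by
          nth_rewrite 1 [← h]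
          group
        rw [h3]
        exact h2
    have hterm : ∀ a : L, (if (a : G) ∈ A then (Nat.card (H a) : K)⁻¹ *
        ((Finset.univ.filter (fun g : G => (a : G)⁻¹ * (g * x * g⁻¹) ∈ H a)).card : K) else 0) =
        (Nat.card (H a₀) : K)⁻¹ * ∑ g : G, if (a : G) ∈ A ∧ g * a₀ * g⁻¹ = a then (1 : K) else 0 := by
      intro a
      by_cases ha : (a : G) ∈ A
      · rw [if_pos ha, hcount a ha, Finset.card_filter]
        push_cast
        rw [Finset.mul_sum, Finset.mul_sum]
        refine Finset.sum_congr rfl fun g _ => ?_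
        by_cases hg' : g * a₀ * g⁻¹ = a
        · rw [if_pos hg', if_pos ⟨ha, hg'⟩, dade_card_H hD ha₀ ha hg']
        · rw [if_neg hg', if_neg (fun h => hg' h.2), mul_zero, mul_zero]
      · rw [if_neg ha]
        symm
        refine mul_eq_zero_of_right _ (Finset.sum_eq_zero fun g _ => ?_)
        rw [if_neg (fun h => ha h.1)]
    simp_rw [hterm]
    rw [← Finset.mul_sum, Finset.sum_comm]
    have hin : ∀ g : G, (∑ a : L, if (a : G) ∈ A ∧ g * a₀ * g⁻¹ = a then (1 : K) else 0) =
        if g * a₀ * g⁻¹ ∈ A then 1 else 0 := by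
      intro g
      split_ifs with h
      · rw [Finset.sum_eq_single (⟨g * a₀ * g⁻¹, hD.subset h⟩ : L)]
        · rw [if_pos ⟨h, rfl⟩]
        · intro b _ hb
          rw [if_neg]
          intro h2
          apply hb
          apply Subtype.ext
          exact h2.2.symm
        · intro h2
          exact absurd (Finset.mem_univ _) h2
      · refine Finset.sum_eq_zero fun a _ => ?_
        rw [if_neg]
        rintro ⟨h1, h2⟩
        exact h (h2 ▸ h1)
    simp_rw [hin]
    have hcard := dade_card_transporter hD ha₀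
    have h5 : (∑ g : G, if g * a₀ * g⁻¹ ∈ A then (1 : K) else 0) =
        ((Finset.univ.filter (fun g : G => g * a₀ * g⁻¹ ∈ A)).card : K) := by
      rw [Finset.card_filter]
      push_cast
      rfl
    rw [h5, hcard]
    push_cast
    field_simp
  · refine Finset.sum_eq_zero fun a _ => ?_
    split_ifs with ha
    · have : (Finset.univ.filter (fun g : G => (a : G)⁻¹ * (g * x * g⁻¹) ∈ H a)) = ∅ := by
        rw [Finset.filter_eq_empty_iff]
        intro g _ hg
        exact hx ⟨a, ha, _, hg, g, by group⟩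
      rw [this]
      simp
    · rfl

open Classical in
/-- The master formula. -/
theorem dade_master (hD : DadeHypothesis A L H) (F : G → K) (hF : ∀ g h : G, F (h * g * h⁻¹) = F g) :
    (Nat.card L : K) * ∑ x : G, (if (∃ a ∈ A, ∃ u ∈ H a, ∃ y : G, y * x * y⁻¹ = a * u) then F x else 0) =
      (Nat.card G : K) * ∑ a : L, if (a : G) ∈ A then (Nat.card (H a) : K)⁻¹ *
        ∑ u : G, (if u ∈ H a then F (a * u) else 0) else 0 := by
  have h1 : ∀ a : L, (Nat.card G : K) * (if (a : G) ∈ A then (Nat.card (H a) : K)⁻¹ *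
        ∑ u : G, (if u ∈ H a then F (a * u) else 0) else 0) =
      ∑ x : G, F x * (if (a : G) ∈ A then (Nat.card (H a) : K)⁻¹ *
        ((Finset.univ.filter (fun g : G => (a : G)⁻¹ * (g * x * g⁻¹) ∈ H a)).card : K) else 0) := by
    intro a
    split_ifs with ha
    · have := dade_step1 F hF (a : G) (H a)
      rw [mul_left_comm, this, Finset.mul_sum]
      refine Finset.sum_congr rfl fun x _ => ?_
      ring
    · rw [mul_zero]
      symm
      exact Finset.sum_eq_zero fun x _ => mul_zero _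
  have h2 : (Nat.card G : K) * (∑ a : L, if (a : G) ∈ A then (Nat.card (H a) : K)⁻¹ *
        ∑ u : G, (if u ∈ H a then F (a * u) else 0) else 0) = ∑ a : L, ∑ x : G, F x * (if (a : G) ∈ A then (Nat.card (H a) : K)⁻¹ *
        ((Finset.univ.filter (fun g : G => (a : G)⁻¹ * (g * x * g⁻¹) ∈ H a)).card : K) else 0) := by
    rw [Finset.mul_sum]
    exact Finset.sum_congr rfl fun a _ => h1 a
  rw [h2, Finset.sum_comm, Finset.mul_sum]
  refine Finset.sum_congr rfl fun x _ => ?_
  rw [← Finset.mul_sum, dade_weight hD x]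
  split_ifs <;> ring

variable [Finite G]

open Classical in
/-- The value of the Dade map on `a * u`, up to conjugacy. -/
theorem dade_apply (hD : DadeHypothesis A L H) {α : L → ℂ} (hα : IsClassFunction L α) (a : L)
    (ha : (a : G) ∈ A) {u x y : G} (hu : u ∈ H a) (hy : y * x * y⁻¹ = a * u) :
    dadeIsometry A L H α x = α a := by
  have hex : ∃ a : ↥L, (a : G) ∈ A ∧ ∃ x' : G, ∃ u ∈ H (a : G), x' * x * x'⁻¹ = (a : G) * u :=
    ⟨a, ha, y, u, hu, hy⟩
  unfold dadeIsometry
  rw [dif_pos hex]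
  obtain ⟨hb, y', v, hv, hy'⟩ := Classical.choose_spec hex
  set b := Classical.choose hex
  have hconj : (y' * y⁻¹) * ((a : G) * u) * (y' * y⁻¹)⁻¹ = b * v := by
    rw [← hy', ← hy]
    group
  obtain ⟨e, -⟩ := dade_key hD ha hb hu hv hconj
  obtain ⟨l, hl, el⟩ := hD.fusion a ha (y' * y⁻¹) (by rw [e]; exact hb)
  have hab : b = ⟨l, hl⟩ * a * (⟨l, hl⟩ : L)⁻¹ := by
    apply Subtype.ext
    show (b : G) = l * a * l⁻¹
    rw [el, e]
  rw [hab, hα]

open Classical in
/-- The Dade map vanishes off its support. -/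
theorem dade_of_not_mem {α : L → ℂ} {x : G}
    (hx : ¬ ∃ a ∈ A, ∃ u ∈ H a, ∃ y : G, y * x * y⁻¹ = a * u) :
    dadeIsometry A L H α x = 0 := by
  unfold dadeIsometry
  rw [dif_neg]
  rintro ⟨a, ha, y, u, hu, hy⟩
  exact hx ⟨a, ha, u, hu, y, hy⟩

/-- The Dade map produces class functions. -/
theorem dade_isClass (hD : DadeHypothesis A L H) {α : L → ℂ} (hα : IsClassFunction L α) :
    IsClassFunction G (dadeIsometry A L H α) := by
  classical
  intro g h
  by_cases hx : ∃ a ∈ A, ∃ u ∈ H a, ∃ y : G, y * g * y⁻¹ = a * u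
  · obtain ⟨a, ha, u, hu, y, hy⟩ := hx
    have ha' := hD.subset ha
    have h1 := dade_apply hD hα ⟨a, ha'⟩ ha hu hy
    have h2 := dade_apply hD hα ⟨a, ha'⟩ ha (x := h * g * h⁻¹) (y := y * h⁻¹) hu (by rw [← hy]; group)
    rw [h1, h2]
  · rw [dade_of_not_mem hx, dade_of_not_mem]
    rintro ⟨a, ha, u, hu, y, hy⟩
    exact hx ⟨a, ha, u, hu, y * h, by rw [← hy]; group⟩

open Classical in
theorem finsum_mem_subgroup (S : Subgroup G) (f : G → ℂ) :
    (∑ᶠ u ∈ (S : Set G), f u) = ∑ u : G, if u ∈ S then f u else 0 := by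
  rw [finsum_mem_eq_toFinset_sum, Finset.sum_ite, Finset.sum_const_zero, add_zero]
  refine Finset.sum_congr ?_ fun _ _ => rfl
  ext u
  simp

/-- The main formula: part (ii) of the isometry. -/
theorem dade_inner (hD : DadeHypothesis A L H) {α : L → ℂ} (hα : IsClassFunction L α)
    (hαA : ∀ x : L, (x : G) ∉ A → α x = 0) (χ : G → ℂ) (ψ : L → ℂ) (hχ : IsClassFunction G χ)
    (hψ : ∀ a : L, (a : G) ∈ A → ψ a = (Nat.card (H a) : ℂ)⁻¹ * ∑ᶠ u ∈ (H a : Set G), χ (a * u)) :
    classInner (dadeIsometry A L H α) χ = classInner α ψ := by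
  classical
  have hcl := dade_isClass hD hα
  set F : G → ℂ := fun x => dadeIsometry A L H α x * conj (χ x) with hFdef
  have hF : ∀ g h : G, F (h * g * h⁻¹) = F g := by
    intro g h
    simp only [hFdef]
    rw [hcl g h, hχ g h]
  have hm := dade_master hD F hF
  have h1 : (∑ x : G, (if (∃ a ∈ A, ∃ u ∈ H a, ∃ y : G, y * x * y⁻¹ = a * u) then F x else 0)) =
      ∑ x : G, F x := by
    refine Finset.sum_congr rfl fun x _ => ?_
    split_ifs with hx
    · rfl
    · simp only [hFdef]
      rw [dade_of_not_mem hx, zero_mul]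
  rw [h1] at hm
  have h2 : ∀ a : L, (if (a : G) ∈ A then (Nat.card (H a) : ℂ)⁻¹ *
        ∑ u : G, (if u ∈ H a then F (a * u) else 0) else 0) = α a * conj (ψ a) := by
    intro a
    split_ifs with ha
    · rw [hψ a ha, finsum_mem_subgroup, map_mul, map_inv₀, map_natCast, map_sum]
      have h3 : ∀ u : G, (if u ∈ H a then F (a * u) else 0) =
          α a * conj (if u ∈ H a then χ (a * u) else 0) := by
        intro u
        split_ifs with hu
        · simp only [hFdef]
          rw [dade_apply hD hα a ha (u := u) (y := 1) hu (by group)]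
        · simp
      simp_rw [h3]
      rw [← Finset.mul_sum]
      ring
    · rw [hαA a ha, zero_mul]
  simp_rw [h2] at hm
  unfold classInner
  have hG : (Nat.card G : ℂ) ≠ 0 := Nat.cast_ne_zero.mpr Nat.card_pos.ne'
  have hL : (Nat.card L : ℂ) ≠ 0 := Nat.cast_ne_zero.mpr Nat.card_pos.ne'
  field_simp
  linear_combination hm

/-- Part (i). -/
theorem dade_isometry (hD : DadeHypothesis A L H) {α : L → ℂ} (hα : IsClassFunction L α)
    (hαA : ∀ x : L, (x : G) ∉ A → α x = 0) {β : L → ℂ} (hβ : IsClassFunction L β) :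
    classInner (dadeIsometry A L H α) (dadeIsometry A L H β) = classInner α β := by
  classical
  refine dade_inner hD hα hαA _ β (dade_isClass hD hβ) ?_
  intro a ha
  have h1 : ∀ u : G, (if u ∈ H a then dadeIsometry A L H β (a * u) else 0) =
      if u ∈ H a then β a else 0 := by
    intro u
    split_ifs with hu
    · rw [dade_apply hD hβ a ha (u := u) (y := 1) hu (by group)]
    · rfl
  rw [finsum_mem_subgroup]
  simp_rw [h1]
  rw [Finset.sum_ite, Finset.sum_const_zero, add_zero, Finset.sum_const, nsmul_eq_mul]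
  have h2 : (Finset.univ.filter (fun u : G => u ∈ H a)).card = Nat.card (H a) := by
    rw [Nat.card_eq_fintype_card, Fintype.card_subtype]
  rw [h2, ← mul_assoc, inv_mul_cancel₀ (Nat.cast_ne_zero.mpr Nat.card_pos.ne'), one_mul]

end Dade

end Cfsg.Agent.H06
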