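import Cfsg.Agent.Lib.H06.CACount

/-!
# Two by two matrices: commuting elements, discriminants
-/

set_option autoImplicit false

namespace Cfsg.Agent.H06

universe u v

section Mat

variable {F : Type u} [Field F]

local notation "M₂" => Matrix (Fin 2) (Fin 2) F

/-- A matrix is scalar. -/
def IsScal (g : M₂) : Prop := g 0 1 = 0 ∧ g 1 0 = 0 ∧ g 0 0 = g 1 1

theorem mat_ext {a b : M₂} (h00 : a 0 0 = b 0 0) (h01 : a 0 1 = b 0 1) (h10 : a 1 0 = b 1 0)
    (h11 : a 1 1 = b 1 1) : a = b := by
  ext i j
  fin_cases i <;> fin_cases j <;> assumption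

theorem mul00 (a b : M₂) : (a * b) 0 0 = a 0 0 * b 0 0 + a 0 1 * b 1 0 := by
  simp [Matrix.mul_apply, Fin.sum_univ_two]

theorem mul01 (a b : M₂) : (a * b) 0 1 = a 0 0 * b 0 1 + a 0 1 * b 1 1 := by
  simp [Matrix.mul_apply, Fin.sum_univ_two]

theorem mul10 (a b : M₂) : (a * b) 1 0 = a 1 0 * b 0 0 + a 1 1 * b 1 0 := by
  simp [Matrix.mul_apply, Fin.sum_univ_two]

theorem mul11 (a b : M₂) : (a * b) 1 1 = a 1 0 * b 0 1 + a 1 1 * b 1 1 := by
  simp [Matrix.mul_apply, Fin.sum_univ_two]

theorem comb_apply (α β : F) (g : M₂) (i j : Fin 2) :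
    (α • (1 : M₂) + β • g) i j = (if i = j then α else 0) + β * g i j := by
  simp [Matrix.one_apply]

/-- The discriminant of the characteristic polynomial. -/
def disc₂ (g : M₂) : F := (Matrix.trace g) ^ 2 - 4 * Matrix.det g

theorem disc₂_eq (g : M₂) : disc₂ g = (g 0 0 - g 1 1) ^ 2 + 4 * (g 0 1 * g 1 0) := by
  rw [disc₂, Matrix.trace_fin_two, Matrix.det_fin_two]
  ring

theorem disc₂_comb (α β : F) (g : M₂) : disc₂ (α • (1 : M₂) + β • g) = β ^ 2 * disc₂ g := by
  rw [disc₂_eq, disc₂_eq]
  simp only [comb_apply]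
  simp
  ring

/-- A matrix commuting with a nonscalar matrix is a linear combination of it and `1`. -/
theorem exists_comb_of_comm {u g : M₂} (h : u * g = g * u) (hn : ¬ IsScal g) :
    ∃ α β : F, u = α • (1 : M₂) + β • g := by
  have e00 := congrFun (congrFun h 0) 0
  have e01 := congrFun (congrFun h 0) 1
  have e10 := congrFun (congrFun h 1) 0
  have e11 := congrFun (congrFun h 1) 1
  rw [mul00, mul00] at e00
  rw [mul01, mul01] at e01
  rw [mul10, mul10] at e10
  rw [mul11, mul11] at e11
  by_cases hb : g 0 1 = 0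
  · by_cases hc : g 1 0 = 0
    · have had : g 0 0 - g 1 1 ≠ 0 := by
        intro h0
        exact hn ⟨hb, hc, sub_eq_zero.mp h0⟩
      refine ⟨u 0 0 - (u 0 0 - u 1 1) / (g 0 0 - g 1 1) * g 0 0, (u 0 0 - u 1 1) / (g 0 0 - g 1 1), ?_⟩
      rw [hb] at e01
      rw [hc] at e10
      have hf : u 0 1 = 0 := by
        have : (g 0 0 - g 1 1) * u 0 1 = 0 := by linear_combination -e01
        exact (mul_eq_zero.mp this).resolve_left had
      have hg : u 1 0 = 0 := by
        have : (g 0 0 - g 1 1) * u 1 0 = 0 := by linear_combination e10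
        exact (mul_eq_zero.mp this).resolve_left had
      apply mat_ext <;> simp only [comb_apply] <;> simp [hb, hc, hf, hg]
      field_simp
      ring
    · refine ⟨u 0 0 - u 1 0 / g 1 0 * g 0 0, u 1 0 / g 1 0, ?_⟩
      apply mat_ext <;> simp only [comb_apply] <;> simp
      · field_simp
        linear_combination e00
      · field_simp
      · field_simp
        linear_combination e10
  · refine ⟨u 0 0 - u 0 1 / g 0 1 * g 0 0, u 0 1 / g 0 1, ?_⟩
    apply mat_ext <;> simp only [comb_apply] <;> simp
    · field_simp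
    · field_simp
      linear_combination -e00
    · field_simp
      linear_combination -e01

/-- The algebra behind `N(A) = A` for a torus. -/
theorem comb_of_same_invariants {y : M₂} {α β : F} (h2 : (2 : F) ≠ 0)
    (htr : Matrix.trace (α • (1 : M₂) + β • y) = Matrix.trace y)
    (hdet : Matrix.det (α • (1 : M₂) + β • y) = Matrix.det y) (hd : disc₂ y ≠ 0) :
    (α = 0 ∧ β = 1) ∨ (α = Matrix.trace y ∧ β = -1) := by
  have htr' : 2 * α + β * Matrix.trace y = Matrix.trace y := by
    simp only [Matrix.trace_fin_two, comb_apply] at htr ⊢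
    simp at htr
    linear_combination htr
  have hdet' : α ^ 2 + α * β * Matrix.trace y + β ^ 2 * Matrix.det y = Matrix.det y := by
    simp only [Matrix.det_fin_two, Matrix.trace_fin_two, comb_apply] at hdet ⊢
    simp at hdet
    linear_combination hdet
  have key : (1 - β ^ 2) * disc₂ y = 0 := by
    rw [disc₂]
    set τ := Matrix.trace y
    set δ := Matrix.det y
    have h4 : (2 * α) ^ 2 + 2 * (2 * α) * β * τ + 4 * β ^ 2 * δ = 4 * δ := by linear_combination 4 * hdet'
    have h5 : 2 * α = (1 - β) * τ := by linear_combination htr'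
    rw [h5] at h4
    linear_combination h4
  have hβ : β ^ 2 = 1 := by
    have := (mul_eq_zero.mp key).resolve_right hd
    linear_combination -this
  have hβ' : (β - 1) * (β + 1) = 0 := by linear_combination hβ
  rcases mul_eq_zero.mp hβ' with h | h
  · left
    have hb : β = 1 := by linear_combination h
    rw [hb] at htr'
    refine ⟨?_, hb⟩
    have : 2 * α = 0 := by linear_combination htr'
    exact (mul_eq_zero.mp this).resolve_left h2
  · right
    have hb : β = -1 := by linear_combination h
    rw [hb] at htr'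
    refine ⟨?_, hb⟩
    have : 2 * (α - Matrix.trace y) = 0 := by linear_combination htr'
    have h3 := (mul_eq_zero.mp this).resolve_left h2
    exact sub_eq_zero.mp h3

end Mat

end Cfsg.Agent.H06
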