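import Cfsg.Agent.Lib.H06.GL2

/-!
# Odd order subgroups of `GL₂` with a transvection fix a line
-/

set_option autoImplicit false

namespace Cfsg.Agent.H06

universe u v

section Core

variable {F : Type u} [Field F] {Γ : Type v} [Group Γ] [Finite Γ]

local notation "M₂" => Matrix (Fin 2) (Fin 2) F

variable (m : Γ →* Matrix (Fin 2) (Fin 2) F)

theorem det_ne_zero_of_hom (g : Γ) : (m g).det ≠ 0 := by
  have h : m g * m g⁻¹ = 1 := by rw [← map_mul, mul_inv_cancel, map_one]
  have h2 := congrArg Matrix.det h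
  rw [Matrix.det_mul, Matrix.det_one] at h2
  exact left_ne_zero_of_mul_eq_one h2

theorem trace_conj_hom (x y : Γ) : Matrix.trace (m (x * y * x⁻¹)) = Matrix.trace (m y) := by
  rw [map_mul, map_mul, Matrix.trace_mul_comm, ← mul_assoc, ← map_mul, inv_mul_cancel, map_one, one_mul]

theorem det_conj_hom (x y : Γ) : Matrix.det (m (x * y * x⁻¹)) = Matrix.det (m y) := by
  rw [map_mul, map_mul, Matrix.det_mul, Matrix.det_mul, mul_comm, ← mul_assoc, ← Matrix.det_mul, ← map_mul,
    inv_mul_cancel, map_one, Matrix.det_one, one_mul]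

theorem disc_conj_hom (x y : Γ) : disc₂ (m (x * y * x⁻¹)) = disc₂ (m y) := by
  rw [disc₂, disc₂, trace_conj_hom, det_conj_hom]

theorem comm_comb {a b : M₂} (h : a * b = b * a) (α β : F) :
    a * (α • (1 : M₂) + β • b) = (α • (1 : M₂) + β • b) * a := by
  simp only [mul_add, add_mul, Matrix.mul_smul, Matrix.smul_mul, mul_one, one_mul, h]

variable {m}

theorem scal_central (hm : Function.Injective m) {x : Γ} (h : IsScal (m x)) : x ∈ Subgroup.center Γ := by
  rw [Subgroup.mem_center_iff]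
  intro g
  apply hm
  rw [map_mul, map_mul]
  obtain ⟨h1, h2, h3⟩ := h
  apply mat_ext <;> simp only [mul00, mul01, mul10, mul11, h1, h2, h3] <;> ring

theorem disc_ne_zero_not_scal {g : M₂} (h : disc₂ g ≠ 0) : ¬ IsScal g := by
  rintro ⟨h1, h2, h3⟩
  apply h
  rw [disc₂_eq, h1, h3]
  ring

/-- Odd order: an element whose square commutes with `y` commutes with `y`. -/
theorem comm_of_sq_comm (hodd : Odd (Nat.card Γ)) {x y : Γ} (h : x ^ 2 * y = y * x ^ 2) : x * y = y * x := by
  obtain ⟨k, hk⟩ := hodd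
  have h1 : x ^ (2 * k + 1) = 1 := by
    rw [← hk]
    exact pow_card_eq_one'
  have h2 : x * (x ^ 2) ^ k = 1 := by
    rw [← pow_mul, ← pow_succ', h1]
  have h3 : Commute (x ^ 2) y := h
  have h4 : Commute ((x ^ 2) ^ k) y := h3.pow_left k
  have h5 : x⁻¹ = (x ^ 2) ^ k := by
    rw [inv_eq_iff_mul_eq_one]
    exact h2
  have h6 : Commute x⁻¹ y := by
    rw [h5]
    exact h4
  simpa using h6.inv_left.eq

/-- Normalizers of tori: the key lemma. -/
theorem comm_of_conj_comm (hm : Function.Injective m) (hodd : Odd (Nat.card Γ)) (h2 : (2 : F) ≠ 0) {x y : Γ}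
    (hd : disc₂ (m y) ≠ 0) (hc : (x * y * x⁻¹) * y = y * (x * y * x⁻¹)) : x * y = y * x := by
  have hns := disc_ne_zero_not_scal hd
  have hc' : m (x * y * x⁻¹) * m y = m y * m (x * y * x⁻¹) := by
    rw [← map_mul, ← map_mul, hc]
  obtain ⟨α, β, hαβ⟩ := exists_comb_of_comm hc' hns
  have htr := trace_conj_hom m x y
  have hde := det_conj_hom m x y
  rw [hαβ] at htr hde
  rcases comb_of_same_invariants h2 htr hde hd with ⟨h0, h1⟩ | ⟨h0, h1⟩
  · have h3 : m (x * y * x⁻¹) = m y := by
      rw [hαβ, h0, h1]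
      simp
    have h4 := hm h3
    calc x * y = (x * y * x⁻¹) * x := by group
      _ = y * x := by rw [h4]
  · apply comm_of_sq_comm hodd
    apply hm
    rw [map_mul, map_mul]
    set τ := Matrix.trace (m y) with hτ
    have h3 : m x * m y * m x⁻¹ = τ • (1 : M₂) + (-1 : F) • m y := by
      rw [← map_mul, ← map_mul, hαβ, h0, h1]
    have h5 : m x * m x⁻¹ = 1 := by rw [← map_mul, mul_inv_cancel, map_one]
    have h6 : m x⁻¹ * m x = 1 := by rw [← map_mul, inv_mul_cancel, map_one]
    have h7 : m x * (τ • (1 : M₂) + (-1 : F) • m y) * m x⁻¹ = τ • (1 : M₂) + (-1 : F) • (m x * m y * m x⁻¹) := by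
      simp only [mul_add, add_mul, Matrix.mul_smul, Matrix.smul_mul, mul_one, h5]
    have h8 : m x * (m x * m y * m x⁻¹) * m x⁻¹ = m y := by
      rw [h3, h7, h3]
      simp
    calc m (x ^ 2) * m y = m x * m x * m y := by rw [sq, map_mul]
      _ = m x * (m x * m y * m x⁻¹) * m x⁻¹ * (m x * m x) := by
          have e1 : m x * (m x * m y * m x⁻¹) * m x⁻¹ * (m x * m x)
              = m x * m x * m y * (m x⁻¹ * (m x⁻¹ * (m x * m x))) := by noncomm_ring
          have e2 : m x⁻¹ * (m x⁻¹ * (m x * m x)) = 1 := by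
            rw [← mul_assoc (m x⁻¹) (m x) (m x), h6, one_mul, h6]
          rw [e1, e2, mul_one]
      _ = m y * m (x ^ 2) := by rw [h8, sq, map_mul]

end Core

end Cfsg.Agent.H06
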