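import Cfsg.Agent.Lib.H06.GL2b

/-!
# Odd order subgroups of `GL₂` with a transvection fix a line: the main argument
-/

set_option autoImplicit false

namespace Cfsg.Agent.H06

universe u v

section Core2

variable {F : Type u} [Field F] {Γ : Type v} [Group Γ] [Finite Γ]

local notation "M₂" => Matrix (Fin 2) (Fin 2) F

/-- The matrix of a transvection. -/
def transv : Matrix (Fin 2) (Fin 2) F := !![1, 1; 0, 1]

theorem transv_apply_00 : (transv : M₂) 0 0 = 1 := rfl
theorem transv_apply_01 : (transv : M₂) 0 1 = 1 := rfl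
theorem transv_apply_10 : (transv : M₂) 1 0 = 0 := rfl
theorem transv_apply_11 : (transv : M₂) 1 1 = 1 := rfl

theorem comm_transv_iff (x : M₂) : x * transv = transv * x ↔ x 1 0 = 0 ∧ x 0 0 = x 1 1 := by
  constructor
  · intro h
    have e00 := congrFun (congrFun h 0) 0
    have e01 := congrFun (congrFun h 0) 1
    simp only [mul00, mul01, transv_apply_00, transv_apply_01, transv_apply_10, transv_apply_11] at e00 e01
    constructor
    · linear_combination -e00
    · linear_combination e01
  · rintro ⟨h1, h2⟩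
    apply mat_ext <;> simp only [mul00, mul01, mul10, mul11, transv_apply_00, transv_apply_01,
      transv_apply_10, transv_apply_11, h1, h2] <;> ring

theorem comb_mul_comm_of {a b : M₂} (h : a * b = b * a) (α β : F) :
    (α • (1 : M₂) + β • b) * a = a * (α • (1 : M₂) + β • b) := by
  simp only [mul_add, add_mul, Matrix.mul_smul, Matrix.smul_mul, mul_one, one_mul, h]

/-- `m g` with zero discriminant: powers. -/
theorem pow_of_disc_zero {g n : M₂} {c : F} (hn : n * n = 0) (hg : g = c • (1 : M₂) + n) (k : ℕ) :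
    g ^ (k + 1) = c ^ (k + 1) • (1 : M₂) + (((k : F) + 1) * c ^ k) • n := by
  induction k with
  | zero => simp [hg]
  | succ k ih =>
    rw [pow_succ, ih, hg]
    simp only [mul_add, add_mul, Matrix.mul_smul, Matrix.smul_mul, mul_one, one_mul, hn, smul_zero, add_zero,
      smul_smul]
    push_cast
    rw [add_assoc, ← add_smul]
    congr 2 <;> ring

variable (m : Γ →* Matrix (Fin 2) (Fin 2) F)

variable {m}

theorem mat_apply_conj_eq (x y : Γ) : m (x * y * x⁻¹) * m x = m x * m y := by
  rw [← map_mul, ← map_mul]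
  congr 1
  group

theorem two_by_two_diag_ne_zero {g : M₂} (h : g.det ≠ 0) (h10 : g 1 0 = 0) : g 0 0 ≠ 0 ∧ g 1 1 ≠ 0 := by
  rw [Matrix.det_fin_two, h10] at h
  constructor
  · intro h0
    apply h
    rw [h0]
    ring
  · intro h0
    apply h
    rw [h0]
    ring

/-- Conjugacy by an upper triangular matrix preserves the centralizer of the transvection. -/
theorem borel_normalizes {x y : Γ} (hx : m x 1 0 = 0) (hy : m y 1 0 = 0 ∧ m y 0 0 = m y 1 1) :
    m (x * y * x⁻¹) 1 0 = 0 ∧ m (x * y * x⁻¹) 0 0 = m (x * y * x⁻¹) 1 1 := by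
  have h := mat_apply_conj_eq (m := m) x y
  obtain ⟨ha, hd⟩ := two_by_two_diag_ne_zero (det_ne_zero_of_hom m x) hx
  have e00 := congrFun (congrFun h 0) 0
  have e10 := congrFun (congrFun h 1) 0
  have e11 := congrFun (congrFun h 1) 1
  simp only [mul00, mul10, mul11, hx, hy.1] at e00 e10 e11
  set r := m (x * y * x⁻¹)
  have h1 : r 1 0 = 0 := by
    have : r 1 0 * m x 0 0 = 0 := by linear_combination e10
    exact (mul_eq_zero.mp this).resolve_right ha
  refine ⟨h1, ?_⟩
  have h2 : r 0 0 = m y 0 0 := by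
    apply mul_left_cancel₀ ha
    linear_combination e00
  have h3 : r 1 1 = m y 1 1 := by
    apply mul_left_cancel₀ hd
    rw [h1] at e11
    linear_combination e11
  rw [h2, h3, hy.2]

theorem borel_of_conj (hm : Function.Injective m) {x y : Γ} (hy : m y 1 0 = 0 ∧ m y 0 0 = m y 1 1)
    (hyZ : y ∉ Subgroup.center Γ) (hr : m (x * y * x⁻¹) 1 0 = 0 ∧ m (x * y * x⁻¹) 0 0 = m (x * y * x⁻¹) 1 1) :
    m x 1 0 = 0 := by
  have h := mat_apply_conj_eq (m := m) x y
  have e00 := congrFun (congrFun h 0) 0
  have e10 := congrFun (congrFun h 1) 0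
  simp only [mul00, mul10, hy.1, hr.1] at e00 e10
  by_contra hc
  set r := m (x * y * x⁻¹) with hrdef
  have h1 : r 1 1 = m y 0 0 := by
    apply mul_left_cancel₀ hc
    linear_combination e10
  have h2 : r 0 1 = 0 := by
    have : r 0 1 * m x 1 0 = 0 := by
      rw [hr.2, h1] at e00
      linear_combination e00
    exact (mul_eq_zero.mp this).resolve_right hc
  have hsc : IsScal r := ⟨h2, hr.1, hr.2⟩
  have hz := scal_central hm hsc
  apply hyZ
  have e : y = x⁻¹ * (x * y * x⁻¹) * x := by group
  rw [e, mul_assoc, (Subgroup.mem_center_iff.mp hz x).symm, inv_mul_cancel_left]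
  exact hz

/-- An element of the centralizer of a transvection has discriminant zero. -/
theorem disc_of_borel {g : M₂} (h : g 1 0 = 0 ∧ g 0 0 = g 1 1) : disc₂ g = 0 := by
  rw [disc₂_eq, h.1, h.2]
  ring

/-- An element with zero discriminant is a sum of a scalar and a square zero matrix. -/
theorem sq_zero_of_disc {g : M₂} (h2 : (2 : F) ≠ 0) (h : disc₂ g = 0) :
    ∃ (c : F) (n : M₂), n * n = 0 ∧ g = c • (1 : M₂) + n ∧ (g.det ≠ 0 → c ≠ 0) := by
  refine ⟨Matrix.trace g / 2, g - (Matrix.trace g / 2) • 1, ?_, ?_, ?_⟩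
  · rw [disc₂] at h
    have e0 : (g 0 0 - g 1 1) ^ 2 = - (4 * (g 0 1 * g 1 0)) := by
      have := h
      rw [Matrix.trace_fin_two, Matrix.det_fin_two] at this
      linear_combination this
    set n := g - (Matrix.trace g / 2) • (1 : M₂) with hn
    have hn00 : n 0 0 = (g 0 0 - g 1 1) / 2 := by
      simp [hn, Matrix.trace_fin_two]
      field_simp
      ring
    have hn11 : n 1 1 = - (g 0 0 - g 1 1) / 2 := by
      simp [hn, Matrix.trace_fin_two]
      field_simp
      ring
    have hn01 : n 0 1 = g 0 1 := by simp [hn]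
    have hn10 : n 1 0 = g 1 0 := by simp [hn]
    apply mat_ext
    · rw [mul00, hn00, hn01, hn10, Matrix.zero_apply]
      field_simp
      linear_combination e0
    · rw [mul01, hn00, hn01, hn11, Matrix.zero_apply]
      field_simp
      ring
    · rw [mul10, hn00, hn10, hn11, Matrix.zero_apply]
      field_simp
      ring
    · rw [mul11, hn11, hn01, hn10, Matrix.zero_apply]
      field_simp
      linear_combination e0
  · simp
  · intro hd hc
    apply hd
    have ht : Matrix.trace g = 0 := by
      have := (div_eq_zero_iff.mp hc).resolve_right h2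
      exact this
    rw [disc₂, ht] at h
    have : (4 : F) * g.det = 0 := by linear_combination -h
    have h4 : (4 : F) ≠ 0 := by
      have : (4 : F) = 2 * 2 := by norm_num
      rw [this]
      exact mul_ne_zero h2 h2
    exact (mul_eq_zero.mp this).resolve_left h4

/-- Elements of the centre are scalar if there is a transvection and a non-triangular element. -/
theorem scal_of_central (hm : Function.Injective m) {g₀ u : Γ} (hg₀ : m g₀ 1 0 ≠ 0) (hu : m u = transv)
    {x : Γ} (hx : x ∈ Subgroup.center Γ) : IsScal (m x) := by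
  have h1 : m x * m u = m u * m x := by
    rw [← map_mul, ← map_mul, (Subgroup.mem_center_iff.mp hx u)]
  rw [hu, comm_transv_iff] at h1
  have h2 : m g₀ * m x = m x * m g₀ := by
    rw [← map_mul, ← map_mul, (Subgroup.mem_center_iff.mp hx g₀)]
  have e00 := congrFun (congrFun h2 0) 0
  simp only [mul00, h1.1] at e00
  refine ⟨?_, h1.1, h1.2⟩
  have : m x 0 1 * m g₀ 1 0 = 0 := by linear_combination -e00
  exact (mul_eq_zero.mp this).resolve_right hg₀

theorem central_iff_scal (hm : Function.Injective m) {g₀ u : Γ} (hg₀ : m g₀ 1 0 ≠ 0) (hu : m u = transv)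
    {x : Γ} : x ∈ Subgroup.center Γ ↔ IsScal (m x) :=
  ⟨scal_of_central hm hg₀ hu, scal_central hm⟩

theorem comm_of_comm_nonscal (hm : Function.Injective m) {g₀ u : Γ} (hg₀ : m g₀ 1 0 ≠ 0) (hu : m u = transv)
    {a b w : Γ} (hab : a * b = b * a) (hb : b ∉ Subgroup.center Γ) (hw : w * b = b * w) : w * a = a * w := by
  apply hm
  rw [map_mul, map_mul]
  have hns : ¬ IsScal (m b) := fun h => hb (scal_central hm h)
  have h1 : m a * m b = m b * m a := by rw [← map_mul, ← map_mul, hab]
  have h3 : m w * m b = m b * m w := by rw [← map_mul, ← map_mul, hw]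
  obtain ⟨α, β, h⟩ := exists_comb_of_comm h1 hns
  rw [h]
  exact (comb_mul_comm_of h3 α β).symm

/-- A non-central element of zero discriminant commutes with a non-central element of `p`-power order. -/
theorem exists_pelt_comm (hm : Function.Injective m) {g₀ u : Γ} (hg₀ : m g₀ 1 0 ≠ 0) (hu : m u = transv)
    (h2 : (2 : F) ≠ 0) (p : ℕ) [Fact p.Prime] [CharP F p] {g : Γ} (hg : g ∉ Subgroup.center Γ)
    (hd : disc₂ (m g) = 0) :
    ∃ (v : Γ) (e : ℕ), v ^ (p ^ e) = 1 ∧ v ∉ Subgroup.center Γ ∧ v * g = g * v := by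
  obtain ⟨c, n, hn, hgn, hc⟩ := sq_zero_of_disc h2 hd
  have hc := hc (det_ne_zero_of_hom m g)
  have hord : orderOf g ≠ 0 := (orderOf_pos g).ne'
  obtain ⟨e, m₀, hm₀, he⟩ := Nat.exists_eq_pow_mul_and_not_dvd hord p (Fact.out : p.Prime).ne_one
  have hm₀0 : m₀ ≠ 0 := by
    rintro rfl
    exact hm₀ (dvd_zero p)
  obtain ⟨k, rfl⟩ := Nat.exists_eq_succ_of_ne_zero hm₀0
  refine ⟨g ^ (k + 1), e, ?_, ?_, ?_⟩
  · rw [← pow_mul, mul_comm, ← he, pow_orderOf_eq_one]
  · intro hv
    have hsc := scal_of_central hm hg₀ hu hv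
    have hpw := pow_of_disc_zero hn hgn k
    rw [← map_pow] at hpw
    have hβ : ((k : F) + 1) * c ^ k ≠ 0 := by
      refine mul_ne_zero ?_ (pow_ne_zero _ hc)
      intro h0
      have : ((k + 1 : ℕ) : F) = 0 := by
        push_cast
        exact h0
      exact hm₀ ((CharP.cast_eq_zero_iff F p (k + 1)).mp this)
    set β := ((k : F) + 1) * c ^ k with hβdef
    apply hg
    apply scal_central hm
    obtain ⟨h01, h10, h00⟩ := hsc
    rw [hpw] at h01 h10 h00
    simp only [Matrix.add_apply, Matrix.smul_apply, smul_eq_mul, Matrix.one_apply_ne (show (0 : Fin 2) ≠ 1 by decide),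
      Matrix.one_apply_ne (show (1 : Fin 2) ≠ 0 by decide), Matrix.one_apply_eq, mul_zero, zero_add] at h01 h10 h00
    have n01 : n 0 1 = 0 := (mul_eq_zero.mp h01).resolve_left hβ
    have n10 : n 1 0 = 0 := (mul_eq_zero.mp h10).resolve_left hβ
    have n00 : n 0 0 = n 1 1 := by
      apply mul_left_cancel₀ hβ
      linear_combination h00
    rw [hgn]
    refine ⟨?_, ?_, ?_⟩
    · simp [n01]
    · simp [n10]
    · simp [n00]
  · exact (Commute.pow_left (Commute.refl g) (k + 1)).eq

/-- The core theorem. -/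
theorem no_transvection_core (hm : Function.Injective m) (hodd : Odd (Nat.card Γ)) (h2 : (2 : F) ≠ 0)
    (p : ℕ) [Fact p.Prime] [CharP F p] {g₀ u : Γ} (hg₀ : m g₀ 1 0 ≠ 0) (hu : m u = transv)
    (hconj : ∀ v : Γ, (∃ e : ℕ, v ^ (p ^ e) = 1) → ∃ x : Γ, (x * v * x⁻¹) * u = u * (x * v * x⁻¹)) : False := by
  classical
  -- the subgroups
  let Z : Subgroup Γ := Subgroup.center Γ
  let A₀ : Subgroup Γ := Subgroup.centralizer ({u} : Set Γ)
  have hA₀ : ∀ x, x ∈ A₀ ↔ (m x 1 0 = 0 ∧ m x 0 0 = m x 1 1) := by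
    intro x
    rw [← comm_transv_iff, ← hu, ← map_mul, ← map_mul, hm.eq_iff]
    exact Subgroup.mem_centralizer_singleton_iff.trans eq_comm |>.trans eq_comm
  let B : Subgroup Γ :=
    { carrier := {x | m x 1 0 = 0}
      mul_mem' := by
        intro a b ha hb
        simp only [Set.mem_setOf_eq] at ha hb ⊢
        rw [map_mul, mul10, ha, hb]
        ring
      one_mem' := by simp
      inv_mem' := by
        intro a ha
        simp only [Set.mem_setOf_eq] at ha ⊢
        have h : m a⁻¹ * m a = 1 := by rw [← map_mul, inv_mul_cancel, map_one]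
        have e := congrFun (congrFun h 1) 0
        rw [mul10, ha] at e
        simp only [Matrix.one_apply_ne (show (1 : Fin 2) ≠ 0 by decide), mul_zero, add_zero] at e
        obtain ⟨h1, -⟩ := two_by_two_diag_ne_zero (det_ne_zero_of_hom m a) ha
        exact (mul_eq_zero.mp e).resolve_right h1 }
  have hB : ∀ x, x ∈ B ↔ m x 1 0 = 0 := fun x => Iff.rfl
  have hcs : ∀ {x}, x ∈ Z ↔ IsScal (m x) := central_iff_scal hm hg₀ hu
  have huA : u ∈ A₀ := Subgroup.mem_centralizer_singleton_iff.mpr rfl
  have huZ : u ∉ Z := by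
    intro h
    have := (hcs.mp h).1
    rw [hu] at this
    exact one_ne_zero this
  have hdisc : ∀ w, w ∈ conjSet A₀ Z → disc₂ (m w) = 0 := by
    rintro w ⟨x, y, hy, -, rfl⟩
    rw [disc_conj_hom]
    exact disc_of_borel ((hA₀ y).mp hy)
  apply no_ca_config hodd Z A₀ B
  · intro z hz g
    exact (Subgroup.mem_center_iff.mp hz g).symm
  · intro x hx
    exact Subgroup.mem_centralizer_singleton_iff.mpr (Subgroup.mem_center_iff.mp hx u).symm
  · intro h
    exact huZ (h ▸ huA)
  · intro x hx
    exact ((hA₀ x).mp hx).1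
  · intro h
    have : g₀ ∈ B := h ▸ Subgroup.mem_top g₀
    exact hg₀ this
  · intro x hx y hy
    exact (hA₀ _).mpr (borel_normalizes hx ((hA₀ y).mp hy))
  · intro y hy hyZ x hxy
    exact borel_of_conj hm ((hA₀ y).mp hy) hyZ ((hA₀ _).mp hxy)
  · -- the tori
    intro g hgZ hgP y hyg hyZ
    have hdg : disc₂ (m g) ≠ 0 := by
      intro hd
      obtain ⟨v, e, hv1, hvZ, hvg⟩ := exists_pelt_comm hm hg₀ hu h2 p hgZ hd
      obtain ⟨x, hx⟩ := hconj v ⟨e, hv1⟩
      apply hgP
      refine ⟨x⁻¹, x * g * x⁻¹, ?_, ?_, by group⟩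
      · have h3 : x * v * x⁻¹ ∉ Subgroup.center Γ := by
          intro h
          apply hvZ
          have e' : v = x⁻¹ * (x * v * x⁻¹) * x := by group
          rw [e', mul_assoc, (Subgroup.mem_center_iff.mp h x).symm, inv_mul_cancel_left]
          exact h
        refine Subgroup.mem_centralizer_singleton_iff.mpr ?_
        have h5 : (x * g * x⁻¹) * (x * v * x⁻¹) = (x * v * x⁻¹) * (x * g * x⁻¹) := by
          calc (x * g * x⁻¹) * (x * v * x⁻¹) = x * (g * v) * x⁻¹ := by group
            _ = x * (v * g) * x⁻¹ := by rw [hvg]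
            _ = (x * v * x⁻¹) * (x * g * x⁻¹) := by group
        exact (comm_of_comm_nonscal hm hg₀ hu h5 h3 hx.symm).symm
      · intro h
        apply hgZ
        have e' : g = x⁻¹ * (x * g * x⁻¹) * x := by group
        rw [e', mul_assoc, (Subgroup.mem_center_iff.mp h x).symm, inv_mul_cancel_left]
        exact h
    have hyg' : y * g = g * y := Subgroup.mem_centralizer_singleton_iff.mp hyg
    have hnsg : ¬ IsScal (m g) := disc_ne_zero_not_scal hdg
    have hcomb : ∃ α β : F, m y = α • (1 : M₂) + β • m g := by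
      apply exists_comb_of_comm _ hnsg
      rw [← map_mul, ← map_mul, hyg']
    obtain ⟨α, β, hαβ⟩ := hcomb
    have hβ : β ≠ 0 := by
      rintro rfl
      apply hyZ
      apply scal_central hm
      rw [hαβ]
      refine ⟨?_, ?_, ?_⟩ <;> simp
    have hdy : disc₂ (m y) ≠ 0 := by
      rw [hαβ, disc₂_comb]
      exact mul_ne_zero (pow_ne_zero _ hβ) hdg
    have hgZ' : g ∉ Subgroup.center Γ := hgZ
    have hyZ' : y ∉ Subgroup.center Γ := hyZ
    have hCC : Subgroup.centralizer ({y} : Set Γ) = Subgroup.centralizer ({g} : Set Γ) := by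
      apply le_antisymm
      · intro w hw
        rw [Subgroup.mem_centralizer_singleton_iff] at hw ⊢
        exact comm_of_comm_nonscal hm hg₀ hu hyg'.symm hyZ' hw
      · intro w hw
        rw [Subgroup.mem_centralizer_singleton_iff] at hw ⊢
        exact comm_of_comm_nonscal hm hg₀ hu hyg' hgZ' hw
    refine ⟨hCC, fun h => hdy (hdisc y h), ?_⟩
    intro x hx
    rw [← hCC, Subgroup.mem_centralizer_singleton_iff] at hx ⊢
    exact comm_of_conj_comm hm hodd h2 hdy hx
  · -- the Borel
    intro g hgB hgA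
    have hgB' : m g 1 0 = 0 := hgB
    have hne : m g 0 0 ≠ m g 1 1 := fun h => hgA ((hA₀ g).mpr ⟨hgB', h⟩)
    have hd : disc₂ (m g) ≠ 0 := by
      rw [disc₂_eq, hgB']
      simp only [mul_zero, add_zero]
      exact pow_ne_zero _ (sub_ne_zero.mpr hne)
    refine ⟨fun h => hd (hdisc g h), ?_, ?_⟩
    · intro w hw
      have hw' : m w * m g = m g * m w := by
        rw [← map_mul, ← map_mul, Subgroup.mem_centralizer_singleton_iff.mp hw]
      have e := congrFun (congrFun hw' 1) 0
      rw [mul10, mul10, hgB'] at e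
      have : m w 1 0 * (m g 0 0 - m g 1 1) = 0 := by linear_combination e
      exact (mul_eq_zero.mp this).resolve_right (sub_ne_zero.mpr hne)
    · intro w hw
      obtain ⟨hw1, hw2⟩ := Subgroup.mem_inf.mp hw
      have hw' : m w * m g = m g * m w := by
        rw [← map_mul, ← map_mul, Subgroup.mem_centralizer_singleton_iff.mp hw1]
      obtain ⟨h10, h00⟩ := (hA₀ w).mp hw2
      apply scal_central hm
      refine ⟨?_, h10, h00⟩
      have e := congrFun (congrFun hw' 0) 1
      rw [mul01, mul01, h00] at e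
      have : m w 0 1 * (m g 1 1 - m g 0 0) = 0 := by linear_combination e
      exact (mul_eq_zero.mp this).resolve_right (sub_ne_zero.mpr hne.symm)

end Core2

end Cfsg.Agent.H06
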