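import Cfsg.Agent.S1463

/-!
# Odd solvable subgroups of `GL₂` in odd characteristic: the derived group is a `p`-group
-/

set_option autoImplicit false

namespace Cfsg.Agent.H06

open Matrix
open scoped commutatorElement

universe u v

section Mat

variable {F : Type u} [Field F] {Γ : Type v} [Group Γ] [Finite Γ]

local notation "M₂" => Matrix (Fin 2) (Fin 2) F

variable {m : Γ →* Matrix (Fin 2) (Fin 2) F}

/-- A nonscalar element with zero discriminant is a `p`-element times scalar: power computation. -/
theorem pow_char_of_disc_zero {g : M₂} (p : ℕ) [Fact p.Prime] [CharP F p] (h2 : (2 : F) ≠ 0) (hd : disc₂ g = 0) :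
    IsScal (g ^ p) := by
  obtain ⟨c, n, hn, hg, -⟩ := sq_zero_of_disc h2 hd
  have hp : p = (p - 1) + 1 := (Nat.sub_add_cancel (Fact.out : p.Prime).one_le).symm
  have h := pow_of_disc_zero hn hg (p - 1)
  rw [← hp] at h
  have h0 : (((p - 1 : ℕ) : F) + 1) = 0 := by
    have : (((p - 1 : ℕ) : F) + 1) = ((p : ℕ) : F) := by
      conv_rhs => rw [hp]
      push_cast
      rfl
    rw [this]
    exact CharP.cast_eq_zero F p
  rw [h0, zero_mul, zero_smul, add_zero] at h
  rw [h]
  refine ⟨?_, ?_, ?_⟩ <;> simp

theorem scal_pow_iff_aux {x : Γ} (hm : Function.Injective m) {p : ℕ} (hx : (orderOf x).Coprime p)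
    (hs : IsScal (m (x ^ p))) : IsScal (m x) := by
  classical
  -- `x` is a power of `x ^ p`
  obtain ⟨k, hk⟩ : ∃ k : ℕ, (x ^ p) ^ k = x := by
    have := exists_pow_eq_self_of_coprime (x := x) (n := p) (hx.symm)
    simpa using this
  rw [← hk]
  rw [map_pow]
  clear hk
  -- powers of scalars are scalar
  generalize m (x ^ p) = y at hs
  induction k with
  | zero =>
    simp only [pow_zero]
    refine ⟨by simp, by simp, by simp⟩
  | succ k ih =>
    rw [pow_succ]
    obtain ⟨a, b, c⟩ := ih
    obtain ⟨a', b', c'⟩ := hs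
    refine ⟨?_, ?_, ?_⟩
    · rw [mul01, a, a']; ring
    · rw [mul10, b, b']; ring
    · rw [mul00, mul11, a, b, a', b', c, c']; ring

/-- Elements of order coprime to the characteristic: nonscalar implies nonzero discriminant. -/
theorem disc_ne_zero_of_coprime (hm : Function.Injective m) (p : ℕ) [Fact p.Prime] [CharP F p] (h2 : (2 : F) ≠ 0)
    {x : Γ} (hx : (orderOf x).Coprime p) (hns : ¬ IsScal (m x)) : disc₂ (m x) ≠ 0 := by
  intro hd
  apply hns
  apply scal_pow_iff_aux hm hx
  rw [map_pow]
  exact pow_char_of_disc_zero p h2 hd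

/-- The abelian case: if every nonscalar element has nonzero discriminant, the group is abelian. -/
theorem comm_of_disc_ne_zero (h2 : (2 : F) ≠ 0) :
    ∀ (n : ℕ) (Γ : Type v) [Group Γ] [Finite Γ] [Group.IsSolvable Γ] (_ : Nat.card Γ = n)
      (_ : Odd (Nat.card Γ)) (m : Γ →* M₂) (_ : Function.Injective m)
      (_ : ∀ y : Γ, ¬ IsScal (m y) → disc₂ (m y) ≠ 0) (x y : Γ), x * y = y * x := by
  intro n
  induction n using Nat.strong_induction_on with
  | _ n ih =>
    intro Γ _ _ _ hn hodd m hm hd x y
    by_cases hT : Nontrivial Γ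
    swap
    · rw [not_nontrivial_iff_subsingleton] at hT
      exact Subsingleton.elim _ _
    have hlt : commutator Γ < ⊤ := by
      exact IsSolvable.commutator_lt_top_of_nontrivial Γ
    have hcard : Nat.card (commutator Γ) < n := by
      rw [← hn]
      have h1 := Subgroup.card_le_card_group (commutator Γ)
      have h2 : Nat.card (commutator Γ) ≠ Nat.card Γ := by
        intro h
        exact hlt.ne (Subgroup.eq_top_of_card_eq _ h)
      omega
    have hoddc : Odd (Nat.card (commutator Γ)) := by
      have h := Subgroup.card_subgroup_dvd_card (commutator Γ)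
      exact Odd.of_dvd_nat hodd h
    have hab := ih _ hcard (commutator Γ) rfl hoddc (m.comp (commutator Γ).subtype)
      (hm.comp (Subgroup.subtype_injective _)) (fun z hz => hd z hz)
    by_cases hall : ∀ w ∈ commutator Γ, IsScal (m w)
    · -- every commutator is scalar
      have hw : ∀ a b : Γ, a * b = b * a := by
        intro a b
        have hmem : ⁅a, b⁆ ∈ commutator Γ := by
          rw [commutator_def]
          exact Subgroup.commutator_mem_commutator (Subgroup.mem_top a) (Subgroup.mem_top b)
        obtain ⟨h01, h10, h00⟩ := hall _ hmem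
        have hm1 : m ⁅a, b⁆ = (m ⁅a, b⁆ 0 0) • (1 : M₂) := by
          apply mat_ext <;> simp [h01, h10, h00]
        set c := m ⁅a, b⁆ 0 0 with hc
        -- `a b a⁻¹ = c b`
        have e1 : m (a * b * a⁻¹) = c • m b := by
          have : a * b * a⁻¹ = ⁅a, b⁆ * b := by
            rw [commutatorElement_def]; group
          rw [this, map_mul, hm1, Matrix.smul_mul, one_mul]
        have e2 := det_conj_hom m a b
        rw [e1, Matrix.det_smul, Fintype.card_fin] at e2
        have hdb := det_ne_zero_of_hom m b
        have hc2 : c ^ 2 = 1 := by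
          have : (c ^ 2 - 1) * (m b).det = 0 := by linear_combination e2
          have := (mul_eq_zero.mp this).resolve_right hdb
          linear_combination this
        have hw2 : ⁅a, b⁆ ^ 2 = 1 := by
          apply hm
          rw [map_pow, map_one, hm1, smul_pow, one_pow, hc2, one_smul]
        have ho : orderOf ⁅a, b⁆ ∣ 2 := orderOf_dvd_of_pow_eq_one hw2
        have hoo : Odd (orderOf ⁅a, b⁆) := Odd.of_dvd_nat hodd (orderOf_dvd_natCard _)
        have h1 : orderOf ⁅a, b⁆ = 1 := by
          rcases (Nat.dvd_prime Nat.prime_two).mp ho with h | h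
          · exact h
          · rw [h] at hoo
            exact absurd hoo (by decide)
        have h3 : ⁅a, b⁆ = 1 := orderOf_eq_one_iff.mp h1
        exact commutatorElement_eq_one_iff_mul_comm.mp h3
      exact hw x y
    · -- a nonscalar element in the derived group is central
      push Not at hall
      obtain ⟨w, hw, hns⟩ := hall
      have hdw := hd w hns
      have hcomm : ∀ a : Γ, a * w = w * a := by
        intro a
        apply comm_of_conj_comm hm hodd h2 hdw
        -- conjugate of `w` lies in the derived group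
        have hw' : a * w * a⁻¹ ∈ commutator Γ := (inferInstance : (commutator Γ).Normal).conj_mem w hw a
        have := hab ⟨a * w * a⁻¹, hw'⟩ ⟨w, hw⟩
        simpa using congrArg Subtype.val this
      have hc1 := hm.eq_iff.mpr (hcomm x)
      have hc2 := hm.eq_iff.mpr (hcomm y)
      rw [map_mul, map_mul] at hc1 hc2
      obtain ⟨α, β, h1⟩ := exists_comb_of_comm hc1 hns
      obtain ⟨α', β', h2'⟩ := exists_comb_of_comm hc2 hns
      apply hm
      rw [map_mul, map_mul, h1, h2']
      simp only [mul_add, add_mul, Matrix.mul_smul, Matrix.smul_mul, mul_one, one_mul, smul_smul]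
      rw [mul_comm β' α, mul_comm α' α, mul_comm β' β, mul_comm α' β]
      abel

/-- A monoid hom to a commutative monoid kills commutators. -/
theorem hom_comm_eq_one {Γ : Type v} [Group Γ] {M : Type u} [CommMonoid M] (f : Γ →* M) (a b : Γ) : f ⁅a, b⁆ = 1 := by
  rw [commutatorElement_def, map_mul, map_mul, map_mul]
  have h1 : f a * f a⁻¹ = 1 := by rw [← map_mul, mul_inv_cancel, map_one]
  have h2 : f b * f b⁻¹ = 1 := by rw [← map_mul, mul_inv_cancel, map_one]
  calc f a * f b * f a⁻¹ * f b⁻¹ = (f a * f a⁻¹) * (f b * f b⁻¹) := by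
        simp only [mul_assoc, mul_left_comm]
    _ = 1 := by rw [h1, h2, one_mul]

/-- Elements fixing a nonzero vector with determinant one have discriminant zero. -/
theorem disc_zero_of_fix {A : M₂} {v : Fin 2 → F} (hv : v ≠ 0) (hA : A.mulVec v = v) (hd : A.det = 1) :
    disc₂ A = 0 := by
  have e0 := congrFun hA 0
  have e1 := congrFun hA 1
  simp only [Matrix.mulVec, dotProduct, Fin.sum_univ_two] at e0 e1
  rw [Matrix.det_fin_two] at hd
  have ht : (A 0 0 + A 1 1 - 2) * v 0 = 0 := by
    linear_combination (-(A 1 1) + 1) * e0 + (A 0 1) * e1 + (v 0) * hd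
  have ht' : (A 0 0 + A 1 1 - 2) * v 1 = 0 := by
    linear_combination (-(A 0 0) + 1) * e1 + (A 1 0) * e0 + (v 1) * hd
  have h0 : A 0 0 + A 1 1 - 2 = 0 := by
    by_contra hne
    apply hv
    have h1 := (mul_eq_zero.mp ht).resolve_left hne
    have h2 := (mul_eq_zero.mp ht').resolve_left hne
    ext i
    fin_cases i
    · exact h1
    · exact h2
  rw [disc₂, Matrix.trace_fin_two, Matrix.det_fin_two, hd]
  have h3 : A 0 0 + A 1 1 = 2 := by linear_combination h0
  rw [h3]
  ring

/-- The reducible case of the main theorem. -/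
theorem derived_pgroup_of_reducible (hm : Function.Injective m) (p : ℕ) [Fact p.Prime] [CharP F p] (h2 : (2 : F) ≠ 0)
    {v : Fin 2 → F} (hv : v ≠ 0) (hinv : ∀ g : Γ, (m g).mulVec v ∈ Submodule.span F {v}) :
    IsPGroup p (commutator Γ) := by
  classical
  choose χ hχ using fun g : Γ => Submodule.mem_span_singleton.mp (hinv g)
  have hχ1 : χ 1 = 1 := by
    have h := hχ 1
    rw [map_one, Matrix.one_mulVec] at h
    have h' : (χ 1 - 1) • v = 0 := by rw [sub_smul, one_smul, h, sub_self]
    have := (smul_eq_zero.mp h').resolve_right hv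
    exact sub_eq_zero.mp this
  have hχm : ∀ a b, χ (a * b) = χ a * χ b := by
    intro a b
    have h := hχ (a * b)
    rw [map_mul, ← Matrix.mulVec_mulVec, ← hχ b, Matrix.mulVec_smul, ← hχ a, smul_smul] at h
    have h' : (χ (a * b) - χ b * χ a) • v = 0 := by rw [sub_smul, h, sub_self]
    have := (smul_eq_zero.mp h').resolve_right hv
    rw [sub_eq_zero.mp this]
    ring
  let X : Γ →* F := { toFun := χ, map_one' := hχ1, map_mul' := hχm }
  let D : Γ →* F := (Matrix.detMonoidHom (n := Fin 2) (R := F)).comp m
  have hkey : commutator Γ ≤ X.ker ⊓ D.ker := by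
    rw [commutator_def, Subgroup.commutator_le]
    intro a _ b _
    refine Subgroup.mem_inf.mpr ⟨?_, ?_⟩
    · rw [MonoidHom.mem_ker]; exact hom_comm_eq_one X a b
    · rw [MonoidHom.mem_ker]; exact hom_comm_eq_one D a b
  intro g
  refine ⟨1, ?_⟩
  have hg := hkey g.2
  obtain ⟨hg1, hg2⟩ := Subgroup.mem_inf.mp hg
  rw [MonoidHom.mem_ker] at hg1 hg2
  set x : Γ := (g : Γ) with hx
  have hfix : (m x).mulVec v = v := by
    rw [← hχ x]
    have : χ x = 1 := hg1
    rw [this, one_smul]
  have hd : (m x).det = 1 := hg2
  have hdisc := disc_zero_of_fix hv hfix hd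
  have hsc := pow_char_of_disc_zero (g := m x) p h2 hdisc
  obtain ⟨a, b, c⟩ := hsc
  have hfixp : (m x ^ p).mulVec v = v := by
    generalize p = k
    induction k with
    | zero => simp
    | succ k ih =>
      rw [pow_succ, ← Matrix.mulVec_mulVec, hfix, ih]
  have h1 : m x ^ p = 1 := by
    have e0 := congrFun hfixp 0
    have e1 := congrFun hfixp 1
    simp only [Matrix.mulVec, dotProduct, Fin.sum_univ_two, a, b, zero_mul, add_zero, zero_add] at e0 e1
    rw [← c] at e1
    have hne : (m x ^ p) 0 0 = 1 := by
      by_contra hne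
      have hne' : (m x ^ p) 0 0 - 1 ≠ 0 := sub_ne_zero.mpr hne
      apply hv
      have h0 : ((m x ^ p) 0 0 - 1) * v 0 = 0 := by linear_combination e0
      have h1 : ((m x ^ p) 0 0 - 1) * v 1 = 0 := by linear_combination e1
      have h0' := (mul_eq_zero.mp h0).resolve_left hne'
      have h1' := (mul_eq_zero.mp h1).resolve_left hne'
      ext i
      fin_cases i
      · exact h0'
      · exact h1'
    apply mat_ext
    · rw [hne]; simp
    · rw [a]; simp
    · rw [b]; simp
    · rw [← c, hne]; simp
  have h3 : (x : Γ) ^ p = 1 := by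
    apply hm
    rw [map_pow, h1, map_one]
  apply Subtype.ext
  simpa [hx, pow_one] using h3

/-- **Main matrix theorem.** A finite odd solvable linear group of degree two in odd characteristic `p` has
derived group a `p`-group. -/
theorem derived_pgroup_of_hom (hm : Function.Injective m) (p : ℕ) [Fact p.Prime] [CharP F p] (hp : p ≠ 2)
    [Group.IsSolvable Γ] (hodd : Odd (Nat.card Γ)) : IsPGroup p (commutator Γ) := by
  classical
  have h2 : (2 : F) ≠ 0 := by
    intro h
    have h' : ((2 : ℕ) : F) = 0 := by exact_mod_cast h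
    have := (CharP.cast_eq_zero_iff F p 2).mp h'
    exact hp ((Nat.prime_dvd_prime_iff_eq Fact.out Nat.prime_two).mp this)
  by_cases hr : ∃ v : Fin 2 → F, v ≠ 0 ∧ ∀ g : Γ, (m g).mulVec v ∈ Submodule.span F {v}
  · obtain ⟨v, hv, hinv⟩ := hr
    exact derived_pgroup_of_reducible hm p h2 hv hinv
  · push Not at hr
    let H : Subgroup (GL (Fin 2) F) := (MonoidHom.toHomUnits m).range
    have hinj : Function.Injective (MonoidHom.toHomUnits m) := by
      intro a b hab
      apply hm
      have := congrArg Units.val hab
      simpa using this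
    have hcard : Nat.card H = Nat.card Γ :=
      (Nat.card_congr (MonoidHom.ofInjective hinj).toEquiv).symm
    haveI : Finite H := by
      haveI : Finite (MonoidHom.toHomUnits m).range :=
        Finite.of_equiv _ (MonoidHom.ofInjective hinj).toEquiv
      exact this
    have hnd : ¬ p ∣ Nat.card H := by
      apply Cfsg.Agent.S1463.result p hp H (by rw [hcard]; exact hodd)
      intro v hv
      obtain ⟨g, hg⟩ := hr v hv
      exact ⟨MonoidHom.toHomUnits m g, ⟨g, rfl⟩, by simpa using hg⟩
    rw [hcard] at hnd
    have hcop : ∀ x : Γ, (orderOf x).Coprime p := by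
      intro x
      have : ¬ p ∣ orderOf x := fun h => hnd (h.trans (orderOf_dvd_natCard x))
      exact ((Nat.Prime.coprime_iff_not_dvd Fact.out).mpr this).symm
    have hab := comm_of_disc_ne_zero h2 _ Γ rfl hodd m hm
      (fun y hy => disc_ne_zero_of_coprime hm p h2 (hcop y) hy)
    have hbot : commutator Γ = ⊥ := by
      rw [commutator_def, Subgroup.commutator_eq_bot_iff_le_centralizer]
      intro a _ b _
      exact hab b a
    rw [hbot]
    exact IsPGroup.of_bot

end Mat

section Fin

/-- Primes dividing the order of an odd subgroup of `GL₂(p)`. -/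
theorem prime_le_of_gl2 (p : ℕ) [Fact p.Prime] (hp : p ≠ 2) {Γ : Type v} [Group Γ] [Finite Γ]
    (hodd : Odd (Nat.card Γ)) (m : Γ →* Matrix (Fin 2) (Fin 2) (ZMod p)) (hm : Function.Injective m)
    {q : ℕ} (hq : q.Prime) (hd : q ∣ Nat.card Γ) : q ≤ p := by
  classical
  have hpp : p.Prime := Fact.out
  have hinj : Function.Injective (MonoidHom.toHomUnits m) := by
    intro a b hab
    apply hm
    have := congrArg Units.val hab
    simpa using this
  have hdvd : Nat.card Γ ∣ Nat.card (GL (Fin 2) (ZMod p)) := Subgroup.card_dvd_of_injective _ hinj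
  rw [Matrix.card_GL_field] at hdvd
  simp only [Fin.prod_univ_two, Fin.val_zero, Fin.val_one, pow_zero, pow_one, ZMod.card] at hdvd
  have hq' : q ∣ (p ^ 2 - 1) * (p ^ 2 - p) := hd.trans hdvd
  have hqodd : q ≠ 2 := by
    rintro rfl
    have := (Nat.odd_iff.mp (Odd.of_dvd_nat hodd hd))
    omega
  have h1 : p ^ 2 - 1 = (p - 1) * (p + 1) := by
    obtain ⟨k, rfl⟩ : ∃ k, p = k + 1 := ⟨p - 1, (Nat.sub_add_cancel hpp.one_le).symm⟩
    simp only [Nat.add_sub_cancel]
    rw [Nat.sub_eq_iff_eq_add (Nat.one_le_pow _ _ (by omega))]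
    ring
  have h3 : p ^ 2 - p = p * (p - 1) := by
    rw [Nat.mul_sub, mul_one, sq]
  rw [h1, h3] at hq'
  rcases (Nat.Prime.dvd_mul hq).mp hq' with h | h
  · rcases (Nat.Prime.dvd_mul hq).mp h with h | h
    · have := Nat.le_of_dvd (by have := hpp.two_le; omega) h
      omega
    · have hle := Nat.le_of_dvd (by omega) h
      by_contra hgt
      have heq : q = p + 1 := by omega
      -- `p + 1` is even
      have hpodd : Odd p := hpp.odd_of_ne_two hp
      have hqe : Even q := by rw [heq]; exact hpodd.add_odd odd_one
      exact hqodd ((Nat.Prime.even_iff hq).mp hqe)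
  · rcases (Nat.Prime.dvd_mul hq).mp h with h | h
    · exact Nat.le_of_dvd hpp.pos h
    · have := Nat.le_of_dvd (by have := hpp.two_le; omega) h
      omega

/-- Endomorphisms of a vector space of dimension two over the prime field as matrices. -/
theorem exists_end_matrix (p : ℕ) [Fact p.Prime] (A : Type v) [AddCommGroup A] [Module (ZMod p) A] [Finite A]
    (hcard : Nat.card A = p ^ 2) :
    ∃ m : Module.End (ZMod p) A →* Matrix (Fin 2) (Fin 2) (ZMod p), Function.Injective m := by
  classical
  have hpp : p.Prime := Fact.out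
  haveI : Module.Finite (ZMod p) A := Module.Finite.of_finite
  have hfin : Module.finrank (ZMod p) A = 2 := by
    have h : Nat.card A = Nat.card (ZMod p) ^ Module.finrank (ZMod p) A :=
      Module.natCard_eq_pow_finrank
    rw [Nat.card_zmod, hcard] at h
    exact (Nat.pow_right_injective hpp.two_le h).symm
  let b : Module.Basis (Fin 2) (ZMod p) A := Module.finBasisOfFinrankEq _ _ hfin
  refine ⟨(LinearMap.toMatrixAlgEquiv b).toMulEquiv.toMonoidHom, ?_⟩
  exact (LinearMap.toMatrixAlgEquiv b).injective

/-- Endomorphisms of an elementary abelian group of rank two as matrices. -/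
theorem exists_addEnd_matrix (p : ℕ) [Fact p.Prime] (A : Type v) [AddCommGroup A] [Finite A]
    (hexp : ∀ x : A, p • x = 0) (hcard : Nat.card A = p ^ 2) :
    ∃ m : AddMonoid.End A →* Matrix (Fin 2) (Fin 2) (ZMod p), Function.Injective m := by
  classical
  letI : Module (ZMod p) A := AddCommGroup.zmodModule (n := p) hexp
  obtain ⟨m, hm⟩ := exists_end_matrix p A hcard
  let f : AddMonoid.End A →* Module.End (ZMod p) A :=
    { toFun := fun φ => AddMonoidHom.toZModLinearMap p φ
      map_one' := by
        apply LinearMap.ext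
        intro x
        rfl
      map_mul' := by
        intro a c
        apply LinearMap.ext
        intro x
        rfl }
  refine ⟨m.comp f, hm.comp ?_⟩
  intro a c hac
  ext x
  exact LinearMap.congr_fun hac x

/-- Automorphisms of an elementary abelian group of rank two as matrices. -/
theorem exists_mulAut_matrix (p : ℕ) [Fact p.Prime] (V : Type v) [CommGroup V] [Finite V]
    (hexp : ∀ v : V, v ^ p = 1) (hcard : Nat.card V = p ^ 2) :
    ∃ m : MulAut V →* Matrix (Fin 2) (Fin 2) (ZMod p), Function.Injective m := by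
  classical
  haveI : Finite (Additive V) := inferInstanceAs (Finite V)
  obtain ⟨m, hm⟩ := exists_addEnd_matrix p (Additive V) (by
    intro x
    change Additive.ofMul ((Additive.toMul x) ^ p) = 0
    rw [hexp]
    rfl) (by rw [← hcard]; rfl)
  let f : MulAut V →* AddMonoid.End (Additive V) :=
    { toFun := fun φ => MonoidHom.toAdditive φ.toMonoidHom
      map_one' := rfl
      map_mul' := fun _ _ => rfl }
  refine ⟨m.comp f, hm.comp ?_⟩
  intro a c hac
  apply MulEquiv.ext
  intro x
  exact DFunLike.congr_fun hac (Additive.ofMul x)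

end Fin

end Cfsg.Agent.H06
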