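import Cfsg.Agent.Lib.H06.GL2d
import Cfsg.Agent.Lib.H25.Critical
import Cfsg.Prelude.Def_CaseTheorems

/-!
# `p`-groups of rank at most two with odd solvable automorphism groups
-/

set_option autoImplicit false

namespace Cfsg.Agent.H06

open scoped commutatorElement

universe u v

section ExpP

variable {Y : Type u} [Group Y] [Finite Y] (p : ℕ) [Fact p.Prime]

/-- A group of exponent `p` without `E_{p³}`, nonabelian: order at most `p³`. -/
theorem card_le_of_exp_rank (hexp : ∀ y : Y, y ^ p = 1) (hr : Cfsg.PRankLE p 2 Y)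
    (hna : ¬ ∀ a b : Y, a * b = b * a) : Nat.card Y ≤ p ^ 3 := by
  classical
  have hpp : p.Prime := Fact.out
  have hG : IsPGroup p Y := fun y => ⟨1, by simpa using hexp y⟩
  let Z : Subgroup Y := Subgroup.center Y
  have hcen : ∀ z ∈ Z, ∀ g : Y, z * g = g * z := fun z hz g => (Subgroup.mem_center_iff.mp hz g).symm
  -- `Y / Z` is a nontrivial `p`-group
  haveI hnt : Nontrivial (Y ⧸ Z) := by
    by_contra hs
    rw [not_nontrivial_iff_subsingleton] at hs
    apply hna
    intro a b
    have : (a : Y ⧸ Z) = 1 := Subsingleton.elim _ _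
    exact hcen a ((QuotientGroup.eq_one_iff a).mp this) b
  have hQ : IsPGroup p (Y ⧸ Z) := hG.to_quotient Z
  haveI := hQ.center_nontrivial
  obtain ⟨⟨xb, hxb⟩, hne⟩ := exists_ne (1 : Subgroup.center (Y ⧸ Z))
  obtain ⟨x, rfl⟩ := QuotientGroup.mk_surjective xb
  have hxZ : x ∉ Z := by
    intro h
    apply hne
    apply Subtype.ext
    exact (QuotientGroup.eq_one_iff x).mpr h
  have hcomm : ∀ y : Y, ⁅y, x⁆ ∈ Z := by
    intro y
    rw [← QuotientGroup.eq_one_iff]
    have h1 : ((y : Y ⧸ Z)) * (x : Y ⧸ Z) = (x : Y ⧸ Z) * (y : Y ⧸ Z) :=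
      Subgroup.mem_center_iff.mp hxb _
    have h2 : ((⁅y, x⁆ : Y) : Y ⧸ Z) = ⁅(y : Y ⧸ Z), (x : Y ⧸ Z)⁆ := rfl
    rw [h2]
    exact commutatorElement_eq_one_iff_mul_comm.mpr h1
  -- cardinalities of `Z` and `A = ⟨x, Z⟩`
  let A : Subgroup Y := Subgroup.closure (insert x (Z : Set Y))
  have hAcomm : ∀ a ∈ insert x (Z : Set Y), ∀ b ∈ insert x (Z : Set Y), a * b = b * a := by
    intro a ha b hb
    rcases ha with rfl | ha
    · rcases hb with rfl | hb
      · rfl
      · exact (hcen b hb _).symm
    · exact hcen a ha b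
  have hxA : x ∈ A := Subgroup.subset_closure (Set.mem_insert _ _)
  have hZA : Z ≤ A := fun z hz => Subgroup.subset_closure (Set.mem_insert_of_mem _ hz)
  have hAcard : Nat.card A ≤ p ^ 2 :=
    hr A (Subgroup.isMulCommutative_closure hAcomm) (fun a _ => hexp a)
  haveI : Nontrivial Y := ⟨⟨x, 1, fun h => hxZ (h ▸ Z.one_mem)⟩⟩
  haveI hZnt : Nontrivial Z := hG.center_nontrivial
  obtain ⟨a, hacard⟩ := (hG.to_subgroup A).exists_card_eq
  obtain ⟨b, hbcard⟩ := (hG.to_subgroup Z).exists_card_eq
  have hb1 : 1 ≤ b := by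
    by_contra hb
    have hb0 : b = 0 := by omega
    rw [hb0, pow_zero] at hbcard
    exact not_subsingleton Z (Nat.card_eq_one_iff_unique.mp hbcard).1
  have hlt : Nat.card Z < Nat.card A := by
    have hne : Z ≠ A := fun h => hxZ (h ▸ hxA)
    have hle := Subgroup.card_le_of_le hZA
    refine lt_of_le_of_ne hle ?_
    intro h
    exact hne (Subgroup.eq_of_le_of_card_ge hZA (le_of_eq h.symm))
  rw [hacard, hbcard] at hlt
  have hba : b < a := (Nat.pow_lt_pow_iff_right hpp.one_lt).mp hlt
  have hale : a ≤ 2 := by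
    rw [hacard] at hAcard
    exact (Nat.pow_le_pow_iff_right hpp.one_lt).mp hAcard
  have ha2 : a = 2 := by omega
  have hb' : b = 1 := by omega
  rw [ha2] at hacard
  rw [hb', pow_one] at hbcard
  -- the centralizer of `x` is `A`
  let C : Subgroup Y := Subgroup.centralizer ({x} : Set Y)
  have hCA : C ≤ A := by
    intro t ht
    have ht' : t * x = x * t := by
      have := Subgroup.mem_centralizer_iff.mp ht x (Set.mem_singleton x)
      exact this.symm
    let S : Subgroup Y := Subgroup.closure (insert t (insert x (Z : Set Y)))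
    have hS : IsMulCommutative S := by
      apply Subgroup.isMulCommutative_closure
      intro u hu v hv
      rcases hu with rfl | hu
      · rcases hv with rfl | hv
        · rfl
        · rcases hv with rfl | hv
          · exact ht'
          · exact (hcen v hv _).symm
      · rcases hv with rfl | hv
        · rcases hu with rfl | hu
          · exact ht'.symm
          · exact hcen u hu _
        · exact hAcomm u hu v hv
    have hAS : A ≤ S := Subgroup.closure_mono (Set.subset_insert _ _)
    have hScard : Nat.card S ≤ p ^ 2 := hr S hS (fun a _ => hexp a)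
    have hEq : A = S := Subgroup.eq_of_le_of_card_ge hAS (by rw [hacard]; exact hScard)
    rw [hEq]
    exact Subgroup.subset_closure (Set.mem_insert _ _)
  have hCcard : Nat.card C ≤ p ^ 2 := by
    have := Subgroup.card_le_of_le hCA
    rwa [hacard] at this
  -- the commutator hom
  let f : Y →* Z := MonoidHom.mk' (fun y => (⟨⁅y, x⁆, hcomm y⟩ : Z)) (by
    intro u v
    apply Subtype.ext
    change ⁅u * v, x⁆ = ⁅u, x⁆ * ⁅v, x⁆
    have hw := hcen ⁅v, x⁆ (hcomm v)
    have e1 : ⁅u * v, x⁆ = u * (⁅v, x⁆ * x) * u⁻¹ * x⁻¹ := by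
      rw [commutatorElement_def, commutatorElement_def]; group
    rw [e1, commutatorElement_def u x]
    generalize ⁅v, x⁆ = w at hw
    calc u * (w * x) * u⁻¹ * x⁻¹ = (u * w) * x * u⁻¹ * x⁻¹ := by group
      _ = (w * u) * x * u⁻¹ * x⁻¹ := by rw [hw u]
      _ = w * (u * x * u⁻¹ * x⁻¹) := by group
      _ = (u * x * u⁻¹ * x⁻¹) * w := hw _)
  have hker : f.ker = C := by
    ext y
    rw [MonoidHom.mem_ker]
    constructor
    · intro h
      have h' : ⁅y, x⁆ = 1 := congrArg Subtype.val h
      rw [Subgroup.mem_centralizer_iff]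
      intro h2 hh2
      rw [Set.mem_singleton_iff.mp hh2]
      exact (commutatorElement_eq_one_iff_mul_comm.mp h').symm
    · intro h
      apply Subtype.ext
      change ⁅y, x⁆ = 1
      have := Subgroup.mem_centralizer_iff.mp h x (Set.mem_singleton x)
      exact commutatorElement_eq_one_iff_mul_comm.mpr this.symm
  have hidx : C.index ≤ p := by
    rw [← hker, Subgroup.index_ker]
    calc Nat.card f.range ≤ Nat.card Z := Subgroup.card_le_card_group _
      _ = p := hbcard
  calc Nat.card Y = Nat.card C * C.index := (Subgroup.card_mul_index C).symm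
    _ ≤ p ^ 2 * p := Nat.mul_le_mul hCcard hidx
    _ = p ^ 3 := by ring

/-- Groups of exponent `p` without `E_{p³}`: the structure needed. -/
theorem exp_rank_structure (hexp : ∀ y : Y, y ^ p = 1) (hr : Cfsg.PRankLE p 2 Y) :
    commutator Y ≤ Subgroup.center Y ∧ Nat.card (Abelianization Y) ≤ p ^ 2 := by
  classical
  have hpp : p.Prime := Fact.out
  have hG : IsPGroup p Y := fun y => ⟨1, by simpa using hexp y⟩
  by_cases hab : ∀ a b : Y, a * b = b * a
  · have hbot : commutator Y = ⊥ := by
      rw [commutator_def, Subgroup.commutator_eq_bot_iff_le_centralizer]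
      intro a _ b _
      exact hab b a
    refine ⟨by rw [hbot]; exact bot_le, ?_⟩
    have h1 : Nat.card (⊤ : Subgroup Y) ≤ p ^ 2 :=
      hr ⊤ ⟨⟨fun a b => Subtype.ext (hab a b)⟩⟩ (fun a _ => hexp a)
    rw [Subgroup.card_top] at h1
    have h2 : Nat.card (Abelianization Y) ≤ Nat.card Y :=
      Nat.card_le_card_of_surjective _ (QuotientGroup.mk'_surjective (commutator Y))
    omega
  · have hle := card_le_of_exp_rank p hexp hr hab
    constructor
    · -- `Y / Z` has order at most `p²`
      haveI : Nontrivial Y := by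
        by_contra hs
        rw [not_nontrivial_iff_subsingleton] at hs
        exact hab (fun a b => Subsingleton.elim _ _)
      haveI hZnt : Nontrivial (Subgroup.center Y) := hG.center_nontrivial
      obtain ⟨b, hb⟩ := (hG.to_subgroup (Subgroup.center Y)).exists_card_eq
      have hb1 : 1 ≤ b := by
        by_contra hb0
        have hb0' : b = 0 := by omega
        rw [hb0', pow_zero] at hb
        rw [Nat.card_eq_one_iff_unique] at hb
        exact not_subsingleton _ hb.1
      obtain ⟨c, hc⟩ := (hG.to_quotient (Subgroup.center Y)).exists_card_eq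
      have hmul : Nat.card (Y ⧸ Subgroup.center Y) * Nat.card (Subgroup.center Y) = Nat.card Y :=
        (Subgroup.card_eq_card_quotient_mul_card_subgroup _).symm
      rw [hc, hb] at hmul
      have hcb : c + b ≤ 3 := by
        rw [← pow_add] at hmul
        rw [← hmul] at hle
        exact (Nat.pow_le_pow_iff_right hpp.one_lt).mp hle
      have hc2 : c ≤ 2 := by omega
      have hQ : ∀ a b : Y ⧸ Subgroup.center Y, a * b = b * a := by
        interval_cases c
        · rw [pow_zero, Nat.card_eq_one_iff_unique] at hc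
          haveI := hc.1
          exact fun a b => Subsingleton.elim _ _
        · rw [pow_one] at hc
          haveI : IsCyclic (Y ⧸ Subgroup.center Y) := isCyclic_of_prime_card hc
          exact fun a b => (IsCyclic.commutative.is_comm.comm a b)
        · exact IsPGroup.commutative_of_card_eq_prime_sq hc
      rw [commutator_def, Subgroup.commutator_le]
      intro a _ b _
      rw [← QuotientGroup.eq_one_iff]
      have h2 : ((⁅a, b⁆ : Y) : Y ⧸ Subgroup.center Y) = ⁅(a : Y ⧸ Subgroup.center Y), (b : Y ⧸ Subgroup.center Y)⁆ := rfl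
      rw [h2]
      exact commutatorElement_eq_one_iff_mul_comm.mpr (hQ _ _)
    · -- the derived group is nontrivial
      have hne : commutator Y ≠ ⊥ := by
        intro h
        apply hab
        intro a b
        have : ⁅a, b⁆ ∈ commutator Y := by
          rw [commutator_def]
          exact Subgroup.commutator_mem_commutator (Subgroup.mem_top a) (Subgroup.mem_top b)
        rw [h, Subgroup.mem_bot] at this
        exact commutatorElement_eq_one_iff_mul_comm.mp this
      obtain ⟨b, hb⟩ := (hG.to_subgroup (commutator Y)).exists_card_eq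
      have hb1 : 1 ≤ b := by
        by_contra hb0
        have hb0' : b = 0 := by omega
        rw [hb0', pow_zero, Subgroup.card_eq_one] at hb
        exact hne hb
      obtain ⟨c, hc⟩ := (hG.to_quotient (commutator Y)).exists_card_eq
      have hmul : Nat.card (Y ⧸ commutator Y) * Nat.card (commutator Y) = Nat.card Y :=
        (Subgroup.card_eq_card_quotient_mul_card_subgroup _).symm
      rw [hc, hb] at hmul
      have hcb : c + b ≤ 3 := by
        rw [← pow_add] at hmul
        rw [← hmul] at hle
        exact (Nat.pow_le_pow_iff_right hpp.one_lt).mp hle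
      change Nat.card (Y ⧸ commutator Y) ≤ p ^ 2
      rw [hc]
      exact Nat.pow_le_pow_right hpp.pos (by omega)

/-- A `p'`-automorphism of a class two `p`-group, trivial on the abelianization, is trivial. -/
theorem aut_trivial_of_abel (hG : IsPGroup p Y) (hc : commutator Y ≤ Subgroup.center Y) (ψ : MulAut Y)
    (hn : (orderOf ψ).Coprime p) (h : ∀ y : Y, Abelianization.of (ψ y) = Abelianization.of y) : ψ = 1 := by
  classical
  have hd : ∀ y : Y, y⁻¹ * ψ y ∈ commutator Y := by
    intro y
    have h1 : (y : Y ⧸ commutator Y) = (ψ y : Y) := (h y).symm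
    exact QuotientGroup.eq.mp h1
  have hcen : ∀ z ∈ commutator Y, ∀ g : Y, z * g = g * z := fun z hz g =>
    (Subgroup.mem_center_iff.mp (hc hz) g).symm
  have hfix : ∀ w ∈ commutator Y, ψ w = w := by
    let E : Subgroup Y := ψ.toMonoidHom.eqLocus (MonoidHom.id Y)
    have hE : commutator Y ≤ E := by
      rw [commutator_def, Subgroup.commutator_le]
      intro a _ b _
      change ψ ⁅a, b⁆ = ⁅a, b⁆
      rw [map_commutatorElement]
      have ha : ψ a = a * (a⁻¹ * ψ a) := by group
      have hb : ψ b = b * (b⁻¹ * ψ b) := by group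
      rw [ha, hb]
      generalize hdd : a⁻¹ * ψ a = d
      generalize hee : b⁻¹ * ψ b = e
      have hd1 : d ∈ commutator Y := hdd ▸ hd a
      have he1 : e ∈ commutator Y := hee ▸ hd b
      rw [commutatorElement_def, commutatorElement_def]
      calc (a * d) * (b * e) * (a * d)⁻¹ * (b * e)⁻¹ = a * (d * (b * e)) * (d⁻¹ * a⁻¹) * (e⁻¹ * b⁻¹) := by group
        _ = a * ((b * e) * d) * (d⁻¹ * a⁻¹) * (e⁻¹ * b⁻¹) := by rw [hcen d hd1]
        _ = a * b * (e * a⁻¹) * e⁻¹ * b⁻¹ := by group
        _ = a * b * (a⁻¹ * e) * e⁻¹ * b⁻¹ := by rw [hcen e he1]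
        _ = a * b * a⁻¹ * b⁻¹ := by group
    exact fun w hw => hE hw
  apply MulEquiv.ext
  intro y
  have h1 : y⁻¹ * ψ y = 1 := by
    apply H25.aut_fix_of_stable hG ψ hn (hfix _ (hd y)) (x := y)
    group
  rw [MulAut.one_apply]
  rw [inv_mul_eq_one] at h1
  exact h1.symm

end ExpP

section Hom

variable {R : Type u} [Group R]

/-- Restriction of automorphisms to a characteristic subgroup. -/
def restrictAut (Y : Subgroup R) (hY : Y.Characteristic) : MulAut R →* MulAut Y where
  toFun φ :=
    { toFun := fun y => ⟨φ y, by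
        have := Subgroup.ext_iff.mp (hY.fixed φ) y
        exact this.mpr y.2⟩
      invFun := fun y => ⟨φ⁻¹ y, by
        have := Subgroup.ext_iff.mp (hY.fixed φ⁻¹) y
        exact this.mpr y.2⟩
      left_inv := fun y => Subtype.ext (by simp)
      right_inv := fun y => Subtype.ext (by simp)
      map_mul' := fun a b => Subtype.ext (by simp) }
  map_one' := rfl
  map_mul' := fun _ _ => rfl

theorem restrictAut_apply (Y : Subgroup R) (hY : Y.Characteristic) (φ : MulAut R) (y : Y) :
    ((restrictAut Y hY φ y : Y) : R) = φ y := rfl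

/-- Action of automorphisms on the abelianization. -/
def abelAut : MulAut R →* MulAut (Abelianization R) where
  toFun φ := φ.abelianizationCongr
  map_one' := by
    apply MulEquiv.ext
    rintro ⟨a⟩
    rfl
  map_mul' := by
    intro a b
    apply MulEquiv.ext
    rintro ⟨c⟩
    rfl

theorem abelAut_of (φ : MulAut R) (y : R) : abelAut φ (Abelianization.of y) = Abelianization.of (φ y) := rfl

end Hom

section Elem

variable {V : Type u} [CommGroup V] [Finite V] (p : ℕ) [Fact p.Prime]

/-- Subgroups of `Aut V`, `V` elementary abelian of order at most `p²`. -/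
theorem rank2_elem_aut (hp : p ≠ 2) (hexp : ∀ v : V, v ^ p = 1) (hcard : Nat.card V ≤ p ^ 2)
    {Γ : Type v} [Group Γ] [Finite Γ] [Group.IsSolvable Γ] (hodd : Odd (Nat.card Γ))
    (θ : Γ →* MulAut V) (hinj : Function.Injective θ) :
    IsPGroup p (commutator Γ) ∧ ∀ q : ℕ, q.Prime → q ∣ Nat.card Γ → q ≤ p := by
  classical
  have hpp : p.Prime := Fact.out
  have hG : IsPGroup p V := fun y => ⟨1, by simpa using hexp y⟩
  obtain ⟨k, hk⟩ := hG.exists_card_eq
  rw [hk] at hcard
  have hk2 : k ≤ 2 := (Nat.pow_le_pow_iff_right hpp.one_lt).mp hcard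
  by_cases hk' : k = 2
  · subst hk'
    obtain ⟨m, hm⟩ := exists_mulAut_matrix p V hexp hk
    refine ⟨derived_pgroup_of_hom (m := m.comp θ) (hm.comp hinj) p hp hodd, ?_⟩
    intro q hq hd
    exact prime_le_of_gl2 p hp hodd (m.comp θ) (hm.comp hinj) hq hd
  · have hcyc : IsCyclic V := by
      have : k = 0 ∨ k = 1 := by omega
      rcases this with rfl | rfl
      · rw [pow_zero, Nat.card_eq_one_iff_unique] at hk
        haveI := hk.1
        exact isCyclic_of_subsingleton
      · rw [pow_one] at hk
        exact isCyclic_of_prime_card hk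
    have hcm : ∀ a b : MulAut V, a * b = b * a := by
      intro a b
      apply (IsCyclic.mulAutMulEquiv V).injective
      rw [map_mul, map_mul, mul_comm]
    have hcc : ∀ a b : Γ, a * b = b * a := by
      intro a b
      apply hinj
      rw [map_mul, map_mul, hcm]
    have hbot : commutator Γ = ⊥ := by
      rw [commutator_def, Subgroup.commutator_eq_bot_iff_le_centralizer]
      intro a _ b _
      exact hcc b a
    refine ⟨by rw [hbot]; exact IsPGroup.of_bot, ?_⟩
    intro q hq hd
    have h1 : Nat.card Γ ∣ Nat.card (MulAut V) := Subgroup.card_dvd_of_injective _ hinj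
    rw [IsCyclic.card_mulAut] at h1
    have hpos : 0 < Nat.totient (Nat.card V) := Nat.totient_pos.mpr Nat.card_pos
    have h2 : q ≤ Nat.totient (Nat.card V) := Nat.le_of_dvd hpos (hd.trans h1)
    have h3 := Nat.totient_le (Nat.card V)
    have h4 : Nat.card V ≤ p := by
      rw [hk]
      calc p ^ k ≤ p ^ 1 := Nat.pow_le_pow_right hpp.pos (by omega)
        _ = p := pow_one p
    omega

end Elem

section Main

variable {R : Type u} [Group R] [Finite R] (p : ℕ) [Fact p.Prime]

/-- **Main theorem on actions.** A finite odd solvable group acting faithfully on a `p`-group of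
rank at most two (`p` odd) has derived group a `p`-group, and all primes dividing its order are at most `p`. -/
theorem rank2_action (hp : p ≠ 2) (hR : IsPGroup p R) (hr : Cfsg.PRankLE p 2 R)
    {Γ : Type v} [Group Γ] [Finite Γ] [Group.IsSolvable Γ] (hodd : Odd (Nat.card Γ))
    (ρ : Γ →* MulAut R) (hinj : Function.Injective ρ) :
    IsPGroup p (commutator Γ) ∧ ∀ q : ℕ, q.Prime → q ∣ Nat.card Γ → q ≤ p := by
  classical
  have hpp : p.Prime := Fact.out
  obtain ⟨Y, hYc, hYe, hYf⟩ := H25.exists_critical hR
  have hcrit : H25.critExp p = p := by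
    unfold H25.critExp
    rw [if_neg hp]
  rw [hcrit] at hYe
  have hYexp : ∀ y : Y, y ^ p = 1 := fun y => Subtype.ext (by simpa using hYe y y.2)
  have hYr : Cfsg.PRankLE p 2 Y := by
    intro A hA hA2
    have := hr (A.map Y.subtype) ?_ ?_
    · rwa [Subgroup.card_map_of_injective (Subgroup.subtype_injective _)] at this
    · refine ⟨⟨?_⟩⟩
      rintro ⟨_, a, ha, rfl⟩ ⟨_, b, hb, rfl⟩
      apply Subtype.ext
      have := hA.is_comm.comm ⟨a, ha⟩ ⟨b, hb⟩
      have h2 := congrArg (fun z : A => ((z : Y) : R)) this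
      exact h2
    · rintro _ ⟨a, ha, rfl⟩
      have := hA2 a ha
      simpa using congrArg Subtype.val this
  obtain ⟨hYc1, hYc2⟩ := exp_rank_structure p hYexp hYr
  let V := Abelianization Y
  haveI : Finite V := Finite.of_surjective _ (QuotientGroup.mk'_surjective (commutator Y))
  have hVexp : ∀ v : V, v ^ p = 1 := by
    intro v
    obtain ⟨y, rfl⟩ := QuotientGroup.mk'_surjective (commutator Y) v
    change Abelianization.of y ^ p = 1
    rw [← map_pow, hYexp, map_one]
  let θ₀ : Γ →* MulAut V := abelAut.comp ((restrictAut Y hYc).comp ρ)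
  have hker : ∀ a : Γ, θ₀ a = 1 → ∃ k : ℕ, a ^ (p ^ k) = 1 := by
    intro a ha
    obtain ⟨k, m, hm, hk⟩ := Nat.exists_eq_pow_mul_and_not_dvd (n := orderOf a) (orderOf_pos a).ne' p hpp.ne_one
    refine ⟨k, ?_⟩
    set b := a ^ (p ^ k) with hb
    have hbm : b ^ m = 1 := by
      rw [hb, ← pow_mul, ← hk, pow_orderOf_eq_one]
    have hbo : ¬ p ∣ orderOf b := fun h => hm (h.trans (orderOf_dvd_of_pow_eq_one hbm))
    have hbθ : θ₀ b = 1 := by
      rw [hb, map_pow, ha, one_pow]
    have hcop : (orderOf b).Coprime p := ((Nat.Prime.coprime_iff_not_dvd hpp).mpr hbo).symm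
    have hcρ : (orderOf (ρ b)).Coprime p := Nat.Coprime.coprime_dvd_left (orderOf_map_dvd ρ b) hcop
    have hcψ : (orderOf (restrictAut Y hYc (ρ b))).Coprime p :=
      Nat.Coprime.coprime_dvd_left (orderOf_map_dvd _ _) hcρ
    have hψ : restrictAut Y hYc (ρ b) = 1 := by
      apply aut_trivial_of_abel p (hR.to_subgroup Y) hYc1 _ hcψ
      intro y
      have h1 := DFunLike.congr_fun hbθ (Abelianization.of y)
      exact h1
    have hρ : ρ b = 1 := by
      apply hYf _ hcρ
      intro y hy
      have := DFunLike.congr_fun hψ ⟨y, hy⟩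
      exact congrArg Subtype.val this
    exact hinj (by rw [hρ, map_one])
  let Γ₀ : Subgroup (MulAut V) := θ₀.range
  let f : Γ →* Γ₀ := θ₀.rangeRestrict
  have hf : Function.Surjective f := θ₀.rangeRestrict_surjective
  haveI : Group.IsSolvable Γ₀ := solvable_of_surjective hf
  have hodd₀ : Odd (Nat.card Γ₀) := Odd.of_dvd_nat hodd (Subgroup.card_dvd_of_surjective f hf)
  obtain ⟨h1, h2⟩ := rank2_elem_aut p hp hVexp hYc2 hodd₀ Γ₀.subtype (Subgroup.subtype_injective _)
  have hcomm : commutator Γ ≤ (commutator Γ₀).comap f := by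
    rw [commutator_def, Subgroup.commutator_le]
    intro a _ b _
    rw [Subgroup.mem_comap, map_commutatorElement, commutator_def]
    exact Subgroup.commutator_mem_commutator (Subgroup.mem_top _) (Subgroup.mem_top _)
  constructor
  · intro x
    obtain ⟨k, hk⟩ := h1 ⟨f x, hcomm x.2⟩
    have h3 : f ((x : Γ) ^ (p ^ k)) = 1 := by
      rw [map_pow]
      exact congrArg Subtype.val hk
    have h4 : θ₀ ((x : Γ) ^ (p ^ k)) = 1 := congrArg Subtype.val h3
    obtain ⟨l, hl⟩ := hker _ h4
    refine ⟨k + l, ?_⟩
    apply Subtype.ext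
    rw [Subgroup.coe_pow, pow_add, pow_mul]
    exact hl
  · intro q hq hd
    by_cases hqp : q = p
    · exact hqp.le
    haveI : Fact q.Prime := ⟨hq⟩
    obtain ⟨a, ha⟩ := exists_prime_orderOf_dvd_card' q hd
    have hne : f a ≠ 1 := by
      intro h
      have h4 : θ₀ a = 1 := congrArg Subtype.val h
      obtain ⟨k, hk⟩ := hker a h4
      have h5 : q ∣ p ^ k := by
        rw [← ha]
        exact orderOf_dvd_of_pow_eq_one hk
      exact hqp ((Nat.prime_dvd_prime_iff_eq hq hpp).mp (hq.dvd_of_dvd_pow h5))
    have h6 : (f a) ^ q = 1 := by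
      rw [← map_pow, ← ha, pow_orderOf_eq_one, map_one]
    have h7 : orderOf (f a) = q := orderOf_eq_prime h6 hne
    exact h2 q hq (h7 ▸ orderOf_dvd_natCard (f a))

end Main

end Cfsg.Agent.H06
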