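import Cfsg.Agent.Lib.H06.Rank2
import Cfsg.Agent.Lib.H03.PSolv
import Cfsg.Agent.Lib.H06.PSolvable
import Cfsg.Prelude.Def_Transfer

/-!
# Rank two: consequences for solvable groups
-/

set_option autoImplicit false

namespace Cfsg.Agent.H06

open Cfsg
open scoped commutatorElement

universe u v

section Act

variable {R : Type u} [Group R] [Finite R] (p : ℕ) [Fact p.Prime]

/-- The general form: any action. -/
theorem rank2_hom (hp : p ≠ 2) (hR : IsPGroup p R) (hr : Cfsg.PRankLE p 2 R)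
    {Γ : Type v} [Group Γ] [Finite Γ] [Group.IsSolvable Γ] (hodd : Odd (Nat.card Γ)) (ρ : Γ →* MulAut R) :
    (∀ x ∈ commutator Γ, ∃ k : ℕ, ρ (x ^ (p ^ k)) = 1) ∧
      ∀ x : Γ, (∀ q : ℕ, q.Prime → q ∣ orderOf x → p < q) → ρ x = 1 := by
  classical
  let Γ₀ : Subgroup (MulAut R) := ρ.range
  let f : Γ →* Γ₀ := ρ.rangeRestrict
  have hf : Function.Surjective f := ρ.rangeRestrict_surjective
  haveI : Group.IsSolvable Γ₀ := solvable_of_surjective hf
  have hodd₀ : Odd (Nat.card Γ₀) := Odd.of_dvd_nat hodd (Subgroup.card_dvd_of_surjective f hf)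
  obtain ⟨h1, h2⟩ := rank2_action p hp hR hr hodd₀ Γ₀.subtype (Subgroup.subtype_injective _)
  have hcomm : commutator Γ ≤ (commutator Γ₀).comap f := by
    rw [commutator_def, Subgroup.commutator_le]
    intro a _ b _
    rw [Subgroup.mem_comap, map_commutatorElement, commutator_def]
    exact Subgroup.commutator_mem_commutator (Subgroup.mem_top _) (Subgroup.mem_top _)
  constructor
  · intro x hx
    obtain ⟨k, hk⟩ := h1 ⟨f x, hcomm hx⟩
    refine ⟨k, ?_⟩
    have h3 : f (x ^ (p ^ k)) = 1 := by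
      rw [map_pow]
      exact congrArg Subtype.val hk
    exact congrArg Subtype.val h3
  · intro x hx
    by_contra hne
    have hne' : f x ≠ 1 := fun h => hne (congrArg Subtype.val h)
    have h4 : orderOf (f x) ≠ 1 := fun h => hne' (orderOf_eq_one_iff.mp h)
    obtain ⟨q, hq, hqd⟩ := Nat.exists_prime_and_dvd h4
    have h5 : q ∣ orderOf x := hqd.trans (orderOf_map_dvd f x)
    have h6 := hx q hq h5
    have h7 := h2 q hq (hqd.trans (orderOf_dvd_natCard _))
    omega

end Act

section Conj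

variable {G : Type u} [Group G] [Finite G] [Group.IsSolvable G]

/-- A normal `p`-subgroup of rank at most two: conjugation action. -/
theorem rank2_conj (hodd : Odd (Nat.card G)) (p : ℕ) [Fact p.Prime] (P : Subgroup G) [hP : P.Normal]
    (hPp : IsPGroup p P) (hr : Cfsg.PRankLE p 2 P) :
    (∀ x ∈ commutator G, ∃ k : ℕ, x ^ (p ^ k) ∈ Subgroup.centralizer (P : Set G)) ∧
      ∀ x : G, (∀ q : ℕ, q.Prime → q ∣ orderOf x → p < q) → x ∈ Subgroup.centralizer (P : Set G) := by
  classical
  have hmem : ∀ x : G, MulAut.conjNormal (H := P) x = 1 → x ∈ Subgroup.centralizer (P : Set G) := by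
    intro x hx
    rw [Subgroup.mem_centralizer_iff]
    intro z hz
    have h1 := DFunLike.congr_fun hx ⟨z, hz⟩
    have h2 : x * z * x⁻¹ = z := congrArg Subtype.val h1
    rw [mul_inv_eq_iff_eq_mul] at h2
    exact h2.symm
  by_cases hp : p = 2
  · -- `P` is trivial
    have hbot : P = ⊥ := by
      rw [eq_bot_iff]
      intro z hz
      obtain ⟨k, hk⟩ := hPp ⟨z, hz⟩
      have h3 : z ^ (p ^ k) = 1 := congrArg Subtype.val hk
      have h4 : orderOf z ∣ p ^ k := orderOf_dvd_of_pow_eq_one h3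
      have h5 : (orderOf z).Coprime (p ^ k) := by
        rw [hp]
        have h6 : Odd (orderOf z) := Odd.of_dvd_nat hodd (orderOf_dvd_natCard z)
        exact Nat.Coprime.pow_right _ (Nat.coprime_two_right.mpr h6)
      have h7 : orderOf z = 1 := Nat.Coprime.eq_one_of_dvd h5 h4
      exact Subgroup.mem_bot.mpr (orderOf_eq_one_iff.mp h7)
    have hall : ∀ x : G, x ∈ Subgroup.centralizer (P : Set G) := by
      intro x
      rw [Subgroup.mem_centralizer_iff]
      intro z hz
      have hz' : z = 1 := by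
        have : z ∈ (⊥ : Subgroup G) := hbot ▸ hz
        exact Subgroup.mem_bot.mp this
      rw [hz', one_mul, mul_one]
    exact ⟨fun x _ => ⟨0, hall _⟩, fun x _ => hall x⟩
  · obtain ⟨h1, h2⟩ := rank2_hom p hp hPp hr hodd (MulAut.conjNormal (G := G) (H := P))
    exact ⟨fun x hx => (h1 x hx).imp fun k hk => hmem _ hk, fun x hx => hmem x (h2 x hx)⟩

/-- Subgroups and injective images: `p`-rank passes along injections. -/
theorem prankLE_of_injective {H K : Type*} [Group H] [Group K] {p k : ℕ} (f : H →* K) (hf : Function.Injective f)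
    (hr : Cfsg.PRankLE p k K) : Cfsg.PRankLE p k H := by
  intro A hA hA2
  have := hr (A.map f) ?_ ?_
  · rwa [Subgroup.card_map_of_injective hf] at this
  · refine ⟨⟨?_⟩⟩
    rintro ⟨_, a, ha, rfl⟩ ⟨_, b, hb, rfl⟩
    apply Subtype.ext
    have h1 := hA.is_comm.comm ⟨a, ha⟩ ⟨b, hb⟩
    have h2 := congrArg (fun z : A => f (z : H)) h1
    simpa using h2
  · rintro _ ⟨a, ha, rfl⟩
    rw [← map_pow, hA2 a ha, map_one]

/-- Lifting subgroups of a quotient by a coprime normal subgroup. -/
theorem exists_lift_coprime (N : Subgroup G) [hNn : N.Normal]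
    (B : Subgroup (G ⧸ N)) (hB : (Nat.card N).Coprime (Nat.card B)) :
    ∃ C : Subgroup G, C.map (QuotientGroup.mk' N) = B ∧ N ⊓ C = ⊥ ∧ Nat.card C = Nat.card B := by
  classical
  have hsurj : Function.Surjective (QuotientGroup.mk' N) := QuotientGroup.mk'_surjective N
  let φ := (QuotientGroup.mk' N).subgroupComap B
  have hφ : Function.Surjective φ := (QuotientGroup.mk' N).subgroupComap_surjective_of_surjective B hsurj
  have hNidx : φ.ker.index = Nat.card B := by
    rw [Subgroup.index_ker, MonoidHom.range_eq_top.mpr hφ, Nat.card_congr (Subgroup.topEquiv.toEquiv)]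
  have hNP : ∀ n ∈ φ.ker, ((n : B.comap (QuotientGroup.mk' N)) : G) ∈ N := by
    intro n hn
    have h1 : φ n = 1 := hn
    have h2 : QuotientGroup.mk' N (n : G) = 1 := congrArg Subtype.val h1
    exact (QuotientGroup.eq_one_iff _).mp h2
  have hcardker : Nat.card φ.ker ∣ Nat.card N := by
    let g : φ.ker →* N := { toFun := fun n => ⟨_, hNP n n.2⟩, map_one' := rfl, map_mul' := fun _ _ => rfl }
    apply Subgroup.card_dvd_of_injective g
    intro a b hab
    apply Subtype.ext
    apply Subtype.ext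
    have h := congrArg Subtype.val hab
    exact h
  have hcop : (Nat.card φ.ker).Coprime φ.ker.index := by
    rw [hNidx]
    exact Nat.Coprime.coprime_dvd_left hcardker hB
  obtain ⟨C₁, hC₁⟩ := Subgroup.exists_right_complement'_of_coprime hcop
  refine ⟨C₁.map (B.comap (QuotientGroup.mk' N)).subtype, ?_, ?_, ?_⟩
  · apply le_antisymm
    · rintro _ ⟨_, ⟨c, _, rfl⟩, rfl⟩
      exact c.2
    · intro b hb
      obtain ⟨x, hx⟩ := hφ ⟨b, hb⟩
      obtain ⟨⟨⟨u, hu⟩, ⟨w, hw⟩⟩, huw⟩ := hC₁.2 x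
      refine ⟨(w : G), ⟨w, hw, rfl⟩, ?_⟩
      have h1 : φ x = φ w := by
        have h2 : x = u * w := huw.symm
        rw [h2, map_mul, MonoidHom.mem_ker.mp hu, one_mul]
      have h3 : (φ w : B) = ⟨b, hb⟩ := by rw [← h1, hx]
      exact congrArg Subtype.val h3
  · rw [eq_bot_iff]
    rintro x ⟨hxN, y, hy, rfl⟩
    have hker : y ∈ φ.ker := by
      rw [MonoidHom.mem_ker]
      apply Subtype.ext
      exact (QuotientGroup.eq_one_iff (y : G)).mpr hxN
    have h2 : y ∈ φ.ker ⊓ C₁ := Subgroup.mem_inf.mpr ⟨hker, hy⟩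
    rw [hC₁.disjoint.eq_bot, Subgroup.mem_bot] at h2
    rw [h2]
    simp
  · rw [Subgroup.card_map_of_injective (Subgroup.subtype_injective _)]
    rw [← hNidx]
    have h1 := Subgroup.card_mul_index φ.ker
    have h2 := hC₁.card_mul_card
    rw [← h1] at h2
    exact Nat.eq_of_mul_eq_mul_left Nat.card_pos h2

/-- Rank passes to the quotient by a normal `p'`-subgroup. -/
theorem prankLE_quotient_coprime {p k : ℕ} [Fact p.Prime] (N : Subgroup G) [hN : N.Normal] (hc : (Nat.card N).Coprime p)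
    (hr : Cfsg.PRankLE p k G) : Cfsg.PRankLE p k (G ⧸ N) := by
  classical
  have hpp : p.Prime := Fact.out
  intro E hE hE2
  have hEp : IsPGroup p E := fun y => ⟨1, Subtype.ext (by simpa using hE2 y y.2)⟩
  obtain ⟨a, ha⟩ := hEp.exists_card_eq
  obtain ⟨C, hC1, hC2, hC3⟩ := exists_lift_coprime N E (by rw [ha]; exact Nat.Coprime.pow_right _ hc)
  have hinj : ∀ x ∈ C, QuotientGroup.mk' N x = 1 → x = 1 := by
    intro x hx h1
    have h2 : x ∈ N := (QuotientGroup.eq_one_iff x).mp h1
    have h3 : x ∈ N ⊓ C := Subgroup.mem_inf.mpr ⟨h2, hx⟩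
    rwa [hC2, Subgroup.mem_bot] at h3
  have hmem : ∀ x ∈ C, QuotientGroup.mk' N x ∈ E := by
    intro x hx
    rw [← hC1]
    exact ⟨x, hx, rfl⟩
  rw [← hC3]
  apply hr C
  · refine ⟨⟨?_⟩⟩
    rintro ⟨x, hx⟩ ⟨y, hy⟩
    apply Subtype.ext
    change x * y = y * x
    have h1 := hE.is_comm.comm ⟨_, hmem x hx⟩ ⟨_, hmem y hy⟩
    have h2 : QuotientGroup.mk' N x * QuotientGroup.mk' N y = QuotientGroup.mk' N y * QuotientGroup.mk' N x :=
      congrArg Subtype.val h1
    have h3 : x * y * (y * x)⁻¹ = 1 := by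
      apply hinj _ (C.mul_mem (C.mul_mem hx hy) (C.inv_mem (C.mul_mem hy hx)))
      rw [map_mul, map_mul, map_inv, map_mul, h2, mul_inv_cancel]
    exact mul_inv_eq_one.mp h3
  · intro x hx
    apply hinj _ (C.pow_mem hx p)
    rw [map_pow]
    exact hE2 _ (hmem x hx)

/-- The reduced case: `O_{p'}(G) = 1`. -/
theorem rank2_reduced (hodd : Odd (Nat.card G)) (p : ℕ) [Fact p.Prime] (hO : pPrimeCore p G = ⊥)
    (hr : Cfsg.PRankLE p 2 G) :
    IsPGroup p (commutator G) ∧ ∀ q : ℕ, q.Prime → q ∣ Nat.card G → q ≤ p := by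
  classical
  have hpp : p.Prime := Fact.out
  let P := pCore p G
  haveI hPn : P.Normal := H01.pCore_normal p
  have hPp : IsPGroup p P := H01.pCore_isPGroup p
  have hcent : Subgroup.centralizer (P : Set G) ≤ P :=
    H03.centralizer_pCore_le_of_isPSolvable (isPSolvable_of_isSolvable p G) hO
  obtain ⟨h1, h2⟩ := rank2_conj hodd p P hPp (prankLE_of_injective P.subtype (Subgroup.subtype_injective _) hr)
  constructor
  · intro x
    obtain ⟨k, hk⟩ := h1 x x.2
    obtain ⟨l, hl⟩ := hPp ⟨_, hcent hk⟩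
    refine ⟨k + l, ?_⟩
    apply Subtype.ext
    have h3 : ((x : G) ^ (p ^ k)) ^ (p ^ l) = 1 := congrArg Subtype.val hl
    rw [Subgroup.coe_pow, pow_add, pow_mul]
    exact h3
  · intro q hq hd
    by_contra hlt
    have hqp : p < q := by omega
    haveI : Fact q.Prime := ⟨hq⟩
    obtain ⟨x, hx⟩ := exists_prime_orderOf_dvd_card' q hd
    have hxc : x ∈ P := by
      apply hcent
      apply h2
      intro r hr hrd
      rw [hx] at hrd
      rw [(Nat.prime_dvd_prime_iff_eq hr hq).mp hrd]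
      exact hqp
    obtain ⟨l, hl⟩ := hPp ⟨x, hxc⟩
    have h3 : x ^ (p ^ l) = 1 := congrArg Subtype.val hl
    have h4 : q ∣ p ^ l := by
      rw [← hx]
      exact orderOf_dvd_of_pow_eq_one h3
    have h5 := (Nat.prime_dvd_prime_iff_eq hq hpp).mp (hq.dvd_of_dvd_pow h4)
    omega

/-- A normal `p'`-subgroup of `p`-power index is a normal `p`-complement. -/
theorem hasNormalPComplement_of {X : Type*} [Group X] [Finite X] (p : ℕ) [Fact p.Prime] (N : Subgroup X) (hN : N.Normal)
    (hc : (Nat.card N).Coprime p) {a : ℕ} (hi : N.index = p ^ a) : HasNormalPComplement p X := by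
  classical
  have hpp : p.Prime := Fact.out
  let P : Sylow p X := default
  obtain ⟨b, hb⟩ := (P.isPGroup').exists_card_eq
  have hPi : ¬ p ∣ (P : Subgroup X).index := P.not_dvd_index
  have h1 : Nat.card N * p ^ a = Nat.card (P : Subgroup X) * (P : Subgroup X).index := by
    rw [← hi, Subgroup.card_mul_index, Subgroup.card_mul_index]
  rw [hb] at h1
  have hab : a = b := by
    apply le_antisymm
    · have h2 : p ^ a ∣ p ^ b * (P : Subgroup X).index := ⟨Nat.card N, by rw [← h1]; ring⟩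
      have h3 : (p ^ a).Coprime (P : Subgroup X).index :=
        Nat.Coprime.pow_left _ ((Nat.Prime.coprime_iff_not_dvd hpp).mpr hPi)
      exact (Nat.pow_dvd_pow_iff_le_right hpp.one_lt).mp (h3.dvd_of_dvd_mul_right h2)
    · have h2 : p ^ b ∣ Nat.card N * p ^ a := ⟨(P : Subgroup X).index, h1⟩
      have h3 : (p ^ b).Coprime (Nat.card N) := Nat.Coprime.pow_left _ hc.symm
      exact (Nat.pow_dvd_pow_iff_le_right hpp.one_lt).mp (h3.dvd_of_dvd_mul_left h2)
  refine ⟨P, N, hN, ?_⟩
  apply Subgroup.isComplement'_of_coprime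
  · rw [hb, ← hab, ← hi, Subgroup.card_mul_index]
  · rw [hb]
    exact Nat.Coprime.pow_right _ hc

end Conj

end Cfsg.Agent.H06
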