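import Mathlib
import Cfsg.Prelude.Def_Transfer
import Cfsg.Agent.Lib.H01.MaxNormal

/-! Tools for 2-groups with odd order automorphism groups. -/

set_option autoImplicit false

namespace Cfsg.Agent.H06.Sc

open scoped commutatorElement

variable {X : Type*} [Group X]

theorem comm_eq (x y : X) : ⁅x, y⁆ = x * y * x⁻¹ * y⁻¹ := rfl

theorem comm_mul_left (x y c : X) (h : ∀ g : X, g * ⁅y, c⁆ = ⁅y, c⁆ * g) :
    ⁅x * y, c⁆ = ⁅y, c⁆ * ⁅x, c⁆ := by
  have e : ⁅x * y, c⁆ = x * ⁅y, c⁆ * x⁻¹ * ⁅x, c⁆ := by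
    simp only [comm_eq]; group
  rw [e, h x, mul_assoc, mul_assoc, mul_inv_cancel_left]

theorem comm_mul_right (x c d : X) (h : ∀ g : X, g * ⁅x, d⁆ = ⁅x, d⁆ * g) :
    ⁅x, c * d⁆ = ⁅x, c⁆ * ⁅x, d⁆ := by
  have e : ⁅x, c * d⁆ = ⁅x, c⁆ * (c * ⁅x, d⁆ * c⁻¹) := by
    simp only [comm_eq]; group
  rw [e, h c, mul_assoc ⁅x, d⁆, mul_inv_cancel, mul_one]

/-- `(xy)² = [y,x] x² y²` when `[y,x]` is central. -/
theorem sq_mul (x y : X) (h : ∀ g : X, g * ⁅y, x⁆ = ⁅y, x⁆ * g) :
    (x * y) ^ 2 = ⁅y, x⁆ * x ^ 2 * y ^ 2 := by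
  have e : y * x = ⁅y, x⁆ * x * y := by
    simp only [comm_eq]; group
  calc (x * y) ^ 2 = x * (y * x) * y := by rw [pow_two]; group
    _ = x * (⁅y, x⁆ * x * y) * y := by rw [e]
    _ = (x * ⁅y, x⁆) * x * y * y := by simp only [mul_assoc]
    _ = (⁅y, x⁆ * x) * x * y * y := by rw [h x]
    _ = _ := by simp only [pow_two, mul_assoc]

section ext

variable (K : Subgroup X) (x : X)

/-- the subgroup `K ∪ xK` -/
def extS (h2 : x ^ 2 ∈ K) (hn : ∀ k ∈ K, x * k * x⁻¹ ∈ K ∧ x⁻¹ * k * x ∈ K) : Subgroup X where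
  carrier := {y | y ∈ K ∨ x⁻¹ * y ∈ K}
  one_mem' := Or.inl K.one_mem
  mul_mem' := by
    rintro a b (ha | ha) (hb | hb)
    · exact Or.inl (K.mul_mem ha hb)
    · refine Or.inr ?_
      have : x⁻¹ * (a * b) = (x⁻¹ * a * x) * (x⁻¹ * b) := by group
      rw [this]
      exact K.mul_mem (hn a ha).2 hb
    · exact Or.inr (by rw [← mul_assoc]; exact K.mul_mem ha hb)
    · refine Or.inl ?_
      have : a * b = x ^ 2 * (x⁻¹ * (x⁻¹ * a) * x) * (x⁻¹ * b) := by group
      rw [this]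
      exact K.mul_mem (K.mul_mem h2 (hn _ ha).2) hb
  inv_mem' := by
    rintro a (ha | ha)
    · exact Or.inl (K.inv_mem ha)
    · refine Or.inr ?_
      have : x⁻¹ * a⁻¹ = (x⁻¹ * (x⁻¹ * a)⁻¹ * x) * (x ^ 2)⁻¹ := by group
      rw [this]
      exact K.mul_mem (hn _ (K.inv_mem ha)).2 (K.inv_mem h2)

variable {K x}

theorem mem_extS {h2 : x ^ 2 ∈ K} {hn : ∀ k ∈ K, x * k * x⁻¹ ∈ K ∧ x⁻¹ * k * x ∈ K} {y : X} :
    y ∈ extS K x h2 hn ↔ y ∈ K ∨ x⁻¹ * y ∈ K := Iff.rfl

theorem le_extS (h2 : x ^ 2 ∈ K) (hn : ∀ k ∈ K, x * k * x⁻¹ ∈ K ∧ x⁻¹ * k * x ∈ K) :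
    K ≤ extS K x h2 hn := fun _ h => Or.inl h

theorem self_mem_extS (h2 : x ^ 2 ∈ K) (hn : ∀ k ∈ K, x * k * x⁻¹ ∈ K ∧ x⁻¹ * k * x ∈ K) :
    x ∈ extS K x h2 hn := Or.inr (by simp [K.one_mem])

theorem card_extS [Finite X] (h2 : x ^ 2 ∈ K) (hn : ∀ k ∈ K, x * k * x⁻¹ ∈ K ∧ x⁻¹ * k * x ∈ K)
    (hx : x ∉ K) : Nat.card (extS K x h2 hn) = 2 * Nat.card K := by
  classical
  have hs : ((extS K x h2 hn : Subgroup X) : Set X) = (K : Set X) ∪ ((fun y => x * y) '' (K : Set X)) := by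
    ext y
    simp only [Set.mem_union, Set.mem_image, SetLike.mem_coe]
    constructor
    · rintro (h | h)
      · exact Or.inl h
      · exact Or.inr ⟨_, h, by group⟩
    · rintro (h | ⟨k, hk, rfl⟩)
      · exact Or.inl h
      · exact Or.inr (by simpa using hk)
  have hd : Disjoint (K : Set X) ((fun y => x * y) '' (K : Set X)) := by
    rw [Set.disjoint_left]
    rintro y hy ⟨k, hk, rfl⟩
    apply hx
    have := K.mul_mem hy (K.inv_mem hk)
    simpa using this
  have hinj : Function.Injective (fun y : X => x * y) := mul_right_injective x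
  have h1 : Nat.card (extS K x h2 hn) = Set.ncard ((extS K x h2 hn : Subgroup X) : Set X) :=
    (Nat.card_coe_set_eq _)
  have h3 : Nat.card K = Set.ncard (K : Set X) := (Nat.card_coe_set_eq _)
  rw [h1, hs, Set.ncard_union_eq hd (Set.toFinite _) (Set.toFinite _),
    Set.ncard_image_of_injective _ hinj, h3]
  simp [two_mul]

end ext

variable [Finite X]

/-- An element outside `Z`, in `E`, central of order `≤ 2` modulo `Z`. -/
theorem exists_central_inv (hX : IsPGroup 2 X) {Z E : Subgroup X} (hZ : Z.Normal) (hE : E.Normal)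
    (hle : Z ≤ E) (hne : Z ≠ E) :
    ∃ e ∈ E, e ∉ Z ∧ (∀ g : X, g * e * g⁻¹ * e⁻¹ ∈ Z) ∧ e ^ 2 ∈ Z := by
  classical
  haveI : Fact (Nat.Prime 2) := ⟨Nat.prime_two⟩
  obtain ⟨b, hbE, hbZ, hbc⟩ := Cfsg.Agent.H01.exists_central_mod hX hZ hE hle hne
  -- the last power outside `Z`
  have hpow : ∃ n : ℕ, b ^ (2 ^ n) ∈ Z := by
    obtain ⟨n, hn⟩ := hX b
    exact ⟨n, by rw [hn]; exact Z.one_mem⟩
  let n := Nat.find hpow
  have hn0 : n ≠ 0 := by
    intro h
    have := Nat.find_spec hpow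
    rw [show Nat.find hpow = n from rfl, h] at this
    simp at this
    exact hbZ this
  obtain ⟨k, hk⟩ : ∃ k, n = k + 1 := ⟨n - 1, by omega⟩
  have hk' : b ^ (2 ^ k) ∉ Z := Nat.find_min hpow (show k < Nat.find hpow by
    change k < n; omega)
  have hsq : (b ^ (2 ^ k)) ^ 2 ∈ Z := by
    have := Nat.find_spec hpow
    rw [show Nat.find hpow = n from rfl, hk, pow_succ, pow_mul] at this
    exact this
  refine ⟨b ^ (2 ^ k), E.pow_mem hbE _, hk', ?_, hsq⟩
  intro g
  -- central modulo `Z`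
  have hcen : ∀ m : ℕ, g * b ^ m * g⁻¹ * (b ^ m)⁻¹ ∈ Z := by
    intro m
    induction m with
    | zero => simp [Z.one_mem]
    | succ m ih =>
      have e : g * b ^ (m + 1) * g⁻¹ * (b ^ (m + 1))⁻¹ =
          (g * b ^ m * g⁻¹ * (b ^ m)⁻¹) * (b ^ m * (g * b * g⁻¹ * b⁻¹) * (b ^ m)⁻¹) := by
        rw [pow_succ]; group
      rw [e]
      exact Z.mul_mem ih (hZ.conj_mem _ (hbc g) _)
  exact hcen _

/-- a hypothesis-free form of "no normal `E₈`". -/
theorem no_normal_E8 (hX : IsPGroup 2 X)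
    (hscn : ¬ ∃ A : Subgroup X, A.Normal ∧ Subgroup.centralizer (A : Set X) = A ∧
      ∃ E : Subgroup X, E ≤ A ∧ Cfsg.IsElementaryAbelian 2 E ∧ Nat.card E = 8)
    (N : Subgroup X) (hN : N.Normal) (hNe : Cfsg.IsElementaryAbelian 2 N) (hN8 : Nat.card N = 8) : False := by
  classical
  haveI : Fact (Nat.Prime 2) := ⟨Nat.prime_two⟩
  -- a maximal normal abelian subgroup containing `N`
  let P : Subgroup X → Prop := fun M => M.Normal ∧ N ≤ M ∧ ∀ a ∈ M, ∀ b ∈ M, a * b = b * a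
  have hP : P N := by
    refine ⟨hN, le_rfl, fun a ha b hb => ?_⟩
    have := hNe.1.is_comm.comm ⟨a, ha⟩ ⟨b, hb⟩
    exact congrArg Subtype.val this
  obtain ⟨M, hNM, hMmax⟩ : ∃ M : Subgroup X, P M ∧ ∀ M', P M' → M ≤ M' → M' = M := by
    have hfin : (Set.Finite {M : Subgroup X | P M}) := Set.toFinite _
    obtain ⟨M, hM, hmax⟩ := hfin.exists_le_maximal (a := N) hP
    exact ⟨M, hmax.1, fun M' hM' hle => le_antisymm (hmax.2 hM' hle) hle⟩
  obtain ⟨hMn, hNle, hMc⟩ := hNM
  haveI := hMn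
  have hle : M ≤ Subgroup.centralizer (M : Set X) := by
    intro a ha
    rw [Subgroup.mem_centralizer_iff]
    intro b hb
    exact hMc b hb a ha
  have hCn : (Subgroup.centralizer (M : Set X)).Normal := inferInstance
  have heq : M = Subgroup.centralizer (M : Set X) := by
    by_contra hne
    obtain ⟨c, hc, hcM, hcc, hc2⟩ := exists_central_inv hX hMn hCn hle hne
    have hnorm : ∀ k ∈ M, c * k * c⁻¹ ∈ M ∧ c⁻¹ * k * c ∈ M := fun k hk =>
      ⟨hMn.conj_mem k hk c, by simpa using hMn.conj_mem k hk c⁻¹⟩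
    let M' := extS M c hc2 hnorm
    have hcomm : ∀ k ∈ M, c * k = k * c := by
      intro k hk
      have := (Subgroup.mem_centralizer_iff.mp hc) k hk
      exact this.symm
    have hP' : P M' := by
      refine ⟨?_, hNle.trans (le_extS _ _), ?_⟩
      · constructor
        rintro a (ha | ha) g
        · exact Or.inl (hMn.conj_mem a ha g)
        · refine Or.inr ?_
          have h1 := hcc g
          have e : c⁻¹ * (g * a * g⁻¹) = (c⁻¹ * (g * c * g⁻¹ * c⁻¹) * c) * (g * (c⁻¹ * a) * g⁻¹) := by group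
          rw [e]
          exact M.mul_mem (hnorm _ h1).2 (hMn.conj_mem _ ha g)
      · have key : ∀ a b : X, (a ∈ M ∨ c⁻¹ * a ∈ M) → (b ∈ M ∨ c⁻¹ * b ∈ M) → a * b = b * a := by
          have hdec : ∀ a : X, (a ∈ M ∨ c⁻¹ * a ∈ M) → a ∈ M ∨ ∃ a' ∈ M, a = c * a' := by
            rintro a (h | h)
            · exact Or.inl h
            · exact Or.inr ⟨_, h, by group⟩
          intro a b ha hb
          rcases hdec a ha with ha | ⟨a', ha', rfl⟩ <;> rcases hdec b hb with hb | ⟨b', hb', rfl⟩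
          · exact hMc a ha b hb
          · calc a * (c * b') = (a * c) * b' := by group
              _ = (c * a) * b' := by rw [hcomm a ha]
              _ = c * (a * b') := by group
              _ = c * (b' * a) := by rw [hMc a ha b' hb']
              _ = c * b' * a := by group
          · calc c * a' * b = c * (a' * b) := by group
              _ = c * (b * a') := by rw [hMc a' ha' b hb]
              _ = (c * b) * a' := by group
              _ = (b * c) * a' := by rw [hcomm b hb]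
              _ = b * (c * a') := by group
          · calc c * a' * (c * b') = c * (a' * c) * b' := by group
              _ = c * (c * a') * b' := by rw [hcomm a' ha']
              _ = c * c * (a' * b') := by group
              _ = c * c * (b' * a') := by rw [hMc a' ha' b' hb']
              _ = c * (c * b') * a' := by group
              _ = c * (b' * c) * a' := by rw [hcomm b' hb']
              _ = c * b' * (c * a') := by group
        intro a ha b hb
        exact key a b ha hb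
    have := hMmax M' hP' (le_extS _ _)
    apply hcM
    rw [← this]
    exact self_mem_extS _ _
  exact hscn ⟨M, hMn, heq.symm, N, hNle, hNe, hN8⟩

end Cfsg.Agent.H06.Sc
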