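import Mathlib
import Cfsg.Agent.Lib.H06.Sc1

/-! Quadratic maps of 2-groups of class two via Chevalley-Warning. -/

set_option autoImplicit false

namespace Cfsg.Agent.H06.Sc

open scoped commutatorElement
open MvPolynomial

variable {X : Type*} [Group X]

/-- class two modulo a central elementary subgroup -/
structure Cls (V : Subgroup X) : Prop where
  cen : ∀ v ∈ V, ∀ g : X, g * v = v * g
  el : ∀ v ∈ V, v ^ 2 = 1
  sq : ∀ x : X, x ^ 2 ∈ V
  com : ∀ x y : X, ⁅x, y⁆ ∈ V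

namespace Cls

variable {V : Subgroup X} (h : Cls V)
include h

theorem vcomm {v w : X} (hv : v ∈ V) : v * w = w * v := (h.cen v hv w).symm

theorem com_mul_left (x y c : X) : ⁅x * y, c⁆ = ⁅x, c⁆ * ⁅y, c⁆ := by
  rw [comm_mul_left x y c (fun g => h.cen _ (h.com y c) g)]
  exact h.vcomm (h.com y c)

theorem com_mul_right (x c d : X) : ⁅x, c * d⁆ = ⁅x, c⁆ * ⁅x, d⁆ :=
  comm_mul_right x c d (fun g => h.cen _ (h.com x d) g)

theorem sq_mul (x y : X) : (x * y) ^ 2 = ⁅y, x⁆ * x ^ 2 * y ^ 2 :=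
  Sc.sq_mul x y (fun g => h.cen _ (h.com y x) g)

theorem com_self (x : X) : ⁅x, x⁆ = 1 := by simp [comm_eq]

theorem com_one_left (x : X) : ⁅(1 : X), x⁆ = 1 := by simp [comm_eq]

theorem com_one_right (x : X) : ⁅x, (1 : X)⁆ = 1 := by simp [comm_eq]

theorem com_inv_eq (x y : X) : ⁅x, y⁆⁻¹ = ⁅x, y⁆ := by
  have := h.el _ (h.com x y)
  rw [pow_two] at this
  exact inv_eq_of_mul_eq_one_left this

theorem com_symm (x y : X) : ⁅y, x⁆ = ⁅x, y⁆ := by
  have e : ⁅y, x⁆ = ⁅x, y⁆⁻¹ := by simp only [comm_eq]; group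
  rw [e, h.com_inv_eq]

end Cls

/-- `x` to the power given by an element of `ZMod 2`. -/
def pw (e : ZMod 2) (x : X) : X := if e = 0 then 1 else x

theorem zmod2_cases (e : ZMod 2) : e = 0 ∨ e = 1 := by
  revert e; decide

@[simp] theorem pw_zero (x : X) : pw 0 x = 1 := by simp [pw]

@[simp] theorem pw_one (x : X) : pw 1 x = x := by simp [pw]

/-- the function `f` composed with the quadratic map and all commutator maps is polynomial -/
def Rep {n : ℕ} (f : X → ZMod 2) (u : (Fin n → ZMod 2) → X) : Prop :=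
  (∃ P : MvPolynomial (Fin n) (ZMod 2), P.totalDegree ≤ 2 ∧ ∀ t, eval t P = f (u t ^ 2)) ∧
    ∀ y : X, ∃ L : MvPolynomial (Fin n) (ZMod 2), L.totalDegree ≤ 1 ∧ ∀ t, eval t L = f ⁅y, u t⁆

section rep

variable {V : Subgroup X} (h : Cls V) {f : X → ZMod 2}
  (hf : ∀ v ∈ V, ∀ w ∈ V, f (v * w) = f v + f w)
include hf

theorem f_one : f 1 = 0 := by
  have := hf 1 V.one_mem 1 V.one_mem
  rw [mul_one] at this
  have h2 : f 1 + f 1 = 0 := by
    generalize f 1 = e at *
    revert e; decide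
  rw [h2] at this
  exact this

include h

theorem rep_one {n : ℕ} : Rep (n := n) f (fun _ => (1 : X)) := by
  refine ⟨⟨0, by simp, fun t => ?_⟩, fun y => ⟨0, by simp, fun t => ?_⟩⟩
  · simp [f_one hf]
  · simp [comm_eq, f_one hf]

theorem rep_step {n : ℕ} {u : (Fin n → ZMod 2) → X} (hu : Rep f u) (i : Fin n) (x : X) :
    Rep f (fun t => u t * pw (t i) x) := by
  obtain ⟨⟨P, hPd, hP⟩, hL⟩ := hu
  refine ⟨?_, fun y => ?_⟩
  · obtain ⟨Lx, hLd, hLx⟩ := hL x
    refine ⟨P + MvPolynomial.X i * (Lx + C (f (x ^ 2))), ?_, fun t => ?_⟩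
    · refine (totalDegree_add _ _).trans (max_le hPd ?_)
      refine (totalDegree_mul _ _).trans ?_
      have h1 : (MvPolynomial.X i : MvPolynomial (Fin n) (ZMod 2)).totalDegree = 1 := totalDegree_X _
      have h2 : (Lx + C (f (x ^ 2))).totalDegree ≤ 1 := by
        refine (totalDegree_add _ _).trans (max_le hLd ?_)
        simp
      omega
    · rw [map_add, map_mul, map_add, hP, hLx, eval_X, eval_C]
      show _ = f ((u t * pw (t i) x) ^ 2)
      rcases zmod2_cases (t i) with h0 | h0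
      · rw [h0]; simp
      · rw [h0]
        simp only [pw_one, one_mul]
        rw [h.sq_mul (u t) x]
        rw [hf _ (V.mul_mem (h.com _ _) (h.sq _)) _ (h.sq _), hf _ (h.com _ _) _ (h.sq _)]
        ring
  · obtain ⟨Ly, hLd, hLy⟩ := hL y
    refine ⟨Ly + MvPolynomial.X i * C (f ⁅y, x⁆), ?_, fun t => ?_⟩
    · refine (totalDegree_add _ _).trans (max_le hLd ?_)
      refine (totalDegree_mul _ _).trans ?_
      have h1 : (MvPolynomial.X i : MvPolynomial (Fin n) (ZMod 2)).totalDegree = 1 := totalDegree_X _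
      simp [h1]
    · rw [map_add, map_mul, hLy, eval_X, eval_C]
      show _ = f ⁅y, u t * pw (t i) x⁆
      rcases zmod2_cases (t i) with h0 | h0
      · rw [h0]; simp
      · rw [h0]
        simp only [pw_one, one_mul]
        rw [h.com_mul_right, hf _ (h.com _ _) _ (h.com _ _)]

end rep

/-- the product of five elements with given exponents. -/
def prod5 (x : Fin 5 → X) (t : Fin 5 → ZMod 2) : X :=
  1 * pw (t 0) (x 0) * pw (t 1) (x 1) * pw (t 2) (x 2) * pw (t 3) (x 3) * pw (t 4) (x 4)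

/-- the product of three elements with given exponents. -/
def prod3 (x : Fin 3 → X) (t : Fin 3 → ZMod 2) : X :=
  1 * pw (t 0) (x 0) * pw (t 1) (x 1) * pw (t 2) (x 2)

theorem exists_zero5 {V : Subgroup X} (h : Cls V) {f₁ f₂ : X → ZMod 2}
    (hf₁ : ∀ v ∈ V, ∀ w ∈ V, f₁ (v * w) = f₁ v + f₁ w)
    (hf₂ : ∀ v ∈ V, ∀ w ∈ V, f₂ (v * w) = f₂ v + f₂ w) (x : Fin 5 → X) :
    ∃ t : Fin 5 → ZMod 2, t ≠ 0 ∧ f₁ (prod5 x t ^ 2) = 0 ∧ f₂ (prod5 x t ^ 2) = 0 := by
  classical
  have r₁ : Rep f₁ (prod5 x) :=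
    rep_step h hf₁ (rep_step h hf₁ (rep_step h hf₁ (rep_step h hf₁ (rep_step h hf₁
      (rep_one h hf₁) 0 (x 0)) 1 (x 1)) 2 (x 2)) 3 (x 3)) 4 (x 4)
  have r₂ : Rep f₂ (prod5 x) :=
    rep_step h hf₂ (rep_step h hf₂ (rep_step h hf₂ (rep_step h hf₂ (rep_step h hf₂
      (rep_one h hf₂) 0 (x 0)) 1 (x 1)) 2 (x 2)) 3 (x 3)) 4 (x 4)
  obtain ⟨⟨P₁, hd₁, hP₁⟩, -⟩ := r₁
  obtain ⟨⟨P₂, hd₂, hP₂⟩, -⟩ := r₂
  have hdvd := char_dvd_card_solutions_of_add_lt (K := ZMod 2) (σ := Fin 5) 2 (f₁ := P₁) (f₂ := P₂)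
    (by simp; omega)
  have h0 : prod5 x 0 = 1 := by simp [prod5]
  let s : { t : Fin 5 → ZMod 2 // eval t P₁ = 0 ∧ eval t P₂ = 0 } :=
    ⟨0, by rw [hP₁, h0]; simpa using f_one hf₁, by rw [hP₂, h0]; simpa using f_one hf₂⟩
  have hpos : 0 < Fintype.card { t : Fin 5 → ZMod 2 // eval t P₁ = 0 ∧ eval t P₂ = 0 } :=
    Fintype.card_pos_iff.mpr ⟨s⟩
  have h2 : 2 ≤ Fintype.card { t : Fin 5 → ZMod 2 // eval t P₁ = 0 ∧ eval t P₂ = 0 } :=
    Nat.le_of_dvd hpos hdvd
  obtain ⟨y, hy⟩ := Fintype.exists_ne_of_one_lt_card (by omega) s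
  refine ⟨y.1, fun h' => hy (Subtype.ext h'), ?_, ?_⟩
  · rw [← hP₁]; exact y.2.1
  · rw [← hP₂]; exact y.2.2

theorem exists_zero3 {V : Subgroup X} (h : Cls V) {f : X → ZMod 2}
    (hf : ∀ v ∈ V, ∀ w ∈ V, f (v * w) = f v + f w) (x : Fin 3 → X) :
    ∃ t : Fin 3 → ZMod 2, t ≠ 0 ∧ f (prod3 x t ^ 2) = 0 := by
  classical
  have r₁ : Rep f (prod3 x) :=
    rep_step h hf (rep_step h hf (rep_step h hf (rep_one h hf) 0 (x 0)) 1 (x 1)) 2 (x 2)
  obtain ⟨⟨P₁, hd₁, hP₁⟩, -⟩ := r₁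
  have hdvd := char_dvd_card_solutions (K := ZMod 2) (σ := Fin 3) 2 (f := P₁)
    (by simp; omega)
  have h0 : prod3 x 0 = 1 := by simp [prod3]
  let s : { t : Fin 3 → ZMod 2 // eval t P₁ = 0 } :=
    ⟨0, by rw [hP₁, h0]; simpa using f_one hf⟩
  have hpos : 0 < Fintype.card { t : Fin 3 → ZMod 2 // eval t P₁ = 0 } :=
    Fintype.card_pos_iff.mpr ⟨s⟩
  have h2 : 2 ≤ Fintype.card { t : Fin 3 → ZMod 2 // eval t P₁ = 0 } :=
    Nat.le_of_dvd hpos hdvd
  obtain ⟨y, hy⟩ := Fintype.exists_ne_of_one_lt_card (by omega) s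
  refine ⟨y.1, fun h' => hy (Subtype.ext h'), ?_⟩
  rw [← hP₁]; exact y.2

/-- the indicator of the complement of a subgroup -/
noncomputable def fM (M : Subgroup X) (x : X) : ZMod 2 := by
  classical exact if x ∈ M then 0 else 1

theorem fM_eq_zero {M : Subgroup X} {x : X} : fM M x = 0 ↔ x ∈ M := by
  classical
  unfold fM
  by_cases h : x ∈ M <;> simp [h]

theorem fM_add {M V : Subgroup X} (hM : ∀ v ∈ V, ∀ w ∈ V, v ∉ M → w ∉ M → v * w ∈ M) :
    ∀ v ∈ V, ∀ w ∈ V, fM M (v * w) = fM M v + fM M w := by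
  classical
  intro v hv w hw
  unfold fM
  by_cases h1 : v ∈ M <;> by_cases h2 : w ∈ M
  · simp [h1, h2, M.mul_mem h1 h2]
  · have : v * w ∉ M := fun h => h2 (by simpa using M.mul_mem (M.inv_mem h1) h)
    simp [h1, h2, this]
  · have : v * w ∉ M := fun h => h1 (by simpa using M.mul_mem h (M.inv_mem h2))
    simp [h1, h2, this]
  · simp only [h1, h2, hM v hv w hw h1 h2, if_true, if_false]
    decide

theorem mem_zpowers_of_sq {k x : X} (hk : k ^ 2 = 1) : x ∈ Subgroup.zpowers k ↔ x = 1 ∨ x = k := by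
  constructor
  · rintro ⟨n, rfl⟩
    obtain ⟨m, hm | hm⟩ := Int.even_or_odd' n
    · left
      show k ^ n = 1
      rw [hm, zpow_mul]
      simp [hk]
    · right
      show k ^ n = k
      rw [hm, zpow_add, zpow_mul]
      simp [hk]
  · rintro (rfl | rfl)
    · exact Subgroup.one_mem _
    · exact Subgroup.mem_zpowers _

/-- The structure of a group of order 4 in an elementary subgroup. -/
theorem four_cases [Finite X] {V : Subgroup X} (hV : Nat.card V = 4)
    (hc : ∀ v ∈ V, ∀ w ∈ V, v * w = w * v) (he : ∀ v ∈ V, v ^ 2 = 1) {k l : X}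
    (hk : k ∈ V) (hl : l ∈ V) (hk1 : k ≠ 1) (hl1 : l ≠ 1) (hkl : k ≠ l) :
    ∀ v ∈ V, v = 1 ∨ v = k ∨ v = l ∨ v = k * l := by
  classical
  haveI := Fintype.ofFinite X
  intro v hv
  have hsub : ({1, k, l, k * l} : Finset X) ⊆ (V : Set X).toFinset := by
    intro y hy
    simp only [Finset.mem_insert, Finset.mem_singleton] at hy
    simp only [Set.mem_toFinset, SetLike.mem_coe]
    rcases hy with rfl | rfl | rfl | rfl
    · exact V.one_mem
    · exact hk
    · exact hl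
    · exact V.mul_mem hk hl
  have hkl1 : k * l ≠ 1 := fun h => by
    have h2 := he l hl
    rw [pow_two] at h2
    exact hkl (mul_right_cancel (h.trans h2.symm))
  have hkl2 : k * l ≠ k := fun h => hl1 (by simpa using h)
  have hkl3 : k * l ≠ l := fun h => hk1 (by simpa using h)
  have hcard : ({1, k, l, k * l} : Finset X).card = 4 := by
    rw [Finset.card_insert_of_notMem, Finset.card_insert_of_notMem, Finset.card_insert_of_notMem,
      Finset.card_singleton]
    · simpa using hkl3.symm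
    · simp [hkl, hkl2.symm]
    · simp [hk1.symm, hl1.symm, hkl1.symm]
  have hVc : (V : Set X).toFinset.card = 4 := by
    rw [Set.toFinset_card, ← hV]
    simp
  have heq := Finset.eq_of_subset_of_card_le hsub (by rw [hcard, hVc])
  have hv' : v ∈ (V : Set X).toFinset := by simpa using hv
  rw [← heq] at hv'
  simpa using hv'

theorem exists_two_of_card_four [Finite X] {V : Subgroup X} (hV : Nat.card V = 4) :
    ∃ k ∈ V, ∃ l ∈ V, k ≠ 1 ∧ l ≠ 1 ∧ k ≠ l := by
  classical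
  haveI := Fintype.ofFinite X
  have hVc : (V : Set X).toFinset.card = 4 := by
    rw [Set.toFinset_card, ← hV]
    simp
  obtain ⟨k, hk, hk1⟩ : ∃ k ∈ (V : Set X).toFinset, k ∉ ({1} : Finset X) := by
    by_contra hcon
    push Not at hcon
    have := Finset.card_le_card hcon
    simp [hVc] at this
  obtain ⟨l, hl, hl1⟩ : ∃ l ∈ (V : Set X).toFinset, l ∉ ({1, k} : Finset X) := by
    by_contra hcon
    push Not at hcon
    have := Finset.card_le_card hcon
    have h2 : ({1, k} : Finset X).card ≤ 2 := Finset.card_le_two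
    omega
  simp only [Finset.mem_insert, Finset.mem_singleton, not_or, Set.mem_toFinset, SetLike.mem_coe] at hk hk1 hl hl1
  exact ⟨k, hk, l, hl, hk1, hl1.1, fun h => hl1.2 h.symm⟩

variable [Finite X]

/-- one step of a chain of subgroups -/
theorem ext_step {V K L : Subgroup X} (h : Cls V) (hVK : V ≤ K) (hKL : K ≤ L) (hne : K ≠ L) :
    ∃ x ∈ L, x ∉ K ∧ ∃ K' : Subgroup X, K ≤ K' ∧ K' ≤ L ∧ x ∈ K' ∧ Nat.card K' = 2 * Nat.card K := by
  obtain ⟨x, hxL, hxK⟩ : ∃ x ∈ L, x ∉ K := by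
    by_contra hcon
    push Not at hcon
    exact hne (le_antisymm hKL hcon)
  have h2 : x ^ 2 ∈ K := hVK (h.sq x)
  have hn : ∀ k ∈ K, x * k * x⁻¹ ∈ K ∧ x⁻¹ * k * x ∈ K := by
    intro k hk
    constructor
    · have e : x * k * x⁻¹ = ⁅x, k⁆ * k := by simp only [comm_eq]; group
      rw [e]
      exact K.mul_mem (hVK (h.com _ _)) hk
    · have e : x⁻¹ * k * x = ⁅x⁻¹, k⁆ * k := by simp only [comm_eq]; group
      rw [e]
      exact K.mul_mem (hVK (h.com _ _)) hk
  refine ⟨x, hxL, hxK, extS K x h2 hn, le_extS _ _, ?_, self_mem_extS _ _, card_extS _ _ hxK⟩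
  rintro y (hy | hy)
  · exact hKL hy
  · have := L.mul_mem hxL (hKL hy)
    simpa using this

theorem pw_step {K : Subgroup X} {u x : X} {e : ZMod 2} (hu : u ∈ K) (hx : x ∉ K)
    (h : u * pw e x ∈ K) : e = 0 := by
  rcases zmod2_cases e with h0 | h0
  · exact h0
  · exfalso
    rw [h0, pw_one] at h
    exact hx (by simpa using K.mul_mem (K.inv_mem hu) h)

theorem pw_mem {K : Subgroup X} {x : X} (hx : x ∈ K) (e : ZMod 2) : pw e x ∈ K := by
  rcases zmod2_cases e with h0 | h0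
  · rw [h0, pw_zero]; exact K.one_mem
  · rw [h0, pw_one]; exact hx

/-- The Chevalley-Warning lemma: a group of class two with anisotropic squaring map. -/
theorem anis {V : Subgroup X} (h : Cls V) (hV : Nat.card V = 4) (hinv : ∀ x : X, x ^ 2 = 1 → x ∈ V) :
    Nat.card X ≤ 64 := by
  by_contra hcon
  push Not at hcon
  have hne : ∀ K : Subgroup X, Nat.card K ≤ 64 → K ≠ ⊤ := by
    rintro K hK rfl
    simp only [Subgroup.card_top] at hK
    omega
  obtain ⟨x0, -, hx0, K1, h01, -, hx01, hc1⟩ := ext_step h le_rfl le_top (hne V (by omega))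
  have hV1 : V ≤ K1 := h01
  obtain ⟨x1, -, hx1, K2, h12, -, hx12, hc2⟩ := ext_step h hV1 le_top (hne K1 (by omega))
  have hV2 : V ≤ K2 := hV1.trans h12
  obtain ⟨x2, -, hx2, K3, h23, -, hx23, hc3⟩ := ext_step h hV2 le_top (hne K2 (by omega))
  have hV3 : V ≤ K3 := hV2.trans h23
  obtain ⟨x3, -, hx3, K4, h34, -, hx34, hc4⟩ := ext_step h hV3 le_top (hne K3 (by omega))
  have hV4 : V ≤ K4 := hV3.trans h34
  obtain ⟨x4, -, hx4, K5, h45, -, hx45, hc5⟩ := ext_step h hV4 le_top (hne K4 (by omega))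
  obtain ⟨k, hk, l, hl, hk1, hl1, hkl⟩ := exists_two_of_card_four hV
  have hcomm : ∀ v ∈ V, ∀ w ∈ V, v * w = w * v := fun v hv w _ => h.vcomm hv
  have hcases := four_cases hV hcomm h.el hk hl hk1 hl1 hkl
  have hk2 := h.el k hk
  have hl2 := h.el l hl
  have hmk : ∀ {x}, x ∈ Subgroup.zpowers k ↔ x = 1 ∨ x = k := fun {x} => mem_zpowers_of_sq hk2
  have hml : ∀ {x}, x ∈ Subgroup.zpowers l ↔ x = 1 ∨ x = l := fun {x} => mem_zpowers_of_sq hl2
  have hlk : l * k = k * l := (hcomm k hk l hl).symm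
  have hll : l * l = 1 := by rw [← pow_two]; exact hl2
  have hkk : k * k = 1 := by rw [← pow_two]; exact hk2
  have hf₁ := fM_add (M := Subgroup.zpowers k) (V := V) (by
    intro v hv w hw hv' hw'
    rw [hmk] at hv' hw' ⊢
    push Not at hv' hw'
    rcases hcases v hv with rfl | rfl | rfl | rfl
    · exact absurd rfl hv'.1
    · exact absurd rfl hv'.2
    · rcases hcases w hw with rfl | rfl | rfl | rfl
      · exact absurd rfl hw'.1
      · exact absurd rfl hw'.2
      · left; exact hll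
      · right; rw [← mul_assoc, hlk, mul_assoc, hll, mul_one]
    · rcases hcases w hw with rfl | rfl | rfl | rfl
      · exact absurd rfl hw'.1
      · exact absurd rfl hw'.2
      · right; rw [mul_assoc, hll, mul_one]
      · left; rw [mul_assoc, ← mul_assoc l, hlk, mul_assoc k, hll, mul_one, hkk])
  have hf₂ := fM_add (M := Subgroup.zpowers l) (V := V) (by
    intro v hv w hw hv' hw'
    rw [hml] at hv' hw' ⊢
    push Not at hv' hw'
    rcases hcases v hv with rfl | rfl | rfl | rfl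
    · exact absurd rfl hv'.1
    · rcases hcases w hw with rfl | rfl | rfl | rfl
      · exact absurd rfl hw'.1
      · left; exact hkk
      · exact absurd rfl hw'.2
      · right; rw [← mul_assoc, hkk, one_mul]
    · exact absurd rfl hv'.2
    · rcases hcases w hw with rfl | rfl | rfl | rfl
      · exact absurd rfl hw'.1
      · right; rw [mul_assoc, hlk, ← mul_assoc, hkk, one_mul]
      · exact absurd rfl hw'.2
      · left; rw [mul_assoc, ← mul_assoc l, hlk, mul_assoc k, hll, mul_one, hkk])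
  let x : Fin 5 → X := ![x0, x1, x2, x3, x4]
  obtain ⟨t, ht, h₁, h₂⟩ := exists_zero5 h hf₁ hf₂ x
  rw [fM_eq_zero] at h₁ h₂
  have hsq : prod5 x t ^ 2 = 1 := by
    rcases hmk.mp h₁ with h1 | h1
    · exact h1
    · rcases hml.mp h₂ with h2 | h2
      · exact h2
      · exact absurd (h1.symm.trans h2) hkl
  have hmem := hinv _ hsq
  -- independence
  apply ht
  unfold prod5 at hmem
  have hu1 : 1 * pw (t 0) (x 0) ∈ K1 := K1.mul_mem K1.one_mem (pw_mem hx01 _)
  have hu2 : 1 * pw (t 0) (x 0) * pw (t 1) (x 1) ∈ K2 := K2.mul_mem (h12 hu1) (pw_mem hx12 _)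
  have hu3 : 1 * pw (t 0) (x 0) * pw (t 1) (x 1) * pw (t 2) (x 2) ∈ K3 :=
    K3.mul_mem (h23 hu2) (pw_mem hx23 _)
  have hu4 : 1 * pw (t 0) (x 0) * pw (t 1) (x 1) * pw (t 2) (x 2) * pw (t 3) (x 3) ∈ K4 :=
    K4.mul_mem (h34 hu3) (pw_mem hx34 _)
  have e4 : t 4 = 0 := pw_step hu4 hx4 (hV4 hmem)
  rw [e4, pw_zero, mul_one] at hmem
  have e3 : t 3 = 0 := pw_step hu3 hx3 (hV3 hmem)
  rw [e3, pw_zero, mul_one] at hmem
  have e2 : t 2 = 0 := pw_step hu2 hx2 (hV2 hmem)
  rw [e2, pw_zero, mul_one] at hmem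
  have e1 : t 1 = 0 := pw_step hu1 hx1 (hV1 hmem)
  rw [e1, pw_zero, mul_one] at hmem
  have e0 : t 0 = 0 := pw_step V.one_mem hx0 hmem
  funext i
  fin_cases i <;> simp [e0, e1, e2, e3, e4]

/-- With a centre of order two, three independent elements give an involution. -/
theorem exists_inv_of_chain {V K L : Subgroup X} (h : Cls V) (hV : Nat.card V = 2)
    (hVK : V ≤ K) (hKL : K ≤ L) (hcard : 4 * Nat.card K < Nat.card L) :
    ∃ u ∈ L, u ∉ K ∧ u ^ 2 = 1 := by
  have hKpos : 0 < Nat.card K := Nat.card_pos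
  have hne : ∀ K' : Subgroup X, Nat.card K' ≤ 4 * Nat.card K → K' ≠ L := by
    rintro K' hK' rfl
    omega
  obtain ⟨x0, hxL0, hx0, K1, h01, hL1, hx01, hc1⟩ := ext_step h hVK hKL (hne K (by omega))
  have hV1 : V ≤ K1 := hVK.trans h01
  obtain ⟨x1, hxL1, hx1, K2, h12, hL2, hx12, hc2⟩ := ext_step h hV1 hL1 (hne K1 (by omega))
  have hV2 : V ≤ K2 := hV1.trans h12
  obtain ⟨x2, hxL2, hx2, K3, h23, hL3, hx23, hc3⟩ := ext_step h hV2 hL2 (hne K2 (by omega))
  have hV3 : V ≤ K3 := hV2.trans h23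
  have hf := fM_add (M := (⊥ : Subgroup X)) (V := V) (by
    intro v hv w hw hv' hw'
    rw [Subgroup.mem_bot] at hv' hw' ⊢
    have : Nat.card V = 2 := hV
    have ⟨a, b, hab, hs⟩ := Nat.card_eq_two_iff.mp hV
    have hall : ∀ y : V, y = 1 ∨ y = a ∧ y ≠ 1 ∨ y = b ∧ y ≠ 1 := by
      intro y
      have : y ∈ ({a, b} : Set V) := by rw [hs]; trivial
      rcases this with rfl | rfl
      · by_cases h1 : y = 1
        · exact Or.inl h1
        · exact Or.inr (Or.inl ⟨rfl, h1⟩)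
      · by_cases h1 : y = 1
        · exact Or.inl h1
        · exact Or.inr (Or.inr ⟨rfl, h1⟩)
    have hvw : v = w := by
      have e2 : ∀ y1 y2 : V, y1 ≠ 1 → y2 ≠ 1 → y1 = y2 := by
        intro y1 y2 h1 h2
        have hc1 := hall y1
        have hc2 := hall y2
        rcases hc1 with h | ⟨rfl, -⟩ | ⟨rfl, -⟩
        · exact absurd h h1
        · rcases hc2 with h | ⟨rfl, -⟩ | ⟨rfl, -⟩
          · exact absurd h h2
          · rfl
          · -- both `a` and `b` are nontrivial: impossible in a group of order 2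
            exfalso
            have h3 : (1 : V) ∈ ({y1, y2} : Set V) := by rw [hs]; trivial
            rcases h3 with h3 | h3
            · exact h1 h3.symm
            · exact h2 h3.symm
        · rcases hc2 with h | ⟨rfl, -⟩ | ⟨rfl, -⟩
          · exact absurd h h2
          · exfalso
            have h3 : (1 : V) ∈ ({y2, y1} : Set V) := by rw [hs]; trivial
            rcases h3 with h3 | h3
            · exact h2 h3.symm
            · exact h1 h3.symm
          · rfl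
      have := e2 ⟨v, hv⟩ ⟨w, hw⟩ (fun h => hv' (congrArg Subtype.val h))
        (fun h => hw' (congrArg Subtype.val h))
      exact congrArg Subtype.val this
    rw [hvw, ← pow_two]
    exact h.el w hw)
  let x : Fin 3 → X := ![x0, x1, x2]
  obtain ⟨t, ht, h₁⟩ := exists_zero3 h hf x
  rw [fM_eq_zero, Subgroup.mem_bot] at h₁
  have hL3' : prod3 x t ∈ L := by
    unfold prod3
    exact L.mul_mem (L.mul_mem (L.mul_mem L.one_mem (pw_mem hxL0 _)) (pw_mem hxL1 _)) (pw_mem hxL2 _)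
  refine ⟨prod3 x t, hL3', fun hmem => ht ?_, h₁⟩
  unfold prod3 at hmem
  have hu1 : 1 * pw (t 0) (x 0) ∈ K1 := K1.mul_mem K1.one_mem (pw_mem hx01 _)
  have hu2 : 1 * pw (t 0) (x 0) * pw (t 1) (x 1) ∈ K2 := K2.mul_mem (h12 hu1) (pw_mem hx12 _)
  have e2 : t 2 = 0 := pw_step hu2 hx2 (h12 (h01 hmem))
  rw [e2, pw_zero, mul_one] at hmem
  have e1 : t 1 = 0 := pw_step hu1 hx1 (h01 hmem)
  rw [e1, pw_zero, mul_one] at hmem
  have e0 : t 0 = 0 := pw_step K.one_mem hx0 hmem
  funext i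
  fin_cases i <;> simp [e0, e1, e2]

end Cfsg.Agent.H06.Sc
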