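import Mathlib
import Cfsg.Agent.Lib.H06.Sc2

/-! Odd order groups of automorphisms of 2-groups. -/

set_option autoImplicit false

namespace Cfsg.Agent.H06.Sc

open scoped commutatorElement

variable {X : Type*} [Group X]

section act

variable {A : Subgroup (MulAut X)}
  (hXA : Subgroup.closure {g : X | ∃ φ ∈ A, ∃ x : X, g = x⁻¹ * φ x} = ⊤)
include hXA

theorem closure_all {P : X → Prop} (h1 : P 1) (hm : ∀ x y, P x → P y → P (x * y))
    (hi : ∀ x, P x → P x⁻¹) (hg : ∀ φ ∈ A, ∀ x, P (x⁻¹ * φ x)) (x : X) : P x := by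
  have hx : x ∈ Subgroup.closure {g : X | ∃ φ ∈ A, ∃ x : X, g = x⁻¹ * φ x} := by
    rw [hXA]; trivial
  induction hx using Subgroup.closure_induction with
  | mem y hy =>
    obtain ⟨φ, hφ, z, rfl⟩ := hy
    exact hg φ hφ z
  | one => exact h1
  | mul a b _ _ ha hb => exact hm a b ha hb
  | inv a _ ha => exact hi a ha

/-- A subgroup containing all commutators and squares is acted on without fixed points in the quotient. -/
theorem fix_mod (hA : Odd (Nat.card A)) {N : Subgroup X} (hN : N.Normal)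
    (hNA : ∀ φ ∈ A, ∀ n ∈ N, φ n ∈ N) (hcomm : ∀ x y : X, ⁅x, y⁆ ∈ N) (hsq : ∀ x : X, x ^ 2 ∈ N)
    [Finite X] {x : X} (hx : ∀ φ ∈ A, x⁻¹ * φ x ∈ N) : x ∈ N := by
  classical
  haveI := hN
  letI cg : CommGroup (X ⧸ N) :=
    { (inferInstance : Group (X ⧸ N)) with
      mul_comm := by
        intro a b
        induction a using QuotientGroup.induction_on with | _ a => ?_
        induction b using QuotientGroup.induction_on with | _ b => ?_
        rw [← QuotientGroup.mk_mul, ← QuotientGroup.mk_mul, QuotientGroup.eq]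
        have e : (a * b)⁻¹ * (b * a) = ⁅b⁻¹, a⁻¹⁆ := by simp only [comm_eq]; group
        rw [e]
        exact hcomm _ _ }
  haveI : Finite (MulAut X) := inferInstance
  haveI : Fintype A := Fintype.ofFinite A
  let mk : X → (X ⧸ N) := fun y => (y : X ⧸ N)
  have hmk_mul : ∀ a b : X, mk (a * b) = mk a * mk b := fun a b => rfl
  let P : X → (X ⧸ N) := fun y => ∏ φ : A, mk (φ.1 y)
  have P_mul : ∀ y z, P (y * z) = P y * P z := by
    intro y z
    simp only [P, map_mul, hmk_mul]
    exact Finset.prod_mul_distrib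
  have P_one : P 1 = 1 := by
    simp only [P, map_one]
    exact Finset.prod_const_one
  have P_inv : ∀ y, P y⁻¹ = (P y)⁻¹ := by
    intro y
    have : P y⁻¹ * P y = 1 := by rw [← P_mul]; simp [P_one]
    exact eq_inv_of_mul_eq_one_left this
  have P_fix : ∀ φ₀ ∈ A, ∀ y, P (φ₀ y) = P y := by
    intro φ₀ h₀ y
    simp only [P]
    refine Fintype.prod_equiv (Equiv.mulRight (⟨φ₀, h₀⟩ : A)) _ _ ?_
    intro φ
    rfl
  have hall : ∀ y, P y = 1 := by
    refine closure_all hXA P_one ?_ ?_ ?_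
    · intro a b ha hb
      rw [P_mul, ha, hb, one_mul]
    · intro a ha
      rw [P_inv, ha, inv_one]
    · intro φ hφ a
      rw [P_mul, P_inv, P_fix φ hφ]
      simp
  have hPx : P x = mk x ^ Nat.card A := by
    simp only [P]
    have : ∀ φ : A, mk (φ.1 x) = mk x := by
      intro φ
      exact (QuotientGroup.eq.mpr (hx φ.1 φ.2)).symm
    simp only [this]
    rw [Finset.prod_const, Finset.card_univ, Nat.card_eq_fintype_card]
  obtain ⟨j, hj⟩ := hA
  have hm2 : mk x ^ 2 = 1 := by
    have : mk (x ^ 2) = 1 := (QuotientGroup.eq_one_iff _).mpr (hsq x)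
    rw [pow_two, hmk_mul] at this
    rw [pow_two]
    exact this
  have h3 : mk x = 1 := by
    have := hall x
    rw [hPx, hj, pow_succ, pow_mul, hm2, one_pow, one_mul] at this
    exact this
  exact (QuotientGroup.eq_one_iff _).mp h3

/-- A normal subgroup fixed pointwise by `A` is central. -/
theorem central_of_fixed {Z : Subgroup X} (hZ : Z.Normal) (hfix : ∀ φ ∈ A, ∀ z ∈ Z, φ z = z) :
    ∀ z ∈ Z, ∀ g : X, g * z = z * g := by
  intro z hz g
  revert z
  refine closure_all hXA (P := fun g => ∀ z ∈ Z, g * z = z * g) ?_ ?_ ?_ ?_ g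
  · simp
  · intro a b ha hb z hz
    rw [mul_assoc, hb z hz, ← mul_assoc, ha z hz, mul_assoc]
  · intro a ha z hz
    have := ha z hz
    calc a⁻¹ * z = a⁻¹ * (z * a) * a⁻¹ := by group
      _ = a⁻¹ * (a * z) * a⁻¹ := by rw [this]
      _ = z * a⁻¹ := by group
  · intro φ hφ x z hz
    have h1 : x * z * x⁻¹ ∈ Z := hZ.conj_mem z hz x
    have h2 := hfix φ hφ _ h1
    rw [map_mul, map_mul, map_inv, hfix φ hφ z hz] at h2
    calc x⁻¹ * φ x * z = x⁻¹ * (φ x * z * (φ x)⁻¹) * φ x := by group
      _ = x⁻¹ * (x * z * x⁻¹) * φ x := by rw [h2]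
      _ = z * (x⁻¹ * φ x) := by group

end act

/-- An odd order automorphism fixing the involutions of an abelian group fixes the group. -/
theorem fix_of_fix_inv (φ : MulAut X) {n : ℕ} (hn : Odd n) (hφ : φ ^ n = 1) (hX : IsPGroup 2 X)
    (Z : Subgroup X) (hZc : ∀ a ∈ Z, ∀ b ∈ Z, a * b = b * a) (hZφ : ∀ z ∈ Z, φ z ∈ Z)
    (hfix : ∀ v ∈ Z, v ^ 2 = 1 → φ v = v) : ∀ z ∈ Z, φ z = z := by
  have key : ∀ k : ℕ, ∀ u ∈ Z, u ^ (2 ^ k) = 1 → φ u = u := by
    intro k
    induction k with
    | zero =>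
      intro u _ hu
      simp only [pow_zero, pow_one] at hu
      rw [hu, map_one]
    | succ k ih =>
      intro u hu hk
      have h2 : (u ^ 2) ^ (2 ^ k) = 1 := by
        rw [← pow_mul, ← pow_succ']
        exact hk
      have h3 : φ (u ^ 2) = u ^ 2 := ih _ (Z.pow_mem hu 2) h2
      rw [map_pow] at h3
      let w := φ u * u⁻¹
      have hw : w ∈ Z := Z.mul_mem (hZφ u hu) (Z.inv_mem hu)
      have hcomm : φ u * u⁻¹ = u⁻¹ * φ u := hZc _ (hZφ u hu) _ (Z.inv_mem hu)
      have hw2 : w ^ 2 = 1 := by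
        calc w ^ 2 = φ u * (u⁻¹ * φ u) * u⁻¹ := by simp only [w, pow_two]; group
          _ = φ u * (φ u * u⁻¹) * u⁻¹ := by rw [hcomm]
          _ = φ u ^ 2 * (u ^ 2)⁻¹ := by simp only [pow_two]; group
          _ = 1 := by rw [h3]; group
      have hφw : φ w = w := hfix w hw hw2
      have hφu : φ u = w * u := by simp [w]
      clear_value w
      have hit : ∀ m : ℕ, (φ ^ m) u = w ^ m * u := by
        intro m
        induction m with
        | zero => simp
        | succ m ih2 =>
          rw [pow_succ', MulAut.mul_apply, ih2, map_mul, map_pow, hφw, hφu, pow_succ, mul_assoc]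
      have h5 := hit n
      rw [hφ] at h5
      obtain ⟨j, hj⟩ := hn
      have h6 : w ^ n = w := by
        rw [hj, pow_succ, pow_mul, hw2, one_pow, one_mul]
      rw [h6] at h5
      have h7 : w = 1 := by
        have h8 : (1 : MulAut X) u = u := rfl
        rw [h8] at h5
        exact (mul_eq_right.mp h5.symm)
      rw [hφu, h7, one_mul]
  intro z hz
  obtain ⟨k, hk⟩ := hX z
  exact key k z hz hk

end Cfsg.Agent.H06.Sc
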