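import Mathlib
import Cfsg.Agent.Lib.H06.Sc3

/-! Normal elementary subgroups, and critical subgroups. -/

set_option autoImplicit false

namespace Cfsg.Agent.H06.Sc

open scoped commutatorElement

variable {X : Type*} [Group X]

theorem comm_mul_left' (x y c : X) : ⁅x * y, c⁆ = x * ⁅y, c⁆ * x⁻¹ * ⁅x, c⁆ := by
  simp only [comm_eq]; group

theorem comm_mul_right' (x c d : X) : ⁅x, c * d⁆ = ⁅x, c⁆ * (c * ⁅x, d⁆ * c⁻¹) := by
  simp only [comm_eq]; group

theorem comm_inv_left' (x c : X) : ⁅x⁻¹, c⁆ = x⁻¹ * ⁅x, c⁆⁻¹ * x := by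
  simp only [comm_eq]; group

theorem comm_conj_left (g x h : X) : ⁅g * x * g⁻¹, h⁆ = g * ⁅x, g⁻¹ * h * g⁆ * g⁻¹ := by
  simp only [comm_eq]; group

theorem comm_map (φ : MulAut X) (x y : X) : φ ⁅x, y⁆ = ⁅φ x, φ y⁆ := by
  simp only [comm_eq, map_mul, map_inv]

theorem comm_map' (φ : MulAut X) (x g : X) : ⁅φ x, g⁆ = φ ⁅x, φ⁻¹ g⁆ := by
  rw [comm_map]
  congr 1
  exact (MulAut.apply_inv_self _ _ _).symm

/-- no normal elementary abelian subgroup of order 8 -/
def NoE8 (X : Type*) [Group X] : Prop :=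
  ∀ N : Subgroup X, N.Normal → Cfsg.IsElementaryAbelian 2 N → Nat.card N ≠ 8

theorem isElem_of {N : Subgroup X} (hc : ∀ a ∈ N, ∀ b ∈ N, a * b = b * a)
    (he : ∀ a ∈ N, a ^ 2 = 1) : Cfsg.IsElementaryAbelian 2 N :=
  ⟨⟨⟨fun a b => Subtype.ext (hc a.1 a.2 b.1 b.2)⟩⟩, he⟩

theorem extS_normal {K : Subgroup X} (hK : K.Normal) {e : X} (he : ∀ g : X, g * e * g⁻¹ * e⁻¹ ∈ K)
    (h2 : e ^ 2 ∈ K) (hn : ∀ k ∈ K, e * k * e⁻¹ ∈ K ∧ e⁻¹ * k * e ∈ K) : (extS K e h2 hn).Normal := by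
  constructor
  rintro a (ha | ha) g
  · exact Or.inl (hK.conj_mem a ha g)
  · refine Or.inr ?_
    have h1 := he g
    have e1 : e⁻¹ * (g * a * g⁻¹) = (e⁻¹ * (g * e * g⁻¹ * e⁻¹) * e) * (g * (e⁻¹ * a) * g⁻¹) := by group
    rw [e1]
    exact K.mul_mem (hn _ h1).2 (hK.conj_mem _ ha g)

theorem hn_of_normal {K : Subgroup X} (hK : K.Normal) (e : X) :
    ∀ k ∈ K, e * k * e⁻¹ ∈ K ∧ e⁻¹ * k * e ∈ K := fun k hk =>
  ⟨hK.conj_mem k hk e, by simpa using hK.conj_mem k hk e⁻¹⟩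

section e8

variable [Finite X]

/-- one step of a chain of normal subgroups of a normal subgroup -/
theorem ext_in (hX : IsPGroup 2 X) {K N : Subgroup X} (hK : K.Normal) (hN : N.Normal) (hle : K ≤ N)
    (hne : K ≠ N) : ∃ K' : Subgroup X, K'.Normal ∧ K ≤ K' ∧ K' ≤ N ∧
      Nat.card K' = 2 * Nat.card K := by
  obtain ⟨e, heN, heK, hec, he2⟩ := exists_central_inv hX hK hN hle hne
  refine ⟨extS K e he2 (hn_of_normal hK e), extS_normal hK hec he2 _, le_extS _ _, ?_,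
    card_extS _ _ heK⟩
  rintro y (hy | hy)
  · exact hle hy
  · simpa using N.mul_mem heN (hle hy)

theorem card_le_four (hX : IsPGroup 2 X) (hE : NoE8 X) (N : Subgroup X) (hN : N.Normal)
    (hc : ∀ a ∈ N, ∀ b ∈ N, a * b = b * a) (he : ∀ a ∈ N, a ^ 2 = 1) : Nat.card N ≤ 4 := by
  by_contra hcon
  push Not at hcon
  have hne : ∀ K : Subgroup X, Nat.card K ≤ 4 → K ≠ N := by
    rintro K hK rfl
    omega
  have h0 : Nat.card (⊥ : Subgroup X) = 1 := Subgroup.card_bot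
  obtain ⟨K1, n1, -, l1, c1⟩ := ext_in hX (K := ⊥) Subgroup.normal_bot hN bot_le (hne _ (by omega))
  obtain ⟨K2, n2, -, l2, c2⟩ := ext_in hX n1 hN l1 (hne _ (by omega))
  obtain ⟨K3, n3, -, l3, c3⟩ := ext_in hX n2 hN l2 (hne _ (by omega))
  exact hE K3 n3 (isElem_of (fun a ha b hb => hc a (l3 ha) b (l3 hb)) (fun a ha => he a (l3 ha)))
    (by omega)

theorem no_ext4 (hE : NoE8 X) {K : Subgroup X} (hK : K.Normal) (hc4 : Nat.card K = 4)
    (hKc : ∀ a ∈ K, ∀ b ∈ K, a * b = b * a) (hKe : ∀ a ∈ K, a ^ 2 = 1) {t : X} (ht : t ∉ K)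
    (ht2 : t ^ 2 = 1) (htc : ∀ k ∈ K, t * k = k * t) (htg : ∀ g : X, g * t * g⁻¹ * t⁻¹ ∈ K) : False := by
  have h2 : t ^ 2 ∈ K := by rw [ht2]; exact K.one_mem
  have hn := hn_of_normal hK t
  have hdec : ∀ a : X, a ∈ extS K t h2 hn → a ∈ K ∨ ∃ a' ∈ K, a = t * a' := by
    rintro a (h | h)
    · exact Or.inl h
    · exact Or.inr ⟨_, h, by group⟩
  refine hE (extS K t h2 hn) (extS_normal hK htg h2 hn) (isElem_of ?_ ?_)
    (by rw [card_extS _ _ ht, hc4])
  · intro a ha b hb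
    rcases hdec a ha with ha | ⟨a', ha', rfl⟩ <;> rcases hdec b hb with hb | ⟨b', hb', rfl⟩
    · exact hKc a ha b hb
    · calc a * (t * b') = (a * t) * b' := by group
        _ = (t * a) * b' := by rw [htc a ha]
        _ = t * (a * b') := by group
        _ = t * (b' * a) := by rw [hKc a ha b' hb']
        _ = t * b' * a := by group
    · calc t * a' * b = t * (a' * b) := by group
        _ = t * (b * a') := by rw [hKc a' ha' b hb]
        _ = (t * b) * a' := by group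
        _ = (b * t) * a' := by rw [htc b hb]
        _ = b * (t * a') := by group
    · calc t * a' * (t * b') = t * (a' * t) * b' := by group
        _ = t * (t * a') * b' := by rw [htc a' ha']
        _ = t * t * (a' * b') := by group
        _ = t * t * (b' * a') := by rw [hKc a' ha' b' hb']
        _ = t * (t * b') * a' := by group
        _ = t * (b' * t) * a' := by rw [htc b' hb']
        _ = t * b' * (t * a') := by group
  · intro a ha
    rcases hdec a ha with ha | ⟨a', ha', rfl⟩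
    · exact hKe a ha
    · have h3 := hKe a' ha'
      rw [pow_two] at h3 ht2 ⊢
      calc t * a' * (t * a') = t * (a' * t) * a' := by group
        _ = t * (t * a') * a' := by rw [htc a' ha']
        _ = t * t * (a' * a') := by group
        _ = 1 := by rw [ht2, h3, one_mul]

end e8

/-- The centre of `C`. -/
def ZC (C : Subgroup X) : Subgroup X := C ⊓ Subgroup.centralizer (C : Set X)

theorem mem_ZC {C : Subgroup X} {z : X} :
    z ∈ ZC C ↔ z ∈ C ∧ ∀ c ∈ C, c * z = z * c := by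
  simp only [ZC, Subgroup.mem_inf, Subgroup.mem_centralizer_iff, SetLike.mem_coe]

theorem ZC_normal {C : Subgroup X} (hC : C.Normal) : (ZC C).Normal := by
  haveI := hC
  exact Subgroup.normal_inf_normal _ _

theorem exists_critical [Finite X] (hX : IsPGroup 2 X) (A : Subgroup (MulAut X)) :
    ∃ C : Subgroup X, C.Normal ∧ (∀ φ ∈ A, ∀ c ∈ C, φ c ∈ C) ∧ (∀ c ∈ C, c ^ 2 ∈ ZC C) ∧
      (∀ x : X, ∀ c ∈ C, ⁅x, c⁆ ∈ ZC C) ∧ Subgroup.centralizer (C : Set X) ≤ C := by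
  classical
  let P : Subgroup X → Prop := fun C => C.Normal ∧ (∀ φ ∈ A, ∀ c ∈ C, φ c ∈ C) ∧
    (∀ c ∈ C, c ^ 2 ∈ ZC C) ∧ (∀ x : X, ∀ c ∈ C, ⁅x, c⁆ ∈ ZC C)
  have hP : P ⊥ := by
    refine ⟨Subgroup.normal_bot, ?_, ?_, ?_⟩
    · intro φ _ c hc
      rw [Subgroup.mem_bot] at hc ⊢
      rw [hc, map_one]
    · intro c hc
      rw [Subgroup.mem_bot] at hc
      rw [hc, one_pow]
      exact Subgroup.one_mem _
    · intro x c hc
      rw [Subgroup.mem_bot] at hc
      rw [hc]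
      simp only [comm_eq, mul_one, mul_inv_cancel, inv_one]
      exact Subgroup.one_mem _
  obtain ⟨C, hPC, hmax⟩ : ∃ C : Subgroup X, P C ∧ ∀ C', P C' → C ≤ C' → C' = C := by
    have hfin : (Set.Finite {M : Subgroup X | P M}) := Set.toFinite _
    obtain ⟨M, hM, hmax⟩ := hfin.exists_le_maximal (a := ⊥) hP
    exact ⟨M, hmax.1, fun M' hM' hle => le_antisymm (hmax.2 hM' hle) hle⟩
  obtain ⟨hCn, hCA, hCs, hCc⟩ := hPC
  refine ⟨C, hCn, hCA, hCs, hCc, ?_⟩
  by_contra hcon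
  haveI := hCn
  have hZn : (ZC C).Normal := ZC_normal hCn
  haveI := hZn
  have hEn : (Subgroup.centralizer (C : Set X)).Normal := inferInstance
  have hZE : ZC C ≤ Subgroup.centralizer (C : Set X) := inf_le_right
  have hZne : ZC C ≠ Subgroup.centralizer (C : Set X) := by
    intro h
    exact hcon (h ▸ inf_le_left)
  obtain ⟨e, heE, heZ, hec, he2⟩ := exists_central_inv hX hZn hEn hZE hZne
  have hEc : ∀ x ∈ Subgroup.centralizer (C : Set X), ∀ c ∈ C, c * x = x * c := by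
    intro x hx c hc
    exact Subgroup.mem_centralizer_iff.mp hx c hc
  have hZA : ∀ φ ∈ A, ∀ z ∈ ZC C, φ z ∈ ZC C := by
    intro φ hφ z hz
    rw [mem_ZC] at hz ⊢
    refine ⟨hCA φ hφ z hz.1, fun c hc => ?_⟩
    have := hz.2 (φ⁻¹ c) (hCA _ (A.inv_mem hφ) c hc)
    have h2 := congrArg φ this
    simpa using h2
  -- the new part
  let D : Subgroup X :=
    { carrier := {x | x ∈ Subgroup.centralizer (C : Set X) ∧ x ^ 2 ∈ ZC C ∧ ∀ g : X, ⁅x, g⁆ ∈ ZC C}
      one_mem' := ⟨Subgroup.one_mem _, by simp [Subgroup.one_mem], fun g => by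
        simp only [comm_eq]; simp [Subgroup.one_mem]⟩
      mul_mem' := by
        rintro x y ⟨hx, hx2, hxc⟩ ⟨hy, hy2, hyc⟩
        refine ⟨Subgroup.mul_mem _ hx hy, ?_, fun g => ?_⟩
        · have hκ := hyc x
          have hxκ : x * ⁅y, x⁆ = ⁅y, x⁆ * x := (hEc x hx _ (mem_ZC.mp hκ).1).symm
          have e : (x * y) ^ 2 = ⁅y, x⁆ * x ^ 2 * y ^ 2 := by
            have e1 : y * x = ⁅y, x⁆ * x * y := by simp only [comm_eq]; group
            calc (x * y) ^ 2 = x * (y * x) * y := by rw [pow_two]; group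
              _ = x * (⁅y, x⁆ * x * y) * y := by rw [e1]
              _ = (x * ⁅y, x⁆) * x * y * y := by simp only [mul_assoc]
              _ = (⁅y, x⁆ * x) * x * y * y := by rw [hxκ]
              _ = _ := by simp only [pow_two, mul_assoc]
          rw [e]
          exact Subgroup.mul_mem _ (Subgroup.mul_mem _ hκ hx2) hy2
        · rw [comm_mul_left']
          exact Subgroup.mul_mem _ (hZn.conj_mem _ (hyc g) x) (hxc g)
      inv_mem' := by
        rintro x ⟨hx, hx2, hxc⟩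
        refine ⟨Subgroup.inv_mem _ hx, ?_, fun g => ?_⟩
        · have : x⁻¹ ^ 2 = (x ^ 2)⁻¹ := by simp
          rw [this]
          exact Subgroup.inv_mem _ hx2
        · rw [comm_inv_left']
          have := hZn.conj_mem _ (Subgroup.inv_mem _ (hxc g)) x⁻¹
          simpa using this }
  have hmemD : ∀ {x : X}, x ∈ D ↔ x ∈ Subgroup.centralizer (C : Set X) ∧ x ^ 2 ∈ ZC C ∧
      ∀ g : X, ⁅x, g⁆ ∈ ZC C := Iff.rfl
  have hDn : D.Normal := by
    constructor
    intro x hx g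
    obtain ⟨hx1, hx2, hx3⟩ := hmemD.mp hx
    refine hmemD.mpr ⟨hEn.conj_mem _ hx1 g, ?_, fun h => ?_⟩
    · have : (g * x * g⁻¹) ^ 2 = g * x ^ 2 * g⁻¹ := by simp only [pow_two]; group
      rw [this]
      exact hZn.conj_mem _ hx2 g
    · rw [comm_conj_left]
      exact hZn.conj_mem _ (hx3 _) g
  haveI := hDn
  have heD : e ∈ D := by
    refine hmemD.mpr ⟨heE, he2, fun g => ?_⟩
    have e1 : ⁅e, g⁆ = (g * e * g⁻¹ * e⁻¹)⁻¹ := by simp only [comm_eq]; group
    rw [e1]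
    exact Subgroup.inv_mem _ (hec g)
  have hsup : ∀ {x : X}, x ∈ C ⊔ D ↔ ∃ c ∈ C, ∃ d ∈ D, c * d = x := Subgroup.mem_sup_of_normal_right
  have hZle : ZC C ≤ ZC (C ⊔ D) := by
    intro z hz
    have hz' := mem_ZC.mp hz
    refine mem_ZC.mpr ⟨(le_sup_left : C ≤ C ⊔ D) hz'.1, fun y hy => ?_⟩
    obtain ⟨c, hc, d, hd, rfl⟩ := hsup.mp hy
    have h1 : d * z = z * d := ((hEc d (hmemD.mp hd).1 z hz'.1)).symm
    calc c * d * z = c * (d * z) := by group
      _ = c * (z * d) := by rw [h1]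
      _ = (c * z) * d := by group
      _ = (z * c) * d := by rw [hz'.2 c hc]
      _ = z * (c * d) := by group
  have hP' : P (C ⊔ D) := by
    refine ⟨inferInstance, ?_, ?_, ?_⟩
    · intro φ hφ y hy
      obtain ⟨c, hc, d, hd, rfl⟩ := hsup.mp hy
      rw [map_mul]
      refine Subgroup.mul_mem _ ((le_sup_left : C ≤ C ⊔ D) (hCA φ hφ c hc))
        ((le_sup_right : D ≤ C ⊔ D) ?_)
      obtain ⟨hd1, hd2, hd3⟩ := hmemD.mp hd
      refine hmemD.mpr ⟨?_, ?_, fun g => ?_⟩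
      · rw [Subgroup.mem_centralizer_iff]
        intro c' hc'
        have h1 := hEc d hd1 (φ⁻¹ c') (hCA _ (A.inv_mem hφ) c' hc')
        have h2 := congrArg φ h1
        simpa using h2
      · rw [← map_pow]
        exact hZA φ hφ _ hd2
      · rw [comm_map']
        exact hZA φ hφ _ (hd3 _)
    · intro y hy
      obtain ⟨c, hc, d, hd, rfl⟩ := hsup.mp hy
      obtain ⟨hd1, hd2, hd3⟩ := hmemD.mp hd
      have hcd : c * d = d * c := hEc d hd1 c hc
      have e1 : (c * d) ^ 2 = c ^ 2 * d ^ 2 := by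
        calc (c * d) ^ 2 = c * (d * c) * d := by simp only [pow_two]; group
          _ = c * (c * d) * d := by rw [← hcd]
          _ = c ^ 2 * d ^ 2 := by simp only [pow_two]; group
      rw [e1]
      exact hZle (Subgroup.mul_mem _ (hCs c hc) hd2)
    · intro x y hy
      obtain ⟨c, hc, d, hd, rfl⟩ := hsup.mp hy
      obtain ⟨hd1, hd2, hd3⟩ := hmemD.mp hd
      rw [comm_mul_right']
      refine hZle (Subgroup.mul_mem _ (hCc x c hc) (hZn.conj_mem _ ?_ c))
      have e1 : ⁅x, d⁆ = ⁅d, x⁆⁻¹ := by simp only [comm_eq]; group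
      rw [e1]
      exact Subgroup.inv_mem _ (hd3 x)
  have heq := hmax _ hP' le_sup_left
  have heC : e ∈ C := by
    rw [← heq]
    exact (le_sup_right : D ≤ C ⊔ D) heD
  exact heZ (Subgroup.mem_inf.mpr ⟨heC, heE⟩)

end Cfsg.Agent.H06.Sc
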