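import Mathlib
import Cfsg.Agent.Lib.H06.Sc4

/-! Class two groups: forms and small quotients. -/

set_option autoImplicit false

namespace Cfsg.Agent.H06.Sc

open scoped commutatorElement

variable {X : Type*} [Group X] {V K : Subgroup X}

namespace Cls

variable (h : Cls V)
include h

theorem com_inv_left (x c : X) : ⁅x⁻¹, c⁆ = ⁅x, c⁆ := by
  have h1 : ⁅x⁻¹ * x, c⁆ = ⁅x⁻¹, c⁆ * ⁅x, c⁆ := h.com_mul_left _ _ _
  rw [inv_mul_cancel, h.com_one_left] at h1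
  have h2 := h.el _ (h.com x c)
  rw [pow_two] at h2
  calc ⁅x⁻¹, c⁆ = ⁅x⁻¹, c⁆ * (⁅x, c⁆ * ⁅x, c⁆) := by rw [h2, mul_one]
    _ = (⁅x⁻¹, c⁆ * ⁅x, c⁆) * ⁅x, c⁆ := by group
    _ = ⁅x, c⁆ := by rw [← h1, one_mul]

theorem com_central_left {v : X} (hv : v ∈ V) (c : X) : ⁅v, c⁆ = 1 := by
  rw [comm_eq, ← h.cen v hv c]
  group

theorem com_central_right {v : X} (hv : v ∈ V) (c : X) : ⁅c, v⁆ = 1 := by
  rw [h.com_symm, h.com_central_left hv]

/-- elements whose commutator with `c` is in `M` -/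
def S (c : X) (M : Subgroup X) : Subgroup X where
  carrier := {g | ⁅g, c⁆ ∈ M}
  one_mem' := by
    show ⁅(1 : X), c⁆ ∈ M
    rw [h.com_one_left]; exact M.one_mem
  mul_mem' := by
    intro a b ha hb
    show ⁅a * b, c⁆ ∈ M
    rw [h.com_mul_left]
    exact M.mul_mem ha hb
  inv_mem' := by
    intro a ha
    show ⁅a⁻¹, c⁆ ∈ M
    rw [h.com_inv_left]
    exact ha

theorem mem_S {c : X} {M : Subgroup X} {g : X} : g ∈ h.S c M ↔ ⁅g, c⁆ ∈ M := Iff.rfl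

theorem le_S (c : X) (M : Subgroup X) : V ≤ h.S c M := by
  intro v hv
  show ⁅v, c⁆ ∈ M
  rw [h.com_central_left hv]
  exact M.one_mem

/-- the extension of `K ⊇ V` by `x`. -/
def ex (hVK : V ≤ K) (x : X) : Subgroup X :=
  extS K x (hVK (h.sq x)) (fun k hk => by
    constructor
    · have e : x * k * x⁻¹ = ⁅x, k⁆ * k := by simp only [comm_eq]; group
      rw [e]
      exact K.mul_mem (hVK (h.com _ _)) hk
    · have e : x⁻¹ * k * x = ⁅x⁻¹, k⁆ * k := by simp only [comm_eq]; group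
      rw [e]
      exact K.mul_mem (hVK (h.com _ _)) hk)

theorem mem_ex {hVK : V ≤ K} {x y : X} : y ∈ h.ex hVK x ↔ y ∈ K ∨ x⁻¹ * y ∈ K := Iff.rfl

theorem le_ex (hVK : V ≤ K) (x : X) : K ≤ h.ex hVK x := le_extS _ _

theorem self_mem_ex (hVK : V ≤ K) (x : X) : x ∈ h.ex hVK x := self_mem_extS _ _

theorem card_ex [Finite X] (hVK : V ≤ K) {x : X} (hx : x ∉ K) :
    Nat.card (h.ex hVK x) = 2 * Nat.card K := card_extS _ _ hx

theorem ex_le (hVK : V ≤ K) {x : X} {L : Subgroup X} (hK : K ≤ L) (hx : x ∈ L) :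
    h.ex hVK x ≤ L := by
  rintro y (hy | hy)
  · exact hK hy
  · simpa using L.mul_mem hx (hK hy)

theorem V_le_ex (hVK : V ≤ K) (x : X) : V ≤ h.ex hVK x := hVK.trans (h.le_ex hVK x)

theorem two_step {x y : X} (hxy : ⁅x, y⁆ ≠ 1) : x ∉ V ∧ y ∉ h.ex le_rfl x := by
  constructor
  · intro hx
    exact hxy (h.com_central_left hx y)
  · rintro (hy | hy)
    · exact hxy (h.com_central_right hy x)
    · apply hxy
      have e : y = x * (x⁻¹ * y) := by group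
      rw [e, h.com_mul_right, h.com_self, h.com_central_right hy, one_mul]

theorem top_of_card [Finite X] {L : Subgroup X} (hL : Nat.card L = Nat.card X) : L = ⊤ :=
  Subgroup.eq_top_of_card_eq L hL

/-- A form on a group generated by `V, x, y` has its values in the subgroup generated by `⁅x,y⁆`. -/
theorem com_mem_of_two {x y : X} {M : Subgroup X} (hM : ⁅x, y⁆ ∈ M)
    (htop : h.ex (h.V_le_ex le_rfl x) y = ⊤) (g k : X) : ⁅g, k⁆ ∈ M := by
  have hy' : ⁅y, x⁆ ∈ M := by rw [h.com_symm]; exact hM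
  have hx1 : h.ex (h.V_le_ex le_rfl x) y ≤ h.S x M := by
    refine h.ex_le _ (h.ex_le le_rfl (h.le_S _ _) ?_) ?_
    · show ⁅x, x⁆ ∈ M
      rw [h.com_self]; exact M.one_mem
    · exact hy'
  have hy1 : h.ex (h.V_le_ex le_rfl x) y ≤ h.S y M := by
    refine h.ex_le _ (h.ex_le le_rfl (h.le_S _ _) hM) ?_
    show ⁅y, y⁆ ∈ M
    rw [h.com_self]; exact M.one_mem
  rw [htop] at hx1 hy1
  have hxk : ⁅k, x⁆ ∈ M := hx1 (Subgroup.mem_top k)
  have hyk : ⁅k, y⁆ ∈ M := hy1 (Subgroup.mem_top k)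
  have hk1 : h.ex (h.V_le_ex le_rfl x) y ≤ h.S k M := by
    refine h.ex_le _ (h.ex_le le_rfl (h.le_S _ _) ?_) ?_
    · show ⁅x, k⁆ ∈ M
      rw [h.com_symm]; exact hxk
    · show ⁅y, k⁆ ∈ M
      rw [h.com_symm]; exact hyk
  rw [htop] at hk1
  exact hk1 (Subgroup.mem_top g)

/-- Radical of an alternating form in odd dimension. -/
theorem radical [Finite X] {x y w : X} {M : Subgroup X} (hMV : M ≤ V)
    (hM2 : ∀ v ∈ V, ∀ v' ∈ V, v ∉ M → v' ∉ M → v * v' ∈ M) (hxy : ⁅x, y⁆ ∉ M)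
    (hw : w ∉ h.ex (h.V_le_ex le_rfl x) y)
    (hcard : Nat.card X = 2 * Nat.card (h.ex (h.V_le_ex le_rfl x) y)) :
    ∃ r, r ∉ h.ex (h.V_le_ex le_rfl x) y ∧ ∀ g, ⁅r, g⁆ ∈ M := by
  set K₁ := h.ex (le_rfl : V ≤ V) x with hK₁
  set K₂ := h.ex (h.V_le_ex le_rfl x) y with hK₂
  have hxK₂ : x ∈ K₂ := h.le_ex _ _ (h.self_mem_ex _ _)
  have hyK₂ : y ∈ K₂ := h.self_mem_ex _ _
  have hyx : ⁅y, x⁆ ∉ M := by rw [h.com_symm]; exact hxy
  obtain ⟨r₁, hr₁, hr₁x⟩ : ∃ r₁, r₁ ∉ K₂ ∧ ⁅r₁, x⁆ ∈ M := by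
    by_cases h1 : ⁅w, x⁆ ∈ M
    · exact ⟨w, hw, h1⟩
    · refine ⟨w * y, fun hc => hw ?_, ?_⟩
      · simpa using K₂.mul_mem hc (K₂.inv_mem hyK₂)
      · rw [h.com_mul_left]
        exact hM2 _ (h.com _ _) _ (h.com _ _) h1 hyx
  obtain ⟨r, hr, hrx, hry⟩ : ∃ r, r ∉ K₂ ∧ ⁅r, x⁆ ∈ M ∧ ⁅r, y⁆ ∈ M := by
    by_cases h1 : ⁅r₁, y⁆ ∈ M
    · exact ⟨r₁, hr₁, hr₁x, h1⟩
    · refine ⟨r₁ * x, fun hc => hr₁ ?_, ?_, ?_⟩
      · simpa using K₂.mul_mem hc (K₂.inv_mem hxK₂)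
      · rw [h.com_mul_left, h.com_self, mul_one]
        exact hr₁x
      · rw [h.com_mul_left]
        exact hM2 _ (h.com _ _) _ (h.com _ _) h1 hxy
  refine ⟨r, hr, fun g => ?_⟩
  have hcard2 : Nat.card (h.ex (K := K₂) (h.V_le_ex _ _) r) = Nat.card X := by
    rw [h.card_ex _ hr, hcard]
  have htop := h.top_of_card hcard2
  have hle : h.ex (K := K₂) (h.V_le_ex _ _) r ≤ h.S r M := by
    refine h.ex_le _ (h.ex_le _ (h.ex_le le_rfl (h.le_S _ _) ?_) ?_) ?_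
    · show ⁅x, r⁆ ∈ M
      rw [h.com_symm]; exact hrx
    · show ⁅y, r⁆ ∈ M
      rw [h.com_symm]; exact hry
    · show ⁅r, r⁆ ∈ M
      rw [h.com_self]; exact M.one_mem
  rw [htop] at hle
  have := hle (Subgroup.mem_top g)
  rw [h.mem_S, h.com_symm] at this
  exact this

/-- Elements of `V⟨x,y⟩` in the radical lie in `V`. -/
theorem radical_cap {x y s : X} {M : Subgroup X} (hxy : ⁅x, y⁆ ∉ M)
    (hs : s ∈ h.ex (h.V_le_ex le_rfl x) y) (hsM : ∀ g, ⁅s, g⁆ ∈ M) : s ∈ V := by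
  have hyx : ⁅y, x⁆ ∉ M := by rw [h.com_symm]; exact hxy
  rcases hs with hs | hs
  · rcases hs with hs | hs
    · exact hs
    · exfalso
      apply hxy
      have := hsM y
      have e : s = x * (x⁻¹ * s) := by group
      rw [e, h.com_mul_left, h.com_central_left hs, mul_one] at this
      exact this
  · exfalso
    apply hyx
    have := hsM x
    have e : s = y * (y⁻¹ * s) := by group
    rw [e, h.com_mul_left] at this
    have h2 : ⁅y⁻¹ * s, x⁆ = 1 := by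
      rcases hs with hs | hs
      · exact h.com_central_left hs x
      · have e2 : y⁻¹ * s = x * (x⁻¹ * (y⁻¹ * s)) := by group
        rw [e2, h.com_mul_left, h.com_self, one_mul, h.com_central_left hs]
    rw [h2, mul_one] at this
    exact this

end Cls

end Cfsg.Agent.H06.Sc
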