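import Mathlib
import Cfsg.Agent.Lib.H06.Sc5
import Cfsg.Agent.Lib.H01.Basic
import Cfsg.Agent.Lib.H19.SameOrder

/-! The case of a fixed centre. -/

set_option autoImplicit false

namespace Cfsg.Agent.H06.Sc

open scoped commutatorElement

variable {X : Type*} [Group X] {V K : Subgroup X}

theorem two_cases [Finite X] (hV : Nat.card V = 2) : ∃ z ∈ V, z ≠ 1 ∧ ∀ v ∈ V, v = 1 ∨ v = z := by
  classical
  haveI := Fintype.ofFinite X
  have hVc : (V : Set X).toFinset.card = 2 := by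
    rw [Set.toFinset_card, ← hV]
    simp
  obtain ⟨z, hz, hz1⟩ : ∃ k ∈ (V : Set X).toFinset, k ∉ ({1} : Finset X) := by
    by_contra hcon
    push Not at hcon
    have := Finset.card_le_card hcon
    simp [hVc] at this
  simp only [Finset.mem_singleton, Set.mem_toFinset, SetLike.mem_coe] at hz hz1
  refine ⟨z, hz, hz1, fun v hv => ?_⟩
  have hsub : ({1, z} : Finset X) ⊆ (V : Set X).toFinset := by
    intro y hy
    simp only [Finset.mem_insert, Finset.mem_singleton] at hy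
    simp only [Set.mem_toFinset, SetLike.mem_coe]
    rcases hy with rfl | rfl
    · exact V.one_mem
    · exact hz
  have hcard : ({1, z} : Finset X).card = 2 := Finset.card_pair (Ne.symm hz1)
  have heq := Finset.eq_of_subset_of_card_le hsub (by rw [hcard, hVc])
  have hv' : v ∈ (V : Set X).toFinset := by simpa using hv
  rw [← heq] at hv'
  simpa using hv'

theorem index_two [Finite X] (hV : Nat.card V = 4)
    (hc : ∀ v ∈ V, ∀ w ∈ V, v * w = w * v) (he : ∀ v ∈ V, v ^ 2 = 1) {k l : X}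
    (hk : k ∈ V) (hl : l ∈ V) (hk1 : k ≠ 1) (hl1 : l ≠ 1) (hkl : k ≠ l) :
    ∀ v ∈ V, ∀ w ∈ V, v ∉ Subgroup.zpowers k → w ∉ Subgroup.zpowers k → v * w ∈ Subgroup.zpowers k := by
  have hcases := four_cases hV hc he hk hl hk1 hl1 hkl
  have hk2 := he k hk
  have hl2 := he l hl
  have hmk : ∀ {x}, x ∈ Subgroup.zpowers k ↔ x = 1 ∨ x = k := fun {x} => mem_zpowers_of_sq hk2
  have hlk : l * k = k * l := (hc k hk l hl).symm
  have hll : l * l = 1 := by rw [← pow_two]; exact hl2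
  have hkk : k * k = 1 := by rw [← pow_two]; exact hk2
  intro v hv w hw hv' hw'
  rw [hmk] at hv' hw' ⊢
  push Not at hv' hw'
  rcases hcases v hv with rfl | rfl | rfl | rfl
  · exact absurd rfl hv'.1
  · exact absurd rfl hv'.2
  · rcases hcases w hw with rfl | rfl | rfl | rfl
    · exact absurd rfl hw'.1
    · exact absurd rfl hw'.2
    · left; exact hll
    · right; rw [← mul_assoc, hlk, mul_assoc, hll, mul_one]
  · rcases hcases w hw with rfl | rfl | rfl | rfl
    · exact absurd rfl hw'.1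
    · exact absurd rfl hw'.2
    · right; rw [mul_assoc, hll, mul_one]
    · left; rw [mul_assoc, ← mul_assoc l, hlk, mul_assoc k, hll, mul_one, hkk]

namespace Cls

variable (h : Cls V)
include h

theorem normal_of_ge (hVK : V ≤ K) : K.Normal := ⟨fun k hk g => by
  have e : g * k * g⁻¹ = ⁅g, k⁆ * k := by simp only [comm_eq]; group
  rw [e]
  exact K.mul_mem (hVK (h.com _ _)) hk⟩

theorem elem_ex {t : X} (ht : t ^ 2 = 1) :
    (∀ a ∈ h.ex (le_rfl : V ≤ V) t, ∀ b ∈ h.ex (le_rfl : V ≤ V) t, a * b = b * a) ∧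
      ∀ a ∈ h.ex (le_rfl : V ≤ V) t, a ^ 2 = 1 := by
  constructor
  · intro a ha b hb
    rw [← commutatorElement_eq_one_iff_mul_comm, ← Subgroup.mem_bot]
    have h1 : h.ex (le_rfl : V ≤ V) t ≤ h.S t ⊥ :=
      h.ex_le _ (h.le_S _ _) (by show ⁅t, t⁆ ∈ (⊥ : Subgroup X); rw [h.com_self]; exact Subgroup.one_mem _)
    have h2 : h.ex (le_rfl : V ≤ V) t ≤ h.S b ⊥ := by
      refine h.ex_le _ (h.le_S _ _) ?_
      show ⁅t, b⁆ ∈ (⊥ : Subgroup X)
      rw [h.com_symm]
      exact h1 hb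
    exact h2 ha
  · rintro a (ha | ha)
    · exact h.el a ha
    · have e : a = t * (t⁻¹ * a) := by group
      rw [e, h.sq_mul, ht, h.el _ ha, h.com_central_left ha]
      simp

theorem com_eq_of_two {z : X} (hz : ∀ v ∈ V, v = 1 ∨ v = z) {a b : X} (hab : ⁅a, b⁆ ≠ 1) :
    ⁅a, b⁆ = z := (hz _ (h.com a b)).resolve_left hab

theorem sq_eq_of_two {z : X} (hz : ∀ v ∈ V, v = 1 ∨ v = z) {a : X} (ha : a ^ 2 ≠ 1) :
    a ^ 2 = z := (hz _ (h.sq a)).resolve_left ha

variable [Finite X]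

/-- a centralizer has index at most two -/
theorem card_S (hV : Nat.card V = 2) {t : X} (hcen : ∀ c : X, (∀ g : X, ⁅g, c⁆ = 1) → c ∈ V)
    (ht : t ∉ V) : Nat.card X = 2 * Nat.card (h.S t ⊥) := by
  obtain ⟨z, hzV, hz1, hz⟩ := two_cases hV
  have hne : ∃ g : X, ⁅g, t⁆ ≠ 1 := by
    by_contra hcon
    push Not at hcon
    exact ht (hcen t hcon)
  obtain ⟨g, hg⟩ := hne
  have hgS : g ∉ h.S t ⊥ := fun hc => hg (Subgroup.mem_bot.mp hc)
  have hle : V ≤ h.S t ⊥ := h.le_S _ _
  have htop : h.ex hle g = ⊤ := by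
    rw [eq_top_iff]
    intro y _
    rw [h.mem_ex]
    by_cases hy : y ∈ h.S t ⊥
    · exact Or.inl hy
    · refine Or.inr ?_
      have hy' : ⁅y, t⁆ ≠ 1 := fun hc => hy (Subgroup.mem_bot.mpr hc)
      show ⁅g⁻¹ * y, t⁆ ∈ (⊥ : Subgroup X)
      rw [h.com_mul_left, h.com_inv_left, h.com_eq_of_two hz hg, h.com_eq_of_two hz hy', Subgroup.mem_bot,
        ← pow_two]
      exact h.el _ hzV
  have := h.card_ex hle hgS
  rw [htop] at this
  simpa using this

end Cls

section final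

variable [Finite X] {A : Subgroup (MulAut X)} (hA : Odd (Nat.card A))
  (hXA : Subgroup.closure {g : X | ∃ φ ∈ A, ∃ x : X, g = x⁻¹ * φ x} = ⊤)
  (h : Cls V) (hfix : ∀ φ ∈ A, ∀ v ∈ V, φ v = v)
include hA hXA h hfix

/-- Elements of order four and `X` has no further involutions in the group of order 8 -/
theorem quat (hV : Nat.card V = 2) (hX8 : Nat.card X = 8)
    (hcen : ∀ c : X, (∀ g : X, ⁅g, c⁆ = 1) → c ∈ V) {x y : X} (hxy : ⁅x, y⁆ ≠ 1) :
    Nonempty (X ≃* QuaternionGroup 2) := by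
  obtain ⟨z, hzV, hz1, hz⟩ := two_cases hV
  have hVn : V.Normal := h.normal_of_ge le_rfl
  have hno : ∀ t : X, t ^ 2 = 1 → t ∈ V := by
    intro t ht2
    by_contra htV
    obtain ⟨g, hg⟩ : ∃ g : X, ⁅t, g⁆ ≠ 1 := by
      by_contra hcon
      push Not at hcon
      refine htV (hcen t fun g => ?_)
      rw [h.com_symm]
      exact hcon g
    -- the element with nontrivial square
    obtain ⟨u, hu1, hu2⟩ : ∃ u : X, ⁅t, u⁆ ≠ 1 ∧ u ^ 2 ≠ 1 := by
      by_cases hg2 : g ^ 2 = 1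
      · refine ⟨t * g, ?_, ?_⟩
        · rw [h.com_mul_right, h.com_self, one_mul]; exact hg
        · rw [h.sq_mul, ht2, hg2, h.com_symm]
          simpa using hg
      · exact ⟨g, hg, hg2⟩
    obtain ⟨htV', huK⟩ := h.two_step hu1
    have hκ := h.com_eq_of_two hz hu1
    have hu2' := h.sq_eq_of_two hz hu2
    have hc2 : Nat.card (h.ex (le_rfl : V ≤ V) t) = 4 := by rw [h.card_ex _ htV', hV]
    have hc3 : Nat.card (h.ex (h.V_le_ex le_rfl t) u) = 8 := by rw [h.card_ex _ huK, hc2]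
    have htop : h.ex (h.V_le_ex le_rfl t) u = ⊤ := h.top_of_card (by rw [hc3, hX8])
    have hfx : ∀ φ ∈ A, u⁻¹ * φ u ∈ V := by
      intro φ hφ
      have hφu2 : (φ u) ^ 2 ≠ 1 := by
        rw [← map_pow, hu2', hfix φ hφ z hzV]
        exact hz1
      have hmem : φ u ∈ h.ex (h.V_le_ex le_rfl t) u := by rw [htop]; trivial
      rcases hmem with hm | hm
      · exfalso
        apply hφu2
        exact (h.elem_ex ht2).2 _ hm
      · rcases hm with hm | hm
        · exact hm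
        · exfalso
          apply hφu2
          have e : φ u = (u * t) * (t⁻¹ * (u⁻¹ * φ u)) := by group
          rw [e, h.sq_mul (u * t), h.com_central_left hm, h.el _ hm, h.sq_mul, ht2, hu2',
            hκ, one_mul, mul_one, mul_one, ← pow_two]
          exact h.el _ hzV
    have := fix_mod hXA hA hVn (fun φ hφ n hn => by rw [hfix φ hφ n hn]; exact hn) h.com h.sq hfx
    obtain ⟨-, huK'⟩ := h.two_step hu1
    exact huK' (h.le_ex _ _ this)
  -- the quaternion structure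
  obtain ⟨hxV, hyK⟩ := h.two_step hxy
  have hsq : ∀ a, a ∉ V → a ^ 2 = z := by
    intro a ha
    exact h.sq_eq_of_two hz (fun hc => ha (hno a hc))
  have hyV : y ∉ V := fun hc => hyK (h.le_ex _ _ hc)
  have hx2 := hsq x hxV
  have hy2 := hsq y hyV
  have hκ := h.com_eq_of_two hz hxy
  have hz2 : z ^ 2 = 1 := h.el z hzV
  have horder : orderOf x = 4 := by
    have : orderOf x = 2 ^ (1 + 1) := by
      apply orderOf_eq_prime_pow (p := 2) (n := 1)
      · simpa [hx2] using hz1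
      · rw [show 2 ^ (1 + 1) = 2 * 2 from rfl, pow_mul, hx2, hz2]
    simpa using this
  refine H19.quaternion_iso hX8 horder (by rw [hy2, hx2]) ?_ ?_
  · have e : y * x * y⁻¹ = ⁅y, x⁆ * x := by simp only [comm_eq]; group
    rw [e, h.com_symm, hκ]
    have h5 : x * x = z := by rw [← pow_two]; exact hx2
    have h6 : z * z = 1 := by rw [← pow_two]; exact hz2
    calc z * x = (x * x) * x := by rw [h5]
      _ = x⁻¹ * (x * x) * (x * x) := by group
      _ = x⁻¹ := by rw [h5, mul_assoc, h6, mul_one]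
  · intro hy
    apply hxy
    obtain ⟨n, rfl⟩ := hy
    simp only [comm_eq]
    have := (Commute.refl x).zpow_right n
    have e : x ^ n * x = x * x ^ n := (this.eq).symm
    show x * x ^ n * x⁻¹ * (x ^ n)⁻¹ = 1
    rw [← e]
    group

omit hA hXA hfix in
/-- The count of involutions in the group of order 32. -/
theorem count11 (hE : NoE8 X) (hV : Nat.card V = 2) (hX32 : Nat.card X = 32)
    (hcen : ∀ c : X, (∀ g : X, ⁅g, c⁆ = 1) → c ∈ V) : Nat.card {x : X // orderOf x = 2} = 11 := by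
  classical
  haveI := Fintype.ofFinite X
  haveI : Fact (Nat.Prime 2) := ⟨Nat.prime_two⟩
  obtain ⟨z, hzV, hz1, hz⟩ := two_cases hV
  obtain ⟨t, -, htV, ht2⟩ := exists_inv_of_chain h hV (le_rfl : V ≤ V) (le_top : V ≤ ⊤)
    (by rw [Subgroup.card_top, hV, hX32]; norm_num)
  have hcS := h.card_S hV hcen htV
  rw [hX32] at hcS
  have hC16 : Nat.card (h.S t ⊥) = 16 := by omega
  have hmemC : ∀ {s : X}, s ∈ h.S t ⊥ ↔ ⁅s, t⁆ = 1 := by
    intro s
    rw [h.mem_S, Subgroup.mem_bot]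
  have htC : t ∈ h.S t ⊥ := hmemC.mpr (h.com_self t)
  have hVC : V ≤ h.S t ⊥ := h.le_S _ _
  have hKn : (h.ex (le_rfl : V ≤ V) t).Normal := h.normal_of_ge (h.le_ex _ _)
  have hK4 : Nat.card (h.ex (le_rfl : V ≤ V) t) = 4 := by rw [h.card_ex _ htV, hV]
  obtain ⟨hKc, hKe⟩ := h.elem_ex ht2
  have hinC : ∀ s, s ∈ h.S t ⊥ → s ^ 2 = 1 → s ∈ h.ex (le_rfl : V ≤ V) t := by
    intro s hs hs2
    by_contra hsK
    refine no_ext4 hE hKn hK4 hKc hKe hsK hs2 ?_ ?_
    · intro k hk
      rw [← commutatorElement_eq_one_iff_mul_comm, h.com_symm]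
      have h2 : h.ex (le_rfl : V ≤ V) t ≤ h.S s ⊥ := by
        refine h.ex_le _ (h.le_S _ _) ?_
        show ⁅t, s⁆ ∈ (⊥ : Subgroup X)
        rw [h.com_symm, Subgroup.mem_bot]
        exact hmemC.mp hs
      exact Subgroup.mem_bot.mp (h2 hk)
    · intro g
      exact h.le_ex _ _ (h.com g s)
  have hI : ∀ x : X, orderOf x = 2 ↔ x ^ 2 = 1 ∧ x ≠ 1 := by
    intro x
    constructor
    · intro hx
      refine ⟨by rw [← hx]; exact pow_orderOf_eq_one x, ?_⟩
      rintro rfl
      simp at hx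
    · rintro ⟨h1, h2⟩
      exact orderOf_eq_prime h1 h2
  rw [Nat.card_eq_fintype_card, Fintype.card_subtype]
  let I : Finset X := Finset.univ.filter (fun x => orderOf x = 2)
  have hsplit := Finset.card_filter_add_card_filter_not (s := I) (fun x => x ∈ h.S t ⊥)
  -- inside the centralizer
  have hI₁ : I.filter (fun x => x ∈ h.S t ⊥) = {z, t, t * z} := by
    ext x
    simp only [I, Finset.mem_filter, Finset.mem_univ, true_and, Finset.mem_insert,
      Finset.mem_singleton, hI]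
    constructor
    · rintro ⟨⟨h1, h2⟩, h3⟩
      rcases hinC x h3 h1 with h4 | h4
      · left
        exact (hz x h4).resolve_left h2
      · right
        rcases hz _ h4 with h5 | h5
        · left
          have : x = t * (t⁻¹ * x) := by group
          rw [this, h5, mul_one]
        · right
          have : x = t * (t⁻¹ * x) := by group
          rw [this, h5]
    · have hzt : t * z ∈ h.S t ⊥ := Subgroup.mul_mem _ htC (hVC hzV)
      rintro (rfl | rfl | rfl)
      · exact ⟨⟨h.el _ hzV, hz1⟩, hVC hzV⟩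
      · exact ⟨⟨ht2, fun hc => htV (hc ▸ V.one_mem)⟩, htC⟩
      · refine ⟨⟨?_, ?_⟩, hzt⟩
        · rw [h.sq_mul, ht2, h.el _ hzV, h.com_central_left hzV]
          simp
        · intro hc
          apply htV
          have : t = z⁻¹ := eq_inv_of_mul_eq_one_left hc
          rw [this]
          exact V.inv_mem hzV
  have hc₁ : (I.filter (fun x => x ∈ h.S t ⊥)).card = 3 := by
    rw [hI₁]
    have h1 : z ≠ t := fun hc => htV (hc ▸ hzV)
    have h2 : z ≠ t * z := fun hc => htV (by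
      have : t = 1 := by simpa using hc.symm
      rw [this]; exact V.one_mem)
    have h3 : t ≠ t * z := fun hc => hz1 (by simpa using hc.symm)
    rw [Finset.card_insert_of_notMem, Finset.card_insert_of_notMem, Finset.card_singleton]
    · simpa using h3
    · simp [h1, h2]
  -- outside the centralizer
  let O : Finset X := Finset.univ.filter (fun x => x ∉ h.S t ⊥)
  have hOcard : O.card = 16 := by
    have h1 := Finset.card_filter_add_card_filter_not (s := (Finset.univ : Finset X))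
      (fun x => x ∈ h.S t ⊥)
    have h2 : (Finset.univ.filter (fun x => x ∈ h.S t ⊥)).card = 16 := by
      rw [← Fintype.card_subtype, ← Nat.card_eq_fintype_card]
      exact hC16
    rw [Finset.card_univ, ← Nat.card_eq_fintype_card, hX32, h2] at h1
    have h3 : O.card = (Finset.univ.filter (fun x => ¬ x ∈ h.S t ⊥)).card := rfl
    omega
  have hI₂ : I.filter (fun x => ¬ x ∈ h.S t ⊥) = O.filter (fun x => x ^ 2 = 1) := by
    ext x
    simp only [I, O, Finset.mem_filter, Finset.mem_univ, true_and, hI]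
    constructor
    · rintro ⟨⟨h1, -⟩, h3⟩
      exact ⟨h3, h1⟩
    · rintro ⟨h3, h1⟩
      refine ⟨⟨h1, ?_⟩, h3⟩
      rintro rfl
      exact h3 (Subgroup.one_mem _)
  have hbij : (O.filter (fun x => x ^ 2 = 1)).card = (O.filter (fun x => ¬ x ^ 2 = 1)).card := by
    refine Finset.card_bij (fun x _ => x * t) ?_ ?_ ?_
    · intro x hx
      simp only [O, Finset.mem_filter, Finset.mem_univ, true_and] at hx ⊢
      obtain ⟨h1, h2⟩ := hx
      have hx' : ⁅x, t⁆ ≠ 1 := fun hc => h1 (hmemC.mpr hc)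
      refine ⟨fun hc => h1 (by simpa using Subgroup.mul_mem _ hc (Subgroup.inv_mem _ htC)), ?_⟩
      rw [h.sq_mul, h2, ht2, mul_one, mul_one, h.com_symm]
      exact hx'
    · intro a _ b _ hab
      exact mul_right_cancel hab
    · intro y hy
      simp only [O, Finset.mem_filter, Finset.mem_univ, true_and] at hy
      obtain ⟨h1, h2⟩ := hy
      have hy' : ⁅y, t⁆ ≠ 1 := fun hc => h1 (hmemC.mpr hc)
      refine ⟨y * t, ?_, by rw [mul_assoc, ← pow_two, ht2, mul_one]⟩
      simp only [O, Finset.mem_filter, Finset.mem_univ, true_and]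
      refine ⟨fun hc => h1 (by simpa using Subgroup.mul_mem _ hc (Subgroup.inv_mem _ htC)), ?_⟩
      rw [h.sq_mul, ht2, h.sq_eq_of_two hz h2, mul_one, h.com_symm, h.com_eq_of_two hz hy', ← pow_two]
      exact h.el _ hzV
  have hO := Finset.card_filter_add_card_filter_not (s := O) (fun x => x ^ 2 = 1)
  have : (Finset.univ.filter (fun x : X => orderOf x = 2)).card = I.card := rfl
  rw [this, ← hsplit, hc₁, hI₂]
  omega

omit hA hXA h hfix in
theorem special_of (hX : IsPGroup 2 X) (h : Cls V) (hcen : Subgroup.center X = V)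
    (hcomm : commutator X = V) : Cfsg.IsSpecial 2 X := by
  haveI : Fact (Nat.Prime 2) := ⟨Nat.prime_two⟩
  haveI : V.Normal := h.normal_of_ge le_rfl
  refine ⟨hX, ?_, by rw [hcen, hcomm]⟩
  rw [hcen]
  apply le_antisymm
  · exact Cfsg.Agent.H01.frattini_le_of_comm_pow (p := 2) V hcomm.le h.sq
  · rw [← hcomm]
    exact Cfsg.Agent.H01.commutator_le_frattini_of_isPGroup hX

/-- The order of `X` when the centre has order four. -/
theorem fix_four (hX : IsPGroup 2 X) (hE : NoE8 X) (hV : Nat.card V = 4) (hcomm : commutator X = V)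
    {x y : X} (hxy : ⁅x, y⁆ ≠ 1) : Nat.card X = 64 := by
  classical
  have hVn : V.Normal := h.normal_of_ge le_rfl
  have hVc : ∀ v ∈ V, ∀ w ∈ V, v * w = w * v := fun v hv w _ => h.vcomm hv
  have hinv : ∀ t : X, t ^ 2 = 1 → t ∈ V := by
    intro t ht
    by_contra htV
    exact no_ext4 hE hVn hV hVc h.el htV ht (fun k hk => (h.vcomm hk).symm) (fun g => h.com g t)
  have hle64 := anis h hV hinv
  obtain ⟨hxV, hyK⟩ := h.two_step hxy
  have hc2 : Nat.card (h.ex (le_rfl : V ≤ V) x) = 8 := by rw [h.card_ex _ hxV, hV]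
  have hc3 : Nat.card (h.ex (h.V_le_ex le_rfl x) y) = 16 := by rw [h.card_ex _ hyK, hc2]
  have hVle : ∀ M : Subgroup X, (∀ g k : X, ⁅g, k⁆ ∈ M) → V ≤ M := by
    intro M hM
    rw [← hcomm]
    exact Subgroup.commutator_le.mpr (fun g _ k _ => hM g k)
  have hκV : ⁅x, y⁆ ∈ V := h.com x y
  obtain ⟨k, hk, l, hl, hk1, hl1, hkl⟩ := exists_two_of_card_four hV
  have htop₂ : h.ex (h.V_le_ex le_rfl x) y ≠ ⊤ := by
    intro htop
    have h1 := hVle _ (h.com_mem_of_two (M := Subgroup.zpowers ⁅x, y⁆) (Subgroup.mem_zpowers _) htop)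
    have hκ2 := h.el _ hκV
    have h2 := (mem_zpowers_of_sq hκ2).mp (h1 hk)
    have h3 := (mem_zpowers_of_sq hκ2).mp (h1 hl)
    rcases h2 with h2 | h2
    · exact hk1 h2
    · rcases h3 with h3 | h3
      · exact hl1 h3
      · exact hkl (h2.trans h3.symm)
  obtain ⟨w, -, hw, K₃, hK₃1, -, hwK₃, hK₃c⟩ :=
    ext_step h (h.V_le_ex _ _) le_top htop₂
  have hK3card : Nat.card K₃ = 32 := by rw [hK₃c, hc3]
  have hVK₃ : V ≤ K₃ := (h.V_le_ex _ _).trans hK₃1
  by_cases htop₃ : K₃ = ⊤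
  · exfalso
    have hXc : Nat.card X = 32 := by
      rw [← hK3card, htop₃]
      simp
    obtain ⟨v₀, hv₀, hv₀1, hv₀κ⟩ : ∃ v₀ ∈ V, v₀ ≠ 1 ∧ v₀ ≠ ⁅x, y⁆ := by
      by_cases hc : k = ⁅x, y⁆
      · exact ⟨l, hl, hl1, fun hc2 => hkl (hc.trans hc2.symm)⟩
      · exact ⟨k, hk, hk1, hc⟩
    have hv₀2 := h.el _ hv₀
    have hM2 := index_two hV hVc h.el hv₀ hκV hv₀1 hxy hv₀κ
    have hκM : ⁅x, y⁆ ∉ Subgroup.zpowers v₀ := by
      rw [mem_zpowers_of_sq hv₀2]
      push Not
      exact ⟨hxy, fun hc => hv₀κ hc.symm⟩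
    have hMV : Subgroup.zpowers v₀ ≤ V := by
      rw [Subgroup.zpowers_le]
      exact hv₀
    obtain ⟨r, hr, hrM⟩ := h.radical hMV hM2 hκM hw (by rw [hXc, hc3])
    have htop₄ : h.ex (K := h.ex (h.V_le_ex le_rfl x) y) (h.V_le_ex _ _) r = ⊤ := by
      apply h.top_of_card
      rw [h.card_ex _ hr, hc3, hXc]
    have hφr : ∀ φ ∈ A, ∀ g, ⁅φ r, g⁆ ∈ Subgroup.zpowers v₀ := by
      intro φ hφ g
      rw [comm_map', hfix φ hφ _ (h.com _ _)]
      exact hrM _
    have hfx : ∀ φ ∈ A, r⁻¹ * φ r ∈ V := by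
      intro φ hφ
      have hmem : φ r ∈ h.ex (K := h.ex (h.V_le_ex le_rfl x) y) (h.V_le_ex _ _) r := by
        rw [htop₄]; trivial
      rcases hmem with hm | hm
      · exfalso
        have h1 := h.radical_cap hκM hm (hφr φ hφ)
        have h2 := hfix φ hφ _ h1
        have h3 : φ r = r := φ.injective h2
        rw [h3] at hm
        exact hr hm
      · refine h.radical_cap hκM hm fun g => ?_
        rw [h.com_mul_left, h.com_inv_left]
        exact Subgroup.mul_mem _ (hrM g) (hφr φ hφ g)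
    have := fix_mod hXA hA hVn (fun φ hφ n hn => by rw [hfix φ hφ n hn]; exact hn) h.com h.sq hfx
    exact hr ((h.V_le_ex _ _) this)
  · obtain ⟨w', -, hw', K₄, -, -, -, hK₄c⟩ := ext_step h hVK₃ le_top htop₃
    have hK4card : Nat.card K₄ = 64 := by rw [hK₄c, hK3card]
    have : Nat.card K₄ ≤ Nat.card X := Subgroup.card_le_card_group K₄
    omega

/-- The case of a centre of order two. -/
theorem fix_two (hX : IsPGroup 2 X) (hE : NoE8 X) (hV : Nat.card V = 2)
    (hcen : ∀ c : X, (∀ g : X, ⁅g, c⁆ = 1) → c ∈ V)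
    {x y : X} (hxy : ⁅x, y⁆ ≠ 1) :
    Nonempty (X ≃* QuaternionGroup 2) ∨
      (Nat.card X = 32 ∧ Nat.card {x : X // orderOf x = 2} = 11) := by
  classical
  obtain ⟨z, hzV, hz1, hz⟩ := two_cases hV
  have hVn : V.Normal := h.normal_of_ge le_rfl
  obtain ⟨hxV, hyK⟩ := h.two_step hxy
  have hc2 : Nat.card (h.ex (le_rfl : V ≤ V) x) = 4 := by rw [h.card_ex _ hxV, hV]
  have hc3 : Nat.card (h.ex (h.V_le_ex le_rfl x) y) = 8 := by rw [h.card_ex _ hyK, hc2]
  by_cases htop₂ : h.ex (h.V_le_ex le_rfl x) y = ⊤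
  · left
    have hX8 : Nat.card X = 8 := by
      rw [← hc3, htop₂]; simp
    exact quat hA hXA h hfix hV hX8 hcen hxy
  obtain ⟨w, -, hw, K₃, hK₃1, -, hwK₃, hK₃c⟩ := ext_step h (h.V_le_ex _ _) le_top htop₂
  have hK3card : Nat.card K₃ = 16 := by rw [hK₃c, hc3]
  have hVK₃ : V ≤ K₃ := (h.V_le_ex _ _).trans hK₃1
  have htop₃ : K₃ ≠ ⊤ := by
    intro htop
    have hXc : Nat.card X = 16 := by
      rw [← hK3card, htop]; simp
    have hM2 : ∀ v ∈ V, ∀ v' ∈ V, v ∉ (⊥ : Subgroup X) → v' ∉ (⊥ : Subgroup X) →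
        v * v' ∈ (⊥ : Subgroup X) := by
      intro v hv v' hv' h1 h2
      rw [Subgroup.mem_bot] at h1 h2 ⊢
      rw [(hz v hv).resolve_left h1, (hz v' hv').resolve_left h2, ← pow_two]
      exact h.el _ hzV
    obtain ⟨r, hr, hrM⟩ := h.radical (M := ⊥) bot_le hM2 (fun hc => hxy (Subgroup.mem_bot.mp hc)) hw
      (by rw [hXc, hc3])
    refine hr ((h.V_le_ex _ _) (hcen r fun g => ?_))
    rw [h.com_symm]
    exact Subgroup.mem_bot.mp (hrM g)
  obtain ⟨w', -, hw', K₄, hK₄1, -, -, hK₄c⟩ := ext_step h hVK₃ le_top htop₃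
  have hK4card : Nat.card K₄ = 32 := by rw [hK₄c, hK3card]
  have hVK₄ : V ≤ K₄ := hVK₃.trans hK₄1
  by_cases htop₄ : K₄ = ⊤
  · right
    have hXc : Nat.card X = 32 := by
      rw [← hK4card, htop₄]; simp
    exact ⟨hXc, count11 h hE hV hXc hcen⟩
  · exfalso
    obtain ⟨w'', -, hw'', K₅, -, -, -, hK₅c⟩ := ext_step h hVK₄ le_top htop₄
    have hK5card : Nat.card K₅ = 64 := by rw [hK₅c, hK4card]
    have hXge : 64 ≤ Nat.card X := by
      rw [← hK5card]; exact Subgroup.card_le_card_group K₅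
    obtain ⟨t, -, htV, ht2⟩ := exists_inv_of_chain h hV (le_rfl : V ≤ V) (le_top : V ≤ ⊤)
      (by rw [Subgroup.card_top, hV]; omega)
    have hcS := h.card_S hV hcen htV
    have hKle : h.ex (le_rfl : V ≤ V) t ≤ h.S t ⊥ :=
      h.ex_le _ (h.le_S _ _) (by
        show ⁅t, t⁆ ∈ (⊥ : Subgroup X)
        rw [h.com_self]; exact Subgroup.one_mem _)
    have hK4 : Nat.card (h.ex (le_rfl : V ≤ V) t) = 4 := by rw [h.card_ex _ htV, hV]
    obtain ⟨u, hu, huK, hu2⟩ := exists_inv_of_chain h hV (h.le_ex (le_rfl : V ≤ V) t) hKle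
      (by rw [hK4]; omega)
    obtain ⟨hKc, hKe⟩ := h.elem_ex ht2
    refine no_ext4 hE (h.normal_of_ge (h.le_ex _ _)) hK4 hKc hKe huK hu2 ?_ ?_
    · intro k hk
      rw [← commutatorElement_eq_one_iff_mul_comm, h.com_symm]
      have h2 : h.ex (le_rfl : V ≤ V) t ≤ h.S u ⊥ := by
        refine h.ex_le _ (h.le_S _ _) ?_
        show ⁅t, u⁆ ∈ (⊥ : Subgroup X)
        rw [h.com_symm]
        exact hu
      exact Subgroup.mem_bot.mp (h2 hk)
    · intro g
      exact h.le_ex _ _ (h.com g u)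

end final

end Cfsg.Agent.H06.Sc
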