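import Mathlib
import Cfsg.Agent.Lib.H06.Sc6

/-! The reduction to the fixed case, and its conclusion. -/

set_option autoImplicit false

namespace Cfsg.Agent.H06.Sc

open scoped commutatorElement

variable {X : Type*} [Group X]

theorem pow_card_aut [Finite X] {A : Subgroup (MulAut X)} {φ : MulAut X} (hφ : φ ∈ A) :
    φ ^ Nat.card A = 1 := by
  have h1 : ((⟨φ, hφ⟩ : A) ^ Nat.card A : A) = 1 := pow_card_eq_one'
  have h2 : ((⟨φ, hφ⟩ : A) ^ Nat.card A : A).1 = (1 : A).1 := congrArg Subtype.val h1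
  rw [Subgroup.coe_pow] at h2
  exact h2

/-- The subgroup of involutions of a normal abelian subgroup -/
def omega1 (Z : Subgroup X) (hc : ∀ a ∈ Z, ∀ b ∈ Z, a * b = b * a) : Subgroup X where
  carrier := {v | v ∈ Z ∧ v ^ 2 = 1}
  one_mem' := ⟨Z.one_mem, one_pow 2⟩
  mul_mem' := by
    rintro a b ⟨ha, ha2⟩ ⟨hb, hb2⟩
    refine ⟨Z.mul_mem ha hb, ?_⟩
    calc (a * b) ^ 2 = a * (b * a) * b := by simp only [pow_two]; group
      _ = a * (a * b) * b := by rw [hc b hb a ha]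
      _ = a ^ 2 * b ^ 2 := by simp only [pow_two]; group
      _ = 1 := by rw [ha2, hb2, one_mul]
  inv_mem' := by
    rintro a ⟨ha, ha2⟩
    exact ⟨Z.inv_mem ha, by simp [ha2]⟩

theorem mem_omega1 {Z : Subgroup X} {hc : ∀ a ∈ Z, ∀ b ∈ Z, a * b = b * a} {v : X} :
    v ∈ omega1 Z hc ↔ v ∈ Z ∧ v ^ 2 = 1 := Iff.rfl

theorem omega1_normal {Z : Subgroup X} (hZ : Z.Normal) (hc : ∀ a ∈ Z, ∀ b ∈ Z, a * b = b * a) :
    (omega1 Z hc).Normal := ⟨fun v hv g => by
  obtain ⟨h1, h2⟩ := hv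
  refine ⟨hZ.conj_mem v h1 g, ?_⟩
  have : (g * v * g⁻¹) ^ 2 = g * v ^ 2 * g⁻¹ := by simp only [pow_two]; group
  rw [this, h2]
  group⟩

variable [Finite X]

theorem ZC_comm {C : Subgroup X} : ∀ a ∈ ZC C, ∀ b ∈ ZC C, a * b = b * a := by
  intro a ha b hb
  exact ((mem_ZC.mp hb).2 a (mem_ZC.mp ha).1)

/-- Three involutions. -/
theorem count3 {V : Subgroup X} (hinv : ∀ t : X, t ^ 2 = 1 → t ∈ V) (hel : ∀ v ∈ V, v ^ 2 = 1)
    (hV : Nat.card V = 4) : Nat.card {x : X // orderOf x = 2} = 3 := by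
  classical
  haveI := Fintype.ofFinite X
  haveI : Fact (Nat.Prime 2) := ⟨Nat.prime_two⟩
  rw [Nat.card_eq_fintype_card, Fintype.card_subtype]
  have heq : Finset.univ.filter (fun x : X => orderOf x = 2) = (V : Set X).toFinset.erase 1 := by
    ext x
    simp only [Finset.mem_filter, Finset.mem_univ, true_and, Finset.mem_erase, Set.mem_toFinset,
      SetLike.mem_coe]
    constructor
    · intro hx
      have h2 : x ^ 2 = 1 := by rw [← hx]; exact pow_orderOf_eq_one x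
      refine ⟨?_, hinv x h2⟩
      rintro rfl
      simp at hx
    · rintro ⟨h1, h2⟩
      exact orderOf_eq_prime (hel x h2) h1
  rw [heq, Finset.card_erase_of_mem (by simp [V.one_mem]), Set.toFinset_card]
  have : Fintype.card (V : Set X) = 4 := by
    rw [← hV, Nat.card_eq_fintype_card]
    rfl
  omega

/-- The reduction when `A` acts trivially on the involutions of the centre of the critical subgroup. -/
theorem fix_reduction (hX : IsPGroup 2 X) {A : Subgroup (MulAut X)} (hA : Odd (Nat.card A))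
    (hXA : Subgroup.closure {g : X | ∃ φ ∈ A, ∃ x : X, g = x⁻¹ * φ x} = ⊤)
    {C : Subgroup X} (hCn : C.Normal) (hCA : ∀ φ ∈ A, ∀ c ∈ C, φ c ∈ C)
    (hCs : ∀ c ∈ C, c ^ 2 ∈ ZC C) (hCc : ∀ x : X, ∀ c ∈ C, ⁅x, c⁆ ∈ ZC C)
    (hcl : Subgroup.centralizer (C : Set X) ≤ C)
    (hfix : ∀ φ ∈ A, ∀ v ∈ ZC C, v ^ 2 = 1 → φ v = v) :
    ∃ V : Subgroup X, Cls V ∧ Subgroup.center X = V ∧ commutator X = V ∧ ∀ φ ∈ A, ∀ v ∈ V, φ v = v := by
  classical
  set Z := ZC C with hZdef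
  have hZn : Z.Normal := ZC_normal hCn
  have hZc := ZC_comm (C := C)
  have hZA : ∀ φ ∈ A, ∀ z ∈ Z, φ z ∈ Z := by
    intro φ hφ z hz
    rw [mem_ZC] at hz ⊢
    refine ⟨hCA φ hφ z hz.1, fun c hc => ?_⟩
    have := hz.2 (φ⁻¹ c) (hCA _ (A.inv_mem hφ) c hc)
    have h2 := congrArg φ this
    simpa using h2
  have hZfix : ∀ φ ∈ A, ∀ z ∈ Z, φ z = z := fun φ hφ =>
    fix_of_fix_inv φ hA (pow_card_aut hφ) hX Z hZc (hZA φ hφ) (hfix φ hφ)
  have hZcen := central_of_fixed hXA hZn hZfix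
  have hmemZ : ∀ g : X, (∀ c ∈ C, c * g = g * c) → g ∈ Z := by
    intro g hg
    have : g ∈ Subgroup.centralizer (C : Set X) := Subgroup.mem_centralizer_iff.mpr hg
    exact mem_ZC.mpr ⟨hcl this, hg⟩
  -- commutators with `C`
  have hcm : ∀ x y c : X, c ∈ C → ⁅x * y, c⁆ = ⁅x, c⁆ * ⁅y, c⁆ := by
    intro x y c hc
    rw [comm_mul_left x y c (fun g => hZcen _ (hCc y c hc) g)]
    exact (hZcen _ (hCc y c hc) _).symm
  have hcsq : ∀ x c : X, c ∈ C → ⁅x, c⁆ * ⁅x, c⁆ = 1 := by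
    intro x c hc
    have h1 := comm_mul_right x c c (fun g => hZcen _ (hCc x c hc) g)
    rw [← h1, ← pow_two]
    have h2 := hZcen _ (hCs c hc) x
    rw [comm_eq, h2]
    group
  have hsqZ : ∀ x : X, x ^ 2 ∈ Z := by
    intro x
    refine hmemZ _ fun c hc => ?_
    have h1 : ⁅x ^ 2, c⁆ = 1 := by
      rw [pow_two, hcm x x c hc, hcsq x c hc]
    exact (commutatorElement_eq_one_iff_mul_comm.mp h1).symm
  have hcinv : ∀ x c : X, c ∈ C → ⁅x⁻¹, c⁆ = ⁅x, c⁆⁻¹ := by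
    intro x c hc
    have h1 := hcm x⁻¹ x c hc
    rw [inv_mul_cancel] at h1
    have h2 : ⁅(1 : X), c⁆ = 1 := by simp [comm_eq]
    rw [h2] at h1
    exact eq_inv_of_mul_eq_one_left h1.symm
  have hcomZ : ∀ x y : X, ⁅x, y⁆ ∈ Z := by
    intro x y
    refine hmemZ _ fun c hc => ?_
    have h1 : ⁅⁅x, y⁆, c⁆ = 1 := by
      rw [comm_eq x y, hcm _ _ c hc, hcm _ _ c hc, hcm _ _ c hc, hcinv _ _ hc, hcinv _ _ hc]
      have hc1 := hCc x c hc
      have hc2 := hCc y c hc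
      have : ⁅y, c⁆ * ⁅x, c⁆⁻¹ = ⁅x, c⁆⁻¹ * ⁅y, c⁆ := (hZcen _ hc2 _).symm
      calc ⁅x, c⁆ * ⁅y, c⁆ * ⁅x, c⁆⁻¹ * ⁅y, c⁆⁻¹ = ⁅x, c⁆ * (⁅y, c⁆ * ⁅x, c⁆⁻¹) * ⁅y, c⁆⁻¹ := by group
        _ = ⁅x, c⁆ * (⁅x, c⁆⁻¹ * ⁅y, c⁆) * ⁅y, c⁆⁻¹ := by rw [this]
        _ = 1 := by group
    exact (commutatorElement_eq_one_iff_mul_comm.mp h1).symm
  have hcen' : ∀ z ∈ Z, ∀ g : X, z * g = g * z := fun z hz g => (hZcen z hz g).symm
  have hcomsq : ∀ x y : X, ⁅x, y⁆ ^ 2 = 1 := by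
    intro x y
    have h1 := comm_mul_right x y y (fun g => hZcen _ (hcomZ x y) g)
    rw [pow_two, ← h1, ← pow_two]
    rw [comm_eq, hZcen _ (hsqZ y) x]
    group
  set N := commutator X with hNdef
  have hNmem : ∀ x y : X, ⁅x, y⁆ ∈ N := fun x y =>
    Subgroup.commutator_mem_commutator (Subgroup.mem_top x) (Subgroup.mem_top y)
  have hNZ : N ≤ omega1 Z hZc := by
    refine Subgroup.commutator_le.mpr fun x _ y _ => ?_
    exact ⟨hcomZ x y, hcomsq x y⟩
  have hNn : N.Normal := by rw [hNdef]; infer_instance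
  have hNA : ∀ φ ∈ A, ∀ n ∈ N, φ n ∈ N := by
    intro φ _ n hn
    have h1 : (commutator X).map φ.toMonoidHom ≤ commutator X := by
      refine (Subgroup.map_le_iff_le_comap).mpr ?_
      refine Subgroup.commutator_le.mpr fun x _ y _ => ?_
      show φ ⁅x, y⁆ ∈ commutator X
      rw [comm_map]
      exact hNmem _ _
    exact h1 (Subgroup.mem_map_of_mem _ hn)
  -- squares in the commutator subgroup
  have hsqN : ∀ x : X, x ^ 2 ∈ N := by
    refine closure_all hXA ?_ ?_ ?_ ?_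
    · simp [N.one_mem]
    · intro x y hx hy
      have e := Sc.sq_mul x y (fun g => hZcen _ (hcomZ y x) g)
      rw [e]
      exact N.mul_mem (N.mul_mem (hNmem _ _) hx) hy
    · intro x hx
      have : x⁻¹ ^ 2 = (x ^ 2)⁻¹ := by simp
      rw [this]
      exact N.inv_mem hx
    · intro φ hφ x
      have e := Sc.sq_mul x⁻¹ (φ x) (fun g => hZcen _ (hcomZ _ _) g)
      have h1 : (φ x) ^ 2 = x ^ 2 := by
        rw [← map_pow, hZfix φ hφ _ (hsqZ x)]
      have h2 : x⁻¹ ^ 2 * x ^ 2 = 1 := by simp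
      rw [e, h1, mul_assoc, h2, mul_one]
      exact hNmem _ _
  have hZN : Z ≤ N := by
    intro z hz
    refine fix_mod hXA hA hNn hNA hNmem hsqN fun φ hφ => ?_
    rw [hZfix φ hφ z hz]
    simp [N.one_mem]
  have hVZ : omega1 Z hZc = N := le_antisymm (fun v hv => hZN hv.1) hNZ
  have hZV : Z = omega1 Z hZc := le_antisymm (hZN.trans hNZ) (fun v hv => hv.1)
  have hcls : Cls (omega1 Z hZc) := by
    refine ⟨fun v hv g => hZcen v hv.1 g, fun v hv => hv.2, fun x => ?_, fun x y => hNZ (hNmem x y)⟩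
    exact hNZ (hsqN x)
  refine ⟨omega1 Z hZc, hcls, ?_, hVZ.symm, fun φ hφ v hv => hZfix φ hφ v hv.1⟩
  apply le_antisymm
  · intro c hc
    rw [← hZV]
    refine hmemZ c fun d _ => ?_
    exact (Subgroup.mem_center_iff.mp hc d)
  · intro v hv
    rw [Subgroup.mem_center_iff]
    exact fun g => hZcen v hv.1 g

/-- The conclusion in the fixed case. -/
theorem fix_main (hX : IsPGroup 2 X) (hE : NoE8 X) {A : Subgroup (MulAut X)} (hA : Odd (Nat.card A))
    (hXA : Subgroup.closure {g : X | ∃ φ ∈ A, ∃ x : X, g = x⁻¹ * φ x} = ⊤)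
    {V : Subgroup X} (h : Cls V) (hcen : Subgroup.center X = V) (hcomm : commutator X = V)
    (hfix : ∀ φ ∈ A, ∀ v ∈ V, φ v = v) {x y : X} (hxy : ⁅x, y⁆ ≠ 1) :
    Nonempty (X ≃* QuaternionGroup 2) ∨
      (Cfsg.IsSpecial 2 X ∧ Nat.card X = 64 ∧ Nat.card {x : X // orderOf x = 2} = 3 ∧
        ∀ x : X, orderOf x = 2 → x ∈ Subgroup.center X) ∨
      (Cfsg.IsExtraspecial 2 X ∧ Nat.card X = 32 ∧ Nat.card {x : X // orderOf x = 2} = 11) := by
  classical
  haveI : Fact (Nat.Prime 2) := ⟨Nat.prime_two⟩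
  have hVn : V.Normal := h.normal_of_ge le_rfl
  have hVc : ∀ v ∈ V, ∀ w ∈ V, v * w = w * v := fun v hv w _ => h.vcomm hv
  have hle4 := card_le_four hX hE V hVn hVc h.el
  obtain ⟨n, hn⟩ := (IsPGroup.iff_card (p := 2)).mp (hX.to_subgroup V)
  have hne1 : Nat.card V ≠ 1 := by
    intro hc
    have := Subgroup.eq_bot_of_card_eq V hc
    apply hxy
    have h1 := h.com x y
    rw [this, Subgroup.mem_bot] at h1
    exact h1
  have hn2 : n = 1 ∨ n = 2 := by
    rcases n with _ | _ | _ | n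
    · exact absurd (by simpa using hn) hne1
    · left; rfl
    · right; rfl
    · exfalso
      have : 2 ^ 3 ≤ 2 ^ (n + 1 + 1 + 1) := Nat.pow_le_pow_right (by norm_num) (by omega)
      omega
  have hspec := special_of hX h hcen hcomm
  rcases hn2 with rfl | rfl
  · have hV2 : Nat.card V = 2 := by simpa using hn
    have hcen2 : ∀ c : X, (∀ g : X, ⁅g, c⁆ = 1) → c ∈ V := by
      intro c hc
      rw [← hcen, Subgroup.mem_center_iff]
      exact fun g => commutatorElement_eq_one_iff_mul_comm.mp (hc g)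
    rcases fix_two hA hXA h hfix hX hE hV2 hcen2 hxy with h1 | ⟨h1, h2⟩
    · exact Or.inl h1
    · exact Or.inr (Or.inr ⟨⟨hspec, by rw [hcen, hV2]⟩, h1, h2⟩)
  · have hV4 : Nat.card V = 4 := by simpa using hn
    right; left
    have hinv : ∀ t : X, t ^ 2 = 1 → t ∈ V := by
      intro t ht
      by_contra htV
      exact no_ext4 hE hVn hV4 hVc h.el htV ht (fun k hk => (h.vcomm hk).symm) (fun g => h.com g t)
    refine ⟨hspec, fix_four hA hXA h hfix hX hE hV4 hcomm hxy, ?_, fun t ht => ?_⟩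
    · exact count3 hinv h.el hV4
    · rw [hcen]
      refine hinv t ?_
      rw [← ht]
      exact pow_orderOf_eq_one t

end Cfsg.Agent.H06.Sc
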