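import Mathlib
import Cfsg.Agent.Lib.H06.Sc7

/-! Fixed point free action on a four group; the subgroup `D`. -/

set_option autoImplicit false

namespace Cfsg.Agent.H06.Sc

open scoped commutatorElement

variable {X : Type*} [Group X]

theorem odd_fix {ψ : MulAut X} {n : ℕ} (hn : Odd n) (hψ : ψ ^ n = 1) {l : X} (h : ψ (ψ l) = l) :
    ψ l = l := by
  have key : ∀ j : ℕ, (ψ ^ (2 * j)) l = l := by
    intro j
    induction j with
    | zero => simp
    | succ j ih =>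
      have e : 2 * (j + 1) = 2 * j + 2 := by ring
      rw [e, pow_add, MulAut.mul_apply, pow_two, MulAut.mul_apply, h, ih]
  obtain ⟨j, rfl⟩ := hn
  have h1 : (ψ ^ (2 * j + 1)) l = l := by rw [hψ]; rfl
  rw [pow_succ', MulAut.mul_apply, key j] at h1
  exact h1

/-- An odd order automorphism of a four group with a nontrivial fixed point is trivial. -/
theorem fpf_of_fix [Finite X] {V : Subgroup X} (hV : Nat.card V = 4)
    (hc : ∀ v ∈ V, ∀ w ∈ V, v * w = w * v) (he : ∀ v ∈ V, v ^ 2 = 1) {ψ : MulAut X} {n : ℕ}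
    (hn : Odd n) (hψ : ψ ^ n = 1) (hinv : ∀ v ∈ V, ψ v ∈ V) {e : X} (heV : e ∈ V) (he1 : e ≠ 1)
    (hfix : ψ e = e) : ∀ v ∈ V, ψ v = v := by
  obtain ⟨k, hk, l, hl, hk1, hl1, hkl⟩ := exists_two_of_card_four hV
  obtain ⟨l', hl', hl'1, hel'⟩ : ∃ l' ∈ V, l' ≠ 1 ∧ e ≠ l' := by
    by_cases hc1 : e = k
    · exact ⟨l, hl, hl1, hc1 ▸ hkl⟩
    · exact ⟨k, hk, hk1, hc1⟩
  have hcases := four_cases hV hc he heV hl' he1 hl'1 hel'
  have hee : e * e = 1 := by rw [← pow_two]; exact he e heV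
  have hel'c := hc e heV l' hl'
  have hl'fix : ψ l' = l' := by
    apply odd_fix hn hψ
    rcases hcases _ (hinv l' hl') with h1 | h1 | h1 | h1
    · exfalso
      apply hl'1
      have : ψ l' = ψ 1 := by rw [h1, map_one]
      exact ψ.injective this
    · exfalso
      apply hel'
      have : ψ l' = ψ e := by rw [h1, hfix]
      exact (ψ.injective this).symm
    · rw [h1, h1]
    · rw [h1, map_mul, hfix, h1, ← mul_assoc, hee, one_mul]
  intro v hv
  rcases hcases v hv with rfl | rfl | rfl | rfl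
  · exact map_one _
  · exact hfix
  · exact hl'fix
  · rw [map_mul, hfix, hl'fix]

/-- A fixed point free automorphism of a central four group. -/
structure FP (V : Subgroup X) (a : MulAut X) : Prop where
  card : Nat.card V = 4
  cen : ∀ v ∈ V, ∀ g : X, g * v = v * g
  el : ∀ v ∈ V, v ^ 2 = 1
  inv : ∀ v ∈ V, a v ∈ V
  fp : ∀ v ∈ V, a v = v → v = 1
  fp2 : ∀ v ∈ V, a (a v) = v → v = 1

namespace FP

variable {V : Subgroup X} {a : MulAut X} (F : FP V a)
include F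

theorem comm {v w : X} (hv : v ∈ V) (_hw : w ∈ V) : v * w = w * v := (F.cen v hv w).symm

theorem mul_self {v : X} (hv : v ∈ V) : v * v = 1 := by
  rw [← pow_two]; exact F.el v hv

theorem ne_one_a {v : X} (hv1 : v ≠ 1) : a v ≠ 1 := by
  intro h
  exact hv1 (a.injective (by rw [h, map_one]))

theorem ne_a {v : X} (hv : v ∈ V) (hv1 : v ≠ 1) : v ≠ a v := fun h => hv1 (F.fp v hv h.symm)

variable [Finite X]

theorem cases {v w : X} (hv : v ∈ V) (hv1 : v ≠ 1) (hw : w ∈ V) :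
    w = 1 ∨ w = v ∨ w = a v ∨ w = v * a v :=
  four_cases F.card (fun _ h _ h' => F.comm h h') F.el hv (F.inv v hv) hv1 (F.ne_one_a hv1)
    (F.ne_a hv hv1) w hw

theorem a_a {v : X} (hv : v ∈ V) : a (a v) = v * a v := by
  by_cases hv1 : v = 1
  · subst hv1; simp
  rcases F.cases hv hv1 (F.inv _ (F.inv v hv)) with h | h | h | h
  · exact absurd h (F.ne_one_a (F.ne_one_a hv1))
  · exact absurd (F.fp2 v hv h) hv1
  · exact absurd (F.fp _ (F.inv v hv) h) (F.ne_one_a hv1)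
  · exact h

theorem a3 {v : X} (hv : v ∈ V) : a (a (a v)) = v := by
  rw [F.a_a (F.inv v hv), F.a_a hv]
  have h1 := F.comm hv (F.inv v hv)
  calc a v * (v * a v) = a v * (a v * v) := by rw [h1]
    _ = (a v * a v) * v := by group
    _ = v := by rw [F.mul_self (F.inv v hv), one_mul]

theorem cases3 {v w : X} (hv : v ∈ V) (hv1 : v ≠ 1) (hw : w ∈ V) (hw1 : w ≠ 1) :
    w = v ∨ w = a v ∨ w = a (a v) := by
  rcases F.cases hv hv1 hw with h | h | h | h
  · exact absurd h hw1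
  · exact Or.inl h
  · exact Or.inr (Or.inl h)
  · exact Or.inr (Or.inr (h.trans (F.a_a hv).symm))

theorem prod3 {v : X} (hv : v ∈ V) : v * a v * a (a v) = 1 := by
  rw [← F.a_a hv]
  exact F.mul_self (F.inv _ (F.inv v hv))

theorem ne_aa {v : X} (hv : v ∈ V) (hv1 : v ≠ 1) : v ≠ a (a v) :=
  fun h => hv1 (F.fp2 v hv h.symm)

theorem ne_one_aa {v : X} (hv1 : v ≠ 1) : a (a v) ≠ 1 := F.ne_one_a (F.ne_one_a hv1)

theorem a_ne_aa {v : X} (hv : v ∈ V) (hv1 : v ≠ 1) : a v ≠ a (a v) :=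
  F.ne_a (F.inv v hv) (F.ne_one_a hv1)

end FP

/-- The subgroup of `x` central of exponent two modulo `V`. -/
def DD (V : Subgroup X) (hcen : ∀ v ∈ V, ∀ g : X, g * v = v * g) : Subgroup X where
  carrier := {x | x ^ 2 ∈ V ∧ ∀ g : X, ⁅x, g⁆ ∈ V}
  one_mem' := ⟨by simp [V.one_mem], fun g => by simp [comm_eq, V.one_mem]⟩
  mul_mem' := by
    rintro x y ⟨hx, hxc⟩ ⟨hy, hyc⟩
    refine ⟨?_, fun g => ?_⟩
    · rw [Sc.sq_mul x y (fun g => hcen _ (hyc x) g)]
      exact V.mul_mem (V.mul_mem (hyc x) hx) hy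
    · rw [comm_mul_left x y g (fun k => hcen _ (hyc g) k)]
      exact V.mul_mem (hyc g) (hxc g)
  inv_mem' := by
    rintro x ⟨hx, hxc⟩
    refine ⟨by simpa using V.inv_mem hx, fun g => ?_⟩
    rw [comm_inv_left', mul_assoc, ← hcen _ (V.inv_mem (hxc g)) x]
    simpa using V.inv_mem (hxc g)

section DDsec

variable {V : Subgroup X} (hcen : ∀ v ∈ V, ∀ g : X, g * v = v * g)

theorem mem_DD {x : X} : x ∈ DD V hcen ↔ x ^ 2 ∈ V ∧ ∀ g : X, ⁅x, g⁆ ∈ V := Iff.rfl

theorem DD_normal : (DD V hcen).Normal := ⟨fun x hx g => by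
  obtain ⟨hx2, hxc⟩ := hx
  have hVn : V.Normal := ⟨fun v hv k => by rw [hcen v hv k]; simpa using hv⟩
  refine ⟨?_, fun k => ?_⟩
  · have : (g * x * g⁻¹) ^ 2 = g * x ^ 2 * g⁻¹ := by simp only [pow_two]; group
    rw [this]
    exact hVn.conj_mem _ hx2 g
  · rw [comm_conj_left]
    exact hVn.conj_mem _ (hxc _) g⟩

theorem com_DD_right {d : X} (hd : d ∈ DD V hcen) (x : X) : ⁅x, d⁆ ∈ V := by
  have e : ⁅x, d⁆ = ⁅d, x⁆⁻¹ := by simp only [comm_eq]; group
  rw [e]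
  exact V.inv_mem (hd.2 x)

theorem le_DD (hel : ∀ v ∈ V, v ^ 2 = 1) : V ≤ DD V hcen := by
  intro v hv
  refine ⟨by rw [hel v hv]; exact V.one_mem, fun g => ?_⟩
  rw [comm_eq, ← hcen v hv g]
  simp [V.one_mem]

theorem com_mul_D {d : X} (hd : d ∈ DD V hcen) (x y : X) : ⁅x * y, d⁆ = ⁅x, d⁆ * ⁅y, d⁆ := by
  rw [comm_mul_left x y d (fun k => hcen _ (com_DD_right hcen hd y) k)]
  exact (hcen _ (com_DD_right hcen hd y) _).symm

theorem com_D_mul {d d' : X} (hd' : d' ∈ DD V hcen) (x : X) : ⁅x, d * d'⁆ = ⁅x, d⁆ * ⁅x, d'⁆ :=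
  comm_mul_right x d d' (fun k => hcen _ (com_DD_right hcen hd' x) k)

end DDsec

/-- The action of `A`. -/
structure Act (V : Subgroup X) (a : MulAut X) (A : Subgroup (MulAut X)) : Prop where
  F : FP V a
  ha : a ∈ A
  hAV : ∀ φ ∈ A, ∀ v ∈ V, φ v ∈ V
  pw : ∀ φ ∈ A, (∀ v ∈ V, φ v = v) ∨ (∀ v ∈ V, φ v = a v) ∨ (∀ v ∈ V, φ v = a (a v))

namespace Act

variable {V : Subgroup X} {a : MulAut X} {A : Subgroup (MulAut X)} (H : Act V a A)
include H

theorem D_map {φ : MulAut X} (hφ : φ ∈ A) {x : X} (hx : x ∈ DD V H.F.cen) : φ x ∈ DD V H.F.cen := by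
  obtain ⟨h1, h2⟩ := hx
  refine ⟨by rw [← map_pow]; exact H.hAV φ hφ _ h1, fun g => ?_⟩
  rw [comm_map']
  exact H.hAV φ hφ _ (h2 _)

variable [Finite X] (hE : NoE8 X)
include hE

/-- Involutions of `D` are in `V`. -/
theorem D1 {x : X} (hx : x ∈ DD V H.F.cen) (hx2 : x ^ 2 = 1) : x ∈ V := by
  by_contra hxV
  have hVn : V.Normal := ⟨fun v hv k => by rw [H.F.cen v hv k]; simpa using hv⟩
  refine no_ext4 hE hVn H.F.card (fun _ h _ h' => H.F.comm h h') H.F.el hxV hx2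
    (fun k hk => (H.F.cen k hk x)) (fun g => ?_)
  exact com_DD_right _ hx g

end Act

end Cfsg.Agent.H06.Sc
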