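import Mathlib
import Cfsg.Agent.Lib.H06.Sc8

/-! The case where `D` has centre `V`. -/

set_option autoImplicit false

namespace Cfsg.Agent.H06.Sc

open scoped commutatorElement

variable {X : Type*} [Group X]

theorem count_mod3 [Finite X] {V : Subgroup X} {a : MulAut X} (F : FP V a) (hsq : ∀ x : X, x ^ 2 ∈ V)
    (hinv : ∀ t : X, t ^ 2 = 1 → t ∈ V) : ∃ n : ℕ, Nat.card X = 4 + 3 * n := by
  classical
  haveI := Fintype.ofFinite X
  obtain ⟨k, hk, -, -, hk1, -, -⟩ := exists_two_of_card_four F.card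
  have hfib : ∀ v : X, (Finset.univ.filter (fun x : X => x ^ 2 = v)).card =
      (Finset.univ.filter (fun x : X => x ^ 2 = a v)).card := by
    intro v
    refine Finset.card_bij (fun x _ => a x) ?_ ?_ ?_
    · intro x hx
      simp only [Finset.mem_filter, Finset.mem_univ, true_and] at hx ⊢
      rw [← map_pow, hx]
    · intro x _ y _ hxy
      exact a.injective hxy
    · intro y hy
      simp only [Finset.mem_filter, Finset.mem_univ, true_and] at hy
      refine ⟨a⁻¹ y, ?_, by simp⟩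
      simp only [Finset.mem_filter, Finset.mem_univ, true_and]
      rw [← map_pow, hy]
      simp
  have hT : ∀ x ∈ (Finset.univ : Finset X), x ^ 2 ∈ ({1, k, a k, a (a k)} : Finset X) := by
    intro x _
    simp only [Finset.mem_insert, Finset.mem_singleton]
    by_cases hx : x ^ 2 = 1
    · exact Or.inl hx
    · exact Or.inr (F.cases3 hk hk1 (hsq x) hx)
  have hsum := Finset.card_eq_sum_card_fiberwise hT
  have h01 : (1 : X) ∉ ({k, a k, a (a k)} : Finset X) := by
    simp only [Finset.mem_insert, Finset.mem_singleton, not_or]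
    exact ⟨hk1.symm, (F.ne_one_a hk1).symm, (F.ne_one_aa hk1).symm⟩
  have h02 : k ∉ ({a k, a (a k)} : Finset X) := by
    simp only [Finset.mem_insert, Finset.mem_singleton, not_or]
    exact ⟨F.ne_a hk hk1, F.ne_aa hk hk1⟩
  have h03 : a k ∉ ({a (a k)} : Finset X) := by
    simp only [Finset.mem_singleton]
    exact F.a_ne_aa hk hk1
  rw [Finset.sum_insert h01, Finset.sum_insert h02, Finset.sum_insert h03, Finset.sum_singleton,
    ← hfib (a k), ← hfib k] at hsum
  have h1 : (Finset.univ.filter (fun x : X => x ^ 2 = 1)).card = 4 := by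
    have e : Finset.univ.filter (fun x : X => x ^ 2 = 1) = (V : Set X).toFinset := by
      ext x
      simp only [Finset.mem_filter, Finset.mem_univ, true_and, Set.mem_toFinset, SetLike.mem_coe]
      exact ⟨hinv x, F.el x⟩
    rw [e, Set.toFinset_card, ← F.card, Nat.card_eq_fintype_card]
    rfl
  rw [h1] at hsum
  refine ⟨(Finset.univ.filter (fun x : X => x ^ 2 = k)).card, ?_⟩
  rw [Nat.card_eq_fintype_card, ← Finset.card_univ, hsum]
  ring

/-- The case `Z(D) = V`. -/
theorem caseI [Finite X] (hX : IsPGroup 2 X) (hE : NoE8 X) {V : Subgroup X} {a : MulAut X}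
    {A : Subgroup (MulAut X)} (H : Act V a A)
    (hZD : ∀ u ∈ DD V H.F.cen, (∀ d ∈ DD V H.F.cen, u * d = d * u) → u ∈ V) {x y : X}
    (hxy : ⁅x, y⁆ ≠ 1) :
    Cfsg.IsSpecial 2 X ∧ Nat.card X = 64 ∧ Nat.card {x : X // orderOf x = 2} = 3 ∧
        ∀ x : X, orderOf x = 2 → x ∈ Subgroup.center X := by
  classical
  have F := H.F
  set D := DD V H.F.cen with hD
  have hDn : D.Normal := DD_normal _
  haveI := hDn
  have hVn : V.Normal := ⟨fun v hv k => by rw [F.cen v hv k]; simpa using hv⟩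
  have hEn : (Subgroup.centralizer (D : Set X)).Normal := inferInstance
  have hVE : V ≤ Subgroup.centralizer (D : Set X) := by
    intro v hv
    rw [Subgroup.mem_centralizer_iff]
    exact fun h _ => F.cen v hv h
  have hEV : Subgroup.centralizer (D : Set X) = V := by
    by_contra hne
    obtain ⟨e, heE, heV, hec, he2⟩ := exists_central_inv hX hVn hEn hVE (Ne.symm hne)
    have heD : e ∈ D := by
      refine ⟨he2, fun g => ?_⟩
      have e1 : ⁅e, g⁆ = (g * e * g⁻¹ * e⁻¹)⁻¹ := by simp only [comm_eq]; group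
      rw [e1]
      exact V.inv_mem (hec g)
    exact heV (hZD e heD fun d hd => (Subgroup.mem_centralizer_iff.mp heE d hd).symm)
  have hE' : ∀ g : X, (∀ d ∈ D, ⁅g, d⁆ = 1) → g ∈ V := by
    intro g hg
    rw [← hEV, Subgroup.mem_centralizer_iff]
    intro d hd
    exact (commutatorElement_eq_one_iff_mul_comm.mp (hg d hd)).symm
  have hsq : ∀ x : X, x ^ 2 ∈ V := by
    intro x
    refine hE' _ fun d hd => ?_
    rw [pow_two, com_mul_D _ hd, F.mul_self (com_DD_right _ hd x)]
  have hcom : ∀ x y : X, ⁅x, y⁆ ∈ V := by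
    intro x y
    refine hE' _ fun d hd => ?_
    have hinv : ∀ z : X, ⁅z⁻¹, d⁆ = ⁅z, d⁆ := by
      intro z
      have h1 := com_mul_D _ hd z⁻¹ z
      rw [inv_mul_cancel] at h1
      have h2 : ⁅(1 : X), d⁆ = 1 := by simp [comm_eq]
      rw [h2] at h1
      have h3 := F.mul_self (com_DD_right _ hd z)
      calc ⁅z⁻¹, d⁆ = ⁅z⁻¹, d⁆ * (⁅z, d⁆ * ⁅z, d⁆) := by rw [h3, mul_one]
        _ = (⁅z⁻¹, d⁆ * ⁅z, d⁆) * ⁅z, d⁆ := by group
        _ = ⁅z, d⁆ := by rw [← h1, one_mul]
    rw [comm_eq x y, com_mul_D _ hd, com_mul_D _ hd, com_mul_D _ hd, hinv, hinv]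
    have hc := F.comm (com_DD_right _ hd y) (com_DD_right _ hd x)
    calc ⁅x, d⁆ * ⁅y, d⁆ * ⁅x, d⁆ * ⁅y, d⁆ = ⁅x, d⁆ * (⁅y, d⁆ * ⁅x, d⁆) * ⁅y, d⁆ := by group
      _ = ⁅x, d⁆ * (⁅x, d⁆ * ⁅y, d⁆) * ⁅y, d⁆ := by rw [hc]
      _ = (⁅x, d⁆ * ⁅x, d⁆) * (⁅y, d⁆ * ⁅y, d⁆) := by group
      _ = 1 := by rw [F.mul_self (com_DD_right _ hd x), F.mul_self (com_DD_right _ hd y), one_mul]
  have h : Cls V := ⟨F.cen, F.el, hsq, hcom⟩
  have hinv : ∀ t : X, t ^ 2 = 1 → t ∈ V := by
    intro t ht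
    refine H.D1 hE ⟨hsq t, fun g => hcom t g⟩ ht
  have hle64 := anis h F.card hinv
  have hκV := hcom x y
  have hmemN : ∀ x y : X, ⁅x, y⁆ ∈ commutator X := fun x y =>
    Subgroup.commutator_mem_commutator (Subgroup.mem_top x) (Subgroup.mem_top y)
  have hcomm : commutator X = V := by
    apply le_antisymm
    · exact Subgroup.commutator_le.mpr fun x _ y _ => hcom x y
    · intro v hv
      have haκ : a ⁅x, y⁆ ∈ commutator X := by
        rw [comm_map]; exact hmemN _ _
      rcases F.cases hκV hxy hv with h1 | h1 | h1 | h1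
      · rw [h1]; exact Subgroup.one_mem _
      · rw [h1]; exact hmemN _ _
      · rw [h1]; exact haκ
      · rw [h1]; exact Subgroup.mul_mem _ (hmemN _ _) haκ
  have hcenter : Subgroup.center X = V := by
    apply le_antisymm
    · intro c hc
      have hc' := Subgroup.mem_center_iff.mp hc
      have hcD : c ∈ D := by
        refine ⟨hsq c, fun g => ?_⟩
        rw [commutatorElement_eq_one_iff_mul_comm.mpr (hc' g).symm]
        exact V.one_mem
      exact hZD c hcD fun d _ => (hc' d).symm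
    · intro v hv
      rw [Subgroup.mem_center_iff]
      exact fun g => F.cen v hv g
  refine ⟨special_of hX h hcenter hcomm, ?_, count3 hinv F.el F.card, fun t ht => ?_⟩
  · obtain ⟨hxV, hyK⟩ := h.two_step hxy
    have hc2 : Nat.card (h.ex (le_rfl : V ≤ V) x) = 8 := by rw [h.card_ex _ hxV, F.card]
    have hc3 : Nat.card (h.ex (h.V_le_ex le_rfl x) y) = 16 := by rw [h.card_ex _ hyK, hc2]
    have htop₂ : h.ex (h.V_le_ex le_rfl x) y ≠ ⊤ := by
      intro htop
      have h1 : ∀ g k : X, ⁅g, k⁆ ∈ Subgroup.zpowers ⁅x, y⁆ :=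
        h.com_mem_of_two (M := Subgroup.zpowers ⁅x, y⁆) (Subgroup.mem_zpowers _) htop
      have h2 : V ≤ Subgroup.zpowers ⁅x, y⁆ := by
        rw [← hcomm]
        exact Subgroup.commutator_le.mpr fun g _ k _ => h1 g k
      have h3 := (mem_zpowers_of_sq (F.el _ hκV)).mp (h2 (F.inv _ hκV))
      rcases h3 with h3 | h3
      · exact F.ne_one_a hxy h3
      · exact F.ne_a hκV hxy h3.symm
    obtain ⟨w, -, hw, K₃, hK₃1, -, hwK₃, hK₃c⟩ := ext_step h (h.V_le_ex _ _) le_top htop₂
    have hK3card : Nat.card K₃ = 32 := by rw [hK₃c, hc3]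
    have hVK₃ : V ≤ K₃ := (h.V_le_ex _ _).trans hK₃1
    by_cases htop₃ : K₃ = ⊤
    · exfalso
      have hXc : Nat.card X = 32 := by
        rw [← hK3card, htop₃]; simp
      obtain ⟨n, hn⟩ := count_mod3 F hsq hinv
      omega
    · obtain ⟨w', -, hw', K₄, -, -, -, hK₄c⟩ := ext_step h hVK₃ le_top htop₃
      have hK4card : Nat.card K₄ = 64 := by rw [hK₄c, hK3card]
      have : Nat.card K₄ ≤ Nat.card X := Subgroup.card_le_card_group K₄
      omega
  · rw [hcenter]
    refine hinv t ?_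
    rw [← ht]
    exact pow_orderOf_eq_one t

end Cfsg.Agent.H06.Sc
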