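import Mathlib
import Cfsg.Agent.Lib.H06.Sc9

/-! The case where `D` has a central element outside `V`: the structure of `D`. -/

set_option autoImplicit false

namespace Cfsg.Agent.H06.Sc

open scoped commutatorElement

variable {X : Type*} [Group X]

namespace Act

variable {V : Subgroup X} {a : MulAut X} {A : Subgroup (MulAut X)} (H : Act V a A)
include H

theorem central_a {w : X} (hw : ∀ d ∈ DD V H.F.cen, w * d = d * w) :
    ∀ d ∈ DD V H.F.cen, a w * d = d * a w := by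
  intro d hd
  have h1 := hw (a⁻¹ d) (H.D_map (A.inv_mem H.ha) hd)
  have h2 := congrArg a h1
  simpa using h2

theorem com_inv_D {d : X} (hd : d ∈ DD V H.F.cen) [Finite X] (z : X) : ⁅z⁻¹, d⁆ = ⁅z, d⁆ := by
  have h1 := com_mul_D H.F.cen hd z⁻¹ z
  rw [inv_mul_cancel] at h1
  have h2 : ⁅(1 : X), d⁆ = 1 := by simp [comm_eq]
  rw [h2] at h1
  have h3 := H.F.mul_self (com_DD_right _ hd z)
  calc ⁅z⁻¹, d⁆ = ⁅z⁻¹, d⁆ * (⁅z, d⁆ * ⁅z, d⁆) := by rw [h3, mul_one]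
    _ = (⁅z⁻¹, d⁆ * ⁅z, d⁆) * ⁅z, d⁆ := by group
    _ = ⁅z, d⁆ := by rw [← h1, one_mul]

variable [Finite X] (hE : NoE8 X)
include hE

/-- `d` times a translate of a central element lies in `V`. -/
theorem D_key {u d : X} (hu : u ∈ DD V H.F.cen) (huV : u ∉ V)
    (huc : ∀ d ∈ DD V H.F.cen, u * d = d * u) (hd : d ∈ DD V H.F.cen) (hdV : d ∉ V) :
    d * u ∈ V ∨ d * a u ∈ V ∨ d * a (a u) ∈ V := by
  have F := H.F
  have hu2 : u ^ 2 ≠ 1 := fun h => huV (H.D1 hE hu h)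
  have hd2 : d ^ 2 ≠ 1 := fun h => hdV (H.D1 hE hd h)
  have key : ∀ w ∈ DD V H.F.cen, (∀ d ∈ DD V H.F.cen, w * d = d * w) → d ^ 2 = w ^ 2 → d * w ∈ V := by
    intro w hw hwc he
    refine H.D1 hE (Subgroup.mul_mem _ hd hw) ?_
    have h1 : d * w = w * d := (hwc d hd).symm
    calc (d * w) ^ 2 = d * (w * d) * w := by simp only [pow_two]; group
      _ = d * (d * w) * w := by rw [h1]
      _ = d ^ 2 * w ^ 2 := by simp only [pow_two]; group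
      _ = 1 := by rw [he, ← pow_two]; exact F.el _ hw.1
  have hau := H.D_map H.ha hu
  have haau := H.D_map H.ha hau
  rcases F.cases3 hu.1 hu2 hd.1 hd2 with h | h | h
  · exact Or.inl (key u hu huc h)
  · exact Or.inr (Or.inl (key _ hau (H.central_a huc) (by rw [h, map_pow])))
  · exact Or.inr (Or.inr (key _ haau (H.central_a (H.central_a huc)) (by rw [h, map_pow, map_pow])))

/-- `D` is abelian. -/
theorem D_comm {u : X} (hu : u ∈ DD V H.F.cen) (huV : u ∉ V)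
    (huc : ∀ d ∈ DD V H.F.cen, u * d = d * u) :
    ∀ d ∈ DD V H.F.cen, ∀ d' ∈ DD V H.F.cen, d * d' = d' * d := by
  have F := H.F
  have key : ∀ w d d' : X, (∀ d ∈ DD V H.F.cen, w * d = d * w) → d * w ∈ V → d' ∈ DD V H.F.cen →
      d * d' = d' * d := by
    intro w d d' hwc hv hd'
    have h1 := hwc d' hd'
    have h2 : (d * w) * d' = d' * (d * w) := (F.cen _ hv d').symm
    apply mul_right_cancel (b := w)
    calc d * d' * w = d * (d' * w) := by group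
      _ = d * (w * d') := by rw [h1]
      _ = (d * w) * d' := by group
      _ = d' * (d * w) := h2
      _ = d' * d * w := by group
  intro d hd d' hd'
  by_cases hdV : d ∈ V
  · exact (F.cen d hdV d').symm
  rcases H.D_key hE hu huV huc hd hdV with h | h | h
  · exact key _ _ _ huc h hd'
  · exact key _ _ _ (H.central_a huc) h hd'
  · exact key _ _ _ (H.central_a (H.central_a huc)) h hd'

section ab

variable (hab : ∀ d ∈ DD V H.F.cen, ∀ d' ∈ DD V H.F.cen, d * d' = d' * d)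
include hab

theorem D_cases {d₀ d : X} (hd₀ : d₀ ∈ DD V H.F.cen) (hd₀V : d₀ ∉ V) (hd : d ∈ DD V H.F.cen) :
    d ∈ V ∨ d * d₀ ∈ V ∨ d * a d₀ ∈ V ∨ d * a (a d₀) ∈ V := by
  by_cases hdV : d ∈ V
  · exact Or.inl hdV
  · exact Or.inr (H.D_key hE hd₀ hd₀V (fun e he => hab d₀ hd₀ e he) hd hdV)

theorem D_prod {d : X} (hd : d ∈ DD V H.F.cen) : d * a d * a (a d) ∈ V := by
  have F := H.F
  have hd1 := H.D_map H.ha hd
  have hd2 := H.D_map H.ha hd1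
  refine H.D1 hE (Subgroup.mul_mem _ (Subgroup.mul_mem _ hd hd1) hd2) ?_
  have e1 : d * a d = a d * d := hab _ hd _ hd1
  have e2 : (d * a d) * a (a d) = a (a d) * (d * a d) :=
    hab _ (Subgroup.mul_mem _ hd hd1) _ hd2
  have sq1 : (d * a d) ^ 2 = d ^ 2 * a d ^ 2 := by
    calc (d * a d) ^ 2 = d * (a d * d) * a d := by simp only [pow_two]; group
      _ = d * (d * a d) * a d := by rw [e1]
      _ = d ^ 2 * a d ^ 2 := by simp only [pow_two]; group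
  have sq2 : (d * a d * a (a d)) ^ 2 = (d * a d) ^ 2 * a (a d) ^ 2 := by
    calc (d * a d * a (a d)) ^ 2 = (d * a d) * (a (a d) * (d * a d)) * a (a d) := by
          simp only [pow_two]; group
      _ = (d * a d) * ((d * a d) * a (a d)) * a (a d) := by rw [e2]
      _ = (d * a d) ^ 2 * a (a d) ^ 2 := by simp only [pow_two]; group
  rw [sq2, sq1, ← map_pow, ← map_pow, ← map_pow]
  exact F.prod3 hd.1

/-- Elements of `A` agreeing on `V` agree on commutators with `D`. -/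
theorem com_agree {φ φ' : MulAut X} (hφ : φ ∈ A) (hφ' : φ' ∈ A) (hag : ∀ v ∈ V, φ v = φ' v) (x : X)
    {d : X} (hd : d ∈ DD V H.F.cen) : ⁅φ x, d⁆ = ⁅φ' x, d⁆ := by
  have F := H.F
  set ψ := φ⁻¹ * φ' with hψ
  have hψA : ψ ∈ A := A.mul_mem (A.inv_mem hφ) hφ'
  have hψfix : ∀ v ∈ V, ψ v = v := by
    intro v hv
    rw [hψ, MulAut.mul_apply, ← hag v hv]
    simp
  have hψinv : ∀ v ∈ V, ψ⁻¹ v = v := by
    intro v hv
    conv_lhs => rw [← hψfix v hv]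
    simp
  set e := φ⁻¹ d with he
  have heD : e ∈ DD V H.F.cen := H.D_map (A.inv_mem hφ) hd
  have hφe : φ e = d := by simp [he]
  have hψe : ψ⁻¹ e ∈ DD V H.F.cen := H.D_map (A.inv_mem hψA) heD
  have hv : e⁻¹ * ψ⁻¹ e ∈ V := by
    refine H.D1 hE (Subgroup.mul_mem _ (Subgroup.inv_mem _ heD) hψe) ?_
    have h1 := hab _ (Subgroup.inv_mem _ heD) _ hψe
    have h2 : (ψ⁻¹ e) ^ 2 = e ^ 2 := by rw [← map_pow, hψinv _ heD.1]
    calc (e⁻¹ * ψ⁻¹ e) ^ 2 = e⁻¹ * (ψ⁻¹ e * e⁻¹) * ψ⁻¹ e := by simp only [pow_two]; group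
      _ = e⁻¹ * (e⁻¹ * ψ⁻¹ e) * ψ⁻¹ e := by rw [h1]
      _ = (e ^ 2)⁻¹ * (ψ⁻¹ e) ^ 2 := by simp only [pow_two]; group
      _ = 1 := by rw [h2]; group
  have h3 : ⁅x, ψ⁻¹ e⁆ = ⁅x, e⁆ := by
    have e1 : ψ⁻¹ e = e * (e⁻¹ * ψ⁻¹ e) := by group
    have h4 : ⁅x, e⁻¹ * ψ⁻¹ e⁆ = 1 := by
      rw [comm_eq, F.cen _ hv x]
      group
    rw [e1, com_D_mul H.F.cen (le_DD H.F.cen F.el hv), h4, mul_one]
  have h5 : φ' x = φ (ψ x) := by simp [hψ]
  rw [h5, comm_map' φ (ψ x) d, ← he, comm_map' ψ x e, hψfix _ (com_DD_right _ hψe x), h3, comm_map φ,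
    hφe]

/-- The key invariance. -/
theorem T_eq (hXA : Subgroup.closure {g : X | ∃ φ ∈ A, ∃ x : X, g = x⁻¹ * φ x} = ⊤) (x : X)
    {d : X} (hd : d ∈ DD V H.F.cen) : ⁅x, d⁆ * ⁅a x, d⁆ * ⁅a (a x), d⁆ = 1 := by
  have F := H.F
  have ha := H.ha
  have hV : ∀ z : X, ⁅z, d⁆ ∈ V := fun z => com_DD_right _ hd z
  have hmul : ∀ x y : X, ⁅x * y, d⁆ * ⁅a (x * y), d⁆ * ⁅a (a (x * y)), d⁆ =
      (⁅x, d⁆ * ⁅a x, d⁆ * ⁅a (a x), d⁆) * (⁅y, d⁆ * ⁅a y, d⁆ * ⁅a (a y), d⁆) := by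
    intro x y
    simp only [map_mul]
    rw [com_mul_D _ hd, com_mul_D _ hd, com_mul_D _ hd]
    have c1 : ⁅y, d⁆ * ⁅a x, d⁆ = ⁅a x, d⁆ * ⁅y, d⁆ := F.comm (hV _) (hV _)
    have c2 : ⁅y, d⁆ * ⁅a (a x), d⁆ = ⁅a (a x), d⁆ * ⁅y, d⁆ := F.comm (hV _) (hV _)
    have c3 : ⁅a y, d⁆ * ⁅a (a x), d⁆ = ⁅a (a x), d⁆ * ⁅a y, d⁆ := F.comm (hV _) (hV _)
    calc ⁅x, d⁆ * ⁅y, d⁆ * (⁅a x, d⁆ * ⁅a y, d⁆) * (⁅a (a x), d⁆ * ⁅a (a y), d⁆)
        = ⁅x, d⁆ * (⁅y, d⁆ * ⁅a x, d⁆) * ⁅a y, d⁆ * ⁅a (a x), d⁆ * ⁅a (a y), d⁆ := by group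
      _ = ⁅x, d⁆ * ⁅a x, d⁆ * ⁅y, d⁆ * (⁅a y, d⁆ * ⁅a (a x), d⁆) * ⁅a (a y), d⁆ := by rw [c1]; group
      _ = ⁅x, d⁆ * ⁅a x, d⁆ * (⁅y, d⁆ * ⁅a (a x), d⁆) * ⁅a y, d⁆ * ⁅a (a y), d⁆ := by rw [c3]; group
      _ = _ := by rw [c2]; group
  have hinv : ∀ x : X, ⁅x⁻¹, d⁆ * ⁅a x⁻¹, d⁆ * ⁅a (a x⁻¹), d⁆ = ⁅x, d⁆ * ⁅a x, d⁆ * ⁅a (a x), d⁆ := by
    intro x
    simp only [map_inv]
    rw [H.com_inv_D hd, H.com_inv_D hd, H.com_inv_D hd]
  have hfx : ∀ φ ∈ A, ∀ x : X, ⁅φ x, d⁆ * ⁅a (φ x), d⁆ * ⁅a (a (φ x)), d⁆ =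
      ⁅x, d⁆ * ⁅a x, d⁆ * ⁅a (a x), d⁆ := by
    intro φ hφ x
    have haa : a * a ∈ A := A.mul_mem ha ha
    have hap : a * φ ∈ A := A.mul_mem ha hφ
    have haap : a * (a * φ) ∈ A := A.mul_mem ha hap
    rcases H.pw φ hφ with hc | hc | hc
    · have e1 := H.com_agree hE hab hφ A.one_mem (fun v hv => by rw [hc v hv]; rfl) x hd
      have e2 := H.com_agree hE hab hap ha (fun v hv => by
        rw [MulAut.mul_apply, hc v hv]) x hd
      have e3 := H.com_agree hE hab haap haa (fun v hv => by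
        rw [MulAut.mul_apply, MulAut.mul_apply, MulAut.mul_apply, hc v hv]) x hd
      simp only [MulAut.mul_apply, MulAut.one_apply] at e1 e2 e3
      rw [e1, e2, e3]
    · have e1 := H.com_agree hE hab hφ ha (fun v hv => hc v hv) x hd
      have e2 := H.com_agree hE hab hap haa (fun v hv => by
        rw [MulAut.mul_apply, MulAut.mul_apply, hc v hv]) x hd
      have e3 := H.com_agree hE hab haap A.one_mem (fun v hv => by
        rw [MulAut.mul_apply, MulAut.mul_apply, hc v hv, F.a3 hv]; rfl) x hd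
      simp only [MulAut.mul_apply, MulAut.one_apply] at e1 e2 e3
      rw [e1, e2, e3, F.cen _ (hV x)]
      group
    · have e1 := H.com_agree hE hab hφ haa (fun v hv => by
        rw [MulAut.mul_apply, hc v hv]) x hd
      have e2 := H.com_agree hE hab hap A.one_mem (fun v hv => by
        rw [MulAut.mul_apply, hc v hv, F.a3 hv]; rfl) x hd
      have e3 := H.com_agree hE hab haap ha (fun v hv => by
        rw [MulAut.mul_apply, MulAut.mul_apply, hc v hv, F.a3 (F.inv v hv)]) x hd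
      simp only [MulAut.mul_apply, MulAut.one_apply] at e1 e2 e3
      rw [e1, e2, e3, mul_assoc, (F.cen _ (hV (a (a x))) _).symm]
  refine closure_all hXA (P := fun x => ⁅x, d⁆ * ⁅a x, d⁆ * ⁅a (a x), d⁆ = 1) ?_ ?_ ?_ ?_ x
  · simp [comm_eq]
  · intro x y hx hy
    rw [hmul, hx, hy, one_mul]
  · intro x hx
    rw [hinv, hx]
  · intro φ hφ x
    rw [hmul, hinv, hfx φ hφ]
    exact F.mul_self (V.mul_mem (V.mul_mem (hV _) (hV _)) (hV _))

/-- A commutator map with `D` is injective modulo `V` or trivial. -/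
theorem inj_mod (hXA : Subgroup.closure {g : X | ∃ φ ∈ A, ∃ x : X, g = x⁻¹ * φ x} = ⊤) (x : X)
    {d : X} (hd : d ∈ DD V H.F.cen) (hdV : d ∉ V) (h1 : ⁅x, d⁆ = 1) {e : X}
    (he : e ∈ DD V H.F.cen) : ⁅x, e⁆ = 1 := by
  have F := H.F
  have hd1 := H.D_map H.ha hd
  have hd2 := H.D_map H.ha hd1
  have hcomV : ∀ {y z : X}, z ∈ V → ⁅y, z⁆ = 1 := by
    intro y z hz
    rw [comm_eq, F.cen _ hz y]
    group
  have hp := H.D_prod hE hab hd
  have h2 : ⁅x, d * a d * a (a d)⁆ = 1 := hcomV hp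
  rw [com_D_mul H.F.cen hd2, com_D_mul H.F.cen hd1, h1, one_mul] at h2
  have hwV : ⁅x, a d⁆ ∈ V := com_DD_right _ hd1 x
  have h3 : ⁅x, a (a d)⁆ = ⁅x, a d⁆ := by
    calc ⁅x, a (a d)⁆ = (⁅x, a d⁆ * ⁅x, a d⁆) * ⁅x, a (a d)⁆ := by rw [F.mul_self hwV, one_mul]
      _ = ⁅x, a d⁆ * (⁅x, a d⁆ * ⁅x, a (a d)⁆) := by group
      _ = ⁅x, a d⁆ := by rw [h2, mul_one]
  have hT := H.T_eq hE hab hXA x hd2
  have e1 : ⁅a x, a (a d)⁆ = a ⁅x, a d⁆ := (comm_map a x (a d)).symm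
  have e2 : ⁅a (a x), a (a d)⁆ = a (a ⁅x, d⁆) := by rw [comm_map, comm_map]
  rw [e1, e2, h1, map_one, map_one, mul_one, h3] at hT
  have hw : ⁅x, a d⁆ = 1 := by
    refine F.fp _ hwV ?_
    calc a ⁅x, a d⁆ = ⁅x, a d⁆ * (⁅x, a d⁆ * a ⁅x, a d⁆) := by
          rw [← mul_assoc, F.mul_self hwV, one_mul]
      _ = ⁅x, a d⁆ := by rw [hT, mul_one]
  have hw2 : ⁅x, a (a d)⁆ = 1 := h3.trans hw
  rcases H.D_cases hE hab hd hdV he with h | h | h | h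
  · exact hcomV h
  · have := hcomV (y := x) h
    rwa [com_D_mul H.F.cen hd, h1, mul_one] at this
  · have := hcomV (y := x) h
    rwa [com_D_mul H.F.cen hd1, hw, mul_one] at this
  · have := hcomV (y := x) h
    rwa [com_D_mul H.F.cen hd2, hw2, mul_one] at this

end ab

end Act

end Cfsg.Agent.H06.Sc
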