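import Mathlib
import Cfsg.Agent.Lib.H06.Sc10

/-! A maximal invariant normal abelian subgroup is self-centralizing. -/

set_option autoImplicit false

namespace Cfsg.Agent.H06.Sc

open scoped commutatorElement

variable {X : Type*} [Group X]

theorem card_ker_mul_range {G H : Type*} [Group G] [Group H] [Finite G] (f : G →* H) :
    Nat.card f.ker * Nat.card f.range = Nat.card G := by
  rw [← Subgroup.index_ker, Subgroup.card_mul_index]

/-- The elements centralizing `Z`, central of exponent 2 modulo `Z`. -/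
def TT (Z : Subgroup X) (hZ : Z.Normal) : Subgroup X where
  carrier := {x | (∀ z ∈ Z, x * z = z * x) ∧ x ^ 2 ∈ Z ∧ ∀ g : X, ⁅x, g⁆ ∈ Z}
  one_mem' := ⟨by simp, by simp [Z.one_mem], fun g => by simp [comm_eq, Z.one_mem]⟩
  mul_mem' := by
    rintro x y ⟨hx, hx2, hxc⟩ ⟨hy, hy2, hyc⟩
    refine ⟨fun z hz => ?_, ?_, fun g => ?_⟩
    · rw [mul_assoc, hy z hz, ← mul_assoc, hx z hz, mul_assoc]
    · have hκ := hyc x
      have hxκ : x * ⁅y, x⁆ = ⁅y, x⁆ * x := hx _ hκ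
      have e : (x * y) ^ 2 = ⁅y, x⁆ * x ^ 2 * y ^ 2 := by
        have e1 : y * x = ⁅y, x⁆ * x * y := by simp only [comm_eq]; group
        calc (x * y) ^ 2 = x * (y * x) * y := by rw [pow_two]; group
          _ = x * (⁅y, x⁆ * x * y) * y := by rw [e1]
          _ = (x * ⁅y, x⁆) * x * y * y := by simp only [mul_assoc]
          _ = (⁅y, x⁆ * x) * x * y * y := by rw [hxκ]
          _ = _ := by simp only [pow_two, mul_assoc]
      rw [e]
      exact Z.mul_mem (Z.mul_mem hκ hx2) hy2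
    · rw [comm_mul_left']
      exact Z.mul_mem (hZ.conj_mem _ (hyc g) x) (hxc g)
  inv_mem' := by
    rintro x ⟨hx, hx2, hxc⟩
    refine ⟨fun z hz => ?_, by simpa using Z.inv_mem hx2, fun g => ?_⟩
    · have := hx z hz
      calc x⁻¹ * z = x⁻¹ * (z * x) * x⁻¹ := by group
        _ = x⁻¹ * (x * z) * x⁻¹ := by rw [this]
        _ = z * x⁻¹ := by group
    · rw [comm_inv_left']
      have := hZ.conj_mem _ (Z.inv_mem (hxc g)) x⁻¹
      simpa using this

theorem mem_TT {Z : Subgroup X} {hZ : Z.Normal} {x : X} :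
    x ∈ TT Z hZ ↔ (∀ z ∈ Z, x * z = z * x) ∧ x ^ 2 ∈ Z ∧ ∀ g : X, ⁅x, g⁆ ∈ Z := Iff.rfl

theorem TT_normal {Z : Subgroup X} (hZ : Z.Normal) : (TT Z hZ).Normal := ⟨fun x hx g => by
  obtain ⟨hx1, hx2, hx3⟩ := hx
  refine ⟨fun z hz => ?_, ?_, fun k => ?_⟩
  · have h1 := hx1 _ (by simpa using hZ.conj_mem z hz g⁻¹)
    calc g * x * g⁻¹ * z = g * (x * (g⁻¹ * z * g)) * g⁻¹ := by group
      _ = g * ((g⁻¹ * z * g) * x) * g⁻¹ := by rw [h1]
      _ = z * (g * x * g⁻¹) := by group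
  · have : (g * x * g⁻¹) ^ 2 = g * x ^ 2 * g⁻¹ := by simp only [pow_two]; group
    rw [this]
    exact hZ.conj_mem _ hx2 g
  · rw [comm_conj_left]
    exact hZ.conj_mem _ (hx3 _) g⟩

theorem le_TT {Z : Subgroup X} (hZ : Z.Normal) (hc : ∀ a ∈ Z, ∀ b ∈ Z, a * b = b * a) : Z ≤ TT Z hZ := by
  intro z hz
  refine ⟨fun w hw => hc z hz w hw, Z.pow_mem hz 2, fun g => ?_⟩
  have e : ⁅z, g⁆ = z * (g * z⁻¹ * g⁻¹) := by simp only [comm_eq]; group
  rw [e]
  exact Z.mul_mem hz (hZ.conj_mem _ (Z.inv_mem hz) g)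

namespace Act

variable {V : Subgroup X} {a : MulAut X} {A : Subgroup (MulAut X)} (H : Act V a A)
include H

theorem TT_map {Z : Subgroup X} {hZ : Z.Normal} (hZA : ∀ φ ∈ A, ∀ z ∈ Z, φ z ∈ Z) {φ : MulAut X}
    (hφ : φ ∈ A) {x : X} (hx : x ∈ TT Z hZ) : φ x ∈ TT Z hZ := by
  obtain ⟨h1, h2, h3⟩ := hx
  refine ⟨fun z hz => ?_, ?_, fun g => ?_⟩
  · have := h1 (φ⁻¹ z) (hZA _ (A.inv_mem hφ) z hz)
    have h4 := congrArg φ this
    simpa using h4
  · rw [← map_pow]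
    exact hZA φ hφ _ h2
  · rw [comm_map']
    exact hZA φ hφ _ (h3 _)

variable [Finite X] (hX : IsPGroup 2 X) (hE : NoE8 X)
include hX hE

theorem Om1 {Z : Subgroup X} (hZ : Z.Normal) (hc : ∀ a ∈ Z, ∀ b ∈ Z, a * b = b * a) (hVZ : V ≤ Z)
    {t : X} (ht : t ∈ Z) (ht2 : t ^ 2 = 1) : t ∈ V := by
  have hle : V ≤ omega1 Z hc := fun v hv => ⟨hVZ hv, H.F.el v hv⟩
  have h4 := card_le_four hX hE (omega1 Z hc) (omega1_normal hZ hc)
    (fun a ha b hb => hc a ha.1 b hb.1) (fun a ha => ha.2)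
  have heq : V = omega1 Z hc := Subgroup.eq_of_le_of_card_ge hle (by rw [H.F.card]; exact h4)
  rw [heq]
  exact ⟨ht, ht2⟩

theorem Om2 {Z : Subgroup X} (hZ : Z.Normal) (hc : ∀ a ∈ Z, ∀ b ∈ Z, a * b = b * a) (hVZ : V ≤ Z)
    {w : X} (hw : w ∈ Z) (h4 : w ^ 4 = 1) : w ∈ DD V H.F.cen := by
  have F := H.F
  have hw2 : w ^ 2 ∈ V := H.Om1 hX hE hZ hc hVZ (Z.pow_mem hw 2) (by rw [← pow_mul]; exact h4)
  refine ⟨hw2, fun g => ?_⟩
  have hδ : ⁅w, g⁆ ∈ Z := (le_TT hZ hc hw).2.2 g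
  refine H.Om1 hX hE hZ hc hVZ hδ ?_
  have h1 : ⁅w * w, g⁆ = 1 := by
    rw [← pow_two, comm_eq, ← F.cen _ hw2 g]
    group
  rw [comm_mul_left'] at h1
  have h2 : w * ⁅w, g⁆ * w⁻¹ = ⁅w, g⁆ := by
    rw [hc w hw _ hδ]
    group
  rw [h2] at h1
  rw [pow_two]
  exact h1

/-- The power map on an invariant normal abelian subgroup. -/
theorem exists_pi {Z : Subgroup X} (hZ : Z.Normal) (hc : ∀ a ∈ Z, ∀ b ∈ Z, a * b = b * a) (hVZ : V ≤ Z)
    (hZa : ∀ z ∈ Z, a z ∈ Z) {u : X} (hu : u ∈ Z) (hu2 : u ^ 2 ≠ 1) :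
    ∃ k : ℕ, (∀ w ∈ Z, w ^ (2 ^ (k + 1)) ∈ V) ∧ (∀ w ∈ Z, w ^ (2 ^ (k + 1)) = 1 → ∃ f ∈ Z, w = f ^ 2) ∧
      (∀ w ∈ Z, w ^ (2 ^ (k + 2)) = 1) := by
  classical
  have F := H.F
  have hex : ∃ n : ℕ, ∀ w ∈ Z, w ^ (2 ^ n) = 1 := by
    obtain ⟨N, hN⟩ := (IsPGroup.iff_card (p := 2)).mp hX
    haveI : Fact (Nat.Prime 2) := ⟨Nat.prime_two⟩
    refine ⟨N, fun w _ => ?_⟩
    rw [← hN]
    exact pow_card_eq_one'
  have hspec := Nat.find_spec hex
  obtain ⟨k, hk⟩ : ∃ k, Nat.find hex = k + 2 := by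
    have h0 : Nat.find hex ≠ 0 := by
      intro h
      rw [h] at hspec
      have := hspec u hu
      simp only [pow_zero, pow_one] at this
      rw [this] at hu2
      simp at hu2
    have h1 : Nat.find hex ≠ 1 := by
      intro h
      rw [h] at hspec
      exact hu2 (by simpa using hspec u hu)
    exact ⟨Nat.find hex - 2, by omega⟩
  rw [hk] at hspec
  have hmin := Nat.find_min hex (m := k + 1) (by omega)
  push Not at hmin
  obtain ⟨w₀, hw₀, hw₀m⟩ := hmin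
  set m := 2 ^ (k + 1) with hm
  have hm2 : m * 2 = 2 ^ (k + 2) := by rw [hm]; ring
  have hV : ∀ w ∈ Z, w ^ m ∈ V := by
    intro w hw
    refine H.Om1 hX hE hZ hc hVZ (Z.pow_mem hw m) ?_
    rw [← pow_mul, hm2]
    exact hspec w hw
  refine ⟨k, hV, ?_, hspec⟩
  -- counting
  letI cg : CommGroup Z :=
    { (inferInstance : Group Z) with
      mul_comm := fun a b => Subtype.ext (hc a.1 a.2 b.1 b.2) }
  let f : Z →* Z := powMonoidHom 2
  let g : Z →* Z := powMonoidHom m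
  have hfker : Nat.card f.ker = 4 := by
    have hmap : f.ker.map Z.subtype = V := by
      ext v
      constructor
      · rintro ⟨z, hz, rfl⟩
        have hz' : z ^ 2 = 1 := hz
        refine H.Om1 hX hE hZ hc hVZ z.2 ?_
        exact congrArg Subtype.val hz'
      · intro hv
        exact ⟨⟨v, hVZ hv⟩, Subtype.ext (F.el v hv), rfl⟩
    have h1 : Nat.card (f.ker.map Z.subtype) = Nat.card f.ker :=
      Subgroup.card_map_of_injective Z.subtype_injective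
    rw [hmap, F.card] at h1
    exact h1.symm
  have hgrange : Nat.card g.range = 4 := by
    have hmemw : ∀ w (hw : w ∈ Z), w ^ m ∈ g.range.map Z.subtype := fun w hw =>
      ⟨g ⟨w, hw⟩, ⟨_, rfl⟩, rfl⟩
    have hmap : g.range.map Z.subtype = V := by
      apply le_antisymm
      · rintro _ ⟨_, ⟨z, rfl⟩, rfl⟩
        exact hV z.1 z.2
      · intro v hv
        have hk₁ := hV w₀ hw₀
        rcases F.cases hk₁ hw₀m hv with h1 | h1 | h1 | h1
        · rw [h1]; exact Subgroup.one_mem _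
        · rw [h1]; exact hmemw _ hw₀
        · rw [h1, map_pow]; exact hmemw _ (hZa _ hw₀)
        · rw [h1, map_pow]; exact Subgroup.mul_mem _ (hmemw _ hw₀) (hmemw _ (hZa _ hw₀))
    have h1 : Nat.card (g.range.map Z.subtype) = Nat.card g.range :=
      Subgroup.card_map_of_injective Z.subtype_injective
    rw [hmap, F.card] at h1
    exact h1.symm
  have hle : f.range ≤ g.ker := by
    rintro _ ⟨z, rfl⟩
    rw [MonoidHom.mem_ker]
    apply Subtype.ext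
    have e : (g (f z)).1 = (z.1 ^ 2) ^ m := rfl
    rw [e, ← pow_mul, mul_comm, hm2]
    exact hspec z.1 z.2
  have hcard : Nat.card g.ker ≤ Nat.card f.range := by
    have h1 := card_ker_mul_range f
    have h2 := card_ker_mul_range g
    rw [hfker] at h1
    rw [hgrange] at h2
    omega
  have heq : f.range = g.ker := Subgroup.eq_of_le_of_card_ge hle hcard
  intro w hw hwm
  have hmem : (⟨w, hw⟩ : Z) ∈ g.ker := by
    rw [MonoidHom.mem_ker]
    exact Subtype.ext hwm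
  rw [← heq] at hmem
  obtain ⟨z, hz⟩ := hmem
  refine ⟨z.1, z.2, ?_⟩
  have := congrArg Subtype.val hz
  exact this.symm

/-- A maximal invariant abelian normal subgroup with the power map contains `T`. -/
theorem T_le {Z : Subgroup X} (hZ : Z.Normal) (hc : ∀ a ∈ Z, ∀ b ∈ Z, a * b = b * a) (hVZ : V ≤ Z)
    (hZA : ∀ φ ∈ A, ∀ z ∈ Z, φ z ∈ Z)
    (hmax : ∀ W : Subgroup X, W.Normal → (∀ φ ∈ A, ∀ w ∈ W, φ w ∈ W) → (∀ x ∈ W, ∀ y ∈ W, x * y = y * x) →
      Z ≤ W → W = Z) {k : ℕ} (hπ : ∀ w ∈ Z, w ^ (2 ^ (k + 1)) ∈ V)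
    (hker : ∀ w ∈ Z, w ^ (2 ^ (k + 1)) = 1 → ∃ f ∈ Z, w = f ^ 2) {e : X} (he : e ∈ TT Z hZ) : e ∈ Z := by
  by_contra heZ
  have F := H.F
  set m := 2 ^ (k + 1) with hm
  have hVn : V.Normal := ⟨fun v hv k => by rw [F.cen v hv k]; simpa using hv⟩
  have hom1 : ∀ {t : X}, t ∈ Z → t ^ 2 = 1 → t ∈ V := fun ht ht2 => H.Om1 hX hE hZ hc hVZ ht ht2
  have hZT := le_TT hZ hc
  have hcom : ∀ x ∈ TT Z hZ, ∀ y ∈ TT Z hZ, ⁅x, y⁆ ∈ V := by
    intro x hx y hy
    have κZ := hx.2.2 y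
    refine hom1 κZ ?_
    have h1 : ⁅x, y * y⁆ = 1 := by
      rw [commutatorElement_eq_one_iff_mul_comm]
      exact hx.1 _ (by rw [← pow_two]; exact hy.2.1)
    rw [comm_mul_right'] at h1
    have h2 : y * ⁅x, y⁆ * y⁻¹ = ⁅x, y⁆ := by
      rw [hy.1 _ κZ]
      group
    rw [h2] at h1
    rw [pow_two]
    exact h1
  have hcz : ∀ x ∈ TT Z hZ, ∀ z ∈ Z, ⁅x, z⁆ = 1 := fun x hx z hz =>
    commutatorElement_eq_one_iff_mul_comm.mpr (hx.1 z hz)
  have hbilR : ∀ x ∈ TT Z hZ, ∀ y, ∀ z ∈ TT Z hZ, ⁅x, y * z⁆ = ⁅x, y⁆ * ⁅x, z⁆ := by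
    intro x hx y z hz
    exact comm_mul_right x y z (fun g => F.cen _ (hcom x hx z hz) g)
  have κpow : ∀ κ ∈ V, κ ^ m = 1 := by
    intro κ hκ
    rw [hm, pow_succ', pow_mul, F.el κ hκ, one_pow]
  let S : X → X := fun x => (x ^ 2) ^ m
  have hSV : ∀ x ∈ TT Z hZ, S x ∈ V := fun x hx => hπ _ hx.2.1
  have hSmul : ∀ x ∈ TT Z hZ, ∀ y ∈ TT Z hZ, S (x * y) = S x * S y := by
    intro x hx y hy
    have hκ := hcom y hy x hx
    simp only [S]
    rw [Sc.sq_mul x y (fun g => F.cen _ hκ g)]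
    have c1 : Commute ⁅y, x⁆ (x ^ 2) := hc _ (hVZ hκ) _ hx.2.1
    have c2 : Commute (⁅y, x⁆ * x ^ 2) (y ^ 2) := hc _ (Z.mul_mem (hVZ hκ) hx.2.1) _ hy.2.1
    rw [c2.mul_pow, c1.mul_pow, κpow _ hκ, one_mul]
  have hSa : ∀ x, S (a x) = a (S x) := by
    intro x
    simp only [S, map_pow]
  have hSinv : ∀ y, S y⁻¹ = (S y)⁻¹ := by
    intro y
    simp only [S, inv_pow]
  have hSker : ∀ x ∈ TT Z hZ, S x = 1 → x ∈ Z := by
    intro x hx hSx
    obtain ⟨f, hf, hxf⟩ := hker _ hx.2.1 hSx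
    have hfT := hZT hf
    have ht2 : (x * f⁻¹) ^ 2 = 1 := by
      have c : x * f⁻¹ = f⁻¹ * x := hx.1 _ (Z.inv_mem hf)
      calc (x * f⁻¹) ^ 2 = x * (f⁻¹ * x) * f⁻¹ := by simp only [pow_two]; group
        _ = x * (x * f⁻¹) * f⁻¹ := by rw [c]
        _ = x ^ 2 * (f ^ 2)⁻¹ := by simp only [pow_two]; group
        _ = 1 := by rw [hxf]; group
    have htT : x * f⁻¹ ∈ TT Z hZ := Subgroup.mul_mem _ hx (Subgroup.inv_mem _ hfT)
    have htV : x * f⁻¹ ∈ V := by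
      by_contra htV
      refine no_ext4 hE hVn F.card (fun _ h _ h' => F.comm h h') F.el htV ht2
        (fun k hk => F.cen k hk _) (fun g => ?_)
      set t := x * f⁻¹ with ht
      have e1 : g * t * g⁻¹ * t⁻¹ = ⁅t, g⁆⁻¹ := by simp only [comm_eq]; group
      have hδZ : g * t * g⁻¹ * t⁻¹ ∈ Z := by
        rw [e1]
        exact Z.inv_mem (htT.2.2 g)
      refine hom1 hδZ ?_
      set δ := g * t * g⁻¹ * t⁻¹ with hδ
      have e2 : g * t * g⁻¹ = δ * t := by rw [hδ]; group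
      have h3 : (g * t * g⁻¹) ^ 2 = 1 := by
        have : (g * t * g⁻¹) ^ 2 = g * t ^ 2 * g⁻¹ := by simp only [pow_two]; group
        rw [this, ht2]
        group
      rw [e2] at h3
      have c : t * δ = δ * t := htT.1 _ hδZ
      have h4 : (δ * t) ^ 2 = δ ^ 2 * t ^ 2 := by
        calc (δ * t) ^ 2 = δ * (t * δ) * t := by simp only [pow_two]; group
          _ = δ * (δ * t) * t := by rw [c]
          _ = δ ^ 2 * t ^ 2 := by simp only [pow_two]; group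
      rw [h4, ht2, mul_one] at h3
      exact h3
    have : x = (x * f⁻¹) * f := by group
    rw [this]
    exact Z.mul_mem (hVZ htV) hf
  have ha := H.ha
  have hE₂ : a e ∈ TT Z hZ := H.TT_map hZA ha he
  have hE₃ : a (a e) ∈ TT Z hZ := H.TT_map hZA ha hE₂
  have hk' : S e ∈ V := hSV e he
  have hk'1 : S e ≠ 1 := fun h => heZ (hSker e he h)
  have hz₁ : e * a e * a (a e) ∈ Z := by
    refine hSker _ (Subgroup.mul_mem _ (Subgroup.mul_mem _ he hE₂) hE₃) ?_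
    rw [hSmul _ (Subgroup.mul_mem _ he hE₂) _ hE₃, hSmul _ he _ hE₂, hSa, hSa, hSa]
    exact F.prod3 hk'
  have hκV := hcom e he _ hE₂
  -- commuting
  have h1 : ⁅e, a e⁆ = 1 := by
    have h2 := hcz _ hE₂ _ hz₁
    rw [hbilR _ hE₂ _ _ hE₃, hbilR _ hE₂ _ _ hE₂, commutatorElement_self, mul_one,
      ← comm_map a e (a e)] at h2
    refine F.fp _ hκV ?_
    have e3 : ⁅a e, e⁆ = ⁅e, a e⁆⁻¹ := by simp only [comm_eq]; group
    rw [e3] at h2
    exact (inv_mul_eq_one.mp h2).symm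
  have h2 : ⁅a e, a (a e)⁆ = 1 := by
    rw [← comm_map, h1, map_one]
  have h3 : ⁅e, a (a e)⁆ = 1 := by
    have h4 := hcz _ he _ hz₁
    rw [hbilR _ he _ _ hE₃, hbilR _ he _ _ hE₂, commutatorElement_self, one_mul, h1, one_mul] at h4
    exact h4
  have c12 := commutatorElement_eq_one_iff_mul_comm.mp h1
  have c23 := commutatorElement_eq_one_iff_mul_comm.mp h2
  have c13 := commutatorElement_eq_one_iff_mul_comm.mp h3
  -- the decomposition
  have hdec : ∀ x ∈ TT Z hZ, x ∈ Z ∨ x * e⁻¹ ∈ Z ∨ x * (a e)⁻¹ ∈ Z ∨ x * (a (a e))⁻¹ ∈ Z := by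
    intro x hx
    by_cases hxZ : x ∈ Z
    · exact Or.inl hxZ
    right
    have hSx : S x ≠ 1 := fun h => hxZ (hSker x hx h)
    have key : ∀ b ∈ TT Z hZ, S x = S b → x * b⁻¹ ∈ Z := by
      intro b hb hxb
      refine hSker _ (Subgroup.mul_mem _ hx (Subgroup.inv_mem _ hb)) ?_
      rw [hSmul _ hx _ (Subgroup.inv_mem _ hb), hSinv, hxb]
      group
    rcases F.cases3 hk' hk'1 (hSV x hx) hSx with h | h | h
    · exact Or.inl (key _ he h)
    · exact Or.inr (Or.inl (key _ hE₂ (by rw [hSa, h])))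
    · exact Or.inr (Or.inr (key _ hE₃ (by rw [hSa, hSa, h])))
  have hcomm : ∀ c ∈ TT Z hZ, c * e = e * c → c * a e = a e * c → c * a (a e) = a (a e) * c →
      ∀ x ∈ TT Z hZ, x * c = c * x := by
    intro c hcT hc1 hc2 hc3 x hx
    have key : ∀ b : X, c * b = b * c → x * b⁻¹ ∈ Z → x * c = c * x := by
      intro b hb hxb
      have e1 : x = (x * b⁻¹) * b := by group
      have h5 := hcT.1 _ hxb
      rw [e1]
      calc (x * b⁻¹) * b * c = (x * b⁻¹) * (c * b) := by rw [mul_assoc, hb]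
        _ = ((x * b⁻¹) * c) * b := by group
        _ = (c * (x * b⁻¹)) * b := by rw [h5]
        _ = _ := by group
    rcases hdec x hx with h | h | h | h
    · exact (hcT.1 x h).symm
    · exact key _ hc1 h
    · exact key _ hc2 h
    · exact key _ hc3 h
  have hab : ∀ x ∈ TT Z hZ, ∀ y ∈ TT Z hZ, x * y = y * x := by
    intro x hx y hy
    refine hcomm y hy ?_ ?_ ?_ x hx
    · exact hcomm e he rfl c12 c13 y hy
    · exact hcomm _ hE₂ c12.symm rfl c23 y hy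
    · exact hcomm _ hE₃ c13.symm c23.symm rfl y hy
  have := hmax _ (TT_normal hZ) (fun φ hφ w hw => H.TT_map hZA hφ hw) hab hZT
  rw [this] at he
  exact heZ he

/-- self-centralizing -/
theorem self_cent {Z : Subgroup X} (hZ : Z.Normal) (hc : ∀ a ∈ Z, ∀ b ∈ Z, a * b = b * a)
    (hT : ∀ e ∈ TT Z hZ, e ∈ Z) {x : X} (hx : ∀ z ∈ Z, x * z = z * x) : x ∈ Z := by
  haveI := hZ
  have hEn : (Subgroup.centralizer (Z : Set X)).Normal := inferInstance
  have hle : Z ≤ Subgroup.centralizer (Z : Set X) := by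
    intro z hz
    rw [Subgroup.mem_centralizer_iff]
    exact fun w hw => hc w hw z hz
  have heq : Z = Subgroup.centralizer (Z : Set X) := by
    by_contra hne
    obtain ⟨e, heE, heZ, hec, he2⟩ := exists_central_inv hX hZ hEn hle hne
    refine heZ (hT e ⟨fun z hz => (Subgroup.mem_centralizer_iff.mp heE z hz).symm, he2, fun g => ?_⟩)
    have e1 : ⁅e, g⁆ = (g * e * g⁻¹ * e⁻¹)⁻¹ := by simp only [comm_eq]; group
    rw [e1]
    exact Z.inv_mem (hec g)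
  rw [heq, Subgroup.mem_centralizer_iff]
  exact fun z hz => (hx z hz).symm

end Act

end Cfsg.Agent.H06.Sc
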