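import Mathlib
import Cfsg.Agent.Lib.H06.Sc11

/-! The end of the case where `D` has a central element outside `V`. -/

set_option autoImplicit false

namespace Cfsg.Agent.H06.Sc

open scoped commutatorElement

variable {X : Type*} [Group X]

/-- Central of exponent 2 modulo `Z`. -/
def LL (Z : Subgroup X) (hZ : Z.Normal) : Subgroup X where
  carrier := {x | x ^ 2 ∈ Z ∧ ∀ g : X, ⁅x, g⁆ ∈ Z}
  one_mem' := ⟨by simp [Z.one_mem], fun g => by simp [comm_eq, Z.one_mem]⟩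
  mul_mem' := by
    rintro x y ⟨hx2, hxc⟩ ⟨hy2, hyc⟩
    refine ⟨?_, fun g => ?_⟩
    · have e : (x * y) ^ 2 = (x * ⁅y, x⁆ * x⁻¹) * x ^ 2 * y ^ 2 := by
        simp only [comm_eq, pow_two]; group
      rw [e]
      exact Z.mul_mem (Z.mul_mem (hZ.conj_mem _ (hyc x) x) hx2) hy2
    · rw [comm_mul_left']
      exact Z.mul_mem (hZ.conj_mem _ (hyc g) x) (hxc g)
  inv_mem' := by
    rintro x ⟨hx2, hxc⟩
    refine ⟨by simpa using Z.inv_mem hx2, fun g => ?_⟩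
    rw [comm_inv_left']
    have := hZ.conj_mem _ (Z.inv_mem (hxc g)) x⁻¹
    simpa using this

theorem mem_LL {Z : Subgroup X} {hZ : Z.Normal} {x : X} :
    x ∈ LL Z hZ ↔ x ^ 2 ∈ Z ∧ ∀ g : X, ⁅x, g⁆ ∈ Z := Iff.rfl

section tau

variable {Z : Subgroup X} (hZ : Z.Normal) (hc : ∀ a ∈ Z, ∀ b ∈ Z, a * b = b * a)
include hZ

theorem comZ (x : X) {e : X} (he : e ∈ Z) : ⁅x, e⁆ ∈ Z := by
  have e1 : ⁅x, e⁆ = (x * e * x⁻¹) * e⁻¹ := rfl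
  rw [e1]
  exact Z.mul_mem (hZ.conj_mem e he x) (Z.inv_mem he)

include hc

theorem tau_mul (x : X) {e e' : X} (he : e ∈ Z) (he' : e' ∈ Z) : ⁅x, e * e'⁆ = ⁅x, e⁆ * ⁅x, e'⁆ := by
  rw [comm_mul_right', hc e he _ (comZ hZ x he')]
  group

theorem tau_sq (x : X) {e : X} (he : e ∈ Z) : ⁅x, e ^ 2⁆ = ⁅x, e⁆ ^ 2 := by
  rw [pow_two, pow_two, tau_mul hZ hc x he he]

theorem tau_inv (x : X) {e : X} (he : e ∈ Z) : ⁅x, e⁻¹⁆ = ⁅x, e⁆⁻¹ := by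
  have h1 := tau_mul hZ hc x he (Z.inv_mem he)
  rw [mul_inv_cancel] at h1
  have h2 : ⁅x, (1 : X)⁆ = 1 := by simp [comm_eq]
  rw [h2] at h1
  exact eq_inv_of_mul_eq_one_right h1.symm

theorem tau_tau {x e : X} (hx : x ∈ LL Z hZ) (he : e ∈ Z) : ⁅x, ⁅x, e⁆⁆ = (⁅x, e⁆ ^ 2)⁻¹ := by
  have h1 : x ^ 2 * e = e * x ^ 2 := hc _ hx.1 _ he
  have h2 : x * ⁅x, e⁆ * x⁻¹ = ⁅x, e⁆⁻¹ := by
    calc x * ⁅x, e⁆ * x⁻¹ = (x ^ 2 * e) * x⁻¹ * e⁻¹ * x⁻¹ := by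
          simp only [comm_eq, pow_two]; group
      _ = (e * x ^ 2) * x⁻¹ * e⁻¹ * x⁻¹ := by rw [h1]
      _ = ⁅x, e⁆⁻¹ := by simp only [comm_eq, pow_two]; group
  rw [comm_eq x ⁅x, e⁆, h2, pow_two]
  group

end tau

theorem exists_root [Finite X] {Z : Subgroup X} (hZ : Z.Normal) (hc : ∀ a ∈ Z, ∀ b ∈ Z, a * b = b * a)
    (y : X) (h1 : ∀ u ∈ Z, y⁻¹ * u * y * u = 1 ↔ u ^ 2 = 1)
    (h2 : ∀ u ∈ Z, ∃ f ∈ Z, y⁻¹ * u * y * u = f ^ 2) {f : X} (hf : f ∈ Z) :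
    ∃ u ∈ Z, y⁻¹ * u * y * u = f ^ 2 := by
  classical
  letI cg : CommGroup Z :=
    { (inferInstance : Group Z) with
      mul_comm := fun a b => Subtype.ext (hc a.1 a.2 b.1 b.2) }
  let sq : Z →* Z := powMonoidHom 2
  have hconj : ∀ u ∈ Z, y⁻¹ * u * y ∈ Z := fun u hu => by
    simpa using hZ.conj_mem u hu y⁻¹
  let ψ : Z →* Z :=
    { toFun := fun u => ⟨y⁻¹ * u.1 * y * u.1, Z.mul_mem (hconj _ u.2) u.2⟩
      map_one' := by apply Subtype.ext; simp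
      map_mul' := by
        intro u v
        apply Subtype.ext
        show y⁻¹ * (u.1 * v.1) * y * (u.1 * v.1) = (y⁻¹ * u.1 * y * u.1) * (y⁻¹ * v.1 * y * v.1)
        have c : u.1 * (y⁻¹ * v.1 * y) = (y⁻¹ * v.1 * y) * u.1 := hc _ u.2 _ (hconj _ v.2)
        calc y⁻¹ * (u.1 * v.1) * y * (u.1 * v.1) = (y⁻¹ * u.1 * y) * (y⁻¹ * v.1 * y) * u.1 * v.1 := by group
          _ = (y⁻¹ * u.1 * y) * ((y⁻¹ * v.1 * y) * u.1) * v.1 := by group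
          _ = (y⁻¹ * u.1 * y) * (u.1 * (y⁻¹ * v.1 * y)) * v.1 := by rw [c]
          _ = _ := by group }
  have hker : ψ.ker = sq.ker := by
    ext u
    rw [MonoidHom.mem_ker, MonoidHom.mem_ker]
    constructor
    · intro h
      apply Subtype.ext
      exact (h1 u.1 u.2).mp (congrArg Subtype.val h)
    · intro h
      apply Subtype.ext
      exact (h1 u.1 u.2).mpr (congrArg Subtype.val h)
  have hle : ψ.range ≤ sq.range := by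
    rintro _ ⟨u, rfl⟩
    obtain ⟨g, hg, hg2⟩ := h2 u.1 u.2
    exact ⟨⟨g, hg⟩, Subtype.ext hg2.symm⟩
  have hcard : Nat.card sq.range ≤ Nat.card ψ.range := by
    have e1 := card_ker_mul_range ψ
    have e2 := card_ker_mul_range sq
    rw [hker] at e1
    have hpos : 0 < Nat.card sq.ker := Nat.card_pos
    have : Nat.card sq.ker * Nat.card ψ.range = Nat.card sq.ker * Nat.card sq.range := by
      rw [e1, e2]
    exact (Nat.eq_of_mul_eq_mul_left hpos this).symm.le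
  have heq := Subgroup.eq_of_le_of_card_ge hle hcard
  have hmem : sq ⟨f, hf⟩ ∈ sq.range := ⟨_, rfl⟩
  rw [← heq] at hmem
  obtain ⟨u, hu⟩ := hmem
  exact ⟨u.1, u.2, congrArg Subtype.val hu⟩

namespace Act

variable {V : Subgroup X} {a : MulAut X} {A : Subgroup (MulAut X)} (H : Act V a A)
variable [Finite X] (hX : IsPGroup 2 X) (hE : NoE8 X)
  (hXA : Subgroup.closure {g : X | ∃ φ ∈ A, ∃ x : X, g = x⁻¹ * φ x} = ⊤)
  (hab : ∀ d ∈ DD V H.F.cen, ∀ d' ∈ DD V H.F.cen, d * d' = d' * d)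
  {Z : Subgroup X} (hZ : Z.Normal) (hc : ∀ a ∈ Z, ∀ b ∈ Z, a * b = b * a)
  (hZA : ∀ φ ∈ A, ∀ z ∈ Z, φ z ∈ Z) (hDZ : DD V H.F.cen ≤ Z)
  (hself : ∀ x : X, (∀ z ∈ Z, x * z = z * x) → x ∈ Z)
include H hX hE hXA hab hZ hc hZA hDZ hself

omit hZA hself in
theorem VZ : V ≤ Z := (le_DD H.F.cen H.F.el).trans hDZ

omit hX hE hXA hab hc hDZ hZA hself in
/-- squares of `L` -/
theorem L_map {φ : MulAut X} (hφ : φ ∈ A) (hZA : ∀ φ ∈ A, ∀ z ∈ Z, φ z ∈ Z) {x : X} (hx : x ∈ LL Z hZ) :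
    φ x ∈ LL Z hZ := by
  obtain ⟨h2, h3⟩ := hx
  refine ⟨?_, fun g => ?_⟩
  · rw [← map_pow]
    exact hZA φ hφ _ h2
  · rw [comm_map']
    exact hZA φ hφ _ (h3 _)

omit hZA hself in
theorem claimA {u : X} (hu : u ∈ DD V H.F.cen) (huV : u ∉ V)
    (hsqD : ∀ d ∈ DD V H.F.cen, ∃ e ∈ Z, d = e ^ 2) {x : X} (hx : x ∈ LL Z hZ)
    {d₁ : X} (hd₁ : d₁ ∈ DD V H.F.cen) : ⁅x, d₁⁆ = 1 := by
  by_contra hne
  have F := H.F
  have hVZ := H.VZ hX hE hXA hab hZ hc hDZ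
  have hinj : ∀ d ∈ DD V H.F.cen, d ∉ V → ⁅x, d⁆ ≠ 1 := fun d hd hdV h =>
    hne (H.inj_mod hE hab hXA x hd hdV h hd₁)
  have key : ∀ d ∈ DD V H.F.cen, ⁅x, d⁆ = d ^ 2 := by
    intro d hd
    obtain ⟨e, he, rfl⟩ := hsqD d hd
    set δ := ⁅x, e⁆ with hδ
    have hδZ : δ ∈ Z := comZ hZ x he
    have h1 : ⁅x, e ^ 2⁆ = δ ^ 2 := tau_sq hZ hc x he
    have hv : δ ^ 2 ∈ V := h1 ▸ com_DD_right _ hd x
    have h4 : δ ^ 4 = 1 := by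
      have := F.el _ hv
      rw [← pow_mul] at this
      exact this
    have hδD : δ ∈ DD V H.F.cen := H.Om2 hX hE hZ hc hVZ hδZ h4
    have h2 : ⁅x, δ⁆ = (δ ^ 2)⁻¹ := tau_tau hZ hc hx he
    have h2' : (δ ^ 2)⁻¹ = δ ^ 2 := by
      have := F.mul_self hv
      exact inv_eq_of_mul_eq_one_left this
    have hdi : (e ^ 2)⁻¹ ∈ DD V H.F.cen := Subgroup.inv_mem _ hd
    have h3 : ⁅x, δ * (e ^ 2)⁻¹⁆ = 1 := by
      rw [com_D_mul H.F.cen hdi, h2, h2', tau_inv hZ hc x (Z.pow_mem he 2), h1]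
      group
    have hvδ : δ * (e ^ 2)⁻¹ ∈ V := by
      by_contra hcon
      exact hinj _ (Subgroup.mul_mem _ hδD hdi) hcon h3
    have h5 : δ = (δ * (e ^ 2)⁻¹) * e ^ 2 := by group
    have h6 : δ ^ 2 = (e ^ 2) ^ 2 := by
      have c : (δ * (e ^ 2)⁻¹) * e ^ 2 = e ^ 2 * (δ * (e ^ 2)⁻¹) := (F.cen _ hvδ _).symm
      calc δ ^ 2 = ((δ * (e ^ 2)⁻¹) * e ^ 2) ^ 2 := by rw [← h5]
        _ = ((δ * (e ^ 2)⁻¹) * e ^ 2) * ((δ * (e ^ 2)⁻¹) * e ^ 2) := by rw [pow_two]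
        _ = (e ^ 2 * (δ * (e ^ 2)⁻¹)) * ((δ * (e ^ 2)⁻¹) * e ^ 2) := by rw [c]
        _ = e ^ 2 * ((δ * (e ^ 2)⁻¹) * (δ * (e ^ 2)⁻¹)) * e ^ 2 := by group
        _ = e ^ 2 * e ^ 2 := by rw [F.mul_self hvδ]; group
        _ = (e ^ 2) ^ 2 := by rw [pow_two (e ^ 2)]
    rw [h1, h6]
  have hu1 := H.D_map H.ha hu
  have hu2 := H.D_map H.ha hu1
  have hT := H.T_eq hE hab hXA x hu2
  have e1 : ⁅a x, a (a u)⁆ = a ⁅x, a u⁆ := (comm_map a x (a u)).symm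
  have e2 : ⁅a (a x), a (a u)⁆ = a (a ⁅x, u⁆) := by rw [comm_map, comm_map]
  rw [e1, e2, key _ hu2, key _ hu1, key _ hu] at hT
  simp only [map_pow] at hT
  have hw : a (a u) ^ 2 ∈ V := by rw [← map_pow, ← map_pow]; exact F.inv _ (F.inv _ hu.1)
  rw [F.mul_self hw, one_mul] at hT
  apply huV
  refine H.D1 hE hu ?_
  apply a.injective
  apply a.injective
  rw [map_pow, map_pow, hT]
  simp

omit hZA hself hXA hab hDZ in
theorem claimB {x : X} (hx : x ∈ LL Z hZ) (hDZ' : DD V H.F.cen ≤ Z)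
    (hA : ∀ d ∈ DD V H.F.cen, ⁅x, d⁆ = 1) {e : X} (he : e ∈ Z) : ⁅x, e⁆ ∈ V := by
  have F := H.F
  have hVZ : V ≤ Z := (le_DD H.F.cen H.F.el).trans hDZ'
  have key : ∀ n : ℕ, ∀ e ∈ Z, ⁅x, e⁆ ^ (2 ^ n) = 1 → ⁅x, e⁆ ^ 2 = 1 := by
    intro n
    induction n with
    | zero =>
      intro e _ h
      simp only [pow_zero, pow_one] at h
      rw [h, one_pow]
    | succ n ih =>
      intro e he h
      have h1 : ⁅x, e ^ 2⁆ = ⁅x, e⁆ ^ 2 := tau_sq hZ hc x he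
      have h2 := ih (e ^ 2) (Z.pow_mem he 2) (by
        rw [h1, ← pow_mul, ← pow_succ']
        exact h)
      rw [h1, ← pow_mul] at h2
      have hδD : ⁅x, e⁆ ∈ DD V H.F.cen := H.Om2 hX hE hZ hc hVZ (comZ hZ x he) h2
      have h3 := tau_tau hZ hc hx he
      rw [hA _ hδD] at h3
      exact inv_eq_one.mp h3.symm
  obtain ⟨N, hN⟩ := hX ⁅x, e⁆
  exact H.Om1 hX hE hZ hc hVZ (comZ hZ x he) (key N e he hN)

omit hE hXA hab hZA hDZ hself hX in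
theorem tau_of_pi {k : ℕ} (hker : ∀ w ∈ Z, w ^ (2 ^ (k + 1)) = 1 → ∃ f ∈ Z, w = f ^ 2) {x : X}
    (hB : ∀ e ∈ Z, ⁅x, e⁆ ∈ V) {e e' : X} (he : e ∈ Z) (he' : e' ∈ Z)
    (h : e ^ (2 ^ (k + 1)) = e' ^ (2 ^ (k + 1))) : ⁅x, e⁆ = ⁅x, e'⁆ := by
  have c : Commute e e'⁻¹ := hc _ he _ (Z.inv_mem he')
  have h1 : (e * e'⁻¹) ^ (2 ^ (k + 1)) = 1 := by
    rw [c.mul_pow, h, inv_pow]
    group
  obtain ⟨f, hf, hef⟩ := hker _ (Z.mul_mem he (Z.inv_mem he')) h1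
  have h2 : ⁅x, e * e'⁻¹⁆ = 1 := by
    rw [hef, tau_sq hZ hc x hf]
    exact H.F.el _ (hB f hf)
  rw [tau_mul hZ hc x he (Z.inv_mem he'), tau_inv hZ hc x he'] at h2
  exact mul_inv_eq_one.mp h2

omit hE hXA hab hDZ hX in
/-- A suitable element of `L`. -/
theorem claimC {k : ℕ} (hπ : ∀ w ∈ Z, w ^ (2 ^ (k + 1)) ∈ V)
    (hker : ∀ w ∈ Z, w ^ (2 ^ (k + 1)) = 1 → ∃ f ∈ Z, w = f ^ 2)
    (hB : ∀ x ∈ LL Z hZ, ∀ e ∈ Z, ⁅x, e⁆ ∈ V) {x : X} (hx : x ∈ LL Z hZ) (hxZ : x ∉ Z) :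
    ∃ y ∈ LL Z hZ, y ∉ Z ∧ ∀ e ∈ Z, e ^ (2 ^ (k + 1)) ≠ 1 → ⁅y, e⁆ ≠ 1 := by
  have F := H.F
  have ha := H.ha
  set m := 2 ^ (k + 1) with hm
  have hτpi : ∀ x ∈ LL Z hZ, ∀ {e e' : X}, e ∈ Z → e' ∈ Z → e ^ m = e' ^ m → ⁅x, e⁆ = ⁅x, e'⁆ :=
    fun x hx {e e'} he he' h => H.tau_of_pi hZ hc hker (hB x hx) he he' h
  by_cases hinj : ∀ e ∈ Z, e ^ m ≠ 1 → ⁅x, e⁆ ≠ 1
  · exact ⟨x, hx, hxZ, hinj⟩
  push Not at hinj
  obtain ⟨e₁, he₁, hm₁, h1⟩ := hinj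
  have he₂ : a e₁ ∈ Z := hZA a ha _ he₁
  have he₃ : a (a e₁) ∈ Z := hZA a ha _ he₂
  have hk₁ : e₁ ^ m ∈ V := hπ e₁ he₁
  have hp₂ : (a e₁) ^ m = a (e₁ ^ m) := (map_pow _ _ _).symm
  have hp₃ : (a (a e₁)) ^ m = a (a (e₁ ^ m)) := by rw [map_pow, map_pow]
  have hp : (e₁ * a e₁ * a (a e₁)) ^ m = 1 := by
    have c1 : Commute e₁ (a e₁) := hc _ he₁ _ he₂
    have c2 : Commute (e₁ * a e₁) (a (a e₁)) := hc _ (Z.mul_mem he₁ he₂) _ he₃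
    rw [c2.mul_pow, c1.mul_pow, hp₂, hp₃]
    exact F.prod3 hk₁
  have hone : ⁅x, e₁ * a e₁ * a (a e₁)⁆ = 1 := by
    have := hτpi x hx (Z.mul_mem (Z.mul_mem he₁ he₂) he₃) Z.one_mem (by rw [hp, one_pow])
    rw [this]
    simp [comm_eq]
  rw [tau_mul hZ hc x (Z.mul_mem he₁ he₂) he₃, tau_mul hZ hc x he₁ he₂, h1, one_mul] at hone
  have hwV : ⁅x, a e₁⁆ ∈ V := hB x hx _ he₂
  have h3 : ⁅x, a (a e₁)⁆ = ⁅x, a e₁⁆ := by
    calc ⁅x, a (a e₁)⁆ = (⁅x, a e₁⁆ * ⁅x, a e₁⁆) * ⁅x, a (a e₁)⁆ := by rw [F.mul_self hwV, one_mul]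
      _ = ⁅x, a e₁⁆ * (⁅x, a e₁⁆ * ⁅x, a (a e₁)⁆) := by group
      _ = ⁅x, a e₁⁆ := by rw [hone, mul_one]
  set w := ⁅x, a e₁⁆ with hw
  have hw1 : w ≠ 1 := by
    intro hw1
    apply hxZ
    refine hself x fun z hz => ?_
    rw [← commutatorElement_eq_one_iff_mul_comm]
    rcases F.cases hk₁ hm₁ (hπ z hz) with h4 | h4 | h4 | h4
    · rw [hτpi x hx hz Z.one_mem (by rw [h4, one_pow])]
      simp [comm_eq]
    · rw [hτpi x hx hz he₁ h4, h1]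
    · rw [hτpi x hx hz he₂ (by rw [h4, hp₂]), ← hw, hw1]
    · rw [hτpi x hx hz he₃ (by rw [h4, hp₃, F.a_a hk₁]), h3, hw1]
  have hax : a x ∈ LL Z hZ := H.L_map hZ ha hZA hx
  have hy : x * a x ∈ LL Z hZ := Subgroup.mul_mem _ hx hax
  have hτ : ∀ e ∈ Z, ⁅x * a x, e⁆ = ⁅x, e⁆ * ⁅a x, e⁆ := by
    intro e he
    rw [comm_mul_left x (a x) e (fun g => F.cen _ (hB _ hax e he) g)]
    exact F.comm (hB _ hax e he) (hB _ hx e he)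
  have y1 : ⁅x * a x, e₁⁆ = a w := by
    have hp4 : e₁ ^ m = (a (a (a e₁))) ^ m := by rw [← map_pow, hp₃, F.a3 hk₁]
    rw [hτ _ he₁, h1, one_mul, hτpi _ hax he₁ (hZA a ha _ he₃) hp4, ← comm_map a x (a (a e₁)), h3]
  have y2 : ⁅x * a x, a e₁⁆ = w := by
    rw [hτ _ he₂, ← comm_map, h1, map_one, mul_one]
  have y3 : ⁅x * a x, a (a e₁)⁆ = w * a w := by
    rw [hτ _ he₃, ← comm_map, h3]
  refine ⟨_, hy, ?_, ?_⟩
  · intro hyZ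
    have h5 : ⁅x * a x, e₁⁆ = 1 := commutatorElement_eq_one_iff_mul_comm.mpr (hc _ hyZ _ he₁)
    rw [y1] at h5
    exact F.ne_one_a hw1 h5
  · intro e he hne
    rcases F.cases3 hk₁ hm₁ (hπ e he) hne with h4 | h4 | h4
    · rw [hτpi _ hy he he₁ h4, y1]
      exact F.ne_one_a hw1
    · rw [hτpi _ hy he he₂ (by rw [h4, hp₂]), y2]
      exact hw1
    · rw [hτpi _ hy he he₃ (by rw [h4, hp₃]), y3]
      intro h5
      have h6 : a w = w := by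
        calc a w = w * (w * a w) := by rw [← mul_assoc, F.mul_self hwV, one_mul]
          _ = w := by rw [h5, mul_one]
      exact hw1 (F.fp _ hwV h6)

/-- The subcase where `Z` is larger than `D`. -/
theorem case_sub {u : X} (hu : u ∈ DD V H.F.cen) (huV : u ∉ V)
    (hsqD : ∀ d ∈ DD V H.F.cen, ∃ e ∈ Z, d = e ^ 2) {k : ℕ} (hπ : ∀ w ∈ Z, w ^ (2 ^ (k + 1)) ∈ V)
    (hker : ∀ w ∈ Z, w ^ (2 ^ (k + 1)) = 1 → ∃ f ∈ Z, w = f ^ 2) (hne : ∃ x : X, x ∉ Z) : False := by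
  have F := H.F
  have hVZ : V ≤ Z := H.VZ hX hE hXA hab hZ hc hDZ
  have hA' : ∀ x ∈ LL Z hZ, ∀ d ∈ DD V H.F.cen, ⁅x, d⁆ = 1 := fun x hx d hd =>
    H.claimA hX hE hXA hab hZ hc hDZ hu huV hsqD hx hd
  have hB : ∀ x ∈ LL Z hZ, ∀ e ∈ Z, ⁅x, e⁆ ∈ V := fun x hx e he =>
    H.claimB hX hE hZ hc hx hDZ (hA' x hx) he
  have htop : Z ≠ ⊤ := by
    rintro rfl
    obtain ⟨x, hx⟩ := hne
    exact hx (Subgroup.mem_top x)
  obtain ⟨x, -, hxZ, hxc, hx2⟩ := exists_central_inv hX hZ Subgroup.normal_top le_top htop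
  have hxL : x ∈ LL Z hZ := by
    refine ⟨hx2, fun g => ?_⟩
    have e1 : ⁅x, g⁆ = (g * x * g⁻¹ * x⁻¹)⁻¹ := by simp only [comm_eq]; group
    rw [e1]
    exact Z.inv_mem (hxc g)
  obtain ⟨y, hy, hyZ, hyi⟩ := H.claimC hZ hc hZA hself hπ hker hB hxL hxZ
  have hy2 : (y ^ 2) ^ (2 ^ (k + 1)) = 1 := by
    by_contra hcon
    apply hyi _ hy.1 hcon
    rw [commutatorElement_eq_one_iff_mul_comm]
    simp only [pow_two]
    group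
  obtain ⟨f, hf, hyf⟩ := hker _ hy.1 hy2
  have hyi' : y⁻¹ ∈ LL Z hZ := Subgroup.inv_mem _ hy
  have hform : ∀ u : X, y⁻¹ * u * y * u = ⁅y⁻¹, u⁆ * u ^ 2 := by
    intro u
    simp only [comm_eq, pow_two]
    group
  have h1 : ∀ u ∈ Z, y⁻¹ * u * y * u = 1 ↔ u ^ 2 = 1 := by
    intro u hu'
    rw [hform]
    constructor
    · intro h
      have hv := hB _ hyi' u hu'
      have h2 : u ^ 2 = ⁅y⁻¹, u⁆⁻¹ := eq_inv_of_mul_eq_one_right h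
      have h3 : u ^ 2 ∈ V := by rw [h2]; exact V.inv_mem hv
      have h4 : u ^ 4 = 1 := by
        have := F.el _ h3
        rw [← pow_mul] at this
        exact this
      have h5 := H.Om2 hX hE hZ hc hVZ hu' h4
      rw [hA' _ hyi' _ h5, one_mul] at h
      exact h
    · intro h
      have h2 := H.Om1 hX hE hZ hc hVZ hu' h
      have h3 : ⁅y⁻¹, u⁆ = 1 := by
        rw [comm_eq, F.cen _ h2 y⁻¹]
        group
      rw [h3, h, one_mul]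
  have κpow : ∀ κ ∈ V, κ ^ (2 ^ (k + 1)) = 1 := by
    intro κ hκ
    rw [pow_succ', pow_mul, F.el κ hκ, one_pow]
  have h2 : ∀ u ∈ Z, ∃ f ∈ Z, y⁻¹ * u * y * u = f ^ 2 := by
    intro u hu'
    rw [hform]
    have hv := hB _ hyi' u hu'
    obtain ⟨g, hg, hg2⟩ := hker _ (hVZ hv) (κpow _ hv)
    refine ⟨g * u, Z.mul_mem hg hu', ?_⟩
    have c : u * g = g * u := hc _ hu' _ hg
    rw [hg2]
    calc g ^ 2 * u ^ 2 = g * (g * u) * u := by simp only [pow_two]; group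
      _ = g * (u * g) * u := by rw [c]
      _ = (g * u) ^ 2 := by simp only [pow_two]; group
  obtain ⟨v, hv, hvy⟩ := exists_root hZ hc y h1 h2 (f := f⁻¹) (Z.inv_mem hf)
  have hvL : v ∈ LL Z hZ := (le_TT hZ hc hv).2
  have ht2 : (y * v) ^ 2 = 1 := by
    calc (y * v) ^ 2 = y ^ 2 * (y⁻¹ * v * y * v) := by simp only [pow_two]; group
      _ = 1 := by rw [hvy, hyf]; simp
  have htL : y * v ∈ LL Z hZ := Subgroup.mul_mem _ hy ((le_TT hZ hc hv).2)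
  have htZ : y * v ∉ Z := fun h => hyZ (by simpa using Z.mul_mem h (Z.inv_mem hv))
  apply htZ
  apply hDZ
  refine ⟨by rw [ht2]; exact V.one_mem, fun g => ?_⟩
  set t := y * v with ht
  have e1 : ⁅t, g⁆ = ⁅g, t⁆⁻¹ := by simp only [comm_eq]; group
  rw [e1]
  have hδZ : ⁅g, t⁆ ∈ Z := by
    have e2 : ⁅g, t⁆ = ⁅t, g⁆⁻¹ := by simp only [comm_eq]; group
    rw [e2]
    exact Z.inv_mem (htL.2 g)
  refine V.inv_mem ?_
  set δ := ⁅g, t⁆ with hδ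
  refine H.Om1 hX hE hZ hc hVZ hδZ ((h1 δ hδZ).mp ?_)
  -- the computation
  have e3 : g * t * g⁻¹ = δ * t := by rw [hδ]; simp only [comm_eq]; group
  have h3 : (δ * t) * (δ * t) = 1 := by
    rw [← e3, ← pow_two]
    have : (g * t * g⁻¹) ^ 2 = g * t ^ 2 * g⁻¹ := by simp only [pow_two]; group
    rw [this, ht2]
    group
  have htv : t * δ * t⁻¹ = y * δ * y⁻¹ := by
    have c : v * δ = δ * v := hc _ hv _ hδZ
    calc t * δ * t⁻¹ = y * (v * δ) * v⁻¹ * y⁻¹ := by rw [ht]; group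
      _ = y * (δ * v) * v⁻¹ * y⁻¹ := by rw [c]
      _ = y * δ * y⁻¹ := by group
  have hyy : y⁻¹ * δ * y = y * δ * y⁻¹ := by
    have c : y ^ 2 * δ = δ * y ^ 2 := hc _ hy.1 _ hδZ
    calc y⁻¹ * δ * y = y⁻¹ * (δ * y ^ 2) * y⁻¹ := by simp only [pow_two]; group
      _ = y⁻¹ * (y ^ 2 * δ) * y⁻¹ := by rw [c]
      _ = y * δ * y⁻¹ := by simp only [pow_two]; group
  have h4 : δ * (t * δ * t⁻¹) = 1 := by
    have ht3 : t * t = 1 := by rw [← pow_two]; exact ht2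
    calc δ * (t * δ * t⁻¹) = (δ * t) * (δ * t) * t⁻¹ * t⁻¹ := by group
      _ = (t * t)⁻¹ := by rw [h3]; group
      _ = 1 := by rw [ht3]; simp
  rw [htv, ← hyy] at h4
  have hz : y⁻¹ * δ * y ∈ Z := by
    simpa using hZ.conj_mem δ hδZ y⁻¹
  rw [hc _ hz _ hδZ]
  exact h4

/-- The subcase where `Z = D`. -/
theorem case_eq (hZD : ∀ z ∈ Z, z ∈ DD V H.F.cen) (hne : ∃ x : X, x ∉ Z) : False := by
  have F := H.F
  have hcomV : ∀ {y z : X}, z ∈ V → ⁅y, z⁆ = 1 := by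
    intro y z hz
    rw [comm_eq, F.cen _ hz y]
    group
  have hx2Z : ∀ x : X, x ^ 2 ∈ Z := by
    intro x
    refine hself _ fun z hz => ?_
    rw [← commutatorElement_eq_one_iff_mul_comm, pow_two, com_mul_D H.F.cen (hZD z hz)]
    exact F.mul_self (com_DD_right _ (hZD z hz) x)
  have hsq : ∀ x : X, x ^ 2 ∈ V := by
    intro x
    by_cases hxZ : x ∈ Z
    · exact (hZD x hxZ).1
    by_contra hcon
    have hd := hZD _ (hx2Z x)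
    apply hxZ
    refine hself x fun z hz => ?_
    rw [← commutatorElement_eq_one_iff_mul_comm]
    refine H.inj_mod hE hab hXA x hd hcon ?_ (hZD z hz)
    rw [commutatorElement_eq_one_iff_mul_comm]
    simp only [pow_two]
    group
  obtain ⟨x, hx⟩ := hne
  apply hx
  apply hDZ
  refine ⟨hsq x, fun y => ?_⟩
  have e1 : ⁅x, y⁆ = (x * y) ^ 2 * (y⁻¹ * (x ^ 2)⁻¹ * y⁻¹) := by
    simp only [comm_eq, pow_two]; group
  have c : y⁻¹ * (x ^ 2)⁻¹ = (x ^ 2)⁻¹ * y⁻¹ := F.cen _ (V.inv_mem (hsq x)) y⁻¹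
  have e2 : y⁻¹ * (x ^ 2)⁻¹ * y⁻¹ = (x ^ 2)⁻¹ * (y ^ 2)⁻¹ := by
    rw [c]
    simp only [pow_two]
    group
  rw [e1, e2]
  exact V.mul_mem (hsq _) (V.mul_mem (V.inv_mem (hsq x)) (V.inv_mem (hsq y)))

end Act

namespace Act

variable {V : Subgroup X} {a : MulAut X} {A : Subgroup (MulAut X)} (H : Act V a A)
variable [Finite X] (hX : IsPGroup 2 X) (hE : NoE8 X)
  (hXA : Subgroup.closure {g : X | ∃ φ ∈ A, ∃ x : X, g = x⁻¹ * φ x} = ⊤)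
include H hX hE hXA

/-- The case of a central element of `D` outside `V` is impossible. -/
theorem caseII {u : X} (hu : u ∈ DD V H.F.cen) (huV : u ∉ V)
    (huc : ∀ d ∈ DD V H.F.cen, u * d = d * u) {x y : X} (hxy : ⁅x, y⁆ ≠ 1) : False := by
  classical
  have F := H.F
  have ha := H.ha
  have hab := H.D_comm hE hu huV huc
  let P : Subgroup X → Prop := fun W => W.Normal ∧ (∀ φ ∈ A, ∀ w ∈ W, φ w ∈ W) ∧
    (∀ x ∈ W, ∀ y ∈ W, x * y = y * x) ∧ DD V H.F.cen ≤ W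
  have hP : P (DD V H.F.cen) := ⟨DD_normal _, fun φ hφ w hw => H.D_map hφ hw, hab, le_rfl⟩
  obtain ⟨Z, hPZ, hmax⟩ : ∃ Z : Subgroup X, P Z ∧ ∀ W, P W → Z ≤ W → W = Z := by
    have hfin : (Set.Finite {M : Subgroup X | P M}) := Set.toFinite _
    obtain ⟨M, hM, hmax⟩ := hfin.exists_le_maximal (a := DD V H.F.cen) hP
    exact ⟨M, hmax.1, fun M' hM' hle => le_antisymm (hmax.2 hM' hle) hle⟩
  obtain ⟨hZ, hZA, hc, hDZ⟩ := hPZ
  have hVZ : V ≤ Z := (le_DD H.F.cen H.F.el).trans hDZ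
  have hu2 : u ^ 2 ≠ 1 := fun h => huV (H.D1 hE hu h)
  obtain ⟨k, hπ, hker, hexp⟩ := H.exists_pi hX hE hZ hc hVZ (hZA a ha) (hDZ hu) hu2
  have hmax' : ∀ W : Subgroup X, W.Normal → (∀ φ ∈ A, ∀ w ∈ W, φ w ∈ W) →
      (∀ x ∈ W, ∀ y ∈ W, x * y = y * x) → Z ≤ W → W = Z := fun W h1 h2 h3 h4 =>
    hmax W ⟨h1, h2, h3, hDZ.trans h4⟩ h4
  have hT : ∀ e ∈ TT Z hZ, e ∈ Z := fun e he => H.T_le hX hE hZ hc hVZ hZA hmax' hπ hker he
  have hself : ∀ x : X, (∀ z ∈ Z, x * z = z * x) → x ∈ Z := fun x hx =>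
    H.self_cent hX hE hZ hc hT hx
  have hne : ∃ x : X, x ∉ Z := by
    by_contra hcon
    push Not at hcon
    exact hxy (commutatorElement_eq_one_iff_mul_comm.mpr (hc x (hcon x) y (hcon y)))
  by_cases hZD : ∀ z ∈ Z, z ∈ DD V H.F.cen
  · exact H.case_eq hX hE hXA hab hZ hc hZA hDZ hself hZD hne
  · push Not at hZD
    obtain ⟨g₀, hg₀, hg₀D⟩ := hZD
    have hg₀4 : g₀ ^ 4 ≠ 1 := fun h => hg₀D (H.Om2 hX hE hZ hc hVZ hg₀ h)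
    have hk : k ≠ 0 := by
      rintro rfl
      exact hg₀4 (hexp g₀ hg₀)
    obtain ⟨k', rfl⟩ : ∃ k', k = k' + 1 := ⟨k - 1, by omega⟩
    have hsqD : ∀ d ∈ DD V H.F.cen, ∃ e ∈ Z, d = e ^ 2 := by
      intro d hd
      refine hker d (hDZ hd) ?_
      have e1 : 2 ^ (k' + 1 + 1) = 2 * 2 * 2 ^ k' := by ring
      rw [e1, pow_mul, pow_mul, F.el _ hd.1, one_pow]
    exact H.case_sub hX hE hXA hab hZ hc hZA hDZ hself hu huV hsqD hπ hker hne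

end Act

end Cfsg.Agent.H06.Sc
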