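import Mathlib
import Cfsg.Agent.Lib.H06.Sc12

/-! 2-groups with no normal `E₈` admitting odd order automorphisms without coprime commutator part. -/

set_option autoImplicit false

namespace Cfsg.Agent.H06.Sc

open scoped commutatorElement

variable {X : Type*} [Group X] [Finite X]

theorem main_thm (hX : IsPGroup 2 X) (hna : ¬ IsMulCommutative X)
    (hscn : ¬ ∃ A : Subgroup X, A.Normal ∧ Subgroup.centralizer (A : Set X) = A ∧
      ∃ E : Subgroup X, E ≤ A ∧ Cfsg.IsElementaryAbelian 2 E ∧ Nat.card E = 8)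
    (A : Subgroup (MulAut X)) (hA : Odd (Nat.card A))
    (hXA : Subgroup.closure {g : X | ∃ φ ∈ A, ∃ x : X, g = x⁻¹ * φ x} = ⊤) :
    Nonempty (X ≃* QuaternionGroup 2) ∨
      (Cfsg.IsSpecial 2 X ∧ Nat.card X = 64 ∧ Nat.card {x : X // orderOf x = 2} = 3 ∧
        ∀ x : X, orderOf x = 2 → x ∈ Subgroup.center X) ∨
      (Cfsg.IsExtraspecial 2 X ∧ Nat.card X = 32 ∧ Nat.card {x : X // orderOf x = 2} = 11) := by
  classical
  haveI : Fact (Nat.Prime 2) := ⟨Nat.prime_two⟩
  have hE : NoE8 X := fun N hN hNe hN8 => no_normal_E8 hX hscn N hN hNe hN8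
  obtain ⟨x, y, hxy⟩ : ∃ x y : X, ⁅x, y⁆ ≠ 1 := by
    by_contra hcon
    push Not at hcon
    exact hna ⟨⟨fun a b => commutatorElement_eq_one_iff_mul_comm.mp (hcon a b)⟩⟩
  obtain ⟨C, hCn, hCA, hCs, hCc, hcl⟩ := exists_critical hX A
  by_cases hfix : ∀ φ ∈ A, ∀ v ∈ ZC C, v ^ 2 = 1 → φ v = v
  · obtain ⟨V, h, hcen, hcomm, hfixV⟩ := fix_reduction hX hA hXA hCn hCA hCs hCc hcl hfix
    exact fix_main hX hE hA hXA h hcen hcomm hfixV hxy
  push Not at hfix
  obtain ⟨a, ha, v₀, hv₀, hv₀2, hav₀⟩ := hfix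
  right; left
  have hZn := ZC_normal hCn
  have hZc := ZC_comm (C := C)
  have hZA : ∀ φ ∈ A, ∀ z ∈ ZC C, φ z ∈ ZC C := by
    intro φ hφ z hz
    rw [mem_ZC] at hz ⊢
    refine ⟨hCA φ hφ z hz.1, fun c hc => ?_⟩
    have := hz.2 (φ⁻¹ c) (hCA _ (A.inv_mem hφ) c hc)
    have h2 := congrArg φ this
    simpa using h2
  set V := omega1 (ZC C) hZc with hVdef
  have hVn : V.Normal := omega1_normal hZn hZc
  have hVc : ∀ v ∈ V, ∀ w ∈ V, v * w = w * v := fun v hv w hw => hZc v hv.1 w hw.1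
  have hVe : ∀ v ∈ V, v ^ 2 = 1 := fun v hv => hv.2
  have hAV : ∀ φ ∈ A, ∀ v ∈ V, φ v ∈ V := by
    intro φ hφ v hv
    refine ⟨hZA φ hφ v hv.1, ?_⟩
    rw [← map_pow, hv.2, map_one]
  have hv₀V : v₀ ∈ V := ⟨hv₀, hv₀2⟩
  have hv₀1 : v₀ ≠ 1 := by
    rintro rfl
    exact hav₀ (map_one _)
  have hav₀1 : a v₀ ≠ 1 := fun h => hv₀1 (a.injective (by rw [h, map_one]))
  have hle4 := card_le_four hX hE V hVn hVc hVe
  have hge3 : 3 ≤ Nat.card V := by
    haveI := Fintype.ofFinite X
    have hsub : ({1, v₀, a v₀} : Finset X) ⊆ (V : Set X).toFinset := by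
      intro y hy
      simp only [Finset.mem_insert, Finset.mem_singleton] at hy
      simp only [Set.mem_toFinset, SetLike.mem_coe]
      rcases hy with rfl | rfl | rfl
      · exact V.one_mem
      · exact hv₀V
      · exact hAV a ha _ hv₀V
    have hc3 : ({1, v₀, a v₀} : Finset X).card = 3 := by
      rw [Finset.card_insert_of_notMem, Finset.card_insert_of_notMem, Finset.card_singleton]
      · simpa using hav₀.symm
      · simp [hv₀1.symm, hav₀1.symm]
    have h1 := Finset.card_le_card hsub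
    rw [hc3, Set.toFinset_card] at h1
    rw [Nat.card_eq_fintype_card]
    exact h1
  have hV4 : Nat.card V = 4 := by
    obtain ⟨n, hn⟩ := (IsPGroup.iff_card (p := 2)).mp (hX.to_subgroup V)
    rcases n with _ | _ | _ | n
    · rw [pow_zero] at hn; omega
    · have h2 : (2 : ℕ) ^ (0 + 1) = 2 := rfl
      rw [h2] at hn; omega
    · have h2 : (2 : ℕ) ^ (0 + 1 + 1) = 4 := rfl
      rw [h2] at hn; exact hn
    · exfalso
      have : 2 ^ 3 ≤ 2 ^ (n + 1 + 1 + 1) := Nat.pow_le_pow_right (by norm_num) (by omega)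
      omega
  have hodd : ∀ {φ : MulAut X}, φ ∈ A → φ ^ Nat.card A = 1 := fun h => pow_card_aut h
  have hfp : ∀ v ∈ V, a v = v → v = 1 := by
    intro v hv hav
    by_contra hv1
    exact hav₀ (fpf_of_fix hV4 hVc hVe hA (hodd ha) (hAV a ha) hv hv1 hav v₀ hv₀V)
  -- `V` is central
  have hVcen : ∀ v ∈ V, ∀ g : X, g * v = v * g := by
    obtain ⟨e, heV, he1, hec, -⟩ := exists_central_inv hX (Z := ⊥) (E := V) Subgroup.normal_bot hVn bot_le
      (by
        intro h
        rw [← h] at hV4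
        simp at hV4)
    have he1' : e ≠ 1 := fun h => he1 (Subgroup.mem_bot.mpr h)
    have hecen : ∀ g : X, g * e = e * g := by
      intro g
      have h0 := Subgroup.mem_bot.mp (hec g)
      have h2 : g * e * g⁻¹ = e := mul_inv_eq_one.mp h0
      calc g * e = g * e * g⁻¹ * g := by group
        _ = e * g := by rw [h2]
    by_contra hcon
    push Not at hcon
    obtain ⟨l, hl, g₀, hg₀⟩ := hcon
    have hl1 : l ≠ 1 := by
      rintro rfl
      simp at hg₀
    have hel : e ≠ l := by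
      rintro rfl
      exact hg₀ (hecen g₀)
    have hcases := four_cases hV4 hVc hVe heV hl he1' hl1 hel
    have hnc : ∀ z ∈ V, z ≠ 1 → (∀ g : X, g * z = z * g) → z = e := by
      intro z hz hz1 hzc
      rcases hcases z hz with h | h | h | h
      · exact absurd h hz1
      · exact h
      · subst h
        exact absurd (hzc g₀) hg₀
      · exfalso
        subst h
        apply hg₀
        have h1 := hzc g₀
        have h2 := hecen g₀
        apply mul_left_cancel (a := e)
        calc e * (g₀ * l) = (e * g₀) * l := by group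
          _ = (g₀ * e) * l := by rw [h2]
          _ = g₀ * (e * l) := by group
          _ = (e * l) * g₀ := h1
          _ = e * (l * g₀) := by group
    have hae : a e = e := by
      refine hnc _ (hAV a ha _ heV) (fun h => he1' (a.injective (by rw [h, map_one]))) fun g => ?_
      have h1 := hecen (a⁻¹ g)
      have h2 := congrArg a h1
      simpa using h2
    exact he1' (hfp e heV hae)
  have F : FP V a := ⟨hV4, hVcen, hVe, hAV a ha, hfp, fun v hv hv2 =>
    hfp v hv (odd_fix hA (hodd ha) hv2)⟩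
  have hpw : ∀ φ ∈ A, (∀ v ∈ V, φ v = v) ∨ (∀ v ∈ V, φ v = a v) ∨ (∀ v ∈ V, φ v = a (a v)) := by
    intro φ hφ
    have hφk : φ v₀ ≠ 1 := fun h => hv₀1 (φ.injective (by rw [h, map_one]))
    have haiA : a⁻¹ ∈ A := A.inv_mem ha
    rcases F.cases3 hv₀V hv₀1 (hAV φ hφ _ hv₀V) hφk with h | h | h
    · exact Or.inl (fpf_of_fix hV4 hVc hVe hA (hodd hφ) (hAV φ hφ) hv₀V hv₀1 h)
    · right; left
      have hψ : a⁻¹ * φ ∈ A := A.mul_mem haiA hφ
      have := fpf_of_fix hV4 hVc hVe hA (hodd hψ) (hAV _ hψ) hv₀V hv₀1 (by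
        rw [MulAut.mul_apply, h]; simp)
      intro v hv
      have h2 := this v hv
      rw [MulAut.mul_apply] at h2
      have h3 := congrArg a h2
      simpa using h3
    · right; right
      have hψ : a⁻¹ * (a⁻¹ * φ) ∈ A := A.mul_mem haiA (A.mul_mem haiA hφ)
      have := fpf_of_fix hV4 hVc hVe hA (hodd hψ) (hAV _ hψ) hv₀V hv₀1 (by
        rw [MulAut.mul_apply, MulAut.mul_apply, h]; simp)
      intro v hv
      have h2 := this v hv
      rw [MulAut.mul_apply, MulAut.mul_apply] at h2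
      have h3 := congrArg a (congrArg a h2)
      simpa using h3
  have H : Act V a A := ⟨F, ha, hAV, hpw⟩
  by_cases hZD : ∀ u ∈ DD V H.F.cen, (∀ d ∈ DD V H.F.cen, u * d = d * u) → u ∈ V
  · exact caseI hX hE H hZD hxy
  · push Not at hZD
    obtain ⟨u, hu, huc, huV⟩ := hZD
    exact (H.caseII hX hE hXA hu huV huc hxy).elim

end Cfsg.Agent.H06.Sc
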