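import Mathlib

/-!
A lemma on finite groups acting on finite abelian groups: if every non-identity
element has the same fixed-point subgroup `Z0`, then the order of the group and the
exponent of `E / Z0` cannot share two different primes.
-/

set_option autoImplicit false

namespace Cfsg.Agent.H06

variable {Γ E : Type*} [Group Γ] [Finite Γ] [CommGroup E] [Finite E]

theorem tc_eq_one_of_pow {c : E} {a b : ℕ} (hab : a.Coprime b) (h1 : c ^ a = 1) (h2 : c ^ b = 1) :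
    c = 1 := by
  have h3 := Nat.dvd_gcd (orderOf_dvd_of_pow_eq_one h1) (orderOf_dvd_of_pow_eq_one h2)
  rw [hab.gcd_eq_one, Nat.dvd_one, orderOf_eq_one_iff] at h3
  exact h3

theorem tc_mem_of_pow {Z0 : Subgroup E} {x : E} {a b : ℕ} (hab : a.Coprime b) (h1 : x ^ a ∈ Z0)
    (h2 : x ^ b = 1) : x ∈ Z0 := by
  have h3 : x = (x ^ a) ^ (Nat.gcdA a b) * (x ^ b) ^ (Nat.gcdB a b) := by
    have h4 : (Nat.gcdA a b) * (a : ℤ) + (Nat.gcdB a b) * (b : ℤ) = 1 := by
      have h5 := Nat.gcd_eq_gcd_ab a b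
      rw [hab.gcd_eq_one] at h5
      push_cast at h5
      linarith
    rw [← zpow_natCast, ← zpow_natCast, ← zpow_mul, ← zpow_mul, ← zpow_add, mul_comm (a : ℤ),
      mul_comm (b : ℤ), h4, zpow_one]
  rw [h3, h2, one_zpow, mul_one]
  exact Z0.zpow_mem h1 _

/-- A `p`-group acting on `E` (fixing `Z0`): it fixes a nontrivial coset of `Z0` containing a
`p`-element. -/
theorem tc_fixed_coset {p : ℕ} [Fact p.Prime] (ρ : Γ →* MulAut E) (Z0 : Subgroup E)
    (h1 : ∀ γ, ∀ x ∈ Z0, ρ γ x = x) (P : Subgroup Γ) (hP : IsPGroup p P)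
    (x0 : E) (hx0 : x0 ∉ Z0) (k0 : ℕ) (hk0 : x0 ^ (p ^ k0) = 1) :
    ∃ x : E, x ∉ Z0 ∧ (∃ k, x ^ (p ^ k) = 1) ∧ ∀ h ∈ P, ρ h x * x⁻¹ ∈ Z0 := by
  classical
  let W : Subgroup E :=
    { carrier := {x | ∃ k, x ^ (p ^ k) = 1}
      mul_mem' := by
        rintro a b ⟨k, hk⟩ ⟨l, hl⟩
        refine ⟨k + l, ?_⟩
        rw [mul_pow, pow_add, pow_mul, hk, one_pow, mul_comm (p ^ k), pow_mul, hl, one_pow, one_mul]
      one_mem' := ⟨0, by simp⟩
      inv_mem' := by
        rintro a ⟨k, hk⟩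
        exact ⟨k, by rw [inv_pow, hk, inv_one]⟩ }
  have hW : ∀ x, x ∈ W ↔ ∃ k, x ^ (p ^ k) = 1 := fun x => Iff.rfl
  have hρW : ∀ (h : Γ) (x : W), ρ h x ∈ W := by
    rintro h ⟨x, k, hk⟩
    exact ⟨k, by rw [← map_pow, hk, map_one]⟩
  let Z' : Subgroup W := Z0.subgroupOf W
  let α := W ⧸ Z'
  let f : P → W → W := fun h x => ⟨ρ h x, hρW h x⟩
  have hf : ∀ (h : P) (x y : W), (QuotientGroup.leftRel Z') x y →
      (QuotientGroup.leftRel Z') (f h x) (f h y) := by
    intro h x y hxy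
    rw [QuotientGroup.leftRel_apply] at hxy ⊢
    have h2 : ((x⁻¹ * y : W) : E) ∈ Z0 := hxy
    show ((f h x)⁻¹ * f h y : W).1 ∈ Z0
    have h3 : ((f h x)⁻¹ * f h y : W).1 = ρ h ((x⁻¹ * y : W) : E) := by
      simp [f, map_mul, map_inv]
    rw [h3, h1 _ _ h2]
    exact h2
  letI inst : MulAction P α :=
    { smul := fun h q => Quotient.map' (f h) (hf h) q
      one_smul := by
        intro q
        induction q using QuotientGroup.induction_on with
        | H x =>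
          show ((f 1 x : W) : α) = (x : α)
          congr 1
          apply Subtype.ext
          simp [f]
      mul_smul := by
        intro a b q
        induction q using QuotientGroup.induction_on with
        | H x =>
          show ((f (a * b) x : W) : α) = ((f a (f b x) : W) : α)
          congr 1
          apply Subtype.ext
          simp [f] }
  have hact : ∀ (h : P) (x : W), (h • (x : α)) = ((f h x : W) : α) := fun h x => rfl
  -- `α` is a nontrivial `p`-group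
  have hαp : IsPGroup p α := by
    intro q
    induction q using QuotientGroup.induction_on with
    | H x =>
      obtain ⟨k, hk⟩ := x.2
      refine ⟨k, ?_⟩
      rw [← QuotientGroup.mk_pow]
      have : x ^ (p ^ k) = 1 := Subtype.ext (by simpa using hk)
      rw [this]
      rfl
  have hαnt : Nontrivial α := by
    refine ⟨⟨((⟨x0, k0, hk0⟩ : W) : α), 1, ?_⟩⟩
    intro h2
    apply hx0
    have h3 := (QuotientGroup.eq_one_iff (⟨x0, k0, hk0⟩ : W)).mp h2
    exact h3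
  obtain ⟨n, hn0, hn⟩ := hαp.nontrivial_iff_card.mp hαnt
  have hdvd : p ∣ Nat.card α := by
    rw [hn]
    exact dvd_pow_self _ (Nat.pos_iff_ne_zero.mp hn0)
  have hfix1 : (1 : α) ∈ MulAction.fixedPoints P α := by
    intro h
    have h2 := hact h 1
    have h3 : f h 1 = 1 := Subtype.ext (by simp [f])
    rw [h3] at h2
    exact h2
  obtain ⟨b, hb, hb1⟩ := hP.exists_fixed_point_of_prime_dvd_card_of_fixed_point α hdvd hfix1
  induction b using QuotientGroup.induction_on with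
  | H x =>
    refine ⟨x, ?_, (hW _).mp x.2, ?_⟩
    · intro hx
      apply hb1
      exact ((QuotientGroup.eq_one_iff x).mpr hx).symm
    · intro h hh
      have h2 : (⟨h, hh⟩ : P) • (x : α) = (x : α) := hb ⟨h, hh⟩
      rw [hact, QuotientGroup.eq] at h2
      have h3 : ((f ⟨h, hh⟩ x)⁻¹ * x : W).1 ∈ Z0 := h2
      have h4 : ((f ⟨h, hh⟩ x)⁻¹ * x : W).1 = (ρ h x * (x : E)⁻¹)⁻¹ := by
        simp [f]
        rw [mul_comm]
      rw [h4] at h3
      exact Z0.inv_mem_iff.mp h3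

/-- Frobenius identity: a subgroup `P ≠ 1` normalized by an element `h` of prime order acting
without fixed points on `P` forces `u ^ |P| ∈ Z0` for all `u`. -/
theorem tc_frob (ρ : Γ →* MulAut E) (Z0 : Subgroup E)
    (h2 : ∀ γ : Γ, γ ≠ 1 → ∀ x, ρ γ x = x → x ∈ Z0)
    (P : Subgroup Γ) (hPne : P ≠ ⊥) (h : Γ) (q : ℕ) (hq : q.Prime) (hord : orderOf h = q)
    (hN : ∀ f ∈ P, h * f * h⁻¹ ∈ P)
    (hfree : ∀ g ∈ P, g ≠ 1 → g * h ≠ h * g) (u : E) : u ^ (Nat.card P) ∈ Z0 := by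
  classical
  haveI : Fintype P := Fintype.ofFinite P
  have hcard : Nat.card P = Fintype.card P := Nat.card_eq_fintype_card
  -- norm over `P`
  obtain ⟨f0, hf0, hf01⟩ : ∃ f0 : Γ, f0 ∈ P ∧ f0 ≠ 1 := by
    obtain ⟨a, ha, ha1⟩ := (Subgroup.bot_or_exists_ne_one P).resolve_left hPne
    exact ⟨a, ha, ha1⟩
  have hNP : ∀ v : E, ∏ f : P, ρ (f : Γ) v ∈ Z0 := by
    intro v
    apply h2 f0 hf01
    rw [map_prod]
    refine Fintype.prod_bijective (fun f : P => (⟨f0, hf0⟩ : P) * f)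
      (Group.mulLeft_bijective _) _ _ ?_
    intro f
    simp [map_mul]
  have hh1 : h ≠ 1 := by
    rintro rfl
    rw [orderOf_one] at hord
    exact hq.one_lt.ne hord
  have hhq : h ^ q = 1 := by rw [← hord]; exact pow_orderOf_eq_one h
  -- the norm over a conjugate of `⟨h⟩`
  have hM : ∀ f : P, ∏ i ∈ Finset.range q, ρ ((f : Γ)⁻¹ * h ^ i * f) u ∈ Z0 := by
    intro f
    have hne : (f : Γ)⁻¹ * h * f ≠ 1 := by
      intro h3
      apply hh1
      have h4 : h = f * ((f : Γ)⁻¹ * h * f) * (f : Γ)⁻¹ := by group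
      rw [h4, h3]
      group
    apply h2 _ hne
    rw [map_prod]
    have e1 := Finset.prod_range_succ (fun i => ρ ((f : Γ)⁻¹ * h ^ i * f) u) q
    have e2 := Finset.prod_range_succ' (fun i => ρ ((f : Γ)⁻¹ * h ^ i * f) u) q
    have e3 : ∀ i, (ρ ((f : Γ)⁻¹ * h * f)) (ρ ((f : Γ)⁻¹ * h ^ i * f) u)
        = ρ ((f : Γ)⁻¹ * h ^ (i + 1) * f) u := by
      intro i
      rw [← MulAut.mul_apply, ← map_mul]
      congr 2
      rw [pow_succ']
      group
    simp_rw [e3]
    have e4 : ρ ((f : Γ)⁻¹ * h ^ q * f) u = ρ ((f : Γ)⁻¹ * h ^ 0 * f) u := by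
      rw [hhq]; simp
    rw [e1, e4] at e2
    exact (mul_right_cancel e2).symm
  -- powers of `h` normalize `P`
  have hNj : ∀ (j : ℕ), ∀ f ∈ P, h ^ j * f * (h ^ j)⁻¹ ∈ P := by
    intro j
    induction j with
    | zero => intro f hf; simpa using hf
    | succ j ih =>
      intro f hf
      have h3 := hN _ (ih f hf)
      have h4 : h ^ (j + 1) * f * (h ^ (j + 1))⁻¹ = h * (h ^ j * f * (h ^ j)⁻¹) * h⁻¹ := by
        rw [pow_succ']; group
      rw [h4]; exact h3
  -- the sum over `f` of the `j`-th term lies in `Z0` for `0 < j < q`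
  have hb : ∀ j, 0 < j → j < q → ∏ f : P, ρ ((f : Γ)⁻¹ * h ^ j * f) u ∈ Z0 := by
    intro j hj0 hjq
    let ψ : P → P := fun f => ⟨(f : Γ)⁻¹ * (h ^ j * f * (h ^ j)⁻¹),
      P.mul_mem (P.inv_mem f.2) (hNj j f f.2)⟩
    have hψinj : Function.Injective ψ := by
      intro f f' hff
      have h3 : (f : Γ)⁻¹ * (h ^ j * f * (h ^ j)⁻¹) = (f' : Γ)⁻¹ * (h ^ j * f' * (h ^ j)⁻¹) :=
        congrArg Subtype.val hff
      set e : Γ := f' * (f : Γ)⁻¹ with he
      have h4 : e * h ^ j = h ^ j * e := by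
        have h5 : (f : Γ)⁻¹ * (h ^ j * f) = (f' : Γ)⁻¹ * (h ^ j * f') := by
          have h6 := congrArg (· * h ^ j) h3
          simpa [mul_assoc] using h6
        calc e * h ^ j = f' * ((f : Γ)⁻¹ * (h ^ j * f)) * (f : Γ)⁻¹ := by rw [he]; group
          _ = f' * ((f' : Γ)⁻¹ * (h ^ j * f')) * (f : Γ)⁻¹ := by rw [h5]
          _ = h ^ j * e := by rw [he]; group
      have hco : j.Coprime q := by
        exact (Nat.coprime_of_lt_prime hj0.ne' hjq hq).symm
      have h7 : h ∈ Subgroup.zpowers (h ^ j) := by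
        have h8 : (Nat.gcdA j q) * (j : ℤ) + (Nat.gcdB j q) * (q : ℤ) = 1 := by
          have h9 := Nat.gcd_eq_gcd_ab j q
          rw [hco.gcd_eq_one] at h9
          push_cast at h9
          linarith
        refine ⟨Nat.gcdA j q, ?_⟩
        show (h ^ j) ^ (Nat.gcdA j q) = h
        have h10 : h ^ (q : ℤ) = 1 := by rw [zpow_natCast, hhq]
        calc (h ^ j) ^ (Nat.gcdA j q) = h ^ ((Nat.gcdA j q) * (j : ℤ)) := by
              rw [← zpow_natCast, ← zpow_mul, mul_comm]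
          _ = h ^ ((Nat.gcdA j q) * (j : ℤ)) * (h ^ (q : ℤ)) ^ (Nat.gcdB j q) := by
              rw [h10, one_zpow, mul_one]
          _ = h ^ ((Nat.gcdA j q) * (j : ℤ) + (Nat.gcdB j q) * (q : ℤ)) := by
              rw [zpow_add, ← zpow_mul, mul_comm (q : ℤ)]
          _ = h := by rw [h8, zpow_one]
      have h11 : e * h = h * e := by
        obtain ⟨l, hl⟩ := h7
        have h12 : Commute e ((h ^ j) ^ l) := Commute.zpow_right h4 l
        have hl' : (h ^ j) ^ l = h := hl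
        rw [hl'] at h12
        exact h12
      by_contra hff'
      have hene : e ≠ 1 := by
        intro h13
        apply hff'
        have h14 : (f' : Γ) = f := by
          have h15 : (f' : Γ) * (f : Γ)⁻¹ = 1 := h13
          exact (mul_inv_eq_one.mp h15)
        exact (Subtype.ext h14).symm
      exact hfree e (P.mul_mem f'.2 (P.inv_mem f.2)) hene h11
    have hψbij : Function.Bijective ψ := Finite.injective_iff_bijective.mp hψinj
    have h3 : ∀ f : P, ρ ((f : Γ)⁻¹ * h ^ j * f) u = ρ (ψ f : Γ) (ρ (h ^ j) u) := by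
      intro f
      rw [← MulAut.mul_apply, ← map_mul]
      congr 2
      show (f : Γ)⁻¹ * h ^ j * f = (f : Γ)⁻¹ * (h ^ j * f * (h ^ j)⁻¹) * h ^ j
      group
    have h4 : ∏ f : P, ρ ((f : Γ)⁻¹ * h ^ j * f) u = ∏ f : P, ρ (f : Γ) (ρ (h ^ j) u) := by
      simp_rw [h3]
      exact hψbij.prod_comp (fun f : P => ρ (f : Γ) (ρ (h ^ j) u))
    rw [h4]
    exact hNP _
  obtain ⟨q', rfl⟩ : ∃ q', q = q' + 1 := ⟨q - 1, by have := hq.pos; omega⟩
  have hTot : ∏ f : P, ∏ i ∈ Finset.range (q' + 1), ρ ((f : Γ)⁻¹ * h ^ i * f) u ∈ Z0 :=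
    Subgroup.prod_mem _ (fun f _ => hM f)
  rw [Finset.prod_comm, Finset.prod_range_succ'] at hTot
  have h0 : ∏ f : P, ρ ((f : Γ)⁻¹ * h ^ 0 * f) u = u ^ (Nat.card P) := by
    rw [hcard]
    simp
  rw [h0] at hTot
  have hrest : ∏ k ∈ Finset.range q', ∏ f : P, ρ ((f : Γ)⁻¹ * h ^ (k + 1) * f) u ∈ Z0 :=
    Subgroup.prod_mem _ (fun k hk => hb _ (Nat.succ_pos k)
      (Nat.succ_lt_succ (Finset.mem_range.mp hk)))
  exact (Subgroup.mul_mem_cancel_left _ hrest).mp hTot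

theorem tc_fix_of_eq (ρ : Γ →* MulAut E) {a b : Γ} {x : E} (h : ρ b x = ρ a x) :
    ρ (a⁻¹ * b) x = x := by
  rw [map_mul, MulAut.mul_apply, h, map_inv, MulAut.inv_apply_self]

/-- The Sylow `p`-subgroups are abelian and self-normalizing. -/
theorem tc_sylow_normalizer {p p' : ℕ} [Fact p.Prime] [Fact p'.Prime] (hne : p ≠ p')
    (ρ : Γ →* MulAut E) (Z0 : Subgroup E) (h1 : ∀ γ, ∀ x ∈ Z0, ρ γ x = x)
    (h2 : ∀ γ : Γ, γ ≠ 1 → ∀ x, ρ γ x = x → x ∈ Z0)
    (P : Sylow p Γ) (hpΓ : p ∣ Nat.card Γ)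
    (x0 : E) (hx0 : x0 ∉ Z0) (k0 : ℕ) (hk0 : x0 ^ (p ^ k0) = 1)
    (x1 : E) (hx1 : x1 ∉ Z0) (k1 : ℕ) (hk1 : x1 ^ (p' ^ k1) = 1) :
    Subgroup.normalizer (P : Set Γ) ≤ (P : Subgroup Γ) ∧
      ∀ a ∈ (P : Subgroup Γ), ∀ b ∈ (P : Subgroup Γ), a * b = b * a := by
  obtain ⟨x, hx, ⟨k, hk⟩, hfix⟩ := tc_fixed_coset ρ Z0 h1 (P : Subgroup Γ) P.isPGroup' x0 hx0 k0 hk0
  refine ⟨?_, ?_⟩
  · intro h0 hh0
    by_contra hn
    have hPne : (P : Subgroup Γ) ≠ ⊥ := by
      intro hbot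
      apply P.not_dvd_index
      rw [hbot, Subgroup.index_bot]
      exact hpΓ
    -- a prime different from `p` divides the order of the normalizer
    obtain ⟨q, hq, hqd, hqne⟩ : ∃ q : ℕ, q.Prime ∧ q ∣ Nat.card (Subgroup.normalizer (P : Set Γ)) ∧ q ≠ p := by
      by_contra hno
      push Not at hno
      have h3 : IsPGroup p (Subgroup.normalizer (P : Set Γ)) := by
        have h4 := Nat.eq_prime_pow_of_unique_prime_dvd (n := Nat.card (Subgroup.normalizer (P : Set Γ)))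
          (p := p) Nat.card_pos.ne' (fun {d} hd hdd => hno d hd hdd)
        exact IsPGroup.of_card h4
      have h5 := P.is_maximal' h3 Subgroup.le_normalizer
      exact hn (h5 ▸ hh0)
    haveI : Fact q.Prime := ⟨hq⟩
    obtain ⟨hh, hhord⟩ := exists_prime_orderOf_dvd_card' q hqd
    have hh_mem : (hh : Γ) ∈ Subgroup.normalizer (P : Set Γ) := hh.2
    set h : Γ := (hh : Γ) with hh_def
    have hord : orderOf h = q := by
      rw [hh_def, Subgroup.orderOf_coe, hhord]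
    have hh1 : h ≠ 1 := by
      intro h3
      rw [h3, orderOf_one] at hord
      exact hq.one_lt.ne hord
    have hN : ∀ f ∈ (P : Subgroup Γ), h * f * h⁻¹ ∈ (P : Subgroup Γ) := fun f hf =>
      (Subgroup.mem_normalizer_iff.mp hh_mem f).mp hf
    by_cases hcase : ∃ g ∈ (P : Subgroup Γ), g ≠ 1 ∧ g * h = h * g
    · obtain ⟨g, hgP, hg1, hgh⟩ := hcase
      obtain ⟨w, hw⟩ : ∃ w : E, w = ρ h x * x⁻¹ := ⟨_, rfl⟩
      obtain ⟨c, hcZ, hgx⟩ : ∃ c ∈ Z0, ρ g x = c * x :=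
        ⟨ρ g x * x⁻¹, hfix g hgP, by rw [inv_mul_cancel_right]⟩
      have hwZ : w ∈ Z0 := by
        apply h2 g hg1
        rw [hw, map_mul, map_inv, ← MulAut.mul_apply, ← map_mul, hgh, map_mul, MulAut.mul_apply, hgx,
          map_mul, h1 h c hcZ, mul_inv, mul_comm c (ρ h x), mul_assoc, mul_inv_cancel_left]
      have hhx : ρ h x = w * x := by rw [hw, inv_mul_cancel_right]
      have hpow : ∀ i : ℕ, ρ (h ^ i) x = w ^ i * x := by
        intro i
        induction i with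
        | zero => simp
        | succ i ih =>
          rw [pow_succ', map_mul, MulAut.mul_apply, ih, map_mul, map_pow, h1 h w hwZ, hhx, pow_succ,
            mul_assoc]
      have hwq : w ^ q = 1 := by
        have h3 := hpow q
        rw [← hord, pow_orderOf_eq_one, map_one, MulAut.one_apply] at h3
        rw [← hord]
        exact (mul_eq_right.mp h3.symm)
      have hwp : w ^ (p ^ k) = 1 := by
        rw [hw, mul_pow, inv_pow, hk, inv_one, mul_one, ← map_pow, hk, map_one]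
      have hcop : q.Coprime (p ^ k) := Nat.Coprime.pow_right _ ((Nat.coprime_primes hq (Fact.out)).mpr hqne)
      have hw1 : w = 1 := tc_eq_one_of_pow hcop hwq hwp
      apply hx
      apply h2 h hh1
      rw [hhx, hw1, one_mul]
    · push Not at hcase
      have hfr := tc_frob ρ Z0 h2 (P : Subgroup Γ) hPne h q hq hord hN
        (fun g hg hg1 => hcase g hg hg1) x1
      rw [Sylow.card_eq_multiplicity] at hfr
      have hcop : (p ^ (Nat.card Γ).factorization p).Coprime (p' ^ k1) :=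
        Nat.Coprime.pow _ _ ((Nat.coprime_primes Fact.out Fact.out).mpr hne)
      exact hx1 (tc_mem_of_pow hcop hfr hk1)
  · intro a ha b hb
    by_contra hab
    have hne1 : (b * a)⁻¹ * (a * b) ≠ 1 := by
      intro h3
      exact hab (inv_mul_eq_one.mp h3).symm
    apply hx
    apply h2 _ hne1
    apply tc_fix_of_eq
    obtain ⟨ca, hca, hax⟩ : ∃ c ∈ Z0, ρ a x = c * x :=
      ⟨ρ a x * x⁻¹, hfix a ha, by rw [inv_mul_cancel_right]⟩
    obtain ⟨cb, hcb, hbx⟩ : ∃ c ∈ Z0, ρ b x = c * x :=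
      ⟨ρ b x * x⁻¹, hfix b hb, by rw [inv_mul_cancel_right]⟩
    rw [map_mul, map_mul, MulAut.mul_apply, MulAut.mul_apply, hbx, hax, map_mul, map_mul,
      h1 a _ hcb, h1 b _ hca, hax, hbx, mul_left_comm]

/-- The main lemma. -/
theorem tc_two_primes {r s : ℕ} [Fact r.Prime] [Fact s.Prime] (hrs : r ≠ s)
    (ρ : Γ →* MulAut E) (Z0 : Subgroup E) (h1 : ∀ γ, ∀ x ∈ Z0, ρ γ x = x)
    (h2 : ∀ γ : Γ, γ ≠ 1 → ∀ x, ρ γ x = x → x ∈ Z0)
    (hr : r ∣ Nat.card Γ) (hs : s ∣ Nat.card Γ)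
    (xr : E) (hxr : xr ∉ Z0) (kr : ℕ) (hkr : xr ^ (r ^ kr) = 1)
    (xs : E) (hxs : xs ∉ Z0) (ks : ℕ) (hks : xs ^ (s ^ ks) = 1) : False := by
  obtain ⟨Pr⟩ : Nonempty (Sylow r Γ) := inferInstance
  obtain ⟨Ps⟩ : Nonempty (Sylow s Γ) := inferInstance
  obtain ⟨hNr, _⟩ := tc_sylow_normalizer hrs ρ Z0 h1 h2 Pr hr xr hxr kr hkr xs hxs ks hks
  obtain ⟨hNs, hcs⟩ := tc_sylow_normalizer hrs.symm ρ Z0 h1 h2 Ps hs xs hxs ks hks xr hxr kr hkr
  have hP : Subgroup.normalizer (Ps : Set Γ) ≤ Subgroup.centralizer (Ps : Set Γ) :=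
    fun g hg a ha => hcs a ha g (hNs hg)
  have hle : (Pr : Subgroup Γ) ≤ (MonoidHom.transferSylow Ps hP).ker := by
    intro g hg
    rw [MonoidHom.mem_ker]
    obtain ⟨k, hk⟩ := Pr.isPGroup' ⟨g, hg⟩
    have hk' : g ^ (r ^ k) = 1 := congrArg Subtype.val hk
    obtain ⟨l, hl⟩ := Ps.isPGroup' (MonoidHom.transferSylow Ps hP g)
    have h3 : (MonoidHom.transferSylow Ps hP g) ^ (r ^ k) = 1 := by
      rw [← map_pow, hk', map_one]
    have hcop : (r ^ k).Coprime (s ^ l) :=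
      Nat.Coprime.pow _ _ ((Nat.coprime_primes Fact.out Fact.out).mpr hrs)
    have h4 := Nat.dvd_gcd (orderOf_dvd_of_pow_eq_one h3) (orderOf_dvd_of_pow_eq_one hl)
    rw [hcop.gcd_eq_one, Nat.dvd_one, orderOf_eq_one_iff] at h4
    exact h4
  have htop := Sylow.normalizer_sup_eq_top' Pr hle
  have hker : (MonoidHom.transferSylow Ps hP).ker = ⊤ := by
    rw [eq_top_iff, ← htop]
    exact sup_le (hNr.trans hle) le_rfl
  have hdisj := MonoidHom.ker_transferSylow_disjoint Ps hP (Ps : Subgroup Γ) Ps.isPGroup'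
  rw [hker, top_disjoint] at hdisj
  apply Ps.not_dvd_index
  rw [hdisj, Subgroup.index_bot]
  exact hs

end Cfsg.Agent.H06
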