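import Cfsg.Agent.Lib.H06.TC1
import Cfsg.Agent.Lib.H19.Ito

/-!
Normal subgroups whose elements have two `G`-class sizes: basic lemmas.
-/

set_option autoImplicit false

namespace Cfsg.Agent.H06

open Cfsg.Agent.H19 (cz mem_cz cz_index_eq_one_iff eq_of_le_of_index_eq eq_top_of_conj_cover
  cz_le_cz_pow cz_le_cz_of_mem_zpowers exists_pow_mul_eq_left)

variable {G : Type*} [Group G] [Finite G]

theorem tc_mem_of_pow' {H : Subgroup G} {x : G} {a b : ℕ} (hab : a.Coprime b) (h1 : x ^ a ∈ H)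
    (h2 : x ^ b = 1) : x ∈ H := by
  have h3 : x = (x ^ a) ^ (Nat.gcdA a b) * (x ^ b) ^ (Nat.gcdB a b) := by
    have h4 : (Nat.gcdA a b) * (a : ℤ) + (Nat.gcdB a b) * (b : ℤ) = 1 := by
      have h5 := Nat.gcd_eq_gcd_ab a b
      rw [hab.gcd_eq_one] at h5
      push_cast at h5
      linarith
    rw [← zpow_natCast, ← zpow_natCast, ← zpow_mul, ← zpow_mul, ← zpow_add, mul_comm (a : ℤ),
      mul_comm (b : ℤ), h4, zpow_one]
  rw [h3, h2, one_zpow, mul_one]
  exact H.zpow_mem h1 _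

/-- Splitting an element into its `p`-part and `p'`-part. -/
theorem tc_decomp (x : G) (p : ℕ) [hp : Fact p.Prime] :
    ∃ (a b : G) (k : ℕ), a ∈ Subgroup.zpowers x ∧ b ∈ Subgroup.zpowers x ∧ a * b = x ∧
      a ^ (p ^ k) = 1 ∧ (orderOf b).Coprime p := by
  have hn : orderOf x ≠ 0 := (orderOf_pos x).ne'
  obtain ⟨v, n', hn', hvn⟩ := Nat.exists_eq_pow_mul_and_not_dvd hn p hp.out.ne_one
  have hco : (p ^ v).Coprime n' :=
    Nat.Coprime.pow_left _ ((Nat.Prime.coprime_iff_not_dvd hp.out).mpr hn')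
  -- `K ≡ 0 mod p^v`, `K ≡ 1 mod n'`
  let K : ℕ := Nat.chineseRemainder hco 0 1
  have hK1 : K ≡ 0 [MOD p ^ v] := (Nat.chineseRemainder hco 0 1).2.1
  have hK2 : K ≡ 1 [MOD n'] := (Nat.chineseRemainder hco 0 1).2.2
  let L : ℕ := Nat.chineseRemainder hco 1 0
  have hL1 : L ≡ 1 [MOD p ^ v] := (Nat.chineseRemainder hco 1 0).2.1
  have hL2 : L ≡ 0 [MOD n'] := (Nat.chineseRemainder hco 1 0).2.2
  have hsum : K + L ≡ 1 [MOD orderOf x] := by
    rw [hvn, ← Nat.modEq_and_modEq_iff_modEq_mul hco]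
    constructor
    · simpa using hK1.add hL1
    · simpa using hK2.add hL2
  refine ⟨x ^ L, x ^ K, v, ⟨L, by simp⟩, ⟨K, by simp⟩, ?_, ?_, ?_⟩
  · rw [← pow_add, add_comm]
    have := pow_eq_pow_iff_modEq.mpr hsum
    rwa [pow_one] at this
  · rw [← pow_mul]
    apply (orderOf_dvd_iff_pow_eq_one).mp
    rw [hvn, mul_comm]
    exact Nat.mul_dvd_mul ((Nat.modEq_zero_iff_dvd).mp hL2) (dvd_refl _)
  · have h1 : (x ^ K) ^ n' = 1 := by
      rw [← pow_mul]
      apply (orderOf_dvd_iff_pow_eq_one).mp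
      rw [hvn]
      exact Nat.mul_dvd_mul ((Nat.modEq_zero_iff_dvd).mp hK1) (dvd_refl _)
    have h2 := orderOf_dvd_of_pow_eq_one h1
    exact Nat.Coprime.coprime_dvd_left h2
      ((Nat.Prime.coprime_iff_not_dvd hp.out).mpr hn').symm

section two_sizes

variable (N : Subgroup G) (m : ℕ) (h : ∀ x ∈ N, (cz x).index = 1 ∨ (cz x).index = m)
include h

theorem tc_idx {x : G} (hxN : x ∈ N) (hx : x ∉ Subgroup.center G) : (cz x).index = m :=
  (h x hxN).resolve_left (fun h1 => hx (cz_index_eq_one_iff.mp h1))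

/-- Commuting noncentral elements of coprime orders have the same centralizer. -/
theorem tc_B1 {a b : G} (ha : a ∈ N) (hb : b ∈ N) (haZ : a ∉ Subgroup.center G)
    (hbZ : b ∉ Subgroup.center G) (hc : Commute a b) (hco : (orderOf a).Coprime (orderOf b)) :
    cz a = cz b := by
  obtain ⟨k, hk⟩ := exists_pow_mul_eq_left hc hco
  obtain ⟨k', hk'⟩ := exists_pow_mul_eq_left hc.symm hco.symm
  have hk'' : (a * b) ^ k' = b := by rw [hc.eq]; exact hk'
  have habZ : a * b ∉ Subgroup.center G := fun h0 => haZ (hk ▸ Subgroup.pow_mem _ h0 k)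
  have habN : a * b ∈ N := N.mul_mem ha hb
  have h1 : cz (a * b) ≤ cz a := by
    have := cz_le_cz_pow (a * b) k
    rwa [hk] at this
  have h2 : cz (a * b) ≤ cz b := by
    have := cz_le_cz_pow (a * b) k'
    rwa [hk''] at this
  have i0 := tc_idx N m h habN habZ
  have i1 := tc_idx N m h ha haZ
  have i2 := tc_idx N m h hb hbZ
  rw [← eq_of_le_of_index_eq h1 (i0.trans i1.symm), ← eq_of_le_of_index_eq h2 (i0.trans i2.symm)]

/-- If `p` does not divide `m` then `p`-elements of `N` are central in `N`. -/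
theorem tc_central_of_not_dvd {p : ℕ} [hp : Fact p.Prime] [hN : N.Normal] (hpm : ¬ p ∣ m) {a : G}
    (haN : a ∈ N) {k : ℕ} (hk : a ^ (p ^ k) = 1) {x : G} (hx : x ∈ N) : a * x = x * a := by
  classical
  -- a Sylow subgroup of `N` containing `a`
  have hpa : IsPGroup p (Subgroup.zpowers (⟨a, haN⟩ : N)) := by
    rw [IsPGroup.iff_card, Nat.card_zpowers]
    have h1 : orderOf (⟨a, haN⟩ : N) ∣ p ^ k := by
      apply orderOf_dvd_of_pow_eq_one
      exact Subtype.ext (by simpa using hk)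
    obtain ⟨j, _, hj⟩ := (Nat.dvd_prime_pow hp.out).mp h1
    exact ⟨j, hj⟩
  obtain ⟨Qt, hQt⟩ := hpa.exists_le_sylow
  have haQ : (⟨a, haN⟩ : N) ∈ (Qt : Subgroup N) := hQt (Subgroup.mem_zpowers _)
  set Q : Subgroup G := (Qt : Subgroup N).map N.subtype with hQ
  have hQN : Q ≤ N := Subgroup.map_subtype_le _
  have hQp : IsPGroup p Q := Qt.isPGroup'.map _
  obtain ⟨P0, hP0⟩ := hQp.exists_le_sylow
  have haQ' : a ∈ Q := ⟨⟨a, haN⟩, haQ, rfl⟩
  have hFrat : Subgroup.normalizer (Q : Set G) ⊔ N = ⊤ := Sylow.normalizer_sup_eq_top Qt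
  -- the subgroup of `N` centralizing `Q`
  let A : Subgroup N := (Subgroup.centralizer (Q : Set G)).subgroupOf N
  have hA : A = ⊤ := by
    apply eq_top_of_conj_cover
    rintro ⟨y, hy⟩
    -- `P0` fixes a coset of `cz y`
    have hnd : ¬ p ∣ Nat.card (G ⧸ cz y) := by
      show ¬ p ∣ (cz y).index
      rcases h y hy with h1 | h1
      · rw [h1]
        exact fun h2 => hp.out.one_lt.ne' (Nat.dvd_one.mp h2)
      · rw [h1]
        exact hpm
    obtain ⟨q, hq⟩ := P0.isPGroup'.nonempty_fixed_point_of_prime_not_dvd_card (G ⧸ cz y) hnd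
    induction q using QuotientGroup.induction_on with
    | H g =>
      -- every element of `P0` conjugated by `g` lies in `cz y`
      have hg : ∀ u ∈ (P0 : Subgroup G), g⁻¹ * u * g ∈ cz y := by
        intro u hu
        have h1 : (⟨u, hu⟩ : (P0 : Subgroup G)) • ((g : G) : G ⧸ cz y) = (g : G ⧸ cz y) := hq ⟨u, hu⟩
        have h2 : ((u * g : G) : G ⧸ cz y) = (g : G ⧸ cz y) := h1
        rw [QuotientGroup.eq] at h2
        have h3 : (g⁻¹ * u * g)⁻¹ ∈ cz y := by
          have h4 : (u * g)⁻¹ * g = (g⁻¹ * u * g)⁻¹ := by group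
          rwa [h4] at h2
        exact (cz y).inv_mem_iff.mp h3
      -- Frattini
      have hgmem : g ∈ Subgroup.normalizer (Q : Set G) ⊔ N := by rw [hFrat]; trivial
      obtain ⟨w, hw, n, hn, hgwn⟩ := Subgroup.mem_sup_of_normal_right.mp hgmem
      refine ⟨⟨n, hn⟩, ?_⟩
      show (n * y * n⁻¹ : G) ∈ Subgroup.centralizer (Q : Set G)
      rw [Subgroup.mem_centralizer_iff]
      intro v hv
      -- `w v w⁻¹ ∈ Q ≤ P0`
      have hv' : w * v * w⁻¹ ∈ Q := (Subgroup.mem_normalizer_iff.mp hw v).mp hv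
      have h5 := hg _ (hP0 hv')
      rw [mem_cz] at h5
      have h6 : g⁻¹ * (w * v * w⁻¹) * g = n⁻¹ * v * n := by
        rw [← hgwn]; group
      rw [h6] at h5
      calc v * (n * y * n⁻¹) = n * ((n⁻¹ * v * n) * y) * n⁻¹ := by group
        _ = n * (y * (n⁻¹ * v * n)) * n⁻¹ := by rw [h5]
        _ = n * y * n⁻¹ * v := by group
  have hxA : (⟨x, hx⟩ : N) ∈ A := by rw [hA]; trivial
  have h7 : x ∈ Subgroup.centralizer (Q : Set G) := hxA
  rw [Subgroup.mem_centralizer_iff] at h7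
  exact h7 a haQ'

/-- A noncentral `r`-element in a centralizer. -/
theorem tc_exists_pelt {r : ℕ} [hr : Fact r.Prime] {y u : G} (hyN : y ∈ N) (huN : u ∈ N)
    (hy : y ∉ Subgroup.center G) (hu : u ∉ Subgroup.center G) {i : ℕ} (hui : u ^ (r ^ i) = 1) :
    ∃ z ∈ cz y, z ∉ Subgroup.center G ∧ ∃ k, z ^ (r ^ k) = 1 := by
  by_contra hno
  push Not at hno
  obtain ⟨Qy⟩ : Nonempty (Sylow r (cz y)) := inferInstance
  set R1 : Subgroup G := (Qy : Subgroup (cz y)).map (cz y).subtype with hR1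
  have hR1le : R1 ≤ cz y := Subgroup.map_subtype_le _
  have hR1p : IsPGroup r R1 := Qy.isPGroup'.map _
  have hR1Z : R1 ≤ Subgroup.center G := by
    intro z hz
    by_contra hzZ
    obtain ⟨k, hk⟩ := hR1p ⟨z, hz⟩
    exact hno z (hR1le hz) hzZ k (congrArg Subtype.val hk)
  haveI hR1n : R1.Normal := ⟨fun n hn g => by
    have h1 := Subgroup.mem_center_iff.mp (hR1Z hn) g
    rw [h1, mul_inv_cancel_right]
    exact hn⟩
  have hup : IsPGroup r (Subgroup.zpowers u) := by
    rw [IsPGroup.iff_card, Nat.card_zpowers]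
    obtain ⟨j, _, hj⟩ := (Nat.dvd_prime_pow hr.out).mp (orderOf_dvd_of_pow_eq_one hui)
    exact ⟨j, hj⟩
  set U : Subgroup G := Subgroup.zpowers u ⊔ R1 with hU
  have hUp : IsPGroup r U := hup.to_sup_of_normal_right hR1p
  have hUle : U ≤ cz u := by
    apply sup_le
    · rw [Subgroup.zpowers_le]
      exact mem_cz.mpr rfl
    · intro z hz
      exact mem_cz.mpr (Subgroup.mem_center_iff.mp (hR1Z hz) u).symm
  have hlt : R1 < U := by
    refine lt_of_le_of_ne le_sup_right ?_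
    intro h1
    apply hu
    apply hR1Z
    rw [h1]
    exact (le_sup_left : Subgroup.zpowers u ≤ U) (Subgroup.mem_zpowers u)
  have hcardlt : Nat.card R1 < Nat.card U := by
    by_contra h9
    exact hlt.ne (Subgroup.eq_of_le_of_card_ge hlt.le (not_lt.mp h9))
  -- orders of the two centralizers agree
  have hcz : Nat.card (cz u) = Nat.card (cz y) := by
    have h1 := (cz u).card_mul_index
    have h2 := (cz y).card_mul_index
    rw [tc_idx N m h huN hu] at h1
    rw [tc_idx N m h hyN hy] at h2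
    have hm : 0 < m := by
      rw [← tc_idx N m h huN hu]
      exact Nat.pos_of_ne_zero Subgroup.FiniteIndex.index_ne_zero
    exact Nat.eq_of_mul_eq_mul_right hm (h1.trans h2.symm)
  have hcR1 : Nat.card R1 = r ^ (Nat.card (cz y)).factorization r := by
    rw [hR1, Subgroup.card_subtype]
    exact Qy.card_eq_multiplicity
  obtain ⟨j, hj⟩ := IsPGroup.iff_card.mp hUp
  have hdvd : Nat.card U ∣ Nat.card (cz u) := Subgroup.card_dvd_of_le hUle
  rw [hcz, hj] at hdvd
  have hj2 := (Nat.Prime.pow_dvd_iff_le_factorization hr.out Nat.card_pos.ne').mp hdvd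
  rw [hcR1, hj] at hcardlt
  exact absurd hcardlt (not_lt.mpr (Nat.pow_le_pow_right hr.out.pos hj2))

end two_sizes

/-- A normal subgroup `U ≠ 1` of a `p`-group meets the centre. -/
theorem tc_normal_center {K : Type*} [Group K] [Finite K] {p : ℕ} [Fact p.Prime]
    (hK : IsPGroup p K) (U : Subgroup K) [U.Normal] (hU : U ≠ ⊥) :
    ∃ b ∈ U, b ≠ 1 ∧ b ∈ Subgroup.center K := by
  have hK' : IsPGroup p (ConjAct K) := hK.of_equiv ConjAct.toConjAct
  have hUp : IsPGroup p U := hK.to_subgroup U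
  haveI : Nontrivial U := (Subgroup.nontrivial_iff_ne_bot U).mpr hU
  obtain ⟨n, hn0, hn⟩ := hUp.nontrivial_iff_card.mp inferInstance
  have hdvd : p ∣ Nat.card U := by
    rw [hn]
    exact dvd_pow_self _ (Nat.pos_iff_ne_zero.mp hn0)
  have hfix : (1 : U) ∈ MulAction.fixedPoints (ConjAct K) U := by
    intro g
    exact smul_one g
  obtain ⟨b, hb, hb1⟩ := hK'.exists_fixed_point_of_prime_dvd_card_of_fixed_point U hdvd hfix
  refine ⟨b, b.2, fun h1 => hb1 (Subtype.ext h1.symm), ?_⟩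
  rw [Subgroup.mem_center_iff]
  intro g
  have h1 : (ConjAct.toConjAct g) • b = b := hb _
  have h2 := congrArg Subtype.val h1
  rw [ConjAct.Subgroup.val_conj_smul, ConjAct.smul_def, ConjAct.ofConjAct_toConjAct] at h2
  calc g * (b : K) = (g * b * g⁻¹) * g := by group
    _ = b * g := by rw [h2]

/-- A noncentral element of `S ⊓ N` central modulo `Z(G)` in `S`. -/
theorem tc_central_mod {s : ℕ} [Fact s.Prime] (N : Subgroup G) [N.Normal] (S : Sylow s G) {y0 : G}
    (hy0S : y0 ∈ (S : Subgroup G)) (hy0N : y0 ∈ N) (hy0 : y0 ∉ Subgroup.center G) :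
    ∃ y ∈ (S : Subgroup G), y ∈ N ∧ y ∉ Subgroup.center G ∧
      ∀ g ∈ (S : Subgroup G), g * y * g⁻¹ * y⁻¹ ∈ Subgroup.center G := by
  let Z' : Subgroup (S : Subgroup G) := (Subgroup.center G).subgroupOf (S : Subgroup G)
  haveI : Z'.Normal := by
    show ((Subgroup.center G).subgroupOf (S : Subgroup G)).Normal
    infer_instance
  let K := (S : Subgroup G) ⧸ Z'
  let f : (S : Subgroup G) →* K := QuotientGroup.mk' Z'
  have hf : Function.Surjective f := QuotientGroup.mk'_surjective Z'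
  have hKp : IsPGroup s K := S.isPGroup'.to_quotient Z'
  let U : Subgroup K := (N.subgroupOf (S : Subgroup G)).map f
  haveI hUn : U.Normal := Subgroup.Normal.map inferInstance f hf
  have hU : U ≠ ⊥ := by
    intro hbot
    have h1 : f ⟨y0, hy0S⟩ ∈ U := ⟨⟨y0, hy0S⟩, hy0N, rfl⟩
    rw [hbot, Subgroup.mem_bot] at h1
    apply hy0
    have h2 : (⟨y0, hy0S⟩ : (S : Subgroup G)) ∈ Z' := (QuotientGroup.eq_one_iff _).mp h1
    exact h2
  obtain ⟨b, ⟨y', hy'N, rfl⟩, hb1, hbZ⟩ := tc_normal_center hKp U hU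
  refine ⟨y', y'.2, hy'N, ?_, ?_⟩
  · intro h1
    apply hb1
    exact (QuotientGroup.eq_one_iff _).mpr h1
  · intro g hg
    have h1 := Subgroup.mem_center_iff.mp hbZ (f ⟨g, hg⟩)
    have h2 : f (⟨g, hg⟩ * y' * (⟨g, hg⟩ : (S : Subgroup G))⁻¹ * y'⁻¹) = 1 := by
      rw [map_mul, map_mul, map_mul, map_inv, map_inv, h1]
      group
    have h3 := (QuotientGroup.eq_one_iff _).mp h2
    exact h3

end Cfsg.Agent.H06
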