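import Cfsg.Agent.Lib.H06.TC2

/-!
Normal subgroups whose elements have two `G`-class sizes: the main contradiction.
-/

set_option autoImplicit false

namespace Cfsg.Agent.H06

open Cfsg.Agent.H19 (cz mem_cz cz_index_eq_one_iff eq_of_le_of_index_eq eq_top_of_conj_cover
  cz_le_cz_pow cz_le_cz_of_mem_zpowers exists_pow_mul_eq_left)

variable {G : Type*} [Group G] [Finite G]

theorem tc_dvd_card_of_pow {Γ : Type*} [Group Γ] [Finite Γ] {r : ℕ} (hr : r.Prime) {g : Γ}
    (hg : g ≠ 1) {k : ℕ} (hk : g ^ (r ^ k) = 1) : r ∣ Nat.card Γ := by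
  obtain ⟨j, _, hj⟩ := (Nat.dvd_prime_pow hr).mp (orderOf_dvd_of_pow_eq_one hk)
  have hj0 : j ≠ 0 := by
    rintro rfl
    rw [pow_zero, orderOf_eq_one_iff] at hj
    exact hg hj
  exact (dvd_pow_self r hj0).trans (hj ▸ orderOf_dvd_natCard g)

/-- The action of the normalizer of `K` on `A`, as a hom to automorphisms. -/
def tcRho (T A : Subgroup G) (hAT : ∀ g ∈ T, ∀ x ∈ A, g * x * g⁻¹ ∈ A) : T →* MulAut A :=
  MonoidHom.mk' (fun g =>
    { toFun := fun x => ⟨(g : G) * x * (g : G)⁻¹, hAT g g.2 x x.2⟩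
      invFun := fun x => ⟨(g : G)⁻¹ * x * g, by
        have h1 := hAT (g⁻¹ : T).1 (g⁻¹ : T).2 x x.2
        simpa using h1⟩
      left_inv := by
        intro x
        apply Subtype.ext
        show (g : G)⁻¹ * ((g : G) * x * (g : G)⁻¹) * g = x
        group
      right_inv := by
        intro x
        apply Subtype.ext
        show (g : G) * ((g : G)⁻¹ * x * g) * (g : G)⁻¹ = x
        group
      map_mul' := by
        intro x y
        apply Subtype.ext
        show (g : G) * (x * y : G) * (g : G)⁻¹ = ((g : G) * x * (g : G)⁻¹) * ((g : G) * y * (g : G)⁻¹)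
        group })
    (by
      intro a b
      ext x
      show ((a * b : T) : G) * x * ((a * b : T) : G)⁻¹ = (a : G) * ((b : G) * x * (b : G)⁻¹) * (a : G)⁻¹
      push_cast
      group)

theorem tcRho_apply (T A : Subgroup G) (hAT : ∀ g ∈ T, ∀ x ∈ A, g * x * g⁻¹ ∈ A) (g : T) (x : A) :
    ((tcRho T A hAT g x : A) : G) = (g : G) * x * (g : G)⁻¹ := rfl

/-- The main contradiction. -/
theorem tc_machine {r s : ℕ} [hr : Fact r.Prime] [hs : Fact s.Prime] (hrs : r ≠ s)
    (N : Subgroup G) [hNn : N.Normal] (m : ℕ) (h : ∀ x ∈ N, (cz x).index = 1 ∨ (cz x).index = m)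
    (hrm : r ∣ m) (hsm : s ∣ m) (R : Sylow r G) (hRN : (R : Subgroup G) ≤ N)
    (hR : ¬ (R : Subgroup G) ≤ Subgroup.center G)
    {y0 : G} (hy0N : y0 ∈ N) (hy0 : y0 ∉ Subgroup.center G) {ky : ℕ} (hky : y0 ^ (s ^ ky) = 1) :
    False := by
  classical
  -- all `r`-elements lie in `N`
  have hrN : ∀ (z : G) (k : ℕ), z ^ (r ^ k) = 1 → z ∈ N := by
    intro z k hz
    have hnd : ¬ r ∣ N.index := fun h1 =>
      R.not_dvd_index (h1.trans (Subgroup.index_dvd_of_le hRN))
    have hco : N.index.Coprime (r ^ k) :=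
      Nat.Coprime.pow_right _ ((Nat.Prime.coprime_iff_not_dvd hr.out).mpr hnd).symm
    exact tc_mem_of_pow' hco (N.pow_index_mem z) hz
  -- `S` and `y`
  obtain ⟨S, hy0S⟩ : ∃ S : Sylow s G, y0 ∈ (S : Subgroup G) := by
    have hp : IsPGroup s (Subgroup.zpowers y0) := by
      rw [IsPGroup.iff_card, Nat.card_zpowers]
      obtain ⟨j, _, hj⟩ := (Nat.dvd_prime_pow hs.out).mp (orderOf_dvd_of_pow_eq_one hky)
      exact ⟨j, hj⟩
    obtain ⟨S, hS⟩ := hp.exists_le_sylow
    exact ⟨S, hS (Subgroup.mem_zpowers y0)⟩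
  obtain ⟨y, hyS, hyN, hyZ, hyc⟩ := tc_central_mod N S hy0S hy0N hy0
  obtain ⟨ky', hky'⟩ : ∃ k, y ^ (s ^ k) = 1 := by
    obtain ⟨k, hk⟩ := S.isPGroup' ⟨y, hyS⟩
    exact ⟨k, congrArg Subtype.val hk⟩
  -- a noncentral `r`-element
  obtain ⟨u, huR, huZ⟩ := Set.not_subset.mp hR
  obtain ⟨ku, hku⟩ : ∃ k, u ^ (r ^ k) = 1 := by
    obtain ⟨k, hk⟩ := R.isPGroup' ⟨u, huR⟩
    exact ⟨k, congrArg Subtype.val hk⟩
  obtain ⟨z, hzK, hzZ, kz, hkz⟩ := tc_exists_pelt N m h hyN (hRN huR) hyZ huZ hku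
  have hzN := hrN z kz hkz
  have hcoprs : ∀ {a b : G} {i j : ℕ}, a ^ (r ^ i) = 1 → b ^ (s ^ j) = 1 →
      (orderOf a).Coprime (orderOf b) := by
    intro a b i j ha hb
    exact Nat.Coprime.coprime_dvd_left (orderOf_dvd_of_pow_eq_one ha)
      (Nat.Coprime.coprime_dvd_right (orderOf_dvd_of_pow_eq_one hb)
        (Nat.Coprime.pow _ _ ((Nat.coprime_primes hr.out hs.out).mpr hrs)))
  have hzy : cz z = cz y := by
    apply tc_B1 N m h hzN hyN hzZ hyZ _ (hcoprs hkz hky')
    exact (mem_cz.mp hzK)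
  -- the subgroup `A`
  set K : Subgroup G := cz y with hK
  let A : Subgroup G := K ⊓ N
  have hAprop : ∀ x ∈ A, x ∉ Subgroup.center G → cz x = K := by
    intro x hxA hxZ
    obtain ⟨a, b, k, ha, hb, hab, hak, hbco⟩ := tc_decomp x r
    have hAx : Subgroup.zpowers x ≤ A := by
      rw [Subgroup.zpowers_le]
      exact hxA
    have hb' := hAx hb
    have ha' := hAx ha
    by_cases hbZ : b ∈ Subgroup.center G
    · have haZ : a ∉ Subgroup.center G := fun h1 => hxZ (hab ▸ Subgroup.mul_mem _ h1 hbZ)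
      have h1 : cz a = K := by
        apply tc_B1 N m h ha'.2 hyN haZ hyZ _ (hcoprs hak hky')
        exact mem_cz.mp ha'.1
      have h2 : cz x ≤ cz a := cz_le_cz_of_mem_zpowers ha
      rw [← h1]
      exact eq_of_le_of_index_eq h2 ((tc_idx N m h hxA.2 hxZ).trans (tc_idx N m h ha'.2 haZ).symm)
    · have hco : (orderOf b).Coprime (orderOf z) :=
        Nat.Coprime.coprime_dvd_right (orderOf_dvd_of_pow_eq_one hkz)
          (Nat.Coprime.pow_right _ hbco)
      have h1 : cz b = cz z := by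
        apply tc_B1 N m h hb'.2 hzN hbZ hzZ _ hco
        have h3 : b ∈ cz z := by rw [hzy]; exact hb'.1
        exact mem_cz.mp h3
      have h2 : cz x ≤ cz b := cz_le_cz_of_mem_zpowers hb
      rw [← hzy, ← h1]
      exact eq_of_le_of_index_eq h2 ((tc_idx N m h hxA.2 hxZ).trans (tc_idx N m h hb'.2 hbZ).symm)
  have hKA : ∀ g ∈ K, ∀ x ∈ A, g * x = x * g := by
    intro g hg x hx
    by_cases hxZ : x ∈ Subgroup.center G
    · exact Subgroup.mem_center_iff.mp hxZ g
    · rw [← hAprop x hx hxZ] at hg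
      exact mem_cz.mp hg
  have hAcomm : ∀ a ∈ A, ∀ b ∈ A, a * b = b * a := fun a ha b hb => hKA a ha.1 b hb
  let T : Subgroup G := Subgroup.normalizer (K : Set G)
  have hAT : ∀ g ∈ T, ∀ x ∈ A, g * x * g⁻¹ ∈ A := by
    intro g hg x hx
    exact ⟨(Subgroup.mem_normalizer_iff.mp hg x).mp hx.1, hNn.conj_mem x hx.2 g⟩
  -- elements of `S` normalize `K`
  have hST : ∀ g ∈ (S : Subgroup G), g ∈ T := by
    intro g hg
    rw [Subgroup.mem_normalizer_iff]
    intro k
    have h1 : ∀ (g' : G), g' ∈ (S : Subgroup G) → ∀ k' : G, k' ∈ K → g' * k' * g'⁻¹ ∈ K := by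
      intro g' hg' k' hk'
      rw [hK, mem_cz] at hk' ⊢
      obtain ⟨c, hc, hy'⟩ : ∃ c ∈ Subgroup.center G, g'⁻¹ * y * g' = c * y :=
        ⟨_, hyc g'⁻¹ ((S : Subgroup G).inv_mem hg'), by group⟩
      have hkc := Subgroup.mem_center_iff.mp hc k'
      have h3 : k' * (g'⁻¹ * y * g') = (g'⁻¹ * y * g') * k' := by
        rw [hy']
        calc k' * (c * y) = (k' * c) * y := by group
          _ = (c * k') * y := by rw [hkc]
          _ = c * (k' * y) := by group
          _ = c * (y * k') := by rw [hk']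
          _ = (c * y) * k' := by group
      calc g' * k' * g'⁻¹ * y = g' * (k' * (g'⁻¹ * y * g')) * g'⁻¹ := by group
        _ = g' * ((g'⁻¹ * y * g') * k') * g'⁻¹ := by rw [h3]
        _ = y * (g' * k' * g'⁻¹) := by group
    constructor
    · exact h1 g hg k
    · intro h2
      have h3 := h1 g⁻¹ ((S : Subgroup G).inv_mem hg) _ h2
      have h4 : g⁻¹ * (g * k * g⁻¹) * g⁻¹⁻¹ = k := by group
      rwa [h4] at h3
  -- an `s`-element of `T` outside `K`
  obtain ⟨g1, hg1S, hg1K⟩ : ∃ g ∈ (S : Subgroup G), g ∉ K := by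
    by_contra hno
    push Not at hno
    have h1 : (S : Subgroup G) ≤ K := hno
    have h2 := Subgroup.index_dvd_of_le h1
    rw [hK, tc_idx N m h hyN hyZ] at h2
    exact S.not_dvd_index (hsm.trans h2)
  obtain ⟨kg, hkg⟩ : ∃ k, g1 ^ (s ^ k) = 1 := by
    obtain ⟨k, hk⟩ := S.isPGroup' ⟨g1, hg1S⟩
    exact ⟨k, congrArg Subtype.val hk⟩
  -- an `r`-element of `T` outside `K`
  obtain ⟨t, htT, htK, kt, hkt⟩ : ∃ t ∈ T, t ∉ K ∧ ∃ k, t ^ (r ^ k) = 1 := by
    have hzp : IsPGroup r (Subgroup.zpowers (⟨z, hzK⟩ : K)) := by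
      rw [IsPGroup.iff_card, Nat.card_zpowers]
      have h1 : orderOf (⟨z, hzK⟩ : K) ∣ r ^ kz := by
        apply orderOf_dvd_of_pow_eq_one
        exact Subtype.ext (by simpa using hkz)
      obtain ⟨j, _, hj⟩ := (Nat.dvd_prime_pow hr.out).mp h1
      exact ⟨j, hj⟩
    obtain ⟨Q, hQ⟩ := hzp.exists_le_sylow
    let R' : Subgroup G := (Q : Subgroup K).map K.subtype
    have hR'K : R' ≤ K := Subgroup.map_subtype_le _
    have hR'p : IsPGroup r R' := Q.isPGroup'.map _
    have hzR' : z ∈ R' := ⟨⟨z, hzK⟩, hQ (Subgroup.mem_zpowers _), rfl⟩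
    have hR'A : R' ≤ A := by
      intro x hx
      obtain ⟨k, hk⟩ := hR'p ⟨x, hx⟩
      exact ⟨hR'K hx, hrN x k (congrArg Subtype.val hk)⟩
    obtain ⟨R2, hR2⟩ := hR'p.exists_le_sylow
    have hne : R' ≠ (R2 : Subgroup G) := by
      intro h1
      have h2 : (R2 : Subgroup G) ≤ K := h1 ▸ hR'K
      have h3 := Subgroup.index_dvd_of_le h2
      rw [hK, tc_idx N m h hyN hyZ] at h3
      exact R2.not_dvd_index (hrm.trans h3)
    -- normalizer grows
    haveI : Group.IsNilpotent (R2 : Subgroup G) := R2.isPGroup'.isNilpotent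
    let H : Subgroup (R2 : Subgroup G) := R'.subgroupOf (R2 : Subgroup G)
    have hHne : H < ⊤ := by
      refine lt_top_iff_ne_top.mpr ?_
      intro h1
      apply hne
      apply le_antisymm hR2
      intro x hx
      have h2 : (⟨x, hx⟩ : (R2 : Subgroup G)) ∈ H := by rw [h1]; trivial
      exact h2
    have hlt := Group.normalizerCondition_of_isNilpotent H hHne
    obtain ⟨t', ht'N, ht'H⟩ := SetLike.exists_of_lt hlt
    have hnorm : ∀ x : G, x ∈ R' → (t' : G) * x * (t' : G)⁻¹ ∈ R' ∧ (t' : G)⁻¹ * x * t' ∈ R' := by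
      intro x hx
      have hx2 := hR2 hx
      constructor
      · have h1 := (Subgroup.mem_normalizer_iff.mp ht'N ⟨x, hx2⟩).mp hx
        exact h1
      · have hinv : t'⁻¹ ∈ Subgroup.normalizer (H : Set (R2 : Subgroup G)) := Subgroup.inv_mem _ ht'N
        have h1 := (Subgroup.mem_normalizer_iff.mp hinv (⟨x, hx2⟩ : (R2 : Subgroup G))).mp hx
        have h2 : ((t'⁻¹ * ⟨x, hx2⟩ * t'⁻¹⁻¹ : (R2 : Subgroup G)) : G) ∈ R' := h1
        simpa using h2
    have ht'K : (t' : G) ∉ K := by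
      intro htK
      -- `t'` would lie in `Q`
      have hp : IsPGroup r (Subgroup.zpowers (⟨(t' : G), htK⟩ : K)) := by
        rw [IsPGroup.iff_card, Nat.card_zpowers]
        obtain ⟨k, hk⟩ := R2.isPGroup' t'
        have h1 : orderOf (⟨(t' : G), htK⟩ : K) ∣ r ^ k := by
          apply orderOf_dvd_of_pow_eq_one
          apply Subtype.ext
          have := congrArg Subtype.val hk
          simpa using this
        obtain ⟨j, _, hj⟩ := (Nat.dvd_prime_pow hr.out).mp h1
        exact ⟨j, hj⟩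
      have h2 := hp.inf_normalizer_sylow Q
      have h3' : (⟨(t' : G), htK⟩ : K) ∈ Subgroup.normalizer ((Q : Subgroup K) : Set K) := by
        rw [Subgroup.mem_normalizer_iff]
        intro q
        constructor
        · intro hq
          have h4 : (q : G) ∈ R' := ⟨q, hq, rfl⟩
          obtain ⟨q', hq', hq'e⟩ := (hnorm _ h4).1
          have h5 : q' = (⟨(t' : G), htK⟩ : K) * q * (⟨(t' : G), htK⟩ : K)⁻¹ := Subtype.ext hq'e
          rw [← h5]
          exact hq'
        · intro hq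
          have h4 : ((⟨(t' : G), htK⟩ : K) * q * (⟨(t' : G), htK⟩ : K)⁻¹ : K).1 ∈ R' := ⟨_, hq, rfl⟩
          obtain ⟨q', hq', hq'e⟩ := (hnorm _ h4).2
          have h5 : q' = q := by
            apply Subtype.ext
            have h6 : (q' : G) = (t' : G)⁻¹ * ((t' : G) * q * (t' : G)⁻¹) * t' := hq'e
            rw [h6]
            group
          rw [← h5]
          exact hq'
      have h3 : (⟨(t' : G), htK⟩ : K) ∈ Subgroup.zpowers (⟨(t' : G), htK⟩ : K) ⊓
          Subgroup.normalizer (Q : Set K) := ⟨Subgroup.mem_zpowers _, h3'⟩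
      rw [h2] at h3
      exact ht'H (show (t' : G) ∈ R' from ⟨_, h3.2, rfl⟩)
    refine ⟨t', ?_, ht'K, ?_⟩
    · -- `t'` normalizes `K`
      rw [Subgroup.mem_normalizer_iff]
      intro k
      have hz' := (hnorm z hzR').2
      set z' : G := (t' : G)⁻¹ * z * t' with hz'def
      have hz'Z : z' ∉ Subgroup.center G := by
        intro h1
        apply hzZ
        have h2 : z = (t' : G) * z' * (t' : G)⁻¹ := by rw [hz'def]; group
        rw [h2, Subgroup.mem_center_iff.mp h1 (t' : G), mul_inv_cancel_right]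
        exact h1
      have hcz' : cz z' = K := hAprop z' (hR'A hz') hz'Z
      have hK' : K = cz z := hzy.symm
      constructor
      · intro hk
        rw [hK', mem_cz]
        rw [← hcz', mem_cz] at hk
        calc (t' : G) * k * (t' : G)⁻¹ * z = (t' : G) * (k * z') * (t' : G)⁻¹ := by
              rw [hz'def]; group
          _ = (t' : G) * (z' * k) * (t' : G)⁻¹ := by rw [hk]
          _ = z * ((t' : G) * k * (t' : G)⁻¹) := by rw [hz'def]; group
      · intro hk
        rw [hK', mem_cz] at hk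
        rw [← hcz', mem_cz]
        calc k * z' = (t' : G)⁻¹ * (((t' : G) * k * (t' : G)⁻¹) * z) * t' := by
              rw [hz'def]; group
          _ = (t' : G)⁻¹ * (z * ((t' : G) * k * (t' : G)⁻¹)) * t' := by rw [hk]
          _ = z' * k := by rw [hz'def]; group
    · obtain ⟨k, hk⟩ := R2.isPGroup' t'
      exact ⟨k, congrArg Subtype.val hk⟩
  -- apply the abstract lemma
  letI instA : CommGroup A :=
    { (inferInstance : Group A) with
      mul_comm := fun a b => Subtype.ext (hAcomm a a.2 b b.2) }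
  let ρ : T →* MulAut A := tcRho T A hAT
  have hρ1 : ∀ g : T, (g : G) ∈ K → ρ g = 1 := by
    intro g hg
    ext x
    show (g : G) * x * (g : G)⁻¹ = x
    rw [hKA g hg x x.2, mul_inv_cancel_right]
  have hρne : ∀ g : T, (g : G) ∉ K → ρ g ≠ 1 := by
    intro g hg h1
    apply hg
    have hy_mem : y ∈ A := ⟨mem_cz.mpr rfl, hyN⟩
    have h2 := congrArg (fun f : MulAut A => ((f ⟨y, hy_mem⟩ : A) : G)) h1
    have h3 : (g : G) * y * (g : G)⁻¹ = y := h2
    rw [hK, mem_cz]
    calc (g : G) * y = ((g : G) * y * (g : G)⁻¹) * g := by group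
      _ = y * g := by rw [h3]
  let Γ := T ⧸ ρ.ker
  let ρ' : Γ →* MulAut A := QuotientGroup.kerLift ρ
  let Z0 : Subgroup A := (Subgroup.center G).subgroupOf A
  have h1 : ∀ γ : Γ, ∀ x ∈ Z0, ρ' γ x = x := by
    intro γ x hx
    induction γ using QuotientGroup.induction_on with
    | H g =>
      apply Subtype.ext
      show (g : G) * x * (g : G)⁻¹ = x
      have h3 : (x : G) ∈ Subgroup.center G := hx
      rw [(Subgroup.mem_center_iff.mp h3 (g : G)), mul_inv_cancel_right]
  have h2 : ∀ γ : Γ, γ ≠ 1 → ∀ x, ρ' γ x = x → x ∈ Z0 := by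
    intro γ hγ x hx
    induction γ using QuotientGroup.induction_on with
    | H g =>
      by_contra hxZ
      have hxZ' : (x : G) ∉ Subgroup.center G := hxZ
      have h3 : (g : G) * x * (g : G)⁻¹ = x := congrArg Subtype.val hx
      have h4 : (g : G) ∈ K := by
        rw [← hAprop x x.2 hxZ', mem_cz]
        calc (g : G) * x = ((g : G) * x * (g : G)⁻¹) * g := by group
          _ = x * g := by rw [h3]
      apply hγ
      rw [QuotientGroup.eq_one_iff]
      exact hρ1 g h4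
  have hΓdvd : ∀ (p k : ℕ) (g : G), p.Prime → g ∈ T → g ∉ K → g ^ (p ^ k) = 1 → p ∣ Nat.card Γ := by
    intro p k g hp hgT hgK hgk
    apply tc_dvd_card_of_pow hp (g := ((⟨g, hgT⟩ : T) : Γ)) (k := k)
    · intro h3
      have h4 : (⟨g, hgT⟩ : T) ∈ ρ.ker := (QuotientGroup.eq_one_iff _).mp h3
      exact hρne ⟨g, hgT⟩ hgK h4
    · rw [← QuotientGroup.mk_pow]
      have : (⟨g, hgT⟩ : T) ^ (p ^ k) = 1 := Subtype.ext (by simpa using hgk)
      rw [this]
      rfl
  have hzA : z ∈ A := ⟨hzK, hzN⟩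
  have hyA : y ∈ A := ⟨mem_cz.mpr rfl, hyN⟩
  exact tc_two_primes hrs ρ' Z0 h1 h2
    (hΓdvd r kt t hr.out htT htK hkt) (hΓdvd s kg g1 hs.out (hST g1 hg1S) hg1K hkg)
    ⟨z, hzA⟩ hzZ kz (Subtype.ext (by simpa using hkz))
    ⟨y, hyA⟩ hyZ ky' (Subtype.ext (by simpa using hky'))

end Cfsg.Agent.H06
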