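import Cfsg.Agent.Lib.H01.Solv2
import Cfsg.Agent.Lib.H01.Fitting
import Cfsg.Agent.Lib.H01.Coprime
import Cfsg.Agent.Lib.H06.CoherFrob

/-!
# Elementary abelian 2-groups acting on solvable groups of odd order: commuting weight elements
-/

set_option autoImplicit false

namespace Cfsg.Agent.H06.ThDih

open Cfsg
open scoped commutatorElement

universe u

variable {G : Type u} [Group G]

/-- Decomposition of an element with respect to an involution. -/
theorem exists_decomp {a g : G} (ha : a * a = 1) (hodd : Odd (orderOf (g⁻¹ * (a * g * a⁻¹)))) :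
    ∃ c i : G, g = c * i ∧ a * c * a⁻¹ = c ∧ a * i * a⁻¹ = i⁻¹ ∧
      i ∈ Subgroup.zpowers (g⁻¹ * (a * g * a⁻¹)) := by
  have hainv : a⁻¹ = a := inv_eq_of_mul_eq_one_left ha
  set t := g⁻¹ * (a * g * a⁻¹) with ht
  have hta : a * t * a⁻¹ = t⁻¹ := by
    have h1 : t⁻¹ = a * g⁻¹ * a * g := by
      rw [ht]; simp only [mul_inv_rev, inv_inv, hainv, mul_assoc]
    have h2 : a * t * a⁻¹ = a * g⁻¹ * a * g * (a * a) := by
      rw [ht, hainv]; simp only [mul_assoc]
    rw [h1, h2, ha, mul_one]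
  obtain ⟨k, hk⟩ := hodd
  have ht1 : t * t ^ k * t ^ k = 1 := by
    have : t * t ^ k * t ^ k = t ^ (2 * k + 1) := by group
    rw [this, ← hk, pow_orderOf_eq_one]
  have ht2 : t * t ^ k = (t ^ k)⁻¹ := eq_inv_of_mul_eq_one_left ht1
  have hti : a * t ^ k * a⁻¹ = (t ^ k)⁻¹ := by
    rw [← conj_pow, hta, inv_pow]
  have hgt : a * g * a⁻¹ = g * t := by rw [ht]; group
  refine ⟨g * (t ^ k)⁻¹, t ^ k, by group, ?_, hti, Subgroup.npow_mem_zpowers t k⟩
  have h1 : a * (t ^ k)⁻¹ * a⁻¹ = t ^ k := by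
    rw [← conj_inv, hti, inv_inv]
  calc a * (g * (t ^ k)⁻¹) * a⁻¹ = (a * g * a⁻¹) * (a * (t ^ k)⁻¹ * a⁻¹) := by group
    _ = g * (t ^ k)⁻¹ := by rw [hgt, h1, mul_assoc, ht2]

/-- In an element of odd order, square roots stay in a subgroup. -/
theorem mem_of_mul_self_mem {N : Subgroup G} {x : G} (hodd : Odd (orderOf x)) (h : x * x ∈ N) :
    x ∈ N := by
  obtain ⟨k, hk⟩ := hodd
  have h1 : x = (x * x) ^ (k + 1) := by
    have h2 : (x * x) ^ (k + 1) = x ^ (2 * k + 1) * x := by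
      rw [← pow_two, ← pow_mul, ← pow_succ]; congr 1
    rw [h2, ← hk, pow_orderOf_eq_one, one_mul]
  rw [h1]
  exact N.pow_mem h _

theorem eq_one_of_mul_self {x : G} (hodd : Odd (orderOf x)) (h : x * x = 1) : x = 1 := by
  have : x ∈ (⊥ : Subgroup G) := mem_of_mul_self_mem hodd (by rw [h]; exact Subgroup.one_mem _)
  simpa using this

/-- Lifting fixed points: an element fixed modulo `S` by an involution `d` is a product of a fixed
point and an element of `S`. -/
theorem lift_fixed {T S : Subgroup G} {a d : G} (hd : d * d = 1)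
    (hodd : ∀ x ∈ T, Odd (orderOf x)) (hST : S ≤ T)
    (hTd : ∀ x ∈ T, d * x * d⁻¹ ∈ T)
    (hcomm : ∀ x ∈ T, ∀ y ∈ T, x * y * x⁻¹ * y⁻¹ ∈ S)
    (hS : ∀ x ∈ S, a * x * a⁻¹ = x)
    (h1 : ∀ x ∈ T, d * x * d⁻¹ = x → a * x * a⁻¹ = x)
    {w : G} (hw : w ∈ T) (hfix : (d * w * d⁻¹) * w⁻¹ ∈ S) : a * w * a⁻¹ = w := by
  have hm : w⁻¹ * (d * w * d⁻¹) ∈ T := T.mul_mem (T.inv_mem hw) (hTd w hw)
  obtain ⟨c, j, hwc, hc, hj, hjz⟩ := exists_decomp hd (hodd _ hm)
  have hjT : j ∈ T := (Subgroup.zpowers_le.mpr hm) hjz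
  have hcT : c ∈ T := by
    have : c = w * j⁻¹ := by rw [hwc]; group
    rw [this]
    exact T.mul_mem hw (T.inv_mem hjT)
  -- `S` is normal in `T`
  have hSn : ∀ x ∈ T, ∀ y ∈ S, x * y * x⁻¹ ∈ S := by
    intro x hx y hy
    have h2 := hcomm x hx y (hST hy)
    have : x * y * x⁻¹ = (x * y * x⁻¹ * y⁻¹) * y := by group
    rw [this]
    exact S.mul_mem h2 hy
  have h2 : (d * w * d⁻¹) * w⁻¹ = c * (j⁻¹ * j⁻¹) * c⁻¹ := by
    have h3 : d * w * d⁻¹ = c * j⁻¹ := by
      rw [hwc]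
      calc d * (c * j) * d⁻¹ = (d * c * d⁻¹) * (d * j * d⁻¹) := by group
        _ = c * j⁻¹ := by rw [hc, hj]
    rw [h3, hwc]
    group
  rw [h2] at hfix
  have h3 : j⁻¹ * j⁻¹ ∈ S := by
    have := hSn c⁻¹ (T.inv_mem hcT) _ hfix
    have e : c⁻¹ * (c * (j⁻¹ * j⁻¹) * c⁻¹) * c⁻¹⁻¹ = j⁻¹ * j⁻¹ := by group
    rwa [e] at this
  have h4 : j ∈ S := by
    apply mem_of_mul_self_mem (hodd j hjT)
    have := S.inv_mem h3
    simpa using this
  have h5 := h1 c hcT hc
  have h6 := hS j h4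
  rw [hwc]
  calc a * (c * j) * a⁻¹ = (a * c * a⁻¹) * (a * j * a⁻¹) := by group
    _ = c * j := by rw [h5, h6]

/-- The core step for a four-group. -/
theorem step_centralizes {T S : Subgroup G} {a b : G} (ha : a * a = 1) (hb : b * b = 1)
    (hab : a * b = b * a) (hodd : ∀ x ∈ T, Odd (orderOf x)) (hST : S ≤ T)
    (hTa : ∀ x ∈ T, a * x * a⁻¹ ∈ T) (hTb : ∀ x ∈ T, b * x * b⁻¹ ∈ T)
    (hcomm : ∀ x ∈ T, ∀ y ∈ T, x * y * x⁻¹ * y⁻¹ ∈ S)
    (hS : ∀ x ∈ S, a * x * a⁻¹ = x)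
    (h1 : ∀ x ∈ T, b * x * b⁻¹ = x → a * x * a⁻¹ = x)
    (h2 : ∀ x ∈ T, (a * b) * x * (a * b)⁻¹ = x → a * x * a⁻¹ = x) :
    ∀ x ∈ T, a * x * a⁻¹ = x := by
  have hainv : a⁻¹ = a := inv_eq_of_mul_eq_one_left ha
  have hbinv : b⁻¹ = b := inv_eq_of_mul_eq_one_left hb
  have hdd : (a * b) * (a * b) = 1 := by
    calc (a * b) * (a * b) = a * (b * a) * b := by group
      _ = a * (a * b) * b := by rw [hab]
      _ = (a * a) * (b * b) := by group
      _ = 1 := by rw [ha, hb, one_mul]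
  have hdinv : (a * b)⁻¹ = a * b := inv_eq_of_mul_eq_one_left hdd
  have hTd : ∀ x ∈ T, (a * b) * x * (a * b)⁻¹ ∈ T := by
    intro x hx
    have := hTa _ (hTb x hx)
    have e : (a * b) * x * (a * b)⁻¹ = a * (b * x * b⁻¹) * a⁻¹ := by group
    rwa [e]
  -- every element inverted by `a` is trivial
  have key : ∀ i ∈ T, a * i * a⁻¹ = i⁻¹ → i = 1 := by
    intro i hi hai
    set u := b * i * b⁻¹ with hu
    have huT : u ∈ T := hTb i hi
    have hau : a * u * a⁻¹ = u⁻¹ := by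
      have e1 : u⁻¹ = b * i⁻¹ * b⁻¹ := by rw [hu]; group
      rw [e1, ← hai]
      have e2 : a * u * a⁻¹ = (a * b) * i * (a * b)⁻¹ := by rw [hu]; group
      have e3 : b * (a * i * a⁻¹) * b⁻¹ = (b * a) * i * (b * a)⁻¹ := by group
      rw [e2, e3, hab]
    have hbu : b * u * b⁻¹ = i := by
      rw [hu]
      calc b * (b * i * b⁻¹) * b⁻¹ = (b * b) * i * (b * b)⁻¹ := by group
        _ = i := by rw [hb]; group
    -- first relation
    have r1 : a * (i * u) * a⁻¹ = i * u := by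
      apply lift_fixed hb hodd hST hTb hcomm hS h1 (T.mul_mem hi huT)
      have e : (b * (i * u) * b⁻¹) * (i * u)⁻¹ = u * i * u⁻¹ * i⁻¹ := by
        have e1 : b * (i * u) * b⁻¹ = (b * i * b⁻¹) * (b * u * b⁻¹) := by group
        rw [e1, hbu, ← hu]
        group
      rw [e]
      exact hcomm u huT i hi
    have r1' : i⁻¹ * u⁻¹ = i * u := by
      rw [← hai, ← hau]
      rw [← r1]
      group
    -- second relation
    have hdi : (a * b) * i * (a * b)⁻¹ = u⁻¹ := by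
      rw [← hau, hu]; group
    have hdu : (a * b) * u * (a * b)⁻¹ = i⁻¹ := by
      rw [← hai]
      calc (a * b) * u * (a * b)⁻¹ = a * (b * u * b⁻¹) * a⁻¹ := by group
        _ = a * i * a⁻¹ := by rw [hbu]
    have r2 : a * (i * u⁻¹) * a⁻¹ = i * u⁻¹ := by
      apply lift_fixed hdd hodd hST hTd hcomm hS h2 (T.mul_mem hi (T.inv_mem huT))
      have e : ((a * b) * (i * u⁻¹) * (a * b)⁻¹) * (i * u⁻¹)⁻¹ = u⁻¹ * i * u * i⁻¹ := by
        have e1 : (a * b) * (i * u⁻¹) * (a * b)⁻¹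
            = ((a * b) * i * (a * b)⁻¹) * ((a * b) * u * (a * b)⁻¹)⁻¹ := by group
        rw [e1, hdi, hdu]
        group
      rw [e]
      have := hcomm u⁻¹ (T.inv_mem huT) i hi
      simpa using this
    have r2' : i⁻¹ * u = i * u⁻¹ := by
      have e : a * (i * u⁻¹) * a⁻¹ = (a * i * a⁻¹) * (a * u * a⁻¹)⁻¹ := by group
      rw [e, hai, hau, inv_inv] at r2
      exact r2
    -- conclude
    have s1 : i * i * (u * u) = 1 := by
      have : i * i * u * u = i * (i * u) * u := by group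
      calc i * i * (u * u) = i * (i * u) * u := by group
        _ = i * (i⁻¹ * u⁻¹) * u := by rw [r1']
        _ = 1 := by group
    have s2 : i * i = u * u := by
      have : i * (i * u⁻¹) * u = u * u := by
        rw [← r2']; group
      rw [← this]; group
    have s3 : (u * u) * (u * u) = 1 := by rw [← s2]; rw [s2] at s1; rw [s2]; exact s1
    have s4 : u * u = 1 := eq_one_of_mul_self (by
      have h0 : Odd (orderOf (u * u)) := hodd _ (T.mul_mem huT huT)
      exact h0) s3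
    have s5 : u = 1 := eq_one_of_mul_self (hodd u huT) s4
    have s6 : i = b⁻¹ * u * b := by rw [hu]; group
    rw [s6, s5]; group
  intro x hx
  have hm : x⁻¹ * (a * x * a⁻¹) ∈ T := T.mul_mem (T.inv_mem hx) (hTa x hx)
  obtain ⟨c, i, hxc, hc, hi, hiz⟩ := exists_decomp ha (hodd _ hm)
  have hiT : i ∈ T := (Subgroup.zpowers_le.mpr hm) hiz
  have hi1 := key i hiT hi
  rw [hxc, hi1, mul_one]
  exact hc

section Weights

variable [Finite G]

theorem conj_commutator_mem {T : Subgroup G} {a : G} (hTa : ∀ x ∈ T, a * x * a⁻¹ ∈ T) :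
    ∀ x ∈ ⁅T, T⁆, a * x * a⁻¹ ∈ ⁅T, T⁆ := by
  intro x hx
  have h1 : (MulAut.conj a).toMonoidHom x ∈ ((⁅T, T⁆ : Subgroup G).map (MulAut.conj a).toMonoidHom) :=
    Subgroup.mem_map_of_mem _ hx
  rw [Subgroup.map_commutator] at h1
  have h2 : T.map (MulAut.conj a).toMonoidHom ≤ T := by
    rintro _ ⟨y, hy, rfl⟩
    exact hTa y hy
  exact Subgroup.commutator_mono h2 h2 h1

theorem conj_commutator₂_mem {T S : Subgroup G} {a : G} (hTa : ∀ x ∈ T, a * x * a⁻¹ ∈ T)
    (hSa : ∀ x ∈ S, a * x * a⁻¹ ∈ S) : ∀ x ∈ ⁅T, S⁆, a * x * a⁻¹ ∈ ⁅T, S⁆ := by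
  intro x hx
  have h1 : (MulAut.conj a).toMonoidHom x ∈ ((⁅T, S⁆ : Subgroup G).map (MulAut.conj a).toMonoidHom) :=
    Subgroup.mem_map_of_mem _ hx
  rw [Subgroup.map_commutator] at h1
  have h2 : T.map (MulAut.conj a).toMonoidHom ≤ T := by
    rintro _ ⟨y, hy, rfl⟩
    exact hTa y hy
  have h3 : S.map (MulAut.conj a).toMonoidHom ≤ S := by
    rintro _ ⟨y, hy, rfl⟩
    exact hSa y hy
  exact Subgroup.commutator_mono h2 h3 h1

theorem card_lt_of_lt {S T : Subgroup G} (h : S < T) : Nat.card S < Nat.card T := by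
  have h1 : Nat.card S ∣ Nat.card T := Subgroup.card_dvd_of_le h.le
  have h2 : Nat.card S ≠ Nat.card T := by
    intro h3
    apply h.ne
    exact Subgroup.eq_of_le_of_card_ge h.le h3.ge
  exact lt_of_le_of_ne (Nat.le_of_dvd Nat.card_pos h1) h2

/-- The four-group lemma for solvable groups of odd order. -/
theorem four_centralizes {a b : G} (ha : a * a = 1) (hb : b * b = 1) (hab : a * b = b * a) :
    ∀ (n : ℕ) (T : Subgroup G), Nat.card T = n → Group.IsSolvable T → (∀ x ∈ T, Odd (orderOf x)) →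
      (∀ x ∈ T, a * x * a⁻¹ ∈ T) → (∀ x ∈ T, b * x * b⁻¹ ∈ T) →
      (∀ x ∈ T, b * x * b⁻¹ = x → a * x * a⁻¹ = x) →
      (∀ x ∈ T, (a * b) * x * (a * b)⁻¹ = x → a * x * a⁻¹ = x) → ∀ x ∈ T, a * x * a⁻¹ = x := by
  intro n
  induction n using Nat.strong_induction_on with
  | _ n ih =>
    intro T hn hsolv hodd hTa hTb h1 h2
    by_cases hT : T = ⊥
    · intro x hx
      rw [hT, Subgroup.mem_bot] at hx
      rw [hx]; group
    have hlt : ⁅T, T⁆ < T := by
      haveI : Nontrivial T := (Subgroup.nontrivial_iff_ne_bot T).mpr hT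
      have h3 := Group.IsSolvable.commutator_lt_top_of_nontrivial T
      have h4 := Subgroup.map_subtype_commutator T
      rw [← h4]
      refine lt_of_le_of_ne (Subgroup.map_subtype_le _) ?_
      intro h5
      apply h3.ne
      apply Subgroup.map_injective T.subtype_injective
      rw [h5, ← MonoidHom.range_eq_map, Subgroup.range_subtype]
    have hle := hlt.le
    have hS := ih _ (hn ▸ card_lt_of_lt hlt) ⁅T, T⁆ rfl (H01.isSolvable_of_le hle hsolv)
      (fun x hx => hodd x (hle hx)) (conj_commutator_mem hTa) (conj_commutator_mem hTb)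
      (fun x hx => h1 x (hle hx)) (fun x hx => h2 x (hle hx))
    exact step_centralizes ha hb hab hodd hle hTa hTb
      (fun x hx y hy => Subgroup.commutator_mem_commutator hx hy) hS h1 h2

/-- Elements of a group of exponent two commute. -/
theorem comm_of_exp_two {A : Subgroup G} (hA : ∀ a ∈ A, a * a = 1) {a b : G} (ha : a ∈ A) (hb : b ∈ A) :
    a * b = b * a := by
  have h1 : (a * b) * (a * b) = 1 := hA _ (A.mul_mem ha hb)
  have h2 := hA a ha
  have h3 := hA b hb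
  have hainv : a⁻¹ = a := inv_eq_of_mul_eq_one_left h2
  have hbinv : b⁻¹ = b := inv_eq_of_mul_eq_one_left h3
  have := eq_inv_of_mul_eq_one_left h1
  rw [this]
  simp [hainv, hbinv]

/-- A subgroup generated by `K` and an involution avoids `a₀`, if `a₀` and `a₀ b` are not in `K`. -/
theorem not_mem_sup_zpowers {A K : Subgroup G} (hA : ∀ a ∈ A, a * a = 1) (hK : K ≤ A) {b a₀ : G}
    (hb : b ∈ A) (ha₀ : a₀ ∈ A) (h1 : a₀ ∉ K) (h2 : a₀ * b ∉ K) : a₀ ∉ K ⊔ Subgroup.zpowers b := by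
  let W : Subgroup G :=
    { carrier := {x | x ∈ A ∧ (x ∈ K ∨ x * b ∈ K)}
      one_mem' := ⟨A.one_mem, Or.inl K.one_mem⟩
      mul_mem' := by
        rintro x y ⟨hx, hx'⟩ ⟨hy, hy'⟩
        refine ⟨A.mul_mem hx hy, ?_⟩
        rcases hx' with hx' | hx' <;> rcases hy' with hy' | hy'
        · exact Or.inl (K.mul_mem hx' hy')
        · right
          rw [mul_assoc]
          exact K.mul_mem hx' hy'
        · right
          have : x * y * b = (x * b) * y := by
            rw [mul_assoc, comm_of_exp_two hA hy hb, mul_assoc]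
          rw [this]
          exact K.mul_mem hx' hy'
        · left
          have : x * y = (x * b) * (y * b) := by
            have h3 := hA b hb
            calc x * y = x * y * (b * b) := by rw [h3, mul_one]
              _ = x * (y * b) * b := by group
              _ = x * (b * y) * b := by rw [comm_of_exp_two hA hy hb]
              _ = (x * b) * (y * b) := by group
          rw [this]
          exact K.mul_mem hx' hy'
      inv_mem' := by
        rintro x ⟨hx, hx'⟩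
        have hxinv : x⁻¹ = x := inv_eq_of_mul_eq_one_left (hA x hx)
        rw [hxinv]
        exact ⟨hx, hx'⟩ }
  have hle : K ⊔ Subgroup.zpowers b ≤ W := by
    refine sup_le (fun x hx => ⟨hK hx, Or.inl hx⟩) ?_
    rw [Subgroup.zpowers_le]
    refine ⟨hb, Or.inr ?_⟩
    rw [hA b hb]
    exact K.one_mem
  intro h
  obtain ⟨-, h3 | h3⟩ := hle h
  · exact h1 h3
  · exact h2 h3

/-- Existence of weight elements. -/
theorem exists_weight {A M : Subgroup G} (hA : ∀ a ∈ A, a * a = 1) (hsolv : Group.IsSolvable M)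
    (hodd : ∀ x ∈ M, Odd (orderOf x)) (hMA : ∀ a ∈ A, ∀ x ∈ M, a * x * a⁻¹ ∈ M) {a₀ : G} (ha₀ : a₀ ∈ A)
    {t₀ : G} (ht₀ : t₀ ∈ M) (hmove : a₀ * t₀ * a₀⁻¹ ≠ t₀) :
    ∃ x ∈ M, x ≠ 1 ∧ a₀ * x * a₀⁻¹ = x⁻¹ ∧ ∀ a ∈ A, a * x * a⁻¹ = x ∨ a * x * a⁻¹ = x⁻¹ := by
  classical
  let 𝒦 : Set (Subgroup G) := {K | K ≤ A ∧ a₀ ∉ K ∧ ∃ t ∈ M, (∀ k ∈ K, k * t * k⁻¹ = t) ∧ a₀ * t * a₀⁻¹ ≠ t}
  have hbot : (⊥ : Subgroup G) ∈ 𝒦 := by
    refine ⟨bot_le, ?_, t₀, ht₀, ?_, hmove⟩
    · intro h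
      rw [Subgroup.mem_bot] at h
      apply hmove
      rw [h]; group
    · intro k hk
      rw [Subgroup.mem_bot] at hk
      rw [hk]; group
  obtain ⟨K, hK⟩ := (Set.toFinite 𝒦).exists_maximal ⟨⊥, hbot⟩
  obtain ⟨⟨hKA, ha₀K, t, htM, htK, htm⟩, hmax⟩ := hK
  have ha₀2 := hA a₀ ha₀
  -- every element of `A` lies in `K` or `a₀ K`
  have hcover : ∀ b ∈ A, b ∈ K ∨ a₀ * b ∈ K := by
    intro b hb
    by_contra hcon
    push Not at hcon
    obtain ⟨hb1, hb2⟩ := hcon
    have hbb := hA b hb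
    have hab := comm_of_exp_two hA ha₀ hb
    have hd : a₀ * b ∈ A := A.mul_mem ha₀ hb
    -- the centralizer
    let U : Subgroup G := M ⊓ Subgroup.centralizer (K : Set G)
    have hUmem : ∀ x, x ∈ U ↔ x ∈ M ∧ ∀ k ∈ K, k * x * k⁻¹ = x := by
      intro x
      rw [Subgroup.mem_inf, Subgroup.mem_centralizer_iff]
      refine and_congr_right fun _ => forall₂_congr fun k _ => ?_
      rw [mul_inv_eq_iff_eq_mul]
    have hUA : ∀ a ∈ A, ∀ x ∈ U, a * x * a⁻¹ ∈ U := by
      intro a ha x hx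
      obtain ⟨hxM, hxK⟩ := (hUmem x).mp hx
      refine (hUmem _).mpr ⟨hMA a ha x hxM, fun k hk => ?_⟩
      have hka := comm_of_exp_two hA (hKA hk) ha
      calc k * (a * x * a⁻¹) * k⁻¹ = (k * a) * x * (k * a)⁻¹ := by group
        _ = (a * k) * x * (a * k)⁻¹ := by rw [hka]
        _ = a * (k * x * k⁻¹) * a⁻¹ := by group
        _ = a * x * a⁻¹ := by rw [hxK k hk]
    have hlarge : ∀ c ∈ A, c ∉ K → a₀ * c ∉ K → ∀ x ∈ U, c * x * c⁻¹ = x → a₀ * x * a₀⁻¹ = x := by
      intro c hc hc1 hc2 x hx hcx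
      by_contra hne
      obtain ⟨hxM, hxK⟩ := (hUmem x).mp hx
      have hin : K ⊔ Subgroup.zpowers c ∈ 𝒦 := by
        refine ⟨sup_le hKA (Subgroup.zpowers_le.mpr hc), not_mem_sup_zpowers hA hKA hc ha₀ ha₀K hc2,
          x, hxM, ?_, hne⟩
        have hsub : K ⊔ Subgroup.zpowers c ≤ Subgroup.centralizer ({x} : Set G) := by
          refine sup_le ?_ (Subgroup.zpowers_le.mpr ?_)
          · intro k hk
            rw [Subgroup.mem_centralizer_singleton_iff]
            have := hxK k hk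
            rw [mul_inv_eq_iff_eq_mul] at this
            exact this
          · rw [Subgroup.mem_centralizer_singleton_iff]
            rw [mul_inv_eq_iff_eq_mul] at hcx
            exact hcx
        intro k hk
        have := Subgroup.mem_centralizer_singleton_iff.mp (hsub hk)
        rw [mul_inv_eq_iff_eq_mul]
        exact this
      have hle := hmax hin le_sup_left
      exact hc1 (hle (Subgroup.mem_sup_right (Subgroup.mem_zpowers c)))
    have hcen := four_centralizes ha₀2 hbb hab _ U rfl (H01.isSolvable_of_le inf_le_left hsolv)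
      (fun x hx => hodd x (Subgroup.mem_inf.mp hx).1) (hUA a₀ ha₀) (hUA b hb)
      (hlarge b hb hb1 hb2)
      (hlarge (a₀ * b) hd hb2 (by
        have : a₀ * (a₀ * b) = b := by rw [← mul_assoc, ha₀2, one_mul]
        rwa [this]))
    exact htm (hcen t ((hUmem t).mpr ⟨htM, htK⟩))
  refine ⟨t⁻¹ * (a₀ * t * a₀⁻¹), M.mul_mem (M.inv_mem htM) (hMA a₀ ha₀ t htM), ?_, ?_, ?_⟩
  · intro h
    apply htm
    have := mul_eq_one_iff_eq_inv.mp h
    exact (inv_inj.mp this).symm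
  · have hainv : a₀⁻¹ = a₀ := inv_eq_of_mul_eq_one_left ha₀2
    have e : (t⁻¹ * (a₀ * t * a₀⁻¹))⁻¹ = a₀ * t⁻¹ * a₀ * t := by
      simp only [mul_inv_rev, inv_inv, hainv, mul_assoc]
    rw [e, hainv]
    calc a₀ * (t⁻¹ * (a₀ * t * a₀)) * a₀ = a₀ * t⁻¹ * a₀ * t * (a₀ * a₀) := by group
      _ = a₀ * t⁻¹ * a₀ * t := by rw [ha₀2, mul_one]
  · intro a ha
    have hainv : a₀⁻¹ = a₀ := inv_eq_of_mul_eq_one_left ha₀2
    rcases hcover a ha with h | h
    · left
      have hcomm := comm_of_exp_two hA ha₀ ha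
      have e1 : a * t * a⁻¹ = t := htK a h
      calc a * (t⁻¹ * (a₀ * t * a₀⁻¹)) * a⁻¹
          = (a * t * a⁻¹)⁻¹ * ((a * a₀) * t * (a * a₀)⁻¹) := by group
        _ = (a * t * a⁻¹)⁻¹ * ((a₀ * a) * t * (a₀ * a)⁻¹) := by rw [hcomm]
        _ = (a * t * a⁻¹)⁻¹ * (a₀ * (a * t * a⁻¹) * a₀⁻¹) := by group
        _ = t⁻¹ * (a₀ * t * a₀⁻¹) := by rw [e1]
    · right
      -- `a = a₀ k`
      have e1 : (a₀ * a) * t * (a₀ * a)⁻¹ = t := htK _ h
      have e2 : a * t * a⁻¹ = a₀ * t * a₀⁻¹ := by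
        have h3 : a = a₀ * (a₀ * a) := by rw [← mul_assoc, ha₀2, one_mul]
        calc a * t * a⁻¹ = a₀ * ((a₀ * a) * t * (a₀ * a)⁻¹) * a₀⁻¹ := by
              conv_lhs => rw [h3]
              group
          _ = a₀ * t * a₀⁻¹ := by rw [e1]
      have e3 : a * (a₀ * t * a₀⁻¹) * a⁻¹ = t := by
        have hcomm := comm_of_exp_two hA ha₀ ha
        calc a * (a₀ * t * a₀⁻¹) * a⁻¹ = (a * a₀) * t * (a * a₀)⁻¹ := by group
          _ = (a₀ * a) * t * (a₀ * a)⁻¹ := by rw [hcomm]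
          _ = t := e1
      calc a * (t⁻¹ * (a₀ * t * a₀⁻¹)) * a⁻¹
          = (a * t * a⁻¹)⁻¹ * (a * (a₀ * t * a₀⁻¹) * a⁻¹) := by group
        _ = (a₀ * t * a₀⁻¹)⁻¹ * t := by rw [e2, e3]
        _ = (t⁻¹ * (a₀ * t * a₀⁻¹))⁻¹ := by group

end Weights

section Main

variable [Finite G]

theorem closure_weight_inv {s : Set G} {a : G} (h : ∀ x ∈ s, a * x * a⁻¹ = x ∨ a * x * a⁻¹ = x⁻¹) :
    ∀ y ∈ Subgroup.closure s, a * y * a⁻¹ ∈ Subgroup.closure s := by
  intro y hy
  induction hy using Subgroup.closure_induction with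
  | mem x hx =>
    rcases h x hx with h1 | h1 <;> rw [h1]
    · exact Subgroup.subset_closure hx
    · exact (Subgroup.closure s).inv_mem (Subgroup.subset_closure hx)
  | one => simp [Subgroup.one_mem]
  | mul x y _ _ hx hy =>
    have : a * (x * y) * a⁻¹ = (a * x * a⁻¹) * (a * y * a⁻¹) := by group
    rw [this]
    exact Subgroup.mul_mem _ hx hy
  | inv x _ hx =>
    have : a * x⁻¹ * a⁻¹ = (a * x * a⁻¹)⁻¹ := by group
    rw [this]
    exact Subgroup.inv_mem _ hx

theorem closure_fixed {s : Set G} {a : G} (h : ∀ x ∈ s, a * x * a⁻¹ = x) :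
    ∀ y ∈ Subgroup.closure s, a * y * a⁻¹ = y := by
  intro y hy
  induction hy using Subgroup.closure_induction with
  | mem x hx => exact h x hx
  | one => group
  | mul x y _ _ hx hy =>
    have : a * (x * y) * a⁻¹ = (a * x * a⁻¹) * (a * y * a⁻¹) := by group
    rw [this, hx, hy]
  | inv x _ hx =>
    have : a * x⁻¹ * a⁻¹ = (a * x * a⁻¹)⁻¹ := by group
    rw [this, hx]

/-- The Fitting subgroup is invariant under automorphisms. -/
theorem fitting_map_mem {T : Type u} [Group T] [Finite T] (ψ : T ≃* T) {y : T}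
    (hy : y ∈ fittingSubgroup T) : ψ y ∈ fittingSubgroup T := by
  have hle : fittingSubgroup T ≤ (fittingSubgroup T).comap ψ.toMonoidHom := by
    apply sSup_le
    rintro N ⟨hN, hnil⟩
    rw [← Subgroup.map_le_iff_le_comap]
    apply H01.le_fitting
    · exact hN.map ψ.toMonoidHom ψ.surjective
    · haveI := hnil
      exact nilpotent_of_surjective (ψ.toMonoidHom.subgroupMap N)
        (ψ.toMonoidHom.subgroupMap_surjective N)
  exact hle hy

/-- Conjugation by an involution normalizing `L`, as an automorphism. -/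
def conjEquiv (L : Subgroup G) {a : G} (ha : a * a = 1) (hL : ∀ x ∈ L, a * x * a⁻¹ ∈ L) : L ≃* L where
  toFun x := ⟨a * x * a⁻¹, hL x x.2⟩
  invFun x := ⟨a * x * a⁻¹, hL x x.2⟩
  left_inv x := by
    apply Subtype.ext
    show a * (a * x * a⁻¹) * a⁻¹ = x
    have hainv : a⁻¹ = a := inv_eq_of_mul_eq_one_left ha
    rw [hainv]
    calc a * (a * x * a) * a = (a * a) * x * (a * a) := by group
      _ = x := by rw [ha]; group
  right_inv x := by
    apply Subtype.ext
    show a * (a * x * a⁻¹) * a⁻¹ = x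
    have hainv : a⁻¹ = a := inv_eq_of_mul_eq_one_left ha
    rw [hainv]
    calc a * (a * x * a) * a = (a * a) * x * (a * a) := by group
      _ = x := by rw [ha]; group
  map_mul' x y := by
    apply Subtype.ext
    show a * (x * y) * a⁻¹ = (a * x * a⁻¹) * (a * y * a⁻¹)
    group

/-- If an involution centralizes the Fitting subgroup of the solvable odd order group `L`,
it centralizes `L`. -/
theorem centralizes_of_fitting {L : Subgroup G} (hsolv : Group.IsSolvable L)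
    (hodd : ∀ x ∈ L, Odd (orderOf x)) {b : G} (hb : b * b = 1) (hbL : ∀ x ∈ L, b * x * b⁻¹ ∈ L)
    (hF : ∀ y : L, y ∈ fittingSubgroup L → b * (y : G) * b⁻¹ = y) : ∀ x ∈ L, b * x * b⁻¹ = x := by
  intro g hg
  have hm : g⁻¹ * (b * g * b⁻¹) ∈ L := L.mul_mem (L.inv_mem hg) (hbL g hg)
  obtain ⟨c, i, hgc, hc, hi, hiz⟩ := exists_decomp hb (hodd _ hm)
  have hiL : i ∈ L := (Subgroup.zpowers_le.mpr hm) hiz
  have hnorm : (fittingSubgroup L).Normal := H01.fitting_normal
  have hsq : ((⟨i, hiL⟩ : L) * ⟨i, hiL⟩) ∈ Subgroup.centralizer (fittingSubgroup L : Set L) := by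
    rw [Subgroup.mem_centralizer_iff]
    intro z hz
    apply Subtype.ext
    show (z : G) * (i * i) = (i * i) * z
    have h1 : (⟨i, hiL⟩ : L) * z * (⟨i, hiL⟩ : L)⁻¹ ∈ fittingSubgroup L := hnorm.conj_mem z hz _
    have h2 := hF _ h1
    have h3 : b * (i * (z : G) * i⁻¹) * b⁻¹ = (b * i * b⁻¹) * (b * z * b⁻¹) * (b * i * b⁻¹)⁻¹ := by group
    have h4 := hF z hz
    have h5 : i * (z : G) * i⁻¹ = i⁻¹ * z * i := by
      have h6 : b * (i * (z : G) * i⁻¹) * b⁻¹ = i * (z : G) * i⁻¹ := h2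
      rw [h3, hi, h4, inv_inv] at h6
      exact h6.symm
    calc (z : G) * (i * i) = i * (i⁻¹ * z * i) * i := by group
      _ = i * (i * z * i⁻¹) * i := by rw [h5]
      _ = (i * i) * z := by group
  haveI := hsolv
  have hsqF := H01.centralizer_fitting_le hsq
  have h7 := hF _ hsqF
  have h8 : b * (i * i) * b⁻¹ = i⁻¹ * i⁻¹ := by
    calc b * (i * i) * b⁻¹ = (b * i * b⁻¹) * (b * i * b⁻¹) := by group
      _ = i⁻¹ * i⁻¹ := by rw [hi]
  have h9 : (i * i) * (i * i) = 1 := by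
    have h10 : i * i = i⁻¹ * i⁻¹ := by
      have : b * (i * i) * b⁻¹ = i * i := h7
      rw [← this, h8]
    calc (i * i) * (i * i) = (i⁻¹ * i⁻¹) * (i * i) := by rw [← h10]
      _ = 1 := by group
  have h11 : i * i = 1 := eq_one_of_mul_self (hodd _ (L.mul_mem hiL hiL)) h9
  have h12 : i = 1 := eq_one_of_mul_self (hodd _ hiL) h11
  rw [hgc, h12, mul_one]
  exact hc

/-- In a nilpotent group, a subgroup supplementing the commutator subgroup is everything. -/
theorem eq_of_le_sup_commutator {L H : Subgroup G} (hH : H ≤ L) (hnil : Group.IsNilpotent L)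
    (hsup : L ≤ H ⊔ ⁅L, L⁆) : H = L := by
  by_contra hne
  have hne' : H.subgroupOf L ≠ ⊤ := by
    intro h
    apply hne
    refine le_antisymm hH fun x hx => ?_
    have : (⟨x, hx⟩ : L) ∈ H.subgroupOf L := by rw [h]; exact Subgroup.mem_top _
    exact Subgroup.mem_subgroupOf.mp this
  obtain ⟨M, -, hHM, hMt, hcM⟩ := nilp_exists_max hnil _ hne'
  have hle : L ≤ M.map L.subtype := by
    refine hsup.trans (sup_le ?_ ?_)
    · intro h hh
      exact ⟨⟨h, hH hh⟩, hHM (Subgroup.mem_subgroupOf.mpr hh), rfl⟩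
    · rw [← Subgroup.map_subtype_commutator]
      exact Subgroup.map_mono hcM
  apply hMt
  rw [eq_top_iff]
  intro y _
  obtain ⟨z, hz, hzy⟩ := hle y.2
  have : z = y := Subtype.ext hzy
  rwa [← this]

/-- Commutators of a generating set in a normal subgroup give the commutator subgroup. -/
theorem commutator_le_of_closure {s : Set G} {N : Subgroup G}
    (hN : ∀ g ∈ Subgroup.closure s, ∀ n ∈ N, g * n * g⁻¹ ∈ N)
    (h : ∀ x ∈ s, ∀ y ∈ s, x * y * x⁻¹ * y⁻¹ ∈ N) :
    ⁅Subgroup.closure s, Subgroup.closure s⁆ ≤ N := by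
  have h1 : ∀ y ∈ s, ∀ g ∈ Subgroup.closure s, g * y * g⁻¹ * y⁻¹ ∈ N := by
    intro y hy g hg
    induction hg using Subgroup.closure_induction with
    | mem x hx => exact h x hx y hy
    | one => simp [N.one_mem]
    | mul g k hg hk h1 h2 =>
      have e : (g * k) * y * (g * k)⁻¹ * y⁻¹ = g * (k * y * k⁻¹ * y⁻¹) * g⁻¹ * (g * y * g⁻¹ * y⁻¹) := by group
      rw [e]
      exact N.mul_mem (hN g hg _ h2) h1
    | inv g hg h1 =>
      have e : g⁻¹ * y * g⁻¹⁻¹ * y⁻¹ = g⁻¹ * (g * y * g⁻¹ * y⁻¹)⁻¹ * g⁻¹⁻¹ := by group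
      rw [e]
      exact hN _ (Subgroup.inv_mem _ hg) _ (N.inv_mem h1)
  rw [Subgroup.commutator_le]
  intro g hg k hk
  show g * k * g⁻¹ * k⁻¹ ∈ N
  induction hk using Subgroup.closure_induction with
  | mem y hy => exact h1 y hy g hg
  | one => simp [N.one_mem]
  | mul k l hk hl h2 h3 =>
    have e : g * (k * l) * g⁻¹ * (k * l)⁻¹ = (g * k * g⁻¹ * k⁻¹) * (k * (g * l * g⁻¹ * l⁻¹) * k⁻¹) := by group
    rw [e]
    exact N.mul_mem h2 (hN k hk _ h3)
  | inv k hk h2 =>
    have e : g * k⁻¹ * g⁻¹ * k⁻¹⁻¹ = k⁻¹ * (g * k * g⁻¹ * k⁻¹)⁻¹ * k⁻¹⁻¹ := by group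
    rw [e]
    exact hN _ (Subgroup.inv_mem _ hk) _ (N.inv_mem h2)

/-- The commutator subgroup of a nilpotent group is trivial if it is contained in the next term. -/
theorem commutator_eq_bot_of_le {L : Subgroup G} (hnil : Group.IsNilpotent L)
    (h : ⁅L, L⁆ ≤ ⁅⁅L, L⁆, L⁆) : ⁅L, L⁆ = ⊥ := by
  have hk : ∀ n : ℕ, ⁅L, L⁆ ≤ ((⊤ : Subgroup L).lowerCentralSeries (n + 1)).map L.subtype := by
    intro n
    induction n with
    | zero =>
      rw [Subgroup.lowerCentralSeries_succ, Subgroup.lowerCentralSeries_zero, Subgroup.map_commutator]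
      have : (⊤ : Subgroup L).map L.subtype = L := by
        rw [← MonoidHom.range_eq_map, Subgroup.range_subtype]
      rw [this]
    | succ n ih =>
      rw [Subgroup.lowerCentralSeries_succ, Subgroup.map_commutator]
      have : (⊤ : Subgroup L).map L.subtype = L := by
        rw [← MonoidHom.range_eq_map, Subgroup.range_subtype]
      rw [this]
      exact h.trans (Subgroup.commutator_mono ih le_rfl)
  obtain ⟨n, hn⟩ := Subgroup.nilpotent_iff_lowerCentralSeries.mp hnil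
  have h1 := hk n
  have h2 : (⊤ : Subgroup L).lowerCentralSeries (n + 1) = ⊥ := by
    rw [Subgroup.lowerCentralSeries_succ, hn]
    exact Subgroup.commutator_bot_left _
  rw [h2, Subgroup.map_bot] at h1
  exact le_bot_iff.mp h1

end Main

end Cfsg.Agent.H06.ThDih
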