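import Cfsg.Agent.Lib.H06.ThDih

/-!
# Commuting weight elements: the main induction
-/

set_option autoImplicit false

namespace Cfsg.Agent.H06.ThDih

open Cfsg
open scoped commutatorElement

universe u

variable {G : Type u} [Group G] [Finite G]

/-- The minimal case: `L` has no proper invariant subgroup with the faithfulness property. -/
theorem commuting_weights_minimal {A L : Subgroup G} (hA : ∀ a ∈ A, a * a = 1)
    (hsolv : Group.IsSolvable L) (hodd : ∀ x ∈ L, Odd (orderOf x))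
    (hLA : ∀ a ∈ A, ∀ x ∈ L, a * x * a⁻¹ ∈ L)
    (hfaith : ∀ a ∈ A, (∀ x ∈ L, a * x * a⁻¹ = x) → a = 1)
    (hmin : ∀ L₁ : Subgroup G, L₁ ≤ L → (∀ a ∈ A, ∀ x ∈ L₁, a * x * a⁻¹ ∈ L₁) →
      (∀ a ∈ A, (∀ x ∈ L₁, a * x * a⁻¹ = x) → a = 1) → L₁ = L) :
    ∃ X : Finset G, (∀ x ∈ X, x ∈ L ∧ ∀ a ∈ A, a * x * a⁻¹ = x ∨ a * x * a⁻¹ = x⁻¹) ∧
      (∀ x ∈ X, ∀ y ∈ X, x * y = y * x) ∧ (∀ a ∈ A, (∀ x ∈ X, a * x * a⁻¹ = x) → a = 1) := by
  classical
  haveI : Fintype G := Fintype.ofFinite _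
  -- nilpotency
  have hnil : Group.IsNilpotent L := by
    let F : Subgroup G := (fittingSubgroup L).map L.subtype
    have hFL : F ≤ L := Subgroup.map_subtype_le _
    have hFA : ∀ a ∈ A, ∀ x ∈ F, a * x * a⁻¹ ∈ F := by
      rintro a ha _ ⟨y, hy, rfl⟩
      exact ⟨_, fitting_map_mem (conjEquiv L (hA a ha) (hLA a ha)) hy, rfl⟩
    have hFf : ∀ a ∈ A, (∀ x ∈ F, a * x * a⁻¹ = x) → a = 1 := by
      intro a ha h
      apply hfaith a ha
      exact centralizes_of_fitting hsolv hodd (hA a ha) (hLA a ha)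
        (fun y hy => h y ⟨y, hy, rfl⟩)
    have hFe := hmin F hFL hFA hFf
    have h1 : fittingSubgroup L = ⊤ := by
      apply Subgroup.map_injective L.subtype_injective
      rw [← MonoidHom.range_eq_map, Subgroup.range_subtype]
      exact hFe
    have h2 : Group.IsNilpotent (fittingSubgroup L) := H01.fitting_nilpotent
    rw [h1] at h2
    exact Group.isNilpotent_top.mp h2
  -- a family of weight elements
  let 𝒳 : Set (Finset G) := {X | (∀ x ∈ X, x ∈ L ∧ ∀ a ∈ A, a * x * a⁻¹ = x ∨ a * x * a⁻¹ = x⁻¹) ∧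
    (∀ a ∈ A, (∀ x ∈ X, a * x * a⁻¹ = x) → a = 1)}
  have hne : 𝒳.Nonempty := by
    have hex : ∀ a : {a : G // a ∈ A ∧ a ≠ 1}, ∃ x ∈ L, x ≠ 1 ∧ (a : G) * x * (a : G)⁻¹ = x⁻¹ ∧
        ∀ b ∈ A, b * x * b⁻¹ = x ∨ b * x * b⁻¹ = x⁻¹ := by
      rintro ⟨a, ha, ha1⟩
      have h1 : ∃ t ∈ L, a * t * a⁻¹ ≠ t := by
        by_contra hcon
        push Not at hcon
        exact ha1 (hfaith a ha hcon)
      obtain ⟨t, ht, hmove⟩ := h1
      exact exists_weight hA hsolv hodd hLA ha ht hmove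
    choose f hf1 hf2 hf3 hf4 using hex
    refine ⟨Finset.univ.image f, ?_, ?_⟩
    · intro x hx
      obtain ⟨a, -, rfl⟩ := Finset.mem_image.mp hx
      exact ⟨hf1 a, hf4 a⟩
    · intro a ha h
      by_contra ha1
      let a' : {a : G // a ∈ A ∧ a ≠ 1} := ⟨a, ha, ha1⟩
      have h1 := h (f a') (Finset.mem_image_of_mem _ (Finset.mem_univ _))
      have h2 := hf3 a'
      have h3 : f a' = (f a')⁻¹ := h1.symm.trans h2
      have h4 : f a' * f a' = 1 := by
        nth_rewrite 1 [h3]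
        group
      exact hf2 a' (eq_one_of_mul_self (hodd _ (hf1 a')) h4)
  obtain ⟨X, hX, hXmin⟩ := WellFounded.has_min (measure (Finset.card (α := G))).wf 𝒳 hne
  obtain ⟨hXw, hXf⟩ := hX
  -- the dual elements
  have hdual : ∀ x ∈ X, ∃ a ∈ A, a * x * a⁻¹ = x⁻¹ ∧ x ≠ 1 ∧ (∀ y ∈ X, y ≠ x → a * y * a⁻¹ = y) := by
    intro x hx
    have h1 : X.erase x ∉ 𝒳 := fun h => hXmin _ h (Finset.card_erase_lt_of_mem hx)
    have h2 : ¬ ∀ a ∈ A, (∀ y ∈ X.erase x, a * y * a⁻¹ = y) → a = 1 := fun h =>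
      h1 ⟨fun y hy => hXw y (Finset.mem_of_mem_erase hy), h⟩
    push Not at h2
    obtain ⟨a, ha, h3, ha1⟩ := h2
    have h4 : a * x * a⁻¹ ≠ x := by
      intro h5
      apply ha1
      apply hXf a ha
      intro y hy
      by_cases hyx : y = x
      · rw [hyx, h5]
      · exact h3 y (Finset.mem_erase.mpr ⟨hyx, hy⟩)
    have h5 := (hXw x hx).2 a ha
    have h6 := h5.resolve_left h4
    refine ⟨a, ha, h6, ?_, fun y hy hyx => h3 y (Finset.mem_erase.mpr ⟨hyx, hy⟩)⟩
    rintro rfl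
    apply h4
    group
  -- `X` generates `L`
  have hcl : ∀ Y : Finset G, (∀ x ∈ Y, x ∈ L ∧ ∀ a ∈ A, a * x * a⁻¹ = x ∨ a * x * a⁻¹ = x⁻¹) →
      (∀ a ∈ A, (∀ x ∈ Y, a * x * a⁻¹ = x) → a = 1) → Subgroup.closure (Y : Set G) = L := by
    intro Y hY1 hY2
    apply hmin
    · rw [Subgroup.closure_le]
      exact fun x hx => (hY1 x hx).1
    · intro a ha
      exact closure_weight_inv fun x hx => (hY1 x hx).2 a ha
    · intro a ha h
      exact hY2 a ha fun x hx => h x (Subgroup.subset_closure hx)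
  have hXgen := hcl X hXw hXf
  -- the dual elements centralize the commutator subgroup
  have hcomm2 : ∀ x ∈ X, ∀ a ∈ A, a * x * a⁻¹ = x⁻¹ → (∀ y ∈ X, y ≠ x → a * y * a⁻¹ = y) → x ≠ 1 →
      ∀ c ∈ ⁅L, L⁆, a * c * a⁻¹ = c := by
    intro x hx a ha hax hay hx1 c hc
    by_contra hmove
    have hle : ⁅L, L⁆ ≤ L := Subgroup.commutator_le_self L
    obtain ⟨y, hyM, hy1, hya, hyw⟩ := exists_weight hA (H01.isSolvable_of_le hle hsolv)
      (fun z hz => hodd z (hle hz)) (fun b hb => conj_commutator_mem (hLA b hb)) ha hc hmove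
    let Y : Finset G := insert y (X.erase x)
    have hYw : ∀ z ∈ Y, z ∈ L ∧ ∀ b ∈ A, b * z * b⁻¹ = z ∨ b * z * b⁻¹ = z⁻¹ := by
      intro z hz
      rcases Finset.mem_insert.mp hz with rfl | hz
      · exact ⟨hle hyM, hyw⟩
      · exact hXw z (Finset.mem_of_mem_erase hz)
    have hYf : ∀ b ∈ A, (∀ z ∈ Y, b * z * b⁻¹ = z) → b = 1 := by
      intro b hb h
      have hby := h y (Finset.mem_insert_self _ _)
      have hbo : ∀ z ∈ X, z ≠ x → b * z * b⁻¹ = z := fun z hz hzx =>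
        h z (Finset.mem_insert_of_mem (Finset.mem_erase.mpr ⟨hzx, hz⟩))
      rcases (hXw x hx).2 b hb with h1 | h1
      · apply hXf b hb
        intro z hz
        by_cases hzx : z = x
        · rw [hzx, h1]
        · exact hbo z hz hzx
      · have hba : b * a = 1 := by
          apply hXf _ (A.mul_mem hb ha)
          intro z hz
          by_cases hzx : z = x
          · rw [hzx]
            calc b * a * x * (b * a)⁻¹ = b * (a * x * a⁻¹) * b⁻¹ := by group
              _ = b * x⁻¹ * b⁻¹ := by rw [hax]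
              _ = (b * x * b⁻¹)⁻¹ := by group
              _ = x := by rw [h1, inv_inv]
          · calc b * a * z * (b * a)⁻¹ = b * (a * z * a⁻¹) * b⁻¹ := by group
              _ = b * z * b⁻¹ := by rw [hay z hz hzx]
              _ = z := hbo z hz hzx
        have hainv : a⁻¹ = a := inv_eq_of_mul_eq_one_left (hA a ha)
        have hb' : b = a := by rw [eq_inv_of_mul_eq_one_left hba, hainv]
        rw [hb'] at hby
        exfalso
        apply hy1
        apply eq_one_of_mul_self (hodd y (hle hyM))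
        have h2 : y = y⁻¹ := hby.symm.trans hya
        nth_rewrite 1 [h2]
        group
    have hYgen := hcl Y hYw hYf
    let H : Subgroup G := Subgroup.closure ((X.erase x : Finset G) : Set G)
    have hHL : H ≤ L := by
      rw [Subgroup.closure_le]
      exact fun z hz => (hXw z (Finset.mem_of_mem_erase hz)).1
    have hsup : L ≤ H ⊔ ⁅L, L⁆ := by
      conv_lhs => rw [← hYgen]
      rw [Subgroup.closure_le]
      intro z hz
      rcases Finset.mem_insert.mp hz with rfl | hz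
      · exact Subgroup.mem_sup_right hyM
      · exact Subgroup.mem_sup_left (Subgroup.subset_closure hz)
    have hHe := eq_of_le_sup_commutator hHL hnil hsup
    have hafix : ∀ z ∈ L, a * z * a⁻¹ = z := by
      rw [← hHe]
      exact closure_fixed fun z hz => hay z (Finset.mem_of_mem_erase hz) (Finset.ne_of_mem_erase hz)
    have ha1 := hfaith a ha hafix
    apply hx1
    apply eq_one_of_mul_self (hodd x (hXw x hx).1)
    rw [ha1] at hax
    have h2 : x = x⁻¹ := by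
      rw [← hax]; group
    nth_rewrite 1 [h2]
    group
  -- the commutator subgroup vanishes
  have hN : ⁅L, L⁆ ≤ ⁅⁅L, L⁆, L⁆ := by
    have h1 := commutator_le_of_closure (s := (X : Set G)) (N := ⁅⁅L, L⁆, L⁆) (by
      rw [hXgen]
      intro g hg
      have h2 : ∀ z ∈ L, g * z * g⁻¹ ∈ L := fun z hz => L.mul_mem (L.mul_mem hg hz) (L.inv_mem hg)
      exact conj_commutator₂_mem (conj_commutator_mem h2) h2) (by
      intro x hx y hy
      by_cases hyx : y = x
      · rw [hyx]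
        simp [Subgroup.one_mem]
      obtain ⟨a, ha, hax, hx1, hay⟩ := hdual x hx
      have hxL := (hXw x hx).1
      have hyL := (hXw y hy).1
      have hc : x * y * x⁻¹ * y⁻¹ ∈ ⁅L, L⁆ := Subgroup.commutator_mem_commutator hxL hyL
      have h2 := hcomm2 x hx a ha hax hay hx1 _ hc
      have h3 : x⁻¹ * y * x * y⁻¹ = x * y * x⁻¹ * y⁻¹ := by
        rw [← h2]
        have e : a * (x * y * x⁻¹ * y⁻¹) * a⁻¹
            = (a * x * a⁻¹) * (a * y * a⁻¹) * (a * x * a⁻¹)⁻¹ * (a * y * a⁻¹)⁻¹ := by group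
        rw [e, hax, hay y hy hyx, inv_inv]
      set c := x * y * x⁻¹ * y⁻¹ with hcdef
      have h4 : x * c * x⁻¹ = c⁻¹ := by
        calc x * c * x⁻¹ = x * (x⁻¹ * y * x * y⁻¹) * x⁻¹ := by rw [h3]
          _ = y * x * y⁻¹ * x⁻¹ := by group
          _ = c⁻¹ := by rw [hcdef]; group
      apply mem_of_mul_self_mem (hodd c (Subgroup.commutator_le_self L hc))
      have h5 : c * x * c⁻¹ * x⁻¹ ∈ ⁅⁅L, L⁆, L⁆ := Subgroup.commutator_mem_commutator hc hxL
      have h6 : c * x * c⁻¹ * x⁻¹ = c * c := by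
        calc c * x * c⁻¹ * x⁻¹ = c * (x * c * x⁻¹)⁻¹ := by group
          _ = c * c := by rw [h4, inv_inv]
      rwa [h6] at h5)
    rwa [hXgen] at h1
  have hbot := commutator_eq_bot_of_le hnil hN
  refine ⟨X, hXw, ?_, hXf⟩
  intro x hx y hy
  have h1 : ⁅x, y⁆ ∈ ⁅L, L⁆ := Subgroup.commutator_mem_commutator (hXw x hx).1 (hXw y hy).1
  rw [hbot, Subgroup.mem_bot] at h1
  exact commutatorElement_eq_one_iff_mul_comm.mp h1

/-- An elementary abelian 2-group acting faithfully on a solvable group of odd order acts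
faithfully on a commuting family of weight elements. -/
theorem exists_commuting_weights {A : Subgroup G} (hA : ∀ a ∈ A, a * a = 1) :
    ∀ (n : ℕ) (L : Subgroup G), Nat.card L = n → Group.IsSolvable L → (∀ x ∈ L, Odd (orderOf x)) →
      (∀ a ∈ A, ∀ x ∈ L, a * x * a⁻¹ ∈ L) → (∀ a ∈ A, (∀ x ∈ L, a * x * a⁻¹ = x) → a = 1) →
      ∃ X : Finset G, (∀ x ∈ X, x ∈ L ∧ ∀ a ∈ A, a * x * a⁻¹ = x ∨ a * x * a⁻¹ = x⁻¹) ∧
        (∀ x ∈ X, ∀ y ∈ X, x * y = y * x) ∧ (∀ a ∈ A, (∀ x ∈ X, a * x * a⁻¹ = x) → a = 1) := by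
  intro n
  induction n using Nat.strong_induction_on with
  | _ n ih =>
    intro L hn hsolv hodd hLA hfaith
    by_cases hex : ∃ L₁ : Subgroup G, L₁ < L ∧ (∀ a ∈ A, ∀ x ∈ L₁, a * x * a⁻¹ ∈ L₁) ∧
        (∀ a ∈ A, (∀ x ∈ L₁, a * x * a⁻¹ = x) → a = 1)
    · obtain ⟨L₁, hlt, h1, h2⟩ := hex
      obtain ⟨X, hX1, hX2, hX3⟩ := ih _ (hn ▸ card_lt_of_lt hlt) L₁ rfl
        (H01.isSolvable_of_le hlt.le hsolv) (fun x hx => hodd x (hlt.le hx)) h1 h2
      exact ⟨X, fun x hx => ⟨hlt.le (hX1 x hx).1, (hX1 x hx).2⟩, hX2, hX3⟩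
    · push Not at hex
      apply commuting_weights_minimal hA hsolv hodd hLA hfaith
      intro L₁ hle h1 h2
      by_contra hne
      obtain ⟨a, ha, ha1, ha2⟩ := hex L₁ (lt_of_le_of_ne hle hne) h1
      exact ha2 (h2 a ha ha1)

end Cfsg.Agent.H06.ThDih
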