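import Mathlib
import Cfsg.Agent.Lib.H06.U3a

set_option autoImplicit false

namespace Cfsg.Agent.H06.U3

open scoped commutatorElement

section Basic
variable {G : Type*} [Group G]

lemma fix_count [Finite G] (T : Subgroup G) (s : G) (h5 : s ^ 5 = 1) (hT : Stab s T) :
    Nat.card T ≡ Nat.card ↥(T ⊓ Subgroup.centralizer {s}) [MOD 5] := by
  classical
  haveI := Fact.mk (by norm_num : Nat.Prime 5)
  letI : Fintype T := Fintype.ofFinite T
  let f : Function.End T := fun a => ⟨s * a * s⁻¹, hT a a.2⟩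
  have hfn : ∀ (n : ℕ) (a : T), ((f ^ n) a : G) = s ^ n * a * (s ^ n)⁻¹ := by
    intro n
    induction n with
    | zero => intro a; simp; rfl
    | succ n ih =>
      intro a
      rw [pow_succ]
      change ((f ^ n) (f a) : G) = _
      rw [ih]
      simp only [f, pow_succ]
      group
  have hf : f ^ (5 ^ 1) = 1 := by
    funext a
    apply Subtype.ext
    rw [hfn]
    simp [h5]
    rfl
  have key := Equiv.Perm.card_fixedPoints_modEq hf
  rw [← Nat.card_eq_fintype_card] at key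
  have e : Fintype.card (Function.fixedPoints f) = Nat.card ↥(T ⊓ Subgroup.centralizer {s}) := by
    rw [← Nat.card_eq_fintype_card]
    refine Nat.card_congr ⟨fun a => ⟨a.1.1, a.1.2, ?_⟩, fun a => ⟨⟨a.1, a.2.1⟩, ?_⟩, ?_, ?_⟩
    · change (a.1.1 : G) ∈ Subgroup.centralizer {s}
      rw [Subgroup.mem_centralizer_iff]
      intro h hh
      rw [Set.mem_singleton_iff] at hh
      rw [hh]
      have h1 : s * a.1.1 * s⁻¹ = a.1.1 := congrArg Subtype.val a.2
      calc s * a.1.1 = s * a.1.1 * s⁻¹ * s := by group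
        _ = a.1.1 * s := by rw [h1]
    · apply Subtype.ext
      have h1 := Subgroup.mem_centralizer_iff.mp (show a.1 ∈ Subgroup.centralizer {s} from a.2.2)
        s (Set.mem_singleton s)
      change s * a.1 * s⁻¹ = a.1
      rw [h1]
      group
    · intro a; rfl
    · intro a; rfl
  rw [e] at key
  exact key

/-- Generic commutator criterion. -/
lemma comm_le (M A B : Subgroup G) [hM : M.Normal] (hAB : A ⊔ B ⊔ M = ⊤)
    (h1 : ∀ a ∈ A, ∀ b ∈ A, ⁅a, b⁆ ∈ M) (h2 : ∀ a ∈ A, ∀ b ∈ B, ⁅a, b⁆ ∈ M)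
    (h3 : ∀ a ∈ B, ∀ b ∈ B, ⁅a, b⁆ ∈ M) : commutator G ≤ M := by
  let q : G →* G ⧸ M := QuotientGroup.mk' M
  have hq : ∀ a, q a = 1 ↔ a ∈ M := fun a => QuotientGroup.eq_one_iff a
  have hcom : ∀ a b, ⁅a, b⁆ ∈ M → q a * q b = q b * q a := by
    intro a b h
    have h0 : q ⁅a, b⁆ = 1 := (hq _).2 h
    rw [map_commutatorElement] at h0
    exact commutatorElement_eq_one_iff_mul_comm.mp h0
  have hsw : ∀ a b, ⁅a, b⁆ ∈ M → ⁅b, a⁆ ∈ M := by
    intro a b h
    rw [← commutatorElement_inv]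
    exact M.inv_mem h
  have step1 : ∀ x, (x ∈ A ∨ x ∈ B) → ∀ g, q x * q g = q g * q x := by
    intro x hx g
    have : A ⊔ B ⊔ M ≤ (Subgroup.centralizer {q x}).comap q := by
      refine sup_le (sup_le ?_ ?_) ?_
      · intro a ha
        rw [Subgroup.mem_comap, Subgroup.mem_centralizer_iff]
        intro h hh
        rw [Set.mem_singleton_iff] at hh
        subst hh
        rcases hx with hx | hx
        · exact hcom _ _ (h1 x hx a ha)
        · exact hcom _ _ (hsw _ _ (h2 a ha x hx))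
      · intro a ha
        rw [Subgroup.mem_comap, Subgroup.mem_centralizer_iff]
        intro h hh
        rw [Set.mem_singleton_iff] at hh
        subst hh
        rcases hx with hx | hx
        · exact hcom _ _ (h2 x hx a ha)
        · exact hcom _ _ (h3 x hx a ha)
      · intro a ha
        rw [Subgroup.mem_comap, Subgroup.mem_centralizer_iff]
        intro h hh
        rw [Set.mem_singleton_iff] at hh
        subst hh
        rw [(hq a).2 ha]; simp
    have hg : g ∈ A ⊔ B ⊔ M := by rw [hAB]; trivial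
    have := this hg
    rw [Subgroup.mem_comap, Subgroup.mem_centralizer_iff] at this
    exact (this (q x) (Set.mem_singleton _)).symm ▸ rfl
  have step2 : ∀ h g, q h * q g = q g * q h := by
    intro h g
    have : A ⊔ B ⊔ M ≤ (Subgroup.centralizer {q g}).comap q := by
      refine sup_le (sup_le ?_ ?_) ?_
      · intro a ha
        rw [Subgroup.mem_comap, Subgroup.mem_centralizer_iff]
        intro h hh
        rw [Set.mem_singleton_iff] at hh
        subst hh
        exact (step1 a (Or.inl ha) g).symm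
      · intro a ha
        rw [Subgroup.mem_comap, Subgroup.mem_centralizer_iff]
        intro h hh
        rw [Set.mem_singleton_iff] at hh
        subst hh
        exact (step1 a (Or.inr ha) g).symm
      · intro a ha
        rw [Subgroup.mem_comap, Subgroup.mem_centralizer_iff]
        intro h hh
        rw [Set.mem_singleton_iff] at hh
        subst hh
        rw [(hq a).2 ha]; simp
    have hg : h ∈ A ⊔ B ⊔ M := by rw [hAB]; trivial
    have := this hg
    rw [Subgroup.mem_comap, Subgroup.mem_centralizer_iff] at this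
    exact (this (q g) (Set.mem_singleton _)).symm
  rw [commutator_def, Subgroup.commutator_le]
  intro g₁ _ g₂ _
  rw [← hq, map_commutatorElement]
  exact commutatorElement_eq_one_iff_mul_comm.mpr (step2 _ _)

lemma flip_m {a b c : G} (h : a * b = b * a * c) (hc : c * c = 1) : b * a = a * b * c := by
  calc b * a = b * a * (c * c) := by rw [hc, mul_one]
    _ = (b * a * c) * c := by group
    _ = a * b * c := by rw [← h]

lemma sq_step {a b k : G} (h : b * a = a * b * k) (hk : k * b = b * k) :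
    (a * b) * (a * b) = a * a * (b * b) * k := by
  calc (a * b) * (a * b) = a * (b * a) * b := by group
    _ = a * (a * b * k) * b := by rw [h]
    _ = a * a * b * (k * b) := by group
    _ = a * a * b * (b * k) := by rw [hk]
    _ = a * a * (b * b) * k := by group

lemma comm_step {x y a k l : G} (h1 : x * a = a * x * k) (h2 : y * a = a * y * l)
    (hk : k * y = y * k) : (x * y) * a = a * (x * y) * (k * l) := by
  calc (x * y) * a = x * (y * a) := by group
    _ = x * (a * y * l) := by rw [h2]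
    _ = (x * a) * y * l := by group
    _ = a * x * k * y * l := by rw [h1]
    _ = a * x * (k * y) * l := by group
    _ = a * x * (y * k) * l := by rw [hk]
    _ = a * (x * y) * (k * l) := by group

end Basic

/-- The configuration of the group of order 320. -/
structure Cfg {G : Type*} [Group G] (P Z : Subgroup G) (s : G) : Prop where
  hPn : P.Normal
  hZn : Z.Normal
  hZP : Z ≤ P
  hZc : ∀ z ∈ Z, ∀ p ∈ P, p * z = z * p
  hZi : ∀ z ∈ Z, z * z = 1
  hZm : ∀ p ∈ P, (∀ q ∈ P, p * q = q * p) → p ∈ Z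
  cG : Nat.card G = 320
  cP : Nat.card P = 64
  cZ : Nat.card Z = 4
  hD : commutator G = P
  hs5 : s ^ 5 = 1
  hsP : s ∉ P

namespace Cfg
variable {G : Type*} [Group G] [Finite G] {P Z : Subgroup G} {s : G} (c : Cfg P Z s)
include c

lemma stabP (y : G) : Stab y P := fun a ha => c.hPn.conj_mem a ha y
lemma stabZ (y : G) : Stab y Z := fun a ha => c.hZn.conj_mem a ha y

lemma s_comm_Z {z : G} (hz : z ∈ Z) : z * s = s * z := by
  have h := fix_count Z s c.hs5 (c.stabZ s)
  rw [c.cZ] at h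
  have h1 : Nat.card ↥(Z ⊓ Subgroup.centralizer {s}) ≤ 4 := by
    rw [← c.cZ]
    exact Subgroup.card_le_of_le inf_le_left
  have h2 : Nat.card ↥(Z ⊓ Subgroup.centralizer {s}) = 4 := by
    unfold Nat.ModEq at h
    omega
  have h3 : Z ⊓ Subgroup.centralizer {s} = Z :=
    Subgroup.eq_of_le_of_card_ge inf_le_left (by rw [c.cZ, h2])
  have h4 : z ∈ Z ⊓ Subgroup.centralizer {s} := by rw [h3]; exact hz
  exact (Subgroup.mem_centralizer_iff.mp h4.2 s (Set.mem_singleton s)).symm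

lemma P_not_perfect : ¬ P ≤ ⁅P, P⁆ := by
  intro h
  haveI := c.hPn
  haveI : Fact (Nat.Prime 2) := ⟨Nat.prime_two⟩
  have hp : IsPGroup 2 P := IsPGroup.of_card (n := 6) (by rw [c.cP]; norm_num)
  haveI : Group.IsNilpotent P := hp.isNilpotent
  haveI : Nontrivial P := by
    rw [← Finite.one_lt_card_iff_nontrivial, c.cP]; norm_num
  have hlt := Group.IsSolvable.commutator_lt_top_of_nontrivial (G := P)
  apply hlt.ne
  apply Subgroup.eq_top_of_card_eq
  have h1 : (commutator P).map P.subtype = ⁅P, P⁆ := by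
    rw [commutator_def, Subgroup.map_commutator, ← MonoidHom.range_eq_map, Subgroup.range_subtype]
  have h2 : Nat.card (commutator P) = Nat.card ↥⁅P, P⁆ := by
    rw [← h1]
    exact (Subgroup.card_map_of_injective P.subtype_injective).symm
  rw [h2]
  have h3 : ⁅P, P⁆ = P := le_antisymm (Subgroup.commutator_le_left P P) h
  rw [h3]

lemma sup_top {n : G} (hn : n ∉ P) : P ⊔ Subgroup.zpowers n = ⊤ := by
  have h1 : Nat.card P ∣ Nat.card ↥(P ⊔ Subgroup.zpowers n) := Subgroup.card_dvd_of_le le_sup_left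
  have h2 : Nat.card ↥(P ⊔ Subgroup.zpowers n) ∣ Nat.card G := Subgroup.card_subgroup_dvd_card _
  rw [c.cP] at h1
  rw [c.cG] at h2
  obtain ⟨k, hk⟩ := h1
  obtain ⟨l, hl⟩ := h2
  have hk0 : k ≠ 0 := by
    intro h0
    rw [h0, mul_zero] at hk
    have := Nat.card_pos (α := ↥(P ⊔ Subgroup.zpowers n))
    omega
  have hk5 : k ∣ 5 := by
    rw [hk] at hl
    refine ⟨l, ?_⟩
    have : 64 * 5 = 64 * (k * l) := by rw [← mul_assoc]; exact hl
    exact Nat.eq_of_mul_eq_mul_left (by norm_num) this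
  have hk' : k = 1 ∨ k = 5 := (Nat.dvd_prime (by norm_num)).mp hk5
  rcases hk' with rfl | rfl
  · exfalso
    have h3 : P = P ⊔ Subgroup.zpowers n :=
      Subgroup.eq_of_le_of_card_ge le_sup_left (by rw [hk, c.cP])
    apply hn
    rw [h3]
    exact mem_adj_self P n
  · apply Subgroup.eq_top_of_card_eq
    rw [hk, c.cG]

lemma no_central {n : G} (hn : n ∉ P) (hc : ∀ p ∈ P, n * p = p * n) : False := by
  haveI := c.hPn
  have hT := c.sup_top hn
  have hMn : (⁅P, P⁆ : Subgroup G).Normal := Subgroup.commutator_normal P P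
  have hle : commutator G ≤ ⁅P, P⁆ := by
    refine comm_le (⁅P, P⁆) P (Subgroup.zpowers n) ?_ ?_ ?_ ?_
    · rw [sup_eq_left.mpr (le_sup_of_le_left (Subgroup.commutator_le_left P P) :
        ⁅P, P⁆ ≤ P ⊔ Subgroup.zpowers n), hT]
    · intro a ha b hb
      exact Subgroup.commutator_mem_commutator ha hb
    · intro a ha b hb
      obtain ⟨k, rfl⟩ := Subgroup.mem_zpowers_iff.mp hb
      have hcm : Commute (n ^ k) a := (show Commute n a from hc a ha).zpow_left k
      rw [commutatorElement_eq_one_iff_mul_comm.mpr hcm.symm.eq]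
      exact Subgroup.one_mem _
    · intro a ha b hb
      obtain ⟨k, rfl⟩ := Subgroup.mem_zpowers_iff.mp ha
      obtain ⟨l, rfl⟩ := Subgroup.mem_zpowers_iff.mp hb
      have hcm : Commute (n ^ k) (n ^ l) := (Commute.refl n).zpow_zpow k l
      rw [commutatorElement_eq_one_iff_mul_comm.mpr hcm.eq]
      exact Subgroup.one_mem _
  rw [c.hD] at hle
  exact c.P_not_perfect hle

lemma exists_noncomm {n : G} (hn : n ∉ P) : ∃ p ∈ P, n * p ≠ p * n := by
  by_contra h
  push Not at h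
  exact c.no_central hn h

lemma C_eq_Z : P ⊓ Subgroup.centralizer {s} = Z := by
  have hZle : Z ≤ P ⊓ Subgroup.centralizer {s} := by
    intro z hz
    refine ⟨c.hZP hz, ?_⟩
    change z ∈ Subgroup.centralizer {s}
    rw [Subgroup.mem_centralizer_iff]
    intro h hh
    rw [Set.mem_singleton_iff] at hh
    rw [hh]
    exact (c.s_comm_Z hz).symm
  have h := fix_count P s c.hs5 (c.stabP s)
  rw [c.cP] at h
  have h1 : Nat.card ↥(P ⊓ Subgroup.centralizer {s}) ∣ 2 ^ 6 := by
    have := Subgroup.card_dvd_of_le (inf_le_left : P ⊓ Subgroup.centralizer {s} ≤ P)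
    rw [c.cP] at this
    exact this
  obtain ⟨k, hk, hk2⟩ := (Nat.dvd_prime_pow Nat.prime_two).mp h1
  have h2 : Nat.card ↥(P ⊓ Subgroup.centralizer {s}) ≠ 64 := by
    intro h64
    have h3 : P ⊓ Subgroup.centralizer {s} = P :=
      Subgroup.eq_of_le_of_card_ge inf_le_left (by rw [c.cP, h64])
    refine c.no_central c.hsP ?_
    intro p hp
    have h4 : p ∈ P ⊓ Subgroup.centralizer {s} := by rw [h3]; exact hp
    exact (Subgroup.mem_centralizer_iff.mp (show p ∈ Subgroup.centralizer {s} from h4.2)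
      s (Set.mem_singleton s))
  have h3 : Nat.card ↥(P ⊓ Subgroup.centralizer {s}) = 4 := by
    rw [hk2] at h h2 ⊢
    unfold Nat.ModEq at h
    interval_cases k <;> simp_all
  exact (Subgroup.eq_of_le_of_card_ge hZle (by rw [c.cZ, h3])).symm

/-- the fundamental dichotomy -/
lemma dich {T : Subgroup G} (h1 : Z ≤ T) (h2 : T ≤ P) (hT : Stab s T) : T = Z ∨ T = P := by
  have h3 : T ⊓ Subgroup.centralizer {s} = Z := by
    apply le_antisymm
    · rw [← c.C_eq_Z]
      exact inf_le_inf_right _ h2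
    · refine le_inf h1 ?_
      rw [← c.C_eq_Z]
      exact inf_le_right
  have h := fix_count T s c.hs5 hT
  rw [h3, c.cZ] at h
  have h4 : Nat.card T ∣ 2 ^ 6 := by
    have := Subgroup.card_dvd_of_le h2
    rw [c.cP] at this
    exact this
  obtain ⟨k, hk, hk2⟩ := (Nat.dvd_prime_pow Nat.prime_two).mp h4
  have h5 : Nat.card T = 4 ∨ Nat.card T = 64 := by
    rw [hk2] at h ⊢
    unfold Nat.ModEq at h
    interval_cases k <;> simp_all
  rcases h5 with h5 | h5
  · left
    exact (Subgroup.eq_of_le_of_card_ge h1 (by rw [c.cZ, h5])).symm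
  · right
    exact Subgroup.eq_of_le_of_card_ge h2 (by rw [c.cP, h5])

lemma P_ne_Z : P ≠ Z := by
  intro h
  have h1 := c.cP
  rw [h, c.cZ] at h1
  norm_num at h1

/-- The second centre. -/
def Z2 (c : Cfg P Z s) : Subgroup G where
  carrier := {p | p ∈ P ∧ ∀ q ∈ P, ⁅p, q⁆ ∈ Z}
  one_mem' := by
    refine ⟨P.one_mem, fun q _ => ?_⟩
    rw [commutatorElement_one_left]
    exact Z.one_mem
  mul_mem' := by
    rintro a b ⟨ha, ha'⟩ ⟨hb, hb'⟩
    refine ⟨P.mul_mem ha hb, fun q hq => ?_⟩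
    have e : ⁅a * b, q⁆ = (a * ⁅b, q⁆ * a⁻¹) * ⁅a, q⁆ := by
      simp only [commutatorElement_def]; group
    rw [e]
    exact Z.mul_mem (c.hZn.conj_mem _ (hb' q hq) a) (ha' q hq)
  inv_mem' := by
    rintro a ⟨ha, ha'⟩
    refine ⟨P.inv_mem ha, fun q hq => ?_⟩
    have e : ⁅a⁻¹, q⁆ = a⁻¹ * (⁅a, q⁆)⁻¹ * a⁻¹⁻¹ := by
      simp only [commutatorElement_def]; group
    rw [e]
    exact c.hZn.conj_mem _ (Z.inv_mem (ha' q hq)) a⁻¹

lemma exists_Z2 : ∃ x ∈ P, x ∉ Z ∧ ∀ q ∈ P, ⁅x, q⁆ ∈ Z := by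
  haveI : Fact (Nat.Prime 2) := ⟨Nat.prime_two⟩
  have hp : IsPGroup 2 P := IsPGroup.of_card (n := 6) (by rw [c.cP]; norm_num)
  have hcen : ∀ y : P, y ∈ Subgroup.center P ↔ (y : G) ∈ Z := by
    intro y
    constructor
    · intro hy
      refine c.hZm y y.2 ?_
      intro q hq
      have := (Subgroup.mem_center_iff.mp hy) ⟨q, hq⟩
      exact (congrArg Subtype.val this).symm
    · intro hy
      rw [Subgroup.mem_center_iff]
      intro q
      exact Subtype.ext (c.hZc y hy q q.2)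
  have hne : Subgroup.center P ≠ ⊤ := by
    intro h
    apply c.P_ne_Z
    apply le_antisymm _ c.hZP
    intro x hx
    have : (⟨x, hx⟩ : P) ∈ Subgroup.center P := by rw [h]; trivial
    exact (hcen _).mp this
  have hpQ : IsPGroup 2 (P ⧸ Subgroup.center P) := hp.to_quotient _
  haveI : Nontrivial (P ⧸ Subgroup.center P) := by
    rw [QuotientGroup.nontrivial_iff]
    exact hne
  haveI : Nontrivial (Subgroup.center (P ⧸ Subgroup.center P)) := hpQ.center_nontrivial
  obtain ⟨y, hy⟩ := exists_ne (1 : Subgroup.center (P ⧸ Subgroup.center P))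
  obtain ⟨y, hy0⟩ := y
  obtain ⟨x, rfl⟩ := QuotientGroup.mk_surjective y
  refine ⟨x, x.2, ?_, ?_⟩
  · intro hx
    apply hy
    apply Subtype.ext
    exact (QuotientGroup.eq_one_iff x).mpr ((hcen x).mpr hx)
  · intro q hq
    rw [show (⁅(x : G), q⁆ : G) = ((⁅x, (⟨q, hq⟩ : P)⁆ : P) : G) from rfl]
    rw [← hcen, ← QuotientGroup.eq_one_iff]
    change QuotientGroup.mk' (Subgroup.center P) ⁅x, (⟨q, hq⟩ : P)⁆ = 1
    rw [map_commutatorElement]
    exact commutatorElement_eq_one_iff_mul_comm.mpr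
      ((Subgroup.mem_center_iff.mp hy0) _).symm

lemma stabZ2 : Stab s (Z2 c) := by
  rintro p ⟨hp, hp'⟩
  refine ⟨c.stabP s p hp, fun q hq => ?_⟩
  have e : ⁅s * p * s⁻¹, q⁆ = s * ⁅p, s⁻¹ * q * s⁻¹⁻¹⁆ * s⁻¹ := by
    simp only [commutatorElement_def]; group
  rw [e]
  exact c.hZn.conj_mem _ (hp' _ (c.stabP s⁻¹ q hq)) s

/-- `P/Z` is abelian. -/
lemma comm_mem {p q : G} (hp : p ∈ P) (hq : q ∈ P) : ⁅p, q⁆ ∈ Z := by
  have h1 : Z ≤ Z2 c := by
    intro z hz
    refine ⟨c.hZP hz, fun q hq => ?_⟩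
    have : ⁅z, q⁆ = 1 := commutatorElement_eq_one_iff_mul_comm.mpr (c.hZc z hz q hq).symm
    rw [this]; exact Z.one_mem
  have h2 : Z2 c ≤ P := fun a ha => ha.1
  rcases c.dich h1 h2 c.stabZ2 with h3 | h3
  · obtain ⟨x, hx, hxZ, hx'⟩ := c.exists_Z2
    exact absurd (h3 ▸ (⟨hx, hx'⟩ : x ∈ Z2 c)) hxZ
  · have : p ∈ Z2 c := by rw [h3]; exact hp
    exact this.2 q hq

/-- subgroup of elements with square in `Z` -/
def Z3 (c : Cfg P Z s) : Subgroup G where
  carrier := {p | p ∈ P ∧ p * p ∈ Z}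
  one_mem' := by
    refine ⟨P.one_mem, ?_⟩
    rw [mul_one]; exact Z.one_mem
  mul_mem' := by
    rintro a b ⟨ha, ha'⟩ ⟨hb, hb'⟩
    refine ⟨P.mul_mem ha hb, ?_⟩
    have hc : ⁅b, a⁆ ∈ Z := c.comm_mem hb ha
    have e : a * b * (a * b) = (a * (⁅b, a⁆) * a⁻¹) * (a * a) * (b * b) := by
      simp only [commutatorElement_def]; group
    rw [e]
    exact Z.mul_mem (Z.mul_mem (c.hZn.conj_mem _ hc a) ha') hb'
  inv_mem' := by
    rintro a ⟨ha, ha'⟩
    refine ⟨P.inv_mem ha, ?_⟩
    have e : a⁻¹ * a⁻¹ = (a * a)⁻¹ := by group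
    rw [e]; exact Z.inv_mem ha'

lemma exists_Z3 : ∃ r ∈ P, r ∉ Z ∧ r * r ∈ Z := by
  classical
  have hne : ∃ p ∈ P, p ∉ Z := by
    by_contra h
    push Not at h
    exact c.P_ne_Z (le_antisymm h c.hZP)
  obtain ⟨p, hp, hpZ⟩ := hne
  have hex : ∃ k : ℕ, p ^ (2 ^ k) ∈ Z := by
    refine ⟨6, ?_⟩
    have : (⟨p, hp⟩ : P) ^ Nat.card P = 1 := pow_card_eq_one'
    rw [c.cP] at this
    have h2 : p ^ 64 = 1 := congrArg Subtype.val this
    have e : (2 : ℕ) ^ 6 = 64 := by norm_num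
    rw [e, h2]
    exact Z.one_mem
  have hk0 : Nat.find hex ≠ 0 := by
    intro h0
    have := Nat.find_spec hex
    rw [h0] at this
    simp only [pow_zero, pow_one] at this
    exact hpZ this
  obtain ⟨k, hk⟩ := Nat.exists_eq_succ_of_ne_zero hk0
  have h1 : p ^ (2 ^ k) ∉ Z := Nat.find_min hex (by omega)
  have h2 := Nat.find_spec hex
  rw [hk] at h2
  refine ⟨p ^ (2 ^ k), P.pow_mem hp _, h1, ?_⟩
  rw [← pow_add, ← two_mul, ← pow_succ']
  exact h2

lemma sq_mem {p : G} (hp : p ∈ P) : p * p ∈ Z := by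
  have h1 : Z ≤ Z3 c := by
    intro z hz
    refine ⟨c.hZP hz, ?_⟩
    rw [c.hZi z hz]; exact Z.one_mem
  have h2 : Z3 c ≤ P := fun a ha => ha.1
  have h3 : Stab s (Z3 c) := by
    rintro a ⟨ha, ha'⟩
    refine ⟨c.stabP s a ha, ?_⟩
    have e : s * a * s⁻¹ * (s * a * s⁻¹) = s * (a * a) * s⁻¹ := by group
    rw [e]
    exact c.hZn.conj_mem _ ha' s
  rcases c.dich h1 h2 h3 with h4 | h4
  · obtain ⟨r, hr, hrZ, hr'⟩ := c.exists_Z3
    exact absurd (h4 ▸ (⟨hr, hr'⟩ : r ∈ Z3 c)) hrZ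
  · have : p ∈ Z3 c := by rw [h4]; exact hp
    exact this.2

/-- fixed-point-freeness on `P/Z` -/
lemma fpf {p : G} (hp : p ∈ P) (h : s * p * s⁻¹ * p⁻¹ ∈ Z) : p ∈ Z := by
  set z := s * p * s⁻¹ * p⁻¹ with hz
  have h1 : s * p * s⁻¹ = z * p := by rw [hz]; group
  have hzs : z * s = s * z := c.s_comm_Z h
  have h2 : ∀ k : ℕ, s ^ k * p * (s ^ k)⁻¹ = z ^ k * p := by
    intro k
    induction k with
    | zero => simp
    | succ k ih =>
      have e : s ^ (k + 1) * p * (s ^ (k + 1))⁻¹ = s * (s ^ k * p * (s ^ k)⁻¹) * s⁻¹ := by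
        simp only [pow_succ']; group
      rw [e, ih, pow_succ']
      have hcm : Commute (z ^ k) s := (show Commute z s from hzs).pow_left k
      calc s * (z ^ k * p) * s⁻¹ = (s * z ^ k * s⁻¹) * (s * p * s⁻¹) := by group
        _ = z ^ k * (z * p) := by rw [h1, ← hcm.eq]; simp
        _ = z * z ^ k * p := by
          rw [← mul_assoc, ((Commute.refl z).pow_left k).eq]
  have h3 := h2 5
  rw [c.hs5] at h3
  simp only [one_mul, inv_one, mul_one] at h3
  have h4 : z ^ 5 = 1 := mul_eq_right.mp h3.symm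
  have h5 : z = 1 := by
    have hzz := c.hZi z h
    have : z ^ 5 = z * (z * z) * (z * z) := by simp only [pow_succ, pow_zero, one_mul, mul_assoc]
    rw [this, hzz, mul_one, mul_one] at h4
    exact h4
  have h6 : s * p * s⁻¹ = p := by rw [h1, h5, one_mul]
  have h7 : p ∈ P ⊓ Subgroup.centralizer {s} := by
    refine ⟨hp, ?_⟩
    change p ∈ Subgroup.centralizer {s}
    rw [Subgroup.mem_centralizer_iff]
    intro y hy
    rw [Set.mem_singleton_iff] at hy
    rw [hy]
    calc s * p = s * p * s⁻¹ * s := by group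
      _ = p * s := by rw [h6]
  rwa [c.C_eq_Z] at h7

/-- `a ↦ s a s⁻¹` -/
def cj (s a : G) : G := s * a * s⁻¹

lemma cj_mem {a : G} (ha : a ∈ P) : cj s a ∈ P := c.stabP s a ha

lemma norm_mem {e : G} (he : e ∈ P) :
    e * cj s e * cj s (cj s e) * cj s (cj s (cj s e)) * cj s (cj s (cj s (cj s e))) ∈ Z := by
  set e1 := cj s e with he1
  set e2 := cj s e1 with he2
  set e3 := cj s e2 with he3
  set e4 := cj s e3 with he4
  have h1 : e1 ∈ P := c.cj_mem he
  have h2 : e2 ∈ P := c.cj_mem h1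
  have h3 : e3 ∈ P := c.cj_mem h2
  have h4 : e4 ∈ P := c.cj_mem h3
  have h5 : cj s e4 = e := by
    have : cj s e4 = s ^ 5 * e * (s ^ 5)⁻¹ := by
      simp only [he4, he3, he2, he1, cj, pow_succ, pow_zero]; group
    rw [this, c.hs5]; simp
  have hN : e * e1 * e2 * e3 * e4 ∈ P :=
    P.mul_mem (P.mul_mem (P.mul_mem (P.mul_mem he h1) h2) h3) h4
  apply c.fpf hN
  have hA : e1 * e2 * e3 * e4 ∈ P := P.mul_mem (P.mul_mem (P.mul_mem h1 h2) h3) h4
  have e' : s * (e * e1 * e2 * e3 * e4) * s⁻¹ * (e * e1 * e2 * e3 * e4)⁻¹ =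
      ⁅e1 * e2 * e3 * e4, e⁆ := by
    have s1 : s * (e * e1 * e2 * e3 * e4) * s⁻¹ = e1 * e2 * e3 * e4 * cj s e4 := by
      simp only [he4, he3, he2, he1, cj]; group
    rw [s1, h5]
    simp only [commutatorElement_def]; group
  rw [e']
  exact c.comm_mem hA he

/-- choice of `e` -/
lemma exists_e : ∃ e ∈ P, e ∉ Z ∧
    e * cj s e * cj s (cj s e) * cj s (cj s (cj s e)) * cj s (cj s (cj s (cj s e))) = 1 := by
  have hne : ∃ p ∈ P, p ∉ Z := by
    by_contra h
    push Not at h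
    exact c.P_ne_Z (le_antisymm h c.hZP)
  obtain ⟨p, hp, hpZ⟩ := hne
  have hw := c.norm_mem hp
  set w := p * cj s p * cj s (cj s p) * cj s (cj s (cj s p)) * cj s (cj s (cj s (cj s p))) with hwd
  have hws : s * w * s⁻¹ = w := conj_of_comm (c.s_comm_Z hw)
  have hcj : ∀ a, cj s (a * w) = cj s a * w := by
    intro a
    have : s * (a * w) * s⁻¹ = (s * a * s⁻¹) * (s * w * s⁻¹) := by group
    simp only [cj]
    rw [this, hws]
  refine ⟨p * w, P.mul_mem hp (c.hZP hw), ?_, ?_⟩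
  · intro h
    apply hpZ
    have : p = (p * w) * w⁻¹ := by group
    rw [this]
    exact Z.mul_mem h (Z.inv_mem hw)
  · simp only [hcj]
    have hp1 : cj s p ∈ P := c.cj_mem hp
    have hp2 : cj s (cj s p) ∈ P := c.cj_mem hp1
    have hp3 : cj s (cj s (cj s p)) ∈ P := c.cj_mem hp2
    have hp4 : cj s (cj s (cj s (cj s p))) ∈ P := c.cj_mem hp3
    have hcw : ∀ a ∈ P, a * w = w * a := fun a ha => c.hZc w hw a ha
    have hww : w * w = 1 := c.hZi w hw
    generalize cj s (cj s (cj s (cj s p))) = a4 at *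
    generalize cj s (cj s (cj s p)) = a3 at *
    generalize cj s (cj s p) = a2 at *
    generalize cj s p = a1 at *
    have step : ∀ x a : G, a * w = w * a → x * w * (a * w) = x * a := by
      intro x a h
      calc x * w * (a * w) = x * (w * a) * w := by group
        _ = x * (a * w) * w := by rw [h]
        _ = x * a * (w * w) := by group
        _ = x * a := by rw [hww, mul_one]
    have h1 := hcw a1 hp1
    have h3 := hcw a3 hp3
    rw [step p a1 h1]
    have e2 : p * a1 * (a2 * w) = p * a1 * a2 * w := by group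
    rw [e2, step (p * a1 * a2) a3 h3]
    have e3 : p * a1 * a2 * a3 * (a4 * w) = (p * a1 * a2 * a3 * a4) * w := by group
    rw [e3, ← hwd, hww]

/-- The full set of relations. -/
theorem exists_rel : ∃ e e1 e2 e3 e4 c1 c2 : G, Rel s e e1 e2 e3 e4 c1 c2 ∧ e ∈ P ∧ e ∉ Z ∧
    c1 ∈ Z ∧ c2 ∈ Z ∧ e1 ∈ P ∧ e2 ∈ P ∧ e3 ∈ P := by
  obtain ⟨e, he, heZ, hprod⟩ := c.exists_e
  set e1 := cj s e with he1
  set e2 := cj s e1 with he2
  set e3 := cj s e2 with he3
  set e4 := cj s e3 with he4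
  have p1 : e1 ∈ P := c.cj_mem he
  have p2 : e2 ∈ P := c.cj_mem p1
  have p3 : e3 ∈ P := c.cj_mem p2
  have p4 : e4 ∈ P := c.cj_mem p3
  have g0 : s * e = e1 * s := by simp [he1, cj]
  have g1 : s * e1 = e2 * s := by simp [he2, cj]
  have g2 : s * e2 = e3 * s := by simp [he3, cj]
  have g3 : s * e3 = e4 * s := by simp [he4, cj]
  have g4 : s * e4 = e * s := by
    have h5 : s * e4 * s⁻¹ = e := by
      have : s * e4 * s⁻¹ = s ^ 5 * e * (s ^ 5)⁻¹ := by
        simp only [he4, he3, he2, he1, cj, pow_succ, pow_zero]; group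
      rw [this, c.hs5]; simp
    calc s * e4 = s * e4 * s⁻¹ * s := by group
      _ = e * s := by rw [h5]
  set c1 := (e1 * e)⁻¹ * (e * e1) with hc1
  set c2 := (e2 * e)⁻¹ * (e * e2) with hc2
  have z1 : c1 ∈ Z := by
    have : c1 = ⁅e⁻¹, e1⁻¹⁆ := by
      simp only [hc1, commutatorElement_def]; group
    rw [this]
    exact c.comm_mem (P.inv_mem he) (P.inv_mem p1)
  have z2 : c2 ∈ Z := by
    have : c2 = ⁅e⁻¹, e2⁻¹⁆ := by
      simp only [hc2, commutatorElement_def]; group
    rw [this]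
    exact c.comm_mem (P.inv_mem he) (P.inv_mem p2)
  have m1 : e * e1 = e1 * e * c1 := by rw [hc1]; group
  have m2 : e * e2 = e2 * e * c2 := by rw [hc2]; group
  have c1s := c.s_comm_Z z1
  have c2s := c.s_comm_Z z2
  have c1e : c1 * e = e * c1 := (c.hZc c1 z1 e he).symm
  have c2e : c2 * e = e * c2 := (c.hZc c2 z2 e he).symm
  have c11 := c.hZi c1 z1
  have c22 := c.hZi c2 z2
  have cc : c1 * c2 = c2 * c1 := (c.hZc c2 z2 c1 (c.hZP z1))
  have hu : e * e ∈ Z := c.sq_mem he
  have uu := c.hZi _ hu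
  have us := c.s_comm_Z hu
  have s1 : e1 * e1 = e * e := shift_sq rfl us g0
  have s2 : e2 * e2 = e * e := shift_sq s1 us g1
  have s3 : e3 * e3 = e * e := shift_sq s2 us g2
  have s4 : e4 * e4 = e * e := shift_sq s3 us g3
  have m12 : e1 * e2 = e2 * e1 * c1 := shift_m m1 c1s g0 g1
  have m23 : e2 * e3 = e3 * e2 * c1 := shift_m m12 c1s g1 g2
  have m34 : e3 * e4 = e4 * e3 * c1 := shift_m m23 c1s g2 g3
  have m40 : e4 * e = e * e4 * c1 := shift_m m34 c1s g3 g4
  have m13 : e1 * e3 = e3 * e1 * c2 := shift_m m2 c2s g0 g2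
  have m24 : e2 * e4 = e4 * e2 * c2 := shift_m m13 c2s g1 g3
  have m30 : e3 * e = e * e3 * c2 := shift_m m24 c2s g2 g4
  have m41 : e4 * e1 = e1 * e4 * c2 := shift_m m30 c2s g3 g0
  have r10 : e1 * e = e * e1 * c1 := flip_m m1 c11
  have r20 : e2 * e = e * e2 * c2 := flip_m m2 c22
  have r21 : e2 * e1 = e1 * e2 * c1 := flip_m m12 c11
  have r31 : e3 * e1 = e1 * e3 * c2 := flip_m m13 c22
  have r32 : e3 * e2 = e2 * e3 * c1 := flip_m m23 c11
  have r42 : e4 * e2 = e2 * e4 * c2 := flip_m m24 c22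
  have r43 : e4 * e3 = e3 * e4 * c1 := flip_m m34 c11
  have cmP : ∀ k ∈ Z, ∀ y ∈ P, k * y = y * k := fun k hk y hy => (c.hZc k hk y hy).symm
  have p34 : e3 * e4 ∈ P := P.mul_mem p3 p4
  have p234 : e2 * (e3 * e4) ∈ P := P.mul_mem p2 p34
  have p1234 : e1 * (e2 * (e3 * e4)) ∈ P := P.mul_mem p1 p234
  -- pushing
  have a2 : (e3 * e4) * e2 = e2 * (e3 * e4) * (c1 * c2) := comm_step r32 r42 (cmP _ z1 _ p4)
  have a1a : (e3 * e4) * e1 = e1 * (e3 * e4) * (c2 * c2) := comm_step r31 m41 (cmP _ z2 _ p4)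
  have a1 : (e2 * (e3 * e4)) * e1 = e1 * (e2 * (e3 * e4)) * (c1 * (c2 * c2)) :=
    comm_step r21 a1a (cmP _ z1 _ p34)
  have a0a : (e3 * e4) * e = e * (e3 * e4) * (c2 * c1) := comm_step m30 m40 (cmP _ z2 _ p4)
  have a0b : (e2 * (e3 * e4)) * e = e * (e2 * (e3 * e4)) * (c2 * (c2 * c1)) :=
    comm_step r20 a0a (cmP _ z2 _ p34)
  have a0 : (e1 * (e2 * (e3 * e4))) * e = e * (e1 * (e2 * (e3 * e4))) * (c1 * (c2 * (c2 * c1))) :=
    comm_step r10 a0b (cmP _ z1 _ p234)
  have zz : ∀ {x y : G}, x ∈ Z → y ∈ Z → x * y ∈ Z := fun hx hy => Z.mul_mem hx hy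
  have b3 : (e3 * e4) * (e3 * e4) = e3 * e3 * (e4 * e4) * c1 := sq_step r43 (cmP _ z1 _ p4)
  have b2 : (e2 * (e3 * e4)) * (e2 * (e3 * e4)) = e2 * e2 * ((e3 * e4) * (e3 * e4)) * (c1 * c2) :=
    sq_step a2 (cmP _ (zz z1 z2) _ p34)
  have b1 : (e1 * (e2 * (e3 * e4))) * (e1 * (e2 * (e3 * e4))) =
      e1 * e1 * ((e2 * (e3 * e4)) * (e2 * (e3 * e4))) * (c1 * (c2 * c2)) :=
    sq_step a1 (cmP _ (zz z1 (zz z2 z2)) _ p234)
  have b0 : (e * (e1 * (e2 * (e3 * e4)))) * (e * (e1 * (e2 * (e3 * e4)))) =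
      e * e * ((e1 * (e2 * (e3 * e4))) * (e1 * (e2 * (e3 * e4)))) * (c1 * (c2 * (c2 * c1))) :=
    sq_step a0 (cmP _ (zz z1 (zz z2 (zz z2 z1))) _ p1234)
  have hN : e * (e1 * (e2 * (e3 * e4))) = 1 := by
    rw [← hprod]; simp only [mul_assoc]
  rw [hN, mul_one, b1, b2, b3, s1, s2, s3, s4, uu, one_mul] at b0
  have c0 : c2 * (c2 * c1) = c1 := by rw [← mul_assoc, c22, one_mul]
  rw [c0, c11, mul_one, c22, mul_one] at b0
  -- b0 : 1 = e * e * (e * e * (e * e * c1 * (c1 * c2)) * c1)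
  have hee : e * e = c1 * c2 := by
    set u := e * e with hudef
    have h1 : u * c1 = c1 * u := cmP _ hu _ (c.hZP z1)
    have h2 : u * c2 = c2 * u := cmP _ hu _ (c.hZP z2)
    have e1' : u * (u * (u * c1 * (c1 * c2)) * c1) = (u * u) * u * (c1 * c1) * (c2 * c1) := by
      calc u * (u * (u * c1 * (c1 * c2)) * c1)
          = (u * u) * u * (c1 * c1) * c2 * c1 := by group
        _ = _ := by group
    rw [e1', uu, one_mul, c11, mul_one] at b0
    -- b0 : 1 = u * (c2 * c1)
    have : u = (c2 * c1)⁻¹ := (eq_inv_of_mul_eq_one_left b0.symm)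
    rw [this, mul_inv_rev]
    have ic1 : c1⁻¹ = c1 := inv_eq_of_mul_eq_one_left c11
    have ic2 : c2⁻¹ = c2 := inv_eq_of_mul_eq_one_left c22
    rw [ic1, ic2]
  refine ⟨e, e1, e2, e3, e4, c1, c2, ?_, he, heZ, z1, z2, p1, p2, p3⟩
  exact {
    s5 := c.hs5, h0 := g0, h1 := g1, h2 := g2, h3 := g3, h4 := g4
    prod := hprod, m1 := m1, m2 := m2, c1s := c1s, c2s := c2s, c1e := c1e, c2e := c2e
    c1c1 := c11, c2c2 := c22, cc := cc, ee := hee }

theorem main_G : ∃ e e1 e2 e3 e4 c1 c2 : G, Rel s e e1 e2 e3 e4 c1 c2 ∧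
    Subgroup.closure {s, e} = ⊤ ∧
    ∀ N : Subgroup G, N.Normal → N ≠ ⊥ → c1 ∈ N ∨ c2 ∈ N ∨ c1 * c2 ∈ N := by
  obtain ⟨e, e1, e2, e3, e4, c1, c2, R, he, heZ, z1, z2, p1, p2, p3⟩ := c.exists_rel
  have hK2Z : K2 c1 c2 ≤ Z :=
    sup_le (sup_le bot_le (Subgroup.zpowers_le.mpr z1)) (Subgroup.zpowers_le.mpr z2)
  have hKP : K6 e e1 e2 e3 c1 c2 ≤ P :=
    sup_le (sup_le (sup_le (sup_le (hK2Z.trans c.hZP) (Subgroup.zpowers_le.mpr p3))
      (Subgroup.zpowers_le.mpr p2)) (Subgroup.zpowers_le.mpr p1)) (Subgroup.zpowers_le.mpr he)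
  set K := K6 e e1 e2 e3 c1 c2 with hKdef
  have heK : e ∈ K := R.e_mem
  -- K ⊔ Z = P
  have hstabT : Stab s (K ⊔ Z) := by
    let φ : G →* G := (MulAut.conj s).toMonoidHom
    have hφ : ∀ a, φ a = s * a * s⁻¹ := fun a => rfl
    have : K ⊔ Z ≤ (K ⊔ Z).comap φ := by
      refine sup_le ?_ ?_
      · intro a ha
        rw [Subgroup.mem_comap, hφ]
        exact (le_sup_left : K ≤ K ⊔ Z) (R.stab7 a ha)
      · intro a ha
        rw [Subgroup.mem_comap, hφ]
        exact (le_sup_right : Z ≤ K ⊔ Z) (c.stabZ s a ha)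
    intro a ha
    have := this ha
    rwa [Subgroup.mem_comap, hφ] at this
  have hT : K ⊔ Z = P := by
    rcases c.dich le_sup_right (sup_le hKP c.hZP) hstabT with h | h
    · exfalso
      apply heZ
      rw [← h]
      exact (le_sup_left : K ≤ K ⊔ Z) heK
    · exact h
  have htop : K ⊔ Z ⊔ Subgroup.zpowers s = ⊤ := by rw [hT]; exact c.sup_top c.hsP
  -- K is normal
  have hKn : K.Normal := by
    rw [← Subgroup.normalizer_eq_top_iff]
    rw [eq_top_iff, ← htop]
    refine sup_le (sup_le Subgroup.le_normalizer ?_) ?_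
    · intro z hz
      rw [Subgroup.mem_normalizer_iff]
      intro h
      by_cases hh : h ∈ K
      · have hcm : z * h = h * z := (c.hZc z hz h (hKP hh)).symm
        have : z * h * z⁻¹ = h := by rw [hcm]; group
        rw [this]
      · have hh2 : z * h * z⁻¹ ∉ K := by
          intro h3
          apply hh
          have hm : z⁻¹ ∈ Z := Z.inv_mem hz
          have hk' := hKP h3
          have hcm : z⁻¹ * (z * h * z⁻¹) = (z * h * z⁻¹) * z⁻¹ := (c.hZc _ hm _ hk').symm
          have h4 : z * h * z⁻¹ = h := by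
            have : z⁻¹ * (z * h * z⁻¹) = h * z⁻¹ := by group
            rw [this] at hcm
            exact (mul_right_cancel hcm).symm
          rwa [h4] at h3
        exact ⟨fun h' => absurd h' hh, fun h' => absurd h' hh2⟩
    · rw [Subgroup.zpowers_le, Subgroup.mem_normalizer_iff]
      intro h
      constructor
      · exact fun hh => R.stab7 h hh
      · intro hh
        have := (Stab.inv R.stab7) _ hh
        have e' : s⁻¹ * (s * h * s⁻¹) * s⁻¹⁻¹ = h := by group
        rwa [e'] at this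
  -- commutator
  have hle : commutator G ≤ K := by
    refine comm_le K Z (Subgroup.zpowers s) ?_ ?_ ?_ ?_
    · rw [eq_top_iff, ← htop]
      exact sup_le (sup_le le_sup_right (le_sup_left.trans le_sup_left))
        (le_sup_right.trans le_sup_left)
    · intro a ha b hb
      rw [commutatorElement_eq_one_iff_mul_comm.mpr (c.hZc b hb a (c.hZP ha))]
      exact K.one_mem
    · intro a ha b hb
      obtain ⟨k, rfl⟩ := Subgroup.mem_zpowers_iff.mp hb
      have hcm : Commute a (s ^ k) := (show Commute a s from c.s_comm_Z ha).zpow_right k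
      rw [commutatorElement_eq_one_iff_mul_comm.mpr hcm.eq]
      exact K.one_mem
    · intro a ha b hb
      obtain ⟨k, rfl⟩ := Subgroup.mem_zpowers_iff.mp ha
      obtain ⟨l, rfl⟩ := Subgroup.mem_zpowers_iff.mp hb
      have hcm : Commute (s ^ k) (s ^ l) := (Commute.refl s).zpow_zpow k l
      rw [commutatorElement_eq_one_iff_mul_comm.mpr hcm.eq]
      exact K.one_mem
  have hKeq : K = P := le_antisymm hKP (by rw [← c.hD]; exact hle)
  have hK2 : K2 c1 c2 = Z := by
    refine Subgroup.eq_of_le_of_card_ge hK2Z ?_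
    have h6 := R.card_K6
    rw [← hKdef, hKeq, c.cP] at h6
    rw [c.cZ]
    omega
  refine ⟨e, e1, e2, e3, e4, c1, c2, R, ?_, ?_⟩
  · -- generation
    rw [eq_top_iff, ← htop, hT]
    set L := Subgroup.closure {s, e} with hL
    have hs : s ∈ L := Subgroup.subset_closure (by simp)
    have he' : e ∈ L := Subgroup.subset_closure (by simp)
    have q1 : e1 ∈ L := by
      rw [← R.conj_eq R.h0]; exact L.mul_mem (L.mul_mem hs he') (L.inv_mem hs)
    have q2 : e2 ∈ L := by
      rw [← R.conj_eq R.h1]; exact L.mul_mem (L.mul_mem hs q1) (L.inv_mem hs)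
    have q3 : e3 ∈ L := by
      rw [← R.conj_eq R.h2]; exact L.mul_mem (L.mul_mem hs q2) (L.inv_mem hs)
    have q4 : c1 ∈ L := by
      have : c1 = (e1 * e)⁻¹ * (e * e1) := by rw [R.m1]; group
      rw [this]
      exact L.mul_mem (L.inv_mem (L.mul_mem q1 he')) (L.mul_mem he' q1)
    have q5 : c2 ∈ L := by
      have : c2 = (e2 * e)⁻¹ * (e * e2) := by rw [R.m2]; group
      rw [this]
      exact L.mul_mem (L.inv_mem (L.mul_mem q2 he')) (L.mul_mem he' q2)
    have hKL : K ≤ L :=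
      sup_le (sup_le (sup_le (sup_le (sup_le (sup_le bot_le (Subgroup.zpowers_le.mpr q4))
        (Subgroup.zpowers_le.mpr q5)) (Subgroup.zpowers_le.mpr q3))
        (Subgroup.zpowers_le.mpr q2)) (Subgroup.zpowers_le.mpr q1)) (Subgroup.zpowers_le.mpr he')
    rw [hKeq] at hKL
    exact sup_le hKL (Subgroup.zpowers_le.mpr hs)
  · intro N hN hN0
    have key : ∀ n ∈ N, n ∈ P → n ≠ 1 → ∃ z ∈ N, z ∈ Z ∧ z ≠ 1 := by
      intro n hnN hnP hn1
      by_cases hnZ : n ∈ Z
      · exact ⟨n, hnN, hnZ, hn1⟩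
      · have : ∃ q ∈ P, n * q ≠ q * n := by
          by_contra h
          push Not at h
          exact hnZ (c.hZm n hnP h)
        obtain ⟨q, hq, hqn⟩ := this
        refine ⟨⁅n, q⁆, ?_, c.comm_mem hnP hq, ?_⟩
        · have e' : ⁅n, q⁆ = n * (q * n⁻¹ * q⁻¹) := by
            simp only [commutatorElement_def]; group
          rw [e']
          exact N.mul_mem hnN (hN.conj_mem _ (N.inv_mem hnN) q)
        · intro h
          exact hqn (commutatorElement_eq_one_iff_mul_comm.mp h)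
    obtain ⟨n, hn, hn1⟩ := (Subgroup.ne_bot_iff_exists_ne_one.mp hN0 : ∃ n : N, n ≠ 1) |>.imp
      (fun a ha => ha) |> fun ⟨a, ha⟩ => (⟨a.1, a.2, fun h => ha (Subtype.ext h)⟩ :
        ∃ n : G, n ∈ N ∧ n ≠ 1)
    have hz : ∃ z ∈ N, z ∈ Z ∧ z ≠ 1 := by
      by_cases hnP : n ∈ P
      · exact key n hn hnP hn1
      · obtain ⟨p, hp, hpn⟩ := c.exists_noncomm hnP
        refine key ⁅n, p⁆ ?_ ?_ ?_
        · have e' : ⁅n, p⁆ = n * (p * n⁻¹ * p⁻¹) := by
            simp only [commutatorElement_def]; group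
          rw [e']
          exact N.mul_mem hn (hN.conj_mem _ (N.inv_mem hn) p)
        · have e' : ⁅n, p⁆ = (n * p * n⁻¹) * p⁻¹ := rfl
          rw [e']
          exact P.mul_mem (c.stabP n p hp) (P.inv_mem hp)
        · intro h
          exact hpn (commutatorElement_eq_one_iff_mul_comm.mp h)
    obtain ⟨z, hzN, hzZ, hz1⟩ := hz
    rw [← hK2] at hzZ
    rcases R.mem_K2 hzZ with h | h | h | h
    · exact absurd h hz1
    · left; rwa [← h]
    · right; left; rwa [← h]
    · right; right; rwa [← h]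

end Cfg

theorem exists_cfg {G : Type*} [Group G] [Finite G] (hG : Nat.card G = 320)
    (hD : Nat.card (commutator G) = 64) (hZ : IsKleinFour (Subgroup.center (commutator G))) :
    ∃ (P Z : Subgroup G) (s : G), Cfg P Z s := by
  classical
  set P := commutator G with hP
  let Z : Subgroup G := (Subgroup.center P).map P.subtype
  have hmem : ∀ z, z ∈ Z ↔ z ∈ P ∧ ∀ p ∈ P, p * z = z * p := by
    intro z
    constructor
    · rintro ⟨y, hy, rfl⟩
      refine ⟨y.2, fun p hp => ?_⟩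
      have := (Subgroup.mem_center_iff.mp hy) ⟨p, hp⟩
      exact congrArg Subtype.val this
    · rintro ⟨hz, h⟩
      refine ⟨⟨z, hz⟩, ?_, rfl⟩
      rw [SetLike.mem_coe, Subgroup.mem_center_iff]
      intro g
      exact Subtype.ext (h g g.2)
  have hPn : P.Normal := inferInstance
  obtain ⟨s, hs⟩ := exists_prime_orderOf_dvd_card' (G := G) 5 (by rw [hG]; norm_num)
    (hp := ⟨by norm_num⟩)
  refine ⟨P, Z, s, ?_⟩
  exact {
    hPn := hPn
    hZn := by
      constructor
      intro z hz g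
      rw [hmem] at hz ⊢
      refine ⟨hPn.conj_mem _ hz.1 g, fun p hp => ?_⟩
      have h1 := hz.2 (g⁻¹ * p * g⁻¹⁻¹) (hPn.conj_mem _ hp g⁻¹)
      have h2 : g⁻¹⁻¹ = g := inv_inv g
      rw [h2] at h1
      calc p * (g * z * g⁻¹) = g * (g⁻¹ * p * g * z) * g⁻¹ := by group
        _ = g * (z * (g⁻¹ * p * g)) * g⁻¹ := by rw [h1]
        _ = _ := by group
    hZP := fun z hz => ((hmem z).mp hz).1
    hZc := fun z hz p hp => ((hmem z).mp hz).2 p hp
    hZi := by
      rintro z ⟨y, hy, rfl⟩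
      have h1 : (⟨y, hy⟩ : Subgroup.center P) ^ (Monoid.exponent (Subgroup.center P)) = 1 :=
        Monoid.pow_exponent_eq_one _
      rw [IsKleinFour.exponent_two, pow_two] at h1
      exact congrArg (fun w : Subgroup.center P => ((w : P) : G)) h1
    hZm := fun p hp h => (hmem p).mpr ⟨hp, fun q hq => (h q hq).symm⟩
    cG := hG
    cP := hD
    cZ := by
      rw [Subgroup.card_map_of_injective P.subtype_injective]
      exact IsKleinFour.card_four
    hD := rfl
    hs5 := by rw [← hs]; exact pow_orderOf_eq_one s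
    hsP := by
      intro h
      have h1 : orderOf s ∣ Nat.card P := Subgroup.orderOf_dvd_natCard P h
      rw [hs, hD] at h1
      norm_num at h1 }

end Cfsg.Agent.H06.U3
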