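import Mathlib
import Cfsg.Prelude.Def_Classical
import Cfsg.Agent.Lib.H06.U3a

set_option autoImplicit false

namespace Cfsg.Agent.H06.U3

open Matrix

section Field
variable {F : Type*} [Field F]

lemma pow4_add (h2 : (2 : F) = 0) (a b : F) : (a + b) ^ 4 = a ^ 4 + b ^ 4 := by
  linear_combination (2 * a ^ 3 * b + 3 * a ^ 2 * b ^ 2 + 2 * a * b ^ 3) * h2

lemma pow4_add3 (h2 : (2 : F) = 0) (a b c : F) : (a + b + c) ^ 4 = a ^ 4 + b ^ 4 + c ^ 4 := by
  rw [pow4_add h2, pow4_add h2]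

/-- entries of the form condition -/
def UC (M : Matrix (Fin 3) (Fin 3) F) : Prop :=
  ∀ i j, M 0 i * (M 0 j) ^ 4 + M 1 i * (M 1 j) ^ 4 + M 2 i * (M 2 j) ^ 4 = if i = j then 1 else 0

lemma preserve_of_UC (h2 : (2 : F) = 0) {M : Matrix (Fin 3) (Fin 3) F} (H : UC M) (u v : Fin 3 → F) :
    Cfsg.hermForm 3 F 4 (M *ᵥ u) (M *ᵥ v) = Cfsg.hermForm 3 F 4 u v := by
  have H00 := H 0 0
  have H01 := H 0 1
  have H02 := H 0 2
  have H10 := H 1 0
  have H11 := H 1 1
  have H12 := H 1 2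
  have H20 := H 2 0
  have H21 := H 2 1
  have H22 := H 2 2
  simp at H00 H01 H02 H10 H11 H12 H20 H21 H22
  simp only [Cfsg.hermForm, Fin.sum_univ_three, Matrix.mulVec, dotProduct]
  rw [pow4_add3 h2, pow4_add3 h2, pow4_add3 h2]
  simp only [mul_pow]
  linear_combination u 0 * (v 0) ^ 4 * H00 + u 0 * (v 1) ^ 4 * H01 + u 0 * (v 2) ^ 4 * H02 +
    u 1 * (v 0) ^ 4 * H10 + u 1 * (v 1) ^ 4 * H11 + u 1 * (v 2) ^ 4 * H12 +
    u 2 * (v 0) ^ 4 * H20 + u 2 * (v 1) ^ 4 * H21 + u 2 * (v 2) ^ 4 * H22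

lemma UC_of_preserve {M : Matrix (Fin 3) (Fin 3) F}
    (H : ∀ u v, Cfsg.hermForm 3 F 4 (M *ᵥ u) (M *ᵥ v) = Cfsg.hermForm 3 F 4 u v) : UC M := by
  intro i j
  have h := H (Pi.single i 1) (Pi.single j 1)
  simp only [Matrix.mulVec_single_one, Cfsg.hermForm, Fin.sum_univ_three, Matrix.col_apply] at h
  rw [h]
  fin_cases i <;> fin_cases j <;> simp

/-- matrix of an element of SU -/
def mat (g : Cfsg.SU 3 F 4) : Matrix (Fin 3) (Fin 3) F :=
  ((g : Matrix.SpecialLinearGroup (Fin 3) F) : Matrix (Fin 3) (Fin 3) F)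

lemma mat_mul (a b : Cfsg.SU 3 F 4) : mat (a * b) = mat a * mat b := rfl
lemma mat_one : mat (1 : Cfsg.SU 3 F 4) = 1 := rfl

lemma mat_inj {a b : Cfsg.SU 3 F 4} (h : mat a = mat b) : a = b :=
  Subtype.ext (Subtype.ext h)

lemma mat_UC (g : Cfsg.SU 3 F 4) : UC (mat g) := UC_of_preserve g.2

lemma mat_det (g : Cfsg.SU 3 F 4) : (mat g).det = 1 := (g : Matrix.SpecialLinearGroup (Fin 3) F).2

/-- build an element of SU -/
def mkSU (h2 : (2 : F) = 0) (M : Matrix (Fin 3) (Fin 3) F) (hd : M.det = 1) (H : UC M) :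
    Cfsg.SU 3 F 4 :=
  ⟨⟨M, hd⟩, fun u v => preserve_of_UC h2 H u v⟩

lemma mat_mk (h2 : (2 : F) = 0) (M : Matrix (Fin 3) (Fin 3) F) (hd : M.det = 1) (H : UC M) :
    mat (mkSU h2 M hd H) = M := rfl

/-- the matrices of the Sylow 2-subgroup of the centraliser -/
def gm (x c : F) : Matrix (Fin 3) (Fin 3) F := !![c + 1, c, x; c, c + 1, x; x ^ 4, x ^ 4, 1]

/-- diagonal matrices -/
def dm (a b : F) : Matrix (Fin 3) (Fin 3) F := !![a, 0, 0; 0, a, 0; 0, 0, b]

/-- the involution -/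
def tm : Matrix (Fin 3) (Fin 3) F := !![0, 1, 0; 1, 0, 0; 0, 0, 1]

lemma gm_mul (h2 : (2 : F) = 0) (x c y d : F) :
    gm x c * gm y d = gm (x + y) (c + d + x * y ^ 4) := by
  ext i j
  fin_cases i <;> fin_cases j <;> simp [gm, Matrix.mul_apply, Fin.sum_univ_three]
  · linear_combination c * d * h2
  · linear_combination c * d * h2
  · linear_combination c * y * h2
  · linear_combination c * d * h2
  · linear_combination c * d * h2
  · linear_combination c * y * h2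
  · linear_combination (x ^ 4 * d - 2 * x ^ 3 * y - 3 * x ^ 2 * y ^ 2 - 2 * x * y ^ 3) * h2
  · linear_combination (x ^ 4 * d - 2 * x ^ 3 * y - 3 * x ^ 2 * y ^ 2 - 2 * x * y ^ 3) * h2
  · linear_combination x ^ 4 * y * h2

lemma gm_zero : gm (0 : F) 0 = 1 := by
  ext i j
  fin_cases i <;> fin_cases j <;> simp [gm]

lemma dm_mul (a b a' b' : F) : dm a b * dm a' b' = dm (a * a') (b * b') := by
  ext i j
  fin_cases i <;> fin_cases j <;> simp [dm, Matrix.mul_apply, Fin.sum_univ_three]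

lemma dm_one : dm (1 : F) 1 = 1 := by
  ext i j
  fin_cases i <;> fin_cases j <;> simp [dm]

lemma dm_conj {w : F} (hw : w ^ 5 = 1) (x c : F) :
    dm (w ^ 2) w * gm x c = gm (w * x) c * dm (w ^ 2) w := by
  ext i j
  fin_cases i <;> fin_cases j <;> simp [gm, dm, Matrix.mul_apply, Fin.sum_univ_three] <;> try ring
  · linear_combination (- x ^ 4 * w) * hw
  · linear_combination (- x ^ 4 * w) * hw

lemma tm_comm_gm (x c : F) : tm * gm x c = gm x c * tm := by
  ext i j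
  fin_cases i <;> fin_cases j <;> simp [gm, tm, Matrix.mul_apply, Fin.sum_univ_three]

lemma tm_comm_dm (a b : F) : tm * dm a b = dm a b * tm := by
  ext i j
  fin_cases i <;> fin_cases j <;> simp [dm, tm, Matrix.mul_apply, Fin.sum_univ_three]

lemma gm_det (h2 : (2 : F) = 0) (x c : F) : (gm x c).det = 1 := by
  simp [gm, Matrix.det_fin_three]
  linear_combination (c - x * x ^ 4 ) * h2

lemma gm_UC (h2 : (2 : F) = 0) {x c : F} (hx : x ^ 16 = x) (hc : c + c ^ 4 = x ^ 5) :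
    UC (gm x c) := by
  have h20 : x ^ 20 = x ^ 5 := by
    calc x ^ 20 = x ^ 16 * x ^ 4 := by ring
      _ = x ^ 5 := by rw [hx]; ring
  have hc4 : (c + 1) ^ 4 = c ^ 4 + 1 := by rw [pow4_add h2, one_pow]
  intro i j
  fin_cases i <;> fin_cases j <;> simp [gm]
  · linear_combination (c + 1) * hc4 + h20 + hc + (x ^ 5 + c ^ 5) * h2
  · linear_combination c * hc4 + h20 + hc + (x ^ 5 + c ^ 5) * h2
  · linear_combination (c + 1) * x ^ 4 * h2
  · linear_combination c * hc4 + h20 + hc + (x ^ 5 + c ^ 5) * h2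
  · linear_combination (c + 1) * hc4 + h20 + hc + (x ^ 5 + c ^ 5) * h2
  · linear_combination (c + 1) * x ^ 4 * h2
  · linear_combination x * hc4 + hx + (x * c ^ 4 + x) * h2
  · linear_combination x * hc4 + hx + (x * c ^ 4 + x) * h2
  · linear_combination x ^ 5 * h2

lemma dm_det {a b : F} (h : a ^ 2 * b = 1) : (dm a b).det = 1 := by
  simp [dm, Matrix.det_fin_three]
  linear_combination h

lemma dm_UC {a b : F} (ha : a ^ 5 = 1) (hb : b ^ 5 = 1) : UC (dm a b) := by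
  intro i j
  fin_cases i <;> fin_cases j <;> simp [dm]
  · linear_combination ha
  · linear_combination ha
  · linear_combination hb

lemma tm_det (h2 : (2 : F) = 0) : (tm : Matrix (Fin 3) (Fin 3) F).det = 1 := by
  simp [tm, Matrix.det_fin_three]
  linear_combination -h2

lemma tm_UC : UC (tm : Matrix (Fin 3) (Fin 3) F) := by
  intro i j
  fin_cases i <;> fin_cases j <;> simp [tm]

lemma gm_congr {x x' c c' : F} (h1 : x = x') (h2 : c = c') : gm x c = gm x' c' := by rw [h1, h2]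

lemma card_roots4 [Finite F] {s0 A B : F} (hs : s0 ≠ 0) :
    ∃ R : Finset F, R.card ≤ 4 ∧ ∀ b, s0 * b ^ 4 + A * b + B = 0 → b ∈ R := by
  classical
  open Polynomial in
  let p : F[X] := C s0 * X ^ 4 + C A * X + C B
  have hp : p ≠ 0 := by
    intro h0
    have : p.coeff 4 = s0 := by
      simp [p, Polynomial.coeff_X, Polynomial.coeff_C]
    rw [h0] at this
    simp at this
    exact hs this.symm
  have hd : p.natDegree ≤ 4 := by
    simp only [p]
    compute_degree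
  refine ⟨p.roots.toFinset, ?_, ?_⟩
  · exact (Multiset.toFinset_card_le _).trans ((Polynomial.card_roots' p).trans hd)
  · intro b hb
    rw [Multiset.mem_toFinset, Polynomial.mem_roots hp]
    simp [p, Polynomial.IsRoot.def, hb]

/-- The data of a root of unity of order 5. -/
structure Om (ω : F) : Prop where
  h2 : (2 : F) = 0
  hw : ω ^ 4 + ω ^ 3 + ω ^ 2 + ω + 1 = 0
  hq : ∀ x : F, x ^ 16 = x

namespace Om
variable {ω : F} (O : Om ω)
include O

lemma w5 : ω ^ 5 = 1 := by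
  linear_combination (ω - 1) * O.hw

lemma hc (i : ℕ) : (ω + ω ^ 3) + (ω + ω ^ 3) ^ 4 = (ω ^ i) ^ 5 := by
  have h5 : (ω ^ i) ^ 5 = 1 := by rw [← pow_mul, mul_comm, pow_mul, O.w5, one_pow]
  rw [h5, pow4_add O.h2]
  have h12 : (ω ^ 3) ^ 4 = ω ^ 2 := by
    calc (ω ^ 3) ^ 4 = ω ^ 5 * ω ^ 5 * ω ^ 2 := by ring
      _ = ω ^ 2 := by rw [O.w5]; ring
  rw [h12]
  linear_combination O.hw - O.h2

lemma ha0 : (ω + ω ^ 4) + (ω + ω ^ 4) ^ 4 = (0 : F) ^ 5 := by
  rw [pow4_add O.h2]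
  have h16 : (ω ^ 4) ^ 4 = ω := by
    calc (ω ^ 4) ^ 4 = ω ^ 5 * ω ^ 5 * ω ^ 5 * ω := by ring
      _ = ω := by rw [O.w5]; ring
  rw [h16]
  linear_combination (ω + ω ^ 4) * O.h2

lemma hb0 : (ω ^ 2 + ω ^ 3) + (ω ^ 2 + ω ^ 3) ^ 4 = (0 : F) ^ 5 := by
  rw [pow4_add O.h2]
  have h8 : (ω ^ 2) ^ 4 = ω ^ 3 := by
    calc (ω ^ 2) ^ 4 = ω ^ 5 * ω ^ 3 := by ring
      _ = ω ^ 3 := by rw [O.w5]; ring
  have h12 : (ω ^ 3) ^ 4 = ω ^ 2 := by
    calc (ω ^ 3) ^ 4 = ω ^ 5 * ω ^ 5 * ω ^ 2 := by ring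
      _ = ω ^ 2 := by rw [O.w5]; ring
  rw [h8, h12]
  linear_combination (ω ^ 2 + ω ^ 3) * O.h2

/-- the element of order 5 -/
noncomputable def T (O : Om ω) : Cfsg.SU 3 F 4 :=
  mkSU O.h2 (dm (ω ^ 2) ω) (dm_det (by linear_combination O.w5))
    (dm_UC (by
      calc (ω ^ 2) ^ 5 = (ω ^ 5) ^ 2 := by ring
        _ = 1 := by rw [O.w5]; ring) O.w5)

lemma mat_T : mat O.T = dm (ω ^ 2) ω := rfl

/-- elements of the Sylow 2-subgroup -/
noncomputable def Gm (O : Om ω) (x c : F) (h : c + c ^ 4 = x ^ 5) : Cfsg.SU 3 F 4 :=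
  mkSU O.h2 (gm x c) (gm_det O.h2 x c) (gm_UC O.h2 (O.hq x) h)

lemma mat_Gm (x c : F) (h : c + c ^ 4 = x ^ 5) : mat (O.Gm x c h) = gm x c := rfl

/-- the involution -/
noncomputable def tt (O : Om ω) : Cfsg.SU 3 F 4 := mkSU O.h2 tm (tm_det O.h2) tm_UC

lemma mat_tt : mat O.tt = tm := rfl

/-- the elements of the presentation -/
noncomputable def ee (O : Om ω) (i : ℕ) : Cfsg.SU 3 F 4 := O.Gm (ω ^ i) (ω + ω ^ 3) (O.hc i)
noncomputable def c1 (O : Om ω) : Cfsg.SU 3 F 4 := O.Gm 0 (ω + ω ^ 4) O.ha0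
noncomputable def c2 (O : Om ω) : Cfsg.SU 3 F 4 := O.Gm 0 (ω ^ 2 + ω ^ 3) O.hb0

lemma mat_ee (i : ℕ) : mat (O.ee i) = gm (ω ^ i) (ω + ω ^ 3) := rfl
lemma mat_c1 : mat O.c1 = gm 0 (ω + ω ^ 4) := rfl
lemma mat_c2 : mat O.c2 = gm 0 (ω ^ 2 + ω ^ 3) := rfl

lemma T_ee (i j : ℕ) (h : ω * ω ^ i = ω ^ j) : O.T * O.ee i = O.ee j * O.T := by
  apply mat_inj
  rw [mat_mul, mat_mul, mat_T, mat_ee, mat_ee, dm_conj O.w5, h]

theorem rel : Rel O.T (O.ee 0) (O.ee 1) (O.ee 2) (O.ee 3) (O.ee 4) O.c1 O.c2 where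
  s5 := by
    apply mat_inj
    have : mat (O.T ^ 5) = (mat O.T) ^ 5 := rfl
    rw [this, mat_T, mat_one]
    simp only [pow_succ, pow_zero, one_mul, dm_mul]
    rw [← dm_one]
    apply congrArg₂
    · linear_combination (ω ^ 5 + 1) * O.w5
    · linear_combination O.w5
  h0 := O.T_ee 0 1 (by ring)
  h1 := O.T_ee 1 2 (by ring)
  h2 := O.T_ee 2 3 (by ring)
  h3 := O.T_ee 3 4 (by ring)
  h4 := O.T_ee 4 0 (by linear_combination O.w5)
  prod := by
    apply mat_inj
    simp only [mat_mul, mat_ee, mat_one, gm_mul O.h2]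
    rw [← gm_zero]
    apply gm_congr
    · linear_combination O.hw
    · linear_combination ((4) * ω ^ 0 + (-1) * ω ^ 1 + (-1) * ω ^ 2 + (-1) * ω ^ 3 + (3) * ω ^ 5 + (-1) * ω ^ 6 + (-1) * ω ^ 7 + (2) * ω ^ 10 + (-1) * ω ^ 11 + (1) * ω ^ 15) * O.hw + ((-2) * ω ^ 0 + (1) * ω ^ 1 + (-1) * ω ^ 2 + (2) * ω ^ 3) * O.h2
  m1 := by
    apply mat_inj
    simp only [mat_mul, mat_ee, mat_c1, gm_mul O.h2]
    apply gm_congr
    · ring
    · linear_combination (-ω) * O.h2
  m2 := by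
    apply mat_inj
    simp only [mat_mul, mat_ee, mat_c2, gm_mul O.h2]
    apply gm_congr
    · ring
    · linear_combination ω ^ 3 * O.w5 - ω ^ 2 * O.h2
  c1s := by
    apply mat_inj
    simp only [mat_mul, mat_T, mat_c1]
    rw [dm_conj O.w5, mul_zero]
  c2s := by
    apply mat_inj
    simp only [mat_mul, mat_T, mat_c2]
    rw [dm_conj O.w5, mul_zero]
  c1e := by
    apply mat_inj
    simp only [mat_mul, mat_ee, mat_c1, gm_mul O.h2]
    apply gm_congr <;> ring
  c2e := by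
    apply mat_inj
    simp only [mat_mul, mat_ee, mat_c2, gm_mul O.h2]
    apply gm_congr <;> ring
  c1c1 := by
    apply mat_inj
    simp only [mat_mul, mat_c1, mat_one, gm_mul O.h2]
    rw [← gm_zero]
    apply gm_congr
    · ring
    · linear_combination (ω + ω ^ 4) * O.h2
  c2c2 := by
    apply mat_inj
    simp only [mat_mul, mat_c2, mat_one, gm_mul O.h2]
    rw [← gm_zero]
    apply gm_congr
    · ring
    · linear_combination (ω ^ 2 + ω ^ 3) * O.h2
  cc := by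
    apply mat_inj
    simp only [mat_mul, mat_c1, mat_c2, gm_mul O.h2]
    apply gm_congr <;> ring
  ee := by
    apply mat_inj
    simp only [mat_mul, mat_ee, mat_c1, mat_c2, gm_mul O.h2]
    apply gm_congr
    · linear_combination O.h2
    · linear_combination (ω + ω ^ 3 + 1) * O.h2 - O.hw

lemma ne_one : ω ≠ 1 := by
  intro h
  have h1 := O.hw
  rw [h] at h1
  have h3 : (1 : F) = 0 := by linear_combination h1 - 2 * O.h2
  exact one_ne_zero h3

lemma alpha_ne : ω + ω ^ 4 ≠ 0 := by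
  intro h
  have h1 := O.hw
  have h3 : ω ^ 2 + ω ^ 3 = 0 := by
    have : ω ^ 2 + ω ^ 3 = (ω + ω ^ 4) ^ 2 + ω ^ 3 * (1 - ω ^ 5) - 2 * ω ^ 5 := by ring
    rw [this, h, O.w5]
    linear_combination (-1 : F) * O.h2
  have h4 : (1 : F) = 0 := by linear_combination h1 * 1 - h - h3 + 0
  exact one_ne_zero h4

lemma beta_ne : ω ^ 2 + ω ^ 3 ≠ 0 := by
  intro h
  apply O.alpha_ne
  have h1 : (ω + ω ^ 4) ^ 2 = 0 := by
    have : (ω + ω ^ 4) ^ 2 = ω ^ 2 + ω ^ 3 + ω ^ 3 * (ω ^ 5 - 1) + 2 * ω ^ 5 := by ring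
    rw [this, h, O.w5]
    linear_combination (1 : F) * O.h2
  exact pow_eq_zero_iff (two_ne_zero) |>.mp h1

lemma gm_ne {c : F} (hc : c ≠ 0) : gm 0 c ≠ (1 : Matrix (Fin 3) (Fin 3) F) := by
  intro h
  have := congrFun (congrFun h 0) 1
  simp [gm] at this
  exact hc this

lemma c1_ne : O.c1 ≠ 1 := by
  intro h
  have : mat O.c1 = mat (1 : Cfsg.SU 3 F 4) := congrArg mat h
  rw [mat_c1, mat_one] at this
  exact O.gm_ne O.alpha_ne this

lemma c2_ne : O.c2 ≠ 1 := by
  intro h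
  have : mat O.c2 = mat (1 : Cfsg.SU 3 F 4) := congrArg mat h
  rw [mat_c2, mat_one] at this
  exact O.gm_ne O.beta_ne this

lemma c12_ne : O.c1 * O.c2 ≠ 1 := by
  intro h
  have : mat (O.c1 * O.c2) = mat (1 : Cfsg.SU 3 F 4) := congrArg mat h
  rw [mat_mul, mat_c1, mat_c2, mat_one, gm_mul O.h2] at this
  have h1 : (0 : F) + 0 = 0 := by ring
  rw [h1] at this
  refine O.gm_ne ?_ this
  intro h2
  have : (1 : F) = 0 := by
    have h3 := O.hw
    linear_combination h3 - h2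
  exact one_ne_zero this

/-- centraliser: entries -/
lemma comm_entries {g : Cfsg.SU 3 F 4} (h : O.tt * g = g * O.tt) :
    mat g 1 0 = mat g 0 1 ∧ mat g 1 1 = mat g 0 0 ∧ mat g 1 2 = mat g 0 2 ∧
      mat g 2 1 = mat g 2 0 := by
  have h1 : tm * mat g = mat g * tm := by
    have := congrArg mat h
    rwa [mat_mul, mat_mul, mat_tt] at this
  have e00 := congrFun (congrFun h1 0) 0
  have e01 := congrFun (congrFun h1 0) 1
  have e02 := congrFun (congrFun h1 0) 2
  have e20 := congrFun (congrFun h1 2) 0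
  simp [tm, Matrix.mul_apply, Fin.sum_univ_three] at e00 e01 e02 e20
  exact ⟨e00, e01, e02, e20.symm⟩

lemma cent_form {g : Cfsg.SU 3 F 4} (h : O.tt * g = g * O.tt) :
    (mat g 0 0 + mat g 0 1) ^ 5 = 1 ∧ mat g 2 2 = (mat g 0 0 + mat g 0 1) ^ 3 ∧
      mat g 2 0 = (mat g 0 0 + mat g 0 1) ^ 4 * (mat g 0 2) ^ 4 ∧
      (mat g 0 0 + mat g 0 1) * (mat g 0 1) ^ 4 + (mat g 0 0 + mat g 0 1) ^ 4 * (mat g 0 1)
        + (mat g 0 2) ^ 20 = 0 := by
  obtain ⟨e1, e2, e3, e4⟩ := O.comm_entries h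
  have H := mat_UC g
  have hd := mat_det g
  have H00 := H 0 0
  have H01 := H 0 1
  have H02 := H 0 2
  have H22 := H 2 2
  rw [if_pos rfl, e1] at H00
  rw [if_neg (by decide), e1, e2, e4] at H01
  rw [if_neg (by decide), e1, e3] at H02
  rw [if_pos rfl, e3] at H22
  rw [Matrix.det_fin_three, e1, e2, e3, e4] at hd
  have h2 := O.h2
  generalize mat g 0 0 = a at *
  generalize mat g 0 1 = b at *
  generalize mat g 0 2 = x at *
  generalize mat g 2 0 = y at *
  generalize mat g 2 2 = z at *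
  have hp4 : (a + b) ^ 4 = a ^ 4 + b ^ 4 := pow4_add h2 a b
  have hs5 : (a + b) ^ 5 = 1 := by
    linear_combination (a + b) * hp4 + H00 + H01 - y ^ 5 * h2
  have hs2z : (a + b) ^ 2 * z = 1 := by
    linear_combination hd + (b ^ 2 * z + a * x * y - b * x * y + a * b * z) * h2
  have hz : z = (a + b) ^ 3 := by
    linear_combination (a + b) ^ 3 * hs2z - z * hs5
  have hz5 : z ^ 5 = 1 := by
    linear_combination H22 - x ^ 5 * h2
  have hy : y = (a + b) ^ 4 * x ^ 4 := by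
    linear_combination -y * hz5 + z * H02 - (a + b) * x ^ 4 * hz - (a + b) ^ 4 * x ^ 4 * h2
  have hy5 : y ^ 5 = x ^ 20 := by
    rw [hy]
    calc ((a + b) ^ 4 * x ^ 4) ^ 5 = ((a + b) ^ 5) ^ 4 * x ^ 20 := by ring
      _ = x ^ 20 := by rw [hs5]; ring
  refine ⟨hs5, hz, hy, ?_⟩
  linear_combination H01 + b * hp4 + b ^ 5 * h2 - hy5

lemma cent_ext {g g' : Cfsg.SU 3 F 4} (h : O.tt * g = g * O.tt) (h' : O.tt * g' = g' * O.tt)
    (hs : mat g 0 0 + mat g 0 1 = mat g' 0 0 + mat g' 0 1) (hx : mat g 0 2 = mat g' 0 2)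
    (hb : mat g 0 1 = mat g' 0 1) : g = g' := by
  obtain ⟨e1, e2, e3, e4⟩ := O.comm_entries h
  obtain ⟨e1', e2', e3', e4'⟩ := O.comm_entries h'
  obtain ⟨_, hz, hy, _⟩ := O.cent_form h
  obtain ⟨_, hz', hy', _⟩ := O.cent_form h'
  have ha : mat g 0 0 = mat g' 0 0 := by
    rw [hb] at hs
    exact add_right_cancel hs
  apply mat_inj
  ext i j
  fin_cases i <;> fin_cases j
  · exact ha
  · exact hb
  · exact hx
  · change mat g 1 0 = mat g' 1 0
    rw [e1, e1', hb]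
  · change mat g 1 1 = mat g' 1 1
    rw [e2, e2', ha]
  · change mat g 1 2 = mat g' 1 2
    rw [e3, e3', hx]
  · change mat g 2 0 = mat g' 2 0
    rw [hy, hy', hs, hx]
  · change mat g 2 1 = mat g' 2 1
    rw [e4, e4', hy, hy', hs, hx]
  · change mat g 2 2 = mat g' 2 2
    rw [hz, hz', hs]

lemma card_cent [Fintype F] (hF : Fintype.card F = 16) :
    Nat.card ↥(Subgroup.centralizer ({O.tt} : Set (Cfsg.SU 3 F 4))) ≤ 320 := by
  classical
  set C := Subgroup.centralizer ({O.tt} : Set (Cfsg.SU 3 F 4)) with hC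
  haveI : Finite (Cfsg.SU 3 F 4) := by
    apply Finite.of_injective (fun g : Cfsg.SU 3 F 4 => mat g)
    intro a b h
    exact mat_inj h
  letI : Fintype C := Fintype.ofFinite C
  have hcm : ∀ g : C, O.tt * (g : Cfsg.SU 3 F 4) = g * O.tt := fun g =>
    Subgroup.mem_centralizer_iff.mp g.2 O.tt (Set.mem_singleton _)
  let f : C → F × F := fun g => (mat (g : Cfsg.SU 3 F 4) 0 0 + mat (g : Cfsg.SU 3 F 4) 0 1,
    mat (g : Cfsg.SU 3 F 4) 0 2)
  let S5 : Finset F := (Polynomial.nthRoots 5 (1 : F)).toFinset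
  have hS5 : S5.card ≤ 5 :=
    (Multiset.toFinset_card_le _).trans (Polynomial.card_nthRoots 5 1)
  have hI : Finset.univ.image f ⊆ S5 ×ˢ (Finset.univ : Finset F) := by
    intro a ha
    obtain ⟨g, _, rfl⟩ := Finset.mem_image.mp ha
    refine Finset.mem_product.mpr ⟨?_, Finset.mem_univ _⟩
    rw [Multiset.mem_toFinset, Polynomial.mem_nthRoots (by norm_num)]
    exact (O.cent_form (hcm g)).1
  have hcard1 : (Finset.univ.image f).card ≤ 80 := by
    refine (Finset.card_le_card hI).trans ?_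
    rw [Finset.card_product, Finset.card_univ, hF]
    omega
  have hfib : ∀ a ∈ Finset.univ.image f, (Finset.univ.filter (fun x => f x = a)).card ≤ 4 := by
    intro a ha
    obtain ⟨g0, _, rfl⟩ := Finset.mem_image.mp ha
    have hs0 : (f g0).1 ≠ 0 := by
      intro h0
      have := (O.cent_form (hcm g0)).1
      change (f g0).1 ^ 5 = 1 at this
      rw [h0] at this
      simp at this
    obtain ⟨R, hR, hR'⟩ := card_roots4 (A := (f g0).1 ^ 4) (B := (f g0).2 ^ 20) hs0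
    refine le_trans ?_ hR
    refine Finset.card_le_card_of_injOn (fun g : C => mat (g : Cfsg.SU 3 F 4) 0 1) ?_ ?_
    · intro g hg
      have hg' : f g = f g0 := (Finset.mem_filter.mp hg).2
      apply hR'
      have := (O.cent_form (hcm g)).2.2.2
      change (f g).1 * _ + (f g).1 ^ 4 * _ + ((f g).2) ^ 20 = 0 at this
      rw [hg'] at this
      exact this
    · intro g hg g' hg' hb
      have h1 : f g = f g0 := (Finset.mem_filter.mp (Finset.mem_coe.mp hg)).2
      have h2 : f g' = f g0 := (Finset.mem_filter.mp (Finset.mem_coe.mp hg')).2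
      have h3 := h1.trans h2.symm
      apply Subtype.ext
      exact O.cent_ext (hcm g) (hcm g') (congrArg Prod.fst h3) (congrArg Prod.snd h3) hb
  have := Finset.card_le_mul_card_image (f := f) Finset.univ 4 hfib
  rw [Finset.card_univ] at this
  rw [Nat.card_eq_fintype_card]
  omega

/-- the second transposition -/
noncomputable def t2 (O : Om ω) : Cfsg.SU 3 F 4 :=
  mkSU O.h2 !![1, 0, 0; 0, 0, 1; 0, 1, 0] (by
    simp [Matrix.det_fin_three]
    linear_combination -O.h2) (by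
    intro i j
    fin_cases i <;> fin_cases j <;> simp)

/-- a diagonal element -/
noncomputable def DD (O : Om ω) : Cfsg.SU 3 F 4 :=
  mkSU O.h2 !![ω, 0, 0; 0, ω ^ 4, 0; 0, 0, 1] (by
    simp [Matrix.det_fin_three]
    linear_combination O.w5) (by
    intro i j
    fin_cases i <;> fin_cases j <;> simp
    · linear_combination O.w5
    · calc ω ^ 4 * (ω ^ 4) ^ 4 = (ω ^ 5) ^ 4 := by ring
        _ = 1 := by rw [O.w5]; ring)

lemma center_trivial : Subgroup.center (Cfsg.SU 3 F 4) = ⊥ := by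
  rw [eq_bot_iff]
  intro g hg
  rw [Subgroup.mem_bot]
  have h1 : O.tt * g = g * O.tt := Subgroup.mem_center_iff.mp hg O.tt
  have h2 : !![1, 0, 0; 0, 0, 1; 0, 1, 0] * mat g = mat g * !![1, 0, 0; 0, 0, 1; 0, 1, 0] :=
    congrArg mat (Subgroup.mem_center_iff.mp hg O.t2)
  have h3 : !![ω, 0, 0; 0, ω ^ 4, 0; 0, 0, 1] * mat g = mat g * !![ω, 0, 0; 0, ω ^ 4, 0; 0, 0, 1] :=
    congrArg mat (Subgroup.mem_center_iff.mp hg O.DD)
  obtain ⟨e1, e2, e3, e4⟩ := O.comm_entries h1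
  have t12 := congrFun (congrFun h2 1) 2
  have d01 := congrFun (congrFun h3 0) 1
  have d02 := congrFun (congrFun h3 0) 2
  have d20 := congrFun (congrFun h3 2) 0
  simp [Matrix.mul_apply, Fin.sum_univ_three] at t12 d01 d02 d20
  have hw1 : ω - 1 ≠ 0 := sub_ne_zero.mpr O.ne_one
  have m01 : mat g 0 1 = 0 := by
    have : mat g 0 1 * (ω + ω ^ 4) = 0 := by
      linear_combination d01 + mat g 0 1 * ω ^ 4 * O.h2
    exact (mul_eq_zero.mp this).resolve_right O.alpha_ne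
  have m02 : mat g 0 2 = 0 := by
    have : mat g 0 2 * (ω - 1) = 0 := by linear_combination d02
    exact (mul_eq_zero.mp this).resolve_right hw1
  have m20 : mat g 2 0 = 0 := by
    have : mat g 2 0 * (ω - 1) = 0 := by linear_combination -d20
    exact (mul_eq_zero.mp this).resolve_right hw1
  have H00 := mat_UC g 0 0
  rw [if_pos rfl, e1, m01, m20] at H00
  have hd := mat_det g
  have hz : mat g 2 2 = mat g 0 0 := t12.trans e2
  rw [Matrix.det_fin_three, e1, e2, e3, e4, m01, m02, m20, hz] at hd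
  have a5 : mat g 0 0 ^ 5 = 1 := by linear_combination H00
  have a3 : mat g 0 0 ^ 3 = 1 := by linear_combination hd
  have a1 : mat g 0 0 = 1 := by
    linear_combination mat g 0 0 * (-1 : F) * a5 + (mat g 0 0 ^ 3 + 1) * a3
  apply mat_inj
  rw [mat_one]
  ext i j
  fin_cases i <;> fin_cases j
  · simpa using a1
  · simpa using m01
  · simpa using m02
  · change mat g 1 0 = _
    rw [e1, m01]; simp
  · change mat g 1 1 = _
    rw [e2, a1]; simp
  · change mat g 1 2 = _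
    rw [e3, m02]; simp
  · change mat g 2 0 = _
    rw [m20]; simp
  · change mat g 2 1 = _
    rw [e4, m20]; simp
  · change mat g 2 2 = _
    rw [hz, a1]; simp

end Om

lemma exists_Om [Fintype F] (hF : Fintype.card F = 16) : ∃ ω : F, Om ω := by
  have h16 : ((Fintype.card F : ℕ) : F) = 0 := Nat.cast_card_eq_zero F
  rw [hF] at h16
  have h2 : (2 : F) = 0 := by
    have : (2 : F) ^ 4 = 0 := by
      have e : (2 : F) ^ 4 = ((16 : ℕ) : F) := by norm_num
      rw [e, h16]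
    exact pow_eq_zero_iff (by norm_num) |>.mp this
  have hq : ∀ x : F, x ^ 16 = x := by
    intro x
    have := FiniteField.pow_card x
    rwa [hF] at this
  classical
  have hu : Nat.card Fˣ = 15 := by
    rw [Nat.card_eq_fintype_card, Fintype.card_units, hF]
  obtain ⟨u, hu5⟩ := exists_prime_orderOf_dvd_card' (G := Fˣ) 5 (by rw [hu]; norm_num)
    (hp := ⟨by norm_num⟩)
  have h5 : (u : F) ^ 5 = 1 := by
    have h : u ^ 5 = 1 := by rw [← hu5]; exact pow_orderOf_eq_one u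
    calc (u : F) ^ 5 = ((u ^ 5 : Fˣ) : F) := (Units.val_pow_eq_pow_val u 5).symm
      _ = 1 := by rw [h]; rfl
  have hne : (u : F) ≠ 1 := by
    intro h
    have h1 : u = 1 := Units.ext h
    rw [h1, orderOf_one] at hu5
    norm_num at hu5
  refine ⟨(u : F), h2, ?_, hq⟩
  have h3 : ((u : F) - 1) * ((u : F) ^ 4 + (u : F) ^ 3 + (u : F) ^ 2 + (u : F) + 1) = 0 := by
    linear_combination h5
  exact (mul_eq_zero.mp h3).resolve_left (sub_ne_zero.mpr hne)

end Field

end Cfsg.Agent.H06.U3
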