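import Mathlib
import Cfsg.Prelude.Def_Classical
import Cfsg.Agent.Lib.H06.U3a
import Cfsg.Agent.Lib.H06.U3b
import Cfsg.Agent.Lib.H06.U3c

set_option autoImplicit false

namespace Cfsg.Agent.H06.U3

theorem final {G : Type*} [Group G] [Finite G] (hG : Nat.card G = 320)
    (hD : Nat.card (commutator G) = 64) (hZ : IsKleinFour (Subgroup.center (commutator G)))
    {F : Type*} [Field F] [Fintype F] (hF : Fintype.card F = 16) :
    ∃ t : Cfsg.PSU 3 F 4, orderOf t = 2 ∧
      Nonempty (G ≃* Subgroup.centralizer ({t} : Set (Cfsg.PSU 3 F 4))) := by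
  classical
  obtain ⟨ω, O⟩ := exists_Om hF
  obtain ⟨P, Z, s, c⟩ := exists_cfg hG hD hZ
  obtain ⟨e, e1, e2, e3, e4, c1, c2, R, hgen, hN⟩ := c.main_G
  have R' := O.rel
  haveI : Finite (Cfsg.SU 3 F 4) := by
    apply Finite.of_injective (fun g : Cfsg.SU 3 F 4 => mat g)
    intro a b h
    exact mat_inj h
  obtain ⟨ψ, hψs, hψe⟩ := exists_hom R R' hgen hG
  -- images of the generators
  have hconj : ∀ {x y : G} {x' y' : Cfsg.SU 3 F 4}, s * x = y * s → O.T * x' = y' * O.T →
      ψ x = x' → ψ y = y' := by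
    intro x y x' y' h h' hx
    have h1 : ψ s * ψ x = ψ y * ψ s := by rw [← map_mul, ← map_mul, h]
    rw [hψs, hx, h'] at h1
    exact (mul_right_cancel h1).symm
  have hψ1 : ψ e1 = O.ee 1 := hconj R.h0 R'.h0 hψe
  have hψ2 : ψ e2 = O.ee 2 := hconj R.h1 R'.h1 hψ1
  have hψc1 : ψ c1 = O.c1 := by
    have h1 := congrArg ψ R.m1
    simp only [map_mul] at h1
    rw [hψe, hψ1, R'.m1] at h1
    exact (mul_left_cancel h1).symm
  have hψc2 : ψ c2 = O.c2 := by
    have h1 := congrArg ψ R.m2
    simp only [map_mul] at h1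
    rw [hψe, hψ2, R'.m2] at h1
    exact (mul_left_cancel h1).symm
  -- injectivity
  have hinj : Function.Injective ψ := by
    rw [← MonoidHom.ker_eq_bot_iff]
    by_contra hk
    have hk' : ψ.ker ≠ ⊥ := hk
    rcases hN ψ.ker inferInstance hk' with h | h | h
    · rw [MonoidHom.mem_ker, hψc1] at h
      exact O.c1_ne h
    · rw [MonoidHom.mem_ker, hψc2] at h
      exact O.c2_ne h
    · rw [MonoidHom.mem_ker, map_mul, hψc1, hψc2] at h
      exact O.c12_ne h
  -- image in the centraliser of the involution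
  have hT : O.tt * O.T = O.T * O.tt := by
    apply mat_inj
    rw [mat_mul, mat_mul, O.mat_T, O.mat_tt]
    exact tm_comm_dm _ _
  have hE : O.tt * O.ee 0 = O.ee 0 * O.tt := by
    apply mat_inj
    rw [mat_mul, mat_mul, O.mat_ee, O.mat_tt]
    exact tm_comm_gm _ _
  have hcen : ∀ g, O.tt * ψ g = ψ g * O.tt := by
    intro g
    have hle : (⊤ : Subgroup G) ≤ (Subgroup.centralizer ({O.tt} : Set (Cfsg.SU 3 F 4))).comap ψ := by
      rw [← hgen, Subgroup.closure_le]
      rintro x (rfl | hx)
      · change ψ x ∈ Subgroup.centralizer _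
        rw [hψs, Subgroup.mem_centralizer_iff]
        rintro y rfl
        exact hT
      · rw [Set.mem_singleton_iff] at hx
        subst hx
        change ψ x ∈ Subgroup.centralizer _
        rw [hψe, Subgroup.mem_centralizer_iff]
        rintro y rfl
        exact hE
    have := hle (Subgroup.mem_top g)
    exact Subgroup.mem_centralizer_iff.mp this O.tt (Set.mem_singleton _)
  -- pass to the quotient
  have hcenter : Subgroup.center (Cfsg.SU 3 F 4) = ⊥ := O.center_trivial
  let π : Cfsg.SU 3 F 4 →* Cfsg.PSU 3 F 4 := QuotientGroup.mk' _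
  have hπs : Function.Surjective π := QuotientGroup.mk'_surjective _
  have hπi : Function.Injective π := by
    rw [← MonoidHom.ker_eq_bot_iff, QuotientGroup.ker_mk']
    exact hcenter
  have ht2 : O.tt * O.tt = 1 := by
    apply mat_inj
    rw [mat_mul, O.mat_tt, mat_one]
    ext i j
    fin_cases i <;> fin_cases j <;> simp [tm, Matrix.mul_apply, Fin.sum_univ_three]
  have ht1 : O.tt ≠ 1 := by
    intro h
    have := congrFun (congrFun (congrArg mat h) 0) 0
    rw [O.mat_tt, mat_one] at this
    simp [tm] at this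
  refine ⟨π O.tt, ?_, ?_⟩
  · haveI : Fact (Nat.Prime 2) := ⟨Nat.prime_two⟩
    apply orderOf_eq_prime
    · rw [pow_two, ← map_mul, ht2, map_one]
    · intro h
      exact ht1 (hπi (by rw [h, map_one]))
  · let Ψ : G →* Subgroup.centralizer ({π O.tt} : Set (Cfsg.PSU 3 F 4)) :=
      (π.comp ψ).codRestrict _ (by
        intro g
        rw [Subgroup.mem_centralizer_iff]
        rintro y rfl
        change π O.tt * π (ψ g) = π (ψ g) * π O.tt
        rw [← map_mul, ← map_mul, hcen g])
    have hΨi : Function.Injective Ψ := by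
      intro a b h
      have h1 : π (ψ a) = π (ψ b) := congrArg Subtype.val h
      exact hinj (hπi h1)
    have hfinK : Finite (Subgroup.centralizer ({π O.tt} : Set (Cfsg.PSU 3 F 4))) := by
      have hfin : Finite (Cfsg.PSU 3 F 4) := Finite.of_surjective π hπs
      exact Subtype.finite
    have hcardK : Nat.card (Subgroup.centralizer ({π O.tt} : Set (Cfsg.PSU 3 F 4))) ≤ Nat.card G := by
      rw [hG]
      refine le_trans ?_ (O.card_cent hF)
      let ρ : Subgroup.centralizer ({O.tt} : Set (Cfsg.SU 3 F 4)) →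
          Subgroup.centralizer ({π O.tt} : Set (Cfsg.PSU 3 F 4)) := fun g => ⟨π g, by
        rw [Subgroup.mem_centralizer_iff]
        rintro y rfl
        rw [← map_mul, ← map_mul, Subgroup.mem_centralizer_iff.mp g.2 O.tt (Set.mem_singleton _)]⟩
      refine Nat.card_le_card_of_surjective ρ ?_
      rintro ⟨k, hk⟩
      obtain ⟨g, rfl⟩ := hπs k
      refine ⟨⟨g, ?_⟩, rfl⟩
      rw [Subgroup.mem_centralizer_iff]
      rintro y rfl
      apply hπi
      rw [map_mul, map_mul]
      exact Subgroup.mem_centralizer_iff.mp hk _ (Set.mem_singleton _)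
    exact ⟨MulEquiv.ofBijective Ψ (hΨi.bijective_of_nat_card_le hcardK)⟩

end Cfsg.Agent.H06.U3
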