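import Mathlib
import Cfsg.Agent.Lib.H06.U3a

set_option autoImplicit false

namespace Cfsg.Agent.H06.U4

open Cfsg.Agent.H06.U3

section Gen
variable {A : Type*} [Group A]

/-- The relations of the group `3^{1+2} : SL₂(3)`. -/
structure Rel3 (s j i m a b z : A) : Prop where
  z3 : z ^ 3 = 1
  a3 : a ^ 3 = 1
  b3 : b ^ 3 = 1
  mm : m * m = 1
  ii : i * i = m
  jj : j * j = m
  s3 : s ^ 3 = 1
  za : z * a = a * z
  zb : z * b = b * z
  zm : z * m = m * z
  zi : z * i = i * z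
  zj : z * j = j * z
  zs : z * s = s * z
  ab : a * b = z * b * a
  ma : m * a = (a * a) * m
  mb : m * b = (b * b) * m
  ia : i * a = b * i
  ib : i * b = (a * a) * i
  ja : j * a = (a * b * z) * j
  jb : j * b = (a * (b * b) * (z * z)) * j
  ji : j * i = (i * m) * j
  sa : s * a = a * s
  sb : s * b = (a * b * z) * s
  si : s * i = j * s
  sj : s * j = (i * j) * s

/-- chain of subgroups -/
abbrev H1 (z : A) : Subgroup A := adj ⊥ z
abbrev H2 (a z : A) : Subgroup A := adj (H1 z) a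
abbrev H3 (b a z : A) : Subgroup A := adj (H2 a z) b
abbrev H4 (m b a z : A) : Subgroup A := adj (H3 b a z) m
abbrev H5 (i m b a z : A) : Subgroup A := adj (H4 m b a z) i
abbrev H6 (j i m b a z : A) : Subgroup A := adj (H5 i m b a z) j
abbrev H7 (s j i m b a z : A) : Subgroup A := adj (H6 j i m b a z) s

lemma cj_eq {x a y : A} (h : x * a = y * x) : x * a * x⁻¹ = y := by
  rw [h, mul_inv_cancel_right]

namespace Rel3
variable {s j i m a b z : A} (R : Rel3 s j i m a b z)
include R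

lemma st2 : Stab a (H1 z) :=
  Stab.sup (stab_bot a) (by rw [cj_eq R.za.symm]; exact mem_adj_self _ _)

lemma z_H3 : z ∈ H3 b a z := mem_adj_left (mem_adj_left (mem_adj_self _ _))
lemma a_H3 : a ∈ H3 b a z := mem_adj_left (mem_adj_self _ _)
lemma b_H3 : b ∈ H3 b a z := mem_adj_self _ _

lemma st3 : Stab b (H2 a z) := by
  refine Stab.sup (Stab.sup (stab_bot b) ?_) ?_
  · rw [cj_eq R.zb.symm]; exact mem_adj_self _ _
  · have h : b * a = z⁻¹ * a * b := by
      have h1 := R.ab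
      calc b * a = z⁻¹ * (z * b * a) := by group
        _ = z⁻¹ * (a * b) := by rw [h1]
        _ = _ := by group
    rw [cj_eq (show b * a = (z⁻¹ * a) * b from h)]
    exact Subgroup.mul_mem _ (Subgroup.inv_mem _ (mem_adj_left (mem_adj_self _ _)))
      (mem_adj_self _ _)

lemma st4 : Stab m (H3 b a z) := by
  refine Stab.sup (Stab.sup (Stab.sup (stab_bot m) ?_) ?_) ?_
  · rw [cj_eq R.zm.symm]; exact mem_adj_self _ _
  · rw [cj_eq R.ma]
    exact Subgroup.mul_mem _ (mem_adj_self _ _) (mem_adj_self _ _)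
  · rw [cj_eq R.mb]
    exact Subgroup.mul_mem _ (mem_adj_self _ _) (mem_adj_self _ _)

lemma im : i * m = m * i := by rw [← R.ii, mul_assoc]

lemma jm : j * m = m * j := by rw [← R.jj, mul_assoc]

lemma st5 : Stab i (H4 m b a z) := by
  have hz : z ∈ H4 m b a z := mem_adj_left R.z_H3
  have ha : a ∈ H4 m b a z := mem_adj_left R.a_H3
  have hb : b ∈ H4 m b a z := mem_adj_left R.b_H3
  have hm : m ∈ H4 m b a z := mem_adj_self _ _
  refine maps_adj (maps_adj (maps_adj (maps_adj ?_ ?_) ?_) ?_) ?_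
  · intro x hx
    rw [Subgroup.mem_bot.mp hx]; simp
  · rw [cj_eq R.zi.symm]; exact hz
  · rw [cj_eq R.ia]; exact hb
  · rw [cj_eq R.ib]; exact Subgroup.mul_mem _ ha ha
  · rw [cj_eq R.im]; exact hm

lemma st6 : Stab j (H5 i m b a z) := by
  have hz : z ∈ H5 i m b a z := mem_adj_left (mem_adj_left R.z_H3)
  have ha : a ∈ H5 i m b a z := mem_adj_left (mem_adj_left R.a_H3)
  have hb : b ∈ H5 i m b a z := mem_adj_left (mem_adj_left R.b_H3)
  have hm : m ∈ H5 i m b a z := mem_adj_left (mem_adj_self _ _)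
  have hi : i ∈ H5 i m b a z := mem_adj_self _ _
  have h3 : ∀ x ∈ H3 b a z, j * x * j⁻¹ ∈ H5 i m b a z := by
    refine maps_adj (maps_adj (maps_adj ?_ ?_) ?_) ?_
    · intro x hx
      rw [Subgroup.mem_bot.mp hx]; simp
    · rw [cj_eq R.zj.symm]; exact hz
    · rw [cj_eq R.ja]; exact Subgroup.mul_mem _ (Subgroup.mul_mem _ ha hb) hz
    · rw [cj_eq R.jb]
      exact Subgroup.mul_mem _ (Subgroup.mul_mem _ ha (Subgroup.mul_mem _ hb hb))
        (Subgroup.mul_mem _ hz hz)
  exact maps_adj (maps_adj h3 (by rw [cj_eq R.jm]; exact hm))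
    (by rw [cj_eq R.ji]; exact Subgroup.mul_mem _ hi hm)

lemma sm : s * m = m * s := by
  calc s * m = s * (i * i) := by rw [R.ii]
    _ = (s * i) * i := by group
    _ = (j * s) * i := by rw [R.si]
    _ = j * (s * i) := by group
    _ = j * (j * s) := by rw [R.si]
    _ = (j * j) * s := by group
    _ = m * s := by rw [R.jj]

lemma st7 : Stab s (H6 j i m b a z) := by
  have hz : z ∈ H6 j i m b a z := mem_adj_left (mem_adj_left (mem_adj_left R.z_H3))
  have ha : a ∈ H6 j i m b a z := mem_adj_left (mem_adj_left (mem_adj_left R.a_H3))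
  have hb : b ∈ H6 j i m b a z := mem_adj_left (mem_adj_left (mem_adj_left R.b_H3))
  have hm : m ∈ H6 j i m b a z := mem_adj_left (mem_adj_left (mem_adj_self _ _))
  have hi : i ∈ H6 j i m b a z := mem_adj_left (mem_adj_self _ _)
  have hj : j ∈ H6 j i m b a z := mem_adj_self _ _
  have h3 : ∀ x ∈ H3 b a z, s * x * s⁻¹ ∈ H6 j i m b a z := by
    refine maps_adj (maps_adj (maps_adj ?_ ?_) ?_) ?_
    · intro x hx
      rw [Subgroup.mem_bot.mp hx]; simp
    · rw [cj_eq R.zs.symm]; exact hz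
    · rw [cj_eq R.sa]; exact ha
    · rw [cj_eq R.sb]; exact Subgroup.mul_mem _ (Subgroup.mul_mem _ ha hb) hz
  exact maps_adj (maps_adj (maps_adj h3 (by rw [cj_eq R.sm]; exact hm))
    (by rw [cj_eq R.si]; exact hj)) (by rw [cj_eq R.sj]; exact Subgroup.mul_mem _ hi hj)

lemma card_H3 [Finite A] : Nat.card (H3 b a z) ≤ 27 := by
  have h1 : Nat.card (H1 z) ≤ 3 * Nat.card (⊥ : Subgroup A) :=
    adj_card ⊥ z 3 (by norm_num) (stab_bot z) (by rw [R.z3]; exact Subgroup.one_mem _)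
  have h2 : Nat.card (H2 a z) ≤ 3 * Nat.card (H1 z) :=
    adj_card (H1 z) a 3 (by norm_num) R.st2 (by rw [R.a3]; exact Subgroup.one_mem _)
  have h3 : Nat.card (H3 b a z) ≤ 3 * Nat.card (H2 a z) :=
    adj_card (H2 a z) b 3 (by norm_num) R.st3 (by rw [R.b3]; exact Subgroup.one_mem _)
  rw [Subgroup.card_bot] at h1
  omega

lemma card_H7 [Finite A] : Nat.card (H7 s j i m b a z) ≤ 648 := by
  have h3 := R.card_H3
  have h4 : Nat.card (H4 m b a z) ≤ 2 * Nat.card (H3 b a z) :=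
    adj_card _ m 2 (by norm_num) R.st4 (by rw [pow_two, R.mm]; exact Subgroup.one_mem _)
  have h5 : Nat.card (H5 i m b a z) ≤ 2 * Nat.card (H4 m b a z) :=
    adj_card _ i 2 (by norm_num) R.st5 (by rw [pow_two, R.ii]; exact mem_adj_self _ _)
  have h6 : Nat.card (H6 j i m b a z) ≤ 2 * Nat.card (H5 i m b a z) :=
    adj_card _ j 2 (by norm_num) R.st6 (by
      rw [pow_two, R.jj]; exact mem_adj_left (mem_adj_self _ _))
  have h7 : Nat.card (H7 s j i m b a z) ≤ 3 * Nat.card (H6 j i m b a z) :=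
    adj_card _ s 3 (by norm_num) R.st7 (by rw [R.s3]; exact Subgroup.one_mem _)
  omega

end Rel3

theorem Rel3.prodMk {B : Type*} [Group B] {s j i m a b z : A} {s' j' i' m' a' b' z' : B}
    (R : Rel3 s j i m a b z) (R' : Rel3 s' j' i' m' a' b' z') :
    Rel3 (s, s') (j, j') (i, i') (m, m') (a, a') (b, b') (z, z') where
  z3 := Prod.ext R.z3 R'.z3
  a3 := Prod.ext R.a3 R'.a3
  b3 := Prod.ext R.b3 R'.b3
  mm := Prod.ext R.mm R'.mm
  ii := Prod.ext R.ii R'.ii
  jj := Prod.ext R.jj R'.jj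
  s3 := Prod.ext R.s3 R'.s3
  za := Prod.ext R.za R'.za
  zb := Prod.ext R.zb R'.zb
  zm := Prod.ext R.zm R'.zm
  zi := Prod.ext R.zi R'.zi
  zj := Prod.ext R.zj R'.zj
  zs := Prod.ext R.zs R'.zs
  ab := Prod.ext R.ab R'.ab
  ma := Prod.ext R.ma R'.ma
  mb := Prod.ext R.mb R'.mb
  ia := Prod.ext R.ia R'.ia
  ib := Prod.ext R.ib R'.ib
  ja := Prod.ext R.ja R'.ja
  jb := Prod.ext R.jb R'.jb
  ji := Prod.ext R.ji R'.ji
  sa := Prod.ext R.sa R'.sa
  sb := Prod.ext R.sb R'.sb
  si := Prod.ext R.si R'.si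
  sj := Prod.ext R.sj R'.sj

end Gen

theorem exists_hom3 {G H : Type*} [Group G] [Group H] [Finite G] [Finite H]
    {s j i m a b z : G} {s' j' i' m' a' b' z' : H}
    (R : Rel3 s j i m a b z) (R' : Rel3 s' j' i' m' a' b' z')
    (hgen : H7 s j i m b a z = ⊤) (hc : Nat.card G = 648) :
    ∃ ψ : G →* H, ψ z = z' ∧ ψ s = s' := by
  have RR := R.prodMk R'
  set Γ : Subgroup (G × H) := H7 (s, s') (j, j') (i, i') (m, m') (b, b') (a, a') (z, z') with hΓ
  have hcard : Nat.card Γ ≤ 648 := RR.card_H7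
  let p : Γ →* G := (MonoidHom.fst G H).comp Γ.subtype
  have hsurj : Function.Surjective p := by
    rw [← MonoidHom.range_eq_top, MonoidHom.range_comp, Subgroup.range_subtype, eq_top_iff,
      ← hgen]
    have hmem : ∀ x y, (x, y) ∈ Γ → x ∈ Γ.map (MonoidHom.fst G H) := fun x y h => ⟨_, h, rfl⟩
    have hz : z ∈ Γ.map (MonoidHom.fst G H) := hmem _ z' (mem_adj_left (mem_adj_left
      (mem_adj_left (mem_adj_left (mem_adj_left (mem_adj_left (mem_adj_self _ _)))))))
    have ha : a ∈ Γ.map (MonoidHom.fst G H) := hmem _ a' (mem_adj_left (mem_adj_left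
      (mem_adj_left (mem_adj_left (mem_adj_left (mem_adj_self _ _))))))
    have hb : b ∈ Γ.map (MonoidHom.fst G H) := hmem _ b' (mem_adj_left (mem_adj_left
      (mem_adj_left (mem_adj_left (mem_adj_self _ _)))))
    have hm : m ∈ Γ.map (MonoidHom.fst G H) := hmem _ m' (mem_adj_left (mem_adj_left
      (mem_adj_left (mem_adj_self _ _))))
    have hi : i ∈ Γ.map (MonoidHom.fst G H) := hmem _ i' (mem_adj_left (mem_adj_left
      (mem_adj_self _ _)))
    have hj : j ∈ Γ.map (MonoidHom.fst G H) := hmem _ j' (mem_adj_left (mem_adj_self _ _))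
    have hs : s ∈ Γ.map (MonoidHom.fst G H) := hmem _ s' (mem_adj_self _ _)
    exact sup_le (sup_le (sup_le (sup_le (sup_le (sup_le (sup_le bot_le
      (Subgroup.zpowers_le.mpr hz)) (Subgroup.zpowers_le.mpr ha)) (Subgroup.zpowers_le.mpr hb))
      (Subgroup.zpowers_le.mpr hm)) (Subgroup.zpowers_le.mpr hi)) (Subgroup.zpowers_le.mpr hj))
      (Subgroup.zpowers_le.mpr hs)
  have hb : Function.Bijective p := hsurj.bijective_of_nat_card_le (by rw [hc]; exact hcard)
  let iso : Γ ≃* G := MulEquiv.ofBijective p hb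
  let ψ : G →* H := (MonoidHom.snd G H).comp (Γ.subtype.comp iso.symm.toMonoidHom)
  have key : ∀ (x : G) (y : H) (hxy : (x, y) ∈ Γ), ψ x = y := by
    intro x y hxy
    have h2 : iso.symm x = ⟨(x, y), hxy⟩ := (MulEquiv.symm_apply_eq iso).mpr rfl
    change ((iso.symm x : Γ) : G × H).2 = y
    rw [h2]
  exact ⟨ψ, key _ _ (mem_adj_left (mem_adj_left (mem_adj_left (mem_adj_left (mem_adj_left
    (mem_adj_left (mem_adj_self _ _))))))), key _ _ (mem_adj_self _ _)⟩

end Cfsg.Agent.H06.U4
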