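import Mathlib
import Cfsg.Prelude.Def_Classical
import Cfsg.Agent.Lib.H06.U4a

set_option autoImplicit false

namespace Cfsg.Agent.H06.U4

open Matrix

variable {F : Type*} [Field F]

/-- the Heisenberg part -/
def Am (p q r : F) : Matrix (Fin 2 ⊕ Fin 2) (Fin 2 ⊕ Fin 2) F :=
  fromBlocks !![1, p; 0, 1] !![r, q; q, 0] 0 !![1, 0; -p, 1]

/-- the Levi part -/
def Lm (α β γ δ : F) : Matrix (Fin 2 ⊕ Fin 2) (Fin 2 ⊕ Fin 2) F :=
  fromBlocks !![1, 0; 0, α] !![0, 0; 0, β] !![0, 0; 0, γ] !![1, 0; 0, δ]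

lemma Am_mul (p q r p' q' r' : F) :
    Am p q r * Am p' q' r' = Am (p + p') (q + q') (r + r' + p * q' - q * p') := by
  ext (i | i) (j | j) <;> fin_cases i <;> fin_cases j <;>
    simp [Am, Matrix.mul_apply, Fintype.sum_sum_type, Fin.sum_univ_two] <;> ring

lemma Lm_mul (α β γ δ α' β' γ' δ' : F) :
    Lm α β γ δ * Lm α' β' γ' δ' =
      Lm (α * α' + β * γ') (α * β' + β * δ') (γ * α' + δ * γ') (γ * β' + δ * δ') := by
  ext (i | i) (j | j) <;> fin_cases i <;> fin_cases j <;>
    simp [Lm, Matrix.mul_apply, Fintype.sum_sum_type, Fin.sum_univ_two]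

lemma Lm_Am {α β γ δ : F} (h : α * δ - β * γ = 1) (p q r : F) :
    Lm α β γ δ * Am p q r = Am (δ * p - γ * q) (α * q - β * p) r * Lm α β γ δ := by
  ext (i | i) (j | j) <;> fin_cases i <;> fin_cases j <;>
    simp [Am, Lm, Matrix.mul_apply, Fintype.sum_sum_type, Fin.sum_univ_two]
  · linear_combination (-p) * h
  · linear_combination (-q) * h
  · ring
  · ring

lemma Am_zero : Am (0 : F) 0 0 = 1 := by
  ext (i | i) (j | j) <;> fin_cases i <;> fin_cases j <;> simp [Am]

lemma Lm_one : Lm (1 : F) 0 0 1 = 1 := by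
  ext (i | i) (j | j) <;> fin_cases i <;> fin_cases j <;> simp [Lm]

lemma Am_mem (p q r : F) : Am p q r ∈ Matrix.symplecticGroup (Fin 2) F := by
  rw [SymplecticGroup.mem_iff]
  ext (i | i) (j | j) <;> fin_cases i <;> fin_cases j <;>
    simp [Am, Matrix.J, Matrix.mul_apply, Fintype.sum_sum_type, Fin.sum_univ_two] <;> ring

lemma Lm_mem {α β γ δ : F} (h : α * δ - β * γ = 1) :
    Lm α β γ δ ∈ Matrix.symplecticGroup (Fin 2) F := by
  rw [SymplecticGroup.mem_iff]
  ext (i | i) (j | j) <;> fin_cases i <;> fin_cases j <;>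
    simp [Lm, Matrix.J, Matrix.mul_apply, Fintype.sum_sum_type, Fin.sum_univ_two] <;>
    first | ring1 | linear_combination h | linear_combination -h

/-- the symplectic group -/
abbrev Sp (F : Type*) [Field F] := ↥(Matrix.symplecticGroup (Fin 2) F)

/-- Heisenberg elements -/
def As (p q r : F) : Sp F := ⟨Am p q r, Am_mem p q r⟩

/-- Levi elements -/
def Ls (α β γ δ : F) (h : α * δ - β * γ = 1) : Sp F := ⟨Lm α β γ δ, Lm_mem h⟩

lemma coe_As (p q r : F) : (As p q r : Sp F).1 = Am p q r := rfl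
lemma coe_Ls (α β γ δ : F) (h : α * δ - β * γ = 1) :
    (Ls α β γ δ h : Sp F).1 = Lm α β γ δ := rfl
lemma coe_mul' (x y : Sp F) : (x * y : Sp F).1 = x.1 * y.1 := rfl
lemma coe_one' : (1 : Sp F).1 = 1 := rfl

lemma Am_congr {p q r p' q' r' : F} (h1 : p = p') (h2 : q = q') (h3 : r = r') :
    Am p q r = Am p' q' r' := by rw [h1, h2, h3]

lemma Lm_congr {α β γ δ α' β' γ' δ' : F} (h1 : α = α') (h2 : β = β') (h3 : γ = γ') (h4 : δ = δ') :
    Lm α β γ δ = Lm α' β' γ' δ' := by rw [h1, h2, h3, h4]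

section Char3
variable (h3 : (3 : F) = 0)
include h3

lemma hm : (-1 : F) * (-1) - 0 * 0 = 1 := by ring
lemma hi : (0 : F) * 0 - (-1) * 1 = 1 := by ring
lemma hj : (-1 : F) * 1 - (-1) * (-1) = 1 := by linear_combination -h3
lemma hs : (1 : F) * 1 - 0 * (-1) = 1 := by ring

/-- the presentation in the stabiliser of `e₁` -/
theorem rel_Sp :
    Rel3 (Ls 1 0 (-1) 1 (hs h3)) (Ls (-1) (-1) (-1) 1 (hj h3)) (Ls 0 (-1) 1 0 (hi h3))
      (Ls (-1) 0 0 (-1) (hm h3)) (As 1 0 0) (As 0 1 0) (As (0 : F) 0 (-1)) where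
  z3 := by
    have e : (As (0 : F) 0 (-1)) ^ 3 = As 0 0 (-1) * As 0 0 (-1) * As 0 0 (-1) := by
      simp only [pow_succ, pow_zero, one_mul]
    rw [e]
    apply Subtype.ext
    simp only [coe_mul', coe_As, coe_one', Am_mul]
    rw [← Am_zero]
    apply Am_congr
    · ring
    · ring
    · linear_combination -h3
  a3 := by
    have e : (As (1 : F) 0 0) ^ 3 = As 1 0 0 * As 1 0 0 * As 1 0 0 := by
      simp only [pow_succ, pow_zero, one_mul]
    rw [e]
    apply Subtype.ext
    simp only [coe_mul', coe_As, coe_one', Am_mul]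
    rw [← Am_zero]
    apply Am_congr
    · linear_combination h3
    · ring
    · ring
  b3 := by
    have e : (As (0 : F) 1 0) ^ 3 = As 0 1 0 * As 0 1 0 * As 0 1 0 := by
      simp only [pow_succ, pow_zero, one_mul]
    rw [e]
    apply Subtype.ext
    simp only [coe_mul', coe_As, coe_one', Am_mul]
    rw [← Am_zero]
    apply Am_congr
    · ring
    · linear_combination h3
    · ring
  mm := by
    apply Subtype.ext
    simp only [coe_mul', coe_Ls, coe_one', Lm_mul]
    rw [← Lm_one]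
    apply Lm_congr <;> ring
  ii := by
    apply Subtype.ext
    simp only [coe_mul', coe_Ls, Lm_mul]
    apply Lm_congr <;> ring
  jj := by
    apply Subtype.ext
    simp only [coe_mul', coe_Ls, Lm_mul]
    apply Lm_congr
    · linear_combination h3
    · ring
    · ring
    · linear_combination h3
  s3 := by
    have e : (Ls (1 : F) 0 (-1) 1 (hs h3)) ^ 3 = Ls 1 0 (-1) 1 (hs h3) * Ls 1 0 (-1) 1 (hs h3) *
        Ls 1 0 (-1) 1 (hs h3) := by
      simp only [pow_succ, pow_zero, one_mul]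
    rw [e]
    apply Subtype.ext
    simp only [coe_mul', coe_Ls, coe_one', Lm_mul]
    rw [← Lm_one]
    apply Lm_congr
    · ring
    · ring
    · linear_combination -h3
    · ring
  za := by
    apply Subtype.ext
    simp only [coe_mul', coe_As, Am_mul]
    apply Am_congr <;> ring
  zb := by
    apply Subtype.ext
    simp only [coe_mul', coe_As, Am_mul]
    apply Am_congr <;> ring
  zm := by
    apply Subtype.ext
    simp only [coe_mul', coe_As, coe_Ls]
    rw [Lm_Am (hm h3)]
    congr 1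
    apply Am_congr <;> ring
  zi := by
    apply Subtype.ext
    simp only [coe_mul', coe_As, coe_Ls]
    rw [Lm_Am (hi h3)]
    congr 1
    apply Am_congr <;> ring
  zj := by
    apply Subtype.ext
    simp only [coe_mul', coe_As, coe_Ls]
    rw [Lm_Am (hj h3)]
    congr 1
    apply Am_congr <;> ring
  zs := by
    apply Subtype.ext
    simp only [coe_mul', coe_As, coe_Ls]
    rw [Lm_Am (hs h3)]
    congr 1
    apply Am_congr <;> ring
  ab := by
    apply Subtype.ext
    simp only [coe_mul', coe_As, Am_mul]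
    apply Am_congr
    · ring
    · ring
    · linear_combination h3
  ma := by
    apply Subtype.ext
    simp only [coe_mul', coe_As, coe_Ls, Am_mul]
    rw [Lm_Am (hm h3)]
    congr 1
    apply Am_congr
    · linear_combination -h3
    · ring
    · ring
  mb := by
    apply Subtype.ext
    simp only [coe_mul', coe_As, coe_Ls, Am_mul]
    rw [Lm_Am (hm h3)]
    congr 1
    apply Am_congr
    · ring
    · linear_combination -h3
    · ring
  ia := by
    apply Subtype.ext
    simp only [coe_mul', coe_As, coe_Ls]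
    rw [Lm_Am (hi h3)]
    congr 1
    apply Am_congr <;> ring
  ib := by
    apply Subtype.ext
    simp only [coe_mul', coe_As, coe_Ls, Am_mul]
    rw [Lm_Am (hi h3)]
    congr 1
    apply Am_congr
    · linear_combination -h3
    · ring
    · ring
  ja := by
    apply Subtype.ext
    simp only [coe_mul', coe_As, coe_Ls, Am_mul]
    rw [Lm_Am (hj h3)]
    congr 1
    apply Am_congr <;> ring
  jb := by
    apply Subtype.ext
    simp only [coe_mul', coe_As, coe_Ls, Am_mul]
    rw [Lm_Am (hj h3)]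
    congr 1
    apply Am_congr
    · ring
    · linear_combination -h3
    · ring
  ji := by
    apply Subtype.ext
    simp only [coe_mul', coe_Ls, Lm_mul]
    apply Lm_congr <;> ring
  sa := by
    apply Subtype.ext
    simp only [coe_mul', coe_As, coe_Ls]
    rw [Lm_Am (hs h3)]
    congr 1
    apply Am_congr <;> ring
  sb := by
    apply Subtype.ext
    simp only [coe_mul', coe_As, coe_Ls, Am_mul]
    rw [Lm_Am (hs h3)]
    congr 1
    apply Am_congr <;> ring
  si := by
    apply Subtype.ext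
    simp only [coe_mul', coe_Ls, Lm_mul]
    apply Lm_congr
    · ring
    · ring
    · linear_combination h3
    · ring
  sj := by
    apply Subtype.ext
    simp only [coe_mul', coe_Ls, Lm_mul]
    apply Lm_congr
    · linear_combination -h3
    · ring
    · ring
    · linear_combination h3

end Char3

/-- commuting with an elementary matrix -/
lemma comm_single {ι : Type*} [Fintype ι] [DecidableEq ι] {x : Matrix ι ι F} {u v : ι}
    (h : x * (1 + Matrix.single u v (1 : F)) = (1 + Matrix.single u v (1 : F)) * x) :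
    (∀ k, k ≠ u → x k u = 0) ∧ (∀ l, l ≠ v → x v l = 0) ∧ x u u = x v v := by
  have h1 : x * Matrix.single u v (1 : F) = Matrix.single u v (1 : F) * x := by
    rw [Matrix.mul_add, Matrix.add_mul, Matrix.mul_one, Matrix.one_mul] at h
    exact add_left_cancel h
  refine ⟨?_, ?_, ?_⟩
  · intro k hk
    have := congrFun (congrFun h1 k) v
    rw [Matrix.mul_single_apply_same, Matrix.single_mul_apply_of_ne _ _ _ _ _ hk, mul_one] at this
    exact this
  · intro l hl
    have := congrFun (congrFun h1 u) l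
    rw [Matrix.single_mul_apply_same, Matrix.mul_single_apply_of_ne _ _ _ _ _ hl, one_mul] at this
    exact this.symm
  · have := congrFun (congrFun h1 u) v
    rw [Matrix.single_mul_apply_same, Matrix.mul_single_apply_same, one_mul, mul_one] at this
    exact this

lemma Am_eq_single : Am (0 : F) 0 1 = 1 + Matrix.single (Sum.inl 0) (Sum.inr 0) (1 : F) := by
  ext (i | i) (j | j) <;> fin_cases i <;> fin_cases j <;>
    simp [Am, Matrix.single]

/-- the second transvection -/
def T2m : Matrix (Fin 2 ⊕ Fin 2) (Fin 2 ⊕ Fin 2) F :=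
  1 + Matrix.single (Sum.inl 1) (Sum.inr 1) (1 : F)

lemma T2m_mem : (T2m : Matrix _ _ F) ∈ Matrix.symplecticGroup (Fin 2) F := by
  rw [SymplecticGroup.mem_iff]
  ext (i | i) (j | j) <;> fin_cases i <;> fin_cases j <;>
    simp [T2m, Matrix.J, Matrix.mul_apply, Fintype.sum_sum_type, Fin.sum_univ_two, Matrix.single,
      Matrix.one_apply]

lemma trans_single {ι : Type*} [Fintype ι] [DecidableEq ι] (u v : ι) :
    (1 + Matrix.single u v (1 : F)).transpose = 1 + Matrix.single v u (1 : F) := by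
  rw [Matrix.transpose_add, Matrix.transpose_one, Matrix.transpose_single]

/-- central elements are scalars -/
lemma center_scalar {x : Sp F} (hx : x ∈ Subgroup.center (Sp F)) :
    ∃ μ : F, μ * μ = 1 ∧ x.1 = μ • (1 : Matrix _ _ F) := by
  have key : ∀ g : Sp F, x.1 * g.1 = g.1 * x.1 := fun g =>
    (congrArg Subtype.val (Subgroup.mem_center_iff.mp hx g)).symm
  have m1 : (1 + Matrix.single (Sum.inl 0) (Sum.inr 0) (1 : F)) ∈
      Matrix.symplecticGroup (Fin 2) F := by
    rw [← Am_eq_single]; exact Am_mem 0 0 1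
  have m2 : (1 + Matrix.single (Sum.inl 1) (Sum.inr 1) (1 : F)) ∈
      Matrix.symplecticGroup (Fin 2) F := T2m_mem
  have m3 : (1 + Matrix.single (Sum.inr 0) (Sum.inl 0) (1 : F)) ∈
      Matrix.symplecticGroup (Fin 2) F := by
    rw [← trans_single]; exact SymplecticGroup.transpose_mem m1
  have m4 : (1 + Matrix.single (Sum.inr 1) (Sum.inl 1) (1 : F)) ∈
      Matrix.symplecticGroup (Fin 2) F := by
    rw [← trans_single]; exact SymplecticGroup.transpose_mem m2
  obtain ⟨c1, c1', c1''⟩ := comm_single (key ⟨_, m1⟩)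
  obtain ⟨c2, c2', c2''⟩ := comm_single (key ⟨_, m2⟩)
  obtain ⟨c3, c3', _⟩ := comm_single (key ⟨_, m3⟩)
  obtain ⟨c4, c4', _⟩ := comm_single (key ⟨_, m4⟩)
  have ha := congrFun (congrFun (key (As 1 0 0)) (Sum.inl 0)) (Sum.inl 1)
  have hmem := (SymplecticGroup.mem_iff.mp x.2)
  have hdet := congrFun (congrFun hmem (Sum.inl 0)) (Sum.inr 0)
  simp only [coe_As] at ha
  simp [Am, Matrix.mul_apply, Fintype.sum_sum_type, Fin.sum_univ_two] at ha
  have ha' : x.1 (Sum.inl 0) (Sum.inl 0) = x.1 (Sum.inl 1) (Sum.inl 1) := by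
    linear_combination ha
  have hM : x.1 = x.1 (Sum.inl 0) (Sum.inl 0) • (1 : Matrix _ _ F) := by
    ext (i | i) (j | j) <;> fin_cases i <;> fin_cases j
    · simp
    · simpa using c3' (Sum.inl 1) (by simp)
    · simpa using c4' (Sum.inl 0) (by simp)
    · simpa using ha'.symm
    · simpa using c3' (Sum.inr 0) (by simp)
    · simpa using c3' (Sum.inr 1) (by simp)
    · simpa using c4' (Sum.inr 0) (by simp)
    · simpa using c4' (Sum.inr 1) (by simp)
    · simpa using c1' (Sum.inl 0) (by simp)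
    · simpa using c1' (Sum.inl 1) (by simp)
    · simpa using c2' (Sum.inl 0) (by simp)
    · simpa using c2' (Sum.inl 1) (by simp)
    · simpa using c1''.symm
    · simpa using c1' (Sum.inr 1) (by simp)
    · simpa using c2' (Sum.inr 0) (by simp)
    · have e1 : x.1 (Sum.inr 1) (Sum.inr 1) = x.1 (Sum.inl 1) (Sum.inl 1) := c2''.symm
      simpa using e1.trans ha'.symm
  refine ⟨x.1 (Sum.inl 0) (Sum.inl 0), ?_, hM⟩
  rw [hM] at hdet
  simp [Matrix.J, Matrix.mul_apply, Fintype.sum_sum_type, Fin.sum_univ_two, Matrix.one_apply] at hdet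
  linear_combination hdet

section Final
variable (h3 : (3 : F) = 0) (hF3 : ∀ x : F, x ^ 3 = x)

/-- the shape of the representatives -/
structure Shape (M : Matrix (Fin 2 ⊕ Fin 2) (Fin 2 ⊕ Fin 2) F) : Prop where
  s11 : M (Sum.inl 0) (Sum.inl 0) = 1
  s21 : M (Sum.inl 1) (Sum.inl 0) = 0
  s31 : M (Sum.inr 0) (Sum.inl 0) = 0
  s41 : M (Sum.inr 1) (Sum.inl 0) = 0
  s32 : M (Sum.inr 0) (Sum.inl 1) = 0
  s33 : M (Sum.inr 0) (Sum.inr 0) = 1
  s34 : M (Sum.inr 0) (Sum.inr 1) = 0

lemma Shape.eqs {M : Matrix (Fin 2 ⊕ Fin 2) (Fin 2 ⊕ Fin 2) F} (hS : Shape M)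
    (hM : M ∈ Matrix.symplecticGroup (Fin 2) F) :
    M (Sum.inl 1) (Sum.inl 1) * M (Sum.inr 1) (Sum.inr 1) -
        M (Sum.inl 1) (Sum.inr 1) * M (Sum.inr 1) (Sum.inl 1) = 1 ∧
      M (Sum.inl 1) (Sum.inr 0) = M (Sum.inl 0) (Sum.inr 1) * M (Sum.inl 1) (Sum.inl 1) -
        M (Sum.inl 0) (Sum.inl 1) * M (Sum.inl 1) (Sum.inr 1) ∧
      M (Sum.inr 1) (Sum.inr 0) = M (Sum.inl 0) (Sum.inr 1) * M (Sum.inr 1) (Sum.inl 1) -
        M (Sum.inl 0) (Sum.inl 1) * M (Sum.inr 1) (Sum.inr 1) := by
  have h0 := SymplecticGroup.mem_iff.mp hM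
  have e1 := congrFun (congrFun h0 (Sum.inl 1)) (Sum.inr 1)
  have e2 := congrFun (congrFun h0 (Sum.inl 0)) (Sum.inl 1)
  have e3 := congrFun (congrFun h0 (Sum.inl 0)) (Sum.inr 1)
  simp [Matrix.J, Matrix.mul_apply, Fintype.sum_sum_type, Fin.sum_univ_two, hS.s11, hS.s21, hS.s31,
    hS.s41, hS.s32, hS.s33, hS.s34, Matrix.one_apply] at e1 e2 e3
  refine ⟨?_, ?_, ?_⟩
  · linear_combination -e1
  · linear_combination -e2
  · linear_combination -e3

/-- the projection to `PSp` -/
noncomputable abbrev piS : Sp F →* Cfsg.PSp 2 F := QuotientGroup.mk' _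

include h3 hF3 in
lemma rep_form {g : Sp F} (hg : piS g * piS (As (0 : F) 0 (-1)) = piS (As (0 : F) 0 (-1)) * piS g) :
    ∃ g' : Sp F, piS g' = piS g ∧ Shape g'.1 := by
  classical
  set c : Sp F := As 0 0 (-1) with hc
  have hc3 : c ^ 3 = 1 := (rel_Sp h3).z3
  set ε := g * c * g⁻¹ * c⁻¹ with hε
  have hεc : ε ∈ Subgroup.center (Sp F) := by
    have h1 : piS ε = 1 := by
      rw [hε, map_mul, map_mul, map_mul, map_inv, map_inv, hg]
      group
    exact (QuotientGroup.eq_one_iff ε).mp h1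
  obtain ⟨μ, hμ, hεM⟩ := center_scalar hεc
  have hε2 : ε * ε = 1 := by
    apply Subtype.ext
    rw [coe_mul', hεM, coe_one']
    rw [Matrix.smul_mul, Matrix.mul_smul, Matrix.one_mul, smul_smul, hμ, one_smul]
  have hεcomm : ∀ y : Sp F, y * ε = ε * y := fun y => Subgroup.mem_center_iff.mp hεc y
  have e1 : g * c * g⁻¹ = ε * c := by rw [hε]; group
  have hε3 : ε ^ 3 = 1 := by
    have h1 : (g * c * g⁻¹) ^ 3 = 1 := by
      have : (g * c * g⁻¹) ^ 3 = g * c ^ 3 * g⁻¹ := by
        simp only [pow_succ, pow_zero, one_mul]; group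
      rw [this, hc3]; group
    rw [e1] at h1
    have h2 : (ε * c) ^ 3 = ε ^ 3 * c ^ 3 := by
      have hcm : Commute ε c := (hεcomm c).symm
      exact hcm.mul_pow 3
    rw [h2, hc3, mul_one] at h1
    exact h1
  have hε1 : ε = 1 := by
    have : ε ^ 3 = ε * (ε * ε) := by simp only [pow_succ, pow_zero, one_mul, mul_assoc]
    rw [this, hε2, mul_one] at hε3
    exact hε3
  have hgc : g * c = c * g := by
    rw [hε1, one_mul] at e1
    calc g * c = g * c * g⁻¹ * g := by group
      _ = c * g := by rw [e1]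
  have hgc2 : g * (c * c) = (c * c) * g := by
    calc g * (c * c) = (g * c) * c := by group
      _ = (c * g) * c := by rw [hgc]
      _ = c * (g * c) := by group
      _ = c * (c * g) := by rw [hgc]
      _ = _ := by group
  have hcc : (c * c).1 = 1 + Matrix.single (Sum.inl 0) (Sum.inr 0) (1 : F) := by
    rw [← Am_eq_single, coe_mul', hc, coe_As, Am_mul]
    apply Am_congr
    · ring
    · ring
    · linear_combination -h3
  have hM : g.1 * (1 + Matrix.single (Sum.inl 0) (Sum.inr 0) (1 : F)) =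
      (1 + Matrix.single (Sum.inl 0) (Sum.inr 0) (1 : F)) * g.1 := by
    rw [← hcc]
    exact congrArg Subtype.val hgc2
  obtain ⟨c1, c1', c1''⟩ := comm_single hM
  set μ₀ := g.1 (Sum.inl 0) (Sum.inl 0) with hμ₀
  have hne : μ₀ ≠ 0 := by
    intro h0
    have h1 := congrFun (congrFun (congrArg Subtype.val (inv_mul_cancel g)) (Sum.inl 0)) (Sum.inl 0)
    rw [coe_mul', coe_one', Matrix.mul_apply, Fintype.sum_sum_type] at h1
    simp only [Fin.sum_univ_two] at h1
    rw [c1 (Sum.inl 1) (by simp), c1 (Sum.inr 0) (by simp), c1 (Sum.inr 1) (by simp), ← hμ₀, h0]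
      at h1
    simp at h1
  have hsq : (μ₀ - 1) * (μ₀ + 1) = 0 := by
    have h1 := hF3 μ₀
    have h2 : μ₀ * ((μ₀ - 1) * (μ₀ + 1)) = 0 := by linear_combination h1
    exact (mul_eq_zero.mp h2).resolve_left hne
  rcases mul_eq_zero.mp hsq with h1 | h1
  · have hμ1 : μ₀ = 1 := by linear_combination h1
    refine ⟨g, rfl, ?_⟩
    exact {
      s11 := hμ1
      s21 := c1 _ (by simp)
      s31 := c1 _ (by simp)
      s41 := c1 _ (by simp)
      s32 := c1' _ (by simp)
      s33 := c1''.symm.trans hμ1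
      s34 := c1' _ (by simp) }
  · have hμ1 : μ₀ = -1 := by linear_combination h1
    have hmem : (-1 : Matrix (Fin 2 ⊕ Fin 2) (Fin 2 ⊕ Fin 2) F) ∈ Matrix.symplecticGroup (Fin 2) F :=
      SymplecticGroup.neg_mem (Matrix.symplecticGroup (Fin 2) F).one_mem
    let n : Sp F := ⟨-1, hmem⟩
    have hn : n ∈ Subgroup.center (Sp F) := by
      rw [Subgroup.mem_center_iff]
      intro y
      apply Subtype.ext
      rw [coe_mul', coe_mul']
      simp [n]
    have hnpi : piS n = 1 := (QuotientGroup.eq_one_iff n).mpr hn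
    refine ⟨g * n, by rw [map_mul, hnpi, mul_one], ?_⟩
    have he : ∀ k l, (g * n).1 k l = - g.1 k l := by
      intro k l
      rw [coe_mul']
      simp [n]
    exact {
      s11 := by rw [he, ← hμ₀, hμ1]; ring
      s21 := by rw [he, c1 _ (by simp)]; ring
      s31 := by rw [he, c1 _ (by simp)]; ring
      s41 := by rw [he, c1 _ (by simp)]; ring
      s32 := by rw [he, c1' _ (by simp)]; ring
      s33 := by rw [he, ← c1'', hμ1]; ring
      s34 := by rw [he, c1' _ (by simp)]; ring }

end Final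

lemma card_SL2 [Fintype F] (hF : Fintype.card F = 3) :
    Nat.card (Matrix.SpecialLinearGroup (Fin 2) F) ≤ 24 := by
  let κ : F ≃+* ZMod 3 := (ZMod.ringEquivOfPrime F Nat.prime_three hF).symm
  let φ : Matrix.SpecialLinearGroup (Fin 2) F → Matrix.SpecialLinearGroup (Fin 2) (ZMod 3) :=
    Matrix.SpecialLinearGroup.map κ.toRingHom
  have hφ : Function.Injective φ := by
    intro a b h
    apply Subtype.ext
    ext i j
    have h1 := congrArg (fun g : Matrix.SpecialLinearGroup (Fin 2) (ZMod 3) => g.1 i j) h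
    exact κ.injective h1
  have h1 := Nat.card_le_card_of_injective φ hφ
  have h2 : Nat.card (Matrix.SpecialLinearGroup (Fin 2) (ZMod 3)) = 24 := by
    rw [Nat.card_eq_fintype_card]
    decide +kernel
  omega

lemma F3_facts [Fintype F] (hF : Fintype.card F = 3) : (3 : F) = 0 ∧ ∀ x : F, x ^ 3 = x := by
  constructor
  · have h16 : ((Fintype.card F : ℕ) : F) = 0 := Nat.cast_card_eq_zero F
    rw [hF] at h16
    exact_mod_cast h16
  · intro x
    have := FiniteField.pow_card x
    rwa [hF] at this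

lemma card_C [Fintype F] (hF : Fintype.card F = 3) :
    Nat.card ↥(Subgroup.centralizer ({piS (As (0 : F) 0 (-1))} : Set (Cfsg.PSp 2 F))) ≤ 648 := by
  classical
  obtain ⟨h3, hF3⟩ := F3_facts hF
  have hsurj : ∀ y : ↥(Subgroup.centralizer ({piS (As (0 : F) 0 (-1))} : Set (Cfsg.PSp 2 F))),
      ∃ g : Sp F, piS g = y.1 ∧ Shape g.1 := by
    rintro ⟨y, hy⟩
    obtain ⟨g₀, rfl⟩ := QuotientGroup.mk'_surjective _ y
    have hg := (Subgroup.mem_centralizer_iff.mp hy) _ (Set.mem_singleton _)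
    obtain ⟨g', h1, h2⟩ := rep_form h3 hF3 hg.symm
    exact ⟨g', h1, h2⟩
  choose rep hrep hshape using hsurj
  have heq := fun y => (hshape y).eqs (rep y).2
  let data : ↥(Subgroup.centralizer ({piS (As (0 : F) 0 (-1))} : Set (Cfsg.PSp 2 F))) →
      F × F × F × Matrix.SpecialLinearGroup (Fin 2) F := fun y =>
    ((rep y).1 (Sum.inl 0) (Sum.inl 1), (rep y).1 (Sum.inl 0) (Sum.inr 0),
      (rep y).1 (Sum.inl 0) (Sum.inr 1),
      ⟨!![(rep y).1 (Sum.inl 1) (Sum.inl 1), (rep y).1 (Sum.inl 1) (Sum.inr 1);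
          (rep y).1 (Sum.inr 1) (Sum.inl 1), (rep y).1 (Sum.inr 1) (Sum.inr 1)], by
        rw [Matrix.det_fin_two_of]; exact (heq y).1⟩)
  have hinj : Function.Injective data := by
    intro y y' h
    have h1 : (rep y).1 (Sum.inl 0) (Sum.inl 1) = (rep y').1 (Sum.inl 0) (Sum.inl 1) :=
      congrArg (fun t => t.1) h
    have h2 : (rep y).1 (Sum.inl 0) (Sum.inr 0) = (rep y').1 (Sum.inl 0) (Sum.inr 0) :=
      congrArg (fun t => t.2.1) h
    have h4 : (rep y).1 (Sum.inl 0) (Sum.inr 1) = (rep y').1 (Sum.inl 0) (Sum.inr 1) :=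
      congrArg (fun t => t.2.2.1) h
    have hb := congrArg (fun t => t.2.2.2.1) h
    have b00 : (rep y).1 (Sum.inl 1) (Sum.inl 1) = (rep y').1 (Sum.inl 1) (Sum.inl 1) :=
      congrFun (congrFun hb 0) 0
    have b01 : (rep y).1 (Sum.inl 1) (Sum.inr 1) = (rep y').1 (Sum.inl 1) (Sum.inr 1) :=
      congrFun (congrFun hb 0) 1
    have b10 : (rep y).1 (Sum.inr 1) (Sum.inl 1) = (rep y').1 (Sum.inr 1) (Sum.inl 1) :=
      congrFun (congrFun hb 1) 0
    have b11 : (rep y).1 (Sum.inr 1) (Sum.inr 1) = (rep y').1 (Sum.inr 1) (Sum.inr 1) :=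
      congrFun (congrFun hb 1) 1
    obtain ⟨_, e1, e2⟩ := heq y
    obtain ⟨_, e1', e2'⟩ := heq y'
    have hrr : rep y = rep y' := by
      apply Subtype.ext
      have S := hshape y
      have S' := hshape y'
      ext (i | i) (j | j) <;> fin_cases i <;> fin_cases j
      · exact S.s11.trans S'.s11.symm
      · exact h1
      · exact S.s21.trans S'.s21.symm
      · exact b00
      · exact h2
      · exact h4
      · change (rep y).1 (Sum.inl 1) (Sum.inr 0) = (rep y').1 (Sum.inl 1) (Sum.inr 0)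
        rw [e1, e1', h1, h4, b00, b01]
      · exact b01
      · exact S.s31.trans S'.s31.symm
      · exact S.s32.trans S'.s32.symm
      · exact S.s41.trans S'.s41.symm
      · exact b10
      · exact S.s33.trans S'.s33.symm
      · exact S.s34.trans S'.s34.symm
      · change (rep y).1 (Sum.inr 1) (Sum.inr 0) = (rep y').1 (Sum.inr 1) (Sum.inr 0)
        rw [e2, e2', h1, h4, b10, b11]
      · exact b11
    apply Subtype.ext
    rw [← hrep y, ← hrep y', hrr]
  have h1 := Nat.card_le_card_of_injective data hinj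
  have h2 := card_SL2 hF
  have h3' : Nat.card F = 3 := by rw [Nat.card_eq_fintype_card, hF]
  rw [Nat.card_prod, Nat.card_prod, Nat.card_prod, h3'] at h1
  omega

lemma piS_z_ne [Fintype F] (hF : Fintype.card F = 3) : piS (As (0 : F) 0 (-1)) ≠ 1 := by
  intro h
  have h1 : As (0 : F) 0 (-1) ∈ Subgroup.center (Sp F) := (QuotientGroup.eq_one_iff _).mp h
  obtain ⟨μ, _, hμ⟩ := center_scalar h1
  have h2 := congrFun (congrFun hμ (Sum.inl 0)) (Sum.inr 0)
  rw [coe_As] at h2
  simp [Am] at h2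

end Cfsg.Agent.H06.U4
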