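import Mathlib
import Cfsg.Agent.Lib.H06.U4a

set_option autoImplicit false

namespace Cfsg.Agent.H06.U4

open Cfsg.Agent.H06.U3

abbrev SL3 := Matrix.SpecialLinearGroup (Fin 2) (ZMod 3)

def mm3 : SL3 := ⟨!![2,0;0,2], by decide⟩
def i3 : SL3 := ⟨!![0,2;1,0], by decide⟩
def w3 : SL3 := ⟨!![1,1;0,1], by decide⟩

lemma D1 : ∀ g : SL3, ∃ h₁ h₂ : SL3, g = h₁ * h₁ * (h₂ * h₂) := by decide +kernel
lemma D2 : ∀ g : SL3, g ≠ 1 → g * g = mm3 ∨ g * g * g = mm3 ∨ ∃ h : SL3, (g * h * g⁻¹ * h⁻¹) * (g * h * g⁻¹ * h⁻¹) = mm3 := by decide +kernel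
lemma D3 : ∀ g : SL3, g * mm3 = mm3 * g := by decide +kernel
lemma D4 : (Finset.univ.filter (fun g : SL3 => g ^ 8 = 1)).card = 8 := by decide +kernel
lemma D4a : i3 * i3 = mm3 ∧ mm3 ≠ 1 ∧ mm3 * mm3 = 1 ∧ w3 ≠ 1 ∧ w3 ^ 3 = 1 := by decide +kernel
lemma D5 : ∀ g g' : SL3, g ^ 3 = 1 → g ≠ 1 → g' ^ 3 = 1 → g' ≠ 1 → ∃ h : SL3, h * g * h⁻¹ = g' ∨ h * g * h⁻¹ = g' * g' := by decide +kernel
lemma D6 : ∀ g : SL3, ∃ a : Fin 3, ∃ b : Fin 4, ∃ c : Fin 2, g = w3 ^ (a:ℕ) * i3 ^ (b:ℕ) * (w3 * i3 * w3⁻¹) ^ (c:ℕ) := by decide +kernel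
lemma D7 : Nat.card SL3 = 24 := by rw [Nat.card_eq_fintype_card]; decide +kernel
lemma D8 : (w3 * i3 * w3⁻¹) * i3 = (i3 * mm3) * (w3 * i3 * w3⁻¹) := by decide +kernel
lemma D9 : w3 * (w3 * i3 * w3⁻¹) = (i3 * (w3 * i3 * w3⁻¹)) * w3 := by decide +kernel
lemma D10 : i3 ^ 8 = 1 := by decide +kernel
lemma D11 : w3 * mm3 = mm3 * w3 := by decide +kernel

section W
variable {X : Type*} [Group X]

/-- coordinates on the extraspecial group -/
def Wd (a b z : X) (p q r : ℤ) : X := a ^ p * b ^ q * z ^ r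

/-- data for coordinates -/
structure Cd (a b z : X) : Prop where
  a3 : a ^ 3 = 1
  b3 : b ^ 3 = 1
  z3 : z ^ 3 = 1
  zne : z ≠ 1
  zc : ∀ x, z * x = x * z
  ab : a * b = z * b * a

lemma Wd_e {a b z : X} {p q r p' q' r' : ℤ} (hp : p = p') (hq : q = q') (hr : r = r') :
    Wd a b z p q r = Wd a b z p' q' r' := by subst hp hq hr; rfl

lemma W_a (a b z : X) : Wd a b z 1 0 0 = a := by simp [Wd]
lemma W_b (a b z : X) : Wd a b z 0 1 0 = b := by simp [Wd]
lemma W_z (a b z : X) : Wd a b z 0 0 1 = z := by simp [Wd]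
lemma W_ai (a b z : X) : Wd a b z (-1) 0 0 = a⁻¹ := by simp [Wd]
lemma W_bi (a b z : X) : Wd a b z 0 (-1) 0 = b⁻¹ := by simp [Wd]
lemma W_zk (a b z : X) (k : ℤ) : Wd a b z 0 0 k = z ^ k := by simp [Wd]
lemma W_bk (a b z : X) (k : ℤ) : Wd a b z 0 k 0 = b ^ k := by simp [Wd]
lemma W_ak (a b z : X) (k : ℤ) : Wd a b z k 0 0 = a ^ k := by simp [Wd]
lemma W_one (a b z : X) : Wd a b z 0 0 0 = 1 := by simp [Wd]

lemma word1 {A B Zr A' B' Zr' Zk : X} (h1 : B * A' = Zk * A' * B) (c1 : ∀ x, Zr * x = x * Zr)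
    (c2 : ∀ x, Zk * x = x * Zk) :
    A * B * Zr * (A' * B' * Zr') = A * A' * (B * B') * (Zr * Zr' * Zk) := by
  calc A * B * Zr * (A' * B' * Zr') = A * B * (Zr * A') * B' * Zr' := by group
    _ = A * (B * A') * Zr * B' * Zr' := by rw [c1 A']; group
    _ = A * (Zk * A' * B) * Zr * B' * Zr' := by rw [h1]
    _ = A * (Zk * A') * B * Zr * B' * Zr' := by group
    _ = A * (A' * Zk) * B * Zr * B' * Zr' := by rw [c2 A']
    _ = A * A' * (Zk * B) * Zr * B' * Zr' := by group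
    _ = A * A' * (B * Zk) * Zr * B' * Zr' := by rw [c2 B]
    _ = A * A' * B * (Zk * Zr) * B' * Zr' := by group
    _ = A * A' * B * (Zr * Zk) * B' * Zr' := by rw [c2 Zr]
    _ = A * A' * B * Zr * (Zk * B') * Zr' := by group
    _ = A * A' * B * Zr * (B' * Zk) * Zr' := by rw [c2 B']
    _ = A * A' * B * (Zr * B') * Zk * Zr' := by group
    _ = A * A' * B * (B' * Zr) * Zk * Zr' := by rw [c1 B']
    _ = A * A' * (B * B') * Zr * (Zk * Zr') := by group
    _ = A * A' * (B * B') * Zr * (Zr' * Zk) := by rw [c2 Zr']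
    _ = _ := by group

lemma zp3 {x : X} (h : x ^ 3 = 1) {p p' : ℤ} (hp : p ≡ p' [ZMOD 3]) : x ^ p = x ^ p' := by
  have h' : x ^ (3 : ℤ) = 1 := by exact_mod_cast h
  rw [zpow_eq_zpow_emod p h', zpow_eq_zpow_emod p' h', show p % 3 = p' % 3 from hp]

lemma W_conjg {a b z a' b' z' : X} (g : X) (ha : g * a * g⁻¹ = a') (hb : g * b * g⁻¹ = b')
    (hz : g * z * g⁻¹ = z') (p q r : ℤ) :
    g * Wd a b z p q r * g⁻¹ = a' ^ p * b' ^ q * z' ^ r := by
  unfold Wd
  have e : ∀ x y : X, g * (x * y) * g⁻¹ = (g * x * g⁻¹) * (g * y * g⁻¹) := by intros; group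
  rw [e, e, ← conj_zpow, ← conj_zpow, ← conj_zpow, ha, hb, hz]

namespace Cd
variable {a b z : X} (C : Cd a b z)
include C

lemma zk (k : ℤ) (x : X) : z ^ k * x = x * z ^ k :=
  ((show Commute z x from C.zc x).zpow_left k).eq

lemma bab : b * a * b⁻¹ = a * z⁻¹ := by
  have h := C.ab
  have e : b * a = z⁻¹ * (a * b) := by rw [h]; group
  rw [e]
  have h2 : z⁻¹ * a = a * z⁻¹ := ((show Commute z a from C.zc a).inv_left).eq
  calc z⁻¹ * (a * b) * b⁻¹ = z⁻¹ * a := by group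
    _ = _ := h2

lemma step_a (p : ℤ) : b * a ^ p * b⁻¹ = a ^ p * z ^ (-p) := by
  rw [← conj_zpow, C.bab, Commute.mul_zpow, inv_zpow']
  exact ((show Commute z a from C.zc a).inv_left).symm

lemma step_b (p : ℤ) : a ^ p * b * (a ^ p)⁻¹ = z ^ p * b := by
  have h := C.step_a p
  have h1 : b * a ^ p = a ^ p * z ^ (-p) * b := by rw [← h]; group
  have h2 : z ^ p * (b * a ^ p) = a ^ p * b := by
    rw [h1]
    calc z ^ p * (a ^ p * z ^ (-p) * b) = (z ^ p * a ^ p) * z ^ (-p) * b := by group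
      _ = (a ^ p * z ^ p) * z ^ (-p) * b := by rw [C.zk]
      _ = a ^ p * (z ^ p * z ^ (-p)) * b := by group
      _ = a ^ p * b := by rw [← zpow_add]; simp
  rw [← h2]; group

lemma ab_zpow (p q : ℤ) : a ^ p * b ^ q = z ^ (p * q) * b ^ q * a ^ p := by
  have h : a ^ p * b ^ q * (a ^ p)⁻¹ = (z ^ p * b) ^ q := by
    rw [← conj_zpow, C.step_b]
  have c : Commute (z ^ p) b := C.zk p b
  rw [c.mul_zpow, ← zpow_mul] at h
  rw [← h]; group

lemma ba_zpow (q p' : ℤ) : b ^ q * a ^ p' = z ^ (-(p' * q)) * a ^ p' * b ^ q := by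
  rw [mul_assoc (z ^ (-(p' * q))), C.ab_zpow p' q]
  calc b ^ q * a ^ p' = (z ^ (-(p' * q)) * z ^ (p' * q)) * (b ^ q * a ^ p') := by
        rw [← zpow_add]; simp
    _ = _ := by group

lemma W_mul (p q r p' q' r' : ℤ) :
    Wd a b z p q r * Wd a b z p' q' r' = Wd a b z (p + p') (q + q') (r + r' - q * p') := by
  unfold Wd
  have e : r + r' - q * p' = r + r' + (-(p' * q)) := by ring
  rw [e, zpow_add a, zpow_add b, zpow_add z, zpow_add z]
  exact word1 (C.ba_zpow q p') (C.zk r) (C.zk _)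

lemma W_inv (p q r : ℤ) : (Wd a b z p q r)⁻¹ = Wd a b z (-p) (-q) (-r - p * q) := by
  apply inv_eq_of_mul_eq_one_right
  rw [C.W_mul, ← W_one a b z]
  exact Wd_e (by ring) (by ring) (by ring)

lemma W_congr {p p' q q' r r' : ℤ} (hp : p ≡ p' [ZMOD 3]) (hq : q ≡ q' [ZMOD 3])
    (hr : r ≡ r' [ZMOD 3]) : Wd a b z p q r = Wd a b z p' q' r' := by
  unfold Wd
  rw [zp3 C.a3 hp, zp3 C.b3 hq, zp3 C.z3 hr]

lemma zz {k k' : ℤ} (h : z ^ k = z ^ k') : k ≡ k' [ZMOD 3] := by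
  haveI := Fact.mk Nat.prime_three
  have ho : orderOf z = 3 := orderOf_eq_prime C.z3 C.zne
  have := zpow_eq_zpow_iff_modEq.1 h
  rw [ho] at this
  exact this

lemma conj_a (p q r : ℤ) : a * Wd a b z p q r * a⁻¹ = z ^ q * Wd a b z p q r := by
  calc a * Wd a b z p q r * a⁻¹ = Wd a b z 1 0 0 * Wd a b z p q r * Wd a b z (-1) 0 0 := by
        rw [W_a, W_ai]
    _ = Wd a b z p q (r + q) := by
        rw [C.W_mul, C.W_mul]; exact Wd_e (by ring) (by ring) (by ring)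
    _ = Wd a b z 0 0 q * Wd a b z p q r := by
        rw [C.W_mul]; exact Wd_e (by ring) (by ring) (by ring)
    _ = _ := by rw [W_zk]

lemma conj_b (p q r : ℤ) : b * Wd a b z p q r * b⁻¹ = z ^ (-p) * Wd a b z p q r := by
  calc b * Wd a b z p q r * b⁻¹ = Wd a b z 0 1 0 * Wd a b z p q r * Wd a b z 0 (-1) 0 := by
        rw [W_b, W_bi]
    _ = Wd a b z p q (r - p) := by
        rw [C.W_mul, C.W_mul]; exact Wd_e (by ring) (by ring) (by ring)
    _ = Wd a b z 0 0 (-p) * Wd a b z p q r := by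
        rw [C.W_mul]; exact Wd_e (by ring) (by ring) (by ring)
    _ = _ := by rw [W_zk]

lemma W_inj {p q r p' q' r' : ℤ} (h : Wd a b z p q r = Wd a b z p' q' r') :
    p ≡ p' [ZMOD 3] ∧ q ≡ q' [ZMOD 3] ∧ r ≡ r' [ZMOD 3] := by
  have hq : q ≡ q' [ZMOD 3] := by
    apply C.zz
    have h1 := C.conj_a p q r
    have h2 := C.conj_a p' q' r'
    rw [← h] at h2
    exact mul_right_cancel (h1.symm.trans h2)
  have hp : p ≡ p' [ZMOD 3] := by
    have h1 := C.conj_b p q r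
    have h2 := C.conj_b p' q' r'
    rw [← h] at h2
    have h3 := C.zz (mul_right_cancel (h1.symm.trans h2))
    have := Int.ModEq.neg h3
    simpa using this
  refine ⟨hp, hq, ?_⟩
  apply C.zz
  unfold Wd at h
  rw [zp3 C.a3 hp, zp3 C.b3 hq] at h
  exact mul_left_cancel h

lemma surjR {R : Subgroup X} [Finite R] (hR : Nat.card R = 27) (ha : a ∈ R) (hb : b ∈ R)
    (hz : z ∈ R) : ∀ x ∈ R, ∃ p q r : ℤ, x = Wd a b z p q r := by
  let f : Fin 3 × Fin 3 × Fin 3 → R := fun t =>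
    ⟨Wd a b z ((t.1 : ℕ) : ℤ) ((t.2.1 : ℕ) : ℤ) ((t.2.2 : ℕ) : ℤ),
      R.mul_mem (R.mul_mem (R.zpow_mem ha _) (R.zpow_mem hb _)) (R.zpow_mem hz _)⟩
  have hinj : Function.Injective f := by
    rintro ⟨p, q, r⟩ ⟨p', q', r'⟩ h
    obtain ⟨h1, h2, h3⟩ := C.W_inj (congrArg Subtype.val h)
    have hp : p = p' := by
      apply Fin.ext; have := p.2; have := p'.2; simp only [Int.ModEq] at h1; omega
    have hq : q = q' := by
      apply Fin.ext; have := q.2; have := q'.2; simp only [Int.ModEq] at h2; omega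
    have hr : r = r' := by
      apply Fin.ext; have := r.2; have := r'.2; simp only [Int.ModEq] at h3; omega
    rw [hp, hq, hr]
  have hb' := hinj.bijective_of_nat_card_le (by simp [hR, Nat.card_prod])
  intro x hx
  obtain ⟨t, ht⟩ := hb'.2 ⟨x, hx⟩
  exact ⟨_, _, _, (congrArg Subtype.val ht).symm⟩

lemma pow_abz (q : ℤ) : ∃ c : ℤ, (Wd a b z 1 1 1) ^ q = Wd a b z q q c := by
  induction q using Int.induction_on with
  | zero => exact ⟨0, by simpa using (W_one a b z).symm⟩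
  | succ n ih =>
    obtain ⟨c, hc⟩ := ih
    refine ⟨c + 1 - (n : ℤ) * 1, ?_⟩
    rw [zpow_add_one, hc, C.W_mul]
  | pred n ih =>
    obtain ⟨c, hc⟩ := ih
    refine ⟨c + (-1 - 1 * 1) - (-(n : ℤ)) * (-1), ?_⟩
    rw [zpow_sub_one, hc, C.W_inv, C.W_mul]
    exact Wd_e (by ring) (by ring) (by ring)

end Cd

lemma fix_count3 [Finite X] (T : Subgroup X) (s : X) (h3 : s ^ 3 = 1) (hT : Stab s T) :
    Nat.card T ≡ Nat.card ↥(T ⊓ Subgroup.centralizer {s}) [MOD 3] := by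
  classical
  haveI := Fact.mk Nat.prime_three
  letI : Fintype T := Fintype.ofFinite T
  let f : Function.End T := fun a => ⟨s * a * s⁻¹, hT a a.2⟩
  have hfn : ∀ (n : ℕ) (a : T), ((f ^ n) a : X) = s ^ n * a * (s ^ n)⁻¹ := by
    intro n
    induction n with
    | zero => intro a; simp; rfl
    | succ n ih =>
      intro a
      rw [pow_succ]
      change ((f ^ n) (f a) : X) = _
      rw [ih]
      simp only [f, pow_succ]
      group
  have hf : f ^ (3 ^ 1) = 1 := by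
    funext a
    apply Subtype.ext
    rw [hfn]
    simp [h3]
    rfl
  have key := Equiv.Perm.card_fixedPoints_modEq hf
  rw [← Nat.card_eq_fintype_card] at key
  have e : Fintype.card (Function.fixedPoints f) = Nat.card ↥(T ⊓ Subgroup.centralizer {s}) := by
    rw [← Nat.card_eq_fintype_card]
    refine Nat.card_congr ⟨fun a => ⟨a.1.1, a.1.2, ?_⟩, fun a => ⟨⟨a.1, a.2.1⟩, ?_⟩, ?_, ?_⟩
    · change (a.1.1 : X) ∈ Subgroup.centralizer {s}
      rw [Subgroup.mem_centralizer_iff]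
      intro h hh
      rw [Set.mem_singleton_iff] at hh
      rw [hh]
      have h1 : s * a.1.1 * s⁻¹ = a.1.1 := congrArg Subtype.val a.2
      calc s * a.1.1 = s * a.1.1 * s⁻¹ * s := by group
        _ = a.1.1 * s := by rw [h1]
    · apply Subtype.ext
      have h1 := Subgroup.mem_centralizer_iff.mp (show a.1 ∈ Subgroup.centralizer {s} from a.2.2)
        s (Set.mem_singleton s)
      change s * a.1 * s⁻¹ = a.1
      rw [h1]
      group
    · intro a; rfl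
    · intro a; rfl
  rw [e] at key
  exact key

end W

end Cfsg.Agent.H06.U4
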