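import Mathlib
import Cfsg.Agent.Lib.H06.U4c

set_option autoImplicit false

namespace Cfsg.Agent.H06.U4

open Cfsg.Agent.H06.U3

section XS
variable {X : Type*} [Group X]

/-- the basic situation -/
structure XC (R : Subgroup X) (π : X →* SL3) (z₀ : X) : Prop where
  ker : ∀ x, π x = 1 ↔ x ∈ R
  surj : Function.Surjective π
  card : Nat.card R = 27
  exp : ∀ r ∈ R, r ^ 3 = 1
  z_mem : z₀ ∈ R
  z_ne : z₀ ≠ 1
  z_cR : ∀ r ∈ R, r * z₀ = z₀ * r
  cen : ∀ r ∈ R, (∀ r' ∈ R, r * r' = r' * r) → r = 1 ∨ r = z₀ ∨ r = z₀ * z₀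
  comm : ∀ r ∈ R, ∀ r' ∈ R, r * r' * r⁻¹ * r'⁻¹ = 1 ∨ r * r' * r⁻¹ * r'⁻¹ = z₀ ∨
    r * r' * r⁻¹ * r'⁻¹ = z₀ * z₀
  o2 : ∀ t : X, t * t = 1 → (∀ x, t * x = x * t) → t = 1

/-- the Sylow 2-subgroup data -/
structure XP (π : X →* SL3) (P : Subgroup X) (i m s : X) : Prop where
  iP : i ∈ P
  ii : i * i = m
  πi : π i = i3
  πs : π s = w3
  sN : ∀ p ∈ P, s * p * s⁻¹ ∈ P
  inj : ∀ p ∈ P, π p = 1 → p = 1

lemma card_lt_of [Finite X] {H K : Subgroup X} (hle : H ≤ K) {x : X} (hx : x ∈ K) (hn : x ∉ H) :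
    Nat.card H < Nat.card K := by
  by_contra hcon
  have := Subgroup.eq_of_le_of_card_ge hle (not_lt.1 hcon)
  exact hn (this ▸ hx)

namespace XC
variable {R : Subgroup X} {π : X →* SL3} {z₀ : X} (H : XC R π z₀)
include H

lemma conj_mem (x : X) {r : X} (hr : r ∈ R) : x * r * x⁻¹ ∈ R := by
  rw [← H.ker]; simp [(H.ker r).2 hr]

lemma conj_mem' (x : X) {r : X} (hr : r ∈ R) : x⁻¹ * r * x ∈ R := by
  rw [← H.ker]; simp [(H.ker r).2 hr]

lemma z3 : z₀ ^ 3 = 1 := H.exp _ H.z_mem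

lemma z3' : z₀ * z₀ * z₀ = 1 := by
  rw [← H.z3]; simp only [pow_succ, pow_zero, one_mul]

lemma sq_one {r : X} (hr : r ∈ R) (h : r * r = 1) : r = 1 := by
  have h3 := H.exp r hr
  calc r = r ^ 3 * (r * r)⁻¹ := by simp only [pow_succ, pow_zero, one_mul]; group
    _ = 1 := by rw [h3, h]; simp

lemma zz_ne : z₀ * z₀ ≠ 1 := fun h => H.z_ne (H.sq_one H.z_mem h)

lemma zconj (y : X) : y * z₀ * y⁻¹ = z₀ ∨ y * z₀ * y⁻¹ = z₀ * z₀ := by
  have h1 : y * z₀ * y⁻¹ ∈ R := H.conj_mem y H.z_mem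
  have h2 : ∀ r' ∈ R, (y * z₀ * y⁻¹) * r' = r' * (y * z₀ * y⁻¹) := by
    intro r' hr'
    have h3 : y⁻¹ * r' * y ∈ R := H.conj_mem' y hr'
    have h4 := H.z_cR _ h3
    calc (y * z₀ * y⁻¹) * r' = y * (z₀ * (y⁻¹ * r' * y)) * y⁻¹ := by group
      _ = y * ((y⁻¹ * r' * y) * z₀) * y⁻¹ := by rw [h4]
      _ = r' * (y * z₀ * y⁻¹) := by group
  rcases H.cen _ h1 h2 with h | h | h
  · exfalso; apply H.z_ne
    have e : z₀ = y⁻¹ * (y * z₀ * y⁻¹) * y := by group
    rw [e, h]; group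
  · exact Or.inl h
  · exact Or.inr h

lemma zsq (y : X) : (y * y) * z₀ = z₀ * (y * y) := by
  have h3' := H.z3'
  rcases H.zconj y with h | h
  · have e : y * z₀ = z₀ * y := by
      calc y * z₀ = (y * z₀ * y⁻¹) * y := by group
        _ = z₀ * y := by rw [h]
    calc y * y * z₀ = y * (y * z₀) := by group
      _ = y * (z₀ * y) := by rw [e]
      _ = (y * z₀) * y := by group
      _ = z₀ * y * y := by rw [e]
      _ = _ := by group
  · have e : y * z₀ = z₀ * z₀ * y := by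
      calc y * z₀ = (y * z₀ * y⁻¹) * y := by group
        _ = z₀ * z₀ * y := by rw [h]
    calc y * y * z₀ = y * (y * z₀) := by group
      _ = y * (z₀ * z₀ * y) := by rw [e]
      _ = (y * z₀) * z₀ * y := by group
      _ = (z₀ * z₀ * y) * z₀ * y := by rw [e]
      _ = z₀ * z₀ * (y * z₀) * y := by group
      _ = z₀ * z₀ * (z₀ * z₀ * y) * y := by rw [e]
      _ = (z₀ * z₀ * z₀) * z₀ * (y * y) := by group
      _ = _ := by rw [h3']; group

lemma zcent (x : X) : z₀ * x = x * z₀ := by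
  obtain ⟨h₁, h₂, hh⟩ := D1 (π x)
  obtain ⟨u₁, hu₁⟩ := H.surj h₁
  obtain ⟨u₂, hu₂⟩ := H.surj h₂
  have hr : (u₁ * u₁ * (u₂ * u₂))⁻¹ * x ∈ R := by
    rw [← H.ker, map_mul, map_inv, map_mul, map_mul, map_mul, hu₁, hu₂, hh, inv_mul_cancel]
  set r := (u₁ * u₁ * (u₂ * u₂))⁻¹ * x with hrd
  have ex : x = u₁ * u₁ * (u₂ * u₂) * r := by rw [hrd]; group
  have c1 : Commute z₀ (u₁ * u₁) := (H.zsq u₁).symm
  have c2 : Commute z₀ (u₂ * u₂) := (H.zsq u₂).symm
  have c3 : Commute z₀ r := (H.z_cR r hr).symm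
  rw [ex]; exact ((c1.mul_right c2).mul_right c3).eq

lemma zzcent (x : X) : (z₀ * z₀) * x = x * (z₀ * z₀) := by
  have c : Commute z₀ x := H.zcent x
  exact (c.mul_left c).eq

lemma cR_aux {t : X} (ht : t ∈ Subgroup.centralizer (R : Set X)) (hπ : π t = mm3) : False := by
  obtain ⟨_, hm1, hmm, _, _⟩ := D4a
  have ht2 : t * t ∈ R := by rw [← H.ker]; simp [hπ, hmm]
  have ht6 := H.exp _ ht2
  set t' := t * t * t with ht'
  have ht'C : t' ∈ Subgroup.centralizer (R : Set X) := mul_mem (mul_mem ht ht) ht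
  have ht'π : π t' = mm3 := by simp [ht', hπ, hmm]
  have ht'2 : t' * t' = 1 := by
    rw [← ht6]; simp only [pow_succ, pow_zero, one_mul, ht']; group
  have central : ∀ g, t' * g = g * t' := by
    intro g
    have hr : t' * (g * t' * g⁻¹) ∈ R := by
      rw [← H.ker]
      have := D3 (π g)
      have e : π g * mm3 * (π g)⁻¹ = mm3 := by rw [this]; group
      simp [ht'π, e, hmm]
    set t'' := g * t' * g⁻¹ with ht''
    set r := t' * t'' with hrd
    have hcomm : r * t' = t' * r := Subgroup.mem_centralizer_iff.mp ht'C r hr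
    have e1 : t'' = t' * r := by
      rw [hrd]
      calc t'' = (t' * t') * t'' := by rw [ht'2]; group
        _ = _ := by group
    have e2 : t'' * t'' = 1 := by
      rw [ht'']
      calc g * t' * g⁻¹ * (g * t' * g⁻¹) = g * (t' * t') * g⁻¹ := by group
        _ = 1 := by rw [ht'2]; group
    have e3 : r * r = 1 := by
      rw [e1] at e2
      calc r * r = (t' * t') * (r * r) := by rw [ht'2]; group
        _ = t' * (t' * r) * r := by group
        _ = t' * (r * t') * r := by rw [hcomm]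
        _ = (t' * r) * (t' * r) := by group
        _ = 1 := e2
    have e4 : r = 1 := H.sq_one hr e3
    have e5 : t'' = t' := by rw [e1, e4]; group
    calc t' * g = t'' * g := by rw [e5]
      _ = g * t' := by rw [ht'']; group
  have h1 := H.o2 t' ht'2 central
  rw [h1, map_one] at ht'π
  exact hm1 ht'π.symm

lemma conjC {x : X} (hx : x ∈ Subgroup.centralizer (R : Set X)) (u : X) :
    u * x * u⁻¹ ∈ Subgroup.centralizer (R : Set X) := by
  rw [Subgroup.mem_centralizer_iff] at hx ⊢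
  intro r hr
  have h1 := hx _ (H.conj_mem' u hr)
  calc r * (u * x * u⁻¹) = u * ((u⁻¹ * r * u) * x) * u⁻¹ := by group
    _ = u * (x * (u⁻¹ * r * u)) * u⁻¹ := by rw [h1]
    _ = _ := by group

lemma cR (x : X) (hx : ∀ r ∈ R, x * r = r * x) : x ∈ R := by
  by_contra hn
  have hne : π x ≠ 1 := fun h => hn ((H.ker x).1 h)
  have hxC : x ∈ Subgroup.centralizer (R : Set X) :=
    Subgroup.mem_centralizer_iff.2 (fun r hr => (hx r hr).symm)
  rcases D2 (π x) hne with h | h | ⟨g, hg⟩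
  · exact H.cR_aux (mul_mem hxC hxC) (by simpa using h)
  · exact H.cR_aux (mul_mem (mul_mem hxC hxC) hxC) (by simpa using h)
  · obtain ⟨u, hu⟩ := H.surj g
    have h1 : x * u * x⁻¹ * u⁻¹ ∈ Subgroup.centralizer (R : Set X) := by
      have e : x * u * x⁻¹ * u⁻¹ = x * (u * x⁻¹ * u⁻¹) := by group
      rw [e]
      exact mul_mem hxC (H.conjC (inv_mem hxC) u)
    exact H.cR_aux (mul_mem h1 h1) (by simpa [hu] using hg)

lemma card_options [Finite X] {K : Subgroup X} (hK : K ≤ R) :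
    Nat.card K = 1 ∨ Nat.card K = 3 ∨ Nat.card K = 9 ∨ Nat.card K = 27 := by
  have h := Subgroup.card_dvd_of_le hK
  rw [H.card] at h
  obtain ⟨k, hk, e⟩ := (Nat.dvd_prime_pow Nat.prime_three).1 (show Nat.card K ∣ 3 ^ 3 by simpa using h)
  interval_cases k <;> simp [e]

lemma mem_Z_iff {c : X} (hc : c ∈ Subgroup.zpowers z₀) : c = 1 ∨ c = z₀ ∨ c = z₀ * z₀ := by
  obtain ⟨k, rfl⟩ := Subgroup.mem_zpowers_iff.1 hc
  have h3 : z₀ ^ (3 : ℤ) = 1 := by exact_mod_cast H.z3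
  rw [zpow_eq_zpow_emod k h3]
  have : k % 3 = 0 ∨ k % 3 = 1 ∨ k % 3 = 2 := by omega
  rcases this with h | h | h <;> rw [h]
  · left; simp
  · right; left; simp
  · right; right
    rw [show (2 : ℤ) = 1 + 1 by norm_num, zpow_add, zpow_one]

lemma Z_mem_of {c : X} (hc : c = 1 ∨ c = z₀ ∨ c = z₀ * z₀) : c ∈ Subgroup.zpowers z₀ := by
  rcases hc with rfl | rfl | rfl
  · exact one_mem _
  · exact Subgroup.mem_zpowers _
  · exact mul_mem (Subgroup.mem_zpowers _) (Subgroup.mem_zpowers _)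

lemma Z_cen {c : X} (hc : c ∈ Subgroup.zpowers z₀) (x : X) : c * x = x * c := by
  rcases H.mem_Z_iff hc with rfl | rfl | rfl
  · group
  · exact H.zcent x
  · exact H.zzcent x

lemma Z_le : Subgroup.zpowers z₀ ≤ R := Subgroup.zpowers_le.2 H.z_mem

lemma chain_top [Finite X] {Z H₂ H₃ : Subgroup X} (cZ : Nat.card Z = 3) (h12 : Z ≤ H₂)
    (h23 : H₂ ≤ H₃) (h3R : H₃ ≤ R) {x y : X} (hx : x ∈ H₂) (hxn : x ∉ Z) (hy : y ∈ H₃)
    (hyn : y ∉ H₂) : H₃ = R := by
  have lt₁ := card_lt_of h12 hx hxn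
  have lt₂ := card_lt_of h23 hy hyn
  rw [cZ] at lt₁
  have o1 := H.card_options (h23.trans h3R)
  have o2 := H.card_options h3R
  exact Subgroup.eq_of_le_of_card_ge h3R (by rw [H.card]; omega)

/-- generation of `R` by an inverted element and its image under `i` -/
lemma gen [Finite X] {P : Subgroup X} {i m s : X} (K : XP π P i m s)
    {a : X} (ha : a ∈ R) (hne : a ≠ 1) (hm : m * a * m⁻¹ = a⁻¹) :
    ∃ z, Cd a (i * a * i⁻¹) z ∧ (z = z₀ ∨ z = z₀ * z₀) := by
  set b := i * a * i⁻¹ with hb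
  have hbR : b ∈ R := H.conj_mem i ha
  have hmi : m * i = i * m := by rw [← K.ii]; group
  have hmb : m * b * m⁻¹ = b⁻¹ := by
    calc m * b * m⁻¹ = (m * i) * a * (m * i)⁻¹ := by rw [hb]; group
      _ = (i * m) * a * (i * m)⁻¹ := by rw [hmi]
      _ = i * (m * a * m⁻¹) * i⁻¹ := by group
      _ = i * a⁻¹ * i⁻¹ := by rw [hm]
      _ = b⁻¹ := by rw [hb]; group
  have hkey : i * b * i⁻¹ = m * a * m⁻¹ := by
    rw [hb, ← K.ii]; group
  have ha1 : ¬ (m * a * m⁻¹ = a) := by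
    intro h
    rw [hm] at h
    apply hne
    apply H.sq_one ha
    nth_rewrite 1 [← h]
    group
  have haZ : a ∉ Subgroup.zpowers z₀ := by
    intro h
    apply ha1
    rw [← H.Z_cen h m]; group
  have hZs : Stab a (Subgroup.zpowers z₀) := fun c hc => by
    rw [conj_of_comm (H.Z_cen hc a)]; exact hc
  have hZa3 : a ^ 3 ∈ Subgroup.zpowers z₀ := by rw [H.exp a ha]; exact one_mem _
  have hbn : b ∉ adj (Subgroup.zpowers z₀) a := by
    intro hin
    obtain ⟨k, h, e⟩ := adj_form _ a 3 (by norm_num) hZs hZa3 b hin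
    have hhc := H.Z_cen h.2
    have hhR : (h : X) ∈ R := H.Z_le h.2
    have e1 : m * b * m⁻¹ = (a ^ (k : ℕ))⁻¹ * h := by
      rw [e]
      have e2 : m * (a ^ (k : ℕ) * ↑h) * m⁻¹ = (m * a * m⁻¹) ^ (k : ℕ) * (m * h * m⁻¹) := by
        rw [conj_pow]; group
      rw [e2, hm, inv_pow, conj_of_comm (hhc m)]
    have e3 : b⁻¹ = (a ^ (k : ℕ))⁻¹ * (h : X)⁻¹ := by
      rw [e, mul_inv_rev]
      have : Commute (h : X)⁻¹ (a ^ (k : ℕ))⁻¹ := (show Commute (h : X) ((a ^ (k : ℕ))⁻¹) from hhc _).inv_left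
      exact this.eq
    rw [hmb, e3] at e1
    have e4 : (h : X)⁻¹ = h := mul_left_cancel e1
    have e5 : (h : X) = 1 := by
      apply H.sq_one hhR
      nth_rewrite 1 [← e4]
      group
    rw [e5, mul_one] at e
    have hk : (k : ℕ) = 0 ∨ (k : ℕ) = 1 ∨ (k : ℕ) = 2 := by have := k.2; omega
    rcases hk with hk | hk | hk
    · rw [hk, pow_zero] at e
      apply hne
      have e6 : a = i⁻¹ * b * i := by rw [hb]; group
      rw [e6, e]; group
    · rw [hk, pow_one] at e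
      apply ha1
      rw [← hkey, e]; exact hb.symm.trans e
    · rw [hk] at e
      apply ha1
      rw [← hkey]
      have h4 : a ^ 3 = 1 := H.exp a ha
      have e6 : i * b * i⁻¹ = (i * a * i⁻¹) * (i * a * i⁻¹) := by
        rw [e]; simp only [pow_succ, pow_zero, one_mul]; group
      rw [e6, ← hb, e]
      calc a ^ 2 * a ^ 2 = a ^ 3 * a := by simp only [pow_succ, pow_zero, one_mul]; group
        _ = a := by rw [h4, one_mul]
  have hZa : a ∈ adj (Subgroup.zpowers z₀) a := mem_adj_self _ _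
  have hb3 : b ∈ adj (adj (Subgroup.zpowers z₀) a) b := mem_adj_self _ _
  have cZ : Nat.card (Subgroup.zpowers z₀) = 3 := by
    haveI := Fact.mk Nat.prime_three
    rw [Nat.card_zpowers]; exact orderOf_eq_prime H.z3 H.z_ne
  have hH₂R : adj (Subgroup.zpowers z₀) a ≤ R := sup_le H.Z_le (Subgroup.zpowers_le.2 ha)
  have hH₃R : adj (adj (Subgroup.zpowers z₀) a) b ≤ R := sup_le hH₂R (Subgroup.zpowers_le.2 hbR)
  have hH₃ : adj (adj (Subgroup.zpowers z₀) a) b = R :=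
    H.chain_top cZ le_sup_left le_sup_left hH₃R hZa haZ hb3 hbn
  have hcomm : a * b ≠ b * a := by
    intro hab
    have hle : adj (adj (Subgroup.zpowers z₀) a) b ≤ Subgroup.centralizer {a} := by
      refine sup_le (sup_le ?_ ?_) ?_
      · rw [Subgroup.zpowers_le, Subgroup.mem_centralizer_iff]
        intro x hx; rw [Set.mem_singleton_iff] at hx; rw [hx]
        exact (H.zcent a).symm
      · rw [Subgroup.zpowers_le, Subgroup.mem_centralizer_iff]
        intro x hx; rw [Set.mem_singleton_iff] at hx; rw [hx]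
      · rw [Subgroup.zpowers_le, Subgroup.mem_centralizer_iff]
        intro x hx; rw [Set.mem_singleton_iff] at hx; rw [hx]
        exact hab
    rw [hH₃] at hle
    have h3 : ∀ r' ∈ R, a * r' = r' * a := fun r' hr' =>
      Subgroup.mem_centralizer_iff.mp (hle hr') a (Set.mem_singleton a)
    exact haZ (H.Z_mem_of (H.cen a ha h3))
  refine ⟨a * b * a⁻¹ * b⁻¹, ?_, ?_⟩
  · have hz := H.comm a ha b hbR
    have hz1 : a * b * a⁻¹ * b⁻¹ ≠ 1 := by
      intro h
      apply hcomm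
      calc a * b = (a * b * a⁻¹ * b⁻¹) * (b * a) := by group
        _ = b * a := by rw [h, one_mul]
    refine ⟨H.exp a ha, H.exp b hbR, H.exp _ ?_, hz1, ?_, by group⟩
    · exact mul_mem (mul_mem (mul_mem ha hbR) (inv_mem ha)) (inv_mem hbR)
    · exact H.Z_cen (H.Z_mem_of hz)
  · rcases H.comm a ha b hbR with h | h | h
    · exfalso
      apply hcomm
      calc a * b = (a * b * a⁻¹ * b⁻¹) * (b * a) := by group
        _ = b * a := by rw [h, one_mul]
    · exact Or.inl h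
    · exact Or.inr h

lemma inv_part {m r : X} (hmm : m * m = 1) (hr : r ∈ R) (hc : m * r ≠ r * m) :
    r⁻¹ * (m * r * m⁻¹) ∈ R ∧ r⁻¹ * (m * r * m⁻¹) ≠ 1 ∧
      m * (r⁻¹ * (m * r * m⁻¹)) * m⁻¹ = (r⁻¹ * (m * r * m⁻¹))⁻¹ := by
  have e : m⁻¹ = m := inv_eq_of_mul_eq_one_left hmm
  refine ⟨mul_mem (inv_mem hr) (H.conj_mem m hr), ?_, ?_⟩
  · intro h
    apply hc
    have : m * r * m⁻¹ = r := by
      have h2 : r * (r⁻¹ * (m * r * m⁻¹)) = r := by rw [h, mul_one]
      simpa using h2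
    calc m * r = m * r * m⁻¹ * m := by group
      _ = r * m := by rw [this]
  · rw [e]
    apply eq_inv_of_mul_eq_one_left
    calc (m * (r⁻¹ * (m * r * m)) * m) * (r⁻¹ * (m * r * m))
        = m * r⁻¹ * m * r * (m * m) * r⁻¹ * m * r * m := by group
      _ = m * r⁻¹ * m * r * 1 * r⁻¹ * m * r * m := by rw [hmm]
      _ = m * r⁻¹ * (m * m) * r * m := by group
      _ = m * r⁻¹ * 1 * r * m := by rw [hmm]
      _ = m * m := by group
      _ = 1 := hmm

end XC

namespace XP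
variable {π : X →* SL3} {P : Subgroup X} {i m s : X} (K : XP π P i m s)
include K

lemma eqP {x y : X} (hx : x ∈ P) (hy : y ∈ P) (h : π x = π y) : x = y := by
  have := K.inj (x * y⁻¹) (mul_mem hx (inv_mem hy)) (by simp [h])
  exact mul_inv_eq_one.1 this

lemma mP : m ∈ P := by rw [← K.ii]; exact mul_mem K.iP K.iP

lemma πm : π m = mm3 := by
  rw [← K.ii, map_mul, K.πi]; exact D4a.1

lemma mm : m * m = 1 := by
  apply K.inj _ (mul_mem K.mP K.mP)
  rw [map_mul, K.πm]; exact D4a.2.2.1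

lemma minv : m⁻¹ = m := inv_eq_of_mul_eq_one_left K.mm

lemma sm : s * m = m * s := by
  have h := K.eqP (K.sN m K.mP) K.mP (by
    rw [map_mul, map_mul, map_inv, K.πm, K.πs, D11]; group)
  calc s * m = s * m * s⁻¹ * s := by group
    _ = m * s := by rw [h]

lemma mi : m * i = i * m := by rw [← K.ii]; group

lemma j_mem : s * i * s⁻¹ ∈ P := K.sN i K.iP

lemma πj : π (s * i * s⁻¹) = w3 * i3 * w3⁻¹ := by
  rw [map_mul, map_mul, map_inv, K.πi, K.πs]

lemma hji : (s * i * s⁻¹) * i = (i * m) * (s * i * s⁻¹) := by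
  apply K.eqP (mul_mem K.j_mem K.iP) (mul_mem (mul_mem K.iP K.mP) K.j_mem)
  have e1 : π ((s * i * s⁻¹) * i) = π (s * i * s⁻¹) * π i := map_mul _ _ _
  have e2 : π ((i * m) * (s * i * s⁻¹)) = (π i * π m) * π (s * i * s⁻¹) := by
    rw [map_mul, map_mul]
  rw [e1, e2, K.πj, K.πi, K.πm]
  exact D8

lemma hsj : s * (s * i * s⁻¹) = (i * (s * i * s⁻¹)) * s := by
  have h := K.eqP (K.sN _ K.j_mem) (mul_mem K.iP K.j_mem) (by
    have e1 : π (s * (s * i * s⁻¹) * s⁻¹) = π s * π (s * i * s⁻¹) * (π s)⁻¹ := by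
      rw [map_mul, map_mul, map_inv]
    have e2 : π (i * (s * i * s⁻¹)) = π i * π (s * i * s⁻¹) := map_mul _ _ _
    rw [e1, e2, K.πj, K.πi, K.πs]
    have := D9
    calc w3 * (w3 * i3 * w3⁻¹) * w3⁻¹ = (w3 * (w3 * i3 * w3⁻¹)) * w3⁻¹ := by group
      _ = ((i3 * (w3 * i3 * w3⁻¹)) * w3) * w3⁻¹ := by rw [this]
      _ = i3 * (w3 * i3 * w3⁻¹) := by group)
  calc s * (s * i * s⁻¹) = s * (s * i * s⁻¹) * s⁻¹ * s := by group
    _ = _ := by rw [h]

end XP

end XS

end Cfsg.Agent.H06.U4
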