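import Mathlib
import Cfsg.Agent.Lib.H06.U4d

set_option autoImplicit false

namespace Cfsg.Agent.H06.U4

open Cfsg.Agent.H06.U3

section XS
variable {X : Type*} [Group X]

lemma m_conj {a b z m : X} (C : Cd a b z) (ha : m * a * m⁻¹ = a⁻¹) (hb : m * b * m⁻¹ = b⁻¹)
    (p q r : ℤ) : m * Wd a b z p q r * m⁻¹ = Wd a b z (-p) (-q) r := by
  rw [W_conjg m ha hb (conj_of_comm (C.zc m)) p q r, inv_zpow', inv_zpow']
  rfl

/-- the final configuration -/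
structure XF (R : Subgroup X) (m i s a b z : X) : Prop where
  C : Cd a b z
  aR : a ∈ R
  bR : b ∈ R
  zR : z ∈ R
  ib : i * a * i⁻¹ = b
  ma : m * a * m⁻¹ = a⁻¹
  sa : s * a = a * s
  sb : s * b * s⁻¹ = Wd a b z 1 1 1

namespace XC
variable [Finite X] {R : Subgroup X} {π : X →* SL3} {z₀ : X} (H : XC R π z₀)
  {P : Subgroup X} {i m s : X} (K : XP π P i m s)
include H K

lemma exists_d : ∃ d ∈ R, d ≠ 1 ∧ m * d * m⁻¹ = d⁻¹ := by
  have hmR : m ∉ R := fun h => D4a.2.1 (by rw [← K.πm]; exact (H.ker m).2 h)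
  have h1 : ¬ ∀ r ∈ R, m * r = r * m := fun h => hmR (H.cR m h)
  push Not at h1
  obtain ⟨r, hr, hne⟩ := h1
  obtain ⟨h2, h3, h4⟩ := H.inv_part K.mm hr hne
  exact ⟨_, h2, h3, h4⟩

lemma hmb_of {a : X} (hm : m * a * m⁻¹ = a⁻¹) : m * (i * a * i⁻¹) * m⁻¹ = (i * a * i⁻¹)⁻¹ := by
  calc m * (i * a * i⁻¹) * m⁻¹ = (m * i) * a * (m * i)⁻¹ := by group
    _ = (i * m) * a * (i * m)⁻¹ := by rw [K.mi]
    _ = i * (m * a * m⁻¹) * i⁻¹ := by group
    _ = i * a⁻¹ * i⁻¹ := by rw [hm]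
    _ = _ := by group

lemma zR_of {z : X} (hz : z = z₀ ∨ z = z₀ * z₀) : z ∈ R := by
  rcases hz with rfl | rfl
  · exact H.z_mem
  · exact mul_mem H.z_mem H.z_mem

lemma CRm {r : X} (hr : r ∈ R) (hc : m * r = r * m) : ∀ x, r * x = x * r := by
  obtain ⟨d, hd, hne, hdm⟩ := H.exists_d K
  obtain ⟨z, C, hz⟩ := H.gen K hd hne hdm
  obtain ⟨p, q, t, rfl⟩ := C.surjR H.card hd (H.conj_mem i hd) (H.zR_of K hz) r hr
  have e := m_conj (m := m) C hdm (H.hmb_of K hdm) p q t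
  have h2 : m * Wd d (i * d * i⁻¹) z p q t * m⁻¹ = Wd d (i * d * i⁻¹) z p q t := by
    rw [hc]; group
  rw [h2] at e
  obtain ⟨h3, h4, _⟩ := C.W_inj e
  have hp0 : p ≡ 0 [ZMOD 3] := by simp only [Int.ModEq] at *; omega
  have hq0 : q ≡ 0 [ZMOD 3] := by simp only [Int.ModEq] at *; omega
  rw [C.W_congr hp0 hq0 rfl, W_zk]
  exact C.zk t

lemma s3R : s ^ 3 ∈ R := by
  rw [← H.ker, map_pow, K.πs]; exact D4a.2.2.2.2

lemma s3Z : s ^ 3 ∈ Subgroup.zpowers z₀ := by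
  have h1 := H.s3R K
  have hc : m * s ^ 3 = s ^ 3 * m := by
    have c : Commute s m := K.sm
    exact (c.pow_left 3).symm.eq
  have h2 := H.CRm K h1 hc
  exact H.Z_mem_of (H.cen _ h1 (fun r' _ => h2 r'))

lemma exists_fixed : ∃ r ∈ R, ∃ c : X, (∀ x, c * x = x * c) ∧ s * r * s⁻¹ = r * c ∧ m * r ≠ r * m := by
  haveI := Fact.mk Nat.prime_three
  let Z := Subgroup.zpowers z₀
  haveI hZn : Z.Normal := ⟨fun n hn g => by
    rw [conj_of_comm (H.Z_cen hn g)]; exact hn⟩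
  let q : X →* X ⧸ Z := QuotientGroup.mk' Z
  have hq : ∀ a, q a = 1 ↔ a ∈ Z := fun a => QuotientGroup.eq_one_iff a
  let T := R.map q
  have hs3 : (q s) ^ 3 = 1 := by rw [← map_pow, hq]; exact H.s3Z K
  have hSt : Stab (q s) T := by
    rintro _ ⟨r, hr, rfl⟩
    exact ⟨s * r * s⁻¹, H.conj_mem s hr, by simp⟩
  have hcount := fix_count3 T (q s) hs3 hSt
  have hpT : IsPGroup 3 T := by
    rintro ⟨_, r, hr, rfl⟩
    refine ⟨1, Subtype.ext ?_⟩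
    change (q r) ^ (3 ^ 1) = 1
    rw [pow_one, ← map_pow, H.exp r hr, map_one]
  -- an element of `R` outside `Z`
  have hex : ∃ r ∈ R, r ∉ Z := by
    by_contra hcon
    push Not at hcon
    have h1 : Nat.card R ≤ Nat.card Z := Subgroup.card_le_of_le hcon
    have cZ : Nat.card Z = 3 := by
      rw [Nat.card_zpowers]; exact orderOf_eq_prime H.z3 H.z_ne
    rw [H.card, cZ] at h1
    omega
  obtain ⟨r₀, hr₀, hr₀n⟩ := hex
  have hT1 : Nat.card T ≠ 1 := by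
    intro h
    have h0 : q r₀ ∈ T := ⟨r₀, hr₀, rfl⟩
    have h2 : (⟨q r₀, h0⟩ : T) = 1 := by
      haveI := (Nat.card_eq_one_iff_unique.1 h).1
      exact Subsingleton.elim _ _
    have h3 : q r₀ = 1 := congrArg Subtype.val h2
    exact hr₀n ((hq _).1 h3)
  have hdvd : 3 ∣ Nat.card T := (hpT.card_eq_or_dvd).resolve_left hT1
  have hne : Nat.card ↥(T ⊓ Subgroup.centralizer {q s}) ≠ 1 := by
    intro h
    rw [h] at hcount
    have : Nat.card T % 3 = 1 := hcount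
    omega
  have hex2 : ∃ x ∈ T ⊓ Subgroup.centralizer {q s}, x ≠ 1 := by
    by_contra hcon
    push Not at hcon
    have : T ⊓ Subgroup.centralizer {q s} = ⊥ := (Subgroup.eq_bot_iff_forall _).2 hcon
    rw [this, Subgroup.card_bot] at hne
    exact hne rfl
  obtain ⟨x, ⟨⟨r, hr, rfl⟩, hxc⟩, hx1⟩ := hex2
  have hrc : q s * q r = q r * q s := (Subgroup.mem_centralizer_iff.1 hxc (q s) (Set.mem_singleton _))
  have hcZ : r⁻¹ * (s * r * s⁻¹) ∈ Z := by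
    rw [← hq, map_mul, map_inv, map_mul, map_mul, map_inv, hrc]; group
  refine ⟨r, hr, r⁻¹ * (s * r * s⁻¹), H.Z_cen hcZ, by group, ?_⟩
  intro hmr
  apply hx1
  rw [hq]
  have h2 := H.CRm K hr hmr
  exact H.Z_mem_of (H.cen _ hr (fun r' _ => h2 r'))

lemma exists_a : ∃ a ∈ R, a ≠ 1 ∧ m * a * m⁻¹ = a⁻¹ ∧ s * a = a * s := by
  obtain ⟨r, hr, c, hc, hsr, hne⟩ := H.exists_fixed K
  obtain ⟨h2, h3, h4⟩ := H.inv_part K.mm hr hne
  refine ⟨_, h2, h3, h4, ?_⟩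
  have e1 : s * (r⁻¹ * (m * r * m⁻¹)) * s⁻¹ = (s * r * s⁻¹)⁻¹ * (m * (s * r * s⁻¹) * m⁻¹) := by
    have hm : s⁻¹ * m = m * s⁻¹ := by
      have c : Commute s m := K.sm
      exact c.inv_left.eq
    have hm' : m⁻¹ * s⁻¹ = s⁻¹ * m⁻¹ := by
      have c : Commute s m := K.sm
      exact (c.inv_left.inv_right).symm.eq
    calc s * (r⁻¹ * (m * r * m⁻¹)) * s⁻¹ = s * r⁻¹ * (s⁻¹ * s) * m * r * m⁻¹ * s⁻¹ := by group
      _ = (s * r⁻¹ * s⁻¹) * (s * m) * r * (m⁻¹ * s⁻¹) := by group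
      _ = (s * r⁻¹ * s⁻¹) * (m * s) * r * (s⁻¹ * m⁻¹) := by rw [K.sm, hm']
      _ = _ := by group
  have e2 : (r * c)⁻¹ * (m * (r * c) * m⁻¹) = r⁻¹ * (m * r * m⁻¹) := by
    calc (r * c)⁻¹ * (m * (r * c) * m⁻¹) = c⁻¹ * r⁻¹ * (m * r * (c * m⁻¹)) := by group
      _ = c⁻¹ * r⁻¹ * (m * r * (m⁻¹ * c)) := by rw [hc]
      _ = c⁻¹ * (r⁻¹ * (m * r * m⁻¹) * c) := by group
      _ = c⁻¹ * (c * (r⁻¹ * (m * r * m⁻¹))) := by rw [hc]
      _ = _ := by group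
  rw [hsr, e2] at e1
  calc s * (r⁻¹ * (m * r * m⁻¹)) = s * (r⁻¹ * (m * r * m⁻¹)) * s⁻¹ * s := by group
    _ = _ := by rw [e1]

lemma exists_XF : ∃ a b z, XF R m i s a b z ∧ (z = z₀ ∨ z = z₀ * z₀) := by
  obtain ⟨a, haR, ha1, hma, hsa⟩ := H.exists_a K
  obtain ⟨z, C, hz⟩ := H.gen K haR ha1 hma
  have hzR := H.zR_of K hz
  have hbR := H.conj_mem i haR
  refine ⟨a, i * a * i⁻¹, z, ?_, hz⟩
  refine ⟨C, haR, hbR, hzR, rfl, hma, hsa, ?_⟩
  set b := i * a * i⁻¹ with hb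
  have hmb : m * b * m⁻¹ = b⁻¹ := H.hmb_of K hma
  have hsa' : s * a * s⁻¹ = a := conj_of_comm hsa.symm
  have hsz : s * z * s⁻¹ = z := conj_of_comm (C.zc s)
  have hiz : i * z * i⁻¹ = z := conj_of_comm (C.zc i)
  have hib : i * b * i⁻¹ = a⁻¹ := by
    rw [← hma, hb, ← K.ii]; group
  have huR : s * b * s⁻¹ ∈ R := H.conj_mem s hbR
  obtain ⟨κ, lam, ρ, hu⟩ := C.surjR H.card haR hbR hzR _ huR
  -- `a * u = z * u * a`
  have hau : a * (s * b * s⁻¹) = z * (s * b * s⁻¹) * a := by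
    have h1 := C.ab
    calc a * (s * b * s⁻¹) = (s * a * s⁻¹) * (s * b * s⁻¹) := by rw [hsa']
      _ = s * (a * b) * s⁻¹ := by group
      _ = s * (z * b * a) * s⁻¹ := by rw [h1]
      _ = (s * z * s⁻¹) * (s * b * s⁻¹) * (s * a * s⁻¹) := by group
      _ = _ := by rw [hsz, hsa']
  have hlam : lam ≡ 1 [ZMOD 3] := by
    rw [hu] at hau
    have e1 : a * Wd a b z κ lam ρ = Wd a b z (1 + κ) lam ρ := by
      calc a * Wd a b z κ lam ρ = Wd a b z 1 0 0 * Wd a b z κ lam ρ := by rw [W_a]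
        _ = _ := by rw [C.W_mul]; exact Wd_e (by ring) (by ring) (by ring)
    have e2 : z * Wd a b z κ lam ρ * a = Wd a b z (1 + κ) lam (ρ + 1 - lam) := by
      calc z * Wd a b z κ lam ρ * a = Wd a b z 0 0 1 * Wd a b z κ lam ρ * Wd a b z 1 0 0 := by
            rw [W_z, W_a]
        _ = _ := by rw [C.W_mul, C.W_mul]; exact Wd_e (by ring) (by ring) (by ring)
    rw [e1, e2] at hau
    obtain ⟨_, _, h3⟩ := C.W_inj hau
    simp only [Int.ModEq] at *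
    omega
  have hu1 : s * b * s⁻¹ = Wd a b z κ 1 ρ := by rw [hu]; exact C.W_congr rfl hlam rfl
  -- inversion by `m`
  have hmu : m * (s * b * s⁻¹) * m⁻¹ = (s * b * s⁻¹)⁻¹ := by
    have hm : s⁻¹ * m⁻¹ = m⁻¹ * s⁻¹ := by
      have c : Commute s m := K.sm
      exact (c.inv_left.inv_right).eq
    calc m * (s * b * s⁻¹) * m⁻¹ = (m * s) * b * (s⁻¹ * m⁻¹) := by group
      _ = (s * m) * b * (m⁻¹ * s⁻¹) := by rw [K.sm, hm]
      _ = s * (m * b * m⁻¹) * s⁻¹ := by group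
      _ = s * b⁻¹ * s⁻¹ := by rw [hmb]
      _ = _ := by group
  have hρ : ρ ≡ κ [ZMOD 3] := by
    rw [hu1, m_conj C hma hmb, C.W_inv] at hmu
    obtain ⟨_, _, h3⟩ := C.W_inj hmu
    simp only [Int.ModEq] at *
    omega
  have hu2 : s * b * s⁻¹ = Wd a b z κ 1 κ := by rw [hu1]; exact C.W_congr rfl rfl hρ
  -- the relation `s j s⁻¹ = i j`
  have hsj := K.hsj
  set j := s * i * s⁻¹ with hj
  have hsinv : s⁻¹ * a * s = a := by
    calc s⁻¹ * a * s = s⁻¹ * (a * s) := by group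
      _ = s⁻¹ * (s * a) := by rw [hsa]
      _ = a := by group
  have hja : j * a * j⁻¹ = s * b * s⁻¹ := by
    calc j * a * j⁻¹ = s * i * (s⁻¹ * a * s) * i⁻¹ * s⁻¹ := by rw [hj]; group
      _ = s * i * a * i⁻¹ * s⁻¹ := by rw [hsinv]
      _ = _ := by rw [hb]; group
  have hsj' : s * j * s⁻¹ = i * j := by rw [hsj]; group
  have hsu : s * (s * b * s⁻¹) * s⁻¹ = i * (s * b * s⁻¹) * i⁻¹ := by
    calc s * (s * b * s⁻¹) * s⁻¹ = s * (j * a * j⁻¹) * s⁻¹ := by rw [hja]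
      _ = (s * j * s⁻¹) * (s * a * s⁻¹) * (s * j * s⁻¹)⁻¹ := by group
      _ = (i * j) * a * (i * j)⁻¹ := by rw [hsj', hsa']
      _ = i * (j * a * j⁻¹) * i⁻¹ := by group
      _ = _ := by rw [hja]
  have hκ : κ ≡ 1 [ZMOD 3] := by
    have e1 : s * Wd a b z κ 1 κ * s⁻¹ = Wd a b z (κ + κ) 1 (κ + κ) := by
      rw [W_conjg s hsa' hu2 hsz, zpow_one]
      rw [show a ^ κ = Wd a b z κ 0 0 from (W_ak a b z κ).symm,
        show z ^ κ = Wd a b z 0 0 κ from (W_zk a b z κ).symm, C.W_mul, C.W_mul]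
      exact Wd_e (by ring) (by ring) (by ring)
    have e2 : i * Wd a b z κ 1 κ * i⁻¹ = Wd a b z (-1) κ (κ + κ) := by
      rw [W_conjg i (a' := b) (b' := a⁻¹) rfl hib hiz, zpow_one]
      rw [show b ^ κ = Wd a b z 0 κ 0 from (W_bk a b z κ).symm,
        show a⁻¹ = Wd a b z (-1) 0 0 from (W_ai a b z).symm,
        show z ^ κ = Wd a b z 0 0 κ from (W_zk a b z κ).symm, C.W_mul, C.W_mul]
      exact Wd_e (by ring) (by ring) (by ring)
    rw [hu2, e1, e2] at hsu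
    obtain ⟨_, h2, _⟩ := C.W_inj hsu
    simp only [Int.ModEq] at *
    omega
  rw [hu2]
  exact C.W_congr hκ rfl (hκ)

end XC

end XS

end Cfsg.Agent.H06.U4
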