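import Mathlib
import Cfsg.Agent.Lib.H06.U4e

set_option autoImplicit false

namespace Cfsg.Agent.H06.U4

open Cfsg.Agent.H06.U3

section XS
variable {X : Type*} [Group X]

namespace XC
variable [Finite X] {R : Subgroup X} {π : X →* SL3} {z₀ : X} (H : XC R π z₀)
include H

lemma exists_t {E : Subgroup X} (hcard : Nat.card E = 27) :
    ∃ t ∈ E, t ∈ R ∧ ¬ ∀ x, t * x = x * t := by
  by_contra hcon
  push Not at hcon
  haveI := Fact.mk Nat.prime_three
  let φ : E →* SL3 := π.comp E.subtype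
  have h1 := Subgroup.card_mul_index φ.ker
  rw [Subgroup.index_ker, hcard] at h1
  have hr1 : Nat.card φ.range ∣ 24 := by rw [← D7]; exact Subgroup.card_subgroup_dvd_card _
  have hr2 : Nat.card φ.range ∣ 27 := ⟨Nat.card φ.ker, by rw [← h1, mul_comm]⟩
  have hle : Nat.card φ.range ≤ 3 :=
    Nat.le_of_dvd (by norm_num) (by simpa using Nat.dvd_gcd hr1 hr2)
  have hker : 9 ≤ Nat.card φ.ker := by
    by_contra hlt
    have h8 : Nat.card φ.ker ≤ 8 := by omega
    have := Nat.mul_le_mul h8 hle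
    omega
  have hkR : ∀ t : φ.ker, (t.1.1 : X) ∈ R := fun t => (H.ker _).1 (MonoidHom.mem_ker.1 t.2)
  let f : φ.ker → Subgroup.zpowers z₀ := fun t =>
    ⟨t.1.1, H.Z_mem_of (H.cen _ (hkR t) (fun r' _ => hcon _ t.1.2 (hkR t) r'))⟩
  have hf : Function.Injective f := fun t t' h => by
    have e : ((f t : Subgroup.zpowers z₀) : X) = (f t' : Subgroup.zpowers z₀) :=
      congrArg Subtype.val h
    exact Subtype.ext (Subtype.ext e)
  have h2 := Nat.card_le_card_of_injective f hf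
  have cZ : Nat.card (Subgroup.zpowers z₀) = 3 := by
    rw [Nat.card_zpowers]; exact orderOf_eq_prime H.z3 H.z_ne
  omega

variable {P : Subgroup X} {i m s : X} (K : XP π P i m s) {a b z : X}
include K

lemma s3_of_E (F : XF R m i s a b z) {E : Subgroup X} (hc : ∀ u ∈ E, ∀ v ∈ E, u * v = v * u)
    (he : ∀ u ∈ E, u ^ 3 = 1) (hcard : Nat.card E = 27) {y : X} (hy : y ∈ E) (hπ : π y = w3) :
    s ^ 3 = 1 := by
  have C := F.C
  obtain ⟨t, htE, htR, htn⟩ := H.exists_t hcard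
  obtain ⟨r', hr'⟩ : ∃ r', r' = s⁻¹ * y := ⟨_, rfl⟩
  have hr'R : r' ∈ R := by
    rw [hr']; exact (H.ker _).1 (by rw [map_mul, map_inv, K.πs, hπ, inv_mul_cancel])
  have hy' : y = s * r' := by rw [hr']; group
  obtain ⟨p', q', ρ', er'⟩ := C.surjR H.card F.aR F.bR F.zR r' hr'R
  obtain ⟨p, q, ρ, et⟩ := C.surjR H.card F.aR F.bR F.zR t htR
  have hyt : y * t = t * y := hc y hy t htE
  have h1 : s * (r' * t * r'⁻¹) * s⁻¹ = t := by
    have e : y * t * y⁻¹ = t := conj_of_comm hyt.symm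
    rw [hy'] at e
    calc s * (r' * t * r'⁻¹) * s⁻¹ = (s * r') * t * (s * r')⁻¹ := by group
      _ = t := e
  have h2 : r' * t * r'⁻¹ = Wd a b z p q (ρ - q' * p + q * p') := by
    rw [er', et, C.W_inv, C.W_mul, C.W_mul]
    exact Wd_e (by ring) (by ring) (by ring)
  have hsa' : s * a * s⁻¹ = a := conj_of_comm F.sa.symm
  have hsz : s * z * s⁻¹ = z := conj_of_comm (C.zc s)
  have h3 : ∃ c', s * Wd a b z p q (ρ - q' * p + q * p') * s⁻¹ = Wd a b z (p + q) q c' := by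
    obtain ⟨c, hc'⟩ := C.pow_abz q
    refine ⟨(0 + c - 0 * q) + (ρ - q' * p + q * p') - (0 + q) * 0, ?_⟩
    rw [W_conjg s hsa' F.sb hsz, hc',
      show a ^ p = Wd a b z p 0 0 from (W_ak a b z p).symm,
      show z ^ (ρ - q' * p + q * p') = Wd a b z 0 0 (ρ - q' * p + q * p') from
        (W_zk a b z _).symm, C.W_mul, C.W_mul]
    exact Wd_e (by ring) (by ring) rfl
  have hq0 : q ≡ 0 [ZMOD 3] := by
    obtain ⟨c', h3⟩ := h3
    rw [h2, h3] at h1
    rw [et] at h1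
    obtain ⟨h4, _, _⟩ := C.W_inj h1
    simp only [Int.ModEq] at *
    omega
  have ht' : t = a ^ p * z ^ ρ := by
    rw [et, C.W_congr rfl hq0 rfl]; simp [Wd]
  have hp0 : ¬ p ≡ 0 [ZMOD 3] := by
    intro h
    apply htn
    intro x
    rw [et, C.W_congr h hq0 rfl, W_zk]
    exact C.zk ρ x
  have hpp : p * p ≡ 1 [ZMOD 3] := by
    have h : p % 3 = 1 ∨ p % 3 = 2 := by simp only [Int.ModEq] at hp0; omega
    simp only [Int.ModEq]
    rcases h with h | h <;> simp [Int.mul_emod, h]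
  have ha' : (a ^ p) ^ p = a := by rw [← zpow_mul, zp3 C.a3 hpp, zpow_one]
  have hya : y * a = a * y := by
    have c1 : y * (a ^ p * z ^ ρ) = (a ^ p * z ^ ρ) * y := by rw [← ht']; exact hyt
    have e2 : z ^ ρ * y = y * z ^ ρ := C.zk ρ y
    have e3 : y * a ^ p * z ^ ρ = a ^ p * y * z ^ ρ := by
      calc y * a ^ p * z ^ ρ = y * (a ^ p * z ^ ρ) := by rw [mul_assoc]
        _ = (a ^ p * z ^ ρ) * y := c1
        _ = a ^ p * (z ^ ρ * y) := by rw [mul_assoc]
        _ = a ^ p * (y * z ^ ρ) := by rw [e2]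
        _ = _ := by rw [mul_assoc]
    have c2 : Commute y (a ^ p) := mul_right_cancel e3
    have c3 := c2.zpow_right p
    rw [ha'] at c3
    exact c3
  have hr'a : r' * a = a * r' := by
    apply mul_left_cancel (a := s)
    calc s * (r' * a) = (s * r') * a := by group
      _ = y * a := by rw [← hy']
      _ = a * y := hya
      _ = a * (s * r') := by rw [← hy']
      _ = (a * s) * r' := by group
      _ = (s * a) * r' := by rw [F.sa]
      _ = _ := by group
  have hq'0 : q' ≡ 0 [ZMOD 3] := by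
    have e1 := C.conj_a p' q' ρ'
    rw [← er'] at e1
    have e2 : a * r' * a⁻¹ = r' := conj_of_comm hr'a
    rw [e2] at e1
    have e3 : z ^ q' = z ^ (0 : ℤ) := by
      rw [zpow_zero]
      exact mul_right_cancel (show z ^ q' * r' = 1 * r' by rw [one_mul]; exact e1.symm)
    exact C.zz e3
  have hsr' : Commute s r' := by
    rw [er', C.W_congr rfl hq'0 rfl]
    unfold Wd
    rw [zpow_zero, mul_one]
    have c1 : Commute s a := F.sa
    have c2 : Commute s z := (C.zc s).symm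
    exact (c1.zpow_right p').mul_right (c2.zpow_right ρ')
  have h5 : y ^ 3 = s ^ 3 * r' ^ 3 := by rw [hy']; exact hsr'.mul_pow 3
  rw [he y hy, H.exp r' hr'R, mul_one] at h5
  exact h5.symm

lemma s3_final (F : XF R m i s a b z) {E : Subgroup X} (hc : ∀ u ∈ E, ∀ v ∈ E, u * v = v * u)
    (he : ∀ u ∈ E, u ^ 3 = 1) (hcard : Nat.card E = 27) : s ^ 3 = 1 := by
  have hn : ¬ E ≤ R := by
    intro hle
    have hER : E = R := Subgroup.eq_of_le_of_card_ge hle (by rw [hcard, H.card])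
    have hab : a * b = b * a := hc a (hER ▸ F.aR) b (hER ▸ F.bR)
    apply F.C.zne
    exact mul_right_cancel (show z * (b * a) = 1 * (b * a) by
      rw [one_mul, ← mul_assoc, ← F.C.ab, hab])
  obtain ⟨y, hy, hyn⟩ := SetLike.not_le_iff_exists.1 hn
  have hπ1 : π y ≠ 1 := fun h => hyn ((H.ker y).1 h)
  have hπ3 : (π y) ^ 3 = 1 := by rw [← map_pow, he y hy, map_one]
  obtain ⟨_, _, _, hw1, hw3⟩ := D4a
  obtain ⟨g, hg⟩ := D5 (π y) w3 hπ3 hπ1 hw3 hw1
  obtain ⟨x, rfl⟩ := H.surj g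
  have hm : ∀ u, u ∈ E.map (MulAut.conj x).toMonoidHom → ∃ v ∈ E, x * v * x⁻¹ = u := by
    rintro _ ⟨v, hv, rfl⟩
    exact ⟨v, hv, rfl⟩
  have hc' : ∀ u ∈ E.map (MulAut.conj x).toMonoidHom, ∀ v ∈ E.map (MulAut.conj x).toMonoidHom,
      u * v = v * u := by
    intro u hu v hv
    obtain ⟨u', hu', rfl⟩ := hm u hu
    obtain ⟨v', hv', rfl⟩ := hm v hv
    calc x * u' * x⁻¹ * (x * v' * x⁻¹) = x * (u' * v') * x⁻¹ := by group
      _ = x * (v' * u') * x⁻¹ := by rw [hc u' hu' v' hv']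
      _ = _ := by group
  have he' : ∀ u ∈ E.map (MulAut.conj x).toMonoidHom, u ^ 3 = 1 := by
    intro u hu
    obtain ⟨u', hu', rfl⟩ := hm u hu
    rw [conj_pow, he u' hu']; group
  have hcard' : Nat.card (E.map (MulAut.conj x).toMonoidHom) = 27 := by
    rw [Subgroup.card_map_of_injective (MulAut.conj x).injective, hcard]
  have hy1 : x * y * x⁻¹ ∈ E.map (MulAut.conj x).toMonoidHom := ⟨y, hy, rfl⟩
  have hπy : π (x * y * x⁻¹) = π x * π y * (π x)⁻¹ := by rw [map_mul, map_mul, map_inv]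
  rcases hg with hg | hg
  · exact H.s3_of_E K F hc' he' hcard' hy1 (by rw [hπy, hg])
  · refine H.s3_of_E K F hc' he' hcard' (mul_mem hy1 hy1) ?_
    rw [map_mul, hπy, hg]
    calc w3 * w3 * (w3 * w3) = w3 ^ 3 * w3 := by simp only [pow_succ, pow_zero, one_mul]; group
      _ = w3 := by rw [hw3, one_mul]

lemma rel3 (F : XF R m i s a b z) (h3 : s ^ 3 = 1) : Rel3 s (s * i * s⁻¹) i m a b z := by
  have C := F.C
  have hmm := K.mm
  have h3a : a * a * a = 1 := by rw [← C.a3]; simp only [pow_succ, pow_zero, one_mul]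
  have h3b : b * b * b = 1 := by rw [← C.b3]; simp only [pow_succ, pow_zero, one_mul]
  have haa : a⁻¹ = a * a := inv_eq_of_mul_eq_one_left (by rw [← h3a])
  have hbb : b⁻¹ = b * b := inv_eq_of_mul_eq_one_left (by rw [← h3b])
  have hmb : m * b * m⁻¹ = b⁻¹ := by
    have := H.hmb_of K F.ma
    rwa [F.ib] at this
  have hib' : i * b * i⁻¹ = a⁻¹ := by
    rw [← F.ma, ← F.ib, ← K.ii]; group
  have hia : i * a = b * i := by rw [← F.ib]; group
  have hib : i * b = a⁻¹ * i := by rw [← hib']; group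
  have hA : Wd a b z 1 1 1 = a * b * z := by simp [Wd]
  have hsb : s * b = (a * b * z) * s := by
    rw [← hA, ← F.sb]; group
  have hsa := F.sa
  have hsia : s⁻¹ * a = a * s⁻¹ := by
    have c : Commute s a := hsa
    exact c.inv_left.eq
  have hzs : z * s⁻¹ = s⁻¹ * z := by
    have c : Commute z s := C.zc s
    exact c.inv_right.eq
  have hja : (s * i * s⁻¹) * a = (a * b * z) * (s * i * s⁻¹) := by
    calc (s * i * s⁻¹) * a = s * i * (s⁻¹ * a) := by group
      _ = s * i * (a * s⁻¹) := by rw [hsia]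
      _ = s * (i * a) * s⁻¹ := by group
      _ = s * (b * i) * s⁻¹ := by rw [hia]
      _ = (s * b) * i * s⁻¹ := by group
      _ = ((a * b * z) * s) * i * s⁻¹ := by rw [hsb]
      _ = _ := by group
  have hsib : s⁻¹ * b = (a⁻¹ * b * z⁻¹) * s⁻¹ := by
    have e1 : s * (a⁻¹ * b * z⁻¹) = b * s := by
      have c1 : s * a⁻¹ = a⁻¹ * s := by
        have c : Commute s a := hsa
        exact c.inv_right.eq
      have c2 : s * z⁻¹ = z⁻¹ * s := by
        have c : Commute s z := (C.zc s).symm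
        exact c.inv_right.eq
      calc s * (a⁻¹ * b * z⁻¹) = (s * a⁻¹) * b * z⁻¹ := by group
        _ = a⁻¹ * (s * b) * z⁻¹ := by rw [c1]; group
        _ = a⁻¹ * ((a * b * z) * s) * z⁻¹ := by rw [hsb]
        _ = b * z * (s * z⁻¹) := by group
        _ = b * z * (z⁻¹ * s) := by rw [c2]
        _ = _ := by group
    calc s⁻¹ * b = s⁻¹ * (b * s) * s⁻¹ := by group
      _ = s⁻¹ * (s * (a⁻¹ * b * z⁻¹)) * s⁻¹ := by rw [e1]
      _ = _ := by group
  have hcoef : (a * b * z)⁻¹ * a⁻¹ * z⁻¹ = a * (b * b) * (z * z) := by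
    have e1 : (a * b * z)⁻¹ = Wd a b z (-1) (-1) (-1 - 1 * 1) := by rw [← hA, C.W_inv]
    have e2 : a * (b * b) * (z * z) = Wd a b z 1 2 2 := by
      simp only [Wd, zpow_one]
      rw [show (2 : ℤ) = 1 + 1 by norm_num, zpow_add, zpow_add, zpow_one, zpow_one]
    rw [e1, e2, show a⁻¹ = Wd a b z (-1) 0 0 from (W_ai a b z).symm,
      show z⁻¹ = Wd a b z 0 0 (-1) from by rw [W_zk, zpow_neg, zpow_one], C.W_mul, C.W_mul]
    exact C.W_congr (by decide) (by decide) (by decide)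
  have hjb : (s * i * s⁻¹) * b = (a * (b * b) * (z * z)) * (s * i * s⁻¹) := by
    have c1 : i * a⁻¹ = b⁻¹ * i := by
      calc i * a⁻¹ = (i * a * i⁻¹)⁻¹ * i := by group
        _ = b⁻¹ * i := by rw [F.ib]
    have c2 : z⁻¹ * i = i * z⁻¹ := by
      have c : Commute z i := C.zc i
      exact c.inv_left.eq
    have c3 : s * b⁻¹ = (a * b * z)⁻¹ * s := by
      calc s * b⁻¹ = (s * b * s⁻¹)⁻¹ * s := by group
        _ = (a * b * z)⁻¹ * s := by rw [F.sb, hA]
    have c4 : s * a⁻¹ = a⁻¹ * s := by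
      have c : Commute s a := hsa
      exact c.inv_right.eq
    have c5 : s * z⁻¹ = z⁻¹ * s := by
      have c : Commute s z := (C.zc s).symm
      exact c.inv_right.eq
    calc (s * i * s⁻¹) * b = s * i * (s⁻¹ * b) := by group
      _ = s * i * ((a⁻¹ * b * z⁻¹) * s⁻¹) := by rw [hsib]
      _ = s * (i * a⁻¹) * b * z⁻¹ * s⁻¹ := by group
      _ = s * (b⁻¹ * i) * b * z⁻¹ * s⁻¹ := by rw [c1]
      _ = s * b⁻¹ * (i * b) * z⁻¹ * s⁻¹ := by group
      _ = s * b⁻¹ * (a⁻¹ * i) * z⁻¹ * s⁻¹ := by rw [hib]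
      _ = s * b⁻¹ * a⁻¹ * (i * z⁻¹) * s⁻¹ := by group
      _ = s * b⁻¹ * a⁻¹ * (z⁻¹ * i) * s⁻¹ := by rw [c2]
      _ = (s * b⁻¹) * a⁻¹ * z⁻¹ * i * s⁻¹ := by group
      _ = ((a * b * z)⁻¹ * s) * a⁻¹ * z⁻¹ * i * s⁻¹ := by rw [c3]
      _ = (a * b * z)⁻¹ * (s * a⁻¹) * z⁻¹ * i * s⁻¹ := by group
      _ = (a * b * z)⁻¹ * (a⁻¹ * s) * z⁻¹ * i * s⁻¹ := by rw [c4]
      _ = (a * b * z)⁻¹ * a⁻¹ * (s * z⁻¹) * i * s⁻¹ := by group
      _ = (a * b * z)⁻¹ * a⁻¹ * (z⁻¹ * s) * i * s⁻¹ := by rw [c5]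
      _ = ((a * b * z)⁻¹ * a⁻¹ * z⁻¹) * (s * i * s⁻¹) := by group
      _ = _ := by rw [hcoef]
  have hzz : z * (s * i * s⁻¹) = (s * i * s⁻¹) * z := C.zc _
  exact
    { z3 := C.z3
      a3 := C.a3
      b3 := C.b3
      mm := hmm
      ii := K.ii
      jj := by
        calc (s * i * s⁻¹) * (s * i * s⁻¹) = s * (i * i) * s⁻¹ := by group
          _ = s * m * s⁻¹ := by rw [K.ii]
          _ = m * s * s⁻¹ := by rw [K.sm]
          _ = m := by group
      s3 := h3
      za := C.zc a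
      zb := C.zc b
      zm := C.zc m
      zi := C.zc i
      zj := hzz
      zs := C.zc s
      ab := C.ab
      ma := by
        rw [← haa, ← F.ma]; group
      mb := by
        rw [← hbb, ← hmb]; group
      ia := hia
      ib := by rw [hib, haa]
      ja := hja
      jb := hjb
      ji := K.hji
      sa := hsa
      sb := hsb
      si := by group
      sj := K.hsj }

lemma top (F : XF R m i s a b z) : H7 s (s * i * s⁻¹) i m b a z = ⊤ := by
  have C := F.C
  rw [eq_top_iff]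
  intro x _
  have hs : s ∈ H7 s (s * i * s⁻¹) i m b a z := mem_adj_self _ _
  have hj : s * i * s⁻¹ ∈ H7 s (s * i * s⁻¹) i m b a z := mem_adj_left (mem_adj_self _ _)
  have hi : i ∈ H7 s (s * i * s⁻¹) i m b a z := mem_adj_left (mem_adj_left (mem_adj_self _ _))
  have hb : b ∈ H7 s (s * i * s⁻¹) i m b a z :=
    mem_adj_left (mem_adj_left (mem_adj_left (mem_adj_left (mem_adj_self _ _))))
  have ha : a ∈ H7 s (s * i * s⁻¹) i m b a z :=
    mem_adj_left (mem_adj_left (mem_adj_left (mem_adj_left (mem_adj_left (mem_adj_self _ _)))))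
  have hz : z ∈ H7 s (s * i * s⁻¹) i m b a z :=
    mem_adj_left (mem_adj_left (mem_adj_left (mem_adj_left (mem_adj_left (mem_adj_left
      (mem_adj_self _ _))))))
  have hR : ∀ r ∈ R, r ∈ H7 s (s * i * s⁻¹) i m b a z := by
    intro r hr
    obtain ⟨p, q, ρ, rfl⟩ := C.surjR H.card F.aR F.bR F.zR r hr
    exact mul_mem (mul_mem (zpow_mem ha _) (zpow_mem hb _)) (zpow_mem hz _)
  obtain ⟨α, β, γ, h⟩ := D6 (π x)
  have hy : s ^ (α : ℕ) * i ^ (β : ℕ) * (s * i * s⁻¹) ^ (γ : ℕ) ∈ H7 s (s * i * s⁻¹) i m b a z :=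
    mul_mem (mul_mem (pow_mem hs _) (pow_mem hi _)) (pow_mem hj _)
  have hπ : π (s ^ (α : ℕ) * i ^ (β : ℕ) * (s * i * s⁻¹) ^ (γ : ℕ)) = π x := by
    rw [map_mul, map_mul, map_pow, map_pow, map_pow, K.πj, K.πs, K.πi, h]
  have h2 : (s ^ (α : ℕ) * i ^ (β : ℕ) * (s * i * s⁻¹) ^ (γ : ℕ))⁻¹ * x ∈ R := by
    rw [← H.ker, map_mul, map_inv, hπ, inv_mul_cancel]
  have e : x = (s ^ (α : ℕ) * i ^ (β : ℕ) * (s * i * s⁻¹) ^ (γ : ℕ)) *
      ((s ^ (α : ℕ) * i ^ (β : ℕ) * (s * i * s⁻¹) ^ (γ : ℕ))⁻¹ * x) := by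
    rw [mul_inv_cancel_left]
  rw [e]
  exact mul_mem hy (hR _ h2)

end XC

namespace XC
variable [Finite X] {R : Subgroup X} {π : X →* SL3} {z₀ : X} (H : XC R π z₀)
include H

lemma z_in_normal (N : Subgroup X) (hN : N.Normal) (hne : N ≠ ⊥) : z₀ ∈ N ∧ z₀ * z₀ ∈ N := by
  have hex : ∃ x ∈ N, x ≠ 1 := by
    by_contra hcon
    push Not at hcon
    exact hne ((Subgroup.eq_bot_iff_forall _).2 hcon)
  obtain ⟨x, hx, hx1⟩ := hex
  have step : ∀ x ∈ N, ∀ r : X, x * r * x⁻¹ * r⁻¹ ∈ N := by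
    intro x hx r
    have e : x * r * x⁻¹ * r⁻¹ = x * (r * x⁻¹ * r⁻¹) := by group
    rw [e]
    exact mul_mem hx (hN.conj_mem _ (inv_mem hx) r)
  have h1 : ∃ x ∈ N, x ∈ R ∧ x ≠ 1 := by
    by_cases hxR : x ∈ R
    · exact ⟨x, hx, hxR, hx1⟩
    · have h2 : ¬ ∀ r ∈ R, x * r = r * x := fun h => hxR (H.cR x h)
      push Not at h2
      obtain ⟨r, hr, hne⟩ := h2
      refine ⟨_, step x hx r, ?_, ?_⟩
      · exact mul_mem (H.conj_mem x hr) (inv_mem hr)
      · intro h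
        apply hne
        calc x * r = (x * r * x⁻¹ * r⁻¹) * (r * x) := by group
          _ = r * x := by rw [h, one_mul]
  obtain ⟨x₁, hx₁, hx₁R, hx₁1⟩ := h1
  have h2 : z₀ ∈ N ∨ z₀ * z₀ ∈ N := by
    by_cases hc : ∀ r' ∈ R, x₁ * r' = r' * x₁
    · rcases H.cen x₁ hx₁R hc with h | h | h
      · exact absurd h hx₁1
      · exact Or.inl (h ▸ hx₁)
      · exact Or.inr (h ▸ hx₁)
    · push Not at hc
      obtain ⟨r, hr, hne⟩ := hc
      have h3 := step x₁ hx₁ r
      rcases H.comm x₁ hx₁R r hr with h | h | h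
      · exfalso
        apply hne
        calc x₁ * r = (x₁ * r * x₁⁻¹ * r⁻¹) * (r * x₁) := by group
          _ = r * x₁ := by rw [h, one_mul]
      · exact Or.inl (h ▸ h3)
      · exact Or.inr (h ▸ h3)
  have h3 := H.z3'
  have e : (z₀ * z₀) * (z₀ * z₀) = z₀ := by
    calc (z₀ * z₀) * (z₀ * z₀) = (z₀ * z₀ * z₀) * z₀ := by group
      _ = z₀ := by rw [h3, one_mul]
  rcases h2 with h | h
  · exact ⟨h, mul_mem h h⟩
  · exact ⟨by rw [← e]; exact mul_mem h h, h⟩

lemma cardX : Nat.card X = 648 := by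
  have h1 := Subgroup.card_mul_index π.ker
  rw [Subgroup.index_ker, MonoidHom.range_eq_top.2 H.surj, Subgroup.card_top, D7] at h1
  have h2 : π.ker = R := by
    ext x; rw [MonoidHom.mem_ker, H.ker]
  rw [h2, H.card] at h1
  omega

lemma exists_XP : ∃ (P : Subgroup X) (i m s : X), XP π P i m s := by
  haveI := Fact.mk Nat.prime_two
  obtain ⟨P⟩ : Nonempty (Sylow 2 X) := inferInstance
  have hfact : Nat.factorization 648 2 = 3 := by
    rw [show 648 = 2 ^ 3 * 81 by norm_num, Nat.factorization_mul (by norm_num) (by norm_num),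
      Nat.Prime.factorization_pow Nat.prime_two]
    simp [Nat.factorization_eq_zero_of_not_dvd (show ¬ 2 ∣ 81 by norm_num)]
  have hP8 : Nat.card (P : Subgroup X) = 8 := by
    have := P.card_eq_multiplicity
    rw [H.cardX, hfact] at this
    simpa using this
  have p8 : ∀ p ∈ (P : Subgroup X), p ^ 8 = 1 := by
    intro p hp
    have := pow_card_eq_one' (x := (⟨p, hp⟩ : ↥(P : Subgroup X)))
    rw [hP8] at this
    exact congrArg Subtype.val this
  have hinj : ∀ p ∈ (P : Subgroup X), π p = 1 → p = 1 := by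
    intro p hp h1
    have h3 := H.exp p ((H.ker p).1 h1)
    have h8 := p8 p hp
    calc p = p ^ 3 * p ^ 3 * p ^ 3 * (p ^ 8)⁻¹ := by
          simp only [pow_succ, pow_zero, one_mul]; group
      _ = 1 := by rw [h3, h8]; simp
  have hsurj : ∀ g : SL3, g ^ 8 = 1 → ∃ p ∈ (P : Subgroup X), π p = g := by
    intro g hg
    classical
    let f : ↥(P : Subgroup X) → {g : SL3 // g ^ 8 = 1} := fun p =>
      ⟨π p, by rw [← map_pow, p8 p p.2, map_one]⟩
    have hfi : Function.Injective f := by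
      intro p q hpq
      have e : π (p : X) = π (q : X) := congrArg Subtype.val hpq
      have := hinj ((p : X) * (q : X)⁻¹) (mul_mem p.2 (inv_mem q.2)) (by simp [e])
      exact Subtype.ext (mul_inv_eq_one.1 this)
    have hcard : Nat.card {g : SL3 // g ^ 8 = 1} = 8 := by
      rw [Nat.card_eq_fintype_card, Fintype.card_subtype]; exact D4
    have hb := hfi.bijective_of_nat_card_le (by rw [hcard, hP8])
    obtain ⟨p, hp⟩ := hb.2 ⟨g, hg⟩
    exact ⟨p, p.2, congrArg Subtype.val hp⟩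
  obtain ⟨i, hiP, hπi⟩ := hsurj i3 D10
  have hQ : ∀ g, g ∈ (P : Subgroup X).map π ↔ g ^ 8 = 1 := by
    intro g
    constructor
    · rintro ⟨p, hp, rfl⟩
      rw [← map_pow, p8 p hp, map_one]
    · intro hg
      obtain ⟨p, hp, e⟩ := hsurj g hg
      exact ⟨p, hp, e⟩
  haveI hQn : ((P : Subgroup X).map π).Normal := ⟨fun n hn g => by
    rw [hQ] at hn ⊢
    rw [conj_pow, hn]; group⟩
  haveI hNn : (((P : Subgroup X).map π).comap π).Normal := Subgroup.Normal.comap hQn π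
  have hPN : (P : Subgroup X) ≤ ((P : Subgroup X).map π).comap π :=
    fun p hp => Subgroup.mem_map_of_mem _ hp
  have ht := Sylow.normalizer_sup_eq_top' P hPN
  obtain ⟨x, hx⟩ := H.surj w3
  have hx2 := (Subgroup.mem_top x : x ∈ (⊤ : Subgroup X))
  rw [← ht] at hx2
  rw [Subgroup.mem_sup_of_normal_right] at hx2
  obtain ⟨y, hy, n, hn, rfl⟩ := hx2
  obtain ⟨p, hp, hpn⟩ := hn
  refine ⟨P, i, i * i, y * p, hiP, rfl, hπi, ?_, ?_, hinj⟩
  · rw [map_mul, hpn, ← map_mul]; exact hx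
  · intro p' hp'
    have e : y * p * p' * (y * p)⁻¹ = y * (p * p' * p⁻¹) * y⁻¹ := by group
    rw [e]
    exact (Subgroup.mem_normalizer_iff.1 hy _).1 (mul_mem (mul_mem hp hp') (inv_mem hp))

end XC

/-- Everything about `X` needed to identify it. -/
theorem X_side [Finite X] {R : Subgroup X} {π : X →* SL3} {z₀ : X} (H : XC R π z₀)
    {E : Subgroup X} (hc : ∀ u ∈ E, ∀ v ∈ E, u * v = v * u)
    (he : ∀ u ∈ E, u ^ 3 = 1) (hcard : Nat.card E = 27) :
    ∃ s j i m a b z : X, Rel3 s j i m a b z ∧ H7 s j i m b a z = ⊤ ∧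
      (∀ N : Subgroup X, N.Normal → N ≠ ⊥ → z ∈ N) ∧ (∀ x, z * x = x * z) ∧ z ∈ R ∧
      (∀ x, (∀ r ∈ R, x * r = r * x) → x = 1 ∨ x = z ∨ x = z * z) ∧ Nat.card X = 648 := by
  obtain ⟨P, i, m, s, K⟩ := H.exists_XP
  obtain ⟨a, b, z, F, hz⟩ := H.exists_XF K
  have h3 := H.s3_final K F hc he hcard
  refine ⟨s, s * i * s⁻¹, i, m, a, b, z, H.rel3 K F h3, H.top K F, ?_, F.C.zc, F.zR, ?_, H.cardX⟩
  · intro N hN hne
    obtain ⟨h1, h2⟩ := H.z_in_normal N hN hne
    rcases hz with rfl | rfl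
    · exact h1
    · exact h2
  · intro x hx
    have hxR := H.cR x hx
    have h3z := H.z3'
    rcases H.cen x hxR hx with h | h | h
    · exact Or.inl h
    · rcases hz with rfl | rfl
      · exact Or.inr (Or.inl h)
      · right; right
        rw [h]
        calc z₀ = (z₀ * z₀ * z₀) * z₀ := by rw [h3z, one_mul]
          _ = _ := by group
    · rcases hz with rfl | rfl
      · exact Or.inr (Or.inr h)
      · exact Or.inr (Or.inl h)

end XS

end Cfsg.Agent.H06.U4
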