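import Mathlib
import Cfsg.Prelude.Def_Classical
import Cfsg.Prelude.Def_Transfer
import Cfsg.Prelude.Def_CaseTheorems
import Cfsg.Agent.Lib.H06.U4b
import Cfsg.Agent.Lib.H06.U4f

set_option autoImplicit false

namespace Cfsg.Agent.H06.U4

open scoped commutatorElement

variable {X : Type*} [Group X]

lemma tri {z : X} (h3 : z ^ 3 = 1) {c : X} (hc : c ∈ Subgroup.zpowers z) :
    c = 1 ∨ c = z ∨ c = z * z := by
  obtain ⟨k, rfl⟩ := Subgroup.mem_zpowers_iff.1 hc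
  have h3' : z ^ (3 : ℤ) = 1 := by exact_mod_cast h3
  rw [zpow_eq_zpow_emod k h3']
  have : k % 3 = 0 ∨ k % 3 = 1 ∨ k % 3 = 2 := by omega
  rcases this with h | h | h <;> rw [h]
  · left; simp
  · right; left; simp
  · right; right
    rw [show (2 : ℤ) = 1 + 1 by norm_num, zpow_add, zpow_one]

lemma mk_XC [Finite X] (hR : Cfsg.IsExtraspecial 3 (Cfsg.pCore 3 X))
    (hRcard : Nat.card (Cfsg.pCore 3 X) = 27)
    (hRexp : ∀ r ∈ Cfsg.pCore 3 X, r ^ 3 = 1)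
    (e : X ⧸ Cfsg.pCore 3 X ≃* Matrix.SpecialLinearGroup (Fin 2) (ZMod 3))
    (hO2 : Cfsg.pCore 2 X = ⊥) :
    ∃ z₀ : X, XC (Cfsg.pCore 3 X) (e.toMonoidHom.comp (QuotientGroup.mk' (Cfsg.pCore 3 X))) z₀ := by
  haveI := Fact.mk Nat.prime_three
  obtain ⟨⟨_, _, hcomm⟩, hcenter⟩ := hR
  haveI : Nontrivial (Subgroup.center (Cfsg.pCore 3 X)) := by
    rw [← Finite.one_lt_card_iff_nontrivial, hcenter]; norm_num
  obtain ⟨ζ, hζ⟩ := exists_ne (1 : Subgroup.center (Cfsg.pCore 3 X))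
  have hζ₁ : (ζ.1 : Cfsg.pCore 3 X) ≠ 1 := fun h => hζ (Subtype.ext h)
  have hz₀ : (ζ.1.1 : X) ≠ 1 := fun h => hζ₁ (Subtype.ext h)
  have hζ3 : (ζ.1 : Cfsg.pCore 3 X) ^ 3 = 1 := Subtype.ext (hRexp _ ζ.1.2)
  have hcen : ∀ c : Cfsg.pCore 3 X, c ∈ Subgroup.center (Cfsg.pCore 3 X) →
      (c : X) = 1 ∨ (c : X) = ζ.1.1 ∨ (c : X) = ζ.1.1 * ζ.1.1 := by
    intro c hc
    have h1 : Subgroup.zpowers (ζ.1 : Cfsg.pCore 3 X) ≤ Subgroup.center (Cfsg.pCore 3 X) :=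
      Subgroup.zpowers_le.2 ζ.2
    have h2 : Subgroup.zpowers (ζ.1 : Cfsg.pCore 3 X) = Subgroup.center (Cfsg.pCore 3 X) :=
      Subgroup.eq_of_le_of_card_ge h1 (by
        rw [hcenter, Nat.card_zpowers, orderOf_eq_prime hζ3 hζ₁])
    rw [← h2] at hc
    obtain ⟨k, hk⟩ := Subgroup.mem_zpowers_iff.1 hc
    refine tri (hRexp _ ζ.1.2) (Subgroup.mem_zpowers_iff.2 ⟨k, ?_⟩)
    rw [← hk]; simp
  refine ⟨ζ.1.1, ?_⟩
  exact
    { ker := fun x => by
        change e ((x : X ⧸ Cfsg.pCore 3 X)) = 1 ↔ x ∈ Cfsg.pCore 3 X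
        rw [map_eq_one_iff e e.injective, QuotientGroup.eq_one_iff]
      surj := e.surjective.comp (QuotientGroup.mk'_surjective _)
      card := hRcard
      exp := hRexp
      z_mem := ζ.1.2
      z_ne := hz₀
      z_cR := fun r hr => by
        have := Subgroup.mem_center_iff.1 ζ.2 ⟨r, hr⟩
        exact congrArg Subtype.val this
      cen := fun r hr hc => by
        apply hcen ⟨r, hr⟩
        rw [Subgroup.mem_center_iff]
        intro g
        apply Subtype.ext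
        exact (hc g.1 g.2).symm
      comm := fun r hr r' hr' => by
        have h1 : ⁅(⟨r, hr⟩ : Cfsg.pCore 3 X), (⟨r', hr'⟩ : Cfsg.pCore 3 X)⁆ ∈
            commutator (Cfsg.pCore 3 X) :=
          Subgroup.commutator_mem_commutator (Subgroup.mem_top _) (Subgroup.mem_top _)
        rw [hcomm] at h1
        exact hcen _ h1
      o2 := fun t ht hc => by
        have hn : (Subgroup.zpowers t).Normal := ⟨fun n hn g => by
          have hcn : ∀ x, n * x = x * n := by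
            obtain ⟨k, rfl⟩ := Subgroup.mem_zpowers_iff.1 hn
            intro x
            exact ((show Commute t x from hc x).zpow_left k).eq
          rw [Cfsg.Agent.H06.U3.conj_of_comm (hcn g)]; exact hn⟩
        have hp : IsPGroup 2 (Subgroup.zpowers t) := by
          rintro ⟨g, hg⟩
          obtain ⟨k, rfl⟩ := Subgroup.mem_zpowers_iff.1 hg
          refine ⟨1, Subtype.ext ?_⟩
          change (t ^ k) ^ (2 ^ 1) = 1
          rw [pow_one, pow_two, ← (Commute.refl t).mul_zpow, ht, one_zpow]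
        have hle : Subgroup.zpowers t ≤ Cfsg.pCore 2 X := le_sSup ⟨hn, hp⟩
        rw [hO2] at hle
        exact (Subgroup.mem_bot.1 (hle (Subgroup.mem_zpowers t))) }

variable {F : Type*} [Field F] [Fintype F]

theorem assembly [Finite X] (hF : Fintype.card F = 3) {R : Subgroup X}
    (hRexp : ∀ r ∈ R, r ^ 3 = 1) {s j i m a b z : X} (Re : Rel3 s j i m a b z)
    (hgen : H7 s j i m b a z = ⊤) (hnor : ∀ N : Subgroup X, N.Normal → N ≠ ⊥ → z ∈ N)
    (hzc : ∀ x, z * x = x * z) (hzR : z ∈ R)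
    (hcent : ∀ x, (∀ r ∈ R, x * r = r * x) → x = 1 ∨ x = z ∨ x = z * z)
    (hc : Nat.card X = 648) :
    ∃ (c : Cfsg.PSp 2 F) (S : Sylow 3 (Cfsg.PSp 2 F)), orderOf c = 3 ∧
      c ∈ (S : Subgroup (Cfsg.PSp 2 F)) ∧
      c ∈ Subgroup.centralizer ((S : Subgroup (Cfsg.PSp 2 F)) : Set (Cfsg.PSp 2 F)) ∧
      Nonempty (X ≃* Subgroup.centralizer ({c} : Set (Cfsg.PSp 2 F))) := by
  classical
  haveI := Fact.mk Nat.prime_three
  obtain ⟨h3, _⟩ := F3_facts hF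
  have R' := rel_Sp (F := F) h3
  obtain ⟨ψ, hψz, _⟩ := exists_hom3 Re R' hgen hc
  let ψ' : X →* Cfsg.PSp 2 F := (piS (F := F)).comp ψ
  obtain ⟨c, hcd⟩ : ∃ c : Cfsg.PSp 2 F, c = piS (As (0 : F) 0 (-1)) := ⟨_, rfl⟩
  have hψ'z : ψ' z = c := by
    rw [hcd]
    change piS (ψ z) = _
    rw [hψz]
  have hc1 : c ≠ 1 := by rw [hcd]; exact piS_z_ne hF
  have hinj : Function.Injective ψ' := by
    rw [injective_iff_map_eq_one]
    intro x hx
    by_contra hne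
    have hker : ψ'.ker ≠ ⊥ := by
      intro h
      apply hne
      have : x ∈ ψ'.ker := hx
      rw [h] at this
      exact Subgroup.mem_bot.1 this
    have hz := hnor ψ'.ker inferInstance hker
    rw [MonoidHom.mem_ker, hψ'z] at hz
    exact hc1 hz
  have c3 : c ^ 3 = 1 := by rw [← hψ'z, ← map_pow, Re.z3, map_one]
  have hord : orderOf c = 3 := orderOf_eq_prime c3 hc1
  have himg : ∀ x, ψ' x ∈ Subgroup.centralizer ({c} : Set (Cfsg.PSp 2 F)) := by
    intro x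
    rw [Subgroup.mem_centralizer_iff]
    intro y hy
    rw [Set.mem_singleton_iff] at hy
    rw [hy, ← hψ'z, ← map_mul, ← map_mul, hzc]
  let f : X →* Subgroup.centralizer ({c} : Set (Cfsg.PSp 2 F)) := ψ'.codRestrict _ himg
  have hfinj : Function.Injective f := fun x y h =>
    hinj (congrArg Subtype.val h)
  have hcardC : Nat.card (Subgroup.centralizer ({c} : Set (Cfsg.PSp 2 F))) ≤ Nat.card X := by
    rw [hc, hcd]; exact card_C hF
  have hfb : Function.Bijective f := hfinj.bijective_of_nat_card_le hcardC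
  let iso : X ≃* Subgroup.centralizer ({c} : Set (Cfsg.PSp 2 F)) := MulEquiv.ofBijective f hfb
  have hpR : IsPGroup 3 (R.map ψ') := by
    rintro ⟨_, r, hr, rfl⟩
    refine ⟨1, Subtype.ext ?_⟩
    change (ψ' r) ^ (3 ^ 1) = 1
    rw [pow_one, ← map_pow, hRexp r hr, map_one]
  haveI : Finite (Sylow 3 (Cfsg.PSp 2 F)) := inferInstance
  obtain ⟨S, hS⟩ := hpR.exists_le_sylow
  have hcS : c ∈ (S : Subgroup (Cfsg.PSp 2 F)) := hS ⟨z, hzR, hψ'z⟩
  refine ⟨c, S, hord, hcS, ?_, ⟨iso⟩⟩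
  haveI : Nontrivial (S : Subgroup (Cfsg.PSp 2 F)) :=
    ⟨⟨⟨c, hcS⟩, 1, fun h => hc1 (congrArg Subtype.val h)⟩⟩
  haveI := S.isPGroup'.center_nontrivial
  obtain ⟨y, hy⟩ := exists_ne (1 : Subgroup.center (S : Subgroup (Cfsg.PSp 2 F)))
  have hy1 : (y.1.1 : Cfsg.PSp 2 F) ≠ 1 := fun h => hy (Subtype.ext (Subtype.ext h))
  have hyc : ∀ h ∈ (S : Subgroup (Cfsg.PSp 2 F)), h * y.1.1 = y.1.1 * h := by
    intro h hh
    exact congrArg Subtype.val (Subgroup.mem_center_iff.1 y.2 ⟨h, hh⟩)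
  have hyC : (y.1.1 : Cfsg.PSp 2 F) ∈ Subgroup.centralizer ({c} : Set (Cfsg.PSp 2 F)) := by
    rw [Subgroup.mem_centralizer_iff]
    intro g hg
    rw [Set.mem_singleton_iff] at hg
    rw [hg]
    exact hyc c hcS
  obtain ⟨x, hx⟩ := hfb.2 ⟨y.1.1, hyC⟩
  have hx' : ψ' x = y.1.1 := congrArg Subtype.val hx
  have hxcent : ∀ r ∈ R, x * r = r * x := by
    intro r hr
    apply hinj
    rw [map_mul, map_mul, hx']
    exact (hyc _ (hS ⟨r, hr, rfl⟩)).symm
  have hgoal : ∀ h ∈ ((S : Subgroup (Cfsg.PSp 2 F)) : Set (Cfsg.PSp 2 F)), h * c = c * h := by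
    intro h hh
    rcases hcent x hxcent with rfl | rfl | rfl
    · exact absurd (by rw [← hx', map_one]) hy1
    · rw [hψ'z] at hx'
      rw [hx']; exact hyc h hh
    · have e1 : c * c = y.1.1 := by rw [← hx', map_mul, hψ'z]
      have e2 : c = (c * c) * (c * c) := by
        calc c = c ^ 3 * c := by rw [c3, one_mul]
          _ = _ := by simp only [pow_succ, pow_zero, one_mul]; group
      have c1 : Commute h (c * c) := by rw [e1]; exact hyc h hh
      rw [e2]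
      exact (c1.mul_right c1).eq
  exact Subgroup.mem_centralizer_iff.2 hgoal

theorem main3366 [Finite X] (hR : Cfsg.IsExtraspecial 3 (Cfsg.pCore 3 X))
    (hRcard : Nat.card (Cfsg.pCore 3 X) = 27)
    (hRexp : ∀ r ∈ Cfsg.pCore 3 X, r ^ 3 = 1)
    (e : X ⧸ Cfsg.pCore 3 X ≃* Matrix.SpecialLinearGroup (Fin 2) (ZMod 3))
    (hO2 : Cfsg.pCore 2 X = ⊥)
    (hE : ∃ E : Subgroup X, IsMulCommutative E ∧ (∀ a ∈ E, a ^ 3 = 1) ∧ Nat.card E = 27)
    (hF : Fintype.card F = 3) :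
    ∃ (c : Cfsg.PSp 2 F) (S : Sylow 3 (Cfsg.PSp 2 F)), orderOf c = 3 ∧
      c ∈ (S : Subgroup (Cfsg.PSp 2 F)) ∧
      c ∈ Subgroup.centralizer ((S : Subgroup (Cfsg.PSp 2 F)) : Set (Cfsg.PSp 2 F)) ∧
      Nonempty (X ≃* Subgroup.centralizer ({c} : Set (Cfsg.PSp 2 F))) := by
  obtain ⟨z₀, H⟩ := mk_XC hR hRcard hRexp e hO2
  obtain ⟨E, hEc, hEe, hEcard⟩ := hE
  have hc : ∀ u ∈ E, ∀ v ∈ E, u * v = v * u := fun u hu v hv =>
    congrArg Subtype.val (hEc.is_comm.comm ⟨u, hu⟩ ⟨v, hv⟩)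
  obtain ⟨s, j, i, m, a, b, z, h1, h2, h3, h4, h5, h6, h7⟩ := X_side H hc hEe hEcard
  exact assembly hF hRexp h1 h2 h3 h4 h5 h6 h7

end Cfsg.Agent.H06.U4
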